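import Mathlib
import Cfsg.Prelude.Def_LieTypeDatum
import Cfsg.Agent.Lib.H50.ClassCount

/-!
Similitude groups of bilinear forms given by matrices, similarity of matrices, and the induced isomorphisms of the
projective similitude groups.
-/

set_option autoImplicit false
set_option linter.unusedSectionVars false

namespace H6.GrSim

open Matrix

variable {ι κ : Type} [Fintype ι] [DecidableEq ι] [Fintype κ] [DecidableEq κ] {k : Type*} [Field k]

/-- the similitude group of the bilinear form with matrix `M` -/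
def simG (M : Matrix ι ι k) : Subgroup (GL ι k) where
  carrier := {s | ∃ c : kˣ, (s : Matrix ι ι k)ᵀ * M * (s : Matrix ι ι k) = (c : k) • M}
  one_mem' := ⟨1, by simp⟩
  mul_mem' := by
    rintro a b ⟨c, hc⟩ ⟨d, hd⟩
    refine ⟨c * d, ?_⟩
    calc ((a * b : GL ι k) : Matrix ι ι k)ᵀ * M * ((a * b : GL ι k) : Matrix ι ι k)
        = (b : Matrix ι ι k)ᵀ * ((a : Matrix ι ι k)ᵀ * M * (a : Matrix ι ι k)) * (b : Matrix ι ι k) := by
          rw [Units.val_mul, Matrix.transpose_mul]; simp only [Matrix.mul_assoc]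
      _ = _ := by
          rw [hc, Matrix.mul_smul, Matrix.smul_mul, hd, smul_smul, Units.val_mul]
  inv_mem' := by
    rintro a ⟨c, hc⟩
    refine ⟨c⁻¹, ?_⟩
    have h1 : ((a⁻¹ : GL ι k) : Matrix ι ι k)ᵀ * (a : Matrix ι ι k)ᵀ = 1 := by
      rw [← Matrix.transpose_mul, ← Units.val_mul, mul_inv_cancel, Units.val_one, Matrix.transpose_one]
    have h2 : (a : Matrix ι ι k) * ((a⁻¹ : GL ι k) : Matrix ι ι k) = 1 := by
      rw [← Units.val_mul, mul_inv_cancel, Units.val_one]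
    have h3 : M = (c : k) • (((a⁻¹ : GL ι k) : Matrix ι ι k)ᵀ * M * ((a⁻¹ : GL ι k) : Matrix ι ι k)) := by
      calc M = (((a⁻¹ : GL ι k) : Matrix ι ι k)ᵀ * (a : Matrix ι ι k)ᵀ) * M *
            ((a : Matrix ι ι k) * ((a⁻¹ : GL ι k) : Matrix ι ι k)) := by rw [h1, h2, Matrix.one_mul, Matrix.mul_one]
        _ = ((a⁻¹ : GL ι k) : Matrix ι ι k)ᵀ * ((a : Matrix ι ι k)ᵀ * M * (a : Matrix ι ι k)) *
            ((a⁻¹ : GL ι k) : Matrix ι ι k) := by simp only [Matrix.mul_assoc]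
        _ = _ := by rw [hc, Matrix.mul_smul, Matrix.smul_mul]
    calc _ = ((c⁻¹ : kˣ) : k) • ((c : k) • (((a⁻¹ : GL ι k) : Matrix ι ι k)ᵀ * M * ((a⁻¹ : GL ι k) : Matrix ι ι k))) := by
          rw [smul_smul, ← Units.val_mul, inv_mul_cancel, Units.val_one, one_smul]
      _ = _ := by rw [← h3]

lemma mem_simG {M : Matrix ι ι k} {s : GL ι k} :
    s ∈ simG M ↔ ∃ c : kˣ, (s : Matrix ι ι k)ᵀ * M * (s : Matrix ι ι k) = (c : k) • M := Iff.rfl

lemma simG_smul (M : Matrix ι ι k) (c : kˣ) : simG ((c : k) • M) = simG M := by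
  ext s
  simp only [mem_simG, Matrix.mul_smul, Matrix.smul_mul]
  constructor
  · rintro ⟨d, hd⟩
    refine ⟨d, ?_⟩
    have := congrArg (fun X => ((c⁻¹ : kˣ) : k) • X) hd
    simp only [smul_smul] at this
    rw [← Units.val_mul, inv_mul_cancel, Units.val_one, one_smul] at this
    rw [this, mul_left_comm, ← mul_assoc, ← Units.val_mul, ← Units.val_mul]
    simp
  · rintro ⟨d, hd⟩
    refine ⟨d, ?_⟩
    rw [hd, smul_smul, smul_smul, mul_comm]

/-- similarity of bilinear forms given by matrices -/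
def Sim (M : Matrix ι ι k) (M' : Matrix κ κ k) : Prop :=
  ∃ (P : Matrix ι κ k) (P' : Matrix κ ι k) (c : kˣ), P * P' = 1 ∧ P' * P = 1 ∧ Pᵀ * M * P = (c : k) • M'

lemma sim_refl (M : Matrix ι ι k) : Sim M M := ⟨1, 1, 1, by simp, by simp, by simp⟩

lemma sim_symm {M : Matrix ι ι k} {M' : Matrix κ κ k} (h : Sim M M') : Sim M' M := by
  obtain ⟨P, P', c, h1, h2, h3⟩ := h
  refine ⟨P', P, c⁻¹, h2, h1, ?_⟩
  have h4 : P'ᵀ * Pᵀ = 1 := by rw [← Matrix.transpose_mul, h1, Matrix.transpose_one]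
  have h5 : M = (c : k) • (P'ᵀ * M' * P') := by
    calc M = (P'ᵀ * Pᵀ) * M * (P * P') := by rw [h4, h1, Matrix.one_mul, Matrix.mul_one]
      _ = P'ᵀ * (Pᵀ * M * P) * P' := by simp only [Matrix.mul_assoc]
      _ = _ := by rw [h3, Matrix.mul_smul, Matrix.smul_mul]
  calc P'ᵀ * M' * P' = ((c⁻¹ : kˣ) : k) • ((c : k) • (P'ᵀ * M' * P')) := by
        rw [smul_smul, ← Units.val_mul, inv_mul_cancel, Units.val_one, one_smul]
    _ = _ := by rw [← h5]

lemma sim_trans {μ : Type} [Fintype μ] [DecidableEq μ] {M : Matrix ι ι k} {M' : Matrix κ κ k} {M'' : Matrix μ μ k}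
    (h : Sim M M') (h' : Sim M' M'') : Sim M M'' := by
  obtain ⟨P, P', c, h1, h2, h3⟩ := h
  obtain ⟨R, R', d, h1', h2', h3'⟩ := h'
  refine ⟨P * R, R' * P', c * d, ?_, ?_, ?_⟩
  · calc P * R * (R' * P') = P * (R * R') * P' := by simp only [Matrix.mul_assoc]
      _ = 1 := by rw [h1', Matrix.mul_one, h1]
  · calc R' * P' * (P * R) = R' * (P' * P) * R := by simp only [Matrix.mul_assoc]
      _ = 1 := by rw [h2, Matrix.mul_one, h2']
  · calc (P * R)ᵀ * M * (P * R) = Rᵀ * (Pᵀ * M * P) * R := by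
          rw [Matrix.transpose_mul]; simp only [Matrix.mul_assoc]
      _ = _ := by rw [h3, Matrix.mul_smul, Matrix.smul_mul, h3', smul_smul, Units.val_mul]

lemma sim_smul (M : Matrix ι ι k) (c : kˣ) : Sim M ((c : k) • M) :=
  ⟨1, 1, c⁻¹, by simp, by simp, by
    rw [Matrix.transpose_one, Matrix.one_mul, Matrix.mul_one, smul_smul, ← Units.val_mul, inv_mul_cancel,
      Units.val_one, one_smul]⟩

/-- symmetric/skew type is preserved -/
lemma sim_transpose {M : Matrix ι ι k} {M' : Matrix κ κ k} (h : Sim M M') {l : k} (hM : Mᵀ = l • M) :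
    M'ᵀ = l • M' := by
  obtain ⟨P, P', c, h1, h2, h3⟩ := h
  have h4 := congrArg Matrix.transpose h3
  rw [Matrix.transpose_mul, Matrix.transpose_mul, Matrix.transpose_transpose, hM, Matrix.smul_mul,
    Matrix.mul_smul, Matrix.transpose_smul, ← Matrix.mul_assoc, h3, smul_smul] at h4
  have h5 := congrArg (fun X => ((c⁻¹ : kˣ) : k) • X) h4
  simp only [smul_smul] at h5
  rw [mul_left_comm, ← Units.val_mul, inv_mul_cancel, Units.val_one, mul_one, one_smul] at h5
  exact h5.symm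

lemma det_ne_zero_of_sim {M : Matrix ι ι k} {M' : Matrix κ κ k} (h : Sim M M') (hM : M.det ≠ 0) : M'.det ≠ 0 := by
  obtain ⟨P, P', c, h1, h2, h3⟩ := h
  have hu : IsUnit M := (Matrix.isUnit_iff_isUnit_det _).mpr (isUnit_iff_ne_zero.mpr hM)
  obtain ⟨N, hN⟩ := hu.exists_right_inv
  have h4 : P'ᵀ * Pᵀ = 1 := by rw [← Matrix.transpose_mul, h1, Matrix.transpose_one]
  have h4' : Pᵀ * P'ᵀ = 1 := by rw [← Matrix.transpose_mul, h2, Matrix.transpose_one]
  have h6 : (Pᵀ * M * P) * (P' * N * P'ᵀ) = 1 := by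
    calc (Pᵀ * M * P) * (P' * N * P'ᵀ) = Pᵀ * (M * ((P * P') * N)) * P'ᵀ := by simp only [Matrix.mul_assoc]
      _ = 1 := by rw [h1, Matrix.one_mul, hN, Matrix.mul_one, h4']
  rw [h3] at h6
  have h7 := congrArg Matrix.det h6
  rw [Matrix.det_mul, Matrix.det_smul, Matrix.det_one] at h7
  intro h0
  rw [h0] at h7
  simp at h7

/-- conjugation by an invertible (rectangular index) matrix -/
def conjGL (P : Matrix ι κ k) (P' : Matrix κ ι k) (h1 : P * P' = 1) (h2 : P' * P = 1) : GL ι k ≃* GL κ k :=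
  Units.mapEquiv
    { toFun := fun A => P' * A * P
      invFun := fun B => P * B * P'
      left_inv := fun A => by
        calc P * (P' * A * P) * P' = (P * P') * A * (P * P') := by simp only [Matrix.mul_assoc]
          _ = A := by rw [h1, Matrix.one_mul, Matrix.mul_one]
      right_inv := fun B => by
        calc P' * (P * B * P') * P = (P' * P) * B * (P' * P) := by simp only [Matrix.mul_assoc]
          _ = B := by rw [h2, Matrix.one_mul, Matrix.mul_one]
      map_mul' := fun A B => by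
        calc P' * (A * B) * P = P' * (A * (1 * B)) * P := by rw [Matrix.one_mul]
          _ = P' * (A * ((P * P') * B)) * P := by rw [h1]
          _ = _ := by simp only [Matrix.mul_assoc] }

lemma conjGL_coe (P : Matrix ι κ k) (P' : Matrix κ ι k) (h1 : P * P' = 1) (h2 : P' * P = 1) (A : GL ι k) :
    (conjGL P P' h1 h2 A : Matrix κ κ k) = P' * (A : Matrix ι ι k) * P := rfl

lemma conjGL_mem {P : Matrix ι κ k} {P' : Matrix κ ι k} (h1 : P * P' = 1) (h2 : P' * P = 1)
    {M : Matrix ι ι k} {M' : Matrix κ κ k} {c : kˣ} (h3 : Pᵀ * M * P = (c : k) • M') {s : GL ι k}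
    (hs : s ∈ simG M) : conjGL P P' h1 h2 s ∈ simG M' := by
  obtain ⟨d, hd⟩ := hs
  rw [← simG_smul M' c]
  refine ⟨d, ?_⟩
  have h4 : P'ᵀ * Pᵀ = 1 := by rw [← Matrix.transpose_mul, h1, Matrix.transpose_one]
  rw [conjGL_coe, ← h3]
  calc (P' * (s : Matrix ι ι k) * P)ᵀ * (Pᵀ * M * P) * (P' * (s : Matrix ι ι k) * P)
      = Pᵀ * (s : Matrix ι ι k)ᵀ * (P'ᵀ * Pᵀ) * M * (P * P') * (s : Matrix ι ι k) * P := by
        rw [Matrix.transpose_mul, Matrix.transpose_mul]; simp only [Matrix.mul_assoc]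
    _ = Pᵀ * ((s : Matrix ι ι k)ᵀ * M * (s : Matrix ι ι k)) * P := by
        rw [h4, h1, Matrix.mul_one, Matrix.mul_one]; simp only [Matrix.mul_assoc]
    _ = _ := by rw [hd, Matrix.mul_smul, Matrix.smul_mul]

lemma conjGL_scalars {P : Matrix ι κ k} {P' : Matrix κ ι k} (h1 : P * P' = 1) (h2 : P' * P = 1) {s : GL ι k}
    (hs : s ∈ Cfsg.Geo.scalars ι k) : conjGL P P' h1 h2 s ∈ Cfsg.Geo.scalars κ k := by
  rw [Cfsg.Geo.mem_scalars_iff] at hs ⊢
  obtain ⟨c, hc⟩ := hs
  refine ⟨c, ?_⟩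
  rw [conjGL_coe, hc, Matrix.mul_smul, Matrix.smul_mul, Matrix.mul_one, h2]

lemma conjGL_symm (P : Matrix ι κ k) (P' : Matrix κ ι k) (h1 : P * P' = 1) (h2 : P' * P = 1) (A : GL κ k) :
    conjGL P P' h1 h2 (conjGL P' P h2 h1 A) = A := by
  apply Units.ext
  rw [conjGL_coe, conjGL_coe]
  calc P' * (P * (A : Matrix κ κ k) * P') * P = (P' * P) * (A : Matrix κ κ k) * (P' * P) := by
        simp only [Matrix.mul_assoc]
    _ = A := by rw [h2, Matrix.one_mul, Matrix.mul_one]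

instance scalars_normal (H : Subgroup (GL ι k)) : ((Cfsg.Geo.scalars ι k).subgroupOf H).Normal := by
  have : (Cfsg.Geo.scalars ι k).Normal := by
    constructor
    intro a ha g
    rw [Cfsg.Geo.mem_scalars_iff] at ha ⊢
    obtain ⟨c, hc⟩ := ha
    refine ⟨c, ?_⟩
    rw [Units.val_mul, Units.val_mul, hc, Matrix.mul_smul, Matrix.smul_mul, Matrix.mul_one, ← Units.val_mul,
      mul_inv_cancel, Units.val_one]
  infer_instance

/-- projective similitude groups of similar forms are isomorphic -/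
theorem projQuot_equiv {M : Matrix ι ι k} {M' : Matrix κ κ k} (h : Sim M M') :
    Nonempty (Cfsg.projQuot (simG M) ≃* Cfsg.projQuot (simG M')) := by
  obtain ⟨P, P', c, h1, h2, h3⟩ := id h
  have h3' : P'ᵀ * M' * P' = ((c⁻¹ : kˣ) : k) • M := by
    have h4 : P'ᵀ * Pᵀ = 1 := by rw [← Matrix.transpose_mul, h1, Matrix.transpose_one]
    have h5 : M = (c : k) • (P'ᵀ * M' * P') := by
      calc M = (P'ᵀ * Pᵀ) * M * (P * P') := by rw [h4, h1, Matrix.one_mul, Matrix.mul_one]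
        _ = P'ᵀ * (Pᵀ * M * P) * P' := by simp only [Matrix.mul_assoc]
        _ = _ := by rw [h3, Matrix.mul_smul, Matrix.smul_mul]
    calc P'ᵀ * M' * P' = ((c⁻¹ : kˣ) : k) • ((c : k) • (P'ᵀ * M' * P')) := by
          rw [smul_smul, ← Units.val_mul, inv_mul_cancel, Units.val_one, one_smul]
      _ = _ := by rw [← h5]
  let e : ↥(simG M) ≃* ↥(simG M') :=
    { toFun := fun s => ⟨conjGL P P' h1 h2 s, conjGL_mem h1 h2 h3 s.2⟩
      invFun := fun s => ⟨conjGL P' P h2 h1 s, conjGL_mem h2 h1 h3' s.2⟩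
      left_inv := fun s => Subtype.ext (conjGL_symm P' P h2 h1 s)
      right_inv := fun s => Subtype.ext (conjGL_symm P P' h1 h2 s)
      map_mul' := fun s t => Subtype.ext (map_mul _ _ _) }
  refine ⟨QuotientGroup.congr _ _ e ?_⟩
  ext s
  rw [Subgroup.mem_map, Subgroup.mem_subgroupOf]
  constructor
  · rintro ⟨t, ht, rfl⟩
    exact conjGL_scalars h1 h2 ht
  · intro hs
    refine ⟨e.symm s, ?_, e.apply_symm_apply s⟩
    rw [Subgroup.mem_subgroupOf]
    exact conjGL_scalars h2 h1 hs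

end H6.GrSim
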