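import Mathlib
import Cfsg.Agent.Lib.H6.GrSim
import Cfsg.Agent.Lib.H48.QuadSim
import Cfsg.Agent.Lib.H41.AltForm
import Cfsg.Agent.Lib.H17.OrthMat

/-!
Classification of symmetric and alternating matrices over finite fields up to similarity.
-/

set_option autoImplicit false
set_option linter.unusedSectionVars false

namespace H6.GrForms

open Matrix QuadraticMap H6.GrSim H48.QuadWitt H48.QuadSplit H48.FinFieldSq H48.QuadStd H48.Gram H48.QuadSim

variable {ι κ : Type} [Fintype ι] [DecidableEq ι] [Fintype κ] [DecidableEq κ] {k : Type*} [Field k]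

/-! ### matrices from vectors -/

lemma ext_dot {M N : Matrix ι ι k} (h : ∀ u v : ι → k, u ⬝ᵥ M *ᵥ v = u ⬝ᵥ N *ᵥ v) : M = N := by
  ext i j
  have := h (Pi.single i 1) (Pi.single j 1)
  simpa using this

lemma dot_mul (M : Matrix ι ι k) (A : Matrix ι κ k) (u v : κ → k) :
    u ⬝ᵥ (Aᵀ * M * A) *ᵥ v = (A *ᵥ u) ⬝ᵥ M *ᵥ (A *ᵥ v) := by
  rw [← Matrix.mulVec_mulVec, ← Matrix.mulVec_mulVec, Matrix.dotProduct_mulVec, ← Matrix.mulVec_transpose,
    Matrix.transpose_transpose]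

lemma dot_transpose (M : Matrix ι ι k) (u v : ι → k) : u ⬝ᵥ Mᵀ *ᵥ v = v ⬝ᵥ M *ᵥ u := by
  rw [Matrix.mulVec_transpose, dotProduct_comm, ← Matrix.dotProduct_mulVec]

lemma dot_smul' (c : k) (M : Matrix ι ι k) (u v : ι → k) : u ⬝ᵥ (c • M) *ᵥ v = c * (u ⬝ᵥ M *ᵥ v) := by
  rw [Matrix.smul_mulVec, dotProduct_smul, smul_eq_mul]

/-- similarity (even congruence) from a family of vectors -/
lemma sim_of_family {M : Matrix ι ι k} {M' : Matrix κ κ k} (e : κ → ι → k)
    (h : ∀ i j, e i ⬝ᵥ M *ᵥ e j = M' i j) (hdet : M'.det ≠ 0) (hc : Fintype.card ι = Fintype.card κ) :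
    ∃ (P : Matrix ι κ k) (P' : Matrix κ ι k), P * P' = 1 ∧ P' * P = 1 ∧ Pᵀ * M * P = M' := by
  let P : Matrix ι κ k := Matrix.of fun a i => e i a
  have hP : ∀ i, P *ᵥ (Pi.single i 1) = e i := by
    intro i
    ext a
    simp [P]
  have h1 : Pᵀ * M * P = M' := by
    ext i j
    have := dot_mul M P (Pi.single i 1) (Pi.single j 1)
    rw [hP, hP, h] at this
    simpa using this
  obtain ⟨N, hN⟩ := ((Matrix.isUnit_iff_isUnit_det M').mpr (isUnit_iff_ne_zero.mpr hdet)).exists_left_inv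
  have h2 : (N * Pᵀ * M) * P = 1 := by
    rw [Matrix.mul_assoc N, Matrix.mul_assoc N, h1, hN]
  refine ⟨P, N * Pᵀ * M, ?_, h2, h1⟩
  exact (Matrix.mul_eq_one_comm_of_equiv (Fintype.card_eq.mp hc.symm).some).mp h2

lemma sim_of_congr {M : Matrix ι ι k} {M' : Matrix κ κ k}
    (h : ∃ (P : Matrix ι κ k) (P' : Matrix κ ι k), P * P' = 1 ∧ P' * P = 1 ∧ Pᵀ * M * P = M') : Sim M M' := by
  obtain ⟨P, P', h1, h2, h3⟩ := h
  exact ⟨P, P', 1, h1, h2, by rw [h3, Units.val_one, one_smul]⟩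

/-! ### alternating matrices -/

/-- alternating matrices -/
def IsAlt (M : Matrix ι ι k) : Prop := ∀ v : ι → k, v ⬝ᵥ M *ᵥ v = 0

lemma isAlt_of_skew (h2 : (2 : k) ≠ 0) {M : Matrix ι ι k} (h : Mᵀ = -M) : IsAlt M := by
  intro v
  have h1 := dot_transpose M v v
  rw [h, Matrix.neg_mulVec, dotProduct_neg] at h1
  have : 2 * (v ⬝ᵥ M *ᵥ v) = 0 := by linear_combination -h1
  exact (mul_eq_zero.mp this).resolve_left h2

lemma isAlt_sim {M : Matrix ι ι k} {M' : Matrix κ κ k} (h : Sim M M') (hM : IsAlt M) : IsAlt M' := by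
  obtain ⟨P, P', c, h1, h2, h3⟩ := h
  intro v
  have h4 := dot_mul M P v v
  rw [h3, hM, dot_smul'] at h4
  exact (mul_eq_zero.mp h4).resolve_left c.ne_zero

lemma isAlt_J (m : ℕ) : IsAlt (Matrix.J (Fin m) k) := by
  intro v
  rw [Matrix.J, Matrix.fromBlocks_mulVec]
  simp only [zero_mulVec, zero_add, add_zero, neg_mulVec, one_mulVec]
  rw [dotProduct, Fintype.sum_sum_type]
  simp only [Sum.elim_inl, Sum.elim_inr, Pi.neg_apply, Function.comp_apply]
  rw [← Finset.sum_add_distrib]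
  apply Finset.sum_eq_zero
  intro i _
  ring

lemma transpose_of_alt {M : Matrix ι ι k} (h : IsAlt M) : Mᵀ = -M := by
  apply ext_dot
  intro u v
  rw [dot_transpose, Matrix.neg_mulVec, dotProduct_neg]
  have h1 := h (u + v)
  rw [Matrix.mulVec_add, add_dotProduct, dotProduct_add, dotProduct_add, h, h] at h1
  linear_combination h1

lemma nd_of_det {M : Matrix ι ι k} (hM : M.det ≠ 0) (x : ι → k) (hx : ∀ y : ι → k, x ⬝ᵥ M *ᵥ y = 0) : x = 0 := by
  have h1 : x ᵥ* M = 0 := by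
    ext i
    have := hx (Pi.single i 1)
    rw [Matrix.dotProduct_mulVec] at this
    simpa using this
  exact Matrix.eq_zero_of_vecMul_eq_zero hM h1

/-- **alternating forms** -/
theorem alt_congr {M : Matrix ι ι k} (hM : M.det ≠ 0) (hA : IsAlt M) :
    ∃ m : ℕ, 2 * m = Fintype.card ι ∧ ∃ (P : Matrix ι (Fin m ⊕ Fin m) k) (P' : Matrix (Fin m ⊕ Fin m) ι k),
      P * P' = 1 ∧ P' * P = 1 ∧ Pᵀ * M * P = Matrix.J (Fin m) k := by
  obtain ⟨m, hm, e, he⟩ := H41.AltForm.exists_symplectic (K := k) (Fintype.card ι) (V := ι → k)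
    (Matrix.toLinearMap₂' k M) (fun x => by
      rw [Matrix.toLinearMap₂'_apply']; exact hA x) (fun x hx => nd_of_det hM x fun y => by
      rw [← Matrix.toLinearMap₂'_apply']; exact hx y) (by simp)
  refine ⟨m, hm, sim_of_family e (fun i j => ?_) ?_ ?_⟩
  · rw [← he, Matrix.toLinearMap₂'_apply']
  · exact (Matrix.isUnit_det_J (Fin m) k).ne_zero
  · rw [← hm]; simp [two_mul]

theorem alt_sim {M : Matrix ι ι k} (hM : M.det ≠ 0) (hA : IsAlt M) :
    ∃ m : ℕ, 2 * m = Fintype.card ι ∧ Sim M (Matrix.J (Fin m) k) := by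
  obtain ⟨m, hm, h⟩ := alt_congr hM hA
  exact ⟨m, hm, sim_of_congr h⟩

/-- **symmetric non-alternating forms in characteristic two** -/
theorem sym_sim_one [Finite k] (h2 : (2 : k) = 0) {n : ℕ} (hn : Fintype.card ι = n) {M : Matrix ι ι k}
    (hM : M.det ≠ 0) (hs : Mᵀ = M) (hA : ¬ IsAlt M) : Sim M (1 : Matrix (Fin n) (Fin n) k) := by
  have := charP_two_of_two_eq_zero h2
  obtain ⟨e, he⟩ := H41.AltForm.exists_orthonormal_of_not_alt (K := k) exists_sqrt n (V := ι → k)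
    (Matrix.toLinearMap₂' k M) (fun x y => by
      rw [Matrix.toLinearMap₂'_apply', Matrix.toLinearMap₂'_apply', ← dot_transpose, hs])
      (fun x hx => nd_of_det hM x fun y => by
      rw [← Matrix.toLinearMap₂'_apply']; exact hx y) (by simp [hn]) (fun _ => by
        by_contra h
        push Not at h
        apply hA
        intro v
        rw [← Matrix.toLinearMap₂'_apply']
        exact h v)
  refine sim_of_congr (sim_of_family e (fun i j => ?_) (by simp) (by simp [hn]))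
  rw [Matrix.one_apply, ← he, Matrix.toLinearMap₂'_apply']

/-! ### Gram matrices of quadratic forms -/

/-- the matrix of the polar form -/
def gram (Q : QuadraticForm k (ι → k)) : Matrix ι ι k :=
  Matrix.of fun i j => polar Q (Pi.single i 1) (Pi.single j 1)

lemma polar_eq (Q : QuadraticForm k (ι → k)) (u v : ι → k) : polar Q u v = u ⬝ᵥ gram Q *ᵥ v := by
  have h1 : ∀ u v, polar Q u v = Matrix.toLinearMap₂' k (gram Q) u v := by
    intro u v
    have h : polarBilin Q = Matrix.toLinearMap₂' k (gram Q) := by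
      apply LinearMap.ext_basis (Pi.basisFun k ι) (Pi.basisFun k ι)
      intro i j
      rw [Pi.basisFun_apply, Pi.basisFun_apply, Matrix.toLinearMap₂'_apply']
      simp [gram]
    exact congrArg (fun B : LinearMap.BilinMap k (ι → k) k => B u v) h
  rw [h1, Matrix.toLinearMap₂'_apply']

lemma gram_transpose (Q : QuadraticForm k (ι → k)) : (gram Q)ᵀ = gram Q := by
  ext i j
  exact polar_comm Q _ _

lemma gram_smul (c : k) (Q : QuadraticForm k (ι → k)) : gram (c • Q) = c • gram Q := by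
  ext i j
  simp only [gram, Matrix.of_apply, Matrix.smul_apply, smul_eq_mul]
  simp only [polar, _root_.smul_apply, smul_eq_mul]; ring

lemma det_gram (Q : QuadraticForm k (ι → k)) : (gram Q).det = gdet Q (Pi.basisFun k ι) := by
  rw [gdet, gram]
  simp only [Pi.basisFun_apply]

lemma nd_iff_det (Q : QuadraticForm k (ι → k)) : ND Q ↔ (gram Q).det ≠ 0 := by
  constructor
  · intro h
    rw [det_gram]
    exact gdet_ne_zero h _
  · intro h x hx
    exact nd_of_det h x fun y => by rw [← polar_eq]; exact hx y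

/-- the quadratic form of a symmetric matrix -/
def qf (M : Matrix ι ι k) : QuadraticForm k (ι → k) := M.toQuadraticForm'

lemma qf_apply (M : Matrix ι ι k) (v : ι → k) : qf M v = v ⬝ᵥ M *ᵥ v := by
  change Matrix.toLinearMap₂' k M v v = _
  rw [Matrix.toLinearMap₂'_apply']

lemma gram_qf {M : Matrix ι ι k} (hM : Mᵀ = M) : gram (qf M) = (2 : k) • M := by
  apply ext_dot
  intro u v
  rw [← polar_eq, dot_smul', polar, qf_apply, qf_apply, qf_apply, Matrix.mulVec_add, add_dotProduct,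
    dotProduct_add, dotProduct_add, ← dot_transpose M v u, hM]
  ring

lemma nd_qf (h2 : (2 : k) ≠ 0) {M : Matrix ι ι k} (hM : Mᵀ = M) (hd : M.det ≠ 0) : ND (qf M) := by
  rw [nd_iff_det, gram_qf hM, Matrix.det_smul]
  exact mul_ne_zero (pow_ne_zero _ h2) hd

lemma sim_qf (h2 : (2 : k) ≠ 0) {M : Matrix ι ι k} (hM : Mᵀ = M) : Sim M (gram (qf M)) := by
  rw [gram_qf hM]
  exact sim_smul M (Units.mk0 2 h2)

lemma sim_gram_smul {c : k} (hc : c ≠ 0) (Q : QuadraticForm k (ι → k)) : Sim (gram Q) (gram (c • Q)) := by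
  rw [gram_smul]
  exact sim_smul _ (Units.mk0 c hc)

/-- matrix of a linear equivalence between function spaces -/
lemma exists_matrix (e : (ι → k) ≃ₗ[k] (κ → k)) : ∃ (P : Matrix κ ι k) (P' : Matrix ι κ k),
    P * P' = 1 ∧ P' * P = 1 ∧ ∀ v, P *ᵥ v = e v := by
  refine ⟨LinearMap.toMatrix' (e : (ι → k) →ₗ[k] (κ → k)), LinearMap.toMatrix' (e.symm : (κ → k) →ₗ[k] (ι → k)), ?_, ?_, ?_⟩
  · rw [← LinearMap.toMatrix'_comp]
    simp
  · rw [← LinearMap.toMatrix'_comp]
    simp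
  · intro v
    rw [LinearMap.toMatrix'_mulVec]
    rfl

lemma sim_of_equivalent {Q : QuadraticForm k (ι → k)} {Q' : QuadraticForm k (κ → k)} (h : Q.Equivalent Q') :
    Sim (gram Q) (gram Q') := by
  obtain ⟨e⟩ := h
  obtain ⟨P, P', h1, h2, h3⟩ := exists_matrix e.toLinearEquiv.symm
  refine sim_of_congr ⟨P, P', h1, h2, ?_⟩
  apply ext_dot
  intro u v
  rw [dot_mul, ← polar_eq, ← polar_eq, h3, h3]
  have h4 : ∀ w, Q (e.toLinearEquiv.symm w) = Q' w := by
    intro w
    have := e.map_app (e.toLinearEquiv.symm w)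
    rw [← this]
    congr 1
    exact e.toLinearEquiv.apply_symm_apply w
  rw [polar, polar, ← map_add, h4, h4, h4]

lemma equivalent_of_sim (h2 : (2 : k) ≠ 0) {Q : QuadraticForm k (ι → k)} {Q' : QuadraticForm k (κ → k)}
    (h : Sim (gram Q) (gram Q')) : ∃ c : k, c ≠ 0 ∧ (c • Q').Equivalent Q := by
  obtain ⟨P, P', c, h1, h2', h3⟩ := h
  refine ⟨c, c.ne_zero, ⟨⟨LinearEquiv.ofLinearMap (Matrix.mulVecLin P) (Matrix.mulVecLin P') ?_ ?_, ?_⟩⟩⟩
  · rw [← Matrix.mulVecLin_mul, h1, Matrix.mulVecLin_one]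
  · rw [← Matrix.mulVecLin_mul, h2', Matrix.mulVecLin_one]
  · intro v
    change Q (P *ᵥ v) = c • Q' v
    have h4 := dot_mul (gram Q) P v v
    rw [h3, dot_smul', ← polar_eq, ← polar_eq, polar_self, polar_self] at h4
    rw [← Nat.cast_smul_eq_nsmul k, ← Nat.cast_smul_eq_nsmul k, smul_eq_mul, smul_eq_mul, Nat.cast_ofNat] at h4
    apply mul_left_cancel₀ h2
    rw [← h4]
    change (c : k) * (2 * Q' v) = 2 * ((c : k) * Q' v)
    ring

/-! ### the standard forms -/

section finite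

variable [Finite k]

/-- **odd dimension, odd characteristic** -/
theorem sim_odd (h2 : (2 : k) ≠ 0) {m : ℕ} (hn : Fintype.card ι = 2 * m + 1) {M : Matrix ι ι k} (hM : Mᵀ = M)
    (hd : M.det ≠ 0) : Sim M (gram (qOdd m k 1)) := by
  have hQ := nd_qf h2 hM hd
  have hQ0 := nd_qOdd (F := k) m h2 one_ne_zero
  set a := gdet (qf M) (Pi.basisFun k ι)
  set b := gdet (qOdd m k 1) (Pi.basisFun k _)
  have ha : a ≠ 0 := gdet_ne_zero hQ _
  have hb : b ≠ 0 := gdet_ne_zero hQ0 _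
  have hab : a * b ≠ 0 := mul_ne_zero ha hb
  have h1 : ((a * b) • qf M).Equivalent (qOdd m k 1) := by
    rw [equivalent_iff_gdet h2 (nd_smul hQ hab) hQ0 (by simp [hn]; ring) (Pi.basisFun k ι) (Pi.basisFun k _),
      gdet_smul, hn]
    refine ⟨(a * b) ^ (m + 1), ?_⟩
    change (a * b) ^ (2 * m + 1) * a * b = _
    ring
  exact sim_trans (sim_qf h2 hM) (sim_trans (sim_gram_smul hab _) (sim_of_equivalent h1))

/-- **even dimension, odd characteristic** -/
theorem sim_even (h2 : (2 : k) ≠ 0) {m : ℕ} (hn : Fintype.card ι = 2 * m) {M : Matrix ι ι k} (hM : Mᵀ = M)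
    (hd : M.det ≠ 0) {z : k} (hz : ∀ t : k, t ^ 2 + t + z ≠ 0) :
    Sim M (gram (qPlus m k)) ∨ (1 ≤ m ∧ Sim M (gram (qMinus (m - 1) k 1 z))) := by
  have hQ := nd_qf h2 hM hd
  rcases classify_even m _ (qf M) hQ (by simp [hn]) with h | ⟨hm, z', hz', h⟩
  · exact Or.inl (sim_trans (sim_qf h2 hM) (sim_of_equivalent h))
  · exact Or.inr ⟨hm, sim_trans (sim_qf h2 hM) (sim_of_equivalent (h.trans (qMinus_unique (m - 1) hz hz')))⟩

theorem not_sim (h2 : (2 : k) ≠ 0) (m : ℕ) {z : k} (hz : ∀ t : k, t ^ 2 + t + z ≠ 0) :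
    ¬ Sim (gram (qPlus (m + 1) k)) (gram (qMinus m k 1 z)) := by
  intro h
  obtain ⟨c, hc, h1⟩ := equivalent_of_sim h2 h
  apply not_equivalent m hz
  have hnd : ND (qMinus m k 1 z) := nd_qMinus m (disc_ne_zero' hz)
  exact h1.symm.trans (smul_equivalent (m := m + 1) hnd (by simp; ring) hc)

/-- which of the two classes: the discriminant -/
theorem sim_plus_iff (h2 : (2 : k) ≠ 0) {m : ℕ} (hn : Fintype.card ι = 2 * m) {M : Matrix ι ι k} (hM : Mᵀ = M)
    (hd : M.det ≠ 0) : Sim M (gram (qPlus m k)) ↔ IsSquare ((-1) ^ m * M.det) := by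
  have hQ := nd_qf h2 hM hd
  have hdet : (gram (qf M)).det = (2 ^ m) ^ 2 * M.det := by
    rw [gram_qf hM, Matrix.det_smul, hn]; ring
  have key : (qf M).Equivalent (qPlus m k) ↔ IsSquare ((-1) ^ m * M.det) := by
    obtain ⟨d, hd0, e⟩ := gdet_qPlus (F := k) m (Pi.basisFun k (Fin m ⊕ Fin m))
    rw [equivalent_iff_gdet h2 hQ (nd_qPlus m) (by simp [hn]; ring) (Pi.basisFun k ι) (Pi.basisFun k _), e,
      ← det_gram, hdet]
    rw [← isSquare_sq_mul_iff (x := (-1) ^ m * M.det) (mul_ne_zero (pow_ne_zero m h2) hd0)]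
    ring_nf
  constructor
  · intro h
    obtain ⟨c, hc, h1⟩ := equivalent_of_sim h2 (sim_trans (sim_symm (sim_qf h2 hM)) h)
    exact key.mp (h1.symm.trans (smul_qPlus m hc))
  · intro h
    exact sim_trans (sim_qf h2 hM) (sim_of_equivalent (key.mpr h))

/-! ### multipliers and determinants -/

/-- all multipliers occur for symmetric forms in even dimension -/
theorem exists_multiplier (h2 : (2 : k) ≠ 0) {m : ℕ} (hn : Fintype.card ι = 2 * m) {M : Matrix ι ι k} (hM : Mᵀ = M)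
    (hd : M.det ≠ 0) (c : kˣ) : ∃ s : GL ι k, (s : Matrix ι ι k)ᵀ * M * (s : Matrix ι ι k) = (c : k) • M := by
  have hQ := nd_qf h2 hM hd
  obtain ⟨e⟩ := smul_equivalent (m := m) hQ (by simp [hn]) c.ne_zero
  obtain ⟨P, P', h1, h2', h3⟩ := exists_matrix e.toLinearEquiv
  refine ⟨⟨P, P', h1, h2'⟩, ?_⟩
  change Pᵀ * M * P = (c : k) • M
  have h4 : Pᵀ * gram (qf M) * P = (c : k) • gram (qf M) := by
    apply ext_dot
    intro u v
    rw [dot_mul, dot_smul', ← polar_eq, ← polar_eq, h3, h3]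
    have h5 : ∀ w, qf M (e.toLinearEquiv w) = c * qf M w := fun w => e.map_app w
    rw [polar, polar, ← map_add, h5, h5, h5]
    ring
  rw [gram_qf hM, Matrix.mul_smul, Matrix.smul_mul, smul_comm] at h4
  have := congrArg (fun X => (2 : k)⁻¹ • X) h4
  simpa [smul_smul, h2] using this

/-- reflections: isometries of determinant `-1` -/
theorem exists_reflection (h2 : (2 : k) ≠ 0) [Nonempty ι] {M : Matrix ι ι k} (hM : Mᵀ = M)
    (hd : M.det ≠ 0) : ∃ s : GL ι k, (s : Matrix ι ι k)ᵀ * M * (s : Matrix ι ι k) = M ∧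
      (s : Matrix ι ι k).det = -1 := by
  have hQ := nd_qf h2 hM hd
  obtain ⟨v, hv⟩ : ∃ v, qf M v ≠ 0 := by
    by_contra h
    push Not at h
    obtain ⟨i⟩ := ‹Nonempty ι›
    have := hQ (Pi.single i 1) (fun y => by rw [polar, h, h, h]; simp)
    exact (one_ne_zero : (1 : k) ≠ 0) (by simpa using congrFun this i)
  have hdet := H17.OrthMat.reflection_det (qf M) v hv
  refine ⟨Matrix.GeneralLinearGroup.mkOfDetNeZero (Cfsg.reflectionMatrix (⇑(qf M)) v)
    (by rw [hdet]; exact neg_ne_zero.mpr one_ne_zero), ?_, hdet⟩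
  change (Cfsg.reflectionMatrix (⇑(qf M)) v)ᵀ * M * Cfsg.reflectionMatrix (⇑(qf M)) v = M
  have h4 : (Cfsg.reflectionMatrix (⇑(qf M)) v)ᵀ * gram (qf M) * Cfsg.reflectionMatrix (⇑(qf M)) v =
      gram (qf M) := by
    apply ext_dot
    intro u w
    rw [dot_mul, ← polar_eq, ← polar_eq, polar, polar, ← Matrix.mulVec_add,
      H17.OrthMat.reflection_isometry _ _ _ hv, H17.OrthMat.reflection_isometry _ _ _ hv,
      H17.OrthMat.reflection_isometry _ _ _ hv]
  rw [gram_qf hM, Matrix.mul_smul, Matrix.smul_mul] at h4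
  have := congrArg (fun X => (2 : k)⁻¹ • X) h4
  simpa [smul_smul, h2] using this

end finite

/-- symplectic similitudes with any multiplier -/
theorem exists_multiplier_J (m : ℕ) (c : kˣ) : ∃ s : GL (Fin m ⊕ Fin m) k,
    (s : Matrix (Fin m ⊕ Fin m) (Fin m ⊕ Fin m) k)ᵀ * Matrix.J (Fin m) k * (s : Matrix (Fin m ⊕ Fin m) (Fin m ⊕ Fin m) k) =
      (c : k) • Matrix.J (Fin m) k := by
  refine ⟨⟨Matrix.fromBlocks ((c : k) • 1) 0 0 1, Matrix.fromBlocks (((c⁻¹ : kˣ) : k) • 1) 0 0 1, ?_, ?_⟩, ?_⟩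
  · rw [Matrix.fromBlocks_multiply]
    simp [← Matrix.fromBlocks_one]
  · rw [Matrix.fromBlocks_multiply]
    simp [← Matrix.fromBlocks_one]
  · change (Matrix.fromBlocks ((c : k) • 1) 0 0 1)ᵀ * _ * Matrix.fromBlocks ((c : k) • 1) 0 0 1 = _
    rw [Matrix.J, Matrix.fromBlocks_transpose, Matrix.fromBlocks_multiply, Matrix.fromBlocks_multiply,
      Matrix.fromBlocks_smul]
    simp

end H6.GrForms
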