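import Mathlib
import Cfsg.Agent.Lib.H6.GrForms
import Cfsg.Agent.Lib.H6.SympCard
import Cfsg.Agent.Lib.H7.OddCharTwo
import Cfsg.Agent.Lib.H7.MinusOrd
import Cfsg.Agent.Lib.H7.HypOrd

/-!
Identification of the projective similitude groups with `PGSp`, `PGO`, and in characteristic two with `Sp` and centralizers
of transvections.
-/

set_option autoImplicit false
set_option linter.unusedSectionVars false

namespace H6.GrProj

open Matrix QuadraticMap H6.GrSim H6.GrForms H48.QuadSplit H48.FinFieldSq H48.QuadStd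

variable {ι κ : Type} [Fintype ι] [DecidableEq ι] [Fintype κ] [DecidableEq κ] {k : Type*} [Field k]

lemma similarityGroup_eq (M : Matrix ι ι k) :
    Cfsg.Geo.similarityGroup (fun u v : ι → k => u ⬝ᵥ M *ᵥ v) = simG M := by
  ext s
  rw [mem_simG]
  constructor
  · rintro ⟨c, hc⟩
    refine ⟨c, ext_dot fun u v => ?_⟩
    rw [dot_mul, dot_smul']
    exact hc u v
  · rintro ⟨c, hc⟩
    refine ⟨c, fun u v => ?_⟩
    change ((s : Matrix ι ι k) *ᵥ u) ⬝ᵥ M *ᵥ ((s : Matrix ι ι k) *ᵥ v) = (c : k) * (u ⬝ᵥ M *ᵥ v)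
    rw [← dot_mul, hc, dot_smul']

lemma GSp_eq (m : ℕ) : Cfsg.GSp m k = simG (Matrix.J (Fin m) k) := similarityGroup_eq _

lemma quadSim_eq (h2 : (2 : k) ≠ 0) (Q : QuadraticForm k (ι → k)) :
    Cfsg.Geo.quadSimilarityGroup (⇑Q) = simG (gram Q) := by
  ext s
  rw [mem_simG]
  constructor
  · rintro ⟨c, hc⟩
    refine ⟨c, ext_dot fun u v => ?_⟩
    rw [dot_mul, dot_smul', ← polar_eq, ← polar_eq, polar, polar, ← Matrix.mulVec_add, hc, hc, hc]
    ring
  · rintro ⟨c, hc⟩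
    refine ⟨c, fun v => ?_⟩
    have h4 := dot_mul (gram Q) (s : Matrix ι ι k) v v
    rw [hc, dot_smul', ← polar_eq, ← polar_eq, polar_self, polar_self] at h4
    rw [← Nat.cast_smul_eq_nsmul k, ← Nat.cast_smul_eq_nsmul k, smul_eq_mul, smul_eq_mul, Nat.cast_ofNat] at h4
    apply mul_left_cancel₀ h2
    rw [← h4]
    ring

/-! ### isometry groups -/

/-- isometries of the bilinear form with matrix `M` -/
def isoG (M : Matrix ι ι k) : Subgroup (GL ι k) where
  carrier := {s | (s : Matrix ι ι k)ᵀ * M * (s : Matrix ι ι k) = M}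
  one_mem' := by simp
  mul_mem' := by
    intro a b ha hb
    change ((a * b : GL ι k) : Matrix ι ι k)ᵀ * M * ((a * b : GL ι k) : Matrix ι ι k) = M
    calc ((a * b : GL ι k) : Matrix ι ι k)ᵀ * M * ((a * b : GL ι k) : Matrix ι ι k)
        = (b : Matrix ι ι k)ᵀ * ((a : Matrix ι ι k)ᵀ * M * (a : Matrix ι ι k)) * (b : Matrix ι ι k) := by
          rw [Units.val_mul, Matrix.transpose_mul]; simp only [Matrix.mul_assoc]
      _ = _ := by
          rw [show (a : Matrix ι ι k)ᵀ * M * (a : Matrix ι ι k) = M from ha]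
          exact hb
  inv_mem' := by
    intro a ha
    change ((a⁻¹ : GL ι k) : Matrix ι ι k)ᵀ * M * ((a⁻¹ : GL ι k) : Matrix ι ι k) = M
    have h1 : ((a⁻¹ : GL ι k) : Matrix ι ι k)ᵀ * (a : Matrix ι ι k)ᵀ = 1 := by
      rw [← Matrix.transpose_mul, ← Units.val_mul, mul_inv_cancel, Units.val_one, Matrix.transpose_one]
    have h2 : (a : Matrix ι ι k) * ((a⁻¹ : GL ι k) : Matrix ι ι k) = 1 := by
      rw [← Units.val_mul, mul_inv_cancel, Units.val_one]
    calc ((a⁻¹ : GL ι k) : Matrix ι ι k)ᵀ * M * ((a⁻¹ : GL ι k) : Matrix ι ι k)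
        = ((a⁻¹ : GL ι k) : Matrix ι ι k)ᵀ * ((a : Matrix ι ι k)ᵀ * M * (a : Matrix ι ι k)) *
            ((a⁻¹ : GL ι k) : Matrix ι ι k) := by
          rw [show (a : Matrix ι ι k)ᵀ * M * (a : Matrix ι ι k) = M from ha]
      _ = (((a⁻¹ : GL ι k) : Matrix ι ι k)ᵀ * (a : Matrix ι ι k)ᵀ) * M *
            ((a : Matrix ι ι k) * ((a⁻¹ : GL ι k) : Matrix ι ι k)) := by simp only [Matrix.mul_assoc]
      _ = M := by rw [h1, h2, Matrix.one_mul, Matrix.mul_one]

lemma mem_isoG {M : Matrix ι ι k} {s : GL ι k} :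
    s ∈ isoG M ↔ (s : Matrix ι ι k)ᵀ * M * (s : Matrix ι ι k) = M := Iff.rfl

lemma isoG_le (M : Matrix ι ι k) : isoG M ≤ simG M := fun s hs => ⟨1, by rw [Units.val_one, one_smul]; exact hs⟩

lemma sq_eq_one (h2 : (2 : k) = 0) {c : k} (h : c ^ 2 = 1) : c = 1 := by
  have : (c - 1) ^ 2 = 0 := by linear_combination h - (c - 1) * h2
  have := pow_eq_zero_iff (two_ne_zero) |>.mp this
  exact sub_eq_zero.mp this

/-- scalar multiples as elements of `GL` -/
def scal (c : kˣ) : GL ι k := Units.map (Matrix.scalar ι : k →+* Matrix ι ι k).toMonoidHom c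

lemma scal_coe (c : kˣ) : ((scal c : GL ι k) : Matrix ι ι k) = (c : k) • (1 : Matrix ι ι k) := by
  simp [scal, Matrix.smul_one_eq_diagonal]

lemma scal_mem (c : kˣ) : (scal c : GL ι k) ∈ Cfsg.Geo.scalars ι k := ⟨c, rfl⟩

lemma scal_mul_coe (c : kˣ) (s : GL ι k) : ((scal c * s : GL ι k) : Matrix ι ι k) = (c : k) • (s : Matrix ι ι k) := by
  rw [Units.val_mul, scal_coe, Matrix.smul_mul, Matrix.one_mul]

/-- a subgroup `I` of `H` meeting the scalars trivially and generating `H` with the scalars -/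
lemma projQuot_equiv_of {H I : Subgroup (GL ι k)} (hle : I ≤ H)
    (h1 : ∀ s ∈ I, s ∈ Cfsg.Geo.scalars ι k → s = 1)
    (h2 : ∀ s ∈ H, ∃ c : kˣ, scal c * s ∈ I) (hsc : Cfsg.Geo.scalars ι k ≤ H) :
    Nonempty (Cfsg.projQuot H ≃* ↥I) := by
  let f : ↥I →* Cfsg.projQuot H := (QuotientGroup.mk' _).comp (Subgroup.inclusion hle)
  refine ⟨(MulEquiv.ofBijective f ⟨?_, ?_⟩).symm⟩
  · rw [injective_iff_map_eq_one]
    intro s hs
    have := (QuotientGroup.eq_one_iff _).mp hs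
    rw [Subgroup.mem_subgroupOf] at this
    exact Subtype.ext (h1 s s.2 this)
  · intro x
    obtain ⟨s, rfl⟩ := QuotientGroup.mk_surjective x
    obtain ⟨c, hc⟩ := h2 s s.2
    refine ⟨⟨_, hc⟩, ?_⟩
    change (QuotientGroup.mk _ : Cfsg.projQuot H) = QuotientGroup.mk _
    rw [QuotientGroup.eq, Subgroup.mem_subgroupOf]
    have hn : (Cfsg.Geo.scalars ι k).Normal := by
      constructor
      intro a ha g
      rw [Cfsg.Geo.mem_scalars_iff] at ha ⊢
      obtain ⟨c, hc⟩ := ha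
      refine ⟨c, ?_⟩
      rw [Units.val_mul, Units.val_mul, hc, Matrix.mul_smul, Matrix.smul_mul, Matrix.mul_one, ← Units.val_mul,
        mul_inv_cancel, Units.val_one]
    change (scal c * (s : GL ι k))⁻¹ * (s : GL ι k) ∈ Cfsg.Geo.scalars ι k
    rw [_root_.mul_inv_rev]
    have := hn.conj_mem _ (Subgroup.inv_mem _ (scal_mem (ι := ι) c)) (s : GL ι k)⁻¹
    rwa [inv_inv] at this

lemma scalars_le_simG (M : Matrix ι ι k) : Cfsg.Geo.scalars ι k ≤ simG M := by
  intro s hs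
  rw [Cfsg.Geo.mem_scalars_iff] at hs
  obtain ⟨c, hc⟩ := hs
  refine ⟨c * c, ?_⟩
  rw [hc, Matrix.transpose_smul, Matrix.transpose_one, Matrix.smul_mul, Matrix.one_mul, Matrix.mul_smul,
    Matrix.mul_one, smul_smul, Units.val_mul]

/-- in characteristic two similitudes modulo scalars are isometries -/
theorem proj_iso [Finite k] (h2 : (2 : k) = 0) {M : Matrix ι ι k} (hM : M ≠ 0) :
    Nonempty (Cfsg.projQuot (simG M) ≃* ↥(isoG M)) := by
  have := charP_two_of_two_eq_zero h2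
  apply projQuot_equiv_of (isoG_le M) ?_ ?_ (scalars_le_simG M)
  · intro s hs hs'
    rw [Cfsg.Geo.mem_scalars_iff] at hs'
    obtain ⟨c, hc⟩ := hs'
    rw [mem_isoG, hc, Matrix.transpose_smul, Matrix.transpose_one, Matrix.smul_mul, Matrix.one_mul, Matrix.mul_smul,
      Matrix.mul_one, smul_smul] at hs
    have h3 : (((c : k) * c) - 1) • M = 0 := by rw [sub_smul, hs, one_smul, sub_self]
    have h4 := (smul_eq_zero.mp h3).resolve_right hM
    have h5 := sq_eq_one h2 (c := (c : k)) (by linear_combination h4)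
    apply Units.ext
    rw [hc, h5, one_smul, Units.val_one]
  · rintro s ⟨c, hc⟩
    obtain ⟨b, hb⟩ := exists_sqrt (c : k)
    have hb0 : b ≠ 0 := by
      rintro rfl
      apply c.ne_zero
      rw [← hb]; simp
    refine ⟨(Units.mk0 b hb0)⁻¹, ?_⟩
    rw [mem_isoG, scal_mul_coe, Matrix.transpose_smul, Matrix.smul_mul, Matrix.smul_mul, Matrix.mul_smul, hc,
      smul_smul, smul_smul, ← hb, Units.val_inv_eq_inv_val, Units.val_mk0]
    rw [show b⁻¹ * b⁻¹ * b ^ 2 = 1 by field_simp, one_smul]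

/-- `Sp` as an isometry group -/
def isoJHom (m : ℕ) : ↥(Matrix.symplecticGroup (Fin m) k) →* ↥(isoG (Matrix.J (Fin m) k)) where
  toFun A := ⟨⟨(A : Matrix _ _ k), ((A⁻¹ : ↥(Matrix.symplecticGroup (Fin m) k)) : Matrix _ _ k),
      congrArg Subtype.val (mul_inv_cancel A), congrArg Subtype.val (inv_mul_cancel A)⟩,
      SymplecticGroup.mem_iff'.mp A.2⟩
  map_one' := Subtype.ext (Units.ext rfl)
  map_mul' _ _ := Subtype.ext (Units.ext rfl)

lemma isoJHom_coe (m : ℕ) (A : ↥(Matrix.symplecticGroup (Fin m) k)) :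
    ((isoJHom m A : GL (Fin m ⊕ Fin m) k) : Matrix (Fin m ⊕ Fin m) (Fin m ⊕ Fin m) k) = A := rfl

theorem isoG_J (m : ℕ) : Nonempty (↥(isoG (Matrix.J (Fin m) k)) ≃* ↥(Matrix.symplecticGroup (Fin m) k)) := by
  refine ⟨(MulEquiv.ofBijective (isoJHom m) ⟨?_, ?_⟩).symm⟩
  · intro a b hab
    apply Subtype.ext
    rw [← isoJHom_coe, ← isoJHom_coe, hab]
  · rintro ⟨s, hs⟩
    have h2 : (s : Matrix (Fin m ⊕ Fin m) (Fin m ⊕ Fin m) k) ∈ Matrix.symplecticGroup (Fin m) k := by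
      rw [SymplecticGroup.mem_iff']; exact hs
    refine ⟨⟨(s : Matrix (Fin m ⊕ Fin m) (Fin m ⊕ Fin m) k), h2⟩, ?_⟩
    apply Subtype.ext
    apply Units.ext
    rw [isoJHom_coe]

lemma J_ne_zero {m : ℕ} (hm : 0 < m) : Matrix.J (Fin m) k ≠ 0 := by
  intro h
  have := (Matrix.isUnit_det_J (Fin m) k).ne_zero
  rw [h] at this
  have hne : Nonempty (Fin m ⊕ Fin m) := ⟨Sum.inl ⟨0, hm⟩⟩
  exact this Matrix.det_zero

/-- char 2: the symplectic class -/
theorem proj_J [Finite k] (h2 : (2 : k) = 0) {m : ℕ} (hm : 0 < m) :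
    Nonempty (Cfsg.projQuot (simG (Matrix.J (Fin m) k)) ≃* ↥(Matrix.symplecticGroup (Fin m) k)) := by
  obtain ⟨e⟩ := proj_iso h2 (J_ne_zero (k := k) hm)
  obtain ⟨e'⟩ := isoG_J (k := k) m
  exact ⟨e.trans e'⟩

end H6.GrProj
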