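import Mathlib
import Cfsg.Agent.Lib.H6.GrProj

/-!
Identification of the projective similitude groups: characteristic two.
-/

set_option autoImplicit false
set_option linter.unusedSectionVars false

namespace H6.GrProj

open Matrix QuadraticMap H6.GrSim H6.GrForms H48.QuadSplit H48.FinFieldSq H48.QuadStd

variable {ι κ : Type} [Fintype ι] [DecidableEq ι] [Fintype κ] [DecidableEq κ] {k : Type*} [Field k]

lemma sq_inj (h2 : (2 : k) = 0) {a b : k} (h : a ^ 2 = b ^ 2) : a = b := by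
  have : (a - b) ^ 2 = 0 := by linear_combination h + (b ^ 2 - a * b) * h2
  exact sub_eq_zero.mp (pow_eq_zero_iff two_ne_zero |>.mp this)

/-- the form `x₀² + J` -/
def Dm (m : ℕ) (k : Type*) [Field k] : Matrix (Unit ⊕ (Fin m ⊕ Fin m)) (Unit ⊕ (Fin m ⊕ Fin m)) k :=
  Matrix.fromBlocks 1 0 0 (Matrix.J (Fin m) k)

lemma Dm_transpose [Finite k] (h2 : (2 : k) = 0) (m : ℕ) : (Dm m k)ᵀ = Dm m k := by
  have : CharP k 2 := charP_two_of_two_eq_zero h2
  rw [Dm, Matrix.fromBlocks_transpose, transpose_of_alt (isAlt_J (k := k) m)]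
  have : -Matrix.J (Fin m) k = Matrix.J (Fin m) k := by
    ext i j
    rw [Matrix.neg_apply]
    exact CharTwo.neg_eq _
  rw [this]
  simp

lemma Dm_det (m : ℕ) : (Dm m k).det ≠ 0 := by
  rw [Dm, Matrix.det_fromBlocks_zero₂₁, Matrix.det_one, one_mul]
  exact (Matrix.isUnit_det_J (Fin m) k).ne_zero

lemma Dm_apply (m : ℕ) (v : Unit ⊕ (Fin m ⊕ Fin m) → k) : v ⬝ᵥ Dm m k *ᵥ v = v (.inl ()) ^ 2 := by
  have h := isAlt_J (k := k) m (v ∘ Sum.inr)
  rw [Dm, Matrix.fromBlocks_mulVec, dotProduct, Fintype.sum_sum_type]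
  simp only [Sum.elim_inl, Sum.elim_inr, zero_mulVec, add_zero, zero_add, one_mulVec]
  have h' : ∑ x, v (Sum.inr x) * (Matrix.J (Fin m) k *ᵥ v ∘ Sum.inr) x = 0 := h
  rw [h', add_zero, Finset.univ_unique, Finset.sum_singleton, _root_.sq]
  rfl

lemma Dm_not_alt (m : ℕ) : ¬ IsAlt (Dm m k) := by
  intro h
  have := h (Pi.single (.inl ()) 1)
  rw [Dm_apply] at this
  simp at this

/-- `Sp → O(D)` -/
def spToD (m : ℕ) : ↥(isoG (Matrix.J (Fin m) k)) →* ↥(isoG (Dm m k)) where
  toFun s := ⟨⟨Matrix.fromBlocks 1 0 0 s.1.1,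
      Matrix.fromBlocks 1 0 0 (s⁻¹).1.1,
      by rw [Matrix.fromBlocks_multiply]; simp,
      by rw [Matrix.fromBlocks_multiply]; simp⟩, by
      rw [mem_isoG]
      change (Matrix.fromBlocks 1 0 0 s.1.1)ᵀ * Dm m k *
        (Matrix.fromBlocks 1 0 0 s.1.1) = Dm m k
      have hs := mem_isoG.mp s.2
      rw [Dm, Matrix.fromBlocks_transpose, Matrix.fromBlocks_multiply, Matrix.fromBlocks_multiply]
      simp [hs]⟩
  map_one' := by
    apply Subtype.ext; apply Units.ext
    change Matrix.fromBlocks 1 0 0 _ = 1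
    rw [← Matrix.fromBlocks_one]
    rfl
  map_mul' a b := by
    apply Subtype.ext; apply Units.ext
    change Matrix.fromBlocks 1 0 0 _ = Matrix.fromBlocks 1 0 0 _ * Matrix.fromBlocks 1 0 0 _
    rw [Matrix.fromBlocks_multiply]
    simp

lemma spToD_coe (m : ℕ) (s : ↥(isoG (Matrix.J (Fin m) k))) :
    (spToD m s).1.1 =
      Matrix.fromBlocks 1 0 0 s.1.1 := rfl

theorem isoG_Dm (h2 : (2 : k) = 0) (m : ℕ) : Nonempty (↥(isoG (Dm m k)) ≃* ↥(Matrix.symplecticGroup (Fin m) k)) := by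
  obtain ⟨e⟩ := isoG_J (k := k) m
  refine ⟨((MulEquiv.ofBijective (spToD (k := k) m) ⟨?_, ?_⟩).symm).trans e⟩
  · intro a b hab
    apply Subtype.ext
    apply Units.ext
    have : Matrix.fromBlocks (1 : Matrix Unit Unit k) 0 0 a.1.1 =
        Matrix.fromBlocks 1 0 0 b.1.1 := by
      rw [← spToD_coe, ← spToD_coe, hab]
    exact (Matrix.fromBlocks_inj.mp this).2.2.2
  · rintro ⟨s, hs⟩
    rw [mem_isoG] at hs
    have h0 : ∀ v, (s.1 *ᵥ v) (.inl ()) = v (.inl ()) := by
      intro v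
      apply sq_inj h2
      rw [← Dm_apply, ← Dm_apply, ← dot_mul, hs]
    obtain ⟨a, b, x, A, hblk⟩ : ∃ (a : Matrix Unit Unit k) (b : Matrix Unit (Fin m ⊕ Fin m) k)
        (x : Matrix (Fin m ⊕ Fin m) Unit k) (A : Matrix (Fin m ⊕ Fin m) (Fin m ⊕ Fin m) k),
        s.1 = Matrix.fromBlocks a b x A := ⟨_, _, _, _, (Matrix.fromBlocks_toBlocks _).symm⟩
    have ha : a = 1 := by
      ext i j
      have := h0 (Pi.single (.inl j) 1)
      rw [hblk] at this
      simpa using this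
    have hb : b = 0 := by
      ext i j
      have := h0 (Pi.single (.inr j) 1)
      rw [hblk] at this
      simpa using this
    subst ha hb
    rw [hblk, Dm, Matrix.fromBlocks_transpose, Matrix.fromBlocks_multiply, Matrix.fromBlocks_multiply,
      Matrix.fromBlocks_inj] at hs
    simp only [Matrix.transpose_one, Matrix.transpose_zero, Matrix.mul_one, Matrix.one_mul, Matrix.mul_zero,
      Matrix.zero_mul, add_zero, zero_add] at hs
    obtain ⟨-, h12, -, h22⟩ := hs
    -- x = 0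
    have hJA : (Matrix.J (Fin m) k * A).det ≠ 0 := by
      have h3 := congrArg Matrix.det h22
      rw [Matrix.mul_assoc, Matrix.det_mul] at h3
      intro h4
      rw [h4, mul_zero] at h3
      exact (Matrix.isUnit_det_J (Fin m) k).ne_zero h3.symm
    obtain ⟨N, hN⟩ := ((Matrix.isUnit_iff_isUnit_det _).mpr (isUnit_iff_ne_zero.mpr hJA)).exists_right_inv
    have hx : x = 0 := by
      rw [← Matrix.transpose_eq_zero]
      calc xᵀ = xᵀ * (Matrix.J (Fin m) k * A * N) := by rw [hN, Matrix.mul_one]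
        _ = (xᵀ * Matrix.J (Fin m) k * A) * N := by simp only [Matrix.mul_assoc]
        _ = 0 := by rw [h12, Matrix.zero_mul]
    have hA : A.det ≠ 0 := by
      intro h4
      apply hJA
      rw [Matrix.det_mul, h4, mul_zero]
    refine ⟨⟨Matrix.GeneralLinearGroup.mkOfDetNeZero A hA, ?_⟩, ?_⟩
    · rw [mem_isoG]
      exact h22
    · apply Subtype.ext
      apply Units.ext
      rw [spToD_coe]
      change Matrix.fromBlocks 1 0 0 A = s.1
      rw [hblk, hx]

/-- char 2, odd dimension -/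
theorem proj_odd_two [Finite k] (h2 : (2 : k) = 0) (m : ℕ) {n : ℕ} (hn : n = 2 * m + 1) :
    Nonempty (Cfsg.projQuot (simG (1 : Matrix (Fin n) (Fin n) k)) ≃* ↥(Matrix.symplecticGroup (Fin m) k)) := by
  obtain ⟨e1⟩ := projQuot_equiv (sim_symm (sym_sim_one h2 (ι := Unit ⊕ (Fin m ⊕ Fin m)) (n := n)
    (by rw [hn]; simp; ring) (Dm_det (k := k) m) (Dm_transpose h2 m) (Dm_not_alt m)))
  have hne : Dm m k ≠ 0 := by
    intro h
    have := Dm_apply (k := k) m (Pi.single (.inl ()) 1)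
    rw [h] at this
    simp at this
  obtain ⟨e2⟩ := proj_iso h2 hne
  obtain ⟨e3⟩ := isoG_Dm (k := k) h2 m
  exact ⟨(e1.trans e2).trans e3⟩

/-- char 2: `PGO_{2m+1}` is `Sp_{2m}` -/
theorem pgo_odd_two [Fintype k] (h2 : (2 : k) = 0) (m : ℕ) :
    Nonempty (Cfsg.PGO k (Cfsg.quadFormOdd m k) ≃* ↥(Matrix.symplecticGroup (Fin m) k)) := by
  have : CharP k 2 := charP_two_of_two_eq_zero h2
  have hQs : ∀ (c : k) (v : Unit ⊕ (Fin m ⊕ Fin m) → k), Cfsg.quadFormOdd m k (c • v) = c ^ 2 * Cfsg.quadFormOdd m k v := by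
    intro c v
    rw [← coe_qOdd, QuadraticMap.map_smul, smul_eq_mul, _root_.sq]
  have hQ1 : Cfsg.quadFormOdd m k (Pi.single (.inl ()) 1) = 1 := by
    simp [Cfsg.quadFormOdd]
  obtain ⟨e1⟩ : Nonempty (Cfsg.PGO k (Cfsg.quadFormOdd m k) ≃* ↥(Cfsg.isometryGroup k (Cfsg.quadFormOdd m k))) := by
    apply projQuot_equiv_of
    · intro s hs
      exact ⟨1, fun v => by rw [Units.val_one, one_mul]; exact hs v v⟩
    · intro s hs hs'
      rw [Cfsg.Geo.mem_scalars_iff] at hs'
      obtain ⟨c, hc⟩ := hs'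
      have h3 : Cfsg.quadFormOdd m k (s.1 *ᵥ (Pi.single (.inl ()) 1)) =
        Cfsg.quadFormOdd m k (Pi.single (.inl ()) 1) := hs _ (Pi.single (.inl ()) 1)
      rw [hc, Matrix.smul_mulVec, Matrix.one_mulVec, hQs, hQ1, mul_one] at h3
      have h5 := sq_eq_one h2 h3
      apply Units.ext
      rw [hc, h5, one_smul, Units.val_one]
    · rintro s ⟨c, hc⟩
      obtain ⟨b, hb⟩ := exists_sqrt (c : k)
      have hb0 : b ≠ 0 := by
        rintro rfl
        apply c.ne_zero
        rw [← hb]; simp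
      refine ⟨(Units.mk0 b hb0)⁻¹, ?_⟩
      intro u _
      change Cfsg.quadFormOdd m k (((scal (Units.mk0 b hb0)⁻¹ * s : GL _ k) : Matrix _ _ k) *ᵥ u) =
        Cfsg.quadFormOdd m k u
      rw [scal_mul_coe, Matrix.smul_mulVec, hQs, hc, ← hb, Units.val_inv_eq_inv_val, Units.val_mk0]
      field_simp
    · intro s hs
      rw [Cfsg.Geo.mem_scalars_iff] at hs
      obtain ⟨c, hc⟩ := hs
      refine ⟨c * c, fun v => ?_⟩
      rw [hc, Matrix.smul_mulVec, Matrix.one_mulVec, hQs, Units.val_mul, _root_.sq]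
  let e2 := MulEquiv.ofBijective (H7.OddCharTwo.red (F := k) (m := m))
    ⟨H7.OddCharTwo.red_injective, H7.OddCharTwo.red_surjective⟩
  exact ⟨e1.trans e2⟩

/-! ### the centralizer of a transvection -/

section transv

/-- the all-ones vector -/
def av (n : ℕ) (k : Type*) [Field k] : Fin n → k := fun _ => 1

/-- `1 + a aᵀ` -/
def Tm (n : ℕ) (k : Type*) [Field k] : Matrix (Fin n) (Fin n) k := 1 + Matrix.vecMulVec (av n k) (av n k)

lemma av_dot (n : ℕ) (v : Fin n → k) : av n k ⬝ᵥ v = ∑ i, v i := by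
  simp [av, dotProduct]

lemma dot_self_two [Finite k] (h2 : (2 : k) = 0) {n : ℕ} (v : Fin n → k) : v ⬝ᵥ v = (av n k ⬝ᵥ v) ^ 2 := by
  have : CharP k 2 := charP_two_of_two_eq_zero h2
  rw [av_dot, CharTwo.sum_sq]
  simp [dotProduct, _root_.sq]

lemma av_av (h2 : (2 : k) = 0) {n m : ℕ} (hn : n = 2 * m) : av n k ⬝ᵥ av n k = 0 := by
  rw [av_dot]
  simp [av, hn, h2]

lemma vv_sq (h2 : (2 : k) = 0) {n m : ℕ} (hn : n = 2 * m) :
    Matrix.vecMulVec (av n k) (av n k) * Matrix.vecMulVec (av n k) (av n k) = 0 := by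
  rw [Matrix.vecMulVec_mul_vecMulVec, av_av h2 hn]
  simp

lemma Tm_sq (h2 : (2 : k) = 0) {n m : ℕ} (hn : n = 2 * m) : Tm n k * Tm n k = 1 := by
  rw [Tm, Matrix.add_mul, Matrix.mul_add, Matrix.mul_add, vv_sq h2 hn, Matrix.one_mul, Matrix.mul_one, Matrix.one_mul,
    add_zero, add_assoc]
  have : Matrix.vecMulVec (av n k) (av n k) + Matrix.vecMulVec (av n k) (av n k) = 0 := by
    rw [← two_smul k, h2, zero_smul]
  rw [this, add_zero]

lemma Tm_transpose (n : ℕ) : (Tm n k)ᵀ = Tm n k := by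
  rw [Tm, Matrix.transpose_add, Matrix.transpose_one, Matrix.transpose_vecMulVec]

lemma Tm_alt [Finite k] (h2 : (2 : k) = 0) (n : ℕ) : IsAlt (Tm n k) := by
  intro v
  rw [Tm, Matrix.add_mulVec, Matrix.one_mulVec, dotProduct_add, dot_self_two h2, Matrix.vecMulVec_mulVec,
    dotProduct_smul, dotProduct_comm v]
  simp only [MulOpposite.smul_eq_mul_unop, MulOpposite.unop_op]
  linear_combination ((av n k ⬝ᵥ v) ^ 2) * h2

lemma Tm_det (h2 : (2 : k) = 0) {n m : ℕ} (hn : n = 2 * m) : (Tm n k).det ≠ 0 := by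
  intro h
  have := congrArg Matrix.det (Tm_sq h2 hn)
  rw [Matrix.det_mul, h, Matrix.det_one] at this
  simp at this

/-- isometries of the standard form fix `a` -/
lemma iso_fix [Finite k] (h2 : (2 : k) = 0) {n : ℕ} {s : GL (Fin n) k}
    (hs : (s : Matrix (Fin n) (Fin n) k)ᵀ * (s : Matrix (Fin n) (Fin n) k) = 1) :
    (s : Matrix (Fin n) (Fin n) k)ᵀ *ᵥ av n k = av n k ∧ (s : Matrix (Fin n) (Fin n) k) *ᵥ av n k = av n k := by
  have h1 : ∀ v, av n k ⬝ᵥ ((s : Matrix (Fin n) (Fin n) k) *ᵥ v) = av n k ⬝ᵥ v := by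
    intro v
    apply sq_inj h2
    rw [← dot_self_two h2, ← dot_self_two h2]
    have := dot_mul (1 : Matrix (Fin n) (Fin n) k) (s : Matrix (Fin n) (Fin n) k) v v
    rw [Matrix.mul_one, hs, Matrix.one_mulVec, Matrix.one_mulVec] at this
    exact this.symm
  have h3 : (s : Matrix (Fin n) (Fin n) k)ᵀ *ᵥ av n k = av n k := by
    ext i
    have := h1 (Pi.single i 1)
    rw [Matrix.dotProduct_mulVec, ← Matrix.mulVec_transpose] at this
    simpa using this
  refine ⟨h3, ?_⟩
  have h4 : (s : Matrix (Fin n) (Fin n) k) * (s : Matrix (Fin n) (Fin n) k)ᵀ = 1 := _root_.mul_eq_one_comm.mp hs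
  conv_lhs => rw [← h3]
  rw [Matrix.mulVec_mulVec, h4, Matrix.one_mulVec]

lemma iso_comm [Finite k] (h2 : (2 : k) = 0) {n : ℕ} {s : GL (Fin n) k}
    (hs : (s : Matrix (Fin n) (Fin n) k)ᵀ * (s : Matrix (Fin n) (Fin n) k) = 1) :
    (s : Matrix (Fin n) (Fin n) k) * Tm n k = Tm n k * (s : Matrix (Fin n) (Fin n) k) ∧
      (s : Matrix (Fin n) (Fin n) k)ᵀ * Tm n k * (s : Matrix (Fin n) (Fin n) k) = Tm n k := by
  obtain ⟨h3, h4⟩ := iso_fix h2 hs
  have h5 : (s : Matrix (Fin n) (Fin n) k) * Tm n k = Tm n k * (s : Matrix (Fin n) (Fin n) k) := by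
    rw [Tm, Matrix.mul_add, Matrix.add_mul, Matrix.one_mul, Matrix.mul_one, Matrix.mul_vecMulVec, h4,
      Matrix.vecMulVec_mul, ← Matrix.mulVec_transpose, h3]
  refine ⟨h5, ?_⟩
  rw [Matrix.mul_assoc, ← h5, ← Matrix.mul_assoc, hs, Matrix.one_mul]

lemma iso_of_comm (h2 : (2 : k) = 0) {n m : ℕ} (hn : n = 2 * m) {s : Matrix (Fin n) (Fin n) k}
    (h1 : s * Tm n k = Tm n k * s) (h3 : sᵀ * Tm n k * s = Tm n k) : sᵀ * s = 1 := by
  rw [Matrix.mul_assoc, ← h1, ← Matrix.mul_assoc] at h3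
  calc sᵀ * s = sᵀ * s * Tm n k * Tm n k := by rw [Matrix.mul_assoc _ (Tm n k), Tm_sq h2 hn, Matrix.mul_one]
    _ = 1 := by rw [h3, Tm_sq h2 hn]

lemma vv_rank {n m : ℕ} (hn : n = 2 * m) (hm : 0 < m) : (Matrix.vecMulVec (av n k) (av n k)).rank = 1 := by
  apply le_antisymm (Matrix.rank_vecMulVec_le _ _)
  rw [Nat.one_le_iff_ne_zero]
  intro h
  have h1 : Matrix.vecMulVec (av n k) (av n k) = 0 := by
    rw [Matrix.rank, Submodule.finrank_eq_zero, LinearMap.range_eq_bot] at h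
    apply ext_dot
    intro u v
    have h3 : Matrix.vecMulVec (av n k) (av n k) *ᵥ v = 0 := congrArg (fun f : (Fin n → k) →ₗ[k] (Fin n → k) => f v) h
    rw [h3, Matrix.zero_mulVec]
  have := congrFun (congrFun h1 ⟨0, by omega⟩) ⟨0, by omega⟩
  simp [av, Matrix.vecMulVec] at this

theorem exists_transv [Finite k] (h2 : (2 : k) = 0) {n m : ℕ} (hn : n = 2 * m) (hm : 0 < m) :
    ∃ t : ↥(Matrix.symplecticGroup (Fin m) k), Cfsg.IsTransvection (t : Matrix (Fin m ⊕ Fin m) (Fin m ⊕ Fin m) k) ∧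
      Nonempty (Cfsg.projQuot (simG (1 : Matrix (Fin n) (Fin n) k)) ≃*
        ↥(Subgroup.centralizer ({t} : Set ↥(Matrix.symplecticGroup (Fin m) k)))) := by
  obtain ⟨m', hm', P, P', hP1, hP2, hP3⟩ := alt_congr (Tm_det (k := k) h2 hn) (Tm_alt h2 n)
  rw [Fintype.card_fin] at hm'
  obtain rfl : m' = m := by omega
  have hPt : P'ᵀ * Pᵀ = 1 := by rw [← Matrix.transpose_mul, hP1, Matrix.transpose_one]
  have hPt' : Pᵀ * P'ᵀ = 1 := by rw [← Matrix.transpose_mul, hP2, Matrix.transpose_one]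
  -- transport of matrices
  have hiso : ∀ s : Matrix (Fin n) (Fin n) k, (P' * s * P)ᵀ * Matrix.J (Fin m') k * (P' * s * P) =
      Pᵀ * (sᵀ * Tm n k * s) * P := by
    intro s
    rw [← hP3, Matrix.transpose_mul, Matrix.transpose_mul]
    calc Pᵀ * (sᵀ * P'ᵀ) * (Pᵀ * Tm n k * P) * (P' * s * P)
        = Pᵀ * sᵀ * (P'ᵀ * Pᵀ) * Tm n k * (P * P') * s * P := by simp only [Matrix.mul_assoc]
      _ = _ := by rw [hPt, hP1, Matrix.mul_one, Matrix.mul_one]; simp only [Matrix.mul_assoc]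
  have hmul : ∀ s s' : Matrix (Fin n) (Fin n) k, (P' * s * P) * (P' * s' * P) = P' * (s * s') * P := by
    intro s s'
    calc (P' * s * P) * (P' * s' * P) = P' * s * (P * P') * s' * P := by simp only [Matrix.mul_assoc]
      _ = _ := by rw [hP1, Matrix.mul_one]; simp only [Matrix.mul_assoc]
  have hinj : ∀ s s' : Matrix (Fin n) (Fin n) k, P' * s * P = P' * s' * P → s = s' := by
    intro s s' h
    calc s = (P * P') * s * (P * P') := by rw [hP1, Matrix.one_mul, Matrix.mul_one]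
      _ = P * (P' * s * P) * P' := by simp only [Matrix.mul_assoc]
      _ = P * (P' * s' * P) * P' := by rw [h]
      _ = (P * P') * s' * (P * P') := by simp only [Matrix.mul_assoc]
      _ = s' := by rw [hP1, Matrix.one_mul, Matrix.mul_one]
  have hmemSp : ∀ s : Matrix (Fin n) (Fin n) k, sᵀ * Tm n k * s = Tm n k →
      P' * s * P ∈ Matrix.symplecticGroup (Fin m') k := by
    intro s hs
    rw [SymplecticGroup.mem_iff', hiso, hs, hP3]
  have hT : P' * Tm n k * P ∈ Matrix.symplecticGroup (Fin m') k := by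
    apply hmemSp
    rw [Tm_transpose, Tm_sq h2 hn, Matrix.one_mul]
  let t : ↥(Matrix.symplecticGroup (Fin m') k) := ⟨P' * Tm n k * P, hT⟩
  have ht1 : P' * Tm n k * P - 1 = P' * Matrix.vecMulVec (av n k) (av n k) * P := by
    rw [Tm, Matrix.mul_add, Matrix.add_mul, Matrix.mul_one, hP2]
    abel
  refine ⟨t, ⟨?_, ?_⟩, ?_⟩
  · change (P' * Tm n k * P - 1).rank = 1
    rw [ht1]
    apply le_antisymm
    · calc (P' * Matrix.vecMulVec (av n k) (av n k) * P).rank ≤ (P' * Matrix.vecMulVec (av n k) (av n k)).rank :=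
          Matrix.rank_mul_le_left _ _
        _ ≤ (Matrix.vecMulVec (av n k) (av n k)).rank := Matrix.rank_mul_le_right _ _
        _ = 1 := vv_rank hn hm
    · have h5 : Matrix.vecMulVec (av n k) (av n k) = P * (P' * Matrix.vecMulVec (av n k) (av n k) * P) * P' := by
        calc Matrix.vecMulVec (av n k) (av n k)
            = (P * P') * Matrix.vecMulVec (av n k) (av n k) * (P * P') := by
              rw [hP1, Matrix.one_mul, Matrix.mul_one]
          _ = _ := by simp only [Matrix.mul_assoc]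
      calc 1 = (P * (P' * Matrix.vecMulVec (av n k) (av n k) * P) * P').rank := by rw [← h5, vv_rank hn hm]
        _ ≤ (P * (P' * Matrix.vecMulVec (av n k) (av n k) * P)).rank := Matrix.rank_mul_le_left _ _
        _ ≤ _ := Matrix.rank_mul_le_right _ _
  · change (P' * Tm n k * P - 1) * (P' * Tm n k * P - 1) = 0
    rw [ht1, hmul, vv_sq h2 hn, Matrix.mul_zero, Matrix.zero_mul]
  · have hne : (1 : Matrix (Fin n) (Fin n) k) ≠ 0 := by
      have : Nonempty (Fin n) := ⟨⟨0, by omega⟩⟩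
      exact one_ne_zero
    obtain ⟨e1⟩ := proj_iso h2 hne
    have hs1 : ∀ s : ↥(isoG (1 : Matrix (Fin n) (Fin n) k)),
        ((s : GL (Fin n) k) : Matrix (Fin n) (Fin n) k)ᵀ * ((s : GL (Fin n) k) : Matrix (Fin n) (Fin n) k) = 1 := by
      intro s
      have := mem_isoG.mp s.2
      rwa [Matrix.mul_one] at this
    let f : ↥(isoG (1 : Matrix (Fin n) (Fin n) k)) →* ↥(Subgroup.centralizer ({t} : Set ↥(Matrix.symplecticGroup (Fin m') k))) :=
      { toFun := fun s => ⟨⟨P' * ((s : GL (Fin n) k) : Matrix (Fin n) (Fin n) k) * P,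
          hmemSp _ (iso_comm h2 (hs1 s)).2⟩, by
            rw [Subgroup.mem_centralizer_singleton_iff]
            apply Subtype.ext
            change (P' * ((s : GL (Fin n) k) : Matrix (Fin n) (Fin n) k) * P) * (P' * Tm n k * P) =
              (P' * Tm n k * P) * (P' * ((s : GL (Fin n) k) : Matrix (Fin n) (Fin n) k) * P)
            rw [hmul, hmul, (iso_comm h2 (hs1 s)).1]⟩
        map_one' := by
          apply Subtype.ext; apply Subtype.ext
          change P' * (1 : Matrix (Fin n) (Fin n) k) * P = 1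
          rw [Matrix.mul_one, hP2]
        map_mul' := fun a b => by
          apply Subtype.ext; apply Subtype.ext
          change P' * (((a : GL (Fin n) k) : Matrix (Fin n) (Fin n) k) * ((b : GL (Fin n) k) : Matrix (Fin n) (Fin n) k)) * P
            = (P' * ((a : GL (Fin n) k) : Matrix (Fin n) (Fin n) k) * P) *
              (P' * ((b : GL (Fin n) k) : Matrix (Fin n) (Fin n) k) * P)
          rw [hmul] }
    refine ⟨e1.trans (MulEquiv.ofBijective f ⟨?_, ?_⟩)⟩
    · intro a b hab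
      have h6 : P' * ((a : GL (Fin n) k) : Matrix (Fin n) (Fin n) k) * P =
          P' * ((b : GL (Fin n) k) : Matrix (Fin n) (Fin n) k) * P :=
        congrArg (fun z : ↥(Subgroup.centralizer ({t} : Set ↥(Matrix.symplecticGroup (Fin m') k))) =>
          ((z : ↥(Matrix.symplecticGroup (Fin m') k)) : Matrix (Fin m' ⊕ Fin m') (Fin m' ⊕ Fin m') k)) hab
      exact Subtype.ext (Units.ext (hinj _ _ h6))
    · rintro ⟨A, hA⟩
      rw [Subgroup.mem_centralizer_singleton_iff] at hA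
      have hA' : A.1 * (P' * Tm n k * P) = (P' * Tm n k * P) * A.1 :=
        congrArg Subtype.val hA
      set s : Matrix (Fin n) (Fin n) k := P * A.1 * P' with hs
      have hsA : P' * s * P = A.1 := by
        calc P' * s * P = (P' * P) * A.1 * (P' * P) := by rw [hs]; simp only [Matrix.mul_assoc]
          _ = _ := by rw [hP2, Matrix.one_mul, Matrix.mul_one]
      have h7 : s * Tm n k = Tm n k * s := by
        apply hinj
        rw [← hmul, ← hmul, hsA, hA']
      have h8 : sᵀ * Tm n k * s = Tm n k := by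
        apply hinj
        have h9 := hiso s
        rw [hsA, SymplecticGroup.mem_iff'.mp A.2, ← hP3] at h9
        -- Pᵀ T P = Pᵀ (sᵀ T s) P
        have h10 : Tm n k = sᵀ * Tm n k * s := by
          calc Tm n k = (P'ᵀ * Pᵀ) * Tm n k * (P * P') := by rw [hPt, hP1, Matrix.one_mul, Matrix.mul_one]
            _ = P'ᵀ * (Pᵀ * Tm n k * P) * P' := by simp only [Matrix.mul_assoc]
            _ = P'ᵀ * (Pᵀ * (sᵀ * Tm n k * s) * P) * P' := by rw [h9]
            _ = (P'ᵀ * Pᵀ) * (sᵀ * Tm n k * s) * (P * P') := by simp only [Matrix.mul_assoc]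
            _ = _ := by rw [hPt, hP1, Matrix.one_mul, Matrix.mul_one]
        rw [← h10]
      have h11 := iso_of_comm h2 hn h7 h8
      refine ⟨⟨⟨s, sᵀ, _root_.mul_eq_one_comm.mp h11, h11⟩, ?_⟩, ?_⟩
      · rw [mem_isoG, Matrix.mul_one]
        exact h11
      · apply Subtype.ext
        apply Subtype.ext
        exact hsA

end transv

end H6.GrProj
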