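import Mathlib
import Cfsg.Agent.Lib.H6.GrProj2

/-!
Orders of the projective similitude groups in odd characteristic: the symplectic ones differ from the orthogonal ones.
-/

set_option autoImplicit false
set_option linter.unusedSectionVars false

namespace H6.GrCard

open Matrix QuadraticMap H6.GrSim H6.GrForms H6.GrProj H48.QuadSplit H48.FinFieldSq H48.QuadStd

variable {ι κ : Type} [Fintype ι] [DecidableEq ι] [Fintype κ] [DecidableEq κ] {k : Type*} [Field k]

lemma smul_inj {M : Matrix ι ι k} (hM : M ≠ 0) {a b : k} (h : a • M = b • M) : a = b := by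
  have h1 : (a - b) • M = 0 := by rw [sub_smul, h, sub_self]
  exact sub_eq_zero.mp ((smul_eq_zero.mp h1).resolve_right hM)

/-- the multiplier homomorphism -/
noncomputable def mult {M : Matrix ι ι k} (hM : M ≠ 0) : ↥(simG M) →* kˣ where
  toFun s := s.2.choose
  map_one' := by
    have h := (1 : ↥(simG M)).2.choose_spec
    apply Units.ext
    apply smul_inj hM
    rw [← h]
    simp
  map_mul' a b := by
    have h := (a * b).2.choose_spec
    have ha := a.2.choose_spec
    have hb := b.2.choose_spec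
    apply Units.ext
    apply smul_inj hM
    rw [← h, Units.val_mul, mul_smul, ← hb, ← Matrix.smul_mul, ← Matrix.mul_smul, ← ha]
    change (a.1 * b.1).1ᵀ * M * (a.1 * b.1).1 = _
    rw [Units.val_mul, Matrix.transpose_mul]
    simp only [Matrix.mul_assoc]

lemma mult_spec {M : Matrix ι ι k} (hM : M ≠ 0) (s : ↥(simG M)) :
    (s.1.1)ᵀ * M * s.1.1 = ((mult hM s : kˣ) : k) • M := s.2.choose_spec

lemma mult_eq {M : Matrix ι ι k} (hM : M ≠ 0) (s : ↥(simG M)) {c : kˣ} (h : (s.1.1)ᵀ * M * s.1.1 = (c : k) • M) :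
    mult hM s = c := by
  apply Units.ext
  apply smul_inj hM
  rw [← mult_spec, h]

lemma mult_surj_of_sim {M : Matrix ι ι k} {M' : Matrix κ κ k} (hM' : M' ≠ 0) (hM : M ≠ 0) (h : Sim M M')
    (hs : ∀ c : kˣ, ∃ s : GL ι k, (s : Matrix ι ι k)ᵀ * M * (s : Matrix ι ι k) = (c : k) • M) :
    Function.Surjective (mult hM') := by
  intro c
  obtain ⟨s, hs⟩ := hs c
  obtain ⟨P, P', d, h1, h2, h3⟩ := h
  refine ⟨⟨conjGL P P' h1 h2 s, conjGL_mem h1 h2 h3 ⟨c, hs⟩⟩, mult_eq hM' _ ?_⟩
  change (P' * s.1 * P)ᵀ * M' * (P' * s.1 * P) = (c : k) • M'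
  have hPt : P'ᵀ * Pᵀ = 1 := by rw [← Matrix.transpose_mul, h1, Matrix.transpose_one]
  have h4 : (d : k) • ((P' * s.1 * P)ᵀ * M' * (P' * s.1 * P)) = (d : k) • ((c : k) • M') := by
    calc (d : k) • ((P' * s.1 * P)ᵀ * M' * (P' * s.1 * P)) = (P' * s.1 * P)ᵀ * ((d : k) • M') * (P' * s.1 * P) := by
          rw [Matrix.mul_smul, Matrix.smul_mul]
      _ = Pᵀ * (s.1)ᵀ * (P'ᵀ * Pᵀ) * M * (P * P') * s.1 * P := by
          rw [← h3, Matrix.transpose_mul, Matrix.transpose_mul]; simp only [Matrix.mul_assoc]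
      _ = Pᵀ * ((s.1)ᵀ * M * s.1) * P := by
          rw [hPt, h1, Matrix.mul_one, Matrix.mul_one]; simp only [Matrix.mul_assoc]
      _ = _ := by rw [hs, Matrix.mul_smul, Matrix.smul_mul, h3, smul_comm]
  have := congrArg (fun X => ((d⁻¹ : kˣ) : k) • X) h4
  simpa [smul_smul] using this

lemma ker_mult {M : Matrix ι ι k} (hM : M ≠ 0) (s : ↥(simG M)) : s ∈ (mult hM).ker ↔ s.1 ∈ isoG M := by
  rw [MonoidHom.mem_ker, mem_isoG]
  constructor
  · intro h
    rw [mult_spec hM, h, Units.val_one, one_smul]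
  · intro h
    apply mult_eq
    rw [h, Units.val_one, one_smul]

/-- if all multipliers occur then the projective similitude group has the order of the isometry group -/
theorem card_proj [Finite k] [Nonempty ι] {M : Matrix ι ι k} (hM : M ≠ 0) (hs : Function.Surjective (mult hM)) :
    Nat.card (Cfsg.projQuot (simG M)) = Nat.card ↥(isoG M) := by
  have h1 : Nat.card ↥(simG M) = Nat.card ↥(isoG M) * Nat.card kˣ := by
    rw [Subgroup.card_eq_card_quotient_mul_card_subgroup (mult hM).ker,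
      Nat.card_congr (QuotientGroup.quotientKerEquivOfSurjective (mult hM) hs).toEquiv, mul_comm]
    congr 1
    refine Nat.card_congr ⟨fun s => ⟨s.1.1, (ker_mult hM s.1).mp s.2⟩,
      fun s => ⟨⟨s.1, isoG_le M s.2⟩, (ker_mult hM _).mpr s.2⟩, fun s => rfl, fun s => rfl⟩
  have h2 : Nat.card ↥(simG M) = Nat.card (Cfsg.projQuot (simG M)) * Nat.card kˣ := by
    rw [Subgroup.card_eq_card_quotient_mul_card_subgroup ((Cfsg.Geo.scalars ι k).subgroupOf (simG M))]
    congr 1
    have h3 : Nat.card ↥((Cfsg.Geo.scalars ι k).subgroupOf (simG M)) = Nat.card ↥(Cfsg.Geo.scalars ι k) :=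
      Nat.card_congr (Subgroup.subgroupOfEquivOfLe (scalars_le_simG M)).toEquiv
    rw [h3]
    symm
    apply Nat.card_congr
    refine Equiv.ofBijective (fun c => ⟨scal c, scal_mem c⟩) ⟨?_, ?_⟩
    · intro a b hab
      have h4 : (a : k) • (1 : Matrix ι ι k) = (b : k) • (1 : Matrix ι ι k) := by
        rw [← scal_coe, ← scal_coe]
        exact congrArg (fun z : ↥(Cfsg.Geo.scalars ι k) => ((z : GL ι k) : Matrix ι ι k)) hab
      exact Units.ext (smul_inj one_ne_zero h4)
    · rintro ⟨s, hs⟩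
      obtain ⟨c, hc⟩ := (Cfsg.Geo.mem_scalars_iff s).mp hs
      refine ⟨c, Subtype.ext (Units.ext ?_)⟩
      change ((scal c : GL ι k) : Matrix ι ι k) = s
      rw [scal_coe, hc]
  have h5 : 0 < Nat.card kˣ := Nat.card_pos
  rw [h1] at h2
  exact (Nat.eq_of_mul_eq_mul_right h5 h2).symm

lemma isoG_gram (h2 : (2 : k) ≠ 0) (Q : QuadraticForm k (ι → k)) :
    isoG (gram Q) = Cfsg.isometryGroup k (⇑Q) := by
  ext s
  rw [mem_isoG]
  constructor
  · intro h u _
    change Q ((s : Matrix ι ι k) *ᵥ u) = Q u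
    have h4 := dot_mul (gram Q) (s : Matrix ι ι k) u u
    rw [h, ← polar_eq, ← polar_eq, polar_self, polar_self] at h4
    rw [← Nat.cast_smul_eq_nsmul k, ← Nat.cast_smul_eq_nsmul k, smul_eq_mul, smul_eq_mul, Nat.cast_ofNat] at h4
    exact (mul_left_cancel₀ h2 h4).symm
  · intro h
    have h' : ∀ u, Q ((s : Matrix ι ι k) *ᵥ u) = Q u := fun u => h u u
    apply ext_dot
    intro u v
    rw [dot_mul, ← polar_eq, ← polar_eq, polar, polar, ← Matrix.mulVec_add, h', h', h']

/-- orders of orthogonal groups are divisible by a smaller power of `q` than those of symplectic groups -/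
theorem not_equiv [Fintype k] (h2 : (2 : k) ≠ 0) {m : ℕ} (hm : 0 < m) (hn : Fintype.card ι = 2 * m) {M : Matrix ι ι k}
    (hM : Mᵀ = M) (hd : M.det ≠ 0) :
    ¬ Nonempty (Cfsg.projQuot (simG M) ≃* Cfsg.PGSp m k) := by
  rintro ⟨e⟩
  have hcard := Nat.card_congr e.toEquiv
  have hne : Nonempty (Fin m ⊕ Fin m) := ⟨Sum.inl ⟨0, hm⟩⟩
  -- symplectic side
  have hJ := J_ne_zero (k := k) hm
  have hsp : Nat.card (Cfsg.PGSp m k) = Nat.card k ^ (m ^ 2) * ∏ i ∈ Finset.range m, (Nat.card k ^ (2 * (i + 1)) - 1) := by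
    have h3 : Nat.card (Cfsg.PGSp m k) = Nat.card (Cfsg.projQuot (simG (Matrix.J (Fin m) k))) := by
      rw [← GSp_eq]
    rw [h3, card_proj hJ (mult_surj_of_sim hJ hJ (sim_refl _) (exists_multiplier_J m))]
    obtain ⟨e'⟩ := isoG_J (k := k) m
    rw [Nat.card_congr e'.toEquiv, H6.SympCard.card_symplecticGroup, Fintype.card_fin]
  -- orthogonal side
  have hqodd : Odd (Nat.card k) := two_ne_zero_iff_odd_card.mp h2
  have hq3 : 3 ≤ Nat.card k := by
    have : 1 < Nat.card k := Finite.one_lt_card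
    obtain ⟨r, hr⟩ := hqodd
    omega
  obtain ⟨l, rfl⟩ : ∃ l, m = l + 1 := ⟨m - 1, by omega⟩
  obtain ⟨z, hz⟩ : ∃ z : k, ∀ t : k, t ^ 2 + t + z ≠ 0 := by
    obtain ⟨a, ha⟩ := exists_not_isSquare h2
    refine ⟨(1 - a) / 4, (irred_iff h2 _).mpr ?_⟩
    have h4 : (4 : k) ≠ 0 := by
      have : (4 : k) = 2 * 2 := by norm_num
      rw [this]; exact mul_ne_zero h2 h2
    rwa [mul_div_cancel₀ _ h4, sub_sub_cancel]
  have horth : ∃ ε : ℕ, Nat.Coprime (Nat.card k) ε ∧
      Nat.card (Cfsg.projQuot (simG M)) = 2 * Nat.card k ^ ((l + 1) * l) * ε *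
        ∏ i ∈ Finset.range l, (Nat.card k ^ (2 * (i + 1)) - 1) := by
    have key : ∀ {κ : Type} [Fintype κ] [DecidableEq κ] (Q : QuadraticForm k (κ → k)), Fintype.card κ = 2 * (l + 1) →
        ND Q → Sim M (gram Q) → Nat.card (Cfsg.projQuot (simG M)) = Nat.card ↥(H7.Hyp.O (⇑Q)) := by
      intro κ _ _ Q hκ hQ hs
      have hκn : Nonempty κ := Fintype.card_pos_iff.mp (by omega)
      obtain ⟨e1⟩ := projQuot_equiv hs
      have hdQ : (gram Q).det ≠ 0 := (nd_iff_det Q).mp hQ
      have hQ0 : gram Q ≠ 0 := by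
        intro h; rw [h] at hdQ; exact hdQ Matrix.det_zero
      rw [Nat.card_congr e1.toEquiv, card_proj hQ0 (mult_surj_of_sim hQ0 hQ0 (sim_refl _)
        (fun c => exists_multiplier h2 (m := l + 1) hκ (gram_transpose Q) hdQ c)), isoG_gram h2,
        H7.HypOrd.card_isometryGroup]
    have hcop : ∀ j : ℕ, 0 < j → Nat.Coprime (Nat.card k) (Nat.card k ^ j - 1) ∧
        Nat.Coprime (Nat.card k) (Nat.card k ^ j + 1) := by
      intro j hj
      constructor
      · rw [Nat.coprime_comm]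
        have := Nat.coprime_self_sub_left (Nat.one_le_pow j (Nat.card k) (by omega))
        refine Nat.Coprime.coprime_dvd_right (dvd_pow_self _ hj.ne') ?_
        rw [Nat.coprime_comm]
        exact (Nat.coprime_self_sub_right (Nat.one_le_pow j (Nat.card k) (by omega))).mpr (Nat.coprime_one_right _)
      · refine Nat.Coprime.coprime_dvd_left (dvd_pow_self _ hj.ne') ?_
        simp
    rcases sim_even h2 (m := l + 1) hn hM hd hz with h | ⟨-, h⟩
    · refine ⟨_, (hcop (l + 1) (by omega)).1, ?_⟩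
      rw [key (qPlus (l + 1) k) (by simp; ring) (nd_qPlus _) h, H7.HypOrd.card_O_plus]
    · refine ⟨_, (hcop (l + 1) (by omega)).2, ?_⟩
      have hani : H7.AnisoPlane.Aniso (1 : k) z := by
        intro z₁ z₂ h0
        by_cases h3 : z₂ = 0
        · subst h3
          refine ⟨?_, rfl⟩
          simpa using h0
        · exfalso
          apply hz (z₁ / z₂)
          field_simp
          linear_combination h0
      rw [key (qMinus (l + 1 - 1) k 1 z) (by simp; ring) (nd_qMinus _ (disc_ne_zero' hz)) h]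
      exact H7.MinusOrd.card_O_minus l hani
  obtain ⟨ε, hε, ho⟩ := horth
  rw [ho, hsp, Finset.prod_range_succ] at hcard
  have hpos : 0 < ∏ i ∈ Finset.range l, (Nat.card k ^ (2 * (i + 1)) - 1) := by
    apply Finset.prod_pos
    intro i _
    have : 1 < Nat.card k ^ (2 * (i + 1)) := Nat.one_lt_pow (by omega) (by omega)
    omega
  have hpp : 0 < Nat.card k ^ ((l + 1) * l) := Nat.pow_pos (by omega)
  have h6 : 2 * ε = Nat.card k ^ (l + 1) * (Nat.card k ^ (2 * (l + 1)) - 1) := by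
    have h7 : (Nat.card k ^ ((l + 1) * l) * ∏ i ∈ Finset.range l, (Nat.card k ^ (2 * (i + 1)) - 1)) * (2 * ε) =
        (Nat.card k ^ ((l + 1) * l) * ∏ i ∈ Finset.range l, (Nat.card k ^ (2 * (i + 1)) - 1)) *
          (Nat.card k ^ (l + 1) * (Nat.card k ^ (2 * (l + 1)) - 1)) := by
      have h8 : Nat.card k ^ ((l + 1) ^ 2) = Nat.card k ^ ((l + 1) * l) * Nat.card k ^ (l + 1) := by
        rw [← pow_add]; ring_nf
      rw [h8] at hcard
      calc _ = 2 * Nat.card k ^ ((l + 1) * l) * ε * ∏ i ∈ Finset.range l, (Nat.card k ^ (2 * (i + 1)) - 1) := by ring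
        _ = _ := by rw [hcard]; ring
    exact Nat.eq_of_mul_eq_mul_left (Nat.mul_pos hpp hpos) h7
  have h9 : Nat.card k ∣ 2 * ε := by
    rw [h6]
    exact Dvd.dvd.mul_right (dvd_pow_self _ (by omega)) _
  have h10 : Nat.Coprime (Nat.card k) (2 * ε) := Nat.Coprime.mul_right (hqodd.coprime_two_right) hε
  have := Nat.Coprime.eq_one_of_dvd h10 h9
  omega

end H6.GrCard
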