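import Mathlib
import Cfsg.Agent.Lib.H6.GrCard

/-!
An abstract dictionary between involutory graph automorphisms and (similarity classes of) symmetric or skew matrices
over a finite field `k`, and the resulting class and centralizer statements.
-/

set_option autoImplicit false
set_option linter.unusedSectionVars false

namespace H6.GrDict

open Matrix QuadraticMap H6.GrSim H6.GrForms H6.GrProj H6.GrCard H48.QuadSplit H48.FinFieldSq H48.QuadStd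

/-- dictionary between automorphisms and matrices over `k` -/
structure Dict {n : ℕ} {k : Type*} [Field k] {X : Type*} [Group X] (I : Subgroup X) (Gr : X → Prop)
    (R : X → Matrix (Fin n) (Fin n) k → Prop) : Prop where
  ex : ∀ γ, Gr γ → ∃ M, R γ M
  det : ∀ {γ M}, R γ M → M.det ≠ 0
  sym : ∀ {γ M}, R γ M → Mᵀ = M ∨ Mᵀ = -M
  surj : ∀ {M}, M.det ≠ 0 → (Mᵀ = M ∨ Mᵀ = -M) → ∃ γ, Gr γ ∧ R γ M
  conj : ∀ {γ γ' M M'}, R γ M → R γ' M' → (Cfsg.IsConjUnder I γ γ' ↔ Sim M M')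
  cent : ∀ {γ M}, R γ M → Nonempty (↥(I ⊓ Subgroup.centralizer {γ}) ≃* Cfsg.projQuot (simG M))

variable {n : ℕ} {k : Type*} [Field k] [Fintype k] {X : Type*} [Group X] {I : Subgroup X} {Gr : X → Prop}
  {R : X → Matrix (Fin n) (Fin n) k → Prop}

lemma exists_irred (k : Type*) [Field k] [Finite k] : ∃ z : k, ∀ t : k, t ^ 2 + t + z ≠ 0 := by
  by_cases h2 : (2 : k) = 0
  · have := charP_two_of_two_eq_zero h2
    exact H48.FinFieldSq.exists_irred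
  · obtain ⟨a, ha⟩ := exists_not_isSquare h2
    refine ⟨(1 - a) / 4, (irred_iff h2 _).mpr ?_⟩
    have h4 : (4 : k) ≠ 0 := by
      have : (4 : k) = 2 * 2 := by norm_num
      rw [this]; exact mul_ne_zero h2 h2
    rwa [mul_div_cancel₀ _ h4, sub_sub_cancel]

lemma aniso_of_irred {z : k} (hz : ∀ t : k, t ^ 2 + t + z ≠ 0) :
    ∀ z₁ z₂ : k, z₁ ^ 2 + 1 * z₁ * z₂ + z * z₂ ^ 2 = 0 → z₁ = 0 ∧ z₂ = 0 := by
  intro z₁ z₂ h0
  by_cases h3 : z₂ = 0
  · subst h3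
    refine ⟨?_, rfl⟩
    simpa using h0
  · exfalso
    apply hz (z₁ / z₂)
    field_simp
    linear_combination h0

/-- in odd dimension the matrices are symmetric non-alternating -/
lemma not_alt_odd {m : ℕ} (hn : n = 2 * m + 1) {M : Matrix (Fin n) (Fin n) k} (hd : M.det ≠ 0) : ¬ IsAlt M := by
  intro h
  obtain ⟨m', hm', -⟩ := alt_sim hd h
  rw [Fintype.card_fin] at hm'
  omega

lemma sym_odd {m : ℕ} (hn : n = 2 * m + 1) {M : Matrix (Fin n) (Fin n) k} (hd : M.det ≠ 0)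
    (hM : Mᵀ = M ∨ Mᵀ = -M) : Mᵀ = M := by
  rcases hM with h | h
  · exact h
  · by_cases h2 : (2 : k) = 0
    · rw [h]
      ext i j
      rw [Matrix.neg_apply]
      linear_combination (-M i j) * h2
    · exact absurd (isAlt_of_skew h2 h) (not_alt_odd hn hd)

theorem odd_sim {m : ℕ} (hn : n = 2 * m + 1) {M M' : Matrix (Fin n) (Fin n) k} (hd : M.det ≠ 0) (hd' : M'.det ≠ 0)
    (hM : Mᵀ = M ∨ Mᵀ = -M) (hM' : M'ᵀ = M' ∨ M'ᵀ = -M') : Sim M M' := by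
  by_cases h2 : (2 : k) = 0
  · exact sim_trans (sym_sim_one h2 (Fintype.card_fin n) hd (sym_odd hn hd hM) (not_alt_odd hn hd))
      (sim_symm (sym_sim_one h2 (Fintype.card_fin n) hd' (sym_odd hn hd' hM') (not_alt_odd hn hd')))
  · exact sim_trans (sim_odd h2 (m := m) (by rw [Fintype.card_fin, hn]) (sym_odd hn hd hM) hd)
      (sim_symm (sim_odd h2 (m := m) (by rw [Fintype.card_fin, hn]) (sym_odd hn hd' hM') hd'))

theorem odd_proj {m : ℕ} (hn : n = 2 * m + 1) {M : Matrix (Fin n) (Fin n) k} (hd : M.det ≠ 0)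
    (hM : Mᵀ = M ∨ Mᵀ = -M) : Nonempty (Cfsg.projQuot (simG M) ≃* Cfsg.PGO k (Cfsg.quadFormOdd m k)) := by
  by_cases h2 : (2 : k) = 0
  · obtain ⟨e1⟩ := projQuot_equiv (sym_sim_one h2 (Fintype.card_fin n) hd (sym_odd hn hd hM) (not_alt_odd hn hd))
    obtain ⟨e2⟩ := proj_odd_two (k := k) h2 m hn
    obtain ⟨e3⟩ := pgo_odd_two (k := k) h2 m
    exact ⟨(e1.trans e2).trans e3.symm⟩
  · obtain ⟨e1⟩ := projQuot_equiv (sim_odd h2 (m := m) (by rw [Fintype.card_fin, hn]) (sym_odd hn hd hM) hd)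
    rw [← quadSim_eq h2, coe_qOdd] at e1
    exact ⟨e1⟩

/-- **odd dimension** -/
theorem odd_case (D : Dict I Gr R) {m : ℕ} (hn : n = 2 * m + 1) {γ γ' : X} (hγ : Gr γ) (hγ' : Gr γ') :
    Nonempty (↥(I ⊓ Subgroup.centralizer {γ}) ≃* Cfsg.PGO k (Cfsg.quadFormOdd m k)) ∧ Cfsg.IsConjUnder I γ γ' := by
  obtain ⟨M, hM⟩ := D.ex γ hγ
  obtain ⟨M', hM'⟩ := D.ex γ' hγ'
  refine ⟨?_, (D.conj hM hM').mpr (odd_sim hn (D.det hM) (D.det hM') (D.sym hM) (D.sym hM'))⟩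
  obtain ⟨e1⟩ := D.cent hM
  obtain ⟨e2⟩ := odd_proj hn (D.det hM) (D.sym hM)
  exact ⟨e1.trans e2⟩

/-- reindexing a standard matrix to `Fin n` -/
lemma exists_reindex {κ : Type} [Fintype κ] [DecidableEq κ] (hc : Fintype.card κ = n) (G : Matrix κ κ k) :
    ∃ M : Matrix (Fin n) (Fin n) k, Sim M G ∧ M.det = G.det ∧ (Gᵀ = G → Mᵀ = M) ∧ (Gᵀ = -G → Mᵀ = -M) := by
  have e : κ ≃ Fin n := Fintype.equivFinOfCardEq hc
  refine ⟨Matrix.reindex e e G, ?_, Matrix.det_reindex_self e G, ?_, ?_⟩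
  · refine ⟨(1 : Matrix κ κ k).submatrix e.symm id, (1 : Matrix κ κ k).submatrix id e.symm, 1, ?_, ?_, ?_⟩
    · rw [← Matrix.submatrix_mul _ _ e.symm id e.symm Function.bijective_id, Matrix.one_mul]
      ext i j
      simp [Matrix.one_apply]
    · rw [← Matrix.submatrix_mul _ _ id e.symm id e.symm.bijective, Matrix.one_mul]
      ext i j
      simp [Matrix.one_apply]
    · rw [Matrix.reindex_apply, Matrix.transpose_submatrix, Matrix.transpose_one,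
        ← Matrix.submatrix_mul _ _ id e.symm e.symm e.symm.bijective, Matrix.one_mul,
        ← Matrix.submatrix_mul _ _ id e.symm id e.symm.bijective, Matrix.mul_one]
      simp
  · intro h
    rw [Matrix.transpose_reindex, h]
  · intro h
    rw [Matrix.transpose_reindex, h]
    ext i j
    simp

/-- **even dimension, odd characteristic** -/
theorem even_odd_case (D : Dict I Gr R) (h2 : (2 : k) ≠ 0) {m : ℕ} (hm : 2 ≤ m) (hn : n = 2 * m) :
    ∃ (γ₁ γ₂ γ₃ : X) (a b : k), (∀ z₁ z₂ : k, z₁ ^ 2 + a * z₁ * z₂ + b * z₂ ^ 2 = 0 → z₁ = 0 ∧ z₂ = 0) ∧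
      Gr γ₁ ∧ Gr γ₂ ∧ Gr γ₃ ∧ ¬ Cfsg.IsConjUnder I γ₁ γ₂ ∧ ¬ Cfsg.IsConjUnder I γ₁ γ₃ ∧ ¬ Cfsg.IsConjUnder I γ₂ γ₃ ∧
      (∀ γ : X, Gr γ → Cfsg.IsConjUnder I γ₁ γ ∨ Cfsg.IsConjUnder I γ₂ γ ∨ Cfsg.IsConjUnder I γ₃ γ) ∧
      Nonempty (↥(I ⊓ Subgroup.centralizer {γ₁}) ≃* Cfsg.PGSp m k) ∧
      Nonempty (↥(I ⊓ Subgroup.centralizer {γ₂}) ≃* Cfsg.PGO k (Cfsg.quadFormPlus m k)) ∧
      Nonempty (↥(I ⊓ Subgroup.centralizer {γ₃}) ≃* Cfsg.PGO k (Cfsg.quadFormMinus (m - 1) k a b)) := by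
  obtain ⟨z, hz⟩ := exists_irred k
  obtain ⟨l, rfl⟩ : ∃ l, m = l + 1 := ⟨m - 1, by omega⟩
  -- representatives
  have hJt : (Matrix.J (Fin (l + 1)) k)ᵀ = -Matrix.J (Fin (l + 1)) k := transpose_of_alt (isAlt_J (l + 1))
  obtain ⟨M₁, hs1, hd1, -, ht1⟩ := exists_reindex (k := k) (n := n) (by rw [hn]; simp; ring) (Matrix.J (Fin (l + 1)) k)
  obtain ⟨M₂, hs2, hd2, ht2, -⟩ := exists_reindex (k := k) (n := n) (by rw [hn]; simp; ring) (gram (qPlus (l + 1) k))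
  obtain ⟨M₃, hs3, hd3, ht3, -⟩ := exists_reindex (k := k) (n := n) (by rw [hn]; simp; ring) (gram (qMinus l k 1 z))
  have hd1' : M₁.det ≠ 0 := by rw [hd1]; exact (Matrix.isUnit_det_J (Fin (l + 1)) k).ne_zero
  have hd2' : M₂.det ≠ 0 := by rw [hd2]; exact (nd_iff_det _).mp (nd_qPlus _)
  have hd3' : M₃.det ≠ 0 := by rw [hd3]; exact (nd_iff_det _).mp (nd_qMinus _ (disc_ne_zero' hz))
  obtain ⟨γ₁, hg1, hR1⟩ := D.surj hd1' (Or.inr (ht1 hJt))
  obtain ⟨γ₂, hg2, hR2⟩ := D.surj hd2' (Or.inl (ht2 (gram_transpose _)))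
  obtain ⟨γ₃, hg3, hR3⟩ := D.surj hd3' (Or.inl (ht3 (gram_transpose _)))
  -- alternating is not symmetric
  have hne : ∀ {M M' : Matrix (Fin n) (Fin n) k}, M.det ≠ 0 → IsAlt M → M'ᵀ = M' → ¬ Sim M M' := by
    intro M M' hd hA hS h
    have hA' := isAlt_sim h hA
    have h3 := transpose_of_alt hA'
    rw [hS] at h3
    have h4 : (2 : k) • M' = 0 := by rw [two_smul]; nth_rewrite 1 [h3]; simp
    have h5 : M' = 0 := (smul_eq_zero.mp h4).resolve_left h2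
    have h6 := det_ne_zero_of_sim h hd
    have : Nonempty (Fin n) := ⟨⟨0, by omega⟩⟩
    rw [h5] at h6
    exact h6 Matrix.det_zero
  have hA1 : IsAlt M₁ := isAlt_sim (sim_symm hs1) (isAlt_J (l + 1))
  refine ⟨γ₁, γ₂, γ₃, 1, z, aniso_of_irred hz, hg1, hg2, hg3, ?_, ?_, ?_, ?_, ?_, ?_, ?_⟩
  · rw [D.conj hR1 hR2]
    exact hne hd1' hA1 (ht2 (gram_transpose _))
  · rw [D.conj hR1 hR3]
    exact hne hd1' hA1 (ht3 (gram_transpose _))
  · rw [D.conj hR2 hR3]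
    intro h
    exact not_sim h2 l hz (sim_trans (sim_symm hs2) (sim_trans h hs3))
  · intro γ hγ
    obtain ⟨M, hM⟩ := D.ex γ hγ
    rcases D.sym hM with h | h
    · rcases sim_even h2 (m := l + 1) (by rw [Fintype.card_fin, hn]) h (D.det hM) hz with h' | ⟨-, h'⟩
      · exact Or.inr (Or.inl ((D.conj hR2 hM).mpr (sim_trans hs2 (sim_symm h'))))
      · exact Or.inr (Or.inr ((D.conj hR3 hM).mpr (sim_trans hs3 (sim_symm h'))))
    · obtain ⟨m', hm', h'⟩ := alt_sim (D.det hM) (isAlt_of_skew h2 h)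
      rw [Fintype.card_fin] at hm'
      obtain rfl : m' = l + 1 := by omega
      exact Or.inl ((D.conj hR1 hM).mpr (sim_trans hs1 (sim_symm h')))
  · obtain ⟨e1⟩ := D.cent hR1
    obtain ⟨e2⟩ := projQuot_equiv hs1
    rw [← GSp_eq] at e2
    exact ⟨e1.trans e2⟩
  · obtain ⟨e1⟩ := D.cent hR2
    obtain ⟨e2⟩ := projQuot_equiv hs2
    rw [← quadSim_eq h2, coe_qPlus] at e2
    exact ⟨e1.trans e2⟩
  · obtain ⟨e1⟩ := D.cent hR3
    obtain ⟨e2⟩ := projQuot_equiv hs3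
    rw [← quadSim_eq h2, coe_qMinus] at e2
    exact ⟨e1.trans e2⟩

/-- **even dimension, characteristic two** -/
theorem even_two_case (D : Dict I Gr R) (h2 : (2 : k) = 0) {m : ℕ} (hm : 2 ≤ m) (hn : n = 2 * m) :
    ∃ (γ₁ γ₃ : X) (t : ↥(Matrix.symplecticGroup (Fin m) k)),
      Cfsg.IsTransvection (t : Matrix (Fin m ⊕ Fin m) (Fin m ⊕ Fin m) k) ∧ Gr γ₁ ∧ Gr γ₃ ∧
      ¬ Cfsg.IsConjUnder I γ₁ γ₃ ∧ (∀ γ : X, Gr γ → Cfsg.IsConjUnder I γ₁ γ ∨ Cfsg.IsConjUnder I γ₃ γ) ∧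
      Nonempty (↥(I ⊓ Subgroup.centralizer {γ₁}) ≃* ↥(Matrix.symplecticGroup (Fin m) k)) ∧
      Nonempty (↥(I ⊓ Subgroup.centralizer {γ₃}) ≃*
        ↥(Subgroup.centralizer ({t} : Set ↥(Matrix.symplecticGroup (Fin m) k)))) := by
  have hJt : (Matrix.J (Fin m) k)ᵀ = -Matrix.J (Fin m) k := transpose_of_alt (isAlt_J m)
  obtain ⟨M₁, hs1, hd1, -, ht1⟩ := exists_reindex (k := k) (n := n) (by rw [hn]; simp; ring) (Matrix.J (Fin m) k)
  have hd1' : M₁.det ≠ 0 := by rw [hd1]; exact (Matrix.isUnit_det_J (Fin m) k).ne_zero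
  obtain ⟨γ₁, hg1, hR1⟩ := D.surj hd1' (Or.inr (ht1 hJt))
  obtain ⟨γ₃, hg3, hR3⟩ := D.surj (M := (1 : Matrix (Fin n) (Fin n) k)) (by simp) (Or.inl (by simp))
  obtain ⟨t, ht, e3⟩ := exists_transv (k := k) h2 hn (by omega : 0 < m)
  have hA1 : IsAlt M₁ := isAlt_sim (sim_symm hs1) (isAlt_J m)
  have hnA : ¬ IsAlt (1 : Matrix (Fin n) (Fin n) k) := by
    intro h
    have := h (Pi.single ⟨0, by omega⟩ 1)
    simp at this
  refine ⟨γ₁, γ₃, t, ht, hg1, hg3, ?_, ?_, ?_, ?_⟩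
  · rw [D.conj hR1 hR3]
    intro h
    exact hnA (isAlt_sim h hA1)
  · intro γ hγ
    obtain ⟨M, hM⟩ := D.ex γ hγ
    by_cases hA : IsAlt M
    · obtain ⟨m', hm', h'⟩ := alt_sim (D.det hM) hA
      rw [Fintype.card_fin] at hm'
      obtain rfl : m' = m := by omega
      exact Or.inl ((D.conj hR1 hM).mpr (sim_trans hs1 (sim_symm h')))
    · have hS : Mᵀ = M := by
        rcases D.sym hM with h | h
        · exact h
        · rw [h]
          ext i j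
          rw [Matrix.neg_apply]
          linear_combination (-M i j) * h2
      exact Or.inr ((D.conj hR3 hM).mpr (sim_symm (sym_sim_one h2 (Fintype.card_fin n) (D.det hM) hS hA)))
  · obtain ⟨e1⟩ := D.cent hR1
    obtain ⟨e2⟩ := projQuot_equiv hs1
    obtain ⟨e4⟩ := proj_J (k := k) h2 (by omega : 0 < m)
    exact ⟨(e1.trans e2).trans e4⟩
  · obtain ⟨e1⟩ := D.cent hR3
    obtain ⟨e2⟩ := e3
    exact ⟨e1.trans e2⟩

/-- the class of the identity matrix -/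
theorem one_case (D : Dict I Gr R) (h2 : (2 : k) ≠ 0) {m : ℕ} (hm : 1 ≤ m) (hn : n = 2 * m) {γ : X}
    (hR : R γ (1 : Matrix (Fin n) (Fin n) k)) :
    (IsSquare ((-1 : k) ^ m) → Nonempty (↥(I ⊓ Subgroup.centralizer {γ}) ≃* Cfsg.PGO k (Cfsg.quadFormPlus m k))) ∧
    (¬ IsSquare ((-1 : k) ^ m) → ∃ a b : k, (∀ z₁ z₂ : k, z₁ ^ 2 + a * z₁ * z₂ + b * z₂ ^ 2 = 0 → z₁ = 0 ∧ z₂ = 0) ∧
      Nonempty (↥(I ⊓ Subgroup.centralizer {γ}) ≃* Cfsg.PGO k (Cfsg.quadFormMinus (m - 1) k a b))) := by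
  have key := sim_plus_iff h2 (m := m) (ι := Fin n) (by rw [Fintype.card_fin, hn])
    (M := (1 : Matrix (Fin n) (Fin n) k)) (by simp) (by simp)
  rw [Matrix.det_one, mul_one] at key
  obtain ⟨e1⟩ := D.cent hR
  constructor
  · intro h
    obtain ⟨e2⟩ := projQuot_equiv (key.mpr h)
    rw [← quadSim_eq h2, coe_qPlus] at e2
    exact ⟨e1.trans e2⟩
  · intro h
    obtain ⟨z, hz⟩ := exists_irred k
    refine ⟨1, z, aniso_of_irred hz, ?_⟩
    rcases sim_even h2 (m := m) (ι := Fin n) (by rw [Fintype.card_fin, hn])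
      (M := (1 : Matrix (Fin n) (Fin n) k)) (by simp) (by simp) hz with h' | ⟨-, h'⟩
    · exact absurd (key.mp h') h
    · obtain ⟨e2⟩ := projQuot_equiv h'
      rw [← quadSim_eq h2, coe_qMinus] at e2
      exact ⟨e1.trans e2⟩

/-- recognising the symplectic class from the centralizer -/
theorem alt_iff (D : Dict I Gr R) (h2 : (2 : k) ≠ 0) {m : ℕ} (hm : 1 ≤ m) (hn : n = 2 * m) {γ : X}
    {M : Matrix (Fin n) (Fin n) k} (hR : R γ M) :
    Nonempty (↥(I ⊓ Subgroup.centralizer {γ}) ≃* Cfsg.PGSp m k) ↔ Mᵀ = -M := by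
  obtain ⟨e1⟩ := D.cent hR
  constructor
  · rintro ⟨e⟩
    rcases D.sym hR with h | h
    · exfalso
      exact not_equiv h2 (by omega : 0 < m) (by rw [Fintype.card_fin, hn]) h (D.det hR) ⟨e1.symm.trans e⟩
    · exact h
  · intro h
    obtain ⟨m', hm', h'⟩ := alt_sim (D.det hR) (isAlt_of_skew h2 h)
    rw [Fintype.card_fin] at hm'
    obtain rfl : m' = m := by omega
    obtain ⟨e2⟩ := projQuot_equiv h'
    rw [← GSp_eq] at e2
    exact ⟨e1.trans e2⟩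

end H6.GrDict
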