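import Mathlib
import Cfsg.Agent.Lib.H6.GrDict

/-!
Determinants of similitudes.
-/

set_option autoImplicit false
set_option linter.unusedSectionVars false

namespace H6.GrDet

open Matrix QuadraticMap H6.GrSim H6.GrForms H6.GrProj H6.GrCard H48.FinFieldSq

variable {n : ℕ} {k : Type*} [Field k]

lemma det_sq {M s : Matrix (Fin n) (Fin n) k} (hM : M.det ≠ 0) {c : k} (h : sᵀ * M * s = c • M) :
    s.det ^ 2 = c ^ n := by
  have h1 := congrArg Matrix.det h
  rw [Matrix.det_mul, Matrix.det_mul, Matrix.det_transpose, Matrix.det_smul, Fintype.card_fin] at h1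
  apply mul_right_cancel₀ hM
  linear_combination h1

/-- similitudes of `J` -/
lemma det_J {m : ℕ} {s : Matrix (Fin m ⊕ Fin m) (Fin m ⊕ Fin m) k} {c : kˣ}
    (h : sᵀ * Matrix.J (Fin m) k * s = (c : k) • Matrix.J (Fin m) k) : s.det = (c : k) ^ m := by
  set D : Matrix (Fin m ⊕ Fin m) (Fin m ⊕ Fin m) k := Matrix.fromBlocks (((c⁻¹ : kˣ) : k) • 1) 0 0 1 with hD
  have hDJ : Dᵀ * Matrix.J (Fin m) k * D = ((c⁻¹ : kˣ) : k) • Matrix.J (Fin m) k := by
    rw [hD, Matrix.J, Matrix.fromBlocks_transpose, Matrix.fromBlocks_multiply, Matrix.fromBlocks_multiply,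
      Matrix.fromBlocks_smul]
    simp
  have hmem : s * D ∈ Matrix.symplecticGroup (Fin m) k := by
    rw [SymplecticGroup.mem_iff', Matrix.transpose_mul]
    calc Dᵀ * sᵀ * Matrix.J (Fin m) k * (s * D) = Dᵀ * (sᵀ * Matrix.J (Fin m) k * s) * D := by
          simp only [Matrix.mul_assoc]
      _ = _ := by
        rw [h, Matrix.mul_smul, Matrix.smul_mul, hDJ, smul_smul, ← Units.val_mul, mul_inv_cancel, Units.val_one,
          one_smul]
  have h1 := SymplecticGroup.det_eq_one hmem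
  have hdD : D.det = ((c⁻¹ : kˣ) : k) ^ m := by
    rw [hD, Matrix.det_fromBlocks_zero₂₁, Matrix.det_one, mul_one, Matrix.det_smul, Matrix.det_one, mul_one,
      Fintype.card_fin]
  rw [Matrix.det_mul, hdD, Units.val_inv_eq_inv_val, inv_pow] at h1
  have hc : (c : k) ^ m ≠ 0 := pow_ne_zero _ c.ne_zero
  field_simp at h1
  exact h1

/-- alternating forms -/
lemma det_alt {m : ℕ} (hn : n = 2 * m) {M s : Matrix (Fin n) (Fin n) k} (hM : M.det ≠ 0) (hA : IsAlt M) {c : kˣ}
    (h : sᵀ * M * s = (c : k) • M) : s.det = (c : k) ^ m := by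
  obtain ⟨m', hm', P, P', h1, h2, h3⟩ := alt_congr hM hA
  rw [Fintype.card_fin] at hm'
  obtain rfl : m' = m := by omega
  have hPt : P'ᵀ * Pᵀ = 1 := by rw [← Matrix.transpose_mul, h1, Matrix.transpose_one]
  have h4 : (P' * s * P)ᵀ * Matrix.J (Fin m') k * (P' * s * P) = (c : k) • Matrix.J (Fin m') k := by
    calc (P' * s * P)ᵀ * Matrix.J (Fin m') k * (P' * s * P)
        = Pᵀ * sᵀ * (P'ᵀ * Pᵀ) * M * (P * P') * s * P := by
          rw [← h3, Matrix.transpose_mul, Matrix.transpose_mul]; simp only [Matrix.mul_assoc]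
      _ = Pᵀ * (sᵀ * M * s) * P := by
          rw [hPt, h1, Matrix.mul_one, Matrix.mul_one]; simp only [Matrix.mul_assoc]
      _ = _ := by rw [h, Matrix.mul_smul, Matrix.smul_mul, h3]
  rw [← det_J h4]
  have e : Fin m' ⊕ Fin m' ≃ Fin n := Fintype.equivFinOfCardEq (by rw [← hm']; simp; ring)
  calc s.det = (s * (P.submatrix id e.symm * P'.submatrix e.symm id)).det := by
        rw [← Matrix.submatrix_mul _ _ id e.symm id e.symm.bijective, h1]; simp
    _ = (P'.submatrix e.symm id * (s * P.submatrix id e.symm)).det := by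
        rw [← Matrix.mul_assoc, Matrix.det_mul_comm]
    _ = ((P' * s * P).submatrix e.symm e.symm).det := by
        rw [Matrix.mul_assoc, Matrix.submatrix_mul P' (s * P) e.symm id e.symm Function.bijective_id,
          Matrix.submatrix_mul s P id id e.symm Function.bijective_id]
        simp
    _ = _ := Matrix.det_submatrix_equiv_self e.symm _

section finite

variable [Finite k]

/-- all multipliers occur for alternating forms -/
lemma exists_alt {m : ℕ} (hn : n = 2 * m) (hm : 0 < m) {M : Matrix (Fin n) (Fin n) k} (hM : M.det ≠ 0) (hA : IsAlt M)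
    (c : kˣ) : ∃ s : GL (Fin n) k, (s : Matrix (Fin n) (Fin n) k)ᵀ * M * (s : Matrix (Fin n) (Fin n) k) = (c : k) • M := by
  obtain ⟨m', hm', h⟩ := alt_sim hM hA
  rw [Fintype.card_fin] at hm'
  obtain rfl : m' = m := by omega
  have hM0 : M ≠ 0 := by
    have : Nonempty (Fin n) := ⟨⟨0, by omega⟩⟩
    intro h0; rw [h0] at hM; exact hM Matrix.det_zero
  obtain ⟨s, hs⟩ := mult_surj_of_sim hM0 (J_ne_zero (k := k) hm) (sim_symm h) (exists_multiplier_J m') c
  exact ⟨s, by rw [← hs]; exact mult_spec hM0 s⟩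

/-- symmetric forms in even dimension: determinants -/
lemma det_sym {m : ℕ} (hn : n = 2 * m) {M s : Matrix (Fin n) (Fin n) k} (hM : M.det ≠ 0) {c : k}
    (h : sᵀ * M * s = c • M) : s.det = c ^ m ∨ s.det = -(c ^ m) := by
  have h1 := det_sq hM h
  have h3 : c ^ n = (c ^ m) ^ 2 := by rw [hn]; ring
  rw [h3] at h1
  exact sq_eq_sq_iff_eq_or_eq_neg.mp h1

/-- symmetric forms in even dimension: all multipliers and signs occur -/
lemma exists_sym (h2 : (2 : k) ≠ 0) {m : ℕ} (hn : n = 2 * m) (hm : 0 < m) {M : Matrix (Fin n) (Fin n) k}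
    (hM : M.det ≠ 0) (hS : Mᵀ = M) (c : kˣ) (ε : k) (hε : ε = 1 ∨ ε = -1) :
    ∃ s : GL (Fin n) k, (s : Matrix (Fin n) (Fin n) k)ᵀ * M * (s : Matrix (Fin n) (Fin n) k) = (c : k) • M ∧
      (s : Matrix (Fin n) (Fin n) k).det = ε * (c : k) ^ m := by
  obtain ⟨s, hs⟩ := exists_multiplier h2 (m := m) (ι := Fin n) (by rw [Fintype.card_fin, hn]) hS hM c
  have : Nonempty (Fin n) := ⟨⟨0, by omega⟩⟩
  obtain ⟨r, hr, hr'⟩ := exists_reflection h2 hS hM
  have hrs : ((r * s : GL (Fin n) k) : Matrix (Fin n) (Fin n) k)ᵀ * M * ((r * s : GL (Fin n) k) : Matrix (Fin n) (Fin n) k) =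
      (c : k) • M := by
    rw [Units.val_mul, Matrix.transpose_mul, ← hs]
    conv_rhs => rw [← hr]
    simp only [Matrix.mul_assoc]
  have hdet : ((r * s : GL (Fin n) k) : Matrix (Fin n) (Fin n) k).det = -(s : Matrix (Fin n) (Fin n) k).det := by
    rw [Units.val_mul, Matrix.det_mul, hr']; ring
  rcases det_sym hn hM hs with h | h <;> rcases hε with rfl | rfl
  · exact ⟨s, hs, by rw [h, one_mul]⟩
  · exact ⟨r * s, hrs, by rw [hdet, h]; ring⟩
  · exact ⟨r * s, hrs, by rw [hdet, h]; ring⟩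
  · exact ⟨s, hs, by rw [h]; ring⟩

/-- odd dimension or characteristic two -/
lemma det_else (h : ¬ (Even n ∧ (2 : k) ≠ 0)) {M s : Matrix (Fin n) (Fin n) k} (hM : M.det ≠ 0) {c : kˣ}
    (hs : sᵀ * M * s = (c : k) • M) : ∃ t : kˣ, c = t ^ 2 ∧ s.det = (t : k) ^ n := by
  have h1 := det_sq hM hs
  rcases Nat.even_or_odd' n with ⟨m, hm | hm⟩
  · have h2 : (2 : k) = 0 := by
      by_contra h2
      exact h ⟨⟨m, by omega⟩, h2⟩
    have := charP_two_of_two_eq_zero h2
    obtain ⟨b, hb⟩ := exists_sqrt (c : k)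
    have hb0 : b ≠ 0 := by
      rintro rfl
      apply c.ne_zero
      rw [← hb]; simp
    refine ⟨Units.mk0 b hb0, Units.ext (by simp [hb]), ?_⟩
    apply sq_inj h2
    rw [h1, ← hb, Units.val_mk0]; ring
  · have hs0 : s.det ≠ 0 := by
      intro h0
      rw [h0] at h1
      have : (c : k) ^ n ≠ 0 := pow_ne_zero _ c.ne_zero
      apply this
      rw [← h1]; simp
    have hc := c.ne_zero
    have ht0 : s.det / (c : k) ^ m ≠ 0 := div_ne_zero hs0 (pow_ne_zero _ hc)
    have ht2 : (s.det / (c : k) ^ m) ^ 2 = c := by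
      rw [div_pow, h1, hm]
      field_simp
      ring
    refine ⟨Units.mk0 _ ht0, Units.ext ?_, ?_⟩
    · rw [Units.val_pow_eq_pow_val, Units.val_mk0, ht2]
    · rw [Units.val_mk0]
      have h5 : (s.det / (c : k) ^ m) ^ n = ((s.det / (c : k) ^ m) ^ 2) ^ m * (s.det / (c : k) ^ m) := by
        rw [← pow_mul, ← pow_succ]
        congr 1
      rw [h5, ht2]
      field_simp

end finite

end H6.GrDet
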