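import Cfsg.Agent.Lib.H6.PSUField

/-!
Centralizers of field automorphisms of `PSU_n(q)` as `PGU` over the fixed field; the final statement.
-/

set_option autoImplicit false
set_option linter.unusedSectionVars false

namespace H6.PSUField2

open Matrix H50.PSLBasic H50.SpBasic H50.H90 H50.PSLCount H50.PSLField H50.ClassCount
  H6.PSUBasic H6.PSUUniq H6.PSUOut H6.PSUNorm H6.PSUField

variable {n q : ℕ} {F : Type*} [Field F] [Fintype F]

section j

variable {F₀ : Type*} [Field F₀] [Fintype F₀] {q₀ r : ℕ}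

lemma j_pow (hF₀ : Fintype.card F₀ = q₀ ^ 2) (hodd : Odd r) (hq : q = q₀ ^ r) (j : F₀ →+* F) (x : F₀) :
    (j x) ^ q = j (x ^ q₀) := by
  rw [← map_pow, hq, pow_q0 hF₀ hodd]

lemma card_dvU_ker (hF₀ : Fintype.card F₀ = q₀ ^ 2) (hodd : Odd r) (hq : q = q₀ ^ r) {σ : F ≃+* F} {j : F₀ →+* F}
    (hj : ∀ x, (∃ c, j c = x) ↔ σ x = x) : Nat.card (dvU (F := F) (q := q) σ).ker = q₀ + 1 := by
  rw [← H44.UField.card_ker hF₀]
  symm
  have hmem : ∀ u : NU F₀ q₀, Units.map j.toMonoidHom (u : F₀ˣ) ∈ (H44.UField.normHom F q).ker := by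
    intro u
    rw [mem_NU]
    apply Units.ext
    change (j ((u : F₀ˣ) : F₀)) ^ (q + 1) = 1
    rw [pow_succ, j_pow hF₀ hodd hq, ← map_mul, ← pow_succ]
    have : ((u : F₀ˣ) : F₀) ^ (q₀ + 1) = 1 := congrArg Units.val (NU_pow u)
    rw [this, map_one]
  refine Nat.card_congr (Equiv.ofBijective (fun u : NU F₀ q₀ =>
    (⟨⟨Units.map j.toMonoidHom (u : F₀ˣ), hmem u⟩, mem_dvU_ker.2 ((hj _).1 ⟨_, rfl⟩)⟩ :
      (dvU (F := F) (q := q) σ).ker)) ⟨?_, ?_⟩)
  · intro u v huv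
    apply Subtype.ext
    apply Units.ext
    apply j.injective
    have := congrArg (fun w : (dvU (F := F) (q := q) σ).ker => (((w : NU F q) : Fˣ) : F)) huv
    exact this
  · rintro ⟨v, hv⟩
    obtain ⟨c, hc⟩ := (hj _).2 (mem_dvU_ker.1 hv)
    have hc0 : c ≠ 0 := by
      rintro rfl
      rw [map_zero] at hc
      exact (v : Fˣ).ne_zero hc.symm
    have hcn : c ^ (q₀ + 1) = 1 := by
      apply j.injective
      rw [pow_succ, map_mul, ← j_pow hF₀ hodd hq, hc, ← pow_succ, map_one]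
      exact congrArg Units.val (NU_pow v)
    refine ⟨⟨Units.mk0 c hc0, mem_NU.2 (Units.ext hcn)⟩, ?_⟩
    apply Subtype.ext
    apply Subtype.ext
    apply Units.ext
    exact hc

lemma index_dvU_ker (hF : Fintype.card F = q ^ 2) (hF₀ : Fintype.card F₀ = q₀ ^ 2) (hodd : Odd r)
    (hq : q = q₀ ^ r) {σ : F ≃+* F} {j : F₀ →+* F}
    (hj : ∀ x, (∃ c, j c = x) ↔ σ x = x) : (dvU (F := F) (q := q) σ).ker.index = (q + 1) / (q₀ + 1) := by
  have h1 := Subgroup.card_mul_index (dvU (F := F) (q := q) σ).ker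
  rw [card_dvU_ker hF₀ hodd hq hj, H44.UField.card_ker hF] at h1
  rw [← h1, Nat.mul_div_cancel_left _ (by omega)]

lemma glHom_mem_iff (hF : Fintype.card F = q ^ 2) (hF₀ : Fintype.card F₀ = q₀ ^ 2) (hodd : Odd r)
    (hq : q = q₀ ^ r) (j : F₀ →+* F) (k : GL (Fin n) F₀) :
    glHom j k ∈ Cfsg.GU n F q ↔ k ∈ Cfsg.GU n F₀ q₀ := by
  have hmap : (((k : Matrix (Fin n) (Fin n) F₀)ᵀ * (k : Matrix (Fin n) (Fin n) F₀).map (bar hF₀))).map j =
      ((k : Matrix (Fin n) (Fin n) F₀).map j)ᵀ * ((k : Matrix (Fin n) (Fin n) F₀).map j).map (bar hF) := by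
    rw [Matrix.map_mul]
    congr 1
    ext a b
    rw [Matrix.map_apply, Matrix.map_apply, Matrix.map_apply, Matrix.map_apply, bar_apply, bar_apply,
      j_pow hF₀ hodd hq]
  rw [mem_GU_iff hF, mem_GU_iff hF₀, glHom_coe, ← hmap]
  have h1 : (1 : Matrix (Fin n) (Fin n) F₀).map j = 1 := by
    rw [Matrix.map_one j (map_zero j) (map_one j)]
  constructor
  · intro h
    rw [← h1] at h
    exact Matrix.map_injective j.injective h
  · intro h
    rw [h, h1]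

/-- the embedding of the unitary group over the subfield -/
def guHom (hF : Fintype.card F = q ^ 2) (hF₀ : Fintype.card F₀ = q₀ ^ 2) (hodd : Odd r)
    (hq : q = q₀ ^ r) (j : F₀ →+* F) : Cfsg.GU n F₀ q₀ →* Cfsg.GU n F q where
  toFun k := ⟨glHom j (k : GL (Fin n) F₀), (glHom_mem_iff hF hF₀ hodd hq j (k : GL (Fin n) F₀)).mpr k.2⟩
  map_one' := Subtype.ext (map_one (glHom j))
  map_mul' a b := Subtype.ext (map_mul (glHom j) (a : GL (Fin n) F₀) (b : GL (Fin n) F₀))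

lemma guHom_coe (hF : Fintype.card F = q ^ 2) (hF₀ : Fintype.card F₀ = q₀ ^ 2) (hodd : Odd r)
    (hq : q = q₀ ^ r) (j : F₀ →+* F) (k : Cfsg.GU n F₀ q₀) :
    ((guHom hF hF₀ hodd hq j k : Cfsg.GU n F q) : GL (Fin n) F) = glHom j (k : GL (Fin n) F₀) := rfl

/-- the homomorphism `g ↦ psiSU g 1` -/
def psiHomU : Cfsg.GU n F q →* MulAut (Cfsg.PSU n F q) :=
  MonoidHom.mk' (fun g => psiSU g 1) (fun a b => by
    rw [psiSU_mul, guMap_one_apply, mul_one])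

lemma psiHomU_apply (g : Cfsg.GU n F q) : psiHomU g = psiSU g 1 := rfl

theorem centralizer_std (hF : Fintype.card F = q ^ 2) (hn : 3 ≤ n) {σ : F ≃+* F}
    (hr : orderOf σ = r) (hodd : Odd r) (hF₀ : Fintype.card F₀ = q₀ ^ 2) (hq : q = q₀ ^ r) {j : F₀ →+* F}
    (hj : ∀ x, (∃ c, j c = x) ↔ σ x = x) :
    Nonempty (↥(Cfsg.inndiagPSU n F q ⊓ Subgroup.centralizer {psiSU 1 σ}) ≃* Cfsg.PGU n F₀ q₀) := by
  have hne : Nonempty (Fin n) := ⟨⟨0, by omega⟩⟩
  set J : Cfsg.GU n F₀ q₀ →* Cfsg.GU n F q := guHom hF hF₀ hodd hq j with hJdef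
  have hJ : ∀ k : Cfsg.GU n F₀ q₀, (J k : GL (Fin n) F) = glHom j (k : GL (Fin n) F₀) :=
    guHom_coe hF hF₀ hodd hq j
  have hf : ∀ k, (psiHomU.comp J) k = psiSU (J k) 1 := fun _ => rfl
  apply nonempty_mulEquiv (psiHomU.comp J)
    ((Cfsg.Geo.scalars (Fin n) F₀).subgroupOf (Cfsg.GU n F₀ q₀))
  · intro x
    rw [Subgroup.mem_inf]
    constructor
    · rintro ⟨hx1, hx2⟩
      obtain ⟨g, rfl⟩ := mem_inndiag_iff.mp hx1
      obtain ⟨w, h, rfl, hh⟩ := (psiSU_mem_centralizer_std hF hn hr hodd).mp hx2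
      obtain ⟨k, hk⟩ := (glMap_eq_self_iff hj (h : GL (Fin n) F)).mp (congrArg Subtype.val hh)
      refine ⟨⟨k, (glHom_mem_iff hF hF₀ hodd hq j k).mp (by rw [hk]; exact h.2)⟩, ?_⟩
      rw [hf, psiSU_scG_mul]
      have : J ⟨k, (glHom_mem_iff hF hF₀ hodd hq j k).mp (by rw [hk]; exact h.2)⟩ = h :=
        Subtype.ext ((hJ _).trans hk)
      rw [this]
    · rintro ⟨k, rfl⟩
      rw [hf]
      refine ⟨mem_inndiag_iff.mpr ⟨_, rfl⟩, ?_⟩
      exact (psiSU_mem_centralizer_std hF hn hr hodd).mpr ⟨1, _, by rw [map_one, one_mul],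
        Subtype.ext ((glMap_eq_self_iff hj _).mpr ⟨k, (hJ k).symm⟩)⟩
  · intro k
    rw [hf, psiSU_eq_one_iff hF hn]
    have h0 : k ∈ (Cfsg.Geo.scalars (Fin n) F₀).subgroupOf (Cfsg.GU n F₀ q₀) ↔
      (k : GL (Fin n) F₀) ∈ Cfsg.Geo.scalars (Fin n) F₀ := Iff.rfl
    rw [h0]
    have h1 : (∃ u : NU F q, J k = scG n u) ↔
        ∃ u : Fˣ, glHom j (k : GL (Fin n) F₀) = sc u := by
      constructor
      · rintro ⟨u, hu⟩
        refine ⟨(u : Fˣ), ?_⟩
        rw [← hJ, hu]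
        rfl
      · rintro ⟨u, hu⟩
        have h2 : gt (J k) = (u : F) • gt (1 : Cfsg.GU n F q) := by
          rw [gt, hJ, hu, sc_coe]
          rfl
        have h3 := norm_of_smul (by omega) h2
        exact ⟨⟨u, mem_NU.2 (Units.ext h3)⟩, Subtype.ext ((hJ k).trans hu)⟩
    have h2 : (∃ u : Fˣ, glHom j (k : GL (Fin n) F₀) = sc u) ↔
        (k : GL (Fin n) F₀) ∈ Cfsg.Geo.scalars (Fin n) F₀ := by
      rw [glHom_eq_sc_iff]
      constructor
      · rintro ⟨u, hu⟩; exact ⟨u, hu.symm⟩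
      · rintro ⟨u, hu⟩; exact ⟨u, hu.symm⟩
    rw [h1, h2]
    constructor
    · rintro ⟨-, h⟩; exact h
    · intro h; exact ⟨rfl, h⟩

end j

theorem prime_order {p f : ℕ} [Fact p.Prime] (hq : q = p ^ f) (hf : 1 ≤ f) (hF : Fintype.card F = q ^ 2)
    (hn : 3 ≤ n) (hs : ¬ (n = 3 ∧ q = 2)) (x : MulAut (Cfsg.PSU n F q)) (hx : Cfsg.IsFieldAutClassPSU x)
    {r : ℕ} (hr : r.Prime) (hro : Odd r) (hxr : orderOf x = r) (F₀ : Type*) [Field F₀] [Fintype F₀]
    (hF₀ : Fintype.card F₀ = p ^ (2 * (f / r))) :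
    r ∣ f ∧ Nonempty (↥(Cfsg.inndiagPSU n F q ⊓ Subgroup.centralizer {x}) ≃* Cfsg.PGU n F₀ (p ^ (f / r))) ∧
      Cfsg.splitClassCount (Cfsg.inndiagPSU n F q) (Cfsg.Inn (Cfsg.PSU n F q)) x =
        Nat.gcd n ((q + 1) / (p ^ (f / r) + 1)) := by
  have hnorm := inndiag_normal hF hn hs
  obtain ⟨α, σ, hσ, hσo, hα⟩ := fieldClass_iff.mp hx
  have hσr : orderOf σ = r := by rw [← orderOf_psiSU_std hF hn, ← hα, orderOf_conj, hxr]
  have hFn : Nat.card F = p ^ (2 * f) := by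
    rw [Nat.card_eq_fintype_card, hF, hq, ← pow_mul, mul_comm]
  have hchar : CharP F p := H50.FieldAut.charP_of_card p hFn
  have hrf : r ∣ f := by
    have h1 : r ∣ 2 * f := by
      rw [← H50.FieldAut.card_ringAut p hFn, ← hσr]
      exact orderOf_dvd_natCard σ
    rcases (Nat.Prime.dvd_mul hr).1 h1 with h2 | h2
    · exfalso
      have := (Nat.prime_dvd_prime_iff_eq hr Nat.prime_two).1 h2
      subst this
      exact absurd hro (by decide)
    · exact h2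
  obtain ⟨k, hk⟩ := hrf
  have hk' : f / r = k := by rw [hk, Nat.mul_div_cancel_left _ hr.pos]
  rw [hk'] at hF₀ ⊢
  have hF₀' : Fintype.card F₀ = (p ^ k) ^ 2 := by rw [hF₀, ← pow_mul, mul_comm]
  have hqq : q = (p ^ k) ^ r := by rw [hq, hk, ← pow_mul, mul_comm]
  have hc : Nat.card F₀ = Nat.card (H49.FixedField.fixedField σ) := by
    rw [H49.FixedField.card_fixedField σ (q₀ := (p ^ k) ^ 2) hr.ne_zero (by
      rw [Nat.card_eq_fintype_card, hF, hqq, pow_right_comm]) hσr,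
      Nat.card_eq_fintype_card, hF₀']
  obtain ⟨j, hj⟩ := exists_embedding (F₀ := F₀) σ hc
  refine ⟨⟨k, hk⟩, ?_, ?_⟩
  · obtain ⟨e⟩ := centralizer_std (n := n) hF hn hσr hro hF₀' hqq hj
    rw [← hα] at e
    exact ⟨(centralizerConj _ α x).symm.trans e⟩
  · rw [← splitClassCount_conj _ _ α, hα, splitClassCount_field hF hn hσr hro,
      index_dvU_ker hF hF₀' hro hqq hj]

end H6.PSUField2
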