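import Mathlib
import Cfsg.Agent.Lib.H6.GrDet
import Cfsg.Agent.Lib.H6.PSUField2
import Cfsg.Agent.Lib.H50.FieldAut2

/-!
The dictionary between involutory graph automorphisms of `PSU_n(q)` and symmetric or skew matrices over the field with
`q` elements (descent of the Hermitian form).
-/

set_option autoImplicit false
set_option linter.unusedSectionVars false

namespace H6.GrPSU

open Matrix H50.PSLBasic H50.H90 H50.PSLField H50.ClassCount H50.PSLCount H6.GrSim H6.GrForms H6.GrProj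
  H6.GrCard H6.GrDict H6.GrDet H6.PSUBasic H6.PSUUniq H6.PSUOut H6.PSUNorm H6.PSUField

variable {n q : ℕ} {F : Type*} [Field F]

/-! ### Hermitian Gram matrices -/

section herm

variable (σ : F ≃+* F)

/-- `σ(X)ᵀ X` -/
def herm (X : GL (Fin n) F) : Matrix (Fin n) (Fin n) F := ((X : Matrix (Fin n) (Fin n) F).map σ)ᵀ * X

lemma herm_mul (X Y : GL (Fin n) F) :
    herm σ (X * Y) = ((Y : Matrix (Fin n) (Fin n) F).map σ)ᵀ * herm σ X * (Y : Matrix (Fin n) (Fin n) F) := by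
  rw [herm, herm, Units.val_mul, map_mul_ringEquiv, Matrix.transpose_mul]
  simp only [Matrix.mul_assoc]

lemma herm_mul_left {X : GL (Fin n) F} (hX : herm σ X = 1) (Y : GL (Fin n) F) : herm σ (X * Y) = herm σ Y := by
  rw [herm_mul, hX, Matrix.mul_one]; rfl

lemma herm_sc (u : Fˣ) (X : GL (Fin n) F) : herm σ (sc u * X) = (σ u * u) • herm σ X := by
  rw [herm, herm, sc_mul_coe]
  have : ((u : F) • (X : Matrix (Fin n) (Fin n) F)).map σ = σ u • (X : Matrix (Fin n) (Fin n) F).map σ := by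
    ext i j; simp
  rw [this, Matrix.transpose_smul, Matrix.smul_mul, Matrix.mul_smul, smul_smul]

lemma herm_transpose (hσ2 : ∀ x, σ (σ x) = x) (X : GL (Fin n) F) : (herm σ X)ᵀ = (herm σ X).map σ := by
  have h1 : ((X : Matrix (Fin n) (Fin n) F).map σ).map σ = X := by
    ext i j; simp [hσ2]
  rw [herm, Matrix.transpose_mul, Matrix.transpose_transpose, map_mul_ringEquiv, Matrix.transpose_map, h1]

lemma herm_one : herm σ (1 : GL (Fin n) F) = 1 := by
  rw [herm, Units.val_one, Matrix.map_one σ (map_zero σ) (map_one σ), Matrix.transpose_one, Matrix.one_mul]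

end herm

variable [Fintype F]

lemma mem_GU_herm (hF : Fintype.card F = q ^ 2) {g : GL (Fin n) F} : g ∈ Cfsg.GU n F q ↔ herm (bar hF) g = 1 := by
  rw [H6.PSUNorm.mem_GU_iff hF]
  have h1 : herm (bar hF) g = ((g : Matrix (Fin n) (Fin n) F)ᵀ * (g : Matrix (Fin n) (Fin n) F).map (bar hF))ᵀ := by
    rw [herm, Matrix.transpose_mul, Matrix.transpose_transpose]
  rw [h1]
  constructor
  · intro h; rw [h, Matrix.transpose_one]
  · intro h
    have := congrArg Matrix.transpose h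
    rwa [Matrix.transpose_transpose, Matrix.transpose_one] at this

/-- for unitary `g`: `g⁻ᵀ = σ(g)` -/
lemma inv_transpose (hF : Fintype.card F = q ^ 2) {g : GL (Fin n) F} (hg : g ∈ Cfsg.GU n F q) :
    glMap (bar hF) g = glInvTr g := by
  rw [eq_comm, ← inv_inv (glInvTr g), inv_eq_iff_mul_eq_one]
  apply Units.ext
  rw [Units.val_mul, glMap_coe, glInvTr_inv_coe, Units.val_one]
  exact (H6.PSUNorm.mem_GU_iff hF).mp hg

lemma bar_order (hF : Fintype.card F = q ^ 2) : orderOf (bar hF) = 2 := by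
  apply orderOf_eq_prime
  · ext x
    exact bar_bar hF x
  · exact bar_ne hF

lemma sc_nm (hF : Fintype.card F = q ^ 2) (u : Fˣ) : nm (unitsMap (bar hF)) u 2 = u * unitsMap (bar hF) u := by
  rw [nm_succ, nm_one]

/-- norms onto the fixed units -/
lemma exists_norm (hF : Fintype.card F = q ^ 2) {c : Fˣ} (hc : bar hF c = c) : ∃ e : Fˣ, bar hF e * e = c := by
  obtain ⟨w, hw⟩ := exists_nm_eq (bar_order hF) (by norm_num) hc
  rw [sc_nm] at hw
  refine ⟨w, ?_⟩
  have := congrArg (fun u : Fˣ => (u : F)) hw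
  simp only [Units.val_mul, unitsMap_coe] at this
  rw [mul_comm]
  exact this

/-- Hilbert 90 for units -/
lemma exists_quot (hF : Fintype.card F = q ^ 2) {θ : Fˣ} (hθ : θ * unitsMap (bar hF) θ = 1) :
    ∃ e : Fˣ, θ = e * (unitsMap (bar hF) e)⁻¹ :=
  hilbert90_units (bar_order hF) (by norm_num) (by rw [sc_nm]; exact hθ)

lemma unitsMap_unitsMap (hF : Fintype.card F = q ^ 2) (u : Fˣ) : unitsMap (bar hF) (unitsMap (bar hF) u) = u := by
  apply Units.ext
  simp [bar_bar hF]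

lemma glMap_glMap (hF : Fintype.card F = q ^ 2) (X : GL (Fin n) F) : glMap (bar hF) (glMap (bar hF) X) = X := by
  apply Units.ext
  rw [glMap_coe, glMap_coe]
  ext i j
  simp [bar_bar hF]

variable {k : Type*} [Field k] [Fintype k]

/-- descent: `D σ(D)⁻¹` scalar -/
lemma descent (hF : Fintype.card F = q ^ 2) (hn : 0 < n) {j : k →+* F} (hj : ∀ x, (∃ c, j c = x) ↔ bar hF x = x)
    {D : GL (Fin n) F} {θ : Fˣ} (hD : D * (glMap (bar hF) D)⁻¹ = sc θ) :
    ∃ (e : Fˣ) (d : GL (Fin n) k), D = sc e * glHom j d ∧ θ = e * (unitsMap (bar hF) e)⁻¹ := by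
  have hne : Nonempty (Fin n) := ⟨⟨0, hn⟩⟩
  have h1 : (sc (θ * unitsMap (bar hF) θ) : GL (Fin n) F) = 1 := by
    rw [map_mul, ← glMap_sc, ← hD, map_mul, map_inv, glMap_glMap]
    group
  have h2 : θ * unitsMap (bar hF) θ = 1 := sc_injective (ι := Fin n) (by rw [h1, map_one])
  obtain ⟨e, he⟩ := exists_quot hF h2
  have h3 : glMap (bar hF) (sc e⁻¹ * D) = sc e⁻¹ * D := by
    rw [map_mul, glMap_sc]
    have h4 : glMap (bar hF) D = sc θ⁻¹ * D := by
      rw [map_inv, ← hD]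
      group
    rw [h4, ← mul_assoc, ← map_mul, he, map_inv]
    congr 2
    rw [_root_.mul_inv_rev, inv_inv, inv_mul_cancel_left]
  obtain ⟨d, hd⟩ := (glMap_eq_self_iff hj _).mp h3
  refine ⟨e, d, ?_, he⟩
  rw [hd, ← mul_assoc, ← map_mul, mul_inv_cancel, map_one, one_mul]

/-- the data attached to a graph automorphism `psiSU g bar` -/
structure Dat (hF : Fintype.card F = q ^ 2) (j : k →+* F) (g C : GL (Fin n) F) (c a : Fˣ)
    (M : Matrix (Fin n) (Fin n) k) : Prop where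
  hg : g ∈ Cfsg.GU n F q
  hC : sc c * g = C * (glMap (bar hF) C)⁻¹
  hA : herm (bar hF) C = (a : F) • M.map j
  hM : M.det ≠ 0
  hs : Mᵀ = M ∨ Mᵀ = -M

section dat

variable {hF : Fintype.card F = q ^ 2} {j : k →+* F} {g C : GL (Fin n) F} {c a : Fˣ} {M : Matrix (Fin n) (Fin n) k}

lemma map_ne_zero' (hn : 0 < n) (j : k →+* F) {M : Matrix (Fin n) (Fin n) k} (hM : M.det ≠ 0) : M.map j ≠ 0 := by
  have hne : Nonempty (Fin n) := ⟨⟨0, hn⟩⟩
  intro h
  apply hM
  have : M = 0 := by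
    ext i l
    apply j.injective
    rw [Matrix.zero_apply, map_zero]
    exact congrFun (congrFun h i) l
  rw [this]
  exact Matrix.det_zero

/-- `σ(a)` is `± a` according to the type of `M` -/
lemma Dat.bar_a (D : Dat hF j g C c a M) (hn : 0 < n) (hj : ∀ x, (∃ c, j c = x) ↔ bar hF x = x) {l : k}
    (hl : Mᵀ = l • M) : bar hF a = j l * a := by
  have h1 := herm_transpose (bar hF) (bar_bar hF) C
  rw [D.hA] at h1
  have h2 : ((a : F) • M.map j).map (bar hF) = bar hF a • M.map j := by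
    ext i m
    simp only [Matrix.map_apply, Matrix.smul_apply, smul_eq_mul, map_mul]
    rw [(hj (j (M i m))).mp ⟨_, rfl⟩]
  have h3 : (M.map j)ᵀ = j l • M.map j := by
    rw [← Matrix.transpose_map, hl]
    ext i m
    simp
  rw [h2, Matrix.transpose_smul, h3, smul_smul] at h1
  rw [mul_comm]
  exact (smul_inj (map_ne_zero' hn j D.hM) h1).symm

lemma smul_map (j : k →+* F) (u : k) (N : Matrix (Fin n) (Fin n) k) : (u • N).map j = j u • N.map j := by
  ext i m; simp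

lemma map_inj (j : k →+* F) {N N' : Matrix (Fin n) (Fin n) k} (h : N.map j = N'.map j) : N = N' := by
  ext i m
  exact j.injective (congrFun (congrFun h i) m)

lemma ratio (hn : 0 < n) (hj : ∀ x, (∃ c, j c = x) ↔ bar hF x = x) {M' N : Matrix (Fin n) (Fin n) k}
    (hM' : M'.det ≠ 0) {r : F} (hr : r ≠ 0) (h : N.map j = r • M'.map j) :
    ∃ c₀ : kˣ, j c₀ = r ∧ N = (c₀ : k) • M' := by
  -- r is fixed by the bar automorphism
  have h1 : bar hF r = r := by
    have h2 := congrArg (fun X : Matrix (Fin n) (Fin n) F => X.map (bar hF)) h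
    have h3 : ∀ X : Matrix (Fin n) (Fin n) k, (X.map j).map (bar hF) = X.map j := by
      intro X
      ext i m
      exact (hj (j (X i m))).mp ⟨_, rfl⟩
    have h4 : (r • M'.map j).map (bar hF) = bar hF r • M'.map j := by
      ext i m
      simp only [Matrix.map_apply, Matrix.smul_apply, smul_eq_mul, map_mul]
      rw [(hj (j (M' i m))).mp ⟨_, rfl⟩]
    rw [h3, h, h4] at h2
    exact (smul_inj (map_ne_zero' hn j hM') h2).symm
  obtain ⟨r₀, hr₀⟩ := (hj r).mpr h1
  have hr0 : r₀ ≠ 0 := by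
    rintro rfl
    rw [map_zero] at hr₀
    exact hr hr₀.symm
  refine ⟨Units.mk0 r₀ hr0, hr₀, ?_⟩
  apply map_inj j
  rw [h, Units.val_mk0, smul_map, hr₀]

lemma herm_glHom (hj : ∀ x, (∃ c, j c = x) ↔ bar hF x = x) (X : GL (Fin n) F) (d : GL (Fin n) k) :
    herm (bar hF) (X * glHom j d) = ((d : Matrix (Fin n) (Fin n) k)ᵀ).map j * herm (bar hF) X *
      (d : Matrix (Fin n) (Fin n) k).map j := by
  have h3 : ((d : Matrix (Fin n) (Fin n) k).map j).map (bar hF) = (d : Matrix (Fin n) (Fin n) k).map j := by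
    ext i m
    exact (hj (j ((d : Matrix (Fin n) (Fin n) k) i m))).mp ⟨_, rfl⟩
  rw [herm_mul, glHom_coe, h3, Matrix.transpose_map]

lemma Dat.herm_C (D : Dat hF j g C c a M) (hj : ∀ x, (∃ c, j c = x) ↔ bar hF x = x) (e : Fˣ) (d : GL (Fin n) k) :
    herm (bar hF) (sc e * (C * glHom j d)) = (bar hF e * e * a) •
      ((d : Matrix (Fin n) (Fin n) k)ᵀ * M * (d : Matrix (Fin n) (Fin n) k)).map j := by
  rw [herm_sc, herm_glHom hj, D.hA, Matrix.mul_smul, Matrix.smul_mul, smul_smul]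
  congr 1
  ext i m
  simp only [Matrix.mul_apply, Matrix.map_apply, map_sum, map_mul]

lemma glHom_fix (hj : ∀ x, (∃ c, j c = x) ↔ bar hF x = x) (d : GL (Fin n) k) :
    glMap (bar hF) (glHom j d) = glHom j d := (glMap_eq_self_iff hj _).mpr ⟨d, rfl⟩

/-- conjugation changes `g` to `h g σ(h)⁻¹` -/
lemma conj_graph (hF : Fintype.card F = q ^ 2) (h g : Cfsg.GU n F q) :
    psiSU h 1 * psiSU g (bar hF) * (psiSU h 1)⁻¹ = psiSU (h * g * (guMap (bar hF) h)⁻¹) (bar hF) := by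
  rw [mul_inv_eq_iff_eq_mul, psiSU_mul, psiSU_mul, guMap_one_apply, mul_one, one_mul, inv_mul_cancel_right]

lemma psiSU_eq_of_sc {x y : Cfsg.GU n F q} {θ : Fˣ} {τ : F ≃+* F} (h : (x : GL (Fin n) F) = sc θ * (y : GL (Fin n) F)) :
    psiSU x τ = psiSU y τ := by
  apply psiSU_eq_of_smul (c := (θ : F))
  change ((x : GL (Fin n) F) : Matrix (Fin n) (Fin n) F) = _
  rw [h, sc_mul_coe]

lemma sc_swap (x : GL (Fin n) F) (u : Fˣ) (y : GL (Fin n) F) : x * (sc u * y) = sc u * (x * y) := by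
  rw [← mul_assoc, ← sc_comm, mul_assoc]

/-- **conjugacy is similarity** -/
theorem conj_iff (hn : 3 ≤ n) (hj : ∀ x, (∃ c, j c = x) ↔ bar hF x = x) {g' C' : GL (Fin n) F} {c' a' : Fˣ}
    {M' : Matrix (Fin n) (Fin n) k} (D : Dat hF j g C c a M) (D' : Dat hF j g' C' c' a' M') :
    Cfsg.IsConjUnder (Cfsg.inndiagPSU n F q) (psiSU ⟨g, D.hg⟩ (bar hF)) (psiSU ⟨g', D'.hg⟩ (bar hF)) ↔ Sim M M' := by
  have hn0 : 0 < n := by omega
  constructor
  · rintro ⟨x, hx, h1⟩
    obtain ⟨h, rfl⟩ := mem_inndiag_iff.mp hx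
    rw [conj_graph, psiSU_eq_iff' hF hn] at h1
    obtain ⟨-, u, hu⟩ := h1
    have hu' : g' = sc (u : Fˣ) * ((h : GL (Fin n) F) * g * (glMap (bar hF) (h : GL (Fin n) F))⁻¹) :=
      congrArg Subtype.val hu
    obtain ⟨θ, hθ⟩ : ∃ θ : Fˣ, θ = c' * (u : Fˣ) * c⁻¹ := ⟨_, rfl⟩
    have hhg : herm (bar hF) (h : GL (Fin n) F) = 1 := (mem_GU_herm hF).mp h.2
    -- descent for D = (h C)⁻¹ C'
    have e1 : ((h : GL (Fin n) F) * C)⁻¹ * C' * (glMap (bar hF) (((h : GL (Fin n) F) * C)⁻¹ * C'))⁻¹ = sc θ := by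
      have e2 : C' * (glMap (bar hF) C')⁻¹ = sc θ * ((h : GL (Fin n) F) * (C * (glMap (bar hF) C)⁻¹) *
          (glMap (bar hF) (h : GL (Fin n) F))⁻¹) := by
        rw [← D'.hC, ← D.hC, hu', sc_swap (h : GL (Fin n) F) c g, ← mul_assoc (sc c'), ← map_mul, hθ, map_mul sc _ c⁻¹]
        have : sc (c' * (u : Fˣ)) * sc c⁻¹ * (sc c * ((h : GL (Fin n) F) * g) * (glMap (bar hF) (h : GL (Fin n) F))⁻¹) =
            sc (c' * (u : Fˣ)) * (sc c⁻¹ * sc c) * ((h : GL (Fin n) F) * g * (glMap (bar hF) (h : GL (Fin n) F))⁻¹) := by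
          simp only [mul_assoc]
        rw [this, ← map_mul sc c⁻¹ c, inv_mul_cancel, map_one, mul_one]
      calc ((h : GL (Fin n) F) * C)⁻¹ * C' * (glMap (bar hF) (((h : GL (Fin n) F) * C)⁻¹ * C'))⁻¹
          = ((h : GL (Fin n) F) * C)⁻¹ * (C' * (glMap (bar hF) C')⁻¹) * glMap (bar hF) ((h : GL (Fin n) F) * C) := by
            rw [map_mul, map_inv]; group
        _ = sc θ := by
            rw [e2, map_mul]
            have : ((h : GL (Fin n) F) * C)⁻¹ * (sc θ * ((h : GL (Fin n) F) * (C * (glMap (bar hF) C)⁻¹) *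
                (glMap (bar hF) (h : GL (Fin n) F))⁻¹)) * (glMap (bar hF) (h : GL (Fin n) F) * glMap (bar hF) C) =
                ((h : GL (Fin n) F) * C)⁻¹ * sc θ * ((h : GL (Fin n) F) * C) := by group
            rw [this, ← sc_comm θ, mul_assoc, inv_mul_cancel, mul_one]
    obtain ⟨e, d, hd, -⟩ := descent hF hn0 hj e1
    have hC' : C' = (h : GL (Fin n) F) * (sc e * (C * glHom j d)) := by
      have : C' = (h : GL (Fin n) F) * C * (sc e * glHom j d) := by
        rw [← hd]; group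
      rw [this, ← mul_assoc (sc e), sc_comm e C]
      simp only [mul_assoc]
    have h3 : (a' : F) • M'.map j = (bar hF e * e * a) •
        ((d : Matrix (Fin n) (Fin n) k)ᵀ * M * (d : Matrix (Fin n) (Fin n) k)).map j := by
      rw [← D'.hA, hC', herm_mul_left _ hhg, D.herm_C hj]
    have he0 : bar hF e * e * a ≠ 0 :=
      mul_ne_zero (mul_ne_zero ((_root_.map_ne_zero (bar hF)).mpr e.ne_zero) e.ne_zero) a.ne_zero
    obtain ⟨c₀, -, h5⟩ := ratio (M' := M') (r := (bar hF e * e * a)⁻¹ * a') hn0 hj D'.hM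
      (mul_ne_zero (inv_ne_zero he0) a'.ne_zero)
      (N := (d : Matrix (Fin n) (Fin n) k)ᵀ * M * (d : Matrix (Fin n) (Fin n) k)) (by
        rw [mul_smul, h3, smul_smul, inv_mul_cancel₀ he0, one_smul])
    refine ⟨(d : Matrix (Fin n) (Fin n) k), ((d⁻¹ : GL (Fin n) k) : Matrix (Fin n) (Fin n) k), c₀, ?_, ?_, h5⟩
    · rw [← Units.val_mul, mul_inv_cancel, Units.val_one]
    · rw [← Units.val_mul, inv_mul_cancel, Units.val_one]
  · rintro ⟨P, P', c₀, hP1, hP2, hP3⟩
    set d : GL (Fin n) k := ⟨P, P', hP1, hP2⟩ with hd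
    have hdP : (d : Matrix (Fin n) (Fin n) k) = P := rfl
    -- the multiplier is fixed
    obtain ⟨l, hl⟩ : ∃ l : k, Mᵀ = l • M := by
      rcases D.hs with h | h
      · exact ⟨1, by rw [h, one_smul]⟩
      · exact ⟨-1, by rw [h, neg_smul, one_smul]⟩
    have hl' : M'ᵀ = l • M' := sim_transpose ⟨P, P', c₀, hP1, hP2, hP3⟩ hl
    have ha := D.bar_a hn0 hj hl
    have ha' := D'.bar_a hn0 hj hl'
    have hj0 : j (c₀ : k) ≠ 0 := (_root_.map_ne_zero j).mpr c₀.ne_zero
    have hl0 : j l ≠ 0 := by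
      intro h0
      rw [h0, zero_mul] at ha
      exact (_root_.map_ne_zero (bar hF)).mpr a.ne_zero ha
    have hρ0 : (a' : F) * (a : F)⁻¹ * (j c₀)⁻¹ ≠ 0 :=
      mul_ne_zero (mul_ne_zero a'.ne_zero (inv_ne_zero a.ne_zero)) (inv_ne_zero hj0)
    obtain ⟨e, he⟩ := exists_norm hF (c := Units.mk0 _ hρ0) (by
      rw [Units.val_mk0, map_mul, map_mul, map_inv₀, map_inv₀, ha, ha', (hj (j c₀)).mp ⟨_, rfl⟩]
      field_simp)
    rw [Units.val_mk0] at he
    set C'' : GL (Fin n) F := sc e * (C * glHom j d) with hC''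
    have h1 : herm (bar hF) C'' = herm (bar hF) C' := by
      rw [hC'', D.herm_C hj, hdP, hP3, smul_map, smul_smul, D'.hA, he]
      congr 1
      field_simp
    set h : GL (Fin n) F := C' * C''⁻¹ with hh
    have hh1 : C' = h * C'' := by rw [hh]; group
    have hmem : h ∈ Cfsg.GU n F q := by
      rw [mem_GU_herm hF]
      have h2 := herm_mul (bar hF) h C''
      rw [← hh1, ← h1] at h2
      -- (σ C'')ᵀ herm(h) C'' = (σ C'')ᵀ C''
      rw [herm] at h2
      have h3 : ((C'' : Matrix (Fin n) (Fin n) F).map (bar hF))ᵀ * (C'' : Matrix (Fin n) (Fin n) F) =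
        ((C'' : Matrix (Fin n) (Fin n) F).map (bar hF))ᵀ * (herm (bar hF) h * (C'' : Matrix (Fin n) (Fin n) F)) := by
          rw [h2, Matrix.mul_assoc]
      have hu1 : IsUnit (((C'' : Matrix (Fin n) (Fin n) F).map (bar hF))ᵀ) := by
        rw [Matrix.isUnit_transpose, ← glMap_coe]
        exact (glMap (bar hF) C'').isUnit
      have h4 := hu1.mul_left_cancel h3
      have h5 : (1 : Matrix (Fin n) (Fin n) F) * (C'' : Matrix (Fin n) (Fin n) F) =
          herm (bar hF) h * (C'' : Matrix (Fin n) (Fin n) F) := by rw [Matrix.one_mul]; exact h4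
      exact (C''.isUnit.mul_right_cancel h5).symm
    refine ⟨psiSU ⟨h, hmem⟩ 1, mem_inndiag_iff.mpr ⟨_, rfl⟩, ?_⟩
    rw [conj_graph]
    apply psiSU_eq_of_sc (θ := c'⁻¹ * (e * (unitsMap (bar hF) e)⁻¹) * c)
    change g' = sc (c'⁻¹ * (e * (unitsMap (bar hF) e)⁻¹) * c) * (h * g * (glMap (bar hF) h)⁻¹)
    have e3 : C'' * (glMap (bar hF) C'')⁻¹ = sc (e * (unitsMap (bar hF) e)⁻¹) * (sc c * g) := by
      rw [D.hC, hC'', map_mul (glMap (bar hF)) (sc e), map_mul (glMap (bar hF)) C, glMap_sc, glHom_fix hj]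
      have : sc e * (C * glHom j d) * (sc ((unitsMap (bar hF)) e) * ((glMap (bar hF)) C * glHom j d))⁻¹ =
          sc e * (C * (glMap (bar hF) C)⁻¹) * (sc ((unitsMap (bar hF)) e))⁻¹ := by group
      rw [this, ← map_inv sc, mul_assoc (sc e), ← sc_comm (unitsMap (bar hF) e)⁻¹, ← mul_assoc (sc e), ← map_mul sc]
    obtain ⟨ε, hε⟩ : ∃ ε : Fˣ, ε = e * (unitsMap (bar hF) e)⁻¹ := ⟨_, rfl⟩
    rw [← hε] at e3 ⊢
    have e4 : sc c' * g' = h * (sc ε * (sc c * g)) * (glMap (bar hF) h)⁻¹ := by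
      rw [D'.hC, ← e3, hh1, map_mul (glMap (bar hF)) h]; group
    have e5 : g' = sc c'⁻¹ * (sc c' * g') := by
      rw [← mul_assoc, ← map_mul, inv_mul_cancel, map_one, one_mul]
    rw [e5, e4, map_mul sc (c'⁻¹ * ε) c, map_mul sc c'⁻¹ ε, sc_swap h ε, sc_swap h c]
    simp only [mul_assoc]

end dat

end H6.GrPSU
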