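import Mathlib
import Cfsg.Agent.Lib.H6.GrPSU

/-!
The dictionary between involutory graph automorphisms of `PSU_n(q)` and symmetric or skew matrices over the field with
`q` elements: existence, centralizers, class counts.
-/

set_option autoImplicit false
set_option linter.unusedSectionVars false

namespace H6.GrPSU

open Matrix H50.PSLBasic H50.H90 H50.PSLField H50.ClassCount H50.PSLCount H6.GrSim H6.GrForms H6.GrProj
  H6.GrCard H6.GrDict H6.GrDet H6.PSUBasic H6.PSUUniq H6.PSUOut H6.PSUNorm H6.PSUField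

variable {n q : ℕ} {F : Type*} [Field F] [Fintype F] {k : Type*} [Field k] [Fintype k]

/-- the correspondence -/
def R (hF : Fintype.card F = q ^ 2) (j : k →+* F) (γ : MulAut (Cfsg.PSU n F q)) (M : Matrix (Fin n) (Fin n) k) : Prop :=
  ∃ (g C : GL (Fin n) F) (c a : Fˣ) (D : Dat hF j g C c a M), γ = psiSU ⟨g, D.hg⟩ (bar hF)

/-- involutory graph automorphisms -/
def Gr (γ : MulAut (Cfsg.PSU n F q)) : Prop := Cfsg.IsGraphAutClassPSU γ ∧ orderOf γ = 2

lemma psiSU_sq (g : Cfsg.GU n F q) (τ : F ≃+* F) :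
    psiSU g τ ^ 2 = psiSU (g * guMap τ g) (τ ^ 2) := by
  rw [pow_two, psiSU_mul, pow_two]

/-- involutory graph automorphisms are `psiSU g bar` with `g σ(g)` scalar -/
lemma gr_iff (hF : Fintype.card F = q ^ 2) (hn : 3 ≤ n) {γ : MulAut (Cfsg.PSU n F q)} :
    Gr γ ↔ ∃ (g : Cfsg.GU n F q) (u : NU F q), γ = psiSU g (bar hF) ∧ g * guMap (bar hF) g = scG n u := by
  constructor
  · rintro ⟨⟨-, δ, φ, τ, hτ, hδ, hφ, rfl⟩, h2⟩
    obtain ⟨g, rfl⟩ := (H6.PSUBasic.isInnerDiagonal_iff δ).mp hδ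
    rw [(isFieldAutOf_iff τ φ).mp hφ, psiSU_mul, guMap_one_apply, mul_one, one_mul] at h2 ⊢
    have h3 : psiSU g τ ^ 2 = 1 := by rw [← h2, pow_orderOf_eq_one]
    rw [psiSU_sq, psiSU_eq_one_iff hF hn] at h3
    obtain ⟨h4, u, hu⟩ := h3
    have h5 : orderOf τ = 2 := by
      have h6 := orderOf_dvd_of_pow_eq_one h4
      rcases (Nat.dvd_prime Nat.prime_two).mp h6 with h7 | h7
      · rw [h7] at hτ; exact absurd hτ (by decide)
      · exact h7
    have h6 : τ = bar hF := H50.FieldAut2.unique_order_two h5 (bar_order hF)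
    subst h6
    exact ⟨g, u, rfl, hu⟩
  · rintro ⟨g, u, rfl, hu⟩
    refine ⟨⟨hn, psiSU g 1, psiSU 1 (bar hF), bar hF, ?_, (H6.PSUBasic.isInnerDiagonal_iff _).mpr ⟨g, rfl⟩,
      (isFieldAutOf_iff _ _).mpr rfl, ?_⟩, ?_⟩
    · rw [bar_order hF]; exact even_two
    · rw [psiSU_mul, guMap_one_apply, mul_one, one_mul]
    · apply orderOf_eq_prime
      · rw [psiSU_sq, hu, psiSU_eq_one_iff hF hn]
        refine ⟨?_, u, rfl⟩
        rw [← bar_order hF, pow_orderOf_eq_one]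
      · rw [Ne, psiSU_eq_one_iff hF hn]
        rintro ⟨h, -⟩
        exact bar_ne hF h

/-- the sign -/
lemma sign_of (hF : Fintype.card F = q ^ 2) (hn : 0 < n) {g : GL (Fin n) F} (hg : g ∈ Cfsg.GU n F q) {u : Fˣ}
    (hu : g * glMap (bar hF) g = sc u) : ((u : F) = 1 ∨ (u : F) = -1) ∧
      ((g⁻¹ : GL (Fin n) F) : Matrix (Fin n) (Fin n) F)ᵀ = (u : F) • ((g⁻¹ : GL (Fin n) F) : Matrix (Fin n) (Fin n) F) := by
  have hne : Nonempty (Fin n) := ⟨⟨0, hn⟩⟩
  rw [inv_transpose hF hg] at hu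
  have h2 : ((g⁻¹ : GL (Fin n) F) : Matrix (Fin n) (Fin n) F)ᵀ =
      (u : F) • ((g⁻¹ : GL (Fin n) F) : Matrix (Fin n) (Fin n) F) := by
    rw [← glInvTr_coe, ← sc_mul_coe]
    congr 1
    rw [sc_comm, ← hu]; group
  refine ⟨?_, h2⟩
  have h3 := congrArg Matrix.transpose h2
  rw [Matrix.transpose_transpose, Matrix.transpose_smul, h2, smul_smul] at h3
  have hM0 : ((g⁻¹ : GL (Fin n) F) : Matrix (Fin n) (Fin n) F) ≠ 0 := by
    intro h0
    have hg1 : ((g⁻¹ : GL (Fin n) F) : Matrix (Fin n) (Fin n) F) * (g : Matrix (Fin n) (Fin n) F) = 1 := by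
      rw [← Units.val_mul, inv_mul_cancel, Units.val_one]
    rw [h0, Matrix.zero_mul] at hg1
    exact zero_ne_one hg1
  have h4 : (u : F) * u = 1 := by
    apply smul_inj hM0
    rw [← h3, one_smul]
  exact mul_self_eq_one_iff.mp h4

lemma exists_sigma_eq (hF : Fintype.card F = q ^ 2) {l : F} (hl : l = 1 ∨ l = -1) : ∃ a : Fˣ, bar hF a = l * a := by
  rcases hl with rfl | rfl
  · exact ⟨1, by simp⟩
  · obtain ⟨y, hy⟩ := H16.Herm.exists_pow_q_ne hF
    have h0 : y - bar hF y ≠ 0 := by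
      intro h
      exact hy (sub_eq_zero.mp h).symm
    refine ⟨Units.mk0 _ h0, ?_⟩
    rw [Units.val_mk0, map_sub, bar_bar hF]
    ring

/-- **existence of the form** -/
theorem exists_dat (hF : Fintype.card F = q ^ 2) (hn : 0 < n) {j : k →+* F} (hj : ∀ x, (∃ c, j c = x) ↔ bar hF x = x)
    {g : GL (Fin n) F} (hg : g ∈ Cfsg.GU n F q) {u : Fˣ} (hu : g * glMap (bar hF) g = sc u) :
    ∃ (C : GL (Fin n) F) (c a : Fˣ) (M : Matrix (Fin n) (Fin n) k), Dat hF j g C c a M := by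
  have hne : Nonempty (Fin n) := ⟨⟨0, hn⟩⟩
  obtain ⟨hsign, htr⟩ := sign_of hF hn hg hu
  have huu : u * u = 1 := by
    apply Units.ext
    rw [Units.val_mul, Units.val_one]
    rcases hsign with h | h <;> rw [h] <;> ring
  have hbu : bar hF u = u := by
    rcases hsign with h | h <;> rw [h] <;> simp
  obtain ⟨c, hc⟩ := exists_norm hF hbu
  have hcc : c * unitsMap (bar hF) c = u := by
    apply Units.ext
    rw [Units.val_mul, unitsMap_coe, mul_comm]; exact hc
  -- Hilbert 90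
  have hn2 : nm (glMap (bar hF)) (sc c * g) 2 = 1 := by
    rw [nm_succ, nm_one, map_mul (glMap (bar hF)), glMap_sc, mul_assoc (sc c), ← mul_assoc g, ← sc_comm _ g,
      mul_assoc (sc _) g, hu, ← map_mul sc, ← map_mul sc, ← mul_assoc, hcc, huu, map_one]
  obtain ⟨C, hC⟩ := hilbert90 (bar_order hF) (by norm_num) hn2
  obtain ⟨a, ha⟩ := exists_sigma_eq hF hsign
  -- the Gram matrix
  have hσC : glMap (bar hF) C = g⁻¹ * (sc c⁻¹ * C) := by
    have h1 : glMap (bar hF) C = (sc c * g)⁻¹ * C := by rw [hC]; group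
    rw [h1, _root_.mul_inv_rev, map_inv, mul_assoc]
  have hA : herm (bar hF) C = (u : F) • (herm (bar hF) C)ᵀ := by
    have h2 : herm (bar hF) C = (((c⁻¹ : Fˣ) : F) * u) • ((C : Matrix (Fin n) (Fin n) F)ᵀ *
        ((g⁻¹ : GL (Fin n) F) : Matrix (Fin n) (Fin n) F) * (C : Matrix (Fin n) (Fin n) F)) := by
      rw [herm, ← glMap_coe, hσC, Units.val_mul, sc_mul_coe, Matrix.mul_smul, Matrix.transpose_smul,
        Matrix.transpose_mul, htr, Matrix.mul_smul, smul_smul, Matrix.smul_mul]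
    have h3 : (herm (bar hF) C)ᵀ = (((c⁻¹ : Fˣ) : F)) • ((C : Matrix (Fin n) (Fin n) F)ᵀ *
        ((g⁻¹ : GL (Fin n) F) : Matrix (Fin n) (Fin n) F) * (C : Matrix (Fin n) (Fin n) F)) := by
      rw [herm, Matrix.transpose_mul, Matrix.transpose_transpose, ← glMap_coe, hσC, Units.val_mul, sc_mul_coe,
        Matrix.mul_smul, Matrix.mul_smul, Matrix.mul_assoc]
    rw [h3, smul_smul, mul_comm (u : F), ← h2]
  have hbar : (herm (bar hF) C).map (bar hF) = (u : F) • herm (bar hF) C := by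
    rw [← herm_transpose (bar hF) (bar_bar hF)]
    conv_rhs => rw [hA]
    rw [smul_smul, ← Units.val_mul, huu, Units.val_one, one_smul]
  -- descend
  have hfix : ∀ i m, ∃ x, j x = ((a : F)⁻¹ • herm (bar hF) C) i m := by
    intro i m
    rw [hj, Matrix.smul_apply, smul_eq_mul, map_mul, map_inv₀, ha]
    have h4 : bar hF (herm (bar hF) C i m) = u * herm (bar hF) C i m := congrFun (congrFun hbar i) m
    have hu0 := u.ne_zero
    have ha0 := a.ne_zero
    rw [h4]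
    field_simp
  choose M' hM' using hfix
  have hMj : (Matrix.of M' : Matrix (Fin n) (Fin n) k).map j = (a : F)⁻¹ • herm (bar hF) C := by
    ext i m; exact hM' i m
  have hA' : herm (bar hF) C = (a : F) • (Matrix.of M' : Matrix (Fin n) (Fin n) k).map j := by
    rw [hMj, smul_smul, mul_inv_cancel₀ a.ne_zero, one_smul]
  refine ⟨C, c, a, Matrix.of M', hg, hC, hA', ?_, ?_⟩
  · intro h0
    have h5 : ((Matrix.of M' : Matrix (Fin n) (Fin n) k).map j).det = 0 := by
      have := RingHom.map_det j (Matrix.of M')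
      rw [h0, map_zero] at this
      exact this.symm
    have h6 := congrArg Matrix.det hA'
    rw [Matrix.det_smul, h5, mul_zero, herm, Matrix.det_mul, Matrix.det_transpose, ← glMap_coe] at h6
    have h7 := ((Matrix.isUnit_iff_isUnit_det _).mp C.isUnit).ne_zero
    have h8 := ((Matrix.isUnit_iff_isUnit_det _).mp (glMap (bar hF) C).isUnit).ne_zero
    exact mul_ne_zero h8 h7 h6
  · have h9 : ((Matrix.of M' : Matrix (Fin n) (Fin n) k)ᵀ).map j = (u : F) • (Matrix.of M' : Matrix (Fin n) (Fin n) k).map j := by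
      rw [Matrix.transpose_map, hMj, Matrix.transpose_smul, smul_comm]
      congr 1
      conv_rhs => rw [hA]
      rw [smul_smul, ← Units.val_mul, huu, Units.val_one, one_smul]
    rcases hsign with h | h
    · left
      apply map_inj j
      rw [h9, h, one_smul]
    · right
      apply map_inj j
      rw [h9, h, neg_smul, one_smul]
      ext i m; simp

/-- **every form occurs** -/
theorem exists_of_form (hF : Fintype.card F = q ^ 2) (hn : 0 < n) {j : k →+* F} (hj : ∀ x, (∃ c, j c = x) ↔ bar hF x = x)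
    {M : Matrix (Fin n) (Fin n) k} (hM : M.det ≠ 0) (hs : Mᵀ = M ∨ Mᵀ = -M) :
    ∃ (g C : GL (Fin n) F) (c a : Fˣ) (_ : Dat hF j g C c a M) (u : Fˣ), g * glMap (bar hF) g = sc u := by
  obtain ⟨l, hl1, hl⟩ : ∃ l : F, (l = 1 ∨ l = -1) ∧ (M.map j)ᵀ = l • M.map j := by
    rcases hs with h | h
    · exact ⟨1, Or.inl rfl, by rw [← Matrix.transpose_map, h, one_smul]⟩
    · refine ⟨-1, Or.inr rfl, ?_⟩
      rw [← Matrix.transpose_map, h]
      ext i m; simp
  have hll : l * l = 1 := by rcases hl1 with rfl | rfl <;> ring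
  have hl0 : l ≠ 0 := by rintro rfl; simp at hll
  have hbl : bar hF l = l := by rcases hl1 with rfl | rfl <;> simp
  obtain ⟨a, ha⟩ := exists_sigma_eq hF hl1
  have hMj : (M.map j).map (bar hF) = M.map j := by
    ext i m
    exact (hj (j (M i m))).mp ⟨_, rfl⟩
  set H : Matrix (Fin n) (Fin n) F := (a : F) • M.map j with hH
  have hHb : H.map (bar hF) = l • H := by
    rw [hH]
    ext i m
    simp only [Matrix.map_apply, Matrix.smul_apply, smul_eq_mul, map_mul, ha]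
    rw [(hj (j (M i m))).mp ⟨_, rfl⟩]
    ring
  have hHt : Hᵀ = l • H := by
    rw [hH, Matrix.transpose_smul, hl, smul_comm]
  have hdet : IsUnit (Hᵀ).det := by
    rw [Matrix.det_transpose, hH, Matrix.det_smul, isUnit_iff_ne_zero]
    refine mul_ne_zero (pow_ne_zero _ a.ne_zero) ?_
    have := RingHom.map_det j M
    rw [RingHom.mapMatrix_apply] at this
    rw [← this]
    exact (_root_.map_ne_zero j).mpr hM
  have hsm : ∀ (b : F) (X : Matrix (Fin n) (Fin n) F), (b • X).map (bar hF) = bar hF b • X.map (bar hF) := by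
    intro b X
    ext i m; simp
  obtain ⟨h, hh⟩ := hermitian_factor (σ := bar hF) (bar_ne hF) (bar_bar hF) (H := Hᵀ) hdet (by
    rw [hHt, hsm, hHb, hbl, Matrix.transpose_smul, Matrix.transpose_smul, hHt, smul_smul, smul_smul, hll, one_mul])
  -- the matrix `C = hᵀ`
  set C : GL (Fin n) F := glInvTr h⁻¹ with hCdef
  have hCc : (C : Matrix (Fin n) (Fin n) F) = (h : Matrix (Fin n) (Fin n) F)ᵀ := glInvTr_inv h
  have hherm : herm (bar hF) C = H := by
    rw [herm, hCc, Matrix.transpose_map, Matrix.transpose_transpose]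
    have := congrArg Matrix.transpose hh
    rw [Matrix.transpose_transpose, Matrix.transpose_mul, Matrix.transpose_transpose] at this
    exact this.symm
  obtain ⟨lu, hlu⟩ : ∃ lu : Fˣ, (lu : F) = l := ⟨Units.mk0 l hl0, rfl⟩
  obtain ⟨c, hc⟩ := exists_norm hF (c := lu) (by rw [hlu, hbl])
  rw [hlu] at hc
  set g : GL (Fin n) F := sc c⁻¹ * (C * (glMap (bar hF) C)⁻¹) with hg
  have hCg : sc c * g = C * (glMap (bar hF) C)⁻¹ := by
    rw [hg, ← mul_assoc, ← map_mul, mul_inv_cancel, map_one, one_mul]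
  have hmem : g ∈ Cfsg.GU n F q := by
    rw [mem_GU_herm hF, hg, herm_sc, herm_mul, hherm, ← glMap_coe, map_inv (glMap (bar hF)), glMap_glMap hF]
    have e1 : H = l • ((C : Matrix (Fin n) (Fin n) F)ᵀ * (glMap (bar hF) C : GL (Fin n) F)) := by
      rw [glMap_coe]
      have : ((C : Matrix (Fin n) (Fin n) F)ᵀ * (C : Matrix (Fin n) (Fin n) F).map (bar hF)) = Hᵀ := by
        rw [← hherm, herm, Matrix.transpose_mul, Matrix.transpose_transpose]
      rw [this, hHt, smul_smul, hll, one_smul]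
    have e2 : ((C⁻¹ : GL (Fin n) F) : Matrix (Fin n) (Fin n) F)ᵀ * (C : Matrix (Fin n) (Fin n) F)ᵀ = 1 := by
      rw [← Matrix.transpose_mul, ← Units.val_mul, mul_inv_cancel, Units.val_one, Matrix.transpose_one]
    have e3 : ((glMap (bar hF) C : GL (Fin n) F) : Matrix (Fin n) (Fin n) F) *
        (((glMap (bar hF) C)⁻¹ : GL (Fin n) F) : Matrix (Fin n) (Fin n) F) = 1 := by
      rw [← Units.val_mul, mul_inv_cancel, Units.val_one]
    rw [e1, Matrix.mul_smul, Matrix.smul_mul]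
    have e4 : ((C⁻¹ : GL (Fin n) F) : Matrix (Fin n) (Fin n) F)ᵀ * ((C : Matrix (Fin n) (Fin n) F)ᵀ *
        (glMap (bar hF) C : GL (Fin n) F)) * (((glMap (bar hF) C)⁻¹ : GL (Fin n) F) : Matrix (Fin n) (Fin n) F) = 1 := by
      rw [← Matrix.mul_assoc, e2, Matrix.one_mul, e3]
    rw [e4, smul_smul, Units.val_inv_eq_inv_val, map_inv₀, ← mul_inv, hc, inv_mul_cancel₀ hl0, one_smul]
  refine ⟨g, C, c, a, ⟨hmem, hCg, hherm, hM, hs⟩, (c * unitsMap (bar hF) c)⁻¹, ?_⟩
  rw [hg, map_mul (glMap (bar hF)), map_mul (glMap (bar hF)) C, map_inv (glMap (bar hF)), glMap_glMap hF, glMap_sc,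
    map_inv (unitsMap (bar hF)), sc_swap]
  have : C * (glMap (bar hF) C)⁻¹ * (glMap (bar hF) C * C⁻¹) = 1 := by group
  rw [mul_assoc (sc c⁻¹), this, mul_one, ← map_mul sc, mul_inv, mul_comm]

/-! ### centralizers -/

section cent

variable {hF : Fintype.card F = q ^ 2} {j : k →+* F} {g C : GL (Fin n) F} {c a : Fˣ} {M : Matrix (Fin n) (Fin n) k}

lemma herm_eq_one_of {σ : F ≃+* F} {X Y : GL (Fin n) F} (h : herm σ (X * Y) = herm σ Y) : herm σ X = 1 := by
  rw [herm_mul, herm] at h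
  have h3 : ((Y : Matrix (Fin n) (Fin n) F).map σ)ᵀ * (herm σ X * (Y : Matrix (Fin n) (Fin n) F)) =
    ((Y : Matrix (Fin n) (Fin n) F).map σ)ᵀ * (Y : Matrix (Fin n) (Fin n) F) := by
      rw [← Matrix.mul_assoc]; exact h
  have hu1 : IsUnit (((Y : Matrix (Fin n) (Fin n) F).map σ)ᵀ) := by
    rw [Matrix.isUnit_transpose, ← glMap_coe]
    exact (glMap σ Y).isUnit
  have h4 := hu1.mul_left_cancel h3
  have h5 : herm σ X * (Y : Matrix (Fin n) (Fin n) F) = (1 : Matrix (Fin n) (Fin n) F) * (Y : Matrix (Fin n) (Fin n) F) := by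
    rw [Matrix.one_mul]; exact h4
  exact Y.isUnit.mul_right_cancel h5

/-- membership in the unitary group -/
lemma Dat.mem_GU (D : Dat hF j g C c a M) (hj : ∀ x, (∃ c, j c = x) ↔ bar hF x = x) {e : Fˣ} {s : GL (Fin n) k} {ν : kˣ}
    (hs : (s : Matrix (Fin n) (Fin n) k)ᵀ * M * (s : Matrix (Fin n) (Fin n) k) = (ν : k) • M)
    (he : bar hF e * e * j ν = 1) : sc e * (C * glHom j s * C⁻¹) ∈ Cfsg.GU n F q := by
  rw [mem_GU_herm hF]
  apply herm_eq_one_of (Y := C)
  have : sc e * (C * glHom j s * C⁻¹) * C = sc e * (C * glHom j s) := by group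
  rw [this, D.herm_C hj, hs, smul_map, smul_smul, D.hA]
  congr 1
  linear_combination (a : F) * he

/-- the inner-diagonal elements centralizing the graph automorphism -/
theorem Dat.mem_cent_iff (D : Dat hF j g C c a M) (hn : 3 ≤ n) (hj : ∀ x, (∃ c, j c = x) ↔ bar hF x = x)
    (h : Cfsg.GU n F q) :
    psiSU h 1 ∈ Subgroup.centralizer {psiSU ⟨g, D.hg⟩ (bar hF)} ↔
      ∃ (e : Fˣ) (s : GL (Fin n) k) (ν : kˣ), (h : GL (Fin n) F) = sc e * (C * glHom j s * C⁻¹) ∧
        (s : Matrix (Fin n) (Fin n) k)ᵀ * M * (s : Matrix (Fin n) (Fin n) k) = (ν : k) • M ∧ bar hF e * e * j ν = 1 := by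
  have hn0 : 0 < n := by omega
  rw [mem_centralizer_singleton, ← mul_inv_eq_iff_eq_mul, conj_graph]
  constructor
  · intro h1
    rw [psiSU_eq_iff' hF hn] at h1
    obtain ⟨-, u, hu⟩ := h1
    have hu' : (h : GL (Fin n) F) * g * (glMap (bar hF) (h : GL (Fin n) F))⁻¹ = sc (u : Fˣ) * g :=
      congrArg Subtype.val hu
    have hhg : herm (bar hF) (h : GL (Fin n) F) = 1 := (mem_GU_herm hF).mp h.2
    have e1 : (C⁻¹ * (h : GL (Fin n) F) * C) * (glMap (bar hF) (C⁻¹ * (h : GL (Fin n) F) * C))⁻¹ = sc (u : Fˣ) := by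
      have e2 : (h : GL (Fin n) F) * (C * (glMap (bar hF) C)⁻¹) * (glMap (bar hF) (h : GL (Fin n) F))⁻¹ =
          sc (u : Fˣ) * (C * (glMap (bar hF) C)⁻¹) := by
        rw [← D.hC, sc_swap (h : GL (Fin n) F) c g, mul_assoc (sc c), hu', sc_swap (sc c)]
      calc (C⁻¹ * (h : GL (Fin n) F) * C) * (glMap (bar hF) (C⁻¹ * (h : GL (Fin n) F) * C))⁻¹
          = C⁻¹ * ((h : GL (Fin n) F) * (C * (glMap (bar hF) C)⁻¹) * (glMap (bar hF) (h : GL (Fin n) F))⁻¹) *
              glMap (bar hF) C := by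
            rw [map_mul (glMap (bar hF)), map_mul (glMap (bar hF)), map_inv (glMap (bar hF))]; group
        _ = sc (u : Fˣ) := by
            rw [e2, sc_swap C⁻¹ (u : Fˣ)]
            group
    obtain ⟨e, s, hs, -⟩ := descent hF hn0 hj e1
    have hh : (h : GL (Fin n) F) * C = sc e * (C * glHom j s) := by
      have : (h : GL (Fin n) F) * C = C * (C⁻¹ * (h : GL (Fin n) F) * C) := by group
      rw [this, hs, sc_swap]
    have h3 : (a : F) • M.map j = (bar hF e * e * a) •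
        ((s : Matrix (Fin n) (Fin n) k)ᵀ * M * (s : Matrix (Fin n) (Fin n) k)).map j := by
      rw [← D.herm_C hj, ← hh, herm_mul_left _ hhg, D.hA]
    have he0 : bar hF e * e ≠ 0 := mul_ne_zero ((_root_.map_ne_zero (bar hF)).mpr e.ne_zero) e.ne_zero
    obtain ⟨ν, hν, h5⟩ := ratio (M' := M) (r := (bar hF e * e)⁻¹) hn0 hj D.hM (inv_ne_zero he0)
      (N := (s : Matrix (Fin n) (Fin n) k)ᵀ * M * (s : Matrix (Fin n) (Fin n) k)) (by
        have h6 := congrArg (fun X => (bar hF e * e * a)⁻¹ • X) h3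
        simp only [smul_smul] at h6
        rw [inv_mul_cancel₀ (mul_ne_zero he0 a.ne_zero), one_smul] at h6
        rw [← h6]
        congr 1
        have ha0 := a.ne_zero
        field_simp)
    refine ⟨e, s, ν, ?_, h5, ?_⟩
    · have : (h : GL (Fin n) F) = (h : GL (Fin n) F) * C * C⁻¹ := by group
      rw [this, hh]; group
    · rw [hν, mul_inv_cancel₀ he0]
  · rintro ⟨e, s, ν, hh, -, -⟩
    apply psiSU_eq_of_sc (θ := e * (unitsMap (bar hF) e)⁻¹)
    change (h : GL (Fin n) F) * g * (glMap (bar hF) (h : GL (Fin n) F))⁻¹ = sc (e * (unitsMap (bar hF) e)⁻¹) * g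
    have e3 : (h : GL (Fin n) F) * (C * (glMap (bar hF) C)⁻¹) * (glMap (bar hF) (h : GL (Fin n) F))⁻¹ =
        sc (e * (unitsMap (bar hF) e)⁻¹) * (C * (glMap (bar hF) C)⁻¹) := by
      rw [hh, map_mul (glMap (bar hF)) (sc e), map_mul (glMap (bar hF)) (C * _), map_mul (glMap (bar hF)) C, glMap_sc,
        glHom_fix hj, map_inv (glMap (bar hF))]
      have : sc e * (C * glHom j s * C⁻¹) * (C * (glMap (bar hF) C)⁻¹) *
          (sc (unitsMap (bar hF) e) * (glMap (bar hF) C * glHom j s * (glMap (bar hF) C)⁻¹))⁻¹ =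
          sc e * (C * (glMap (bar hF) C)⁻¹) * (sc (unitsMap (bar hF) e))⁻¹ := by group
      rw [this, ← map_inv sc, mul_assoc (sc e), ← sc_comm (unitsMap (bar hF) e)⁻¹, ← mul_assoc (sc e), ← map_mul sc]
    rw [← D.hC] at e3
    have e4 : sc c * ((h : GL (Fin n) F) * g * (glMap (bar hF) (h : GL (Fin n) F))⁻¹) =
        sc c * (sc (e * (unitsMap (bar hF) e)⁻¹) * g) := by
      rw [sc_swap (sc c), ← e3, sc_swap (h : GL (Fin n) F) c g]
      simp only [mul_assoc]
    exact mul_left_cancel e4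

lemma exists_e (hF : Fintype.card F = q ^ 2) {j : k →+* F} (hj : ∀ x, (∃ c, j c = x) ↔ bar hF x = x) (ν : kˣ) :
    ∃ e : Fˣ, bar hF e * e * j ν = 1 := by
  have hj0 : j (ν : k) ≠ 0 := (_root_.map_ne_zero j).mpr ν.ne_zero
  obtain ⟨e, he⟩ := exists_norm hF (c := Units.mk0 _ (inv_ne_zero hj0)) (by
    rw [Units.val_mk0, map_inv₀, (hj (j ν)).mp ⟨_, rfl⟩])
  refine ⟨e, ?_⟩
  rw [he, Units.val_mk0, inv_mul_cancel₀ hj0]

/-- **the centralizer** -/
theorem Dat.cent (D : Dat hF j g C c a M) (hn : 3 ≤ n) (hj : ∀ x, (∃ c, j c = x) ↔ bar hF x = x) :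
    Nonempty (↥(Cfsg.inndiagPSU n F q ⊓ Subgroup.centralizer {psiSU ⟨g, D.hg⟩ (bar hF)}) ≃* Cfsg.projQuot (simG M)) := by
  have hne : Nonempty (Fin n) := ⟨⟨0, by omega⟩⟩
  have key : ∀ s : ↥(simG M), ∃ (h : Cfsg.GU n F q) (e : Fˣ),
      (h : GL (Fin n) F) = sc e * (C * glHom j (s : GL (Fin n) k) * C⁻¹) ∧
      psiSU h 1 ∈ Subgroup.centralizer {psiSU ⟨g, D.hg⟩ (bar hF)} := by
    rintro ⟨s, ν, hs⟩
    obtain ⟨e, he⟩ := exists_e hF hj ν
    exact ⟨⟨_, D.mem_GU hj hs he⟩, e, rfl, (D.mem_cent_iff hn hj _).mpr ⟨e, s, ν, rfl, hs, he⟩⟩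
  choose h e hh hcent using key
  let f : ↥(simG M) →* MulAut (Cfsg.PSU n F q) := MonoidHom.mk' (fun s => psiSU (h s) 1) (by
    intro s t
    rw [psiSU_mul, guMap_one_apply, mul_one]
    apply psiSU_eq_of_sc (θ := e (s * t) * (e s * e t)⁻¹)
    change (h (s * t) : GL (Fin n) F) = sc (e (s * t) * (e s * e t)⁻¹) * ((h s : GL (Fin n) F) * (h t : GL (Fin n) F))
    rw [hh, hh, hh]
    have e1 : sc (e s) * (C * glHom j (s : GL (Fin n) k) * C⁻¹) * (sc (e t) * (C * glHom j (t : GL (Fin n) k) * C⁻¹)) =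
        sc (e s * e t) * (C * glHom j ((s * t : ↥(simG M)) : GL (Fin n) k) * C⁻¹) := by
      rw [sc_swap, ← mul_assoc (sc (e t)), ← mul_assoc (sc (e t)), ← map_mul sc, mul_comm (e t), Subgroup.coe_mul,
        map_mul (glHom j)]
      group
    rw [e1, ← mul_assoc (sc (e (s * t) * (e s * e t)⁻¹)), ← map_mul sc, mul_assoc (e (s * t)), inv_mul_cancel, mul_one])
  have hf : ∀ s, f s = psiSU (h s) 1 := fun s => rfl
  apply nonempty_mulEquiv f ((Cfsg.Geo.scalars (Fin n) k).subgroupOf (simG M))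
  · intro x
    rw [Subgroup.mem_inf]
    constructor
    · rintro ⟨hx1, hx2⟩
      obtain ⟨y, rfl⟩ := H6.PSUBasic.mem_inndiag_iff.mp hx1
      obtain ⟨e', s, ν, h1, h2, h3⟩ := (D.mem_cent_iff hn hj y).mp hx2
      refine ⟨⟨s, ν, h2⟩, ?_⟩
      rw [hf]
      apply psiSU_eq_of_sc (θ := e ⟨s, ν, h2⟩ * e'⁻¹)
      rw [hh, h1, ← mul_assoc (sc _) (sc e'), ← map_mul sc, inv_mul_cancel_right]
    · rintro ⟨s, rfl⟩
      exact ⟨H6.PSUBasic.mem_inndiag_iff.mpr ⟨_, rfl⟩, hcent s⟩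
  · intro s
    rw [hf, Subgroup.mem_subgroupOf]
    constructor
    · intro h1
      rw [psiSU_eq_one_iff hF hn] at h1
      obtain ⟨-, u, hu⟩ := h1
      have hu' : (h s : GL (Fin n) F) = sc (u : Fˣ) := congrArg Subtype.val hu
      rw [hh] at hu'
      have h2 : glHom j (s : GL (Fin n) k) = sc ((e s)⁻¹ * (u : Fˣ)) := by
        have h4 : C * glHom j (s : GL (Fin n) k) * C⁻¹ = sc ((e s)⁻¹ * (u : Fˣ)) := by
          rw [map_mul sc, ← hu', ← mul_assoc, ← map_mul sc, inv_mul_cancel, map_one, one_mul]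
        have h5 : glHom j (s : GL (Fin n) k) = C⁻¹ * (C * glHom j (s : GL (Fin n) k) * C⁻¹) * C := by group
        rw [h5, h4, mul_assoc, sc_comm, ← mul_assoc, inv_mul_cancel, one_mul]
      obtain ⟨w, hw⟩ := (glHom_eq_sc_iff j (s : GL (Fin n) k)).mp ⟨_, h2⟩
      exact ⟨w, hw.symm⟩
    · rintro ⟨w, hw⟩
      have hw' : (s : GL (Fin n) k) = sc w := hw.symm
      obtain ⟨w', hw'⟩ := (glHom_eq_sc_iff j (s : GL (Fin n) k)).mpr ⟨w, hw'⟩
      have h1 : psiSU (h s) 1 = psiSU (1 : Cfsg.GU n F q) 1 := by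
        apply psiSU_eq_of_sc (θ := e s * w')
        rw [hh, hw', Subgroup.coe_one, mul_one, ← sc_comm, mul_assoc (sc w'), mul_inv_cancel, mul_one, ← map_mul sc]
      rw [h1, psiSU_one]

end cent

/-- **the dictionary for `PSU`** -/
theorem dict (hF : Fintype.card F = q ^ 2) (hn : 3 ≤ n) {j : k →+* F} (hj : ∀ x, (∃ c, j c = x) ↔ bar hF x = x) :
    Dict (Cfsg.inndiagPSU n F q) (Gr (F := F) (n := n) (q := q)) (R hF j) where
  ex := by
    intro γ hγ
    obtain ⟨g, u, rfl, hu⟩ := (gr_iff hF hn).mp hγ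
    have hu' : (g : GL (Fin n) F) * glMap (bar hF) (g : GL (Fin n) F) = sc (u : Fˣ) := congrArg Subtype.val hu
    obtain ⟨C, c, a, M, D⟩ := exists_dat hF (by omega) hj g.2 hu'
    exact ⟨M, g, C, c, a, D, rfl⟩
  det := by
    rintro γ M ⟨g, C, c, a, D, -⟩
    exact D.hM
  sym := by
    rintro γ M ⟨g, C, c, a, D, -⟩
    exact D.hs
  surj := by
    intro M hM hs
    obtain ⟨g, C, c, a, D, u, hu⟩ := exists_of_form hF (by omega) hj hM hs
    refine ⟨psiSU ⟨g, D.hg⟩ (bar hF), ?_, g, C, c, a, D, rfl⟩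
    have hmem : u ∈ (H44.UField.normHom F q).ker := by
      have h1 : (sc u : GL (Fin n) F) ∈ Cfsg.GU n F q := by
        rw [← hu]
        exact (Cfsg.GU n F q).mul_mem D.hg (glMap_mem _ D.hg)
      have h2 := norm_of_smul (F := F) (n := n) (q := q) (by omega : 0 < n) (g := ⟨sc u, h1⟩) (h := 1) (c := (u : F)) (by
        change ((sc u : GL (Fin n) F) : Matrix (Fin n) (Fin n) F) = (u : F) • ((1 : GL (Fin n) F) : Matrix (Fin n) (Fin n) F)
        rw [sc_coe, Units.val_one])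
      rw [H6.PSUNorm.mem_NU]
      exact Units.ext (by rw [Units.val_pow_eq_pow_val, h2, Units.val_one])
    exact (gr_iff hF hn).mpr ⟨⟨g, D.hg⟩, ⟨u, hmem⟩, rfl, Subtype.ext hu⟩
  conj := by
    rintro γ γ' M M' ⟨g, C, c, a, D, rfl⟩ ⟨g', C', c', a', D', rfl⟩
    exact conj_iff hn hj D D'
  cent := by
    rintro γ M ⟨g, C, c, a, D, rfl⟩
    exact D.cent hn hj

end H6.GrPSU
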