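import Mathlib
import Cfsg.Agent.Lib.H6.GrPSU2

/-!
Class counts for involutory graph automorphisms of `PSU_n(q)`, and the embedding of the field with `q` elements.
-/

set_option autoImplicit false
set_option linter.unusedSectionVars false

namespace H6.GrPSU

open Matrix H50.PSLBasic H50.H90 H50.PSLField H50.ClassCount H50.PSLCount H6.GrSim H6.GrForms H6.GrProj
  H6.GrCard H6.GrDict H6.GrDet H6.PSUBasic H6.PSUUniq H6.PSUOut H6.PSUNorm H6.PSUField

variable {n q : ℕ} {F : Type*} [Field F] [Fintype F] {k : Type*} [Field k] [Fintype k]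

/-- the embedding of the fixed field of the bar automorphism -/
lemma exists_j (hF : Fintype.card F = q ^ 2) (hk : Fintype.card k = q) :
    ∃ j : k →+* F, ∀ x, (∃ c, j c = x) ↔ bar hF x = x := by
  apply exists_embedding
  have h1 := H49.FixedField.card_fixedField_pow (bar hF)
  rw [bar_order hF, Nat.card_eq_fintype_card (α := F), hF] at h1
  rw [Nat.card_eq_fintype_card, hk]
  exact (Nat.pow_left_injective (by norm_num : (2 : ℕ) ≠ 0) h1).symm

section

variable {hF : Fintype.card F = q ^ 2} {j : k →+* F}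

lemma Dat.mem_B {g C : GL (Fin n) F} {c a : Fˣ} {M : Matrix (Fin n) (Fin n) k}
    (D : Dat hF j g C c a M) (hn : 3 ≤ n) (hj : ∀ x, (∃ c, j c = x) ↔ bar hF x = x) (b : NU F q) :
    (∃ (h : Cfsg.GU n F q) (w : NU F q), psiSU h 1 ∈ Subgroup.centralizer {psiSU ⟨g, D.hg⟩ (bar hF)} ∧
      detU hF n h = b * w ^ n) ↔
    ∃ (e : Fˣ) (s : GL (Fin n) k) (ν : kˣ) (w : NU F q),
      (s : Matrix (Fin n) (Fin n) k)ᵀ * M * (s : Matrix (Fin n) (Fin n) k) = (ν : k) • M ∧ bar hF e * e * j ν = 1 ∧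
      (e : F) ^ n * j (s : Matrix (Fin n) (Fin n) k).det = ((b * w ^ n : NU F q) : Fˣ) := by
  have hdet : ∀ (e : Fˣ) (s : GL (Fin n) k),
      ((sc e * (C * glHom j s * C⁻¹) : GL (Fin n) F) : Matrix (Fin n) (Fin n) F).det =
        (e : F) ^ n * j (s : Matrix (Fin n) (Fin n) k).det := by
    intro e s
    have h1 : (C : Matrix (Fin n) (Fin n) F).det * ((C⁻¹ : GL (Fin n) F) : Matrix (Fin n) (Fin n) F).det = 1 := by
      rw [← Matrix.det_mul, ← Units.val_mul, mul_inv_cancel, Units.val_one, Matrix.det_one]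
    have h2 : ((glHom j s : GL (Fin n) F) : Matrix (Fin n) (Fin n) F).det = j (s : Matrix (Fin n) (Fin n) k).det := by
      rw [glHom_coe]
      exact (RingHom.map_det j (s : Matrix (Fin n) (Fin n) k)).symm
    rw [sc_mul_coe, Matrix.det_smul, Fintype.card_fin, Units.val_mul, Units.val_mul, Matrix.det_mul, Matrix.det_mul, h2]
    linear_combination ((e : F) ^ n * j (s : Matrix (Fin n) (Fin n) k).det) * h1
  constructor
  · rintro ⟨h, w, h1, h2⟩
    rw [D.mem_cent_iff hn hj] at h1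
    obtain ⟨e, s, ν, h3, h4, h5⟩ := h1
    refine ⟨e, s, ν, w, h4, h5, ?_⟩
    rw [← h2, H6.PSUOut.detU_coe, ← hdet, ← h3]
  · rintro ⟨e, s, ν, w, h4, h5, h6⟩
    refine ⟨⟨_, D.mem_GU hj h4 h5⟩, w, (D.mem_cent_iff hn hj _).mpr ⟨e, s, ν, rfl, h4, h5⟩, ?_⟩
    apply Subtype.ext
    apply Units.ext
    rw [H6.PSUOut.detU_coe, ← h6, ← hdet]

/-- `e / σ(e)` as a norm one element -/
lemma quot_mem (hF : Fintype.card F = q ^ 2) (e : Fˣ) : e * (unitsMap (bar hF) e)⁻¹ ∈ (H44.UField.normHom F q).ker := by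
  rw [H6.PSUNorm.mem_NU, pow_succ]
  apply Units.ext
  have h1 : bar hF (e * (bar hF e)⁻¹) = (e * (bar hF e)⁻¹ : F) ^ q := bar_apply hF _
  have h2 := e.ne_zero
  have h3 : bar hF (e : F) ≠ 0 := (_root_.map_ne_zero (bar hF)).mpr h2
  simp only [Units.val_mul, Units.val_pow_eq_pow_val, Units.val_inv_eq_inv_val, unitsMap_coe, Units.val_one]
  rw [← h1, map_mul, map_inv₀, bar_bar hF]
  field_simp

lemma card_NU (hF : Fintype.card F = q ^ 2) : Nat.card (NU F q) = q + 1 := H44.UField.card_ker hF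

/-- every norm one element is `e / σ(e)` -/
lemma exists_quot_NU (hF : Fintype.card F = q ^ 2) (b : NU F q) : ∃ e : Fˣ, (b : Fˣ) = e * (unitsMap (bar hF) e)⁻¹ := by
  apply exists_quot hF
  apply Units.ext
  rw [Units.val_mul, unitsMap_coe, bar_apply, Units.val_one, ← pow_succ']
  exact norm_val b.2

/-- symplectic type -/
theorem split_alt (hn : 3 ≤ n) (hj : ∀ x, (∃ c, j c = x) ↔ bar hF x = x) {m : ℕ} (hm : n = 2 * m)
    {γ : MulAut (Cfsg.PSU n F q)} {M : Matrix (Fin n) (Fin n) k} (hR : R hF j γ M) (hA : IsAlt M) :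
    Cfsg.splitClassCount (Cfsg.inndiagPSU n F q) (Cfsg.Inn (Cfsg.PSU n F q)) γ = Nat.gcd m (q + 1) := by
  obtain ⟨g, C, c, a, D, rfl⟩ := hR
  rw [splitClassCount_psu hF hn _ (powMonoidHom m : NU F q →* NU F q).range, IsCyclic.index_powMonoidHom_range,
    card_NU hF, Nat.gcd_comm]
  intro b
  rw [D.mem_B hn hj]
  -- the determinant of `e s`
  have hdet : ∀ (e : Fˣ) (s : GL (Fin n) k) (ν : kˣ),
      (s : Matrix (Fin n) (Fin n) k)ᵀ * M * (s : Matrix (Fin n) (Fin n) k) = (ν : k) • M → bar hF e * e * j ν = 1 →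
      (e : F) ^ n * j (s : Matrix (Fin n) (Fin n) k).det = ((e * (unitsMap (bar hF) e)⁻¹ : Fˣ) : F) ^ m := by
    intro e s ν hs he
    rw [det_alt hm D.hM hA hs, map_pow, hm, pow_mul, ← mul_pow, Units.val_mul, Units.val_inv_eq_inv_val, unitsMap_coe]
    congr 1
    have h3 : bar hF (e : F) ≠ 0 := (_root_.map_ne_zero (bar hF)).mpr e.ne_zero
    field_simp
    linear_combination he
  constructor
  · rintro ⟨b', rfl⟩
    obtain ⟨e, he⟩ := exists_quot_NU hF b'
    -- multiplier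
    have hN : bar hF ((bar hF e * e : F)⁻¹) = (bar hF e * e)⁻¹ := by
      rw [map_inv₀, map_mul, bar_bar hF, mul_comm]
    obtain ⟨ν₀, hν₀⟩ := (hj _).mpr hN
    have hne0 : bar hF (e : F) * e ≠ 0 := mul_ne_zero ((_root_.map_ne_zero (bar hF)).mpr e.ne_zero) e.ne_zero
    have hν0 : ν₀ ≠ 0 := by
      rintro rfl
      rw [map_zero] at hν₀
      exact inv_ne_zero hne0 hν₀.symm
    obtain ⟨s, hs⟩ := exists_alt hm (by omega) D.hM hA (Units.mk0 ν₀ hν0)
    have he1 : bar hF e * e * j (Units.mk0 ν₀ hν0 : kˣ) = 1 := by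
      rw [Units.val_mk0, hν₀, mul_inv_cancel₀ hne0]
    refine ⟨e, s, _, 1, hs, he1, ?_⟩
    rw [hdet e s _ hs he1, one_pow, mul_one, ← he]
    rfl
  · rintro ⟨e, s, ν, w, hs, he, h6⟩
    rw [hdet e s ν hs he] at h6
    refine ⟨⟨_, quot_mem hF e⟩ * (w⁻¹) ^ 2, ?_⟩
    change (⟨_, quot_mem hF e⟩ * (w⁻¹) ^ 2) ^ m = b
    rw [mul_pow, ← pow_mul, ← hm, inv_pow, mul_inv_eq_iff_eq_mul]
    apply Subtype.ext
    apply Units.ext
    rw [← h6]
    simp

/-- orthogonal type in even dimension -/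
theorem split_sym (h2 : (2 : k) ≠ 0) (hn : 3 ≤ n) (hj : ∀ x, (∃ c, j c = x) ↔ bar hF x = x) {m : ℕ} (hm : n = 2 * m)
    (hq : Odd q) {γ : MulAut (Cfsg.PSU n F q)} {M : Matrix (Fin n) (Fin n) k} (hR : R hF j γ M) (hS : Mᵀ = M) :
    Cfsg.splitClassCount (Cfsg.inndiagPSU n F q) (Cfsg.Inn (Cfsg.PSU n F q)) γ = Nat.gcd n (q + 1) / 2 := by
  obtain ⟨g, C, c, a, D, rfl⟩ := hR
  have h2F : (2 : F) ≠ 0 := by
    intro h
    apply h2
    apply j.injective
    rw [map_ofNat, map_zero, h]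
  -- minus one
  have hneg : (-1 : Fˣ) ∈ (H44.UField.normHom F q).ker := by
    rw [H6.PSUNorm.mem_NU]
    exact (hq.add_one).neg_one_pow
  set ι : NU F q := ⟨-1, hneg⟩ with hι
  have hι2 : ι ^ 2 = 1 := by
    apply Subtype.ext
    rw [hι]
    change (-1 : Fˣ) ^ 2 = 1
    simp
  have hιne : ι ≠ 1 := by
    intro h
    apply h2F
    have := congrArg (fun u : NU F q => ((u : Fˣ) : F)) h
    simp only [hι, Units.val_neg, Units.val_one, Subgroup.coe_one] at this
    linear_combination -this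
  have hidx : (Subgroup.zpowers ι).index = (q + 1) / 2 := by
    have h4 := Subgroup.card_mul_index (Subgroup.zpowers ι)
    have h5 : Nat.card (Subgroup.zpowers ι) = 2 := by
      rw [Nat.card_zpowers]
      exact orderOf_eq_prime hι2 hιne
    rw [h5, card_NU hF] at h4
    omega
  have hgcd : Nat.gcd m ((q + 1) / 2) = Nat.gcd n (q + 1) / 2 := by
    obtain ⟨r, hr⟩ := hq
    have h6 : q + 1 = 2 * (r + 1) := by omega
    rw [h6, hm, Nat.gcd_mul_left, Nat.mul_div_cancel_left _ (by norm_num), Nat.mul_div_cancel_left _ (by norm_num)]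
  rw [splitClassCount_psu hF hn _ (Subgroup.zpowers ι ⊔ (powMonoidHom m : NU F q →* NU F q).range),
    index_sup_pow, hidx, hgcd]
  intro b
  rw [D.mem_B hn hj, Subgroup.mem_sup]
  have hz : ∀ x : NU F q, x ∈ Subgroup.zpowers ι ↔ x = 1 ∨ x = ι := by
    intro x
    rw [Subgroup.mem_zpowers_iff]
    constructor
    · rintro ⟨l, rfl⟩
      rcases Int.even_or_odd' l with ⟨r, hr | hr⟩
      · left
        rw [hr, _root_.zpow_mul, zpow_ofNat, hι2, _root_.one_zpow]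
      · right
        rw [hr, _root_.zpow_add, _root_.zpow_mul, zpow_ofNat, hι2, _root_.one_zpow, one_mul, zpow_one]
    · rintro (rfl | rfl)
      · exact ⟨0, by simp⟩
      · exact ⟨1, by simp⟩
  have hdet : ∀ (e : Fˣ) (d : k) (ν : kˣ) (ε : k), d = ε * (ν : k) ^ m → bar hF e * e * j ν = 1 →
      (e : F) ^ n * j d = j ε * ((e * (unitsMap (bar hF) e)⁻¹ : Fˣ) : F) ^ m := by
    intro e d ν ε hs he
    rw [hs, map_mul, map_pow, hm, pow_mul, mul_left_comm, ← mul_pow, Units.val_mul, Units.val_inv_eq_inv_val,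
      unitsMap_coe]
    congr 2
    have h3 : bar hF (e : F) ≠ 0 := (_root_.map_ne_zero (bar hF)).mpr e.ne_zero
    field_simp
    linear_combination he
  constructor
  · rintro ⟨x, hx, _, ⟨b', rfl⟩, rfl⟩
    obtain ⟨e, he⟩ := exists_quot_NU hF b'
    have hN : bar hF ((bar hF e * e : F)⁻¹) = (bar hF e * e)⁻¹ := by
      rw [map_inv₀, map_mul, bar_bar hF, mul_comm]
    obtain ⟨ν₀, hν₀⟩ := (hj _).mpr hN
    have hne0 : bar hF (e : F) * e ≠ 0 := mul_ne_zero ((_root_.map_ne_zero (bar hF)).mpr e.ne_zero) e.ne_zero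
    have hν0 : ν₀ ≠ 0 := by
      rintro rfl
      rw [map_zero] at hν₀
      exact inv_ne_zero hne0 hν₀.symm
    obtain ⟨ε, hε, hxε⟩ : ∃ ε : k, (ε = 1 ∨ ε = -1) ∧ j ε = ((x : Fˣ) : F) := by
      rcases (hz x).mp hx with rfl | rfl
      · exact ⟨1, Or.inl rfl, by simp⟩
      · exact ⟨-1, Or.inr rfl, by simp [hι]⟩
    obtain ⟨s, hs, hs'⟩ := exists_sym h2 hm (by omega) D.hM hS (Units.mk0 ν₀ hν0) ε hε
    have he1 : bar hF e * e * j (Units.mk0 ν₀ hν0 : kˣ) = 1 := by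
      rw [Units.val_mk0, hν₀, mul_inv_cancel₀ hne0]
    refine ⟨e, s, _, 1, hs, he1, ?_⟩
    rw [hdet e _ _ ε hs' he1, one_pow, mul_one, ← he, hxε]
    rfl
  · rintro ⟨e, s, ν, w, hs, he, h6⟩
    obtain ⟨x, ε, hx, hxε, h7⟩ : ∃ (x : NU F q) (ε : k), x ∈ Subgroup.zpowers ι ∧ j ε = ((x : Fˣ) : F) ∧
        (s : Matrix (Fin n) (Fin n) k).det = ε * (ν : k) ^ m := by
      rcases det_sym hm D.hM hs with h | h
      · exact ⟨1, 1, (hz 1).mpr (Or.inl rfl), by simp, by rw [h, one_mul]⟩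
      · exact ⟨ι, -1, (hz _).mpr (Or.inr rfl), by simp [hι], by rw [h]; ring⟩
    rw [hdet e _ ν ε h7 he, hxε] at h6
    refine ⟨x, hx, _, ⟨⟨_, quot_mem hF e⟩ * (w⁻¹) ^ 2, rfl⟩, ?_⟩
    change x * (⟨_, quot_mem hF e⟩ * (w⁻¹) ^ 2) ^ m = b
    rw [mul_pow, ← pow_mul, ← hm, inv_pow, ← mul_assoc, mul_inv_eq_iff_eq_mul]
    apply Subtype.ext
    apply Units.ext
    rw [← h6]
    simp

/-- odd dimension or characteristic two -/
theorem split_else (hn : 3 ≤ n) (hj : ∀ x, (∃ c, j c = x) ↔ bar hF x = x) (hn2 : ¬ (Even n ∧ (2 : k) ≠ 0))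
    {γ : MulAut (Cfsg.PSU n F q)} {M : Matrix (Fin n) (Fin n) k} (hR : R hF j γ M) :
    Cfsg.splitClassCount (Cfsg.inndiagPSU n F q) (Cfsg.Inn (Cfsg.PSU n F q)) γ = Nat.gcd n (q + 1) := by
  obtain ⟨g, C, c, a, D, rfl⟩ := hR
  rw [splitClassCount_psu hF hn _ (powMonoidHom n : NU F q →* NU F q).range, IsCyclic.index_powMonoidHom_range,
    card_NU hF, Nat.gcd_comm]
  intro b
  rw [D.mem_B hn hj]
  constructor
  · rintro ⟨b', rfl⟩
    refine ⟨(b' : Fˣ), 1, 1, 1, ?_, ?_, ?_⟩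
    · simp
    · rw [Units.val_one, map_one, mul_one, bar_apply, ← pow_succ]
      exact norm_val b'.2
    · simp
  · rintro ⟨e, s, ν, w, hs, he, h6⟩
    obtain ⟨t, ht1, ht2⟩ := det_else hn2 D.hM hs
    rw [ht2, map_pow, ← mul_pow] at h6
    have hbt : bar hF (j (t : k)) = j t := (hj _).mp ⟨_, rfl⟩
    have hmem : e * Units.map j.toMonoidHom t ∈ (H44.UField.normHom F q).ker := by
      rw [H6.PSUNorm.mem_NU, pow_succ]
      apply Units.ext
      have h1 : bar hF ((e : F) * j t) = ((e : F) * j t) ^ q := bar_apply hF _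
      have h3 : (((e * Units.map j.toMonoidHom t) ^ q * (e * Units.map j.toMonoidHom t) : Fˣ) : F) =
          ((e : F) * j t) ^ q * ((e : F) * j t) := by simp
      rw [h3, ← h1, map_mul, hbt, Units.val_one, ← he, ht1, Units.val_pow_eq_pow_val, map_pow]
      ring
    refine ⟨⟨_, hmem⟩ * w⁻¹, ?_⟩
    change (⟨_, hmem⟩ * w⁻¹) ^ n = b
    rw [mul_pow, inv_pow, mul_inv_eq_iff_eq_mul]
    apply Subtype.ext
    apply Units.ext
    rw [← h6]
    simp

end

end H6.GrPSU
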