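import Mathlib

/-!
Odd order subgroups normalised by the root elements of a symplectic or orthogonal group in odd characteristic are
trivial: the abstract argument.

`N` is a subgroup of odd order of a group `G`, `ω` a homomorphism from the isometry group of a form `B` to `G` whose
kernel consists of scalars, `N` is normalised by the images of the elements of order `r` (`r` odd).  Every element of `N`
which acts on the image of `ω` as conjugation with a semilinear similitude `T` of `B` acts trivially, i.e. `T` is scalar.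
-/

set_option autoImplicit false
set_option linter.unusedSectionVars false

namespace H6.OddCore

open LinearMap (BilinForm)

variable {k V : Type*} [Field k] [AddCommGroup V] [Module k V]

/-- isometries of a bilinear form -/
def Iso (B : BilinForm k V) : Subgroup (V ≃ₗ[k] V) where
  carrier := {g | ∀ v w, B (g v) (g w) = B v w}
  mul_mem' := by
    intro g h hg hh v w
    change B (g (h v)) (g (h w)) = B v w
    rw [hg, hh]
  one_mem' := fun v w => rfl
  inv_mem' := by
    intro g hg v w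
    have h1 : B (g (g.symm v)) (g (g.symm w)) = B (g.symm v) (g.symm w) := hg _ _
    rw [LinearEquiv.apply_symm_apply, LinearEquiv.apply_symm_apply] at h1
    exact h1.symm

variable {B : BilinForm k V}

lemma iso_form (g : Iso B) (v w : V) : B (g.1 v) (g.1 w) = B v w := g.2 v w

lemma iso_ext {g h : Iso B} (H : ∀ v, g.1 v = h.1 v) : g = h := Subtype.ext (LinearEquiv.ext H)

lemma iso_mul_apply (g h : Iso B) (v : V) : (g * h).1 v = g.1 (h.1 v) := rfl

lemma iso_one_apply (v : V) : (1 : Iso B).1 v = v := rfl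

/-- semilinear similitudes -/
structure Semi (B : BilinForm k V) (T : V ≃+ V) (τ : k ≃+* k) (μ : k) : Prop where
  smul : ∀ (a : k) v, T (a • v) = τ a • T v
  form : ∀ v w, B (T v) (T w) = μ * τ (B v w)
  ne : μ ≠ 0

section semi

variable {T T' : V ≃+ V} {τ τ' : k ≃+* k} {μ μ' : k}

lemma Semi.trans (h : Semi B T τ μ) (h' : Semi B T' τ' μ') : Semi B (T'.trans T) (τ'.trans τ) (μ * τ μ') where
  smul a v := by
    rw [AddEquiv.trans_apply, h'.smul, h.smul]; rfl
  form v w := by
    rw [AddEquiv.trans_apply, AddEquiv.trans_apply, h.form, h'.form, map_mul, mul_assoc]; rfl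
  ne := mul_ne_zero h.ne ((map_ne_zero τ).mpr h'.ne)

lemma Semi.symm (h : Semi B T τ μ) : Semi B T.symm τ.symm (τ.symm μ)⁻¹ where
  smul a v := by
    apply T.injective
    rw [T.apply_symm_apply, h.smul, T.apply_symm_apply, RingEquiv.apply_symm_apply]
  form v w := by
    have h1 := h.form (T.symm v) (T.symm w)
    rw [T.apply_symm_apply, T.apply_symm_apply] at h1
    rw [h1, map_mul, RingEquiv.symm_apply_apply, inv_mul_cancel_left₀]
    exact (map_ne_zero τ.symm).mpr h.ne
  ne := inv_ne_zero ((map_ne_zero τ.symm).mpr h.ne)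

/-- conjugation of isometries by semilinear similitudes -/
def Semi.conj (h : Semi B T τ μ) (s : Iso B) : Iso B :=
  ⟨{ toFun := fun v => T (s.1 (T.symm v))
     invFun := fun v => T (s.1.symm (T.symm v))
     map_add' := fun v w => by rw [map_add, map_add, map_add]
     map_smul' := fun a v => by
      rw [h.symm.smul, map_smul, h.smul, RingEquiv.apply_symm_apply]; rfl
     left_inv := fun v => by simp
     right_inv := fun v => by simp },
   fun v w => by
    change B (T (s.1 (T.symm v))) (T (s.1 (T.symm w))) = B v w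
    rw [h.form, iso_form, ← h.form, T.apply_symm_apply, T.apply_symm_apply]⟩

lemma Semi.conj_apply (h : Semi B T τ μ) (s : Iso B) (v : V) : (h.conj s).1 v = T (s.1 (T.symm v)) := rfl

lemma Semi.conj_apply' (h : Semi B T τ μ) (s : Iso B) (v : V) : (h.conj s).1 (T v) = T (s.1 v) := by
  rw [h.conj_apply, T.symm_apply_apply]

end semi

/-! ### root elements -/

section root

variable [FiniteDimensional k V] (hB : ∀ v, (∀ w, B v w = 0) → v = 0)

/-- an isometry from a linear map -/
noncomputable def mkIso (hB : ∀ v, (∀ w, B v w = 0) → v = 0) (f : V →ₗ[k] V) (hf : ∀ v w, B (f v) (f w) = B v w) :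
    Iso B :=
  ⟨LinearEquiv.ofInjectiveEndo f (by
    rw [← LinearMap.ker_eq_bot, LinearMap.ker_eq_bot']
    intro v hv
    apply hB
    intro w
    rw [← hf, hv, map_zero, LinearMap.zero_apply]), hf⟩

lemma mkIso_apply (f : V →ₗ[k] V) (hf : ∀ v w, B (f v) (f w) = B v w) (v : V) : (mkIso hB f hf).1 v = f v := rfl

variable (B) in
/-- Siegel map -/
noncomputable def sgl (x w : V) : V →ₗ[k] V :=
  LinearMap.id + (B.flip x).smulRight w - (B.flip w).smulRight x - ((2⁻¹ * B w w) • (B.flip x).smulRight x)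

lemma sgl_apply (x w v : V) : sgl B x w v = v + B v x • w - B v w • x - (2⁻¹ * B w w * B v x) • x := by
  simp [sgl, mul_smul]

/-- transvection -/
noncomputable def trv (B : BilinForm k V) (x : V) (a : k) : V →ₗ[k] V := LinearMap.id + a • (B.flip x).smulRight x

lemma trv_apply (x v : V) (a : k) : trv B x a v = v + (a * B v x) • x := by
  simp [trv, mul_smul]

lemma sgl_form (hs : ∀ v w, B v w = B w v) (h2 : (2 : k) ≠ 0) {x w : V} (hx : B x x = 0) (hw : B w x = 0) (v v' : V) :
    B (sgl B x w v) (sgl B x w v') = B v v' := by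
  rw [sgl_apply, sgl_apply]
  have hw' : B x w = 0 := by rw [hs, hw]
  simp only [map_add, map_sub, map_smul, LinearMap.add_apply, LinearMap.sub_apply, LinearMap.smul_apply, smul_eq_mul,
    hx, hw, hw', hs x v', hs w v']
  field_simp
  ring

lemma trv_form (ha : ∀ v w, B v w = - B w v) (hx : ∀ v, B v v = 0) (x : V) (a : k) (v v' : V) :
    B (trv B x a v) (trv B x a v') = B v v' := by
  rw [trv_apply, trv_apply]
  simp only [map_add, map_smul, LinearMap.add_apply, LinearMap.smul_apply, smul_eq_mul, hx, ha x v']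
  ring

end root

/-- hypotheses for the orthogonal case -/
structure SymHyp (B : BilinForm k V) : Prop where
  nd : ∀ v, (∀ w, B v w = 0) → v = 0
  sym : ∀ v w, B v w = B w v
  two : (2 : k) ≠ 0

/-- hypotheses for the symplectic case -/
structure AltHyp (B : BilinForm k V) : Prop where
  nd : ∀ v, (∀ w, B v w = 0) → v = 0
  skew : ∀ v w, B v w = - B w v
  alt : ∀ v, B v v = 0
  two : (2 : k) ≠ 0

section elements

variable [FiniteDimensional k V]

/-- Siegel element -/
noncomputable def Sg (H : SymHyp B) {x w : V} (hx : B x x = 0) (hw : B w x = 0) : Iso B :=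
  mkIso H.nd (sgl B x w) (sgl_form H.sym H.two hx hw)

lemma Sg_apply (H : SymHyp B) {x w : V} (hx : B x x = 0) (hw : B w x = 0) (v : V) :
    (Sg H hx hw).1 v = v + B v x • w - B v w • x - (2⁻¹ * B w w * B v x) • x := by
  rw [Sg, mkIso_apply, sgl_apply]

lemma Sg_mul (H : SymHyp B) {x w w' : V} (hx : B x x = 0) (hw : B w x = 0) (hw' : B w' x = 0)
    (hww : B (w + w') x = 0) : Sg H hx hw * Sg H hx hw' = Sg H hx hww := by
  apply iso_ext
  intro v
  have hxw : B x w = 0 := by rw [H.sym, hw]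
  have hxw' : B x w' = 0 := by rw [H.sym, hw']
  have h2 := H.two
  rw [iso_mul_apply, Sg_apply, Sg_apply, Sg_apply]
  simp only [map_add, map_sub, map_smul, LinearMap.add_apply, LinearMap.sub_apply, LinearMap.smul_apply, smul_eq_mul,
    hx, hw', hxw, H.sym w' w]
  match_scalars <;> field_simp <;> ring

lemma Sg_zero (H : SymHyp B) {x w : V} (hx : B x x = 0) (hw : B w x = 0) (h : w = 0) : Sg H hx hw = 1 := by
  subst h
  apply iso_ext
  intro v
  rw [Sg_apply, iso_one_apply]
  simp

lemma Sg_congr (H : SymHyp B) {x w w' : V} (hx : B x x = 0) (hw : B w x = 0) (hw' : B w' x = 0) (h : w = w') :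
    Sg H hx hw = Sg H hx hw' := by
  subst h; rfl

lemma Sg_pow (H : SymHyp B) {x w : V} (hx : B x x = 0) (hw : B w x = 0) (m : ℕ) (hm : B ((m : k) • w) x = 0) :
    Sg H hx hw ^ m = Sg H hx hm := by
  induction m with
  | zero => rw [pow_zero, Sg_zero]; simp
  | succ m ih =>
    have h1 : B ((m : k) • w) x = 0 := by rw [map_smul, LinearMap.smul_apply, hw, smul_zero]
    have h2 : B ((m : k) • w + w) x = 0 := by rw [map_add, LinearMap.add_apply, h1, hw, add_zero]
    rw [pow_succ, ih h1, Sg_mul H hx h1 hw h2]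
    apply Sg_congr
    push_cast
    rw [add_smul, one_smul]

lemma Sg_pow_r (H : SymHyp B) {x w : V} (hx : B x x = 0) (hw : B w x = 0) {r : ℕ} (hr : (r : k) = 0) :
    Sg H hx hw ^ r = 1 := by
  have h1 : B ((r : k) • w) x = 0 := by rw [map_smul, LinearMap.smul_apply, hw, smul_zero]
  rw [Sg_pow H hx hw r h1, Sg_zero]
  rw [hr, zero_smul]

/-- transvection -/
noncomputable def Tv (H : AltHyp B) (x : V) (a : k) : Iso B :=
  mkIso H.nd (trv B x a) (trv_form H.skew H.alt x a)

lemma Tv_apply (H : AltHyp B) (x : V) (a : k) (v : V) : (Tv H x a).1 v = v + (a * B v x) • x := by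
  rw [Tv, mkIso_apply, trv_apply]

lemma Tv_mul (H : AltHyp B) (x : V) (a b : k) : Tv H x a * Tv H x b = Tv H x (a + b) := by
  apply iso_ext
  intro v
  rw [iso_mul_apply, Tv_apply, Tv_apply, Tv_apply]
  simp only [map_add, map_smul, LinearMap.add_apply, LinearMap.smul_apply, smul_eq_mul, H.alt]
  match_scalars <;> ring

lemma Tv_zero (H : AltHyp B) (x : V) : Tv H x 0 = 1 := by
  apply iso_ext
  intro v
  rw [Tv_apply, iso_one_apply]
  simp

lemma Tv_pow (H : AltHyp B) (x : V) (a : k) (m : ℕ) : Tv H x a ^ m = Tv H x (m * a) := by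
  induction m with
  | zero => rw [pow_zero, Nat.cast_zero, zero_mul, Tv_zero]
  | succ m ih => rw [pow_succ, ih, Tv_mul]; congr 1; push_cast; ring

lemma Tv_pow_r (H : AltHyp B) (x : V) (a : k) {r : ℕ} (hr : (r : k) = 0) : Tv H x a ^ r = 1 := by
  rw [Tv_pow, hr, zero_mul, Tv_zero]

end elements

/-! ### the group theoretic argument -/

section group

variable {G : Type*} [Group G]

/-- a product of an element normalising `N` with an element of `N` -/
lemma pow_mem_coset {N : Subgroup G} {h n : G} (hh : ∀ x ∈ N, h⁻¹ * x * h ∈ N) (hn : n ∈ N) (m : ℕ) :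
    (h ^ m)⁻¹ * (h * n) ^ m ∈ N := by
  induction m with
  | zero => simp [N.one_mem]
  | succ m ih =>
    have h1 : (h ^ (m + 1))⁻¹ * (h * n) ^ (m + 1) = h⁻¹ * ((h ^ m)⁻¹ * (h * n) ^ m) * h * n := by
      rw [pow_succ h, pow_succ (h * n)]; group
    rw [h1]
    exact N.mul_mem (hh _ ih) hn

/-- the hypotheses on the group -/
structure Hyp (B : BilinForm k V) (ω : Iso B →* G) (N : Subgroup G) (r : ℕ) : Prop where
  ker : ∀ g, ω g = 1 → ∃ c : k, ∀ v, g.1 v = c • v
  odd : Odd (Nat.card N)
  rodd : Odd r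
  rzero : (r : k) = 0
  norm : ∀ u : Iso B, u ^ r = 1 → ∀ x ∈ N, (ω u)⁻¹ * x * ω u ∈ N

lemma eq_one_of_pow {g : G} {m : ℕ} (hm : Odd m) (h1 : g ^ m = 1) (h4 : g ^ 4 = 1) : g = 1 := by
  have h5 := orderOf_dvd_of_pow_eq_one h1
  have h6 := orderOf_dvd_of_pow_eq_one h4
  have h7 : Nat.Coprime m 4 := by
    have : Nat.Coprime m (2 ^ 2) := (Nat.coprime_two_right.mpr hm).pow_right 2
    exact this
  have h8 := Nat.dvd_gcd h5 h6
  rw [h7] at h8
  exact orderOf_eq_one_iff.mp (Nat.dvd_one.mp h8)

variable {ω : Iso B →* G} {N : Subgroup G} {r : ℕ} {T : V ≃+ V} {τ : k ≃+* k} {μ : k}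

theorem even_word (H : Hyp B ω N r) {ν : G} (hν : ν ∈ N) (h : Semi B T τ μ)
    (hR : ∀ s, ν * ω s * ν⁻¹ = ω (h.conj s)) {u₁ u₂ u₂' : Iso B} (h1 : u₁ ^ r = 1) (h2 : u₂ ^ r = 1)
    (h3 : (u₁ * u₂ * u₁) ^ r = 1) (h4 : ∀ v, u₂'.1 (T v) = T (u₂.1 v)) (h5 : (u₁ * u₂' * u₁) ^ 4 = 1) :
    ∃ c : k, ∀ v, (u₁ * u₂' * u₁).1 v = c • v := by
  apply H.ker
  have h6 : u₂' = h.conj u₂ := by
    apply iso_ext
    intro v
    obtain ⟨v, rfl⟩ := T.surjective v
    rw [h4, h.conj_apply']
  have h7 : ω u₂' = ν * ω u₂ * ν⁻¹ := by rw [h6, hR]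
  -- `ω g = ω (u₁ u₂ u₁) n`
  have hn1 := H.norm _ h1
  have hn2 := H.norm _ h2
  have hn3 := H.norm _ h3
  obtain ⟨n, hn, h8⟩ : ∃ n ∈ N, ω (u₁ * u₂' * u₁) = ω (u₁ * u₂ * u₁) * n := by
    refine ⟨(ω u₁)⁻¹ * ((ω u₂)⁻¹ * ν * ω u₂ * ν⁻¹) * ω u₁, hn1 _ (N.mul_mem (hn2 _ hν) (N.inv_mem hν)), ?_⟩
    rw [map_mul, map_mul, map_mul, map_mul, h7]
    group
  have h9 := pow_mem_coset hn3 hn r
  rw [← h8, ← map_pow, h3, map_one, inv_one, one_mul] at h9
  have h10 : (ω (u₁ * u₂' * u₁)) ^ (r * Nat.card N) = 1 := by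
    rw [pow_mul]
    have := pow_card_eq_one' (x := (⟨_, h9⟩ : N))
    exact congrArg Subtype.val this
  apply eq_one_of_pow (H.rodd.mul H.odd) h10
  rw [← map_pow, h5, map_one]

end group

end H6.OddCore
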