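import Mathlib
import Cfsg.Agent.Lib.H6.OddCore

/-!
Odd order subgroups normalised by the root elements of an orthogonal or symplectic group in odd characteristic.
-/

set_option autoImplicit false
set_option linter.unusedSectionVars false

namespace H6.OddCore

open LinearMap (BilinForm)

variable {k V : Type*} [Field k] [AddCommGroup V] [Module k V] [FiniteDimensional k V] {B : BilinForm k V}
  {G : Type*} [Group G] {ω : Iso B →* G} {N : Subgroup G} {r : ℕ} {T : V ≃+ V} {τ : k ≃+* k} {μ : k}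

lemma conj_Sg (S : SymHyp B) (h : Semi B T τ μ) {x w' w₂ : V} (hx : B x x = 0) (hy : B (T x) (T x) = 0)
    (hw' : B w' (T x) = 0) (hT : T w₂ = μ • w') (hw₂ : B w₂ x = 0) (v : V) :
    (Sg S hy hw').1 (T v) = T ((Sg S hx hw₂).1 v) := by
  have hμ := h.ne
  have h1 : μ * τ (B w₂ w₂) = μ * μ * B w' w' := by
    rw [← h.form, hT]
    simp only [map_smul, LinearMap.smul_apply, smul_eq_mul]
    ring
  have h2 : μ * τ (B v w₂) = μ * B (T v) w' := by
    rw [← h.form, hT, map_smul, smul_eq_mul]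
  have h1' : τ (B w₂ w₂) = μ * B w' w' := mul_left_cancel₀ hμ (by rw [h1]; ring)
  have h2' : τ (B v w₂) = B (T v) w' := mul_left_cancel₀ hμ h2
  rw [Sg_apply, Sg_apply, map_sub, map_sub, map_add, h.smul, h.smul, h.smul, hT, h2', h.form, map_mul, map_mul,
    map_inv₀, map_ofNat, h1']
  match_scalars <;> ring

lemma exists_w₂ (h : Semi B T τ μ) {x w' : V} (hw' : B w' (T x) = 0) : ∃ w₂, T w₂ = μ • w' ∧ B w₂ x = 0 := by
  refine ⟨T.symm (μ • w'), T.apply_symm_apply _, ?_⟩
  have h1 := h.form (T.symm (μ • w')) x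
  rw [T.apply_symm_apply, map_smul, LinearMap.smul_apply, hw', smul_zero] at h1
  have h2 := (mul_eq_zero.mp h1.symm).resolve_left h.ne
  exact (map_eq_zero τ).mp h2

/-- the product of root elements of the groups at `x` and `T x` is scalar when it has order dividing four -/
lemma word_Sg (S : SymHyp B) (H : Hyp B ω N r) {ν : G} (hν : ν ∈ N) (h : Semi B T τ μ)
    (hR : ∀ s, ν * ω s * ν⁻¹ = ω (h.conj s)) {x w w' : V} (hx : B x x = 0) (hy : B (T x) (T x) = 0)
    (hw : B w x = 0) (hw' : B w' (T x) = 0) (h5 : (Sg S hx hw * Sg S hy hw' * Sg S hx hw) ^ 4 = 1) :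
    ∃ c : k, ∀ v, (Sg S hx hw * Sg S hy hw' * Sg S hx hw).1 v = c • v := by
  obtain ⟨w₂, hT, hw₂⟩ := exists_w₂ h hw'
  refine even_word H hν h hR (u₂ := Sg S hx hw₂) (Sg_pow_r S hx hw H.rzero) (Sg_pow_r S hx hw₂ H.rzero) ?_ ?_ h5
  · have h1 : B (w + w₂) x = 0 := by rw [map_add, LinearMap.add_apply, hw, hw₂, add_zero]
    have h2 : B (w + w₂ + w) x = 0 := by rw [map_add, LinearMap.add_apply, h1, hw, add_zero]
    rw [Sg_mul S hx hw hw₂ h1, Sg_mul S hx h1 hw h2]
    exact Sg_pow_r S hx h2 H.rzero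
  · exact conj_Sg S h hx hy hw' hT hw₂

/-- first word -/
lemma wordA (S : SymHyp B) {x y w : V} (hx : B x x = 0) (hy : B y y = 0) (hw : B w x = 0)
    (hwy : B w y = 0) (hc : B x y ≠ 0) (hd : B w w ≠ 0) {b : k} (hb : b = 2 / (B x y * B w w))
    (hbw : B (b • w) y = 0) (v : V) :
    (Sg S hx hw * Sg S hy hbw * Sg S hx hw).1 v =
      v - (B v x / (b * B x y) + B v y / B x y) • x - (B v x / B x y + b * B v y / B x y) • y -
        (2 * B v w / B w w) • w := by
  have hxw : B x w = 0 := by rw [S.sym, hw]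
  have hyw : B y w = 0 := by rw [S.sym, hwy]
  have hyx : B y x = B x y := S.sym y x
  have h2 := S.two
  subst hb
  rw [iso_mul_apply, iso_mul_apply, Sg_apply, Sg_apply, Sg_apply]
  simp only [map_add, map_sub, map_smul, LinearMap.add_apply, LinearMap.sub_apply, LinearMap.smul_apply, smul_eq_mul,
    hx, hw, hwy, hxw, hyw, hyx]
  match_scalars <;> field_simp <;> ring

lemma wordA_sq (S : SymHyp B) {x y w : V} (hx : B x x = 0) (hy : B y y = 0) (hw : B w x = 0)
    (hwy : B w y = 0) (hc : B x y ≠ 0) (hd : B w w ≠ 0) {b : k} (hb : b = 2 / (B x y * B w w))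
    (hbw : B (b • w) y = 0) : (Sg S hx hw * Sg S hy hbw * Sg S hx hw) ^ 2 = 1 := by
  have hxw : B x w = 0 := by rw [S.sym, hw]
  have hyw : B y w = 0 := by rw [S.sym, hwy]
  have hyx : B y x = B x y := S.sym y x
  have h2 := S.two
  apply iso_ext
  intro v
  rw [pow_two, iso_mul_apply, iso_one_apply, wordA S hx hy hw hwy hc hd hb hbw, wordA S hx hy hw hwy hc hd hb hbw]
  subst hb
  simp only [map_sub, map_smul, LinearMap.sub_apply, LinearMap.smul_apply, smul_eq_mul,
    hx, hy, hw, hwy, hxw, hyw, hyx]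
  match_scalars <;> field_simp <;> ring

lemma exists_perp (S : SymHyp B) (hdim : 3 ≤ Module.finrank k V) {x y : V} (hx : B x x = 0) (hy : B y y = 0)
    (hc : B x y ≠ 0) : ∃ w, B w x = 0 ∧ B w y = 0 ∧ B w w ≠ 0 := by
  by_contra hcon
  push Not at hcon
  -- a nonzero vector perpendicular to `x` and `y`
  let f : V →ₗ[k] (k × k) := (B.flip x).prod (B.flip y)
  have hf : ∀ v, f v = (B v x, B v y) := fun v => rfl
  have hker : LinearMap.ker f ≠ ⊥ := by
    apply LinearMap.ker_ne_bot_of_finrank_lt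
    rw [Module.finrank_prod, Module.finrank_self]
    omega
  obtain ⟨w₀, hw₀, hne⟩ := (Submodule.ne_bot_iff _).mp hker
  rw [LinearMap.mem_ker, hf, Prod.mk_eq_zero] at hw₀
  apply hne
  apply S.nd
  intro v
  -- `B` vanishes on the perp
  have hyx : B y x = B x y := S.sym y x
  have h1 : ∀ u, B u x = 0 → B u y = 0 → B w₀ u = 0 := by
    intro u hu1 hu2
    have e1 := hcon w₀ hw₀.1 hw₀.2
    have e2 := hcon u hu1 hu2
    have e3 := hcon (w₀ + u) (by rw [map_add, LinearMap.add_apply, hw₀.1, hu1, add_zero])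
      (by rw [map_add, LinearMap.add_apply, hw₀.2, hu2, add_zero])
    simp only [map_add, LinearMap.add_apply, e1, e2, S.sym u w₀] at e3
    have e4 : 2 * B w₀ u = 0 := by linear_combination e3
    exact (mul_eq_zero.mp e4).resolve_left S.two
  have h2 := h1 (v - (B v y / B x y) • x - (B v x / B x y) • y)
    (by
      simp only [map_sub, map_smul, LinearMap.sub_apply, LinearMap.smul_apply, smul_eq_mul, hx, hyx]
      field_simp; ring)
    (by
      simp only [map_sub, map_smul, LinearMap.sub_apply, LinearMap.smul_apply, smul_eq_mul, hy]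
      field_simp; ring)
  simp only [map_sub, map_smul, smul_eq_mul, hw₀.1, hw₀.2] at h2
  linear_combination h2

/-- singular vectors are mapped to perpendicular ones -/
theorem lemA (S : SymHyp B) (hdim : 3 ≤ Module.finrank k V) (H : Hyp B ω N r) {ν : G} (hν : ν ∈ N)
    (h : Semi B T τ μ) (hR : ∀ s, ν * ω s * ν⁻¹ = ω (h.conj s)) {x : V} (hx : B x x = 0) : B x (T x) = 0 := by
  by_contra hc
  have hy : B (T x) (T x) = 0 := by rw [h.form, hx, map_zero, mul_zero]
  obtain ⟨w, hw, hwy, hd⟩ := exists_perp S hdim hx hy hc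
  have hbw : B ((2 / (B x (T x) * B w w)) • w) (T x) = 0 := by
    rw [map_smul, LinearMap.smul_apply, hwy, smul_zero]
  obtain ⟨c, hc'⟩ := word_Sg S H hν h hR hx hy hw hbw (by
    rw [show 4 = 2 * 2 from rfl, pow_mul, wordA_sq S hx hy hw hwy hc hd rfl hbw, one_pow])
  have h1 := hc' x
  rw [wordA S hx hy hw hwy hc hd rfl hbw] at h1
  have h2 := congrArg (fun u => B u x) h1
  have hwx := hw
  have hyx : B (T x) x = B x (T x) := S.sym _ _
  have hxw : B x w = 0 := by rw [S.sym, hw]
  simp only [map_sub, map_smul, LinearMap.sub_apply, LinearMap.smul_apply, smul_eq_mul, hx, hw, hyx, hxw] at h2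
  have h2' := S.two
  field_simp at h2
  simp [h2'] at h2

/-- second word -/
lemma wordB (S : SymHyp B) {x z X Z : V} (hx : B x x = 0) (hz : B z z = 0) (hX : B X X = 0) (hZ : B Z Z = 0)
    (hzx : B z x = 0) (hXZ : B X Z = 0) (hxX : B x X = 0) (hzZ : B z Z = 0) (hp : B x Z ≠ 0) (hq : B z X ≠ 0)
    {b : k} (hb : b = -1 / (B x Z * B z X)) (hbZ : B (b • Z) X = 0) (v : V) :
    (Sg S hx hzx * Sg S hX hbZ * Sg S hx hzx).1 v =
      v + (B v x + b * B x Z * B v X) • z + (b * B z X * B v Z - B v z) • x +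
        (b * B v X + b * B z X * B v x) • Z - (b * B v Z - b * B x Z * B v z) • X := by
  have hxz : B x z = 0 := by rw [S.sym, hzx]
  have hZX : B Z X = 0 := by rw [S.sym, hXZ]
  have hXx : B X x = 0 := by rw [S.sym, hxX]
  have hZz : B Z z = 0 := by rw [S.sym, hzZ]
  have hZx : B Z x = B x Z := S.sym _ _
  have hXz : B X z = B z X := S.sym _ _
  have h2 := S.two
  subst hb
  rw [iso_mul_apply, iso_mul_apply, Sg_apply, Sg_apply, Sg_apply]
  simp only [map_add, map_sub, map_smul, LinearMap.add_apply, LinearMap.sub_apply, LinearMap.smul_apply, smul_eq_mul,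
    hx, hz, hZ, hzx, hxz, hxX, hXx, hzZ, hZz, hZx, hXz]
  match_scalars <;> field_simp <;> ring

lemma wordB_sq (S : SymHyp B) {x z X Z : V} (hx : B x x = 0) (hz : B z z = 0) (hX : B X X = 0) (hZ : B Z Z = 0)
    (hzx : B z x = 0) (hXZ : B X Z = 0) (hxX : B x X = 0) (hzZ : B z Z = 0) (hp : B x Z ≠ 0) (hq : B z X ≠ 0)
    {b : k} (hb : b = -1 / (B x Z * B z X)) (hbZ : B (b • Z) X = 0) (v : V) :
    ((Sg S hx hzx * Sg S hX hbZ * Sg S hx hzx) ^ 2).1 v =
      v + (2 * b * B x Z * B v X) • z + (2 * b * B z X * B v Z) • x + (2 * b * B z X * B v x) • Z +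
        (2 * b * B x Z * B v z) • X := by
  have hxz : B x z = 0 := by rw [S.sym, hzx]
  have hZX : B Z X = 0 := by rw [S.sym, hXZ]
  have hXx : B X x = 0 := by rw [S.sym, hxX]
  have hZz : B Z z = 0 := by rw [S.sym, hzZ]
  have hZx : B Z x = B x Z := S.sym _ _
  have hXz : B X z = B z X := S.sym _ _
  rw [pow_two, iso_mul_apply, wordB S hx hz hX hZ hzx hXZ hxX hzZ hp hq hb hbZ,
    wordB S hx hz hX hZ hzx hXZ hxX hzZ hp hq hb hbZ]
  subst hb
  simp only [map_add, map_sub, map_smul, LinearMap.add_apply, LinearMap.sub_apply, LinearMap.smul_apply, smul_eq_mul,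
    hx, hz, hX, hZ, hzx, hxz, hXZ, hZX, hxX, hXx, hzZ, hZz, hZx, hXz]
  match_scalars <;> field_simp <;> ring

lemma wordB_four (S : SymHyp B) {x z X Z : V} (hx : B x x = 0) (hz : B z z = 0) (hX : B X X = 0) (hZ : B Z Z = 0)
    (hzx : B z x = 0) (hXZ : B X Z = 0) (hxX : B x X = 0) (hzZ : B z Z = 0) (hp : B x Z ≠ 0) (hq : B z X ≠ 0)
    {b : k} (hb : b = -1 / (B x Z * B z X)) (hbZ : B (b • Z) X = 0) :
    (Sg S hx hzx * Sg S hX hbZ * Sg S hx hzx) ^ 4 = 1 := by
  have hxz : B x z = 0 := by rw [S.sym, hzx]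
  have hZX : B Z X = 0 := by rw [S.sym, hXZ]
  have hXx : B X x = 0 := by rw [S.sym, hxX]
  have hZz : B Z z = 0 := by rw [S.sym, hzZ]
  have hZx : B Z x = B x Z := S.sym _ _
  have hXz : B X z = B z X := S.sym _ _
  apply iso_ext
  intro v
  rw [show 4 = 2 * 2 from rfl, pow_mul, pow_two (_ ^ 2), iso_mul_apply, iso_one_apply,
    wordB_sq S hx hz hX hZ hzx hXZ hxX hzZ hp hq hb hbZ, wordB_sq S hx hz hX hZ hzx hXZ hxX hzZ hp hq hb hbZ]
  subst hb
  simp only [map_add, map_smul, LinearMap.add_apply, LinearMap.smul_apply, smul_eq_mul,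
    hx, hz, hX, hZ, hzx, hxz, hXZ, hZX, hxX, hXx, hzZ, hZz, hZx, hXz]
  match_scalars <;> field_simp <;> ring

/-- totally singular lines are mapped to non-opposite ones -/
theorem lemB (S : SymHyp B) (H : Hyp B ω N r) {ν : G} (hν : ν ∈ N)
    (h : Semi B T τ μ) (hR : ∀ s, ν * ω s * ν⁻¹ = ω (h.conj s)) {x z : V} (hx : B x x = 0) (hz : B z z = 0)
    (hzx : B z x = 0) (hxX : B x (T x) = 0) (hzZ : B z (T z) = 0) : B x (T z) = 0 ∨ B z (T x) = 0 := by
  by_contra hcon
  push Not at hcon
  obtain ⟨hp, hq⟩ := hcon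
  have hX : B (T x) (T x) = 0 := by rw [h.form, hx, map_zero, mul_zero]
  have hZ : B (T z) (T z) = 0 := by rw [h.form, hz, map_zero, mul_zero]
  have hxz : B x z = 0 := by rw [S.sym, hzx]
  have hXZ : B (T x) (T z) = 0 := by rw [h.form, hxz, map_zero, mul_zero]
  have hbZ : B ((-1 / (B x (T z) * B z (T x))) • T z) (T x) = 0 := by
    rw [map_smul, LinearMap.smul_apply, S.sym (T z) (T x), hXZ, smul_zero]
  obtain ⟨c, hc'⟩ := word_Sg S H hν h hR hx hX hzx hbZ
    (wordB_four S hx hz hX hZ hzx hXZ hxX hzZ hp hq rfl hbZ)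
  have h1 := hc' z
  rw [wordB S hx hz hX hZ hzx hXZ hxX hzZ hp hq rfl hbZ] at h1
  have h2 := congrArg (fun u => B u x) h1
  have hXx : B (T x) x = 0 := by rw [S.sym, hxX]
  have hZx : B (T z) x = B x (T z) := S.sym _ _
  simp only [map_add, map_sub, map_smul, LinearMap.add_apply, LinearMap.sub_apply, LinearMap.smul_apply, smul_eq_mul,
    hx, hz, hzx, hzZ, hXx, hZx] at h2
  field_simp at h2
  simp at h2
  rcases h2 with h2 | h2
  · exact hq h2
  · exact hp h2

/-- the rules for products and inverses -/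
lemma rep_mul {ν ν' : G} {T' : V ≃+ V} {τ' : k ≃+* k} {μ' : k} (h : Semi B T τ μ) (h' : Semi B T' τ' μ')
    (hR : ∀ s, ν * ω s * ν⁻¹ = ω (h.conj s)) (hR' : ∀ s, ν' * ω s * ν'⁻¹ = ω (h'.conj s)) :
    ∀ s, (ν * ν') * ω s * (ν * ν')⁻¹ = ω ((h.trans h').conj s) := by
  intro s
  have h1 : (ν * ν') * ω s * (ν * ν')⁻¹ = ν * (ν' * ω s * ν'⁻¹) * ν⁻¹ := by group
  rw [h1, hR', hR]
  rfl

lemma rep_inv {ν : G} (h : Semi B T τ μ) (hR : ∀ s, ν * ω s * ν⁻¹ = ω (h.conj s)) :
    ∀ s, ν⁻¹ * ω s * ν⁻¹⁻¹ = ω (h.symm.conj s) := by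
  intro s
  have h1 := hR (h.symm.conj s)
  have h2 : h.conj (h.symm.conj s) = s := by
    apply iso_ext
    intro v
    rw [h.conj_apply, h.symm.conj_apply, AddEquiv.symm_symm, T.apply_symm_apply, T.apply_symm_apply]
  rw [h2] at h1
  rw [← h1]
  group

/-- singular points are fixed -/
theorem fix_singular (S : SymHyp B) (hdim : 3 ≤ Module.finrank k V) (H : Hyp B ω N r) {ν : G} (hν : ν ∈ N)
    (h : Semi B T τ μ) (hR : ∀ s, ν * ω s * ν⁻¹ = ω (h.conj s)) {x : V} (hx : B x x = 0) :
    ∃ c : k, T x = c • x := by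
  by_cases hx0 : x = 0
  · exact ⟨1, by rw [hx0, map_zero, smul_zero]⟩
  have A := fun {u : V} (hu : B u u = 0) => lemA S hdim H hν h hR hu
  have hxy : B x (T x) = 0 := A hx
  have hyy : B (T x) (T x) = 0 := by rw [h.form, hx, map_zero, mul_zero]
  by_contra hcon
  -- the vector `T⁻¹ x`
  set v := T.symm x with hv
  have hTv : T v = x := T.apply_symm_apply x
  have hvv : B v v = 0 := by
    have h1 := h.form v v
    rw [hTv, hx] at h1
    exact (map_eq_zero τ).mp ((mul_eq_zero.mp h1.symm).resolve_left h.ne)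
  have hvx : B v x = 0 := by
    have := A hvv
    rwa [hTv] at this
  have hvy : B v (T x) = 0 := by
    have h1 := lemA S hdim H (N.mul_mem hν hν) (h.trans h) (rep_mul h h hR hR) hvv
    rwa [AddEquiv.trans_apply, hTv] at h1
  -- a vector perpendicular to `x` but not to `y`
  obtain ⟨y₁, hy1, hy2⟩ : ∃ y₁, B y₁ x = 0 ∧ B y₁ (T x) = 1 := by
    by_contra hcon2
    push Not at hcon2
    apply hcon
    obtain ⟨u, hu⟩ : ∃ u, B x u ≠ 0 := by
      by_contra hc
      push Not at hc
      exact hx0 (S.nd x hc)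
    have hux : B u x ≠ 0 := by rwa [S.sym]
    have h3 : ∀ w, B w x = 0 → B w (T x) = 0 := by
      intro w hw
      by_contra hw2
      apply hcon2 ((B w (T x))⁻¹ • w)
      · rw [map_smul, LinearMap.smul_apply, hw, smul_zero]
      · rw [map_smul, LinearMap.smul_apply, smul_eq_mul, inv_mul_cancel₀ hw2]
    refine ⟨B u (T x) / B u x, ?_⟩
    have h4 : T x - (B u (T x) / B u x) • x = 0 := by
      apply S.nd
      intro w
      have h5 := h3 (w - (B w x / B u x) • u) (by
        simp only [map_sub, map_smul, LinearMap.sub_apply, LinearMap.smul_apply, smul_eq_mul]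
        field_simp; ring)
      simp only [map_sub, map_smul, LinearMap.sub_apply, LinearMap.smul_apply, smul_eq_mul] at h5 ⊢
      rw [S.sym (T x) w, S.sym x w]
      field_simp at h5 ⊢
      linear_combination h5
    exact sub_eq_zero.mp h4
  have h2 := S.two
  -- singular vectors perpendicular to `x` but not to `y` are perpendicular to `v`
  have key : ∀ z, B z z = 0 → B z x = 0 → B z (T x) = 1 → B v z = 0 := by
    intro z hz hzx hzy
    rcases lemB S H hν h hR hx hz hzx hxy (A hz) with h3 | h3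
    · have h4 := h.form v z
      rw [hTv, h3] at h4
      exact (map_eq_zero τ).mp ((mul_eq_zero.mp h4.symm).resolve_left h.ne)
    · rw [h3] at hzy
      exact absurd hzy.symm one_ne_zero
  have hxy' : B (T x) x = 0 := by rw [S.sym, hxy]
  set y' := y₁ - (2⁻¹ * B y₁ y₁) • T x with hy'
  have hyy1 : B (T x) y₁ = 1 := by rw [S.sym, hy2]
  have e1 : B y' y' = 0 := by
    rw [hy']
    simp only [map_sub, map_smul, LinearMap.sub_apply, LinearMap.smul_apply, smul_eq_mul, hy2, hyy1, hyy]
    field_simp; ring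
  have e2 : B y' x = 0 := by
    rw [hy']
    simp only [map_sub, map_smul, LinearMap.sub_apply, LinearMap.smul_apply, smul_eq_mul, hy1, hxy']
    ring
  have e3 : B y' (T x) = 1 := by
    rw [hy']
    simp only [map_sub, map_smul, LinearMap.sub_apply, LinearMap.smul_apply, smul_eq_mul, hy2, hyy]
    ring
  have e4 : B (T x) y' = 1 := by rw [S.sym, e3]
  have e5 : B v y' = 0 := key y' e1 e2 e3
  have h6 : ∀ u, B u x = 0 → B v u = 0 := by
    intro u hu
    set w := u - B u (T x) • y' - B u y' • T x with hw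
    have f1 : B w x = 0 := by
      rw [hw]
      simp only [map_sub, map_smul, LinearMap.sub_apply, LinearMap.smul_apply, smul_eq_mul, hu, e2, hxy']
      ring
    have f2 : B w (T x) = 0 := by
      rw [hw]
      simp only [map_sub, map_smul, LinearMap.sub_apply, LinearMap.smul_apply, smul_eq_mul, e3, hyy]
      ring
    have f3 : B w y' = 0 := by
      rw [hw]
      simp only [map_sub, map_smul, LinearMap.sub_apply, LinearMap.smul_apply, smul_eq_mul, e1, e4]
      ring
    have f2' : B (T x) w = 0 := by rw [S.sym, f2]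
    have f3' : B y' w = 0 := by rw [S.sym, f3]
    have h7 := key (y' + w - (2⁻¹ * B w w) • T x)
      (by
        simp only [map_add, map_sub, map_smul, LinearMap.add_apply, LinearMap.sub_apply, LinearMap.smul_apply,
          smul_eq_mul, e1, e3, e4, f2, f2', f3, f3', hyy]
        field_simp; ring)
      (by
        simp only [map_add, map_sub, map_smul, LinearMap.add_apply, LinearMap.sub_apply, LinearMap.smul_apply,
          smul_eq_mul, e2, f1, hxy']
        ring)
      (by
        simp only [map_add, map_sub, map_smul, LinearMap.add_apply, LinearMap.sub_apply, LinearMap.smul_apply,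
          smul_eq_mul, e3, f2, hyy]
        ring)
    simp only [map_add, map_sub, map_smul, smul_eq_mul, e5, hvy] at h7
    have h8 : B v u = B v (w + B u (T x) • y' + B u y' • T x) := by
      congr 1
      rw [hw]; module
    rw [h8]
    simp only [map_add, map_smul, smul_eq_mul, e5, hvy]
    linear_combination h7
  -- hence `v` is proportional to `x`
  obtain ⟨u, hu⟩ : ∃ u, B x u ≠ 0 := by
    by_contra hc
    push Not at hc
    exact hx0 (S.nd x hc)
  have hux : B u x ≠ 0 := by rwa [S.sym]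
  have h9 : v = (B v u / B x u) • x := by
    have h10 : v - (B v u / B x u) • x = 0 := by
      apply S.nd
      intro w
      have h5 := h6 (w - (B w x / B u x) • u) (by
        simp only [map_sub, map_smul, LinearMap.sub_apply, LinearMap.smul_apply, smul_eq_mul]
        field_simp; ring)
      simp only [map_sub, map_smul, LinearMap.sub_apply, LinearMap.smul_apply, smul_eq_mul] at h5 ⊢
      rw [S.sym u x, S.sym w x] at h5
      field_simp at h5 ⊢
      linear_combination h5
    exact sub_eq_zero.mp h10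
  have h11 : x = τ (B v u / B x u) • T x := by
    rw [← h.smul, ← h9, hTv]
  apply hcon
  refine ⟨(τ (B v u / B x u))⁻¹, ?_⟩
  have h12 : τ (B v u / B x u) ≠ 0 := by
    intro h0
    rw [h0, zero_smul] at h11
    exact hx0 h11
  have h13 := congrArg (fun t => (τ (B v u / B x u))⁻¹ • t) h11
  simp only [smul_smul, inv_mul_cancel₀ h12, one_smul] at h13
  exact h13.symm

end H6.OddCore
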