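import Mathlib
import Cfsg.Agent.Lib.H6.OddCore2

/-!
Odd order subgroups normalised by the root elements of an orthogonal or symplectic group in odd characteristic:
the conclusions.
-/

set_option autoImplicit false
set_option linter.unusedSectionVars false

namespace H6.OddCore

open LinearMap (BilinForm)

variable {k V : Type*} [Field k] [AddCommGroup V] [Module k V] [FiniteDimensional k V] {B : BilinForm k V}
  {G : Type*} [Group G] {ω : Iso B →* G} {N : Subgroup G} {r : ℕ} {T : V ≃+ V} {τ : k ≃+* k} {μ : k}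

lemma exists_ne_perp (hdim : 3 ≤ Module.finrank k V) (x y : V) : ∃ w, w ≠ 0 ∧ B w x = 0 ∧ B w y = 0 := by
  let f : V →ₗ[k] (k × k) := (B.flip x).prod (B.flip y)
  have hf : ∀ v, f v = (B v x, B v y) := fun v => rfl
  have hker : LinearMap.ker f ≠ ⊥ := by
    apply LinearMap.ker_ne_bot_of_finrank_lt
    rw [Module.finrank_prod, Module.finrank_self]
    omega
  obtain ⟨w₀, hw₀, hne⟩ := (Submodule.ne_bot_iff _).mp hker
  rw [LinearMap.mem_ker, hf, Prod.mk_eq_zero] at hw₀
  exact ⟨w₀, hne, hw₀⟩

/-- **orthogonal case** -/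
theorem main_sym (S : SymHyp B) (hdim : 3 ≤ Module.finrank k V) (H : Hyp B ω N r) {x : V} (hx0 : x ≠ 0)
    (hx : B x x = 0) {ν : G} (hν : ν ∈ N) (h : Semi B T τ μ) (hR : ∀ s, ν * ω s * ν⁻¹ = ω (h.conj s)) :
    (∀ a, τ a = a) ∧ ∃ c : k, ∀ v, T v = c • v := by
  have h2 := S.two
  -- a hyperbolic pair
  obtain ⟨u, hu⟩ : ∃ u, B x u ≠ 0 := by
    by_contra hc
    push Not at hc
    exact hx0 (S.nd x hc)
  set y := (B x u)⁻¹ • u - (2⁻¹ * (B x u)⁻¹ * (B x u)⁻¹ * B u u) • x with hy
  have hxy : B x y = 1 := by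
    rw [hy]
    simp only [map_sub, map_smul, smul_eq_mul, hx]
    field_simp; ring
  have hyy : B y y = 0 := by
    rw [hy]
    simp only [map_sub, map_smul, LinearMap.sub_apply, LinearMap.smul_apply, smul_eq_mul, hx, S.sym u x]
    field_simp; ring
  have hyx : B y x = 1 := by rw [S.sym, hxy]
  obtain ⟨α, hα⟩ := fix_singular S hdim H hν h hR hx
  obtain ⟨β, hβ⟩ := fix_singular S hdim H hν h hR hyy
  have hxyT := h.form x y
  rw [hα, hβ, hxy, map_one, mul_one] at hxyT
  simp only [map_smul, LinearMap.smul_apply, smul_eq_mul, hxy, mul_one] at hxyT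
  have hμ := h.ne
  have hα0 : α ≠ 0 := by rintro rfl; exact hμ (by rw [← hxyT]; ring)
  have hβ0 : β ≠ 0 := by rintro rfl; exact hμ (by rw [← hxyT]; ring)
  -- vectors perpendicular to `x` and `y`
  have hW : ∀ w, B w x = 0 → B w y = 0 → B (T w) x = 0 ∧ B (T w) y = 0 := by
    intro w h1 h3
    have h4 := h.form w x
    have h5 := h.form w y
    rw [hα, h1, map_zero, mul_zero, map_smul, smul_eq_mul] at h4
    rw [hβ, h3, map_zero, mul_zero, map_smul, smul_eq_mul] at h5
    exact ⟨(mul_eq_zero.mp h4).resolve_left hα0, (mul_eq_zero.mp h5).resolve_left hβ0⟩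
  have key : ∀ w, B w x = 0 → B w y = 0 → T w = α • w := by
    intro w h1 h3
    obtain ⟨h4, h5⟩ := hW w h1 h3
    have h1' : B x w = 0 := by rw [S.sym, h1]
    have h3' : B y w = 0 := by rw [S.sym, h3]
    obtain ⟨c, hc⟩ := fix_singular S hdim H hν h hR (x := x + w - (2⁻¹ * B w w) • y) (by
      simp only [map_add, map_sub, map_smul, LinearMap.add_apply, LinearMap.sub_apply, LinearMap.smul_apply,
        smul_eq_mul, hx, hxy, hyx, hyy, h1, h1', h3, h3']
      field_simp; ring)
    rw [map_sub, map_add, h.smul, hα, hβ] at hc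
    have e1 := congrArg (fun t => B t y) hc
    have e2 := congrArg (fun t => B t x) hc
    simp only [map_add, map_sub, map_smul, LinearMap.add_apply, LinearMap.sub_apply, LinearMap.smul_apply,
      smul_eq_mul, hx, hxy, hyx, hyy, h1, h3, h4, h5] at e1 e2
    have e3 : c = α := by linear_combination -e1
    subst e3
    have e4 : τ (2⁻¹ * B w w) * β = c * (2⁻¹ * B w w) := by linear_combination -e2
    have e5 : T w = c • w + (τ (2⁻¹ * B w w) * β - c * (2⁻¹ * B w w)) • y := by
      have : T w = (c • x + T w - τ (2⁻¹ * B w w) • β • y) - c • x + τ (2⁻¹ * B w w) • β • y := by abel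
      rw [this, hc]
      module
    rw [e5, e4, sub_self, zero_smul, add_zero]
  have key' : ∀ w, B w x = 0 → B w y = 0 → T w = β • w := by
    intro w h1 h3
    obtain ⟨h4, h5⟩ := hW w h1 h3
    have h1' : B x w = 0 := by rw [S.sym, h1]
    have h3' : B y w = 0 := by rw [S.sym, h3]
    obtain ⟨c, hc⟩ := fix_singular S hdim H hν h hR (x := y + w - (2⁻¹ * B w w) • x) (by
      simp only [map_add, map_sub, map_smul, LinearMap.add_apply, LinearMap.sub_apply, LinearMap.smul_apply,
        smul_eq_mul, hx, hxy, hyx, hyy, h1, h1', h3, h3']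
      field_simp; ring)
    rw [map_sub, map_add, h.smul, hα, hβ] at hc
    have e1 := congrArg (fun t => B t x) hc
    have e2 := congrArg (fun t => B t y) hc
    simp only [map_add, map_sub, map_smul, LinearMap.add_apply, LinearMap.sub_apply, LinearMap.smul_apply,
      smul_eq_mul, hx, hxy, hyx, hyy, h1, h3, h4, h5] at e1 e2
    have e3 : c = β := by linear_combination -e1
    subst e3
    have e4 : τ (2⁻¹ * B w w) * α = c * (2⁻¹ * B w w) := by linear_combination -e2
    have e5 : T w = c • w + (τ (2⁻¹ * B w w) * α - c * (2⁻¹ * B w w)) • x := by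
      have : T w = (c • y + T w - τ (2⁻¹ * B w w) • α • x) - c • y + τ (2⁻¹ * B w w) • α • x := by abel
      rw [this, hc]
      module
    rw [e5, e4, sub_self, zero_smul, add_zero]
  obtain ⟨w, hw0, hwx, hwy⟩ := exists_ne_perp (B := B) hdim x y
  have hαβ : α = β := by
    have h3 := key w hwx hwy
    rw [key' w hwx hwy] at h3
    exact (smul_left_injective k hw0 h3).symm
  subst hαβ
  have hτ : ∀ a, τ a = a := by
    intro a
    have h3 := key (a • w) (by rw [map_smul, LinearMap.smul_apply, hwx, smul_zero])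
      (by rw [map_smul, LinearMap.smul_apply, hwy, smul_zero])
    rw [h.smul, key w hwx hwy, smul_smul, smul_smul] at h3
    have h4 := smul_left_injective k hw0 h3
    exact mul_right_cancel₀ hα0 (by rw [h4]; ring)
  refine ⟨hτ, α, fun v => ?_⟩
  have h3 := key (v - B v y • x - B v x • y)
    (by
      simp only [map_sub, map_smul, LinearMap.sub_apply, LinearMap.smul_apply, smul_eq_mul, hx, hyx]
      ring)
    (by
      simp only [map_sub, map_smul, LinearMap.sub_apply, LinearMap.smul_apply, smul_eq_mul, hxy, hyy]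
      ring)
  rw [map_sub, map_sub, h.smul, h.smul, hα, hβ, hτ, hτ] at h3
  have h4 : T v = (T v - B v y • α • x - B v x • α • y) + B v y • α • x + B v x • α • y := by abel
  rw [h4, h3]
  module

/-! ### the symplectic case -/

lemma wordI (S : AltHyp B) {x y : V} (hc : B x y ≠ 0) {b : k} (hb : b = 1 / (B x y * B x y)) (v : V) :
    (Tv S x 1 * Tv S y b * Tv S x 1).1 v =
      v + (B v x - B v y / B x y) • x + (b * B v y + B v x / B x y) • y := by
  have hyx : B y x = - B x y := S.skew y x
  have hx := S.alt x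
  have hy := S.alt y
  subst hb
  rw [iso_mul_apply, iso_mul_apply, Tv_apply, Tv_apply, Tv_apply]
  simp only [map_add, map_smul, LinearMap.add_apply, LinearMap.smul_apply, smul_eq_mul, hx, hyx]
  match_scalars <;> field_simp <;> ring

lemma wordI_sq (S : AltHyp B) {x y : V} (hc : B x y ≠ 0) {b : k} (hb : b = 1 / (B x y * B x y)) (v : V) :
    ((Tv S x 1 * Tv S y b * Tv S x 1) ^ 2).1 v = v - (2 * B v y / B x y) • x + (2 * B v x / B x y) • y := by
  have hyx : B y x = - B x y := S.skew y x
  have hx := S.alt x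
  have hy := S.alt y
  rw [pow_two, iso_mul_apply, wordI S hc hb, wordI S hc hb]
  subst hb
  simp only [map_add, map_smul, LinearMap.add_apply, LinearMap.smul_apply, smul_eq_mul, hx, hy, hyx]
  match_scalars <;> field_simp <;> ring

lemma wordI_four (S : AltHyp B) {x y : V} (hc : B x y ≠ 0) {b : k} (hb : b = 1 / (B x y * B x y)) :
    (Tv S x 1 * Tv S y b * Tv S x 1) ^ 4 = 1 := by
  have hyx : B y x = - B x y := S.skew y x
  have hx := S.alt x
  have hy := S.alt y
  apply iso_ext
  intro v
  rw [show 4 = 2 * 2 from rfl, pow_mul, pow_two (_ ^ 2), iso_mul_apply, iso_one_apply, wordI_sq S hc hb,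
    wordI_sq S hc hb]
  simp only [map_add, map_sub, map_smul, LinearMap.add_apply, LinearMap.sub_apply, LinearMap.smul_apply, smul_eq_mul,
    hx, hy, hyx]
  match_scalars <;> field_simp <;> ring

lemma conj_Tv (S : AltHyp B) (h : Semi B T τ μ) (x : V) {a b : k} (hab : τ a = b * μ) (v : V) :
    (Tv S (T x) b).1 (T v) = T ((Tv S x a).1 v) := by
  rw [Tv_apply, Tv_apply, map_add, h.smul, h.form, map_mul, hab]
  module

theorem lemI (S : AltHyp B) (H : Hyp B ω N r) {ν : G} (hν : ν ∈ N)
    (h : Semi B T τ μ) (hR : ∀ s, ν * ω s * ν⁻¹ = ω (h.conj s)) (x : V) : B x (T x) = 0 := by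
  by_contra hc
  set b := 1 / (B x (T x) * B x (T x)) with hb
  have hab : τ (τ.symm (b * μ)) = b * μ := τ.apply_symm_apply _
  obtain ⟨c, hc'⟩ := even_word H hν h hR (u₁ := Tv S x 1) (u₂ := Tv S x (τ.symm (b * μ))) (u₂' := Tv S (T x) b)
    (Tv_pow_r S x _ H.rzero) (Tv_pow_r S x _ H.rzero)
    (by rw [Tv_mul, Tv_mul]; exact Tv_pow_r S x _ H.rzero)
    (conj_Tv S h x hab) (wordI_four S hc hb)
  have h1 := hc' x
  rw [wordI S hc hb] at h1
  have h2 := congrArg (fun u => B x u) h1
  simp only [map_add, map_smul, smul_eq_mul, S.alt x] at h2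
  field_simp at h2
  rw [hb] at h2
  field_simp at h2
  simp at h2

/-- **symplectic case** -/
theorem main_alt (S : AltHyp B) (hdim : 3 ≤ Module.finrank k V) (H : Hyp B ω N r) {ν : G} (hν : ν ∈ N)
    (h : Semi B T τ μ) (hR : ∀ s, ν * ω s * ν⁻¹ = ω (h.conj s)) :
    (∀ a, τ a = a) ∧ ∃ c : k, ∀ v, T v = c • v := by
  have A := lemI S H hν h hR
  have hμ := h.ne
  have hP : ∀ x z, B x (T z) + B z (T x) = 0 := by
    intro x z
    have h1 := A (x + z)
    simp only [map_add, LinearMap.add_apply, A x, A z] at h1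
    linear_combination h1
  have hne : ∃ x z, B x (T z) ≠ 0 := by
    by_contra hcon
    push Not at hcon
    obtain ⟨w, hw0, -, -⟩ := exists_ne_perp (B := B) hdim 0 0
    apply hw0
    apply S.nd
    intro v
    obtain ⟨v, rfl⟩ := T.surjective v
    exact hcon w v
  have hτ : ∀ a, τ a = a := by
    intro a
    obtain ⟨x, z, hxz⟩ := hne
    have h1 := hP x (a • z)
    rw [h.smul] at h1
    simp only [map_smul, LinearMap.smul_apply, smul_eq_mul] at h1
    have h2 := hP x z
    have h3 : (τ a - a) * B x (T z) = 0 := by linear_combination h1 - a * h2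
    exact sub_eq_zero.mp ((mul_eq_zero.mp h3).resolve_right hxz)
  refine ⟨hτ, ?_⟩
  -- `T` squared is scalar
  have hT2 : ∀ z, T (T z) = μ • z := by
    intro z
    apply sub_eq_zero.mp
    apply S.nd
    intro w
    have h1 := h.form (T z) (T.symm w)
    have h2 := hP (T.symm w) z
    rw [T.apply_symm_apply] at h1 h2
    simp only [map_sub, map_smul, LinearMap.sub_apply, LinearMap.smul_apply, smul_eq_mul]
    rw [h1, hτ, S.skew (T z) (T.symm w)]
    linear_combination -μ * h2
  -- hence `ν` commutes with `ω s`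
  have h2c : ∀ s, ν * (ν * ω s * ν⁻¹) * ν⁻¹ = ω s := by
    intro s
    have h1 := rep_mul h h hR hR s
    have h3 : (h.trans h).conj s = s := by
      apply iso_ext
      intro v
      obtain ⟨v, rfl⟩ := (T.trans T).surjective v
      rw [(h.trans h).conj_apply', AddEquiv.trans_apply, AddEquiv.trans_apply, hT2, hT2, map_smul]
    rw [h3] at h1
    calc ν * (ν * ω s * ν⁻¹) * ν⁻¹ = (ν * ν) * ω s * (ν * ν)⁻¹ := by group
      _ = ω s := h1
  have hcomm : ∀ s, ν * ω s * ν⁻¹ = ω s := by
    intro s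
    have h3 : Commute (ν ^ 2) (ω s) := by
      have := h2c s
      rw [commute_iff_eq, ← mul_inv_eq_iff_eq_mul]
      calc ν ^ 2 * ω s * (ν ^ 2)⁻¹ = ν * (ν * ω s * ν⁻¹) * ν⁻¹ := by rw [pow_two]; group
        _ = ω s := this
    have h4 : ν ^ Nat.card N = 1 := by
      have := pow_card_eq_one' (x := (⟨ν, hν⟩ : N))
      exact congrArg Subtype.val this
    obtain ⟨j, hj⟩ := H.odd
    rw [hj, pow_succ, pow_mul] at h4
    have h5 : ν = ((ν ^ 2) ^ j)⁻¹ := (inv_eq_of_mul_eq_one_right h4).symm
    have h6 : Commute ν (ω s) := by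
      rw [h5]
      exact ((h3.pow_left j).inv_left)
    rw [h6.eq, mul_inv_cancel_right]
  -- `T x` is proportional to `x`
  have hline : ∀ x, x ≠ 0 → ∃ a : k, T x = a • x := by
    intro x hx0
    have h1 := hcomm (Tv S x 1)
    rw [hR] at h1
    have h3 : Tv S (T x) (μ⁻¹) = h.conj (Tv S x 1) := by
      apply iso_ext
      intro v
      obtain ⟨v, rfl⟩ := T.surjective v
      rw [h.conj_apply', conj_Tv S h x (a := 1) (by rw [map_one, inv_mul_cancel₀ hμ])]
    rw [← h3] at h1
    obtain ⟨c, hc⟩ := H.ker (Tv S (T x) (μ⁻¹) * (Tv S x 1)⁻¹) (by rw [map_mul, h1, map_inv, mul_inv_cancel])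
    have h4 : ∀ v, (Tv S (T x) (μ⁻¹)).1 v = c • (Tv S x 1).1 v := by
      intro v
      rw [← hc ((Tv S x 1).1 v)]
      have : (Tv S (T x) μ⁻¹ * (Tv S x 1)⁻¹).1 ((Tv S x 1).1 v) =
        ((Tv S (T x) μ⁻¹ * (Tv S x 1)⁻¹) * Tv S x 1).1 v := rfl
      rw [this, inv_mul_cancel_right]
    simp only [Tv_apply] at h4
    obtain ⟨w, hw0, hwx, hwy⟩ := exists_ne_perp (B := B) hdim x (T x)
    have h5 := h4 w
    rw [hwx, hwy, mul_zero, mul_zero, zero_smul, zero_smul, add_zero] at h5
    have hc1 : c = 1 := by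
      have h6 : (1 : k) • w = c • w := by rw [one_smul]; exact h5
      exact (smul_left_injective k hw0 h6).symm
    subst hc1
    obtain ⟨u, hu⟩ : ∃ u, B (T x) u ≠ 0 := by
      by_contra hcc
      push Not at hcc
      have := S.nd (T x) hcc
      exact hx0 ((map_eq_zero_iff T T.injective).mp this)
    have hux : B u (T x) ≠ 0 := by rw [S.skew]; exact neg_ne_zero.mpr hu
    have h6 := h4 u
    rw [one_smul, one_mul] at h6
    have h7 := add_left_cancel h6
    refine ⟨(μ⁻¹ * B u (T x))⁻¹ * B u x, ?_⟩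
    rw [mul_smul, ← h7, smul_smul, inv_mul_cancel₀ (mul_ne_zero (inv_ne_zero hμ) hux), one_smul]
  let f : V →ₗ[k] V :=
    { toFun := T
      map_add' := map_add T
      map_smul' := fun a v => by rw [h.smul, hτ]; rfl }
  obtain ⟨a, ha⟩ := LinearMap.exists_eq_smul_id_of_forall_notLinearIndependent (f := f) (by
    intro v hli
    by_cases hv : v = 0
    · exact hli.ne_zero 0 hv
    · obtain ⟨a, ha⟩ := hline v hv
      have := (LinearIndependent.pair_iff.mp hli) (-a) 1 (by
        change -a • v + (1 : k) • T v = 0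
        rw [ha]; module)
      exact one_ne_zero this.2)
  refine ⟨a, fun v => ?_⟩
  exact congrArg (fun g : V →ₗ[k] V => g v) ha

end H6.OddCore
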