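import Mathlib
import Cfsg.Agent.Lib.H6.GrPSU3
import Cfsg.Agent.Lib.H6.OddCore3

/-!
Automorphisms of `PSU_n(q)` commuting with an involutory graph automorphism act on the form over the field with `q`
elements by semilinear similitudes.
-/

set_option autoImplicit false
set_option linter.unusedSectionVars false

namespace H6.BalA

open Matrix H50.PSLBasic H50.H90 H50.PSLField H50.ClassCount H50.PSLCount H6.GrSim H6.GrForms H6.GrProj
  H6.GrCard H6.GrDict H6.GrDet H6.PSUBasic H6.PSUUniq H6.PSUOut H6.PSUNorm H6.PSUField H6.GrPSU H6.OddCore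

variable {n q : ℕ} {F : Type*} [Field F] [Fintype F] {k : Type*} [Field k] [Fintype k]

/-! ### Galois theory -/

/-- an automorphism which fixes the fixed field of `σ` is a power of `σ` -/
lemma mem_zpowers_of_fix {σ τ : F ≃+* F} (h : ∀ x, σ x = x → τ x = x) : τ ∈ Subgroup.zpowers σ := by
  obtain ⟨p, f, hp, hchar, -, hcard⟩ := H50.FieldAut.exists_charP F
  have : Fact p.Prime := ⟨hp⟩
  have hcyc : IsCyclic (F ≃+* F) := H50.FieldAut.isCyclic_ringAut (p := p)
  obtain ⟨ρ, hρ⟩ := (inferInstance : IsCyclic (Subgroup.closure ({σ, τ} : Set (F ≃+* F)))).exists_generator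
  have hσ : σ ∈ Subgroup.closure ({σ, τ} : Set (F ≃+* F)) := Subgroup.subset_closure (by simp)
  have hτ : τ ∈ Subgroup.closure ({σ, τ} : Set (F ≃+* F)) := Subgroup.subset_closure (by simp)
  have hσρ : σ ∈ Subgroup.zpowers (ρ : F ≃+* F) := by
    obtain ⟨m, hm⟩ := Subgroup.mem_zpowers_iff.mp (hρ ⟨σ, hσ⟩)
    exact Subgroup.mem_zpowers_iff.mpr ⟨m, congrArg Subtype.val hm⟩
  have hτρ : τ ∈ Subgroup.zpowers (ρ : F ≃+* F) := by
    obtain ⟨m, hm⟩ := Subgroup.mem_zpowers_iff.mp (hρ ⟨τ, hτ⟩)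
    exact Subgroup.mem_zpowers_iff.mpr ⟨m, congrArg Subtype.val hm⟩
  -- the fixed fields of `ρ` and `σ` agree
  have hfix : H49.FixedField.fixedField (ρ : F ≃+* F) = H49.FixedField.fixedField σ := by
    ext x
    rw [H49.FixedField.mem_fixedField, H49.FixedField.mem_fixedField]
    have hst : ∀ g : F ≃+* F, g x = x ↔ g ∈ MulAction.stabilizer (F ≃+* F) x := by
      intro g
      rw [MulAction.mem_stabilizer_iff]; rfl
    constructor
    · intro h1
      rw [hst] at h1 ⊢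
      exact (Subgroup.zpowers_le.mpr h1) hσρ
    · intro h1
      have h2 := h x h1
      rw [hst] at h1 h2 ⊢
      have h3 : Subgroup.closure ({σ, τ} : Set (F ≃+* F)) ≤ MulAction.stabilizer (F ≃+* F) x := by
        rw [Subgroup.closure_le]
        rintro y (rfl | rfl)
        · exact h1
        · exact h2
      exact h3 ρ.2
  have h4 := H49.FixedField.card_fixedField_pow (ρ : F ≃+* F)
  have h5 := H49.FixedField.card_fixedField_pow σ
  rw [hfix, ← h5] at h4
  have h6 : 1 < Nat.card (H49.FixedField.fixedField σ) := Finite.one_lt_card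
  have h7 : orderOf (ρ : F ≃+* F) = orderOf σ := Nat.pow_right_injective h6 h4
  have h8 : Subgroup.zpowers σ = Subgroup.zpowers (ρ : F ≃+* F) := by
    have : Finite (F ≃+* F) := DFunLike.finite _
    apply Subgroup.eq_of_le_of_card_ge (Subgroup.zpowers_le.mpr hσρ)
    rw [Nat.card_zpowers, Nat.card_zpowers, h7]
  rw [h8]
  exact hτρ

/-- the restriction of an automorphism to the subfield `k` -/
lemma exists_restrict {σ τ : F ≃+* F} {j : k →+* F} (hj : ∀ x, (∃ c, j c = x) ↔ σ x = x)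
    (hc : ∀ x, τ (σ x) = σ (τ x)) : ∃ τ₀ : k ≃+* k, ∀ x, j (τ₀ x) = τ (j x) := by
  have h1 : ∀ x : k, ∃ y, j y = τ (j x) := by
    intro x
    rw [hj, ← hc, (hj (j x)).mp ⟨x, rfl⟩]
  choose f hf using h1
  let f' : k →+* k :=
    { toFun := f
      map_one' := j.injective (by rw [hf, map_one, map_one])
      map_mul' := fun x y => j.injective (by rw [hf, map_mul, map_mul, map_mul, hf, hf])
      map_zero' := j.injective (by rw [hf, map_zero, map_zero])
      map_add' := fun x y => j.injective (by rw [hf, map_add, map_add, map_add, hf, hf]) }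
  exact ⟨RingEquiv.ofBijective f' (Finite.injective_iff_bijective.mp f'.injective), hf⟩

variable {hF : Fintype.card F = q ^ 2} {j : k →+* F} {g C : GL (Fin n) F} {c a : Fˣ} {M : Matrix (Fin n) (Fin n) k}

lemma glMap_comm {σ τ : F ≃+* F} (hc : ∀ x, τ (σ x) = σ (τ x)) (X : GL (Fin n) F) :
    glMap τ (glMap σ X) = glMap σ (glMap τ X) := by
  apply Units.ext
  rw [glMap_coe, glMap_coe, glMap_coe, glMap_coe]
  ext i l
  exact hc _

/-- the matrix over `k` of an automorphism commuting with the graph automorphism -/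
theorem exists_T₀ (D : Dat hF j g C c a M) (hn : 3 ≤ n) (hj : ∀ x, (∃ c, j c = x) ↔ bar hF x = x)
    {h : Cfsg.GU n F q} {τ : F ≃+* F}
    (hcomm : psiSU h τ * psiSU ⟨g, D.hg⟩ (bar hF) = psiSU ⟨g, D.hg⟩ (bar hF) * psiSU h τ) :
    ∃ (e : Fˣ) (T₀ : GL (Fin n) k), (h : GL (Fin n) F) * glMap τ C = sc e * (C * glHom j T₀) := by
  have hn0 : 0 < n := by omega
  obtain ⟨p, f, hp, hchar, -, hcard⟩ := H50.FieldAut.exists_charP F
  have : Fact p.Prime := ⟨hp⟩
  have hτb : ∀ x, τ (bar hF x) = bar hF (τ x) := by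
    intro x
    have := H50.FieldAut.ringAut_comm (p := p) τ (bar hF)
    exact congrArg (fun t : F ≃+* F => t x) this
  rw [psiSU_mul, psiSU_mul, psiSU_eq_iff' hF hn] at hcomm
  obtain ⟨-, u, hu⟩ := hcomm
  have hu' : (h : GL (Fin n) F) * glMap τ g = sc (u : Fˣ) * (g * glMap (bar hF) (h : GL (Fin n) F)) :=
    congrArg Subtype.val hu
  have h1 : glMap τ C * (glMap (bar hF) (glMap τ C))⁻¹ = sc (unitsMap τ c) * glMap τ g := by
    have := congrArg (glMap τ) D.hC
    rw [map_mul (glMap τ), map_mul (glMap τ), glMap_sc, map_inv (glMap τ), glMap_comm hτb] at this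
    exact this.symm
  have e1 : (C⁻¹ * (h : GL (Fin n) F) * glMap τ C) *
      (glMap (bar hF) (C⁻¹ * (h : GL (Fin n) F) * glMap τ C))⁻¹ = sc (unitsMap τ c * (u : Fˣ) * c⁻¹) := by
    have e2 : (C⁻¹ * (h : GL (Fin n) F) * glMap τ C) * (glMap (bar hF) (C⁻¹ * (h : GL (Fin n) F) * glMap τ C))⁻¹ =
        C⁻¹ * ((h : GL (Fin n) F) * (glMap τ C * (glMap (bar hF) (glMap τ C))⁻¹)) *
          (glMap (bar hF) (h : GL (Fin n) F))⁻¹ * glMap (bar hF) C := by
      rw [map_mul (glMap (bar hF)), map_mul (glMap (bar hF)), map_inv (glMap (bar hF))]; group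
    have e3 : sc c⁻¹ * (C * (glMap (bar hF) C)⁻¹) = g := by
      rw [← D.hC, map_inv, inv_mul_cancel_left]
    rw [e2, h1, sc_swap (h : GL (Fin n) F), hu']
    have e4 : C⁻¹ * (sc (unitsMap τ c) * (sc (u : Fˣ) * (g * glMap (bar hF) (h : GL (Fin n) F)))) *
          (glMap (bar hF) (h : GL (Fin n) F))⁻¹ * glMap (bar hF) C =
        C⁻¹ * (sc (unitsMap τ c) * (sc (u : Fˣ) * g)) * glMap (bar hF) C := by group
    rw [e4, ← e3, sc_swap C⁻¹, sc_swap C⁻¹, sc_swap C⁻¹]
    rw [map_mul sc, map_mul sc]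
    group
  obtain ⟨e, s, hs, -⟩ := descent hF hn0 hj e1
  refine ⟨e, s, ?_⟩
  have : (h : GL (Fin n) F) * glMap τ C = C * (C⁻¹ * (h : GL (Fin n) F) * glMap τ C) := by group
  rw [this, hs, sc_swap]

/-- the matrix is a semilinear similitude -/
theorem form_T₀ (D : Dat hF j g C c a M) (hn : 3 ≤ n) (hj : ∀ x, (∃ c, j c = x) ↔ bar hF x = x)
    {h : Cfsg.GU n F q} {τ : F ≃+* F} {e : Fˣ} {T₀ : GL (Fin n) k}
    (hT : (h : GL (Fin n) F) * glMap τ C = sc e * (C * glHom j T₀)) {τ₀ : k ≃+* k} (hτ₀ : ∀ x, j (τ₀ x) = τ (j x)) :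
    ∃ μ : kˣ, (T₀ : Matrix (Fin n) (Fin n) k)ᵀ * M * (T₀ : Matrix (Fin n) (Fin n) k) = (μ : k) • M.map τ₀ := by
  have hn0 : 0 < n := by omega
  obtain ⟨p, f, hp, hchar, -, hcard⟩ := H50.FieldAut.exists_charP F
  have : Fact p.Prime := ⟨hp⟩
  have hτb : ∀ x, τ (bar hF x) = bar hF (τ x) := by
    intro x
    have := H50.FieldAut.ringAut_comm (p := p) τ (bar hF)
    exact congrArg (fun t : F ≃+* F => t x) this
  have hhg : herm (bar hF) (h : GL (Fin n) F) = 1 := (mem_GU_herm hF).mp h.2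
  have h1 : herm (bar hF) (glMap τ C) = (herm (bar hF) C).map τ := by
    rw [herm, herm, glMap_coe]
    ext i l
    simp only [Matrix.mul_apply, Matrix.map_apply, Matrix.transpose_apply, map_sum, map_mul, hτb]
  have h2 : herm (bar hF) (glMap τ C) = (bar hF e * e * a) •
      ((T₀ : Matrix (Fin n) (Fin n) k)ᵀ * M * (T₀ : Matrix (Fin n) (Fin n) k)).map j := by
    rw [← D.herm_C hj, ← hT, herm_mul_left _ hhg]
  have h3 : ((T₀ : Matrix (Fin n) (Fin n) k)ᵀ * M * (T₀ : Matrix (Fin n) (Fin n) k)).map j =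
      ((bar hF e * e * a)⁻¹ * τ a) • (M.map τ₀).map j := by
    have he0 : bar hF e * e * a ≠ 0 :=
      mul_ne_zero (mul_ne_zero ((_root_.map_ne_zero (bar hF)).mpr e.ne_zero) e.ne_zero) a.ne_zero
    rw [h1, D.hA] at h2
    have h4 : ((a : F) • M.map j).map τ = τ a • (M.map τ₀).map j := by
      ext i l
      simp only [Matrix.map_apply, Matrix.smul_apply, smul_eq_mul, map_mul, hτ₀]
    rw [h4] at h2
    rw [mul_smul, h2, smul_smul, inv_mul_cancel₀ he0, one_smul]
  have hdet : (M.map τ₀).det ≠ 0 := by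
    have h5 : (M.map τ₀).det = τ₀ M.det := (RingEquiv.map_det τ₀ M).symm
    rw [h5]
    exact (_root_.map_ne_zero τ₀).mpr D.hM
  obtain ⟨μ, -, h6⟩ := ratio (M' := M.map τ₀) (r := (bar hF e * e * a)⁻¹ * τ a) hn0 hj hdet
    (mul_ne_zero (inv_ne_zero (mul_ne_zero (mul_ne_zero ((_root_.map_ne_zero (bar hF)).mpr e.ne_zero) e.ne_zero)
      a.ne_zero)) ((_root_.map_ne_zero τ).mpr a.ne_zero)) h3
  exact ⟨μ, h6⟩

end H6.BalA
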