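import Mathlib
import Cfsg.Agent.Lib.H6.BalA

/-!
The isometry group over the field with `q` elements acting on `PSU_n(q)`, and odd order groups normalised by it.
-/

set_option autoImplicit false
set_option linter.unusedSectionVars false

namespace H6.BalB

open Matrix H50.PSLBasic H50.H90 H50.PSLField H50.ClassCount H50.PSLCount H6.GrSim H6.GrForms H6.GrProj
  H6.GrCard H6.GrDict H6.GrDet H6.PSUBasic H6.PSUUniq H6.PSUOut H6.PSUNorm H6.PSUField H6.GrPSU H6.OddCore H6.BalA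

variable {n q : ℕ} {F : Type*} [Field F] [Fintype F] {k : Type*} [Field k] [Fintype k]

/-- linear equivalences to matrices -/
def eGL (n : ℕ) (k : Type*) [Field k] : ((Fin n → k) ≃ₗ[k] (Fin n → k)) ≃* GL (Fin n) k :=
  ((Matrix.GeneralLinearGroup.toLin (n := Fin n) (R := k)).trans
    (LinearMap.GeneralLinearGroup.generalLinearEquiv k (Fin n → k))).symm

lemma eGL_mulVec (s : (Fin n → k) ≃ₗ[k] (Fin n → k)) (v : Fin n → k) :
    ((eGL n k s : GL (Fin n) k) : Matrix (Fin n) (Fin n) k) *ᵥ v = s v := by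
  obtain ⟨g, rfl⟩ := (eGL n k).symm.surjective s
  rw [MulEquiv.apply_symm_apply]
  rfl

/-- the bilinear form of a matrix -/
abbrev bil (M : Matrix (Fin n) (Fin n) k) : LinearMap.BilinForm k (Fin n → k) := Matrix.toBilin' M

lemma bil_apply (M : Matrix (Fin n) (Fin n) k) (v w : Fin n → k) : bil M v w = v ⬝ᵥ M *ᵥ w :=
  Matrix.toBilin'_apply' M v w

lemma iso_mat {M : Matrix (Fin n) (Fin n) k} (s : Iso (bil M)) :
    ((eGL n k s.1 : GL (Fin n) k) : Matrix (Fin n) (Fin n) k)ᵀ * M * (eGL n k s.1 : GL (Fin n) k) = M := by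
  apply Matrix.toBilin'.injective
  apply LinearMap.ext
  intro v
  apply LinearMap.ext
  intro w
  have h1 := iso_form s v w
  rw [bil_apply, bil_apply, ← eGL_mulVec, ← eGL_mulVec] at h1
  rw [Matrix.toBilin'_apply', Matrix.toBilin'_apply', ← h1, ← Matrix.mulVec_mulVec, ← Matrix.mulVec_mulVec,
    Matrix.dotProduct_mulVec v, Matrix.vecMul_transpose]

lemma symHyp {M : Matrix (Fin n) (Fin n) k} (hM : M.det ≠ 0) (hs : Mᵀ = M) (h2 : (2 : k) ≠ 0) : SymHyp (bil M) where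
  nd := by
    intro v hv
    have h1 : v ᵥ* M = 0 := by
      ext i
      have := hv (Pi.single i 1)
      rw [bil_apply, Matrix.dotProduct_mulVec, dotProduct_single_one] at this
      exact this
    exact Matrix.eq_zero_of_vecMul_eq_zero hM h1
  sym := by
    intro v w
    rw [bil_apply, bil_apply, dotProduct_comm, Matrix.dotProduct_mulVec, ← Matrix.mulVec_transpose, hs,
      dotProduct_comm, Matrix.dotProduct_mulVec, ← Matrix.mulVec_transpose, hs, dotProduct_comm]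
  two := h2

lemma altHyp {M : Matrix (Fin n) (Fin n) k} (hM : M.det ≠ 0) (hs : Mᵀ = -M) (h2 : (2 : k) ≠ 0) : AltHyp (bil M) := by
  have hskew : ∀ v w : Fin n → k, bil M v w = - bil M w v := by
    intro v w
    rw [bil_apply, bil_apply, dotProduct_comm, ← Matrix.vecMul_transpose, hs, Matrix.vecMul_neg,
      neg_dotProduct, Matrix.dotProduct_mulVec]
  refine ⟨?_, hskew, ?_, h2⟩
  · intro v hv
    have h1 : v ᵥ* M = 0 := by
      ext i
      have := hv (Pi.single i 1)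
      rw [bil_apply, Matrix.dotProduct_mulVec, dotProduct_single_one] at this
      exact this
    exact Matrix.eq_zero_of_vecMul_eq_zero hM h1
  · intro v
    have h3 := hskew v v
    have h4 : 2 * bil M v v = 0 := by linear_combination h3
    exact (mul_eq_zero.mp h4).resolve_left h2

variable {hF : Fintype.card F = q ^ 2} {j : k →+* F} {g C : GL (Fin n) F} {c a : Fˣ} {M : Matrix (Fin n) (Fin n) k}

lemma mem_GU_iso (D : Dat hF j g C c a M) (hj : ∀ x, (∃ c, j c = x) ↔ bar hF x = x) (s : Iso (bil M)) :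
    C * glHom j (eGL n k s.1) * C⁻¹ ∈ Cfsg.GU n F q := by
  have h1 := D.mem_GU hj (e := 1) (s := eGL n k s.1) (ν := 1) (by rw [iso_mat, Units.val_one, one_smul])
    (by simp)
  rwa [map_one, one_mul] at h1

/-- the action of the isometry group -/
noncomputable def om (D : Dat hF j g C c a M) (hj : ∀ x, (∃ c, j c = x) ↔ bar hF x = x) :
    Iso (bil M) →* MulAut (Cfsg.PSU n F q) where
  toFun s := psiSU ⟨_, mem_GU_iso D hj s⟩ 1
  map_one' := by
    have : (⟨_, mem_GU_iso D hj 1⟩ : Cfsg.GU n F q) = 1 := by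
      apply Subtype.ext
      change C * glHom j (eGL n k 1) * C⁻¹ = 1
      rw [map_one, map_one, mul_one, mul_inv_cancel]
    rw [this, psiSU_one]
  map_mul' s t := by
    rw [psiSU_mul, guMap_one_apply, one_mul]
    congr 1
    apply Subtype.ext
    change C * glHom j (eGL n k (s.1 * t.1)) * C⁻¹ = (C * glHom j (eGL n k s.1) * C⁻¹) * (C * glHom j (eGL n k t.1) * C⁻¹)
    rw [map_mul, map_mul]
    group

lemma om_apply (D : Dat hF j g C c a M) (hj : ∀ x, (∃ c, j c = x) ↔ bar hF x = x) (s : Iso (bil M)) :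
    om D hj s = psiSU ⟨_, mem_GU_iso D hj s⟩ 1 := rfl

/-- the kernel consists of scalars -/
lemma om_ker (D : Dat hF j g C c a M) (hn : 3 ≤ n) (hj : ∀ x, (∃ c, j c = x) ↔ bar hF x = x) (s : Iso (bil M))
    (h : om D hj s = 1) : ∃ l : k, ∀ v, s.1 v = l • v := by
  have hne : Nonempty (Fin n) := ⟨⟨0, by omega⟩⟩
  rw [om_apply, psiSU_eq_one_iff hF hn] at h
  obtain ⟨-, u, hu⟩ := h
  have hu' : C * glHom j (eGL n k s.1) * C⁻¹ = sc (u : Fˣ) := congrArg Subtype.val hu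
  have h1 : glHom j (eGL n k s.1) = sc (u : Fˣ) := by
    have : glHom j (eGL n k s.1) = C⁻¹ * (C * glHom j (eGL n k s.1) * C⁻¹) * C := by group
    rw [this, hu', mul_assoc, sc_comm]; group
  have h2 : ((eGL n k s.1 : GL (Fin n) k) : Matrix (Fin n) (Fin n) k).map j = ((u : Fˣ) : F) • (1 : Matrix (Fin n) (Fin n) F) := by
    rw [← glHom_coe, h1, sc_coe]
  set S := ((eGL n k s.1 : GL (Fin n) k) : Matrix (Fin n) (Fin n) k) with hS
  refine ⟨S ⟨0, by omega⟩ ⟨0, by omega⟩, fun v => ?_⟩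
  have h3 : S = S ⟨0, by omega⟩ ⟨0, by omega⟩ • (1 : Matrix (Fin n) (Fin n) k) := by
    have h4 : ∀ i l, j (S i l) = ((u : Fˣ) : F) * (1 : Matrix (Fin n) (Fin n) F) i l := by
      intro i l
      have := congrFun (congrFun h2 i) l
      simpa using this
    have h5 : j (S ⟨0, by omega⟩ ⟨0, by omega⟩) = ((u : Fˣ) : F) := by rw [h4, Matrix.one_apply_eq, mul_one]
    ext i l
    apply j.injective
    rw [h4, Matrix.smul_apply, smul_eq_mul, map_mul, h5]
    congr 1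
    by_cases hil : i = l
    · subst hil; simp
    · simp [Matrix.one_apply_ne hil]
  rw [← eGL_mulVec, ← hS]
  conv_lhs => rw [h3]
  rw [Matrix.smul_mulVec, Matrix.one_mulVec]

/-- the semilinear map -/
noncomputable def semiT (T₀ : GL (Fin n) k) (τ₀ : k ≃+* k) : (Fin n → k) ≃+ (Fin n → k) where
  toFun v := (T₀ : Matrix (Fin n) (Fin n) k) *ᵥ (τ₀ ∘ v)
  invFun v := τ₀.symm ∘ (((T₀⁻¹ : GL (Fin n) k) : Matrix (Fin n) (Fin n) k) *ᵥ v)
  left_inv v := by
    change τ₀.symm ∘ (((T₀⁻¹ : GL (Fin n) k) : Matrix (Fin n) (Fin n) k) *ᵥ ((T₀ : Matrix (Fin n) (Fin n) k) *ᵥ (τ₀ ∘ v))) = v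
    rw [Matrix.mulVec_mulVec, ← Units.val_mul, inv_mul_cancel, Units.val_one, Matrix.one_mulVec]
    ext i; simp
  right_inv v := by
    change (T₀ : Matrix (Fin n) (Fin n) k) *ᵥ (τ₀ ∘ (τ₀.symm ∘ (((T₀⁻¹ : GL (Fin n) k) : Matrix (Fin n) (Fin n) k) *ᵥ v))) = v
    have : τ₀ ∘ (τ₀.symm ∘ (((T₀⁻¹ : GL (Fin n) k) : Matrix (Fin n) (Fin n) k) *ᵥ v)) =
      (((T₀⁻¹ : GL (Fin n) k) : Matrix (Fin n) (Fin n) k) *ᵥ v) := by ext i; simp
    rw [this, Matrix.mulVec_mulVec, ← Units.val_mul, mul_inv_cancel, Units.val_one, Matrix.one_mulVec]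
  map_add' v w := by
    have : τ₀ ∘ (v + w) = τ₀ ∘ v + τ₀ ∘ w := by ext i; simp
    rw [this, Matrix.mulVec_add]

lemma semiT_apply (T₀ : GL (Fin n) k) (τ₀ : k ≃+* k) (v : Fin n → k) :
    semiT T₀ τ₀ v = (T₀ : Matrix (Fin n) (Fin n) k) *ᵥ (τ₀ ∘ v) := rfl

lemma comp_mulVec (τ₀ : k ≃+* k) (A : Matrix (Fin n) (Fin n) k) (v : Fin n → k) :
    τ₀ ∘ (A *ᵥ v) = (A.map τ₀) *ᵥ (τ₀ ∘ v) := by
  ext i
  simp [Matrix.mulVec, dotProduct, map_sum]

lemma semi_T {T₀ : GL (Fin n) k} {τ₀ : k ≃+* k} {μ : kˣ}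
    (h : (T₀ : Matrix (Fin n) (Fin n) k)ᵀ * M * (T₀ : Matrix (Fin n) (Fin n) k) = (μ : k) • M.map τ₀) :
    Semi (bil M) (semiT T₀ τ₀) τ₀ μ where
  smul a v := by
    rw [semiT_apply, semiT_apply]
    have : τ₀ ∘ (a • v) = τ₀ a • (τ₀ ∘ v) := by ext i; simp
    rw [this, Matrix.mulVec_smul]
  form v w := by
    rw [bil_apply, bil_apply, semiT_apply, semiT_apply]
    have h1 : ((T₀ : Matrix (Fin n) (Fin n) k) *ᵥ (τ₀ ∘ v)) ⬝ᵥ M *ᵥ ((T₀ : Matrix (Fin n) (Fin n) k) *ᵥ (τ₀ ∘ w)) =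
        (τ₀ ∘ v) ⬝ᵥ (((T₀ : Matrix (Fin n) (Fin n) k)ᵀ * M * (T₀ : Matrix (Fin n) (Fin n) k)) *ᵥ (τ₀ ∘ w)) := by
      rw [← Matrix.mulVec_mulVec, ← Matrix.mulVec_mulVec, Matrix.dotProduct_mulVec (τ₀ ∘ v),
        Matrix.vecMul_transpose]
    have h2 : τ₀ (v ⬝ᵥ M *ᵥ w) = (τ₀ ∘ v) ⬝ᵥ ((M.map τ₀) *ᵥ (τ₀ ∘ w)) := by
      rw [← comp_mulVec]
      simp [dotProduct, map_sum]
    rw [h1, h, h2, Matrix.smul_mulVec, dotProduct_smul, smul_eq_mul]
  ne := μ.ne_zero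

end H6.BalB
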