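import Mathlib
import Cfsg.Agent.Lib.H6.BalB

/-!
Odd order groups of automorphisms of `PSU_n(q)` centralising an involutory graph automorphism and normalised by its
centraliser are trivial.
-/

set_option autoImplicit false
set_option linter.unusedSectionVars false

namespace H6.BalC

open Matrix H50.PSLBasic H50.H90 H50.PSLField H50.ClassCount H50.PSLCount H6.GrSim H6.GrForms H6.GrProj
  H6.GrCard H6.GrDict H6.GrDet H6.PSUBasic H6.PSUUniq H6.PSUOut H6.PSUNorm H6.PSUField H6.GrPSU H6.OddCore H6.BalA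
  H6.BalB

variable {n q : ℕ} {F : Type*} [Field F] [Fintype F] {k : Type*} [Field k] [Fintype k]

variable {hF : Fintype.card F = q ^ 2} {j : k →+* F} {g C : GL (Fin n) F} {c a : Fˣ} {M : Matrix (Fin n) (Fin n) k}

lemma eGL_conj {T₀ : GL (Fin n) k} {τ₀ : k ≃+* k} {μ : kˣ}
    (h : (T₀ : Matrix (Fin n) (Fin n) k)ᵀ * M * (T₀ : Matrix (Fin n) (Fin n) k) = (μ : k) • M.map τ₀)
    (s : Iso (bil M)) : eGL n k ((semi_T h).conj s).1 = T₀ * glMap τ₀ (eGL n k s.1) * T₀⁻¹ := by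
  apply Units.ext
  have h1 : ((eGL n k ((semi_T h).conj s).1 : GL (Fin n) k) : Matrix (Fin n) (Fin n) k) * (T₀ : Matrix (Fin n) (Fin n) k) =
      (T₀ : Matrix (Fin n) (Fin n) k) * ((eGL n k s.1 : GL (Fin n) k) : Matrix (Fin n) (Fin n) k).map τ₀ := by
    apply Matrix.ext_of_mulVec_single
    intro i
    have h2 : (Pi.single i 1 : Fin n → k) = τ₀ ∘ (Pi.single i 1 : Fin n → k) := by
      ext l
      by_cases hl : l = i
      · subst hl; simp
      · simp [hl]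
    rw [h2, ← Matrix.mulVec_mulVec, ← Matrix.mulVec_mulVec, ← comp_mulVec, eGL_mulVec, eGL_mulVec]
    exact (semi_T h).conj_apply' s _
  have h3 : ((T₀ * glMap τ₀ (eGL n k s.1) * T₀⁻¹ : GL (Fin n) k) : Matrix (Fin n) (Fin n) k) * (T₀ : Matrix (Fin n) (Fin n) k) =
      (T₀ : Matrix (Fin n) (Fin n) k) * ((eGL n k s.1 : GL (Fin n) k) : Matrix (Fin n) (Fin n) k).map τ₀ := by
    rw [← Units.val_mul, inv_mul_cancel_right, Units.val_mul, glMap_coe]
  exact T₀.isUnit.mul_right_cancel (h1.trans h3.symm)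

/-- conjugation by a commuting automorphism -/
theorem conj_om (D : Dat hF j g C c a M) (hj : ∀ x, (∃ c, j c = x) ↔ bar hF x = x)
    {h : Cfsg.GU n F q} {τ : F ≃+* F} {e : Fˣ} {T₀ : GL (Fin n) k}
    (hT : (h : GL (Fin n) F) * glMap τ C = sc e * (C * glHom j T₀)) {τ₀ : k ≃+* k} (hτ₀ : ∀ x, j (τ₀ x) = τ (j x))
    {μ : kˣ} (hμ : (T₀ : Matrix (Fin n) (Fin n) k)ᵀ * M * (T₀ : Matrix (Fin n) (Fin n) k) = (μ : k) • M.map τ₀)
    (s : Iso (bil M)) : psiSU h τ * om D hj s * (psiSU h τ)⁻¹ = om D hj ((semi_T hμ).conj s) := by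
  rw [mul_inv_eq_iff_eq_mul, om_apply, om_apply, psiSU_mul, psiSU_mul, guMap_one_apply, mul_one, one_mul]
  congr 1
  apply Subtype.ext
  change (h : GL (Fin n) F) * glMap τ (C * glHom j (eGL n k s.1) * C⁻¹) =
    (C * glHom j (eGL n k ((semi_T hμ).conj s).1) * C⁻¹) * (h : GL (Fin n) F)
  have h1 : glMap τ (glHom j (eGL n k s.1)) = glHom j (glMap τ₀ (eGL n k s.1)) := by
    apply Units.ext
    rw [glMap_coe, glHom_coe, glHom_coe, glMap_coe]
    ext i l
    exact (hτ₀ _).symm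
  have h2 : (h : GL (Fin n) F) = sc e * (C * glHom j T₀) * (glMap τ C)⁻¹ := by rw [← hT]; group
  rw [eGL_conj hμ, map_mul (glMap τ), map_mul (glMap τ), map_inv (glMap τ), h1, map_mul (glHom j), map_mul (glHom j),
    map_inv (glHom j)]
  have h3 : (h : GL (Fin n) F) * (glMap τ C * glHom j (glMap τ₀ (eGL n k s.1)) * (glMap τ C)⁻¹) =
      ((h : GL (Fin n) F) * glMap τ C) * glHom j (glMap τ₀ (eGL n k s.1)) * (glMap τ C)⁻¹ := by group
  rw [h3, hT, h2]
  have h4 : C * (glHom j T₀ * glHom j (glMap τ₀ (eGL n k s.1)) * (glHom j T₀)⁻¹) * C⁻¹ *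
      (sc e * (C * glHom j T₀) * (glMap τ C)⁻¹) =
      C * (glHom j T₀ * glHom j (glMap τ₀ (eGL n k s.1)) * (glHom j T₀)⁻¹) * C⁻¹ *
      (sc e * ((C * glHom j T₀) * (glMap τ C)⁻¹)) := by group
  rw [h4, sc_swap]
  group

/-- **triviality of odd order normal subgroups** -/
theorem trivial_of_odd (hF : Fintype.card F = q ^ 2) (hn : 3 ≤ n) (h32 : ¬ (n = 3 ∧ q = 2))
    (D : Dat hF j g C c a M) (hj : ∀ x, (∃ c, j c = x) ↔ bar hF x = x) (h2 : (2 : k) ≠ 0)
    {r : ℕ} (hr : Odd r) (hr0 : (r : k) = 0) {N : Subgroup (MulAut (Cfsg.PSU n F q))} (hodd : Odd (Nat.card N))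
    (hcomm : ∀ x ∈ N, x * psiSU ⟨g, D.hg⟩ (bar hF) = psiSU ⟨g, D.hg⟩ (bar hF) * x)
    (hnorm : ∀ u : Iso (bil M), u ^ r = 1 → ∀ x ∈ N, (om D hj u)⁻¹ * x * om D hj u ∈ N) :
    N = ⊥ := by
  have hfin : Module.finrank k (Fin n → k) = n := Module.finrank_fin_fun k
  rw [eq_bot_iff]
  intro ν hν
  rw [Subgroup.mem_bot]
  obtain ⟨h, τ, rfl⟩ := aut_psu (F := F) hF hn h32 ν
  obtain ⟨e, T₀, hT⟩ := exists_T₀ D hn hj (hcomm _ hν)
  obtain ⟨p, f, hp, hchar, -, hcard⟩ := H50.FieldAut.exists_charP F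
  have : Fact p.Prime := ⟨hp⟩
  have hτb : ∀ x, τ (bar hF x) = bar hF (τ x) := by
    intro x
    have := H50.FieldAut.ringAut_comm (p := p) τ (bar hF)
    exact congrArg (fun t : F ≃+* F => t x) this
  obtain ⟨τ₀, hτ₀⟩ := exists_restrict hj hτb
  obtain ⟨μ, hμ⟩ := form_T₀ D hn hj hT hτ₀
  have H : Hyp (bil M) (om D hj) N r := ⟨om_ker D hn hj, hodd, hr, hr0, hnorm⟩
  have hmain : (∀ x, τ₀ x = x) ∧ ∃ l : k, ∀ v, semiT T₀ τ₀ v = l • v := by
    rcases D.hs with hs | hs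
    · obtain ⟨x, hx0, hx⟩ := H48.QuadStd.exists_singular (bil M).toQuadraticMap (by rw [hfin]; exact hn)
      exact main_sym (symHyp D.hM hs h2) (by rw [hfin]; exact hn) H hx0 hx hν (semi_T hμ) (conj_om D hj hT hτ₀ hμ)
    · exact main_alt (altHyp D.hM hs h2) (by rw [hfin]; exact hn) H hν (semi_T hμ) (conj_om D hj hT hτ₀ hμ)
  obtain ⟨h3, l, hl⟩ := hmain
  -- `τ = 1`
  have hτ1 : τ = 1 := by
    have h4 : τ ∈ Subgroup.zpowers (bar hF) := by
      apply mem_zpowers_of_fix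
      intro x hx
      obtain ⟨y, rfl⟩ := (hj x).mpr hx
      rw [← hτ₀, h3]
    have h5 : τ ^ 2 = 1 := by
      obtain ⟨m, rfl⟩ := Subgroup.mem_zpowers_iff.mp h4
      rw [← zpow_natCast, ← _root_.zpow_mul, mul_comm, _root_.zpow_mul, zpow_natCast, ← bar_order hF, pow_orderOf_eq_one,
        _root_.one_zpow]
    have h6 : τ ^ Nat.card N = 1 := by
      have h7 := pow_card_eq_one' (x := (⟨_, hν⟩ : N))
      have h8 : psiSU h τ ^ Nat.card N = 1 := congrArg Subtype.val h7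
      rw [psiSU_pow, psiSU_eq_one_iff hF hn] at h8
      exact h8.1
    obtain ⟨m, hm⟩ := hodd
    rw [hm, pow_succ, pow_mul, h5, one_pow, one_mul] at h6
    exact h6
  subst hτ1
  -- `T₀` is scalar
  have hT₀ : (T₀ : Matrix (Fin n) (Fin n) k) = l • (1 : Matrix (Fin n) (Fin n) k) := by
    apply Matrix.ext_of_mulVec_single
    intro i
    have h4 := hl (Pi.single i 1)
    rw [semiT_apply] at h4
    have h5 : τ₀ ∘ (Pi.single i 1 : Fin n → k) = Pi.single i 1 := by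
      ext m; exact h3 _
    rw [h5] at h4
    rw [h4, Matrix.smul_mulVec, Matrix.one_mulVec]
  have hl0 : l ≠ 0 := by
    rintro rfl
    have h4 := ((Matrix.isUnit_iff_isUnit_det _).mp T₀.isUnit).ne_zero
    rw [hT₀, zero_smul] at h4
    have hne : Nonempty (Fin n) := ⟨⟨0, by omega⟩⟩
    exact h4 (Matrix.det_zero)
  have hjl : j l ≠ 0 := (_root_.map_ne_zero j).mpr hl0
  have h6 : glHom j T₀ = sc (Units.mk0 (j l) hjl) := by
    apply Units.ext
    rw [glHom_coe, hT₀, sc_coe, Units.val_mk0, smul_map]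
    congr 1
    ext i m
    by_cases him : i = m <;> simp [him, Matrix.one_apply]
  have h7 : (h : GL (Fin n) F) = sc (e * Units.mk0 (j l) hjl) := by
    have h8 : glMap (1 : F ≃+* F) C = C := by
      apply Units.ext
      rw [glMap_coe]
      ext i m; rfl
    rw [h8, h6, ← sc_comm, ← mul_assoc, ← map_mul] at hT
    exact mul_right_cancel hT
  have h9 : psiSU h 1 = psiSU (1 : Cfsg.GU n F q) 1 :=
    psiSU_eq_of_sc (θ := e * Units.mk0 (j l) hjl) (by rw [h7, Subgroup.coe_one, mul_one])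
  rw [h9, psiSU_one]

end H6.BalC
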