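import Mathlib
import Cfsg.Agent.Lib.H6.PSUField2
import Cfsg.Agent.Lib.H6.BalA
import Cfsg.Agent.Lib.H92.UTransv

/-!
Groups of automorphisms of `PSU_n(q)` of order prime to `p` centralising a field automorphism of odd prime order `p` and
normalised by its centraliser.
-/

set_option autoImplicit false
set_option linter.unusedSectionVars false

namespace H6.BalD

open Matrix H50.PSLBasic H50.SpBasic H50.H90 H50.PSLCount H50.PSLField H50.ClassCount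
  H6.PSUBasic H6.PSUUniq H6.PSUOut H6.PSUNorm H6.PSUField H6.PSUField2 H6.BalA

variable {n q q₀ p : ℕ} {F : Type*} [Field F] [Fintype F] {F₀ : Type*} [Field F₀] [Fintype F₀]

/-- the inclusion of `SU` in `GU` as a homomorphism -/
def toGh : Cfsg.SU n F q →* Cfsg.GU n F q where
  toFun := toG
  map_one' := Subtype.ext (map_one (Matrix.SpecialLinearGroup.toGL))
  map_mul' s t := Subtype.ext (map_mul (Matrix.SpecialLinearGroup.toGL) (s : SpecialLinearGroup (Fin n) F) t)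

lemma toGh_apply (s : Cfsg.SU n F q) : toGh s = toG s := rfl

lemma toG_semiSU (g : Cfsg.GU n F q) (σ : F ≃+* F) (s : Cfsg.SU n F q) :
    toG (semiSU g σ s) = g * guMap σ (toG s) * g⁻¹ := by
  apply Subtype.ext
  apply Units.ext
  exact mt_semiSU g σ s

section

variable (hF : Fintype.card F = q ^ 2) (hF₀ : Fintype.card F₀ = q₀ ^ 2) (hodd : Odd p) (hq : q = q₀ ^ p) (j : F₀ →+* F)

/-- the action of `SU` over the subfield -/
noncomputable def Ph (n : ℕ) : Cfsg.SU n F₀ q₀ →* MulAut (Cfsg.PSU n F q) :=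
  (psiHomU.comp (guHom hF hF₀ hodd hq j)).comp toGh

lemma Ph_apply (s : Cfsg.SU n F₀ q₀) : Ph hF hF₀ hodd hq j n s = psiSU (guHom hF hF₀ hodd hq j (toG s)) 1 := rfl

variable {j}

lemma guMap_guHom {σ : F ≃+* F} (hj : ∀ x, (∃ c, j c = x) ↔ σ x = x) (g : Cfsg.GU n F₀ q₀) :
    guMap σ (guHom hF hF₀ hodd hq j g) = guHom hF hF₀ hodd hq j g :=
  Subtype.ext ((glMap_eq_self_iff hj _).mpr ⟨g, rfl⟩)

lemma guMap_guHom' {τ : F ≃+* F} {τ₀ : F₀ ≃+* F₀} (h : ∀ x, j (τ₀ x) = τ (j x)) (g : Cfsg.GU n F₀ q₀) :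
    guMap τ (guHom hF hF₀ hodd hq j g) = guHom hF hF₀ hodd hq j (guMap τ₀ g) := by
  apply Subtype.ext
  apply Units.ext
  ext a b
  exact (h _).symm

lemma Ph_mem_inn (hn : 3 ≤ n) (s : Cfsg.SU n F₀ q₀) :
    Ph hF hF₀ hodd hq j n s ∈ Cfsg.Inn (Cfsg.PSU n F q) := by
  rw [Ph_apply, psiSU_mem_inn_iff hF hn]
  refine ⟨rfl, 1, ?_⟩
  rw [one_pow]
  apply Subtype.ext
  apply Units.ext
  rw [H6.PSUOut.detU_coe]
  change (((Matrix.SpecialLinearGroup.toGL (s : SpecialLinearGroup (Fin n) F₀) : GL (Fin n) F₀) :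
    Matrix (Fin n) (Fin n) F₀).map j).det = 1
  have h1 := RingHom.map_det j ((s : SpecialLinearGroup (Fin n) F₀) : Matrix (Fin n) (Fin n) F₀)
  rw [Matrix.SpecialLinearGroup.det_coe, map_one] at h1
  exact h1.symm

lemma Ph_comm {σ : F ≃+* F} (hj : ∀ x, (∃ c, j c = x) ↔ σ x = x) (s : Cfsg.SU n F₀ q₀) :
    Ph hF hF₀ hodd hq j n s * psiSU 1 σ = psiSU 1 σ * Ph hF hF₀ hodd hq j n s := by
  rw [Ph_apply, psiSU_mul, psiSU_mul, guMap_guHom hF hF₀ hodd hq hj, guMap_one_apply, mul_one, one_mul, one_mul,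
    mul_one]

lemma Ph_eq_one (hn : 3 ≤ n) {s : Cfsg.SU n F₀ q₀} (h : Ph hF hF₀ hodd hq j n s = 1) :
    s ∈ Subgroup.center (Cfsg.SU n F₀ q₀) := by
  have hne : Nonempty (Fin n) := ⟨⟨0, by omega⟩⟩
  rw [Ph_apply, psiSU_eq_one_iff hF hn] at h
  obtain ⟨-, u, hu⟩ := h
  have h1 : glHom j (toG s : GL (Fin n) F₀) = sc (u : Fˣ) := congrArg Subtype.val hu
  obtain ⟨v, hv⟩ := (glHom_eq_sc_iff j _).mp ⟨_, h1⟩
  rw [H6.PSUUniq.mem_center_iff hF₀ hn]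
  refine ⟨v, ?_⟩
  have h2 := congrArg Units.val hv
  rw [sc_coe] at h2
  exact h2

lemma Ph_of_center (hn : 3 ≤ n) {s : Cfsg.SU n F₀ q₀} (h : s ∈ Subgroup.center (Cfsg.SU n F₀ q₀)) :
    Ph hF hF₀ hodd hq j n s = 1 := by
  have hne : Nonempty (Fin n) := ⟨⟨0, by omega⟩⟩
  rw [H6.PSUUniq.mem_center_iff hF₀ hn] at h
  obtain ⟨c, hc⟩ := h
  rw [Ph_apply, ← psiSU_one]
  apply psiSU_eq_of_smul (c := j c)
  change ((mt s).map j) = j c • (1 : Matrix (Fin n) (Fin n) F)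
  rw [hc]
  ext a b
  by_cases hab : a = b <;> simp [hab, Matrix.one_apply]

/-- conjugation by an automorphism commuting with the field automorphism -/
lemma conj_Ph {τ : F ≃+* F} {τ₀ : F₀ ≃+* F₀} (h : ∀ x, j (τ₀ x) = τ (j x)) (h₀ : Cfsg.GU n F₀ q₀)
    (s : Cfsg.SU n F₀ q₀) :
    psiSU (guHom hF hF₀ hodd hq j h₀) τ * Ph hF hF₀ hodd hq j n s * (psiSU (guHom hF hF₀ hodd hq j h₀) τ)⁻¹ =
      Ph hF hF₀ hodd hq j n (semiSU h₀ τ₀ s) := by
  rw [mul_inv_eq_iff_eq_mul, Ph_apply, Ph_apply, psiSU_mul, psiSU_mul, guMap_one_apply, mul_one, one_mul,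
    guMap_guHom' hF hF₀ hodd hq h, toG_semiSU, ← map_mul, ← map_mul, inv_mul_cancel_right]

/-- automorphisms commuting with the field automorphism -/
lemma exists_h₀ (hn : 3 ≤ n) {σ : F ≃+* F} (hr : orderOf σ = p) (hj : ∀ x, (∃ c, j c = x) ↔ σ x = x)
    {h : Cfsg.GU n F q} {τ : F ≃+* F} (hc : psiSU h τ * psiSU 1 σ = psiSU 1 σ * psiSU h τ) :
    ∃ (h₀ : Cfsg.GU n F₀ q₀) (τ₀ : F₀ ≃+* F₀), (∀ x, j (τ₀ x) = τ (j x)) ∧
      psiSU h τ = psiSU (guHom hF hF₀ hodd hq j h₀) τ := by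
  obtain ⟨r, f, hp, hchar, -, hcard⟩ := H50.FieldAut.exists_charP F
  have : Fact r.Prime := ⟨hp⟩
  have hτσ : ∀ x, τ (σ x) = σ (τ x) := by
    intro x
    have := H50.FieldAut.ringAut_comm (p := r) τ σ
    exact congrArg (fun t : F ≃+* F => t x) this
  obtain ⟨τ₀, hτ₀⟩ := exists_restrict hj hτσ
  have h1 : psiSU h 1 ∈ Subgroup.centralizer {(psiSU 1 σ : MulAut (Cfsg.PSU n F q))} := by
    rw [H50.ClassCount.mem_centralizer_singleton, psiSU_mul, psiSU_mul, guMap_one_apply, mul_one, one_mul, one_mul,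
      mul_one, psiSU_eq_iff' hF hn]
    rw [psiSU_mul, psiSU_mul, map_one, mul_one, one_mul, psiSU_eq_iff' hF hn] at hc
    exact ⟨rfl, hc.2⟩
  obtain ⟨w, h', rfl, hh⟩ := (psiSU_mem_centralizer_std hF hn hr hodd).mp h1
  obtain ⟨h₀, hk⟩ := (glMap_eq_self_iff hj (h' : GL (Fin n) F)).mp (congrArg Subtype.val hh)
  refine ⟨⟨h₀, (glHom_mem_iff hF hF₀ hodd hq j h₀).mp (by rw [hk]; exact h'.2)⟩, τ₀, hτ₀, ?_⟩
  rw [psiSU_scG_mul]
  congr 1
  exact Subtype.ext hk.symm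

/-- the end of the argument -/
lemma ending (hn : 3 ≤ n) (hp : p.Prime) {σ : F ≃+* F} (hr : orderOf σ = p) (hj : ∀ x, (∃ c, j c = x) ↔ σ x = x)
    {τ : F ≃+* F} (hτ : ∀ x, τ (j x) = j x) {h₀ : Cfsg.GU n F₀ q₀}
    {c : F₀} (hc : gt h₀ = c • (1 : Matrix (Fin n) (Fin n) F₀)) {m : ℕ} (hm : m.Coprime p)
    (hpow : psiSU (guHom hF hF₀ hodd hq j h₀) τ ^ m = 1) : psiSU (guHom hF hF₀ hodd hq j h₀) τ = 1 := by
  have h1 : psiSU (guHom hF hF₀ hodd hq j h₀) τ = psiSU 1 τ := by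
    apply psiSU_eq_of_smul (c := j c)
    change ((gt h₀).map j) = j c • (1 : Matrix (Fin n) (Fin n) F)
    rw [hc]
    ext a b
    by_cases hab : a = b <;> simp [hab, Matrix.one_apply]
  rw [h1] at hpow ⊢
  have h2 : τ ∈ Subgroup.zpowers σ := by
    apply mem_zpowers_of_fix
    intro x hx
    obtain ⟨y, rfl⟩ := (hj x).mpr hx
    exact hτ y
  have h3 : τ ^ p = 1 := by
    obtain ⟨l, rfl⟩ := Subgroup.mem_zpowers_iff.mp h2
    rw [← zpow_natCast, ← _root_.zpow_mul, mul_comm, _root_.zpow_mul, zpow_natCast, ← hr, pow_orderOf_eq_one,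
      _root_.one_zpow]
  have h4 : τ ^ m = 1 := by
    rw [psiSU_pow, psiSU_eq_one_iff hF hn] at hpow
    exact hpow.1
  have h5 : τ = 1 := by
    have h6 := Nat.dvd_gcd (orderOf_dvd_of_pow_eq_one h4) (orderOf_dvd_of_pow_eq_one h3)
    rw [hm] at h6
    exact orderOf_eq_one_iff.mp (Nat.dvd_one.mp h6)
  rw [h5, psiSU_one]

/-- **the generic case** -/
theorem triv_generic (hn : 3 ≤ n) (h32 : ¬ (n = 3 ∧ q = 2)) (h32₀ : ¬ (n = 3 ∧ q₀ = 2)) (hp : p.Prime) {σ : F ≃+* F}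
    (hr : orderOf σ = p) (hj : ∀ x, (∃ c, j c = x) ↔ σ x = x) {N : Subgroup (MulAut (Cfsg.PSU n F q))}
    (hcop : (Nat.card N).Coprime p) (hcomm : ∀ x ∈ N, x * psiSU 1 σ = psiSU 1 σ * x)
    (hnorm : ∀ s : Cfsg.SU n F₀ q₀, ∀ x ∈ N, Ph hF hF₀ hodd hq j n s * x * (Ph hF hF₀ hodd hq j n s)⁻¹ ∈ N)
    {s₁ : Cfsg.SU n F₀ q₀} (hs₁ : orderOf (Ph hF hF₀ hodd hq j n s₁) = p) : N = ⊥ := by
  set Φ := Ph hF hF₀ hodd hq j n with hΦ
  have hfin : Finite (MulAut (Cfsg.PSU n F q)) := inferInstance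
  -- the preimage of `N`
  have hPn : (N.comap Φ).Normal := by
    constructor
    intro s hs t
    rw [Subgroup.mem_comap] at hs ⊢
    rw [map_mul, map_mul, map_inv]
    exact hnorm t _ hs
  have hsimple := H6.SUGenC.isSimpleGroup hF₀ n hn h32₀
  have hmap : ((N.comap Φ).map (QuotientGroup.mk' (Subgroup.center (Cfsg.SU n F₀ q₀)))).Normal :=
    hPn.map _ (QuotientGroup.mk'_surjective _)
  have hbot : (N.comap Φ) ≤ Subgroup.center (Cfsg.SU n F₀ q₀) := by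
    rcases hmap.eq_bot_or_eq_top with h | h
    · intro s hs
      have h1 : QuotientGroup.mk' (Subgroup.center (Cfsg.SU n F₀ q₀)) s ∈
          (N.comap Φ).map (QuotientGroup.mk' (Subgroup.center (Cfsg.SU n F₀ q₀))) := ⟨s, hs, rfl⟩
      rw [h, Subgroup.mem_bot] at h1
      exact (QuotientGroup.eq_one_iff s).mp h1
    · exfalso
      have h1 : QuotientGroup.mk' (Subgroup.center (Cfsg.SU n F₀ q₀)) s₁ ∈
          (N.comap Φ).map (QuotientGroup.mk' (Subgroup.center (Cfsg.SU n F₀ q₀))) := by rw [h]; trivial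
      obtain ⟨t, ht, h2⟩ := h1
      have h3 : t⁻¹ * s₁ ∈ Subgroup.center (Cfsg.SU n F₀ q₀) := QuotientGroup.eq.mp h2
      have h4 : Φ s₁ = Φ t := by
        have := Ph_of_center hF hF₀ hodd hq (j := j) hn h3
        rw [← hΦ, map_mul, map_inv, inv_mul_eq_one] at this
        exact this.symm
      have h5 : Φ t ∈ N := ht
      rw [h4] at hs₁
      have h6 : orderOf (⟨Φ t, h5⟩ : N) = p := by rw [Subgroup.orderOf_mk]; exact hs₁
      have h7 : p ∣ Nat.card N := by rw [← h6]; exact orderOf_dvd_natCard _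
      exact hp.one_lt.ne' (Nat.dvd_one.mp (by rw [← hcop]; exact Nat.dvd_gcd h7 dvd_rfl))
  rw [eq_bot_iff]
  intro x hx
  rw [Subgroup.mem_bot]
  obtain ⟨h, τ, rfl⟩ := aut_psu (F := F) hF hn h32 x
  obtain ⟨h₀, τ₀, hτ₀, hh⟩ := exists_h₀ hF hF₀ hodd hq hn hr hj (hcomm _ hx)
  rw [hh] at hx ⊢
  have h1 : psiSU h₀ τ₀ = (1 : MulAut (Cfsg.PSU n F₀ q₀)) := by
    ext z
    obtain ⟨s, rfl⟩ := QuotientGroup.mk_surjective z
    rw [psiSU_mk]
    change (QuotientGroup.mk (semiSU h₀ τ₀ s) : Cfsg.PSU n F₀ q₀) = QuotientGroup.mk s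
    rw [eq_comm, QuotientGroup.eq]
    have h2 : s⁻¹ * semiSU h₀ τ₀ s ∈ N.comap Φ := by
      rw [Subgroup.mem_comap, map_mul, ← conj_Ph hF hF₀ hodd hq hτ₀, ← hΦ, map_inv]
      have h3 := hnorm s⁻¹ _ hx
      rw [map_inv, inv_inv] at h3
      have h4 := N.mul_mem h3 (N.inv_mem hx)
      have h5 : (Φ s)⁻¹ * (psiSU (guHom hF hF₀ hodd hq j h₀) τ * Φ s * (psiSU (guHom hF hF₀ hodd hq j h₀) τ)⁻¹) =
        (Φ s)⁻¹ * psiSU (guHom hF hF₀ hodd hq j h₀) τ * Φ s * (psiSU (guHom hF hF₀ hodd hq j h₀) τ)⁻¹ := by group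
      rw [h5]
      exact h4
    exact hbot h2
  obtain ⟨h2, c, hc⟩ := psiSU_eq_one hF₀ hn h1
  refine ending hF hF₀ hodd hq hn hp hr hj (fun y => by rw [← hτ₀, h2]; rfl) hc hcop ?_
  exact congrArg Subtype.val (pow_card_eq_one' (x := (⟨_, hx⟩ : N)))

end

end H6.BalD
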