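import Mathlib
import Cfsg.Agent.Lib.H6.BalD

/-!
The case of the fixed group `PSU_3(2)`, and elements of order `p` in the group over the subfield.
-/

set_option autoImplicit false
set_option linter.unusedSectionVars false

namespace H6.BalE

open Matrix H50.PSLBasic H50.SpBasic H50.H90 H50.PSLCount H50.PSLField H50.ClassCount
  H6.PSUBasic H6.PSUUniq H6.PSUOut H6.PSUNorm H6.PSUField H6.PSUField2 H6.BalA H6.BalD

variable {n q q₀ p : ℕ} {F : Type*} [Field F] [Fintype F] {F₀ : Type*} [Field F₀] [Fintype F₀]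

/-- a semilinear unitary map fixing the isotropic points is scalar -/
lemma scalar_of_fix (hF : Fintype.card F = q ^ 2) (hn : 3 ≤ n) {g : Cfsg.GU n F q} {τ : F ≃+* F}
    (key : ∀ u : Fin n → F, Cfsg.hermForm n F q u u = 0 → ∃ c : F, gt g *ᵥ (τ ∘ u) = c • u) :
    τ = 1 ∧ ∃ c : F, gt g = c • (1 : Matrix (Fin n) (Fin n) F) := by
  obtain ⟨D⟩ := H6.SUGenC.exists_data n hF
  have hd := H6.SUGenC.three_le (F := F) hn
  obtain ⟨h1, c, h2⟩ := semi_scalar D.skew hd (Θ := fun v => gt g *ᵥ (τ ∘ v)) (τ := τ)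
    (fun x y => by
      have : τ ∘ (x + y) = τ ∘ x + τ ∘ y := by ext i; simp
      simp only [this, Matrix.mulVec_add])
    (fun r x => by
      have : τ ∘ (r • x) = τ r • (τ ∘ x) := by ext i; simp
      simp only [this, Matrix.mulVec_smul])
    (map_add τ) (map_one τ)
    (fun x hx => by
      have h3 : gt g⁻¹ *ᵥ (gt g *ᵥ (τ ∘ x)) = 0 := by rw [hx, Matrix.mulVec_zero]
      rw [Matrix.mulVec_mulVec, gt_inv_mul, Matrix.one_mulVec] at h3
      ext i
      have h4 := congrFun h3 i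
      exact (map_eq_zero τ).1 h4)
    (fun u hu => key u (by
      rw [D.h_eq] at hu
      exact (mul_eq_zero.1 hu).resolve_left D.ζ0))
  have hτ : τ = 1 := RingEquiv.ext h1
  refine ⟨hτ, c, ext_mulVec fun v => ?_⟩
  have h3 := h2 v
  subst hτ
  rw [Matrix.smul_mulVec, Matrix.one_mulVec]
  exact h3

/-- perpendicular isotropic vectors in dimension three are proportional -/
lemma line_three (hF : Fintype.card F = q ^ 2) {u v : Fin 3 → F} (hu0 : u ≠ 0)
    (hu : Cfsg.hermForm 3 F q u u = 0) (hv : Cfsg.hermForm 3 F q v v = 0) (huv : Cfsg.hermForm 3 F q u v = 0) :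
    ∃ c : F, v = c • u := by
  obtain ⟨D⟩ := H6.SUGenC.exists_data 3 hF
  by_contra hcon
  push Not at hcon
  have hli := H95.UBasic.pair_indep hu0 hcon
  have huu : D.h u u = 0 := by rw [D.h_eq, hu, mul_zero]
  have hvv : D.h v v = 0 := by rw [D.h_eq, hv, mul_zero]
  have huv' : D.h u v = 0 := by rw [D.h_eq, huv, mul_zero]
  have hvu : D.h v u = 0 := D.skew.symm_zero huv'
  have h1 := H95.UBasic.ti_finrank_le D.skew (U := ⊤) (X := Submodule.span F (Set.range ![u, v]))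
    (fun x _ hx => D.skew.nd x (fun y => hx y trivial)) le_top (by
      have hmem : ∀ x ∈ Submodule.span F (Set.range ![u, v]), ∃ a b : F, x = a • u + b • v := by
        intro x hx
        rw [Matrix.range_cons, Matrix.range_cons, Matrix.range_empty, Set.union_empty,
          Set.singleton_union, Submodule.mem_span_pair] at hx
        obtain ⟨a, b, h⟩ := hx
        exact ⟨a, b, h.symm⟩
      intro x hx y hy
      obtain ⟨a, b, rfl⟩ := hmem x hx
      obtain ⟨a', b', rfl⟩ := hmem y hy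
      simp only [map_add, map_smul, LinearMap.add_apply, LinearMap.smul_apply, map_smulₛₗ, smul_eq_mul, huu, hvv,
        huv', hvu]
      ring)
  rw [finrank_span_eq_card hli, Fintype.card_fin, finrank_top, Module.finrank_fin_fun] at h1
  omega

section

variable (hF : Fintype.card F = q ^ 2) (hF₀ : Fintype.card F₀ = q₀ ^ 2) (hodd : Odd p) (hq : q = q₀ ^ p) {j : F₀ →+* F}

lemma mt_semiSU_apply (g : Cfsg.GU n F q) (τ : F ≃+* F) (s : Cfsg.SU n F q) (v : Fin n → F) :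
    mt (semiSU g τ s) *ᵥ (gt g *ᵥ (τ ∘ v)) = gt g *ᵥ (τ ∘ (mt s *ᵥ v)) := by
  rw [mt_semiSU, Matrix.mulVec_mulVec, Matrix.mul_assoc, gt_inv_mul, Matrix.mul_one, ← Matrix.mulVec_mulVec]
  congr 1
  ext i
  simp [Matrix.mulVec, dotProduct, map_sum]

end

/-- **the case of `PSU_3(2)`** -/
theorem triv_special {F : Type*} [Field F] [Fintype F] {F₀ : Type*} [Field F₀] [Fintype F₀]
    (hF : Fintype.card F = q ^ 2) (hF₀ : Fintype.card F₀ = 2 ^ 2) (hodd : Odd 3) (hq : q = 2 ^ 3) {j : F₀ →+* F}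
    {σ : F ≃+* F} (hr : orderOf σ = 3) (hj : ∀ x, (∃ c, j c = x) ↔ σ x = x)
    {N : Subgroup (MulAut (Cfsg.PSU 3 F q))}
    (hcop : (Nat.card N).Coprime 3) (hcomm : ∀ x ∈ N, x * psiSU 1 σ = psiSU 1 σ * x)
    (hnorm : ∀ s : Cfsg.SU 3 F₀ 2, ∀ x ∈ N, Ph hF hF₀ hodd hq j 3 s * x * (Ph hF hF₀ hodd hq j 3 s)⁻¹ ∈ N) :
    N = ⊥ := by
  set Φ := Ph hF hF₀ hodd hq j 3 with hΦ
  have hK : Fintype.card F₀ = 4 := by rw [hF₀]; norm_num
  rw [eq_bot_iff]
  intro x hx
  rw [Subgroup.mem_bot]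
  obtain ⟨h, τ, rfl⟩ := aut_psu (F := F) hF le_rfl (by rintro ⟨-, h⟩; rw [hq] at h; norm_num at h) x
  obtain ⟨h₀, τ₀, hτ₀, hh⟩ := exists_h₀ hF hF₀ hodd hq le_rfl hr hj (hcomm _ hx)
  rw [hh] at hx ⊢
  have hfix : ∀ u : Fin 3 → F₀, Cfsg.hermForm 3 F₀ 2 u u = 0 → ∃ c : F₀, gt h₀ *ᵥ (τ₀ ∘ u) = c • u := by
    intro u hu
    by_cases hu0 : u = 0
    · refine ⟨0, ?_⟩
      rw [hu0]
      have : (τ₀ ∘ (0 : Fin 3 → F₀)) = 0 := by ext i; simp
      rw [this, Matrix.mulVec_zero, smul_zero]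
    set v := gt h₀ *ᵥ (τ₀ ∘ u) with hv
    have hform : ∀ y z : Fin 3 → F₀, Cfsg.hermForm 3 F₀ 2 (gt h₀ *ᵥ (τ₀ ∘ y)) (gt h₀ *ᵥ (τ₀ ∘ z)) =
        τ₀ (Cfsg.hermForm 3 F₀ 2 y z) := by
      intro y z
      rw [mem_GU.1 h₀.2, hermForm_map]
    have hvv : Cfsg.hermForm 3 F₀ 2 v v = 0 := by rw [hv, hform, hu, map_zero]
    have huT : H92.Herm.B u u = 0 := hu
    have hvT : H92.Herm.B v v = 0 := hvv
    -- the conjugate of the transvection
    have h1 : semiSU h₀ τ₀ (H92.UTransv.T u) = H92.UTransv.T v := by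
      apply H92.UTransv.act_ext
      intro y
      rw [H92.UTransv.act_T hK hvT]
      obtain ⟨z, rfl⟩ : ∃ z : Fin 3 → F₀, y = gt h₀ *ᵥ (τ₀ ∘ z) := by
        refine ⟨τ₀.symm ∘ (gt h₀⁻¹ *ᵥ y), ?_⟩
        have : τ₀ ∘ (τ₀.symm ∘ (gt h₀⁻¹ *ᵥ y)) = gt h₀⁻¹ *ᵥ y := by ext i; simp
        rw [this, Matrix.mulVec_mulVec, gt_mul_inv, Matrix.one_mulVec]
      have e1 : (H92.UTransv.act (semiSU h₀ τ₀ (H92.UTransv.T u))) (gt h₀ *ᵥ (τ₀ ∘ z)) =
          gt h₀ *ᵥ (τ₀ ∘ (H92.UTransv.act (H92.UTransv.T u) z)) := mt_semiSU_apply h₀ τ₀ _ z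
      have e2 : H92.Herm.B (gt h₀ *ᵥ (τ₀ ∘ z)) v = τ₀ (H92.Herm.B z u) := hform z u
      rw [e1, e2, H92.UTransv.act_T hK huT]
      have e3 : τ₀ ∘ (z + H92.Herm.B z u • u) = τ₀ ∘ z + τ₀ (H92.Herm.B z u) • (τ₀ ∘ u) := by
        ext i; simp
      rw [e3, Matrix.mulVec_add, Matrix.mulVec_smul]
    by_cases huv : H92.Herm.B u v = 0
    · exact line_three hF₀ hu0 hu hvv huv
    exfalso
    -- the product of the two transvections lies in `N`
    have hw : Φ (H92.UTransv.T u * H92.UTransv.T v) ∈ N := by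
      have h2 := hnorm (H92.UTransv.T u) _ hx
      have h3 := N.mul_mem h2 (N.inv_mem hx)
      rw [map_mul, ← h1, hΦ, ← conj_Ph hF hF₀ hodd hq hτ₀, ← hΦ]
      have h4 : (Φ (H92.UTransv.T u))⁻¹ = Φ (H92.UTransv.T u) := by
        rw [← map_inv, H92.UTransv.T_inv hK]
      rw [h4] at h3
      have h5 : Φ (H92.UTransv.T u) * (psiSU (guHom hF hF₀ hodd hq j h₀) τ * Φ (H92.UTransv.T u) *
          (psiSU (guHom hF hF₀ hodd hq j h₀) τ)⁻¹) = Φ (H92.UTransv.T u) *
          psiSU (guHom hF hF₀ hodd hq j h₀) τ * Φ (H92.UTransv.T u) *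
          (psiSU (guHom hF hF₀ hodd hq j h₀) τ)⁻¹ := by group
      rw [h5]
      exact h3
    set c := H92.Herm.B u v with hc
    have hvu : H92.Herm.B v u = c ^ 2 := H92.Herm.B_symm hK u v
    have hc3 : c * c ^ 2 = 1 := by rw [← pow_succ']; exact H92.Herm.pow_three hK huv
    have hcc : ∀ y : F₀, y + y = 0 := H92.Herm.add_self hK
    have hact : ∀ y, H92.UTransv.act (H92.UTransv.T u * H92.UTransv.T v) y =
        y + (H92.Herm.B y u + H92.Herm.B y v * c ^ 2) • u + H92.Herm.B y v • v := by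
      intro y
      rw [H92.UTransv.act_mul, H92.UTransv.act_T hK hvT, H92.UTransv.act_T hK huT, H92.Herm.B_add_left,
        H92.Herm.B_smul_left, hvu]
      module
    have hBu : ∀ y, H92.Herm.B (H92.UTransv.act (H92.UTransv.T u * H92.UTransv.T v) y) u =
        H92.Herm.B y u + H92.Herm.B y v * c ^ 2 := by
      intro y
      rw [hact, H92.Herm.B_add_left, H92.Herm.B_add_left, H92.Herm.B_smul_left, H92.Herm.B_smul_left, huT, hvu]
      ring
    have hBv : ∀ y, H92.Herm.B (H92.UTransv.act (H92.UTransv.T u * H92.UTransv.T v) y) v = H92.Herm.B y u * c := by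
      intro y
      rw [hact, H92.Herm.B_add_left, H92.Herm.B_add_left, H92.Herm.B_smul_left, H92.Herm.B_smul_left, hvT, ← hc]
      linear_combination (H92.Herm.B y v) * hc3 + hcc (H92.Herm.B y v)
    have hcube : (H92.UTransv.T u * H92.UTransv.T v) ^ 3 = 1 := by
      apply H92.UTransv.act_ext
      intro y
      rw [pow_succ', pow_two, H92.UTransv.act_mul _ (_ * _), H92.UTransv.act_mul (H92.UTransv.T u * H92.UTransv.T v),
        H92.UTransv.act_one]
      set w := H92.UTransv.T u * H92.UTransv.T v with hw'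
      rw [hact (H92.UTransv.act w (H92.UTransv.act w y)), hBu (H92.UTransv.act w y), hBv (H92.UTransv.act w y),
        hBu y, hBv y, hact (H92.UTransv.act w y), hBu y, hBv y, hact y]
      set α := H92.Herm.B y u
      set β := H92.Herm.B y v
      have h2 : (2 : F₀) = 0 := by have := hcc 1; rw [← this]; norm_num
      match_scalars
      · ring
      · linear_combination (3 * α + β * c ^ 2) * hc3 + (3 * α + 2 * β * c ^ 2) * h2
      · linear_combination β * hc3 + (β + α * c) * h2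
    have hone : Φ (H92.UTransv.T u * H92.UTransv.T v) = 1 := by
      have e1 : Φ (H92.UTransv.T u * H92.UTransv.T v) ^ 3 = 1 := by rw [← map_pow, hcube, map_one]
      have e2 : Φ (H92.UTransv.T u * H92.UTransv.T v) ^ Nat.card N = 1 :=
        congrArg Subtype.val (pow_card_eq_one' (x := (⟨_, hw⟩ : N)))
      have h6 := Nat.dvd_gcd (orderOf_dvd_of_pow_eq_one e2) (orderOf_dvd_of_pow_eq_one e1)
      rw [hcop] at h6
      exact orderOf_eq_one_iff.mp (Nat.dvd_one.mp h6)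
    have hcen := Ph_eq_one hF hF₀ hodd hq le_rfl hone
    rw [H6.PSUUniq.mem_center_iff hF₀ le_rfl] at hcen
    obtain ⟨l, hl⟩ := hcen
    have e1 : H92.UTransv.act (H92.UTransv.T u * H92.UTransv.T v) u = l • u := by
      change mt (H92.UTransv.T u * H92.UTransv.T v) *ᵥ u = l • u
      rw [hl, Matrix.smul_mulVec, Matrix.one_mulVec]
    have e2 := hBu u
    rw [e1, H92.Herm.B_smul_left, huT, ← hc, mul_zero, zero_add, hc3] at e2
    exact zero_ne_one e2
  obtain ⟨h2, c, hc⟩ := scalar_of_fix hF₀ le_rfl hfix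
  refine ending hF hF₀ hodd hq le_rfl Nat.prime_three hr hj (fun y => by rw [← hτ₀, h2]; rfl) hc hcop ?_
  exact congrArg Subtype.val (pow_card_eq_one' (x := (⟨_, hx⟩ : N)))

/-! ### elements of the group over the subfield -/

lemma exists_toG {g : Cfsg.GU n F q} (h : (gt g).det = 1) : ∃ s : Cfsg.SU n F q, toG s = g :=
  ⟨⟨⟨gt g, h⟩, g.2⟩, Subtype.ext (Units.ext rfl)⟩

/-- `diag(u, u⁻¹, 1, …)` -/
lemma exists_diag (hF : Fintype.card F = q ^ 2) (hF₀ : Fintype.card F₀ = q₀ ^ 2) (hodd : Odd p) (hq : q = q₀ ^ p)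
    {j : F₀ →+* F} (hn : 3 ≤ n) (u : NU F₀ q₀) (hu : u ≠ 1) :
    ∃ s : Cfsg.SU n F₀ q₀, Ph hF hF₀ hodd hq j n s ≠ 1 ∧ s ^ orderOf u = 1 := by
  let i₀ : Fin n := ⟨0, by omega⟩
  let i₁ : Fin n := ⟨1, by omega⟩
  let i₂ : Fin n := ⟨2, by omega⟩
  have h01 : i₀ ≠ i₁ := by intro h; exact absurd (congrArg Fin.val h) (by norm_num [i₀, i₁])
  have h02 : i₂ ≠ i₀ := by intro h; exact absurd (congrArg Fin.val h) (by norm_num [i₀, i₂])
  have h12 : i₂ ≠ i₁ := by intro h; exact absurd (congrArg Fin.val h) (by norm_num [i₁, i₂])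
  set g : Cfsg.GU n F₀ q₀ := diagGU i₀ u * diagGU i₁ u⁻¹ with hg
  have hmat : gt g = Matrix.diagonal (fun i => (Function.update 1 i₀ ((u : F₀ˣ) : F₀) : Fin n → F₀) i *
      (Function.update 1 i₁ (((u⁻¹ : NU F₀ q₀) : F₀ˣ) : F₀) : Fin n → F₀) i) := by
    rw [hg]
    change Matrix.diagonal (Function.update 1 i₀ ((u : F₀ˣ) : F₀)) *
      Matrix.diagonal (Function.update 1 i₁ (((u⁻¹ : NU F₀ q₀) : F₀ˣ) : F₀)) = _
    rw [Matrix.diagonal_mul_diagonal]
  have hdet : (gt g).det = 1 := by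
    have h1 : detU hF₀ n g = 1 := by rw [hg, map_mul, detU_diagGU, detU_diagGU, mul_inv_cancel]
    have h2 := H6.PSUOut.detU_coe hF₀ g
    rw [h1] at h2
    exact h2.symm
  obtain ⟨s, hs⟩ := exists_toG hdet
  refine ⟨s, ?_, ?_⟩
  · intro h1
    have h2 := Ph_eq_one hF hF₀ hodd hq hn h1
    rw [H6.PSUUniq.mem_center_iff hF₀ hn] at h2
    obtain ⟨c, hc⟩ := h2
    have h3 : gt g = c • (1 : Matrix (Fin n) (Fin n) F₀) := by rw [← hs]; exact hc
    rw [hmat] at h3
    have h4 := congrFun (congrFun h3 i₀) i₀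
    have h5 := congrFun (congrFun h3 i₂) i₂
    rw [Matrix.diagonal_apply_eq, Matrix.smul_apply, Matrix.one_apply_eq, Function.update_self,
      Function.update_of_ne h01] at h4
    rw [Matrix.diagonal_apply_eq, Matrix.smul_apply, Matrix.one_apply_eq, Function.update_of_ne h02,
      Function.update_of_ne h12] at h5
    rw [← h5] at h4
    apply hu
    apply Subtype.ext
    apply Units.ext
    simpa using h4
  · have hinj : Function.Injective (toG : Cfsg.SU n F₀ q₀ → Cfsg.GU n F₀ q₀) := by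
      intro a b hab
      apply mt_injective
      exact congrArg (fun t : Cfsg.GU n F₀ q₀ => gt t) hab
    apply hinj
    have h1 : toG (s ^ orderOf u) = (toG s) ^ orderOf u := map_pow toGh s _
    have h2 : toG (1 : Cfsg.SU n F₀ q₀) = 1 := map_one toGh
    rw [h1, h2, hs, hg]
    have hcomm : Commute (diagGU (F := F₀) (q := q₀) i₀ u) (diagGU i₁ u⁻¹) := by
      apply Subtype.ext
      apply Units.ext
      change Matrix.diagonal (Function.update 1 i₀ ((u : F₀ˣ) : F₀)) *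
        Matrix.diagonal (Function.update 1 i₁ (((u⁻¹ : NU F₀ q₀) : F₀ˣ) : F₀)) =
        Matrix.diagonal (Function.update 1 i₁ (((u⁻¹ : NU F₀ q₀) : F₀ˣ) : F₀)) *
        Matrix.diagonal (Function.update 1 i₀ ((u : F₀ˣ) : F₀))
      rw [Matrix.diagonal_mul_diagonal, Matrix.diagonal_mul_diagonal]
      congr 1
      ext i; rw [mul_comm]
    rw [hcomm.mul_pow, ← map_pow, ← map_pow, pow_orderOf_eq_one, inv_pow, pow_orderOf_eq_one, inv_one, map_one,
      map_one, one_mul]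

/-- **elements of order `p`** -/
theorem exists_order (hF : Fintype.card F = q ^ 2) (hF₀ : Fintype.card F₀ = q₀ ^ 2) (hodd : Odd p) (hq : q = q₀ ^ p)
    {j : F₀ →+* F} (hn : 3 ≤ n) (hp : p.Prime) {σ : F ≃+* F}
    (hr : orderOf σ = p) (hj : ∀ x, (∃ c, j c = x) ↔ σ x = x) {x : MulAut (Cfsg.PSU n F q)}
    (hx : x ∈ Cfsg.inndiagPSU n F q) (hxc : x * psiSU 1 σ = psiSU 1 σ * x) (hxo : orderOf x = p) :
    ∃ s : Cfsg.SU n F₀ q₀, orderOf (Ph hF hF₀ hodd hq j n s) = p := by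
  by_cases hdvd : p ∣ q₀ + 1
  · have hNU : Nat.card (NU F₀ q₀) = q₀ + 1 := H44.UField.card_ker hF₀
    have : Fact p.Prime := ⟨hp⟩
    obtain ⟨u, hu⟩ := exists_prime_orderOf_dvd_card' (G := NU F₀ q₀) p (by rw [hNU]; exact hdvd)
    obtain ⟨s, hs1, hs2⟩ := exists_diag hF hF₀ hodd hq (j := j) hn u (by
      rintro rfl
      rw [orderOf_one] at hu
      exact hp.one_lt.ne hu)
    refine ⟨s, orderOf_eq_prime ?_ hs1⟩
    rw [hu] at hs2
    rw [← map_pow, hs2, map_one]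
  · obtain ⟨g, rfl⟩ := mem_inndiag_iff.mp hx
    have h1 : psiSU g 1 ∈ Subgroup.centralizer {(psiSU 1 σ : MulAut (Cfsg.PSU n F q))} := by
      rw [H50.ClassCount.mem_centralizer_singleton]; exact hxc
    obtain ⟨w, h', rfl, hh⟩ := (psiSU_mem_centralizer_std hF hn hr hodd).mp h1
    obtain ⟨h₀, hk⟩ := (glMap_eq_self_iff hj (h' : GL (Fin n) F)).mp (congrArg Subtype.val hh)
    set g₀ : Cfsg.GU n F₀ q₀ := ⟨h₀, (glHom_mem_iff hF hF₀ hodd hq j h₀).mp (by rw [hk]; exact h'.2)⟩ with hg₀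
    have h2 : guHom hF hF₀ hodd hq j g₀ = h' := Subtype.ext hk
    rw [psiSU_scG_mul, ← h2] at hxo
    have hdet : (gt (g₀ ^ (q₀ + 1))).det = 1 := by
      have e1 : detU hF₀ n (g₀ ^ (q₀ + 1)) = 1 := by
        rw [map_pow, ← H44.UField.card_ker hF₀, pow_card_eq_one']
      have e2 := H6.PSUOut.detU_coe hF₀ (g₀ ^ (q₀ + 1))
      rw [e1] at e2
      exact e2.symm
    obtain ⟨s, hs⟩ := exists_toG hdet
    refine ⟨s, ?_⟩
    have h3 : Ph hF hF₀ hodd hq j n s = (psiSU (guHom hF hF₀ hodd hq j g₀) 1) ^ (q₀ + 1) := by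
      rw [Ph_apply, hs, map_pow, ← psiHomU_apply, ← psiHomU_apply, map_pow]
    rw [h3, Nat.Coprime.orderOf_pow, hxo]
    rw [hxo]
    exact (Nat.Prime.coprime_iff_not_dvd hp).mpr hdvd

end H6.BalE
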