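import Mathlib
import Cfsg.Agent.Lib.H6.BalC
import Cfsg.Agent.Lib.H6.BalE
import Cfsg.Agent.Lib.H1.Cores
import Cfsg.Agent.S0282

/-!
Local balance for `PSU_n(q)`: automorphisms of prime order which are not inner-diagonal.
-/

set_option autoImplicit false
set_option linter.unusedSectionVars false

namespace H6.BalF

open Matrix H50.PSLBasic H50.SpBasic H50.H90 H50.PSLCount H50.PSLField H50.ClassCount
  H6.PSUBasic H6.PSUUniq H6.PSUOut H6.PSUNorm H6.PSUField H6.PSUField2 H6.BalA H6.BalD H6.BalE H6.GrPSU H6.OddCore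
  H6.BalB H6.BalC

variable {n q p : ℕ} {F : Type*} [Field F] [Fintype F]

/-- the `p'`-core of the centraliser as a group of automorphisms -/
noncomputable def core {K : Type*} [Group K] (A : Subgroup (MulAut K)) (p : ℕ) : Subgroup (MulAut K) :=
  (Cfsg.pPrimeCore p A).map A.subtype

section core

variable {K : Type*} [Group K] [Finite K] {A : Subgroup (MulAut K)}

lemma core_eq_bot : core A p = ⊥ ↔ Cfsg.pPrimeCore p A = ⊥ := by
  rw [core, Subgroup.map_eq_bot_iff_of_injective _ A.subtype_injective]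

lemma core_card : (Nat.card (core A p)).Coprime p := by
  rw [core, Subgroup.card_map_of_injective A.subtype_injective]
  exact H1.Cores.coprime_card_pPrimeCore p

lemma core_le {x : MulAut K} (hx : x ∈ core A p) : x ∈ A := by
  obtain ⟨y, -, rfl⟩ := hx
  exact y.2

lemma core_conj {x y : MulAut K} (hx : x ∈ core A p) (hy : y ∈ A) : y * x * y⁻¹ ∈ core A p := by
  obtain ⟨x, hx, rfl⟩ := hx
  have hnorm := H1.Cores.pPrimeCore_normal (G := A) p
  exact ⟨⟨y, hy⟩ * x * ⟨y, hy⟩⁻¹, hnorm.conj_mem x hx ⟨y, hy⟩, rfl⟩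

/-- the fixed points give a normal subgroup of the centraliser -/
lemma core_ne_bot {β : MulAut K} {𝒢 : Subgroup (MulAut K)} (hinn : ∀ k : K, MulAut.conj k ∈ 𝒢)
    (hcop : Nat.Coprime p (Nat.card (MonoidHom.eqLocus β.toMonoidHom (MonoidHom.id K)))) {k : K} (hk : β k = k)
    (hk1 : MulAut.conj k ≠ 1) : Cfsg.pPrimeCore p ↥(𝒢 ⊓ Subgroup.centralizer {β}) ≠ ⊥ := by
  set A := 𝒢 ⊓ Subgroup.centralizer {β} with hA
  set E := MonoidHom.eqLocus β.toMonoidHom (MonoidHom.id K) with hE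
  have hEA : ∀ e : E, MulAut.conj (e : K) ∈ A := by
    intro e
    rw [hA, Subgroup.mem_inf, mem_centralizer_singleton]
    refine ⟨hinn _, ?_⟩
    have he : β (e : K) = e := e.2
    ext y
    change (e : K) * β y * (e : K)⁻¹ = β ((e : K) * y * (e : K)⁻¹)
    rw [map_mul, map_mul, map_inv, he]
  let φ : E →* A := MonoidHom.mk' (fun e => ⟨MulAut.conj (e : K), hEA e⟩) (by
    intro a b
    apply Subtype.ext
    exact map_mul MulAut.conj (a : K) (b : K))
  have hnorm : φ.range.Normal := by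
    constructor
    rintro _ ⟨e, rfl⟩ ⟨y, hy⟩
    have hyβ : β * y = y * β := by
      have := (Subgroup.mem_inf.mp hy).2
      rw [mem_centralizer_singleton] at this
      exact this.symm
    have he : β (e : K) = e := e.2
    have hye : β (y (e : K)) = y (e : K) := by
      have := congrArg (fun f : MulAut K => f (e : K)) hyβ
      change β (y (e : K)) = y (β (e : K)) at this
      rw [this, he]
    refine ⟨⟨y (e : K), hye⟩, ?_⟩
    apply Subtype.ext
    change MulAut.conj (y (e : K)) = y * MulAut.conj (e : K) * y⁻¹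
    ext z
    change y (e : K) * z * (y (e : K))⁻¹ = y ((e : K) * y⁻¹ z * (e : K)⁻¹)
    rw [map_mul, map_mul, map_inv]
    have : y (y⁻¹ z) = z := by
      change (y * y⁻¹) z = z
      rw [mul_inv_cancel]; rfl
    rw [this]
  have hle : φ.range ≤ Cfsg.pPrimeCore p A := by
    apply H1.Cores.le_pPrimeCore hnorm
    have h1 : Nat.card φ.range ∣ Nat.card E := Subgroup.card_range_dvd φ
    exact (Nat.Coprime.coprime_dvd_right h1 hcop).symm
  intro hbot
  rw [hbot, le_bot_iff, MonoidHom.range_eq_bot_iff] at hle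
  apply hk1
  have := congrArg (fun f : E →* A => ((f ⟨k, hk⟩ : A) : MulAut K)) hle
  exact this

end core

lemma not_32 (hF : Fintype.card F = q ^ 2) (hK : IsSimpleGroup (Cfsg.PSU n F q)) : ¬ (n = 3 ∧ q = 2) := by
  rintro ⟨rfl, rfl⟩
  obtain ⟨hcard, hsol⟩ := Cfsg.Agent.S0282.result (F := F) (by rw [hF]; norm_num)
  have hcomm : ∀ a b : Cfsg.PSU 3 F 2, a * b = b * a := IsSimpleGroup.comm_iff_isSolvable.mpr hsol
  let _ : CommGroup (Cfsg.PSU 3 F 2) := { (inferInstance : Group (Cfsg.PSU 3 F 2)) with mul_comm := hcomm }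
  have h1 := IsSimpleGroup.prime_card (α := Cfsg.PSU 3 F 2)
  rw [hcard] at h1
  norm_num at h1

/-- simple `PSU` is not abelian -/
lemma not_comm (hF : Fintype.card F = q ^ 2) (hn : 3 ≤ n) (h32 : ¬ (n = 3 ∧ q = 2)) :
    ¬ ∀ a b : Cfsg.PSU n F q, a * b = b * a := by
  intro hcomm
  have hsimple := H6.SUGenC.isSimpleGroup hF n hn h32
  have hperf := H6.SUGenC.commutator_eq_top hF n hn h32
  have hq1 : ∀ x : Cfsg.PSU n F q, x = 1 := by
    intro x
    obtain ⟨s, rfl⟩ := QuotientGroup.mk_surjective x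
    have hs : s ∈ (QuotientGroup.mk' (Subgroup.center (Cfsg.SU n F q))).ker := by
      have hle : commutator (Cfsg.SU n F q) ≤ (QuotientGroup.mk' (Subgroup.center (Cfsg.SU n F q))).ker := by
        rw [commutator_def, Subgroup.commutator_le]
        intro a _ b _
        rw [MonoidHom.mem_ker, map_commutatorElement, commutatorElement_eq_one_iff_mul_comm]
        exact hcomm _ _
      apply hle
      rw [hperf]
      trivial
    exact hs
  obtain ⟨x, hx⟩ := exists_ne (1 : Cfsg.PSU n F q)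
  exact hx (hq1 x)

lemma conj_injective (hF : Fintype.card F = q ^ 2) (hn : 3 ≤ n) (h32 : ¬ (n = 3 ∧ q = 2)) {k : Cfsg.PSU n F q}
    (h : MulAut.conj k = 1) : k = 1 := by
  have hsimple := H6.SUGenC.isSimpleGroup hF n hn h32
  have hc : k ∈ Subgroup.center (Cfsg.PSU n F q) := by
    rw [Subgroup.mem_center_iff]
    intro y
    have h1 := congrArg (fun f : MulAut (Cfsg.PSU n F q) => f y) h
    change k * y * k⁻¹ = y at h1
    rw [mul_inv_eq_iff_eq_mul] at h1
    exact h1.symm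
  rcases (inferInstance : (Subgroup.center (Cfsg.PSU n F q)).Normal).eq_bot_or_eq_top with h1 | h1
  · rw [h1] at hc; exact Subgroup.mem_bot.mp hc
  · exfalso
    apply not_comm hF hn h32
    intro a b
    have : a ∈ Subgroup.center (Cfsg.PSU n F q) := by rw [h1]; trivial
    exact (Subgroup.mem_center_iff.mp this b).symm

/-! ### involutions -/

section two

variable {𝒢 : Subgroup (MulAut (Cfsg.PSU n F q))} {β : MulAut (Cfsg.PSU n F q)}

/-- the core is trivial for graph involutions, and the number of fixed points is even -/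
theorem two_data (hF : Fintype.card F = q ^ 2) (hn : 3 ≤ n) (h32 : ¬ (n = 3 ∧ q = 2)) (r : ℕ) [Fact r.Prime] [CharP F r]
    (h2r : 2 ≠ r) (hord : orderOf β = 2) (hnot : ¬ Cfsg.IsInnerDiagonalAutPSU β) {N : Subgroup (MulAut (Cfsg.PSU n F q))}
    (hodd : Odd (Nat.card N)) (hcomm : ∀ x ∈ N, x * β = β * x)
    (hnorm : ∀ y ∈ Cfsg.Inn (Cfsg.PSU n F q), y * β = β * y → ∀ x ∈ N, y⁻¹ * x * y ∈ N) : N = ⊥ := by
  have hr : r.Prime := Fact.out
  have hr' : Odd r := hr.odd_of_ne_two h2r.symm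
  -- the field with `q` elements
  set k := H49.FixedField.fixedField (bar hF) with hk
  have hkfin : Fintype k := Fintype.ofFinite k
  have hkc : Fintype.card k = q := by
    have h1 := H49.FixedField.card_fixedField_pow (bar hF)
    rw [bar_order hF, Nat.card_eq_fintype_card (α := F), hF] at h1
    rw [← Nat.card_eq_fintype_card]
    exact Nat.pow_left_injective (by norm_num : (2 : ℕ) ≠ 0) h1
  have hj : ∀ x, (∃ c, k.subtype c = x) ↔ bar hF x = x := by
    intro x
    rw [← H49.FixedField.mem_fixedField]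
    exact ⟨fun ⟨c, hc⟩ => hc ▸ c.2, fun hx => ⟨⟨x, hx⟩, rfl⟩⟩
  have hr0F : (r : F) = 0 := CharP.cast_eq_zero F r
  have hr0 : (r : k) = 0 := by
    apply k.subtype.injective
    rw [map_natCast, map_zero, hr0F]
  have h2k : (2 : k) ≠ 0 := by
    intro h
    have h2F : (2 : F) = 0 := by
      have := congrArg k.subtype h
      rwa [map_ofNat, map_zero] at this
    have h3 : r ∣ 2 := (CharP.cast_eq_zero_iff F r 2).mp (by exact_mod_cast h2F)
    exact h2r ((Nat.prime_dvd_prime_iff_eq hr Nat.prime_two).mp h3).symm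
  -- the automorphism
  obtain ⟨g, σ, rfl⟩ := aut_psu (F := F) hF hn h32 β
  have hsq : psiSU g σ ^ 2 = 1 := by rw [← hord, pow_orderOf_eq_one]
  rw [psiSU_sq, psiSU_eq_one_iff hF hn] at hsq
  obtain ⟨hσ2, u, hu⟩ := hsq
  have hσ1 : σ ≠ 1 := by
    rintro rfl
    exact hnot ((H6.PSUBasic.isInnerDiagonal_iff _).mpr ⟨g, rfl⟩)
  have hσ : σ = bar hF :=
    H50.FieldAut2.unique_order_two (orderOf_eq_prime hσ2 hσ1) (bar_order hF)
  subst hσ
  have hu' : (g : GL (Fin n) F) * glMap (bar hF) (g : GL (Fin n) F) = sc (u : Fˣ) := congrArg Subtype.val hu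
  obtain ⟨C, c, a, M, D⟩ := exists_dat hF (by omega) hj g.2 hu'
  refine trivial_of_odd hF hn h32 D hj h2k hr' hr0 hodd hcomm ?_
  intro s hs
  apply hnorm
  · rw [om_apply, psiSU_mem_inn_iff hF hn]
    refine ⟨rfl, 1, ?_⟩
    rw [one_pow]
    apply Subtype.ext
    apply Units.ext
    rw [H6.PSUOut.detU_coe]
    change ((C * glHom k.subtype (eGL n k s.1) * C⁻¹ : GL (Fin n) F) : Matrix (Fin n) (Fin n) F).det = 1
    set S := ((eGL n k s.1 : GL (Fin n) k) : Matrix (Fin n) (Fin n) k) with hS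
    have h1 : S.det ^ 2 = 1 := by
      have h2 := congrArg Matrix.det (iso_mat s)
      rw [Matrix.det_mul, Matrix.det_mul, Matrix.det_transpose, ← hS] at h2
      have h3 : M.det * (S.det ^ 2 - 1) = 0 := by linear_combination h2
      exact sub_eq_zero.mp ((mul_eq_zero.mp h3).resolve_left D.hM)
    have h2 : S.det ^ r = 1 := by
      have h3 : (eGL n k s.1) ^ r = 1 := by
        rw [← map_pow]
        have : s.1 ^ r = 1 := congrArg Subtype.val hs
        rw [this, map_one]
      have h4 := congrArg (fun t : GL (Fin n) k => (t : Matrix (Fin n) (Fin n) k).det) h3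
      simp only [Units.val_pow_eq_pow_val, Matrix.det_pow, Units.val_one, Matrix.det_one] at h4
      exact h4
    have h3 : S.det = 1 := by
      obtain ⟨m, hm⟩ := hr'
      rw [hm, pow_succ, pow_mul, h1, one_pow, one_mul] at h2
      exact h2
    rw [Units.val_mul, Units.val_mul, Matrix.det_mul, Matrix.det_mul, mul_right_comm, ← Matrix.det_mul, ← Units.val_mul,
      mul_inv_cancel, Units.val_one, Matrix.det_one, one_mul, glHom_coe, ← hS]
    have h4 := RingHom.map_det k.subtype S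
    rw [h3, map_one] at h4
    exact h4.symm
  · have h1 := (D.mem_cent_iff hn hj ⟨_, mem_GU_iso D hj s⟩).mpr
      ⟨1, eGL n k s.1, 1, by rw [map_one, one_mul], by rw [iso_mat, Units.val_one, one_smul], by simp⟩
    rw [mem_centralizer_singleton] at h1
    exact h1

/-- an involutory automorphism has a non-trivial fixed point -/
lemma two_fixed (hF : Fintype.card F = q ^ 2) (hn : 3 ≤ n) (h32 : ¬ (n = 3 ∧ q = 2)) (hord : orderOf β = 2) :
    ∃ k, β k = k ∧ MulAut.conj k ≠ 1 := by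
  by_contra hcon
  push Not at hcon
  have hfpf : MonoidHom.FixedPointFree β := by
    intro k hk
    exact conj_injective hF hn h32 (hcon k hk)
  have hinv : Function.Involutive β := by
    intro k
    have h1 : β ^ 2 = 1 := by rw [← hord, pow_orderOf_eq_one]
    exact congrArg (fun f : MulAut (Cfsg.PSU n F q) => f k) h1
  exact not_comm hF hn h32 (fun a b => hfpf.commute_all_of_involutive hinv a b)

end two

/-! ### odd primes -/

section odd

variable {β : MulAut (Cfsg.PSU n F q)}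

lemma conj_fix_iff (hF : Fintype.card F = q ^ 2) (hn : 3 ≤ n) (h32 : ¬ (n = 3 ∧ q = 2)) {β : MulAut (Cfsg.PSU n F q)}
    {k : Cfsg.PSU n F q} : β k = k ↔ MulAut.conj k * β = β * MulAut.conj k := by
  have h1 : β * MulAut.conj k = MulAut.conj (β k) * β := by
    ext y
    change β (k * y * k⁻¹) = β k * β y * (β k)⁻¹
    rw [map_mul, map_mul, map_inv]
  rw [h1, mul_left_inj]
  constructor
  · intro h; rw [h]
  · intro h
    have h2 : MulAut.conj (k * (β k)⁻¹) = 1 := by
      rw [map_mul, map_inv, ← h, mul_inv_cancel]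
    have h3 := conj_injective hF hn h32 h2
    rw [mul_inv_eq_one] at h3
    exact h3.symm

theorem odd_data (hF : Fintype.card F = q ^ 2) (hn : 3 ≤ n) (h32 : ¬ (n = 3 ∧ q = 2)) (hp : p.Prime) (hodd : Odd p)
    (hord : orderOf β = p) (hnot : ¬ Cfsg.IsInnerDiagonalAutPSU β) :
    (∃ k, β k = k ∧ MulAut.conj k ≠ 1) ∧
    ∀ {N : Subgroup (MulAut (Cfsg.PSU n F q))}, (Nat.card N).Coprime p → (∀ x ∈ N, x * β = β * x) →
      (∀ y ∈ Cfsg.Inn (Cfsg.PSU n F q), y * β = β * y → ∀ x ∈ N, y * x * y⁻¹ ∈ N) →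
      (∃ k, β k = k ∧ orderOf k = p) → N = ⊥ := by
  obtain ⟨g, σ, hβ⟩ := aut_psu (F := F) hF hn h32 β
  have hpow : psiSU g σ ^ p = 1 := by rw [← hβ, ← hord, pow_orderOf_eq_one]
  have hσp : σ ^ p = 1 := by
    rw [psiSU_pow, psiSU_eq_one_iff hF hn] at hpow
    exact hpow.1
  have hσ1 : σ ≠ 1 := by
    rintro rfl
    exact hnot ((H6.PSUBasic.isInnerDiagonal_iff _).mpr ⟨g, hβ⟩)
  have : Fact p.Prime := ⟨hp⟩
  have hr : orderOf σ = p := orderOf_eq_prime hσp hσ1
  obtain ⟨h, hh⟩ := field_coset hF hn hr hodd hpow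
  rw [hh] at hβ
  set δ : MulAut (Cfsg.PSU n F q) := psiSU h 1 with hδ
  obtain ⟨q₀, hq₀, hq⟩ := exists_q0 hF hr hodd
  set F₀ := H49.FixedField.fixedField σ with hF₀'
  have hfin : Fintype F₀ := Fintype.ofFinite F₀
  have hF₀ : Fintype.card F₀ = q₀ ^ 2 := by rw [← Nat.card_eq_fintype_card]; exact hq₀
  have hj : ∀ x, (∃ c, F₀.subtype c = x) ↔ σ x = x := by
    intro x
    rw [← H49.FixedField.mem_fixedField]
    exact ⟨fun ⟨c, hc⟩ => hc ▸ c.2, fun hx => ⟨⟨x, hx⟩, rfl⟩⟩
  have hcn : (Cfsg.Inn (Cfsg.PSU n F q)).Normal := by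
    constructor
    rintro _ ⟨k, rfl⟩ y
    refine ⟨y k, ?_⟩
    ext z
    change y k * z * (y k)⁻¹ = y (k * y⁻¹ z * k⁻¹)
    rw [map_mul, map_mul, map_inv]
    have : y (y⁻¹ z) = z := by
      change (y * y⁻¹) z = z
      rw [mul_inv_cancel]; rfl
    rw [this]
  have hconjk : ∀ (y : MulAut (Cfsg.PSU n F q)) (k : Cfsg.PSU n F q), MulAut.conj (y k) = y * MulAut.conj k * y⁻¹ := by
    intro y k
    ext z
    change y k * z * (y k)⁻¹ = y (k * y⁻¹ z * k⁻¹)
    rw [map_mul, map_mul, map_inv]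
    have : y (y⁻¹ z) = z := by
      change (y * y⁻¹) z = z
      rw [mul_inv_cancel]; rfl
    rw [this]
  have htrans : ∀ x : MulAut (Cfsg.PSU n F q), x * psiSU 1 σ = psiSU 1 σ * x ↔ (δ * x * δ⁻¹) * β = β * (δ * x * δ⁻¹) := by
    intro x
    rw [hβ]
    constructor
    · intro h1
      calc (δ * x * δ⁻¹) * (δ * psiSU 1 σ * δ⁻¹) = δ * (x * psiSU 1 σ) * δ⁻¹ := by group
        _ = (δ * psiSU 1 σ * δ⁻¹) * (δ * x * δ⁻¹) := by rw [h1]; group
    · intro h1
      calc x * psiSU 1 σ = δ⁻¹ * ((δ * x * δ⁻¹) * (δ * psiSU 1 σ * δ⁻¹)) * δ := by group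
        _ = psiSU 1 σ * x := by rw [h1]; group
  constructor
  · -- a non-trivial fixed point
    have hNU : Nat.card (NU F₀ q₀) = q₀ + 1 := H44.UField.card_ker hF₀
    have hq0 : q₀ ≠ 0 := by
      rintro rfl
      have : 0 < Fintype.card F₀ := Fintype.card_pos
      rw [hF₀] at this
      norm_num at this
    have : Nontrivial (NU F₀ q₀) := by
      rw [← Finite.one_lt_card_iff_nontrivial, hNU]; omega
    obtain ⟨u, hu⟩ := exists_ne (1 : NU F₀ q₀)
    obtain ⟨s, hs1, -⟩ := exists_diag hF hF₀ hodd hq (j := F₀.subtype) hn u hu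
    obtain ⟨k₀, hk₀⟩ := Ph_mem_inn hF hF₀ hodd hq (j := F₀.subtype) hn s
    refine ⟨δ k₀, ?_, ?_⟩
    · rw [conj_fix_iff hF hn h32, hconjk, ← htrans]
      have := Ph_comm hF hF₀ hodd hq hj s
      rw [← hk₀] at this
      exact this
    · rw [hconjk]
      intro h1
      apply hs1
      rw [← hk₀]
      have : MulAut.conj k₀ = δ⁻¹ * (δ * MulAut.conj k₀ * δ⁻¹) * δ := by group
      change MulAut.conj k₀ = 1
      rw [this, h1]; group
  · intro N hcop hcomm hnorm hk
    obtain ⟨k, hk, hko⟩ := hk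
    -- an element of order `p` over the subfield
    have hx : ∃ s₁ : Cfsg.SU n F₀ q₀, orderOf (Ph hF hF₀ hodd hq F₀.subtype n s₁) = p := by
      apply exists_order hF hF₀ hodd hq hn hp hr hj (x := δ⁻¹ * MulAut.conj k * δ)
      · have h1 : MulAut.conj (δ⁻¹ k) = δ⁻¹ * MulAut.conj k * δ := by rw [hconjk, inv_inv]
        rw [← h1]
        obtain ⟨s, hs⟩ := QuotientGroup.mk_surjective (δ⁻¹ k)
        rw [← hs, conj_eq]
        exact mem_inndiag_iff.mpr ⟨_, rfl⟩
      · rw [htrans]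
        have h1 : δ * (δ⁻¹ * MulAut.conj k * δ) * δ⁻¹ = MulAut.conj k := by group
        rw [h1]
        exact (conj_fix_iff hF hn h32).mp hk
      · have h1 : orderOf (δ⁻¹ * MulAut.conj k * δ) = orderOf (MulAut.conj k) := by
          have := orderOf_conj δ⁻¹ (MulAut.conj k)
          rwa [inv_inv] at this
        rw [h1]
        have hinj : Function.Injective (MulAut.conj : Cfsg.PSU n F q →* MulAut (Cfsg.PSU n F q)) := by
          rw [injective_iff_map_eq_one]
          intro x hx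
          exact conj_injective hF hn h32 hx
        rw [orderOf_injective MulAut.conj hinj, hko]
    obtain ⟨s₁, hs₁⟩ := hx
    -- the conjugate group
    set N' := N.map (MulAut.conj δ⁻¹).toMonoidHom with hN'
    have hN'mem : ∀ x, x ∈ N' ↔ δ * x * δ⁻¹ ∈ N := by
      intro x
      constructor
      · rintro ⟨y, hy, rfl⟩
        have : δ * ((MulAut.conj δ⁻¹).toMonoidHom y) * δ⁻¹ = y := by
          change δ * (δ⁻¹ * y * δ⁻¹⁻¹) * δ⁻¹ = y
          group
        rw [this]; exact hy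
      · intro hy
        refine ⟨_, hy, ?_⟩
        change δ⁻¹ * (δ * x * δ⁻¹) * δ⁻¹⁻¹ = x
        group
    have hcard : Nat.card N' = Nat.card N :=
      Subgroup.card_map_of_injective (MulAut.conj δ⁻¹).injective
    have hcop' : (Nat.card N').Coprime p := by rw [hcard]; exact hcop
    have hcomm' : ∀ x ∈ N', x * psiSU 1 σ = psiSU 1 σ * x := by
      intro x hx
      rw [htrans]
      exact hcomm _ ((hN'mem x).mp hx)
    have hnorm' : ∀ s : Cfsg.SU n F₀ q₀, ∀ x ∈ N', Ph hF hF₀ hodd hq F₀.subtype n s * x *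
        (Ph hF hF₀ hodd hq F₀.subtype n s)⁻¹ ∈ N' := by
      intro s x hx
      rw [hN'mem] at hx ⊢
      have h1 := hnorm (δ * Ph hF hF₀ hodd hq F₀.subtype n s * δ⁻¹)
        (hcn.conj_mem _ (Ph_mem_inn hF hF₀ hodd hq hn s) δ)
        ((htrans _).mp (Ph_comm hF hF₀ hodd hq hj s)) _ hx
      have h2 : δ * (Ph hF hF₀ hodd hq F₀.subtype n s * x * (Ph hF hF₀ hodd hq F₀.subtype n s)⁻¹) * δ⁻¹ =
          δ * Ph hF hF₀ hodd hq F₀.subtype n s * δ⁻¹ * (δ * x * δ⁻¹) *
          (δ * Ph hF hF₀ hodd hq F₀.subtype n s * δ⁻¹)⁻¹ := by group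
      rw [h2]
      exact h1
    have hbot : N' = ⊥ := by
      by_cases h32₀ : n = 3 ∧ q₀ = 2
      · -- `p = 3`
        obtain ⟨rfl, rfl⟩ := h32₀
        have hp3 : p = 3 := by
          obtain ⟨hc72, -⟩ := Cfsg.Agent.S0282.result (F := F₀) (by rw [hF₀]; norm_num)
          have h1 : (QuotientGroup.mk s₁ : Cfsg.PSU 3 F₀ 2) ^ 72 = 1 := by
            rw [← hc72, pow_card_eq_one']
          have h2 : s₁ ^ 72 ∈ Subgroup.center (Cfsg.SU 3 F₀ 2) := by
            rw [← QuotientGroup.eq_one_iff]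
            exact h1
          have h3 : (Ph hF hF₀ hodd hq F₀.subtype 3 s₁) ^ 72 = 1 := by
            rw [← map_pow]
            exact Ph_of_center hF hF₀ hodd hq hn h2
          have h4 : p ∣ 72 := by rw [← hs₁]; exact orderOf_dvd_of_pow_eq_one h3
          have h5 : p ∣ 2 ^ 3 * 3 ^ 2 := h4
          rcases (Nat.Prime.dvd_mul hp).mp h5 with h6 | h6
          · have h7 := hp.dvd_of_dvd_pow h6
            have h8 := (Nat.prime_dvd_prime_iff_eq hp Nat.prime_two).mp h7
            subst h8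
            exact absurd hodd (by decide)
          · exact (Nat.prime_dvd_prime_iff_eq hp Nat.prime_three).mp (hp.dvd_of_dvd_pow h6)
        subst hp3
        exact triv_special hF hF₀ hodd hq hr hj hcop' hcomm' hnorm'
      · exact triv_generic hF hF₀ hodd hq hn h32 h32₀ hp hr hj hcop' hcomm' hnorm' hs₁
    rw [eq_bot_iff]
    intro x hx
    have h1 : δ⁻¹ * x * δ ∈ N' := by
      rw [hN'mem]
      have : δ * (δ⁻¹ * x * δ) * δ⁻¹ = x := by group
      rw [this]; exact hx
    rw [hbot, Subgroup.mem_bot] at h1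
    rw [Subgroup.mem_bot]
    have : x = δ * (δ⁻¹ * x * δ) * δ⁻¹ := by group
    rw [this, h1]; group

end odd

/-- **local balance for unitary groups** -/
theorem main {r : ℕ} [Fact r.Prime] [CharP F r] (hF : Fintype.card F = q ^ 2)
    (hn : 3 ≤ n) (hK : IsSimpleGroup (Cfsg.PSU n F q))
    (𝒢 : Subgroup (MulAut (Cfsg.PSU n F q))) (hinn : ∀ k : Cfsg.PSU n F q, MulAut.conj k ∈ 𝒢)
    [Fact p.Prime] (hpr : p ≠ r) (β : MulAut (Cfsg.PSU n F q)) (hord : orderOf β = p)
    (hnot : ¬ Cfsg.IsInnerDiagonalAutPSU β) :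
    Cfsg.pPrimeCore p ↥(𝒢 ⊓ Subgroup.centralizer {β}) ≠ ⊥ ↔
      ((∃ γ φ : MulAut (Cfsg.PSU n F q), Cfsg.IsInnerDiagonalAutPSU γ ∧
        (∃ σ : F ≃+* F, Cfsg.IsFieldAutPSUOf σ φ) ∧ β = φ.trans γ) ∧
        Nat.Coprime p (Nat.card ↥(MonoidHom.eqLocus β.toMonoidHom (MonoidHom.id (Cfsg.PSU n F q))))) := by
  have h32 := not_32 hF hK
  have hp : p.Prime := Fact.out
  set A := 𝒢 ⊓ Subgroup.centralizer {β} with hA
  have hcomm : ∀ x ∈ core A p, x * β = β * x := by
    intro x hx
    have h1 := (Subgroup.mem_inf.mp (core_le hx)).2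
    rw [mem_centralizer_singleton] at h1
    exact h1
  have hInnA : ∀ y ∈ Cfsg.Inn (Cfsg.PSU n F q), y * β = β * y → y ∈ A := by
    rintro _ ⟨k, rfl⟩ hy
    rw [hA, Subgroup.mem_inf, mem_centralizer_singleton]
    exact ⟨hinn k, hy⟩
  have hkey : (∃ k, β k = k ∧ MulAut.conj k ≠ 1) ∧
      (¬ Nat.Coprime p (Nat.card ↥(MonoidHom.eqLocus β.toMonoidHom (MonoidHom.id (Cfsg.PSU n F q)))) →
        core A p = ⊥) := by
    rcases hp.eq_two_or_odd' with rfl | hodd
    · refine ⟨two_fixed hF hn h32 hord, fun _ => ?_⟩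
      apply two_data hF hn h32 r hpr hord hnot (N := core A 2) ?_ hcomm
      · intro y hy hyβ x hx
        have h1 := core_conj hx (A.inv_mem (hInnA y hy hyβ))
        rwa [inv_inv] at h1
      · exact Nat.coprime_two_right.mp core_card
    · obtain ⟨h1, h2⟩ := odd_data hF hn h32 hp hodd hord hnot
      refine ⟨h1, fun hnc => ?_⟩
      apply h2 core_card hcomm
      · intro y hy hyβ x hx
        exact core_conj hx (hInnA y hy hyβ)
      · have h3 : p ∣ Nat.card ↥(MonoidHom.eqLocus β.toMonoidHom (MonoidHom.id (Cfsg.PSU n F q))) := by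
          by_contra hcon
          exact hnc ((Nat.Prime.coprime_iff_not_dvd hp).mpr hcon)
        obtain ⟨k, hk⟩ := exists_prime_orderOf_dvd_card' p h3
        refine ⟨k, k.2, ?_⟩
        rw [← hk, Subgroup.orderOf_coe]
  constructor
  · intro hne
    constructor
    · obtain ⟨g, σ, rfl⟩ := aut_psu (F := F) hF hn h32 β
      refine ⟨psiSU g 1, psiSU 1 σ, (H6.PSUBasic.isInnerDiagonal_iff _).mpr ⟨g, rfl⟩,
        ⟨σ, (H6.PSUBasic.isFieldAutOf_iff _ _).mpr rfl⟩, ?_⟩
      change psiSU g σ = psiSU g 1 * psiSU 1 σ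
      rw [psiSU_mul, map_one, mul_one, one_mul]
    · by_contra hcon
      exact hne (core_eq_bot.mp (hkey.2 hcon))
  · rintro ⟨-, hcop⟩
    obtain ⟨k, hk1, hk2⟩ := hkey.1
    exact core_ne_bot hinn hcop hk1 hk2

end H6.BalF
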