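import Cfsg.Agent.S0058
import Cfsg.Agent.Lib.H1.UniqueSub
import Cfsg.Agent.Lib.H88.F4
import Cfsg.Agent.Lib.H30.FrobAct

/-!
# S3814, tools T3, T4, T5
-/

set_option autoImplicit false

namespace H6.FT

open Cfsg Subgroup H88.F4

universe u

variable {G : Type u} [Group G] [Finite G]

omit [Finite G] in
/-- the subgroup generated by two commuting elements of order `t` -/
theorem pair_elem {t : ℕ} {x y : G} (hx : orderOf x = t) (hy : orderOf y = t) (hxy : Commute x y) :
    IsMulCommutative (closure ({x, y} : Set G)) ∧ ∀ a ∈ closure ({x, y} : Set G), a ^ t = 1 := by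
  have hc : ∀ a ∈ ({x, y} : Set G), ∀ b ∈ ({x, y} : Set G), a * b = b * a := by
    rintro a ha b hb
    rcases ha with rfl | ha <;> rcases hb with rfl | hb
    · rfl
    · rw [Set.mem_singleton_iff] at hb
      subst hb
      exact hxy.eq
    · rw [Set.mem_singleton_iff] at ha
      subst ha
      exact hxy.eq.symm
    · rw [Set.mem_singleton_iff] at ha hb
      subst ha
      subst hb
      rfl
  have hcl : closure ({x, y} : Set G) ≤ centralizer (closure ({x, y} : Set G) : Set G) := by
    rw [closure_le]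
    intro a ha
    rw [SetLike.mem_coe, mem_centralizer_iff]
    intro b hb
    induction hb using closure_induction with
    | mem b hb => exact hc b hb a ha
    | one => simp
    | mul b c _ _ h1 h2 => rw [mul_assoc, h2, ← mul_assoc, h1, mul_assoc]
    | inv b _ h1 => exact (Commute.inv_left (h1 : Commute b a)).eq
  refine ⟨le_centralizer_iff_isMulCommutative.1 hcl, ?_⟩
  intro a ha
  induction ha using closure_induction with
  | mem a ha =>
    rcases ha with rfl | ha
    · rw [← hx]; exact pow_orderOf_eq_one _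
    · rw [Set.mem_singleton_iff] at ha
      subst ha
      rw [← hy]; exact pow_orderOf_eq_one _
  | one => exact one_pow t
  | mul a b ha hb h1 h2 =>
    have : Commute a b := ((mem_centralizer_iff.1 (hcl hb)) a ha)
    rw [this.mul_pow, h1, h2, mul_one]
  | inv a _ h1 => rw [inv_pow, h1, inv_one]

theorem pair_not_cyclic {t : ℕ} (ht : t.Prime) {x y : G} (hx : orderOf x = t) (hy : orderOf y = t)
    (hxy : Commute x y) (hyx : y ∉ zpowers x) : ¬ IsCyclic (closure ({x, y} : Set G)) := by
  intro hcyc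
  obtain ⟨-, h2⟩ := pair_elem hx hy hxy
  obtain ⟨g, hg⟩ := hcyc.exists_zpow_surjective
  have hgt : (g : G) ^ t = 1 := h2 g g.2
  have hle : closure ({x, y} : Set G) ≤ zpowers (g : G) := by
    intro a ha
    obtain ⟨k, hk⟩ := hg ⟨a, ha⟩
    rw [mem_zpowers_iff]
    exact ⟨k, by simpa using congrArg Subtype.val hk⟩
  have hxz : zpowers x ≤ zpowers (g : G) := by
    rw [zpowers_le]
    exact hle (subset_closure (by simp))
  have hcard : Nat.card (zpowers (g : G)) ≤ Nat.card (zpowers x) := by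
    rw [Nat.card_zpowers, Nat.card_zpowers, hx]
    exact Nat.le_of_dvd ht.pos (orderOf_dvd_of_pow_eq_one hgt)
  have heq : zpowers x = zpowers (g : G) := eq_of_le_of_card_ge hxz hcard
  apply hyx
  rw [heq]
  exact hle (subset_closure (by simp))

/-- T3 -/
theorem r2_fix {t : ℕ} (ht : t.Prime) (E W : Subgroup G) (hE : R2 t E)
    (hEW : E ≤ normalizer (W : Set G)) (hW : ¬ t ∣ Nat.card W) (hW1 : W ≠ ⊥) :
    ∃ z ∈ E, orderOf z = t ∧ ∃ w ∈ W, w ≠ 1 ∧ Commute z w := by
  obtain ⟨x, hxE, y, hyE, hx, hy, hxy, hyx⟩ := hE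
  obtain ⟨hA, hAt⟩ := pair_elem hx hy hxy
  have hAE : closure ({x, y} : Set G) ≤ E := by
    rw [closure_le]
    rintro a (rfl | ha)
    · exact hxE
    · rw [Set.mem_singleton_iff] at ha
      subst ha
      exact hyE
  have hfact : Fact t.Prime := ⟨ht⟩
  have hpg : IsPGroup t (closure ({x, y} : Set G)) := by
    intro a
    exact ⟨1, Subtype.ext (by simpa using hAt a a.2)⟩
  have hcop : (Nat.card (closure ({x, y} : Set G))).Coprime (Nat.card W) := by
    obtain ⟨n, hn⟩ := IsPGroup.iff_card.1 hpg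
    rw [hn]
    exact Nat.Coprime.pow_left n ((Nat.Prime.coprime_iff_not_dvd ht).2 hW)
  have hgen := Cfsg.Agent.S0058.result (closure ({x, y} : Set G)) W
    (pair_not_cyclic ht hx hy hxy hyx) (hAE.trans hEW) hcop
  by_contra hcon
  push Not at hcon
  apply hW1
  rw [← hgen, eq_bot_iff]
  refine iSup₂_le fun a ha => ?_
  have ha1 : orderOf a = t := by
    have h1 : a ^ t = 1 := hAt a ha.1
    exact orderOf_eq_prime h1 ha.2
  intro w hw
  rw [mem_bot]
  by_contra hw1
  exact hcon a (hAE ha.1) ha1 w hw.1 hw1 ((mem_centralizer_singleton_iff.1 hw.2).symm)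

/-- T4 -/
theorem not_r2 {t : ℕ} (ht : t.Prime) (P : Subgroup G) (hP : IsPGroup t P) (h : ¬ R2 t P) :
    (∀ x ∈ P, ∀ y ∈ P, orderOf x = t → orderOf y = t → y ∈ zpowers x) ∧ (t ≠ 2 → IsCyclic P) := by
  have hfact : Fact t.Prime := ⟨ht⟩
  have key : ∀ x ∈ P, ∀ y ∈ P, orderOf x = t → orderOf y = t → y ∈ zpowers x := by
    intro x hx y hy hxo hyo
    have hnt : Nontrivial P := by
      refine ⟨⟨⟨x, hx⟩, 1, fun h1 => ?_⟩⟩
      have : x = 1 := congrArg Subtype.val h1
      rw [this, orderOf_one] at hxo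
      exact ht.one_lt.ne hxo
    have hc := hP.center_nontrivial
    have hdvd : t ∣ Nat.card (center P) := by
      obtain ⟨n, hn⟩ := IsPGroup.iff_card.1 (hP.to_subgroup (center P))
      rw [hn]
      apply dvd_pow_self
      rintro rfl
      rw [pow_zero] at hn
      have := Finite.one_lt_card (α := center P)
      omega
    obtain ⟨z, hz⟩ := exists_prime_orderOf_dvd_card' t hdvd
    have hzo : orderOf ((z : P) : G) = t := by
      rw [← hz, Subgroup.orderOf_coe, Subgroup.orderOf_coe]
    have hzc : ∀ w ∈ P, Commute w ((z : P) : G) := by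
      intro w hw
      have := (mem_center_iff.1 z.2) ⟨w, hw⟩
      exact congrArg Subtype.val this
    have hall : ∀ w ∈ P, orderOf w = t → zpowers w = zpowers ((z : P) : G) := by
      intro w hw hwo
      have h1 : ((z : P) : G) ∈ zpowers w := by
        by_contra hcon
        exact h ⟨w, hw, z, (z : P).2, hwo, hzo, hzc w hw, hcon⟩
      symm
      apply eq_of_le_of_card_ge
      · rwa [zpowers_le]
      · rw [Nat.card_zpowers, Nat.card_zpowers, hwo, hzo]
    rw [hall x hx hxo, ← hall y hy hyo]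
    exact mem_zpowers y
  refine ⟨key, fun ht2 => ?_⟩
  have huniq : ∀ H K : Subgroup P, Nat.card H = t → Nat.card K = t → H = K := by
    intro H K hH hK
    have hgen : ∀ L : Subgroup P, Nat.card L = t → ∃ a : P, orderOf a = t ∧ L = zpowers a := by
      intro L hL
      have hcyc : IsCyclic L := isCyclic_of_prime_card hL
      obtain ⟨a, ha⟩ := hcyc.exists_zpow_surjective
      have hLa : L = zpowers (a : P) := by
        apply le_antisymm
        · intro b hb
          obtain ⟨k, hk⟩ := ha ⟨b, hb⟩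
          rw [mem_zpowers_iff]
          exact ⟨k, by simpa using congrArg Subtype.val hk⟩
        · rw [zpowers_le]
          exact a.2
      refine ⟨a, ?_, hLa⟩
      rw [← Nat.card_zpowers, ← hLa, hL]
    obtain ⟨a, ha, rfl⟩ := hgen H hH
    obtain ⟨b, hb, rfl⟩ := hgen K hK
    have hao : orderOf (a : G) = t := by rw [Subgroup.orderOf_coe]; exact ha
    have hbo : orderOf (b : G) = t := by rw [Subgroup.orderOf_coe]; exact hb
    have h1 : zpowers b ≤ zpowers a := by
      rw [zpowers_le]
      obtain ⟨k, hk⟩ := mem_zpowers_iff.1 (key a a.2 b b.2 hao hbo)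
      exact mem_zpowers_iff.2 ⟨k, Subtype.ext (by simpa using hk)⟩
    symm
    apply eq_of_le_of_card_ge h1
    rw [hH, hK]
  rcases H1.UniqueSub.cyclic_or_quaternion t hP huniq with h1 | h1
  · exact h1
  · exact absurd h1.1 ht2

/-- T5 -/
theorem minn (K D : Subgroup G) (hK : Group.IsSolvable K) (hD : D ≤ K) (hn : K ≤ normalizer (D : Set G))
    (h1 : D ≠ ⊥) : ∃ N : Subgroup G, N ≤ D ∧ N ≠ ⊥ ∧ K ≤ normalizer (N : Set G) ∧
      (∃ t : ℕ, t.Prime ∧ Cfsg.IsElementaryAbelian t N) ∧
      ∀ W ≤ N, W ≠ ⊥ → K ≤ normalizer (W : Set G) → W = N := by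
  obtain ⟨N, ⟨hND, hN1, hKN⟩, hmin⟩ := (Set.toFinite {N : Subgroup G | N ≤ D ∧ N ≠ ⊥ ∧
    K ≤ normalizer (N : Set G)}).exists_minimal ⟨D, le_rfl, h1, hn⟩
  have hmin' : ∀ W ≤ N, W ≠ ⊥ → K ≤ normalizer (W : Set G) → W = N := by
    intro W hW hW1 hKW
    exact le_antisymm hW (hmin ⟨hW.trans hND, hW1, hKW⟩ hW)
  refine ⟨N, hND, hN1, hKN, ?_, hmin'⟩
  have hNK : N ≤ K := hND.trans hD
  have hnorm : (N.subgroupOf K).Normal := by
    constructor
    intro a ha g
    rw [mem_subgroupOf] at ha ⊢
    exact (mem_normalizer_iff.1 (hKN g.2) (a : G)).1 ha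
  have hsol : Group.IsSolvable (N.subgroupOf K) := inferInstance
  have hb1 : N.subgroupOf K ≠ ⊥ := by
    intro hbot
    apply hN1
    rw [subgroupOf_eq_bot] at hbot
    exact hbot.eq_bot_of_le hNK
  have hb2 : ∀ M : Subgroup K, M.Normal → M ≤ N.subgroupOf K → M = ⊥ ∨ M = N.subgroupOf K := by
    intro M hM hMN
    by_cases hM1 : M = ⊥
    · exact Or.inl hM1
    · right
      have h2 : M.map K.subtype = N := by
        apply hmin'
        · rw [map_le_iff_le_comap]
          exact hMN
        · rwa [Ne, map_eq_bot_iff_of_injective _ K.subtype_injective]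
        · intro g hg
          rw [mem_normalizer_iff]
          intro a
          constructor
          · rintro ⟨b, hb, rfl⟩
            exact ⟨⟨g, hg⟩ * b * ⟨g, hg⟩⁻¹, hM.conj_mem b hb ⟨g, hg⟩, by simp⟩
          · rintro ⟨b, hb, hba⟩
            refine ⟨⟨g, hg⟩⁻¹ * b * ⟨g, hg⟩, ?_, ?_⟩
            · have := hM.conj_mem b hb ⟨g, hg⟩⁻¹
              rwa [inv_inv] at this
            · have hb' : (b : G) = g * a * g⁻¹ := hba
              simp [hb', mul_assoc]
      rw [← h2]
      exact (comap_map_eq_self_of_injective K.subtype_injective M).symm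
  obtain ⟨p, hp, hab, hexp⟩ := H30.FrobAct.min_elem (N.subgroupOf K) hsol hb1 hb2
  refine ⟨p, hp, ?_, ?_⟩
  · constructor
    constructor
    intro a b
    have ha : (⟨a, hNK a.2⟩ : K) ∈ N.subgroupOf K := a.2
    have hb : (⟨b, hNK b.2⟩ : K) ∈ N.subgroupOf K := b.2
    have := hab.is_comm.comm ⟨⟨a, hNK a.2⟩, ha⟩ ⟨⟨b, hNK b.2⟩, hb⟩
    apply Subtype.ext
    exact congrArg (fun z : N.subgroupOf K => ((z : K) : G)) this
  · intro a ha
    have := hexp ⟨a, hNK ha⟩ (mem_subgroupOf.2 ha)
    simpa using congrArg Subtype.val this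

end H6.FT
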