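import Mathlib

/-!
The Weyl group of type `D_n` from two copies of the symmetric group.
-/
set_option autoImplicit false

namespace H6.Om

open Equiv

variable {n : ℕ} {W : Type*} [Group W]

section weyl

variable (b : Fin n) (α α' : Perm (Fin n) →* W)

/-- the sign changes -/
def cc (j : Fin n) : W := α' (swap j b) * α (swap j b)

variable {b α α'}

theorem sq_swap (β : Perm (Fin n) →* W) (i j : Fin n) : β (swap i j) * β (swap i j) = 1 := by
  rw [← map_mul, swap_mul_self, map_one]

theorem inv_swap (β : Perm (Fin n) →* W) (i j : Fin n) : (β (swap i j))⁻¹ = β (swap i j) := by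
  rw [← map_inv, swap_inv]

theorem conj_swap (β : Perm (Fin n) →* W) (σ : Perm (Fin n)) (i j : Fin n) :
    β σ * β (swap i j) * (β σ)⁻¹ = β (swap (σ i) (σ j)) := by
  rw [← map_inv, ← map_mul, ← map_mul, Equiv.swap_apply_apply]

/-- the hypotheses -/
structure WH (b : Fin n) (α α' : Perm (Fin n) →* W) : Prop where
  h1 : ∀ k l, k ≠ b → l ≠ b → α (swap k l) = α' (swap k l)
  h2 : ∀ j, j ≠ b → α (swap j b) * α' (swap j b) = α' (swap j b) * α (swap j b)

variable (H : WH b α α')

include H

theorem cc_sq {j : Fin n} (hj : j ≠ b) : cc b α α' j * cc b α α' j = 1 := by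
  unfold cc
  have h := H.h2 j hj
  calc α' (swap j b) * α (swap j b) * (α' (swap j b) * α (swap j b))
      = α' (swap j b) * (α (swap j b) * α' (swap j b)) * α (swap j b) := by group
    _ = (α' (swap j b) * α' (swap j b)) * (α (swap j b) * α (swap j b)) := by rw [h]; group
    _ = 1 := by rw [sq_swap, sq_swap, mul_one]

theorem conj_t {k l : Fin n} (hk : k ≠ b) (hl : l ≠ b) (j : Fin n) :
    α (swap k l) * cc b α α' j * (α (swap k l))⁻¹ = cc b α α' (swap k l j) := by
  have e1 := conj_swap α (swap k l) j b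
  have e2 := conj_swap α' (swap k l) j b
  rw [swap_apply_of_ne_of_ne hk.symm hl.symm] at e1 e2
  unfold cc
  rw [← e1, ← e2, ← H.h1 k l hk hl]
  group

theorem conj_self {j : Fin n} (hj : j ≠ b) :
    α (swap j b) * cc b α α' j * (α (swap j b))⁻¹ = cc b α α' j := by
  unfold cc
  rw [← mul_assoc, mul_inv_cancel_right, H.h2 j hj]

theorem conj_other {i j : Fin n} (hi : i ≠ b) (hj : j ≠ b) (hij : i ≠ j) :
    α (swap j b) * cc b α α' i * (α (swap j b))⁻¹ = cc b α α' i * cc b α α' j := by
  -- notation
  set s := α (swap j b) with hs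
  set s' := α' (swap j b) with hs'
  set t := α (swap i j) with ht
  have ht' : α' (swap i j) = t := (H.h1 i j hi hj).symm
  have ss : s * s = 1 := sq_swap α j b
  have ss' : s' * s' = 1 := sq_swap α' j b
  have tt : t * t = 1 := sq_swap α i j
  have hc : s * s' = s' * s := H.h2 j hj
  have e1 : s * t * s⁻¹ = α (swap i b) := by
    rw [hs, ht, conj_swap, swap_apply_left, swap_apply_of_ne_of_ne hij hi]
  have e2 : s' * t * s'⁻¹ = α' (swap i b) := by
    rw [hs', ← ht', conj_swap, swap_apply_left, swap_apply_of_ne_of_ne hij hi]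
  have is : s⁻¹ = s := inv_swap α j b
  have is' : s'⁻¹ = s' := inv_swap α' j b
  have e3 : t * s * t⁻¹ = α (swap i b) := by
    rw [hs, ht, conj_swap, swap_apply_right, swap_apply_of_ne_of_ne hi.symm hj.symm]
  have it : t⁻¹ = t := inv_swap α i j
  have e4 : t * s' * t⁻¹ = α' (swap i b) := by
    rw [hs', ← ht', conj_swap, swap_apply_right, swap_apply_of_ne_of_ne hi.symm hj.symm]
  rw [is] at e1
  rw [is'] at e2
  rw [it] at e3 e4
  -- braid relations
  have b1 : s * t * s = t * s * t := e1.trans e3.symm
  have b2 : s' * t * s' = t * s' * t := e2.trans e4.symm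
  unfold cc
  rw [← e3, ← e4, is, ← hs, ← hs']
  -- goal : s * (t s' t * (t s t)) * s = t s' t * (t s t) * (s' * s)
  have l1 : s * (t * s' * t * (t * s * t)) * s = s * t * s' * (s * t * s) := by
    calc s * (t * s' * t * (t * s * t)) * s = s * t * s' * (t * t) * (s * t * s) := by group
      _ = s * t * s' * (s * t * s) := by rw [tt, mul_one]
  have r1 : t * s' * t * (t * s * t) * (s' * s) = t * s * (s' * t * s') * s := by
    calc t * s' * t * (t * s * t) * (s' * s) = t * s' * (t * t) * s * t * s' * s := by group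
      _ = t * (s' * s) * t * s' * s := by rw [tt]; group
      _ = t * s * (s' * t * s') * s := by rw [← hc]; group
  have l2 : s * t * s' * (s * t * s) = s * (t * s' * t) * s * t := by rw [b1]; group
  have l3 : s * (t * s' * t) * s * t = s' * s * t * (s * s') * t := by
    rw [← b2]
    calc s * (s' * t * s') * s * t = (s * s') * t * (s' * s) * t := by group
      _ = _ := by rw [hc]
  have r2 : t * s * (s' * t * s') * s = (t * s * t) * s' * (t * s) := by rw [b2]; group
  have r3 : (t * s * t) * s' * (t * s) = s * t * (s * s') * t * s := by rw [← b1]; group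
  have r4 : s * t * (s * s') * t * s = s * t * s' * (s * t * s) := by rw [hc]; group
  rw [l1, r1, r2, r3, r4]

theorem cc_comm {i j : Fin n} (hi : i ≠ b) (hj : j ≠ b) :
    cc b α α' i * cc b α α' j = cc b α α' j * cc b α α' i := by
  by_cases hij : i = j
  · rw [hij]
  have h1 := conj_other H hi hj hij
  have h2 : (cc b α α' i * cc b α α' j) * (cc b α α' i * cc b α α' j) = 1 := by
    rw [← h1]
    calc α (swap j b) * cc b α α' i * (α (swap j b))⁻¹ * (α (swap j b) * cc b α α' i * (α (swap j b))⁻¹)
        = α (swap j b) * (cc b α α' i * cc b α α' i) * (α (swap j b))⁻¹ := by group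
      _ = 1 := by rw [cc_sq H hi]; group
  have i1 : (cc b α α' i)⁻¹ = cc b α α' i := inv_eq_of_mul_eq_one_left (cc_sq H hi)
  have i2 : (cc b α α' j)⁻¹ = cc b α α' j := inv_eq_of_mul_eq_one_left (cc_sq H hj)
  have h3 := inv_eq_of_mul_eq_one_left h2
  rw [← h3, mul_inv_rev, i1, i2]

omit H in
/-- the subgroups of sign changes -/
def EE (b : Fin n) (α α' : Perm (Fin n) →* W) (s : Finset (Fin n)) : Subgroup W :=
  Subgroup.closure ((cc b α α') '' {j | j ∈ s ∧ j ≠ b})

omit H in
theorem cc_mem {s : Finset (Fin n)} {j : Fin n} (hj : j ∈ s) (hb : j ≠ b) : cc b α α' j ∈ EE b α α' s :=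
  Subgroup.subset_closure ⟨j, ⟨hj, hb⟩, rfl⟩

theorem comm_EE {s : Finset (Fin n)} {j : Fin n} (hj : j ≠ b) {e : W} (he : e ∈ EE b α α' s) :
    e * cc b α α' j = cc b α α' j * e := by
  have h1 : EE b α α' s ≤ Subgroup.centralizer {cc b α α' j} := by
    unfold EE
    rw [Subgroup.closure_le]
    rintro _ ⟨i, ⟨_, hi⟩, rfl⟩
    rw [SetLike.mem_coe, Subgroup.mem_centralizer_iff]
    rintro _ rfl
    exact cc_comm H hj hi
  have h2 := Subgroup.mem_centralizer_iff.1 (h1 he) _ rfl
  exact h2.symm

theorem EE_insert {s : Finset (Fin n)} {j : Fin n} (hj : j ≠ b) {e : W} (he : e ∈ EE b α α' (insert j s)) :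
    e ∈ EE b α α' s ∨ ∃ e' ∈ EE b α α' s, e = e' * cc b α α' j := by
  have key : EE b α α' (insert j s) ≤
      { carrier := {e | e ∈ EE b α α' s ∨ ∃ e' ∈ EE b α α' s, e = e' * cc b α α' j}
        one_mem' := Or.inl (one_mem _)
        mul_mem' := by
          have hsq := cc_sq H hj
          rintro x y (hx | ⟨x, hx, rfl⟩) (hy | ⟨y, hy, rfl⟩)
          · exact Or.inl (mul_mem hx hy)
          · exact Or.inr ⟨x * y, mul_mem hx hy, by rw [mul_assoc]⟩
          · refine Or.inr ⟨x * y, mul_mem hx hy, ?_⟩
            rw [mul_assoc, mul_assoc, comm_EE H hj hy]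
          · refine Or.inl ?_
            have : x * cc b α α' j * (y * cc b α α' j) = x * y := by
              calc x * cc b α α' j * (y * cc b α α' j) = x * (cc b α α' j * y) * cc b α α' j := by group
                _ = x * y * (cc b α α' j * cc b α α' j) := by rw [← comm_EE H hj hy]; group
                _ = x * y := by rw [hsq, mul_one]
            rw [this]
            exact mul_mem hx hy
        inv_mem' := by
          have hsq := inv_eq_of_mul_eq_one_left (cc_sq H hj)
          rintro x (hx | ⟨x, hx, rfl⟩)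
          · exact Or.inl (inv_mem hx)
          · refine Or.inr ⟨x⁻¹, inv_mem hx, ?_⟩
            rw [mul_inv_rev, hsq, comm_EE H hj (inv_mem hx)] : Subgroup W } := by
    unfold EE
    rw [Subgroup.closure_le]
    rintro _ ⟨i, ⟨hi, hib⟩, rfl⟩
    rcases Finset.mem_insert.1 hi with h | h
    · subst h
      exact Or.inr ⟨1, one_mem _, by rw [one_mul]⟩
    · exact Or.inl (cc_mem h hib)
  exact key he

variable {f : W →* Perm (Fin n ⊕ Fin n)}

theorem EE_inj (f1 : ∀ j, j ≠ b → f (cc b α α' j) (.inl j) ≠ .inl j)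
    (f2 : ∀ j, j ≠ b → ∀ i, i ≠ b → i ≠ j → f (cc b α α' j) (.inl i) = .inl i) (s : Finset (Fin n)) :
    ∀ e ∈ EE b α α' s, (∀ j ∈ s, j ≠ b → f e (.inl j) = .inl j) → e = 1 := by
  have fix : ∀ (s : Finset (Fin n)) (i : Fin n), i ∉ s → i ≠ b → ∀ e ∈ EE b α α' s, f e (.inl i) = .inl i := by
    intro s i hi hib e he
    have : EE b α α' s ≤ (MulAction.stabilizer (Perm (Fin n ⊕ Fin n)) (Sum.inl i : Fin n ⊕ Fin n)).comap f := by
      unfold EE
      rw [Subgroup.closure_le]
      rintro _ ⟨k, ⟨hk, hkb⟩, rfl⟩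
      rw [SetLike.mem_coe, Subgroup.mem_comap, MulAction.mem_stabilizer_iff]
      exact f2 k hkb i hib (fun h => hi (h ▸ hk))
    exact MulAction.mem_stabilizer_iff.1 (this he)
  induction s using Finset.induction_on with
  | empty =>
    intro e he _
    unfold EE at he
    have : (cc b α α') '' {j | j ∈ (∅ : Finset (Fin n)) ∧ j ≠ b} = ∅ := by
      rw [Set.image_eq_empty]
      ext j
      simp
    rw [this, Subgroup.closure_empty, Subgroup.mem_bot] at he
    exact he
  | insert j s hj ih =>
    intro e he hfe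
    by_cases hjb : j = b
    · apply ih e _ (fun i hi hib => hfe i (Finset.mem_insert_of_mem hi) hib)
      unfold EE at he ⊢
      have : {i | i ∈ insert j s ∧ i ≠ b} = {i | i ∈ s ∧ i ≠ b} := by
        ext i
        simp only [Finset.mem_insert, Set.mem_ofPred_eq]
        constructor
        · rintro ⟨h | h, h'⟩
          · exact absurd (h.trans hjb) h'
          · exact ⟨h, h'⟩
        · rintro ⟨h, h'⟩; exact ⟨Or.inr h, h'⟩
      rw [this] at he
      exact he
    rcases EE_insert H hjb he with h | ⟨e', he', rfl⟩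
    · exact ih e h (fun i hi hib => hfe i (Finset.mem_insert_of_mem hi) hib)
    · exfalso
      have h1 := hfe j (Finset.mem_insert_self _ _) hjb
      rw [map_mul, Perm.mul_apply] at h1
      have h2 := fix s j hj hjb e' he'
      exact f1 j hjb ((f e').injective (h1.trans h2.symm))

/-- the main lemma -/
theorem weyl_inj (f1 : ∀ j, j ≠ b → f (cc b α α' j) (.inl j) ≠ .inl j)
    (f2 : ∀ j, j ≠ b → ∀ i, i ≠ b → i ≠ j → f (cc b α α' j) (.inl i) = .inl i)
    (f3 : ∀ j, j ≠ b → ∀ x, Sum.elim id id (f (cc b α α' j) x) = Sum.elim id id x)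
    (f4 : ∀ τ i, f (α τ) (.inl i) = .inl (τ i)) {w : W} (hw : w ∈ α.range ⊔ α'.range) (h : f w = 1) : w = 1 := by
  classical
  have hE : ∀ k l : Fin n, ∀ e ∈ EE b α α' Finset.univ, α (swap k l) * e * (α (swap k l))⁻¹ ∈ EE b α α' Finset.univ := by
    have key : ∀ k l : Fin n, (∀ j, j ≠ b → α (swap k l) * cc b α α' j * (α (swap k l))⁻¹ ∈ EE b α α' Finset.univ) →
        ∀ e ∈ EE b α α' Finset.univ, α (swap k l) * e * (α (swap k l))⁻¹ ∈ EE b α α' Finset.univ := by
      intro k l hk e he
      have : EE b α α' Finset.univ ≤ (EE b α α' Finset.univ).comap (MulAut.conj (α (swap k l))).toMonoidHom := by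
        conv_lhs => unfold EE
        rw [Subgroup.closure_le]
        rintro _ ⟨i, ⟨_, hib⟩, rfl⟩
        exact hk i hib
      exact this he
    have key1 : ∀ k, k ≠ b → ∀ j, j ≠ b → α (swap k b) * cc b α α' j * (α (swap k b))⁻¹ ∈ EE b α α' Finset.univ := by
      intro k hk j hj
      by_cases hjk : j = k
      · subst hjk
        rw [conj_self H hj]
        exact cc_mem (Finset.mem_univ _) hj
      · rw [conj_other H hj hk hjk]
        exact mul_mem (cc_mem (Finset.mem_univ _) hj) (cc_mem (Finset.mem_univ _) hk)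
    intro k l
    apply key
    intro j hj
    by_cases hk : k = b
    · by_cases hl : l = b
      · rw [hk, hl, swap_self]
        have : α (Equiv.refl (Fin n)) = 1 := map_one α
        rw [this, one_mul, inv_one, mul_one]
        exact cc_mem (Finset.mem_univ _) hj
      · rw [hk, swap_comm]; exact key1 l hl j hj
    · by_cases hl : l = b
      · rw [hl]; exact key1 k hk j hj
      · rw [conj_t H hk hl]
        apply cc_mem (Finset.mem_univ _)
        intro h
        have h2 : swap k l b = b := swap_apply_of_ne_of_ne (Ne.symm hk) (Ne.symm hl)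
        rw [← h2] at h
        exact hj ((swap k l).injective h)
  have hN : α.range ≤ Subgroup.normalizer (EE b α α' Finset.univ : Set W) := by
    rintro _ ⟨τ, rfl⟩
    induction τ using Perm.swap_induction_on with
    | one => rw [map_one]; exact one_mem _
    | swap_mul τ x y _ ih =>
      rw [map_mul]
      apply mul_mem _ ih
      rw [Subgroup.mem_normalizer_iff]
      intro e
      constructor
      · exact hE x y e
      · intro he
        have h2 := hE x y _ he
        rw [inv_swap] at h2
        have e1 : α (swap x y) * (α (swap x y) * e * α (swap x y)) * α (swap x y) =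
            (α (swap x y) * α (swap x y)) * e * (α (swap x y) * α (swap x y)) := by group
        rw [e1, sq_swap, one_mul, mul_one] at h2
        exact h2
  -- the product set
  let Q : Subgroup W :=
    { carrier := {w | ∃ e ∈ EE b α α' Finset.univ, ∃ τ, w = e * α τ}
      one_mem' := ⟨1, one_mem _, 1, by rw [map_one, one_mul]⟩
      mul_mem' := by
        rintro _ _ ⟨e, he, τ, rfl⟩ ⟨e', he', τ', rfl⟩
        have h1 := (Subgroup.mem_normalizer_iff.1 (hN ⟨τ, rfl⟩) e').1 he'
        refine ⟨e * (α τ * e' * (α τ)⁻¹), mul_mem he h1, τ * τ', ?_⟩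
        rw [map_mul]; group
      inv_mem' := by
        rintro _ ⟨e, he, τ, rfl⟩
        have h1 := (Subgroup.mem_normalizer_iff.1 (hN ⟨τ⁻¹, rfl⟩) e⁻¹).1 (inv_mem he)
        refine ⟨α τ⁻¹ * e⁻¹ * (α τ⁻¹)⁻¹, h1, τ⁻¹, ?_⟩
        rw [map_inv]; group }
  have hEQ : ∀ e ∈ EE b α α' Finset.univ, e ∈ Q := fun e he => ⟨e, he, 1, by rw [map_one, mul_one]⟩
  have hαQ : ∀ τ, α τ ∈ Q := fun τ => ⟨1, one_mem _, τ, by rw [one_mul]⟩
  have hQ : α.range ⊔ α'.range ≤ Q := by
    apply sup_le
    · rintro _ ⟨τ, rfl⟩
      exact hαQ τ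
    · rintro _ ⟨τ, rfl⟩
      induction τ using Perm.swap_induction_on with
      | one => rw [map_one]; exact one_mem _
      | swap_mul τ x y _ ih =>
        rw [map_mul]
        apply mul_mem _ ih
        have key1 : ∀ k, k ≠ b → α' (swap k b) ∈ Q := by
          intro k hk
          have : α' (swap k b) = cc b α α' k * α (swap k b) := by
            unfold cc
            rw [mul_assoc, sq_swap, mul_one]
          rw [this]
          exact mul_mem (hEQ _ (cc_mem (Finset.mem_univ _) hk)) (hαQ _)
        by_cases hk : x = b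
        · by_cases hl : y = b
          · rw [hk, hl, swap_self]
            have : α' (Equiv.refl (Fin n)) = 1 := map_one α'
            rw [this]; exact one_mem _
          · rw [hk, swap_comm]; exact key1 y hl
        · by_cases hl : y = b
          · rw [hl]; exact key1 x hk
          · rw [← H.h1 x y hk hl]; exact hαQ _
  obtain ⟨e, he, τ, rfl⟩ := hQ hw
  have hidx : ∀ e ∈ EE b α α' Finset.univ, ∀ x, Sum.elim id id (f e x) = Sum.elim id id x := by
    intro e he
    unfold EE at he
    induction he using Subgroup.closure_induction with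
    | mem x hx => obtain ⟨j, ⟨_, hj⟩, rfl⟩ := hx; exact f3 j hj
    | one => intro x; rw [map_one]; rfl
    | mul x y _ _ hx hy => intro z; rw [map_mul, Perm.mul_apply, hx, hy]
    | inv x _ hx =>
      intro z
      have h1 := hx ((f x)⁻¹ z)
      rw [show (f x) ((f x)⁻¹ z) = z from (f x).apply_symm_apply z] at h1
      rw [map_inv]; exact h1.symm
  have hτ : τ = 1 := by
    ext i : 1
    have h1 : f (e * α τ) (.inl i) = .inl i := by rw [h]; rfl
    rw [map_mul, Perm.mul_apply, f4] at h1
    have h2 := hidx e he (.inl (τ i))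
    rw [h1] at h2
    exact h2.symm
  subst hτ
  rw [map_one, mul_one] at h ⊢
  exact EE_inj H f1 f2 Finset.univ e he (fun j _ _ => by rw [h]; rfl)

end weyl

end H6.Om
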