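import Cfsg.Agent.Lib.H60.DnN
import Cfsg.Agent.Lib.H43.SLPerm
import Cfsg.Agent.Lib.H6.OmA

/-!
Monomial matrices and the torus.
-/
set_option autoImplicit false

namespace H6.Om

open Equiv H43.SLPerm Matrix
open H43.SteinHom (Tr)

variable {n : ℕ} {F : Type*} [Field F]

/-- monomial matrices with a given permutation -/
def MonP (σ : Perm (Fin n)) (A : SpecialLinearGroup (Fin n) F) : Prop :=
  ∃ d : Fin n → Fˣ, ∀ (v : Fin n → F) k, A.1.mulVec v (σ k) = d k * v k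

theorem MonP.one : MonP (1 : Perm (Fin n)) (1 : SpecialLinearGroup (Fin n) F) :=
  ⟨1, fun v k => by simp⟩

theorem MonP.mul {σ τ : Perm (Fin n)} {A B : SpecialLinearGroup (Fin n) F} (hA : MonP σ A) (hB : MonP τ B) :
    MonP (σ * τ) (A * B) := by
  obtain ⟨d, hd⟩ := hA
  obtain ⟨e, he⟩ := hB
  refine ⟨fun k => d (τ k) * e k, fun v k => ?_⟩
  change (A.1 * B.1).mulVec v _ = _
  rw [← Matrix.mulVec_mulVec, Perm.mul_apply, hd, he, Units.val_mul, mul_assoc]

theorem MonP.inv {σ : Perm (Fin n)} {A : SpecialLinearGroup (Fin n) F} (hA : MonP σ A) : MonP σ⁻¹ A⁻¹ := by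
  obtain ⟨d, hd⟩ := hA
  refine ⟨fun k => (d (σ⁻¹ k))⁻¹, fun v k => ?_⟩
  have h1 := hd ((A⁻¹).1.mulVec v) (σ⁻¹ k)
  have e1 : A.1 * (A⁻¹).1 = 1 := congrArg Subtype.val (mul_inv_cancel A)
  rw [Matrix.mulVec_mulVec, e1, Matrix.one_mulVec, ap] at h1
  rw [h1]
  simp

theorem MonP.nn {i j : Fin n} (hij : i ≠ j) (t : Fˣ) : MonP (swap i j) (nn i j hij t) := by
  refine ⟨fun k => if k = j then t else if k = i then -t⁻¹ else 1, fun v k => ?_⟩
  rw [nn_mulVec]
  by_cases h1 : k = j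
  · subst h1
    rw [swap_apply_right, if_pos rfl]
    simp
  · by_cases h2 : k = i
    · subst h2
      rw [swap_apply_left, if_neg (Ne.symm h1), if_pos rfl]
      simp [h1]
    · rw [swap_apply_of_ne_of_ne h2 h1, if_neg h2, if_neg h1]
      simp [h1, h2]

theorem MonP.dg {A : SpecialLinearGroup (Fin n) F} (hA : MonP 1 A) : ∃ d hd, A = Dg d hd := by
  obtain ⟨d, hd⟩ := hA
  have h1 : A.1 = Matrix.diagonal (fun i => (d i : F)) := by
    apply ext_mulVec
    intro v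
    funext k
    rw [dg_mulVec]
    exact hd v k
  refine ⟨d, ?_, Subtype.ext h1⟩
  have h2 := A.2
  rw [h1, Matrix.det_diagonal] at h2
  apply Units.ext
  rw [Units.coe_prod, Units.val_one]
  exact h2

theorem MonP.Dg {d : Fin n → Fˣ} (hd : ∏ i, d i = 1) : MonP 1 (Dg d hd) :=
  ⟨d, fun v k => dg_mulVec _ _ _⟩

theorem nn_inv' {i j : Fin n} (hij : i ≠ j) (t : Fˣ) :
    (nn i j hij t : SpecialLinearGroup (Fin n) F)⁻¹ = nn i j hij (-t) := by
  rw [inv_eq_iff_mul_eq_one]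
  apply Subtype.ext
  apply ext_mulVec
  intro v
  funext k
  change ((nn i j hij t : SpecialLinearGroup (Fin n) F).1 * (nn i j hij (-t)).1).mulVec v k =
    (1 : Matrix (Fin n) (Fin n) F).mulVec v k
  rw [← Matrix.mulVec_mulVec, nn_mulVec, nn_mulVec, nn_mulVec, nn_mulVec, if_pos rfl, if_neg hij.symm, if_pos rfl,
    Matrix.one_mulVec]
  by_cases hk : k = i
  · rw [if_pos hk, hk]; simp
  · rw [if_neg hk, if_neg hk]
    by_cases hk' : k = j
    · rw [if_pos hk', hk']; simp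
    · rw [if_neg hk', if_neg hk']

/-- the diagonal subgroup -/
def Dn (n : ℕ) (F : Type*) [Field F] : Subgroup (SpecialLinearGroup (Fin n) F) where
  carrier := {A | MonP 1 A}
  one_mem' := MonP.one
  mul_mem' := by
    intro A B hA hB
    have := MonP.mul hA hB
    rwa [one_mul] at this
  inv_mem' := by
    intro A hA
    have := MonP.inv hA
    rwa [inv_one] at this

theorem conj_Dn {σ : Perm (Fin n)} {A B : SpecialLinearGroup (Fin n) F} (hA : MonP σ A) (hB : B ∈ Dn n F) :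
    A * B * A⁻¹ ∈ Dn n F := by
  have h1 := (hA.mul hB).mul hA.inv
  rw [mul_one, mul_inv_cancel] at h1
  exact h1

theorem same_Dn {σ : Perm (Fin n)} {A B : SpecialLinearGroup (Fin n) F} (hA : MonP σ A) (hB : MonP σ B) :
    A⁻¹ * B ∈ Dn n F := by
  have h1 := hA.inv.mul hB
  rw [inv_mul_cancel] at h1
  exact h1

theorem Dn_comm {A B : SpecialLinearGroup (Fin n) F} (hA : A ∈ Dn n F) (hB : B ∈ Dn n F) : A * B = B * A := by
  obtain ⟨d, hd, rfl⟩ := MonP.dg hA
  obtain ⟨e, he, rfl⟩ := MonP.dg hB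
  rw [Dg_mul, Dg_mul]
  exact Dg_ext (mul_comm _ _)

theorem dg_mem (C : Subgroup (SpecialLinearGroup (Fin n) F)) {a : Fin n} (s : Finset (Fin n)) :
    a ∉ s → (∀ j ∈ s, ∀ u, Hd j a u ∈ C) → ∀ (d : Fin n → Fˣ) hd, (∀ j, j ∉ s → j ≠ a → d j = 1) → Dg d hd ∈ C := by
  classical
  induction s using Finset.induction_on with
  | empty =>
    intro _ _ d hd h
    have h1 : ∀ j, j ≠ a → d j = 1 := fun j hj => h j (Finset.notMem_empty j) hj
    have h2 : d a = 1 := by
      rw [← hd]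
      exact (Finset.prod_eq_single a (fun j _ hj => h1 j hj) (fun h => absurd (Finset.mem_univ _) h)).symm
    have h3 : d = 1 := by
      funext j
      by_cases hj : j = a
      · rw [hj, h2]; rfl
      · exact h1 j hj
    have h4 : Dg d hd = 1 := by
      subst h3
      apply Subtype.ext
      change Matrix.diagonal _ = (1 : Matrix (Fin n) (Fin n) F)
      simp
    rw [h4]
    exact one_mem _
  | insert j s hj ih =>
    intro ha hC d hd h
    have haj : a ≠ j := fun e => ha (by rw [e]; exact Finset.mem_insert_self _ _)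
    have has : a ∉ s := fun e => ha (Finset.mem_insert_of_mem e)
    have hp : ∏ i, (d * (Hf j a (d j))⁻¹) i = 1 := by
      have h1 : ∏ i, (d * (Hf j a (d j))⁻¹) i = (∏ i, d i) * (∏ i, Hf j a (d j) i)⁻¹ := by
        rw [← Finset.prod_inv_distrib, ← Finset.prod_mul_distrib]; rfl
      rw [h1, hd, Hf_prod, inv_one, mul_one]
    have h1 := ih has (fun k hk => hC k (Finset.mem_insert_of_mem hk)) (d * (Hf j a (d j))⁻¹) hp (by
      intro k hk hka
      rw [Pi.mul_apply, Pi.inv_apply]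
      by_cases hkj : k = j
      · subst hkj
        rw [Hf_left haj.symm, mul_inv_cancel]
      · rw [Hf_ne hkj hka, inv_one, mul_one]
        exact h k (fun e => (Finset.mem_insert.1 e).elim hkj hk) hka)
    have h2 : Dg d hd = Dg (d * (Hf j a (d j))⁻¹) hp * Hd j a (d j) := by
      unfold Hd
      rw [Dg_mul]
      exact Dg_ext (by rw [inv_mul_cancel_right])
    rw [h2]
    exact mul_mem h1 (hC j (Finset.mem_insert_self _ _) _)

/-- splitting off a coroot element -/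
theorem Dn_split {j b : Fin n} (hj : j ≠ b) {A : SpecialLinearGroup (Fin n) F} (hA : A ∈ Dn n F) :
    ∃ (d : Fin n → Fˣ) (hd : ∏ i, d i = 1) (u : Fˣ), d b = 1 ∧ A = Dg d hd * Hd j b u := by
  obtain ⟨d, hd, rfl⟩ := MonP.dg hA
  have hp : ∏ i, (d * (Hf j b (d b)⁻¹)⁻¹) i = 1 := by
    have h1 : ∏ i, (d * (Hf j b (d b)⁻¹)⁻¹) i = (∏ i, d i) * (∏ i, Hf j b (d b)⁻¹ i)⁻¹ := by
      rw [← Finset.prod_inv_distrib, ← Finset.prod_mul_distrib]; rfl
    rw [h1, hd, Hf_prod, inv_one, mul_one]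
  refine ⟨_, hp, (d b)⁻¹, ?_, ?_⟩
  · rw [Pi.mul_apply, Pi.inv_apply, Hf_right hj, inv_inv, mul_inv_cancel]
  · unfold Hd
    rw [Dg_mul]
    exact Dg_ext (by rw [inv_mul_cancel_right])

/-- rank one subgroups -/
def BL {i j : Fin n} (hij : i ≠ j) (F : Type*) [Field F] : Subgroup (SpecialLinearGroup (Fin n) F) :=
  Subgroup.closure (Set.range (fun t => Tr i j hij t) ∪ Set.range (fun t => Tr j i hij.symm t))

theorem Tr_BL {i j : Fin n} (hij : i ≠ j) (t : F) : Tr i j hij t ∈ BL hij F :=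
  Subgroup.subset_closure (Or.inl ⟨t, rfl⟩)
theorem Tr_BL' {i j : Fin n} (hij : i ≠ j) (t : F) : Tr j i hij.symm t ∈ BL hij F :=
  Subgroup.subset_closure (Or.inr ⟨t, rfl⟩)

theorem nn_BL {i j : Fin n} (hij : i ≠ j) (t : Fˣ) : nn i j hij t ∈ BL hij F :=
  mul_mem (mul_mem (Tr_BL hij _) (Tr_BL' hij _)) (Tr_BL hij _)

theorem nn_BL' {i j : Fin n} (hij : i ≠ j) (t : Fˣ) : nn j i hij.symm t ∈ BL hij F :=
  mul_mem (mul_mem (Tr_BL' hij _) (Tr_BL hij _)) (Tr_BL' hij _)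

theorem Hd_BL {i j : Fin n} (hij : i ≠ j) (t : Fˣ) : Hd i j t ∈ BL hij F := by
  rw [Hd_word i j hij]
  exact mul_mem (nn_BL hij _) (nn_BL hij _)

theorem BL_symm {i j : Fin n} (hij : i ≠ j) : BL hij.symm F = BL hij F := by
  unfold BL
  rw [Set.union_comm]

/-- the group generated by the Weyl elements -/
def Mo (n : ℕ) (F : Type*) [Field F] : Subgroup (SpecialLinearGroup (Fin n) F) :=
  Subgroup.closure {A | ∃ (i j : Fin n) (h : i ≠ j) (t : Fˣ), A = nn i j h t}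

theorem nn_Mo {i j : Fin n} (h : i ≠ j) (t : Fˣ) : nn i j h t ∈ Mo n F := Subgroup.subset_closure ⟨i, j, h, t, rfl⟩

theorem exists_mo (σ : Perm (Fin n)) : ∃ A ∈ Mo n F, MonP σ A := by
  induction σ using Perm.swap_induction_on with
  | one => exact ⟨1, one_mem _, MonP.one⟩
  | swap_mul σ x y hxy ih =>
    obtain ⟨A, hA, hA'⟩ := ih
    exact ⟨nn x y hxy 1 * A, mul_mem (nn_Mo hxy 1) hA, (MonP.nn hxy 1).mul hA'⟩

theorem Mo_perm {A : SpecialLinearGroup (Fin n) F} (hA : A ∈ Mo n F) : ∃ σ, MonP σ A := by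
  unfold Mo at hA
  induction hA using Subgroup.closure_induction with
  | mem x hx => obtain ⟨i, j, h, t, rfl⟩ := hx; exact ⟨_, MonP.nn h t⟩
  | one => exact ⟨1, MonP.one⟩
  | mul x y _ _ hx hy =>
    obtain ⟨σ, hσ⟩ := hx
    obtain ⟨τ, hτ⟩ := hy
    exact ⟨_, hσ.mul hτ⟩
  | inv x _ hx =>
    obtain ⟨σ, hσ⟩ := hx
    exact ⟨_, hσ.inv⟩

end H6.Om
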