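import Cfsg.Agent.Lib.H6.OmB

/-!
The monomial group of a glued pair modulo its torus.
-/
set_option autoImplicit false
set_option linter.unusedSectionVars false
set_option linter.unusedVariables false

namespace H6.Om

open Equiv H43.SLPerm Matrix H60.DN H60.CTA H22.RGD
open H43.SteinHom (Tr)
open H45.StPres (StPre slData)

variable {n : ℕ} {F : Type*} [Field F] {G : Type*} [Group G]

theorem slx {i j : Fin n} (h : i ≠ j) (t : F) : (slData F n).x i j t = Tr i j h t := dif_pos h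

/-- the system of a homomorphism -/
abbrev SS (Φ : SpecialLinearGroup (Fin n) F →* G) : StPre F n G := mapSt (slData F n) Φ

theorem SS_x (Φ : SpecialLinearGroup (Fin n) F →* G) {i j : Fin n} (h : i ≠ j) (t : F) :
    (SS Φ).x i j t = Φ (Tr i j h t) := by
  show Φ ((slData F n).x i j t) = _
  rw [slx h]

theorem SS_nw (Φ : SpecialLinearGroup (Fin n) F →* G) {i j : Fin n} (h : i ≠ j) (t : Fˣ) :
    nw (SS Φ) i j t = Φ (nn i j h t) := by
  unfold nw nn
  rw [SS_x Φ h, SS_x Φ h.symm, map_mul, map_mul]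

variable {Φ Φ' : SpecialLinearGroup (Fin n) F →* G} {b : Fin n}

section basic

variable (D : DD (SS Φ) (SS Φ') b)

include D

theorem eqBL {i j : Fin n} (hi : i ≠ b) (hj : j ≠ b) (hij : i ≠ j) {A : SpecialLinearGroup (Fin n) F}
    (hA : A ∈ BL hij F) : Φ A = Φ' A := by
  have : BL hij F ≤ Φ.eqLocus Φ' := by
    unfold BL
    rw [Subgroup.closure_le]
    rintro _ (⟨t, rfl⟩ | ⟨t, rfl⟩)
    · show Φ (Tr i j hij t) = Φ' (Tr i j hij t)
      rw [← SS_x, ← SS_x]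
      exact D.common i j hi hj hij t
    · show Φ (Tr j i hij.symm t) = Φ' (Tr j i hij.symm t)
      rw [← SS_x, ← SS_x]
      exact D.common j i hj hi hij.symm t
  exact this hA

theorem commBL {j : Fin n} (hj : j ≠ b) {A B : SpecialLinearGroup (Fin n) F} (hA : A ∈ BL hj F) (hB : B ∈ BL hj F) :
    Φ A * Φ' B = Φ' B * Φ A := by
  obtain ⟨c1, c2⟩ := D.L1 hj
  obtain ⟨c3, c4⟩ := D.op.L1 hj
  rw [R_op, R_op] at c3 c4
  have key : ∀ g : G, (∀ t, g * Φ' (Tr j b hj t) = Φ' (Tr j b hj t) * g) → (∀ t, g * Φ' (Tr b j hj.symm t) = Φ' (Tr b j hj.symm t) * g) →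
      g * Φ' B = Φ' B * g := by
    intro g h1 h2
    have : BL hj F ≤ (Subgroup.centralizer {g}).comap Φ' := by
      unfold BL
      rw [Subgroup.closure_le]
      rintro _ (⟨t, rfl⟩ | ⟨t, rfl⟩)
      · rw [SetLike.mem_coe, Subgroup.mem_comap, Subgroup.mem_centralizer_iff]
        rintro _ rfl
        exact h1 t
      · rw [SetLike.mem_coe, Subgroup.mem_comap, Subgroup.mem_centralizer_iff]
        rintro _ rfl
        exact h2 t
    have h3 := this hB
    rw [Subgroup.mem_comap, Subgroup.mem_centralizer_iff] at h3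
    exact h3 g rfl
  have hx1 : ∀ (Ψ : SpecialLinearGroup (Fin n) F →* G) t, Ψ (Tr j b hj t) ∈ R (SS Ψ) j b := by
    intro Ψ t
    rw [← SS_x]; exact x_mem _ _ _ _
  have hx2 : ∀ (Ψ : SpecialLinearGroup (Fin n) F →* G) t, Ψ (Tr b j hj.symm t) ∈ R (SS Ψ) b j := by
    intro Ψ t
    rw [← SS_x]; exact x_mem _ _ _ _
  have : BL hj F ≤ (Subgroup.centralizer {Φ' B}).comap Φ := by
    unfold BL
    rw [Subgroup.closure_le]
    rintro _ (⟨t, rfl⟩ | ⟨t, rfl⟩)
    · rw [SetLike.mem_coe, Subgroup.mem_comap, Subgroup.mem_centralizer_iff]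
      rintro _ rfl
      exact (key _ (fun s => c1 _ (hx1 Φ t) _ (hx1 Φ' s)) (fun s => c4 _ (hx1 Φ t) _ (hx2 Φ' s))).symm
    · rw [SetLike.mem_coe, Subgroup.mem_comap, Subgroup.mem_centralizer_iff]
      rintro _ rfl
      exact (key _ (fun s => c2 _ (hx2 Φ t) _ (hx1 Φ' s)) (fun s => c3 _ (hx2 Φ t) _ (hx2 Φ' s))).symm
  have h3 := this hA
  rw [Subgroup.mem_comap, Subgroup.mem_centralizer_iff] at h3
  exact (h3 _ rfl).symm

theorem eqD {d : Fin n → Fˣ} {hd : ∏ i, d i = 1} (hdb : d b = 1) : Φ (Dg d hd) = Φ' (Dg d hd) := by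
  classical
  obtain ⟨a, ha, -⟩ := D.three b b
  have := dg_mem (Φ.eqLocus Φ') (a := a) ((Finset.univ.erase a).erase b) (by simp) (by
    intro j hj u
    rw [Finset.mem_erase, Finset.mem_erase] at hj
    exact eqBL D hj.1 ha hj.2.1 (Hd_BL hj.2.1 u)) d hd (by
    intro j hj hja
    by_contra h
    apply hj
    rw [Finset.mem_erase, Finset.mem_erase]
    exact ⟨fun e => h (by rw [e, hdb]), hja, Finset.mem_univ _⟩)
  exact this

end basic

/-- the torus -/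
def T0 (Φ Φ' : SpecialLinearGroup (Fin n) F →* G) : Subgroup G := (Dn n F).map Φ ⊔ (Dn n F).map Φ'

theorem T0_symm : T0 Φ Φ' = T0 Φ' Φ := sup_comm _ _

theorem T0_mem {A : SpecialLinearGroup (Fin n) F} (hA : A ∈ Dn n F) : Φ A ∈ T0 Φ Φ' :=
  Subgroup.mem_sup_left ⟨A, hA, rfl⟩

theorem T0_mem' {A : SpecialLinearGroup (Fin n) F} (hA : A ∈ Dn n F) : Φ' A ∈ T0 Φ Φ' :=
  Subgroup.mem_sup_right ⟨A, hA, rfl⟩

section norm

variable (D : DD (SS Φ) (SS Φ') b)

include D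

theorem conjT {A : SpecialLinearGroup (Fin n) F} {σ : Perm (Fin n)} (hA : MonP σ A)
    (hc : (∃ (j : Fin n) (hj : j ≠ b), A ∈ BL hj F) ∨ Φ A = Φ' A) {g : G} (hg : g ∈ T0 Φ Φ') :
    Φ A * g * (Φ A)⁻¹ ∈ T0 Φ Φ' := by
  have hle : T0 Φ Φ' ≤ (T0 Φ Φ').comap (MulAut.conj (Φ A)).toMonoidHom := by
    conv_lhs => unfold T0
    apply sup_le
    · rintro _ ⟨B, hB, rfl⟩
      show Φ A * Φ B * (Φ A)⁻¹ ∈ T0 Φ Φ'
      rw [← map_mul, ← map_inv, ← map_mul]
      exact T0_mem (conj_Dn hA hB)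
    · rintro _ ⟨B, hB, rfl⟩
      show Φ A * Φ' B * (Φ A)⁻¹ ∈ T0 Φ Φ'
      rcases hc with ⟨j, hj, hAj⟩ | h
      · obtain ⟨d, hd, u, hdb, rfl⟩ := Dn_split hj (show B ∈ Dn n F from hB)
        rw [map_mul, ← eqD D hdb]
        have h1 := commBL D hj hAj (Hd_BL hj u)
        have h2 : Φ A * (Φ (Dg d hd) * Φ' (Hd j b u)) * (Φ A)⁻¹ =
            Φ (A * Dg d hd * A⁻¹) * Φ' (Hd j b u) := by
          rw [map_mul, map_mul, map_inv]
          calc Φ A * (Φ (Dg d hd) * Φ' (Hd j b u)) * (Φ A)⁻¹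
              = Φ A * Φ (Dg d hd) * (Φ A)⁻¹ * (Φ A * Φ' (Hd j b u)) * (Φ A)⁻¹ := by group
            _ = _ := by rw [h1]; group
        rw [h2]
        exact mul_mem (T0_mem (conj_Dn hA (MonP.Dg hd))) (T0_mem' (MonP.Dg _))
      · rw [h, ← map_mul, ← map_inv, ← map_mul]
        exact T0_mem' (conj_Dn hA hB)
  exact hle hg

theorem nn_norm {i j : Fin n} (h : i ≠ j) (u : Fˣ) :
    Φ (nn i j h u) ∈ Subgroup.normalizer (T0 Φ Φ' : Set G) := by
  have hc : ∀ u : Fˣ, (∃ (k : Fin n) (hk : k ≠ b), nn i j h u ∈ BL hk F) ∨ Φ (nn i j h u) = Φ' (nn i j h u) := by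
    intro u
    by_cases hi : i = b
    · subst hi
      exact Or.inl ⟨j, h.symm, nn_BL' h.symm u⟩
    · by_cases hj : j = b
      · subst hj
        exact Or.inl ⟨i, h, nn_BL h u⟩
      · exact Or.inr (eqBL D hi hj h (nn_BL h u))
  rw [Subgroup.mem_normalizer_iff]
  intro g
  constructor
  · exact conjT D (MonP.nn h u) (hc u)
  · intro hg
    have h1 := conjT D (MonP.nn h (-u)) (hc (-u)) hg
    rw [← nn_inv', map_inv] at h1
    have e : (Φ (nn i j h u))⁻¹ * (Φ (nn i j h u) * g * (Φ (nn i j h u))⁻¹) * (Φ (nn i j h u))⁻¹⁻¹ = g := by group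
    rw [e] at h1
    exact h1

end norm

section NN

variable {π : G →* Matrix (E n) (E n) F}

theorem sr_symm (κ μ : E n) : sr κ μ = sr μ κ := by
  unfold sr
  rw [swap_comm κ μ, swap_comm κ.swap μ.swap]

theorem NN_nw (D : DD (SS Φ) (SS Φ') b) (hπ : ∀ i j, i ≠ j → ∀ t, π ((SS Φ).x i j t) = rt (.inl i) (.inl j) t)
    {k l : Fin n} (h : k ≠ l) (u : Fˣ) : NN (SS Φ) (SS Φ') b π (Φ (nn k l h u)) (sr (.inl k) (.inl l)) := by
  have key : ∀ {k l : Fin n} (hk : k ≠ b) (h : k ≠ l) (u : Fˣ),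
      NN (SS Φ) (SS Φ') b π (nw (SS Φ) k l u) (sr (.inl k) (.inl l)) := by
    intro k l hk h u
    have hv : Va (.inl k : E n) (.inl l) := va_ll.2 h
    refine ⟨fun κ => sr_swap' _ _ _ hv, fun κ μ hκ => actP D hk h u hκ, cf (.inl k) (.inl l) u,
      fun κ => cf_ne _ _ _ _, fun κ => ?_⟩
    unfold nw
    rw [map_mul, map_mul, hπ _ _ h, hπ _ _ h.symm]
    exact rt_nw hv u κ
  by_cases hk : k = b
  · rw [← SS_nw, ← nw_flip (SS Φ) D.three h u, sr_symm]
    exact key (fun e => h (hk.trans e.symm)) h.symm _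
  · rw [← SS_nw]; exact key hk h u

theorem NN_nw' (D : DD (SS Φ) (SS Φ') b)
    (hπ' : ∀ i j, i ≠ j → ∀ t, π ((SS Φ').x i j t) = rt (tau b (.inl i)) (tau b (.inl j)) t)
    {k l : Fin n} (h : k ≠ l) (u : Fˣ) :
    NN (SS Φ) (SS Φ') b π (Φ' (nn k l h u)) (sr (tau b (.inl k)) (tau b (.inl l))) := by
  have key : ∀ {k l : Fin n} (hk : k ≠ b) (h : k ≠ l) (u : Fˣ),
      NN (SS Φ) (SS Φ') b π (nw (SS Φ') k l u) (sr (tau b (.inl k)) (tau b (.inl l))) := by
    intro k l hk h u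
    have hv : Va (tau b (.inl k) : E n) (tau b (.inl l)) := (va_ll.2 h).map (tau_swap b)
    refine ⟨fun κ => sr_swap' _ _ _ hv, fun κ μ hκ => actP' D hk h u hκ, cf (tau b (.inl k)) (tau b (.inl l)) u,
      fun κ => cf_ne _ _ _ _, fun κ => ?_⟩
    unfold nw
    rw [map_mul, map_mul, hπ' _ _ h, hπ' _ _ h.symm]
    exact rt_nw hv u κ
  by_cases hk : k = b
  · rw [← SS_nw, ← nw_flip (SS Φ') D.three h u, sr_symm]
    exact key (fun e => h (hk.trans e.symm)) h.symm _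
  · rw [← SS_nw]; exact key hk h u

theorem NN_uniq {S S' : StPre F n G} {g : G} {σ τ : Perm (E n)} (h1 : NN S S' b π g σ) (h2 : NN S S' b π g τ) : σ = τ := by
  obtain ⟨c, hc, hc'⟩ := h1.mat
  obtain ⟨d, hd, hd'⟩ := h2.mat
  ext κ : 1
  have h3 := congrFun ((hc' κ).symm.trans (hd' κ)) (σ κ)
  rw [Pi.smul_apply, Pi.smul_apply, bb_apply, bb_apply, if_pos rfl, smul_eq_mul, mul_one] at h3
  by_contra hne
  rw [if_neg hne, smul_zero] at h3
  exact hc κ h3

theorem sr_mul_self {κ μ : E n} (h : Va κ μ) : sr κ μ * sr κ μ = 1 := by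
  ext ν : 1
  exact sr_sq h ν

theorem T0_le (D : DD (SS Φ) (SS Φ') b) (hπ : ∀ i j, i ≠ j → ∀ t, π ((SS Φ).x i j t) = rt (.inl i) (.inl j) t)
    (hπ' : ∀ i j, i ≠ j → ∀ t, π ((SS Φ').x i j t) = rt (tau b (.inl i)) (tau b (.inl j)) t) :
    T0 Φ Φ' ≤ Tt (SS Φ) (SS Φ') b π := by
  classical
  obtain ⟨a, ha, -⟩ := D.three b b
  have key : ∀ (Ψ : SpecialLinearGroup (Fin n) F →* G),
      (∀ j (h : j ≠ a) u, Ψ (Hd j a u) ∈ Tt (SS Φ) (SS Φ') b π) → (Dn n F).map Ψ ≤ Tt (SS Φ) (SS Φ') b π := by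
    intro Ψ hΨ
    rintro _ ⟨B, hB, rfl⟩
    obtain ⟨d, hd, rfl⟩ := MonP.dg (show MonP 1 B from hB)
    exact dg_mem ((Tt (SS Φ) (SS Φ') b π).comap Ψ) (a := a) (Finset.univ.erase a) (by simp)
      (fun j hj u => hΨ j (Finset.ne_of_mem_erase hj) u) d hd (fun j hj hja => absurd (Finset.mem_erase.2 ⟨hja, Finset.mem_univ _⟩) hj)
  apply sup_le
  · apply key
    intro j h u
    rw [Hd_word j a h, map_mul]
    have h1 := (NN_nw D hπ h u).mul (NN_nw D hπ h (-1))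
    rw [sr_mul_self (va_ll.2 h)] at h1
    exact h1
  · apply key
    intro j h u
    rw [Hd_word j a h, map_mul]
    have h1 := (NN_nw' D hπ' h u).mul (NN_nw' D hπ' h (-1))
    rw [sr_mul_self ((va_ll.2 h).map (tau_swap b))] at h1
    exact h1

end NN

/-- homomorphisms from the symmetric group -/
theorem exists_alpha {M T : Subgroup G} [(T.subgroupOf M).Normal] (Θ : SpecialLinearGroup (Fin n) F →* G)
    (h1 : ∀ A ∈ Mo n F, Θ A ∈ M) (h2 : ∀ A ∈ Dn n F, Θ A ∈ T) :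
    ∃ α : Perm (Fin n) →* ↥M ⧸ T.subgroupOf M, ∀ A (hA : A ∈ Mo n F) σ, MonP σ A →
      α σ = QuotientGroup.mk (⟨Θ A, h1 A hA⟩ : ↥M) := by
  choose A hA hA' using exists_mo (n := n) (F := F)
  have heq : ∀ (B C : SpecialLinearGroup (Fin n) F) (hB : B ∈ Mo n F) (hC : C ∈ Mo n F) (σ : Perm (Fin n)),
      MonP σ B → MonP σ C → (QuotientGroup.mk (⟨Θ B, h1 B hB⟩ : ↥M) : ↥M ⧸ T.subgroupOf M) = QuotientGroup.mk ⟨Θ C, h1 C hC⟩ := by
    intro B C hB hC σ hB' hC'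
    rw [QuotientGroup.eq, Subgroup.mem_subgroupOf]
    show (Θ B)⁻¹ * Θ C ∈ T
    rw [← map_inv, ← map_mul]
    exact h2 _ (same_Dn hB' hC')
  refine ⟨MonoidHom.mk' (fun σ => QuotientGroup.mk (⟨Θ (A σ), h1 _ (hA σ)⟩ : ↥M)) ?_, ?_⟩
  · intro σ τ
    show (QuotientGroup.mk (⟨Θ (A (σ * τ)), _⟩ : ↥M) : ↥M ⧸ T.subgroupOf M) =
      QuotientGroup.mk (⟨Θ (A σ), _⟩ : ↥M) * QuotientGroup.mk (⟨Θ (A τ), _⟩ : ↥M)
    rw [← QuotientGroup.mk_mul, heq _ (A σ * A τ) (hA (σ * τ)) (mul_mem (hA σ) (hA τ)) (σ * τ) (hA' _) ((hA' σ).mul (hA' τ))]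
    congr 1
    apply Subtype.ext
    exact map_mul Θ _ _
  · intro B hB σ hB'
    exact heq _ B (hA σ) hB σ (hA' σ) hB'

section main

variable {π : G →* Matrix (E n) (E n) F}

theorem torus_of_one (D : DD (SS Φ) (SS Φ') b)
    (hπ : ∀ i j, i ≠ j → ∀ t, π ((SS Φ).x i j t) = rt (.inl i) (.inl j) t)
    (hπ' : ∀ i j, i ≠ j → ∀ t, π ((SS Φ').x i j t) = rt (tau b (.inl i)) (tau b (.inl j)) t)
    {w : G} (hw : w ∈ (Mo n F).map Φ ⊔ (Mo n F).map Φ' ⊔ T0 Φ Φ') (h : NN (SS Φ) (SS Φ') b π w 1) : w ∈ T0 Φ Φ' := by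
  classical
  set T := T0 Φ Φ' with hT
  set M : Subgroup G := Subgroup.normalizer (T : Set G) ⊓ Nn (SS Φ) (SS Φ') b π with hM
  have hTM : T ≤ M := le_inf Subgroup.le_normalizer (fun g hg => ⟨1, T0_le D hπ hπ' hg⟩)
  have hnorm : (T.subgroupOf M).Normal := by
    refine ⟨fun x hx g => ?_⟩
    rw [Subgroup.mem_subgroupOf] at hx ⊢
    exact (Subgroup.mem_normalizer_iff.1 g.2.1 x).1 hx
  have D' : DD (SS Φ') (SS Φ) b := D.swap
  have h1 : ∀ A ∈ Mo n F, Φ A ∈ M := by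
    have : Mo n F ≤ M.comap Φ := by
      unfold Mo
      rw [Subgroup.closure_le]
      rintro _ ⟨i, j, h, t, rfl⟩
      exact ⟨nn_norm D h t, _, NN_nw D hπ h t⟩
    exact fun A hA => this hA
  have h1' : ∀ A ∈ Mo n F, Φ' A ∈ M := by
    have : Mo n F ≤ M.comap Φ' := by
      unfold Mo
      rw [Subgroup.closure_le]
      rintro _ ⟨i, j, h, t, rfl⟩
      refine ⟨?_, _, NN_nw' D hπ' h t⟩
      have := nn_norm D' h t
      rw [← T0_symm] at this
      exact this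
    exact fun A hA => this hA
  obtain ⟨α, hα⟩ := exists_alpha (M := M) (T := T) Φ h1 (fun A hA => T0_mem hA)
  obtain ⟨α', hα'⟩ := exists_alpha (M := M) (T := T) Φ' h1' (fun A hA => T0_mem' hA)
  -- the permutation
  have hex : ∀ g : ↥M, ∃ σ, NN (SS Φ) (SS Φ') b π (g : G) σ := fun g => g.2.2
  choose s hs using hex
  let f0 : ↥M →* Perm (E n) := MonoidHom.mk' s (fun x y => NN_uniq (hs (x * y)) ((hs x).mul (hs y)))
  have hf0 : ∀ (g : ↥M) (σ : Perm (E n)), NN (SS Φ) (SS Φ') b π (g : G) σ → f0 g = σ := fun g σ hg => NN_uniq (hs g) hg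
  let f : ↥M ⧸ T.subgroupOf M →* Perm (E n) := QuotientGroup.lift _ f0 (by
    intro x hx
    exact hf0 x 1 (T0_le D hπ hπ' (Subgroup.mem_subgroupOf.1 hx)))
  have hf : ∀ (g : G) (hg : g ∈ M) (σ : Perm (E n)), NN (SS Φ) (SS Φ') b π g σ → f (QuotientGroup.mk ⟨g, hg⟩) = σ := by
    intro g hg σ hσ
    exact hf0 ⟨g, hg⟩ σ hσ
  have hsw : ∀ x y : Fin n, x ≠ y → f (α (swap x y)) = sr (.inl x) (.inl y) := by
    intro x y hxy
    rw [hα _ (nn_Mo hxy 1) _ (MonP.nn hxy 1)]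
    exact hf _ _ _ (NN_nw D hπ hxy 1)
  have hsw' : ∀ x y : Fin n, x ≠ y → f (α' (swap x y)) = sr (tau b (.inl x)) (tau b (.inl y)) := by
    intro x y hxy
    rw [hα' _ (nn_Mo hxy 1) _ (MonP.nn hxy 1)]
    exact hf _ _ _ (NN_nw' D hπ' hxy 1)
  have H : WH b α α' := by
    refine ⟨?_, ?_⟩
    · intro k l hk hl
      by_cases hkl : k = l
      · subst hkl
        rw [swap_self]
        exact (map_one α).trans (map_one α').symm
      · rw [hα _ (nn_Mo hkl 1) _ (MonP.nn hkl 1), hα' _ (nn_Mo hkl 1) _ (MonP.nn hkl 1)]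
        congr 1
        apply Subtype.ext
        exact eqBL D hk hl hkl (nn_BL hkl 1)
    · intro j hj
      rw [hα _ (nn_Mo hj 1) _ (MonP.nn hj 1), hα' _ (nn_Mo hj 1) _ (MonP.nn hj 1), ← QuotientGroup.mk_mul,
        ← QuotientGroup.mk_mul]
      congr 1
      apply Subtype.ext
      exact commBL D hj (nn_BL hj 1) (nn_BL hj 1)
  have hcc : ∀ j, j ≠ b → ∀ i, f (cc b α α' j) (.inl i) = if i = j then .inr j else if i = b then .inr b else .inl i := by
    intro j hj i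
    unfold cc
    rw [map_mul, hsw j b hj, hsw' j b hj, tau_l hj, tau_lb, Perm.mul_apply, sr_ll, sr_al hj]
    by_cases hij : i = j
    · subst hij
      rw [swap_apply_left, if_neg hj.symm, if_pos rfl, if_pos rfl]
    · rw [if_neg hij]
      by_cases hib : i = b
      · subst hib
        rw [swap_apply_right, if_pos rfl, if_pos rfl]
      · rw [swap_apply_of_ne_of_ne hij hib, if_neg hij, if_neg hib, if_neg hib]
  have hcc' : ∀ j, j ≠ b → ∀ i, f (cc b α α' j) (.inr i) = if i = j then .inl j else if i = b then .inl b else .inr i := by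
    intro j hj i
    unfold cc
    rw [map_mul, hsw j b hj, hsw' j b hj, tau_l hj, tau_lb, Perm.mul_apply, sr_lr, sr_ar hj]
    by_cases hij : i = j
    · subst hij
      rw [swap_apply_left, if_neg hj.symm, if_pos rfl, if_pos rfl]
    · rw [if_neg hij]
      by_cases hib : i = b
      · subst hib
        rw [swap_apply_right, if_pos rfl, if_pos rfl]
      · rw [swap_apply_of_ne_of_ne hij hib, if_neg hij, if_neg hib, if_neg hib]
  -- membership
  have hmem : (Mo n F).map Φ ⊔ (Mo n F).map Φ' ⊔ T ≤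
      ((α.range ⊔ α'.range).comap (QuotientGroup.mk' (T.subgroupOf M))).map M.subtype := by
    apply sup_le (sup_le _ _)
    · intro g hg
      refine ⟨⟨g, hTM hg⟩, ?_, rfl⟩
      rw [SetLike.mem_coe, Subgroup.mem_comap]
      have : QuotientGroup.mk' (T.subgroupOf M) ⟨g, hTM hg⟩ = 1 :=
        (QuotientGroup.eq_one_iff _).2 (Subgroup.mem_subgroupOf.2 hg)
      rw [this]
      exact one_mem _
    · rintro _ ⟨A, hA, rfl⟩
      obtain ⟨σ, hσ⟩ := Mo_perm hA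
      refine ⟨⟨Φ A, h1 A hA⟩, ?_, rfl⟩
      rw [SetLike.mem_coe, Subgroup.mem_comap]
      exact Subgroup.mem_sup_left ⟨σ, hα A hA σ hσ⟩
    · rintro _ ⟨A, hA, rfl⟩
      obtain ⟨σ, hσ⟩ := Mo_perm hA
      refine ⟨⟨Φ' A, h1' A hA⟩, ?_, rfl⟩
      rw [SetLike.mem_coe, Subgroup.mem_comap]
      exact Subgroup.mem_sup_right ⟨σ, hα' A hA σ hσ⟩
  obtain ⟨g, hg, rfl⟩ := hmem hw
  have h5 : (QuotientGroup.mk' (T.subgroupOf M) g) = 1 := by
    refine weyl_inj H (f := f) ?_ ?_ ?_ ?_ hg ?_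
    · intro j hj
      rw [hcc j hj, if_pos rfl]
      exact Sum.inr_ne_inl
    · intro j hj i hi hij
      rw [hcc j hj, if_neg hij, if_neg hi]
    · intro j hj x
      rcases x with x | x
      · rw [hcc j hj]
        split_ifs with e1 e2
        · rw [e1]; rfl
        · rw [e2]; rfl
        · rfl
      · rw [hcc' j hj]
        split_ifs with e1 e2
        · rw [e1]; rfl
        · rw [e2]; rfl
        · rfl
    · intro τ i
      induction τ using Perm.swap_induction_on generalizing i with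
      | one => rw [map_one, map_one]; rfl
      | swap_mul τ x y hxy ih =>
        rw [map_mul, map_mul, Perm.mul_apply, ih, hsw x y hxy, sr_ll, Perm.mul_apply]
    · exact hf g.1 g.2 1 h
  have h6 := (QuotientGroup.eq_one_iff g).1 h5
  exact Subgroup.mem_subgroupOf.1 h6

end main

end H6.Om
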