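import Cfsg.Agent.Lib.H6.OmC
import Cfsg.Agent.Lib.H6.SLGen

/-!
The Bruhat decomposition with a small monomial group, and the torus.
-/
set_option autoImplicit false
set_option linter.unusedSectionVars false
set_option linter.unusedVariables false

namespace H6.Om

open Equiv H43.SLPerm Matrix H60.DN H60.CTA H22.RGD
open H43.SteinHom (Tr)
open H45.StPres (StPre slData)
open scoped commutatorElement

section torus

variable {n : ℕ} {F : Type*} [Field F] {G : Type*} [Group G]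
variable {Φ Φ' : SpecialLinearGroup (Fin n) F →* G} {b : Fin n} {π : G →* Matrix (E n) (E n) F}

theorem pi_phi [Nontrivial (Fin n)] (hπ : ∀ i j, i ≠ j → ∀ t, π ((SS Φ).x i j t) = rt (.inl i) (.inl j) t)
    (A : SpecialLinearGroup (Fin n) F) : π (Φ A) = levM n F A := by
  have : ((π.comp Φ).eqLocus (levM n F)) = ⊤ := by
    apply H6.SLGen.eq_top_of_transvection_mem
    intro i j hij t
    show π (Φ (Tr i j hij t)) = levM n F (Tr i j hij t)
    rw [← SS_x Φ, hπ i j hij, ← slx]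
    exact (coe_SM hij t).symm
  have h : A ∈ ((π.comp Φ).eqLocus (levM n F)) := by rw [this]; trivial
  exact h

theorem pi_phi' [Nontrivial (Fin n)]
    (hπ' : ∀ i j, i ≠ j → ∀ t, π ((SS Φ').x i j t) = rt (tau b (.inl i)) (tau b (.inl j)) t)
    (A : SpecialLinearGroup (Fin n) F) : π (Φ' A) = alM b (levM n F A) := by
  have : ((π.comp Φ').eqLocus ((alM b).comp (levM n F))) = ⊤ := by
    apply H6.SLGen.eq_top_of_transvection_mem
    intro i j hij t
    show π (Φ' (Tr i j hij t)) = (levM n F (Tr i j hij t)).submatrix (tau b) (tau b)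
    rw [← SS_x Φ', hπ' i j hij, ← slx, ← rt_al]
    congr 1
    exact (coe_SM hij t).symm
  have h : A ∈ ((π.comp Φ').eqLocus ((alM b).comp (levM n F))) := by rw [this]; trivial
  exact h

theorem Dg_inv {d : Fin n → Fˣ} (hd : ∏ i, d i = 1) : (Dg d hd)⁻¹ = Dg d⁻¹ (by
    have : ∏ i, d⁻¹ i = (∏ i, d i)⁻¹ := by rw [← Finset.prod_inv_distrib]; rfl
    rw [this, hd, inv_one]) := by
  rw [inv_eq_iff_mul_eq_one, Dg_mul]
  apply Subtype.ext
  change Matrix.diagonal _ = (1 : Matrix (Fin n) (Fin n) F)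
  rw [mul_inv_cancel]
  simp

theorem levM_Dg {d : Fin n → Fˣ} (hd : ∏ i, d i = 1) :
    levM n F (Dg d hd) = Matrix.diagonal (Sum.elim (fun i => (d i : F)) (fun i => ((d i)⁻¹ : Fˣ))) := by
  show fromBlocks (Matrix.diagonal (fun i => (d i : F))) 0 0 (((Dg d hd)⁻¹ : SpecialLinearGroup (Fin n) F).1)ᵀ = _
  rw [Dg_inv hd]
  show fromBlocks (Matrix.diagonal (fun i => (d i : F))) 0 0 (Matrix.diagonal (fun i => ((d⁻¹ i : Fˣ) : F)))ᵀ = _
  rw [Matrix.diagonal_transpose, Matrix.fromBlocks_diagonal]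
  rfl

theorem Hd_mul' (i j : Fin n) (s t : Fˣ) : (Hd i j s : SpecialLinearGroup (Fin n) F) * Hd i j t = Hd i j (s * t) := by
  unfold Hd
  rw [Dg_mul]
  apply Dg_ext
  funext k
  unfold Hf
  simp only [Pi.mul_apply, Pi.inv_apply, Pi.mulSingle_apply]
  split_ifs <;> simp only [inv_one, mul_one, one_mul, mul_inv_cancel, _root_.mul_inv_rev]
  · rw [mul_comm t⁻¹ s⁻¹, ← mul_assoc]
    rw [show s * t * s⁻¹ * t⁻¹ = (s * s⁻¹) * (t * t⁻¹) by rw [mul_right_comm s t s⁻¹]; group]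
    simp
  · rw [mul_comm]

theorem T0_ker [Nontrivial (Fin n)] (D : DD (SS Φ) (SS Φ') b)
    (hπ : ∀ i j, i ≠ j → ∀ t, π ((SS Φ).x i j t) = rt (.inl i) (.inl j) t)
    (hπ' : ∀ i j, i ≠ j → ∀ t, π ((SS Φ').x i j t) = rt (tau b (.inl i)) (tau b (.inl j)) t)
    {a : Fin n} (hab : a ≠ b) {w : G} (hw : w ∈ T0 Φ Φ') (h1 : π w = 1) :
    w = 1 ∨ w = Φ (Hd a b (-1)) * Φ' (Hd a b (-1)) := by
  let h' : Fˣ →* G := MonoidHom.mk' (fun u => Φ' (Hd a b u)) (fun s t => by rw [← map_mul, Hd_mul'])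
  have hcomm : Cm h'.range ((Dn n F).map Φ) := by
    rintro _ ⟨u, rfl⟩ _ ⟨B, hB, rfl⟩
    obtain ⟨d, hd, v, hdb, rfl⟩ := Dn_split hab (show B ∈ Dn n F from hB)
    show Φ' (Hd a b u) * Φ (Dg d hd * Hd a b v) = Φ (Dg d hd * Hd a b v) * Φ' (Hd a b u)
    rw [map_mul, eqD D hdb]
    have c1 : Φ' (Hd a b u) * Φ' (Dg d hd) = Φ' (Dg d hd) * Φ' (Hd a b u) := by
      rw [← map_mul, ← map_mul, Dn_comm (A := Hd a b u) (B := Dg d hd) (MonP.Dg _) (MonP.Dg _)]
    have c2 := commBL D hab (Hd_BL hab v) (Hd_BL hab u)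
    rw [← mul_assoc, c1, mul_assoc, ← c2, mul_assoc]
  have hle : T0 Φ Φ' ≤ (Dn n F).map Φ ⊔ h'.range := by
    apply sup_le le_sup_left
    rintro _ ⟨B, hB, rfl⟩
    obtain ⟨d, hd, v, hdb, rfl⟩ := Dn_split hab (show B ∈ Dn n F from hB)
    rw [map_mul, ← eqD D hdb]
    exact mul_mem (Subgroup.mem_sup_left ⟨_, MonP.Dg hd, rfl⟩) (Subgroup.mem_sup_right ⟨v, rfl⟩)
  have hst : h'.range ≤ stabSub ((Dn n F).map Φ) := by
    intro g hg
    rw [mem_stabSub]
    exact cj_of_cm hg hcomm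
  obtain ⟨_, ⟨A, hA, rfl⟩, _, ⟨u, rfl⟩, rfl⟩ := (mem_sup_of_normalizes hst).1 (hle hw)
  obtain ⟨d, hd, rfl⟩ := MonP.dg (show MonP 1 A from hA)
  have h2 : levM n F (Dg d hd) * alM b (levM n F (Hd a b u)) = 1 := by
    rw [← pi_phi hπ, ← pi_phi' hπ', ← map_mul]
    exact h1
  have h3 : alM b (levM n F (Hd a b u)) =
      Matrix.diagonal (Sum.elim (fun i => (Hf a b u i : F)) (fun i => ((Hf a b u i)⁻¹ : Fˣ)) ∘ (tau b)) := by
    show (levM n F (Hd a b u)).submatrix (tau b) (tau b) = _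
    unfold Hd
    rw [levM_Dg, Matrix.submatrix_diagonal_equiv]
  rw [h3, levM_Dg, Matrix.diagonal_mul_diagonal] at h2
  have h4 : ∀ κ : E n, (Sum.elim (fun i => (d i : F)) (fun i => ((d i)⁻¹ : Fˣ)) κ) *
      (Sum.elim (fun i => (Hf a b u i : F)) (fun i => ((Hf a b u i)⁻¹ : Fˣ)) (tau b κ)) = 1 := by
    intro κ
    have := congrFun (congrFun h2 κ) κ
    rw [Matrix.diagonal_apply_eq, Matrix.one_apply_eq] at this
    exact this
  have g0 : ∀ i, i ≠ a → i ≠ b → d i = 1 := by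
    intro i hia hib
    have := h4 (.inl i)
    rw [tau_l hib, Sum.elim_inl, Sum.elim_inl, Hf_ne hia hib, Units.val_one, mul_one] at this
    exact Units.ext this
  have ga : d a * u = 1 := by
    have := h4 (.inl a)
    rw [tau_l hab, Sum.elim_inl, Sum.elim_inl, Hf_left hab, ← Units.val_mul] at this
    exact Units.ext this
  have gb : d b * u = 1 := by
    have := h4 (.inl b)
    rw [tau_lb, Sum.elim_inl, Sum.elim_inr, Hf_right hab, inv_inv, ← Units.val_mul] at this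
    exact Units.ext this
  have ga' : d a = u⁻¹ := eq_inv_of_mul_eq_one_left ga
  have gb' : d b = u⁻¹ := eq_inv_of_mul_eq_one_left gb
  have hu2 : u * u = 1 := by
    have h5 : ∏ i, d i = d a * d b := by
      apply Finset.prod_eq_mul a b hab
      · intro i _ hi; exact g0 i hi.1 hi.2
      · intro h; exact absurd (Finset.mem_univ _) h
      · intro h; exact absurd (Finset.mem_univ _) h
    rw [hd, ga', gb', ← _root_.mul_inv_rev, eq_comm, inv_eq_one] at h5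
    exact h5
  have hu : u = 1 ∨ u = -1 := by
    have h6 : (u : F) * u = 1 := by rw [← Units.val_mul, hu2, Units.val_one]
    rcases mul_self_eq_one_iff.1 h6 with h | h
    · exact Or.inl (Units.ext h)
    · right; apply Units.ext; rw [h]; simp
  have hdu : d = Hf a b u := by
    have hui : u⁻¹ = u := inv_eq_of_mul_eq_one_left hu2
    funext i
    by_cases hia : i = a
    · rw [hia, ga', Hf_left hab, hui]
    · by_cases hib : i = b
      · rw [hib, gb', Hf_right hab]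
      · rw [g0 i hia hib, Hf_ne hia hib]
  have hA' : Dg d hd = Hd a b u := Dg_ext hdu
  have hfin : Φ (Dg d hd) * h' u = Φ (Hd a b u) * Φ' (Hd a b u) := by rw [hA']; rfl
  rcases hu with h | h
  · left
    have : (Hd a b 1 : SpecialLinearGroup (Fin n) F) = 1 := by
      have h7 := Hd_mul' (F := F) a b 1 1
      rw [mul_one] at h7
      exact mul_eq_left.1 h7
    rw [hfin, h, this, map_one, map_one, mul_one]
  · right
    rw [hfin, h]

end torus

section bruhat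

variable {F : Type*} [Field F] {m : ℕ} {G : Type*} [Group G]
variable {Φ Φ' : SpecialLinearGroup (Fin (m + 2)) F →* G} {π : G →* Matrix (E (m + 2)) (E (m + 2)) F}

local notation "bL" => Fin.last (m + 1)
local notation "aL" => Fin.castSucc (Fin.last m)

/-- the small monomial group -/
def N1 (Φ Φ' : SpecialLinearGroup (Fin (m + 2)) F →* G) : Subgroup G :=
  (Mo (m + 2) F).map Φ ⊔ (Mo (m + 2) F).map Φ' ⊔ T0 Φ Φ'

theorem N1_le (D : DD (SS Φ) (SS Φ') bL) (hπ : ∀ i j, i ≠ j → ∀ t, π ((SS Φ).x i j t) = rt (.inl i) (.inl j) t)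
    (hπ' : ∀ i j, i ≠ j → ∀ t, π ((SS Φ').x i j t) = rt (tau bL (.inl i)) (tau bL (.inl j)) t) :
    N1 Φ Φ' ≤ Nn (SS Φ) (SS Φ') bL π := by
  apply sup_le (sup_le _ _)
  · intro g hg
    exact ⟨1, T0_le D hπ hπ' hg⟩
  · rw [Subgroup.map_le_iff_le_comap]
    unfold Mo
    rw [Subgroup.closure_le]
    rintro _ ⟨i, j, h, t, rfl⟩
    exact ⟨_, NN_nw D hπ h t⟩
  · rw [Subgroup.map_le_iff_le_comap]
    unfold Mo
    rw [Subgroup.closure_le]
    rintro _ ⟨i, j, h, t, rfl⟩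
    exact ⟨_, NN_nw' D hπ' h t⟩

theorem bruhat (D : DD (SS Φ) (SS Φ') bL) (hπ : ∀ i j, i ≠ j → ∀ t, π ((SS Φ).x i j t) = rt (.inl i) (.inl j) t)
    (hπ' : ∀ i j, i ≠ j → ∀ t, π ((SS Φ').x i j t) = rt (tau bL (.inl i)) (tau bL (.inl j)) t)
    {g : G} (hg : g ∈ Xs (SS Φ) (SS Φ')) :
    ∃ u ∈ U0 (SS Φ) (SS Φ'), ∃ w ∈ N1 Φ Φ', ∃ v ∈ U0 (SS Φ) (SS Φ'), g = u * w * v := by
  set S := SS Φ with hS
  set S' := SS Φ' with hS'
  have hnn := fun u i => nn_s D hπ hπ' u i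
  have hmo : ∀ u i, ∃ (Ψ : SpecialLinearGroup (Fin (m + 2)) F →* G) (k l : Fin (m + 2)) (h : k ≠ l),
      (Ψ = Φ ∨ Ψ = Φ') ∧ ns S S' u i = Ψ (nn k l h u) := by
    rintro u (i | i)
    · exact ⟨Φ, _, _, cs_ne i, Or.inl rfl, SS_nw Φ (cs_ne i) u⟩
    · exact ⟨Φ', _, _, aL_ne, Or.inr rfl, SS_nw Φ' aL_ne u⟩
  have hT0 : ∀ (Ψ : SpecialLinearGroup (Fin (m + 2)) F →* G), (Ψ = Φ ∨ Ψ = Φ') → ∀ A ∈ Dn (m + 2) F, Ψ A ∈ T0 Φ Φ' := by
    rintro Ψ (rfl | rfl) A hA
    · exact T0_mem hA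
    · exact T0_mem' hA
  have hN1 : ∀ (Ψ : SpecialLinearGroup (Fin (m + 2)) F →* G), (Ψ = Φ ∨ Ψ = Φ') → ∀ A ∈ Mo (m + 2) F, Ψ A ∈ N1 Φ Φ' := by
    rintro Ψ (rfl | rfl) A hA
    · exact Subgroup.mem_sup_left (Subgroup.mem_sup_left ⟨A, hA, rfl⟩)
    · exact Subgroup.mem_sup_left (Subgroup.mem_sup_right ⟨A, hA, rfl⟩)
  have hprod : ∀ u v i, ns S S' u i * ns S S' v i ∈ T0 Φ Φ' := by
    rintro u v (i | i)
    · show nw (SS Φ) _ _ u * nw (SS Φ) _ _ v ∈ _
      rw [SS_nw Φ (cs_ne i), SS_nw Φ (cs_ne i), ← map_mul]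
      apply T0_mem
      have := (MonP.nn (cs_ne i) u).mul (MonP.nn (cs_ne i) v)
      rw [Equiv.swap_mul_self] at this
      exact this
    · show nw (SS Φ') _ _ u * nw (SS Φ') _ _ v ∈ _
      rw [SS_nw Φ' aL_ne, SS_nw Φ' aL_ne, ← map_mul]
      apply T0_mem'
      have := (MonP.nn (aL_ne (m := m)) u).mul (MonP.nn (aL_ne (m := m)) v)
      rw [Equiv.swap_mul_self] at this
      exact this
  refine bnb (U0 S S') (N1 Φ Φ') (T0 Φ Φ')
    (fun i => P S S' bL (ks i) (ms i)) (fun i => P S S' bL (ms i) (ks i)) (fun i => Uu S S' bL (Qs i))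
    (ns S S' 1) ?_ ?_ ?_ ?_ ?_ ?_ ?_ ?_ ?_ ?_ ?_ ?_ g hg
  · -- U ≤ W ⊔ A
    intro i
    apply Uu_le
    intro κ μ hv h _
    by_cases hQ : Qs i κ μ
    · exact (le_Uu hv h hQ).trans le_sup_left
    · have hor : (κ = ks i ∧ μ = ms i) ∨ (κ = (ms i).swap ∧ μ = (ks i).swap) := by
        by_contra hcon
        push Not at hcon
        exact hQ ⟨fun h => hcon.1 h.1 h.2, fun h => hcon.2 h.1 h.2⟩
      rcases hor with ⟨rfl, rfl⟩ | ⟨rfl, rfl⟩
      · exact le_sup_right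
      · rw [P_dual D]; exact le_sup_right
  · -- A normalises W
    intro i
    have key : ∀ a ∈ P S S' bL (ks i) (ms i), cj a (Uu S S' bL (Qs i)) ≤ Uu S S' bL (Qs i) := by
      intro a ha
      apply cj_Uu_le
      intro κ μ hv h hQ
      rintro _ ⟨y, hy, rfl⟩
      have h2 := comm_map D i hv h hQ (Subgroup.commutator_mem_commutator ha hy)
      have h3 := (Uu S S' bL (Qs i)).mul_mem h2 (le_Uu hv h hQ hy)
      have e : ⁅a, y⁆ * y = a * y * a⁻¹ := by rw [commutatorElement_def]; group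
      rw [e] at h3
      exact h3
    intro a ha
    rw [mem_stabSub]
    apply le_antisymm (key a ha)
    rw [← cj_le_cj (g := a⁻¹), cj_inv_cj]
    exact key a⁻¹ ((P S S' bL (ks i) (ms i)).inv_mem ha)
  · intro i
    exact Uu_le fun κ μ hv h _ => le_Uu hv h trivial
  · intro i
    exact le_Uu (va_s i) (rho_s i) trivial
  · -- n normalises W
    intro i
    have key : cj (ns S S' 1 i) (Uu S S' bL (Qs i)) ≤ Uu S S' bL (Qs i) := by
      apply cj_Uu_le
      intro κ μ hv h hQ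
      rw [(hnn 1 i).act κ μ hv]
      exact le_Uu (hv.map (hnn 1 i).sw) (pos_map i hv h hQ) (Qs_map i h)
    have key' : cj (ns S S' 1 i)⁻¹ (Uu S S' bL (Qs i)) ≤ Uu S S' bL (Qs i) := by
      apply cj_Uu_le
      intro κ μ hv h hQ
      have hinv : (sr (ks i) (ms i))⁻¹ = sr (ks i) (ms i) := by
        rw [inv_eq_iff_mul_eq_one]
        ext κ : 1
        exact sr_sq (va_s i) κ
      have hi := (hnn 1 i).inv
      rw [hinv] at hi
      rw [hi.act κ μ hv]
      exact le_Uu (hv.map hi.sw) (pos_map i hv h hQ) (Qs_map i h)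
    apply le_antisymm key
    rw [← cj_le_cj (g := (ns S S' 1 i)⁻¹), cj_inv_cj]
    exact key'
  · exact (T0_le D hπ hπ').trans (Tt_stab _)
  · exact le_sup_right
  · intro i
    obtain ⟨Ψ, k, l, h, hΨ, e⟩ := hmo 1 i
    rw [e]
    exact hN1 Ψ hΨ _ (nn_Mo h 1)
  · intro i
    exact hprod 1 1 i
  · -- rank one
    intro i x hx hx1
    obtain ⟨T, k, l, hkl, e1, e2, e3⟩ := P_s (S := S) (S' := S') i
    rw [e1] at hx
    obtain ⟨y, hy, v, z, hz, e⟩ := rank1 T D.three hkl hx hx1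
    refine ⟨y, by rw [e1]; exact hy, nw T k l v * nw T k l 1, ?_, z, by rw [e2]; exact hz, by rw [e3]; exact e⟩
    rw [← e3, ← e3]
    exact hprod v 1 i
  · -- dichotomy
    intro i w hw
    obtain ⟨σ, hσ⟩ := N1_le D hπ hπ' hw
    have hi := hσ.inv
    rw [hi.act _ _ (va_s i), hi.act _ _ (va_s i).symm]
    have hv := (va_s i).map hi.sw
    rcases lt_trichotomy (ρ (σ⁻¹ (ks i))) (ρ (σ⁻¹ (ms i))) with h | h | h
    · exact Or.inl (le_Uu hv h trivial)
    · exact absurd (rho_inj h) hv.1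
    · exact Or.inr (le_Uu hv.symm h trivial)
  · intro i
    obtain ⟨T, k, l, hkl, e1, e2, e3⟩ := P_s (S := S) (S' := S') i
    have h5 := cj_nw T D.three hkl 1 hkl
    rw [Equiv.swap_apply_left, Equiv.swap_apply_right] at h5
    show P S S' bL (ms i) (ks i) ≤ cj (ns S S' 1 i) (P S S' bL (ks i) (ms i))
    rw [e1, e2, e3, h5]

end bruhat

end H6.Om
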