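import Cfsg.Agent.Lib.H6.OmD

/-!
The unipotent part and the kernel theorem.
-/
set_option autoImplicit false
set_option linter.unusedSectionVars false
set_option linter.unusedVariables false

namespace H6.Om

open Equiv H43.SLPerm Matrix H60.DN H60.CTA H22.RGD
open H43.SteinHom (Tr)
open H45.StPres (StPre slData)
open scoped commutatorElement

section abstract_

variable {G : Type*} [Group G] {F : Type*} [Field F]

theorem sup_zero {I : Type*} [DecidableEq I] {H : I → Subgroup G} {χ : I → G → F} {Θ : Subgroup G}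
    (hΘ : ∀ i, H i ≤ Θ) (hadd : ∀ i, ∀ x ∈ Θ, ∀ y ∈ Θ, χ i (x * y) = χ i x + χ i y)
    (h0 : ∀ i j, i ≠ j → ∀ x ∈ H j, χ i x = 0) (s : Finset I) (i : I) (hi : i ∉ s) {x : G}
    (hx : x ∈ ⨆ j ∈ s, H j) : χ i x = 0 := by
  have h1 : χ i 1 = 0 := by
    have := hadd i 1 Θ.one_mem 1 Θ.one_mem
    rw [mul_one] at this
    exact left_eq_add.1 this
  let K : Subgroup G :=
    { carrier := {x | x ∈ Θ ∧ χ i x = 0}
      one_mem' := ⟨Θ.one_mem, h1⟩
      mul_mem' := by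
        rintro x y ⟨hx, hx'⟩ ⟨hy, hy'⟩
        exact ⟨Θ.mul_mem hx hy, by rw [hadd i x hx y hy, hx', hy', add_zero]⟩
      inv_mem' := by
        rintro x ⟨hx, hx'⟩
        refine ⟨Θ.inv_mem hx, ?_⟩
        have := hadd i x hx x⁻¹ (Θ.inv_mem hx)
        rw [mul_inv_cancel, h1, hx', zero_add] at this
        exact this.symm }
  have : ⨆ j ∈ s, H j ≤ K := by
    apply iSup₂_le
    intro j hj y hy
    exact ⟨hΘ j hy, h0 i j (fun e => hi (e ▸ hj)) y hy⟩
  exact (this hx).2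

theorem sup_inj {I : Type*} [DecidableEq I] {H : I → Subgroup G} (hc : ∀ i j, Cm (H i) (H j)) {χ : I → G → F}
    {Θ : Subgroup G}
    (hΘ : ∀ i, H i ≤ Θ) (hadd : ∀ i, ∀ x ∈ Θ, ∀ y ∈ Θ, χ i (x * y) = χ i x + χ i y)
    (h0 : ∀ i j, i ≠ j → ∀ x ∈ H j, χ i x = 0) (h1 : ∀ i, ∀ x ∈ H i, χ i x = 0 → x = 1) (s : Finset I) :
    ∀ x ∈ ⨆ j ∈ s, H j, (∀ i ∈ s, χ i x = 0) → x = 1 := by
  induction s using Finset.induction_on with
  | empty =>
    intro x hx _
    simpa using hx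
  | insert j s hj ih =>
    intro x hx hχ
    rw [Finset.iSup_insert, sup_comm] at hx
    have hst : H j ≤ stabSub (⨆ i ∈ s, H i) := by
      intro g hg
      rw [mem_stabSub]
      apply cj_of_cm hg
      have : ⨆ i ∈ s, H i ≤ Subgroup.centralizer (H j : Set G) := by
        apply iSup₂_le
        intro i _
        exact cm_iff.1 (hc i j)
      exact (cm_iff.2 this).symm
    obtain ⟨y, hy, h, hh, rfl⟩ := (mem_sup_of_normalizes hst).1 hx
    have hyΘ : y ∈ Θ := by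
      have : ⨆ i ∈ s, H i ≤ Θ := iSup₂_le fun i _ => hΘ i
      exact this hy
    have e1 := hχ j (Finset.mem_insert_self _ _)
    rw [hadd j y hyΘ h (hΘ j hh), sup_zero hΘ hadd h0 s j hj hy, zero_add] at e1
    have e2 := h1 j h hh e1
    subst e2
    rw [mul_one]
    apply ih y hy
    intro i hi
    have := hχ i (Finset.mem_insert_of_mem hi)
    rwa [mul_one] at this

end abstract_

section tri

variable {n : ℕ} {F : Type*} [Field F] {G : Type*} [Group G]

/-- elements with unitriangular matrices -/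
def TT1 (π : G →* Matrix (E n) (E n) F) : Subgroup G where
  carrier := {g | g ∈ TT π ∧ (∀ κ, π g κ κ = 1) ∧ ∀ κ, π g⁻¹ κ κ = 1}
  one_mem' := by
    refine ⟨(TT π).one_mem, fun κ => ?_, fun κ => ?_⟩
    · rw [map_one, Matrix.one_apply_eq]
    · rw [inv_one, map_one, Matrix.one_apply_eq]
  mul_mem' := by
    have key : ∀ A B : Matrix (E n) (E n) F, BlockTriangular A (ρ : E n → ℕ) → BlockTriangular B (ρ : E n → ℕ) →
        ∀ κ, (A * B) κ κ = A κ κ * B κ κ := by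
      intro A B hA hB κ
      rw [Matrix.mul_apply]
      apply Finset.sum_eq_single κ
      · intro μ _ hμ
        rcases lt_trichotomy (ρ μ) (ρ κ) with h | h | h
        · rw [hA h, zero_mul]
        · exact absurd (rho_inj h) hμ
        · rw [hB h, mul_zero]
      · intro h; exact absurd (Finset.mem_univ _) h
    rintro g h ⟨h1, h2, h3⟩ ⟨h4, h5, h6⟩
    refine ⟨(TT π).mul_mem h1 h4, fun κ => ?_, fun κ => ?_⟩
    · rw [map_mul, key _ _ h1.1 h4.1, h2, h5, mul_one]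
    · rw [_root_.mul_inv_rev, map_mul, key _ _ h4.2 h1.2, h6, h3, mul_one]
  inv_mem' := by
    rintro g ⟨h1, h2, h3⟩
    exact ⟨(TT π).inv_mem h1, h3, by simpa using h2⟩

theorem rt_diag {κ μ : E n} (h : κ ≠ μ) (t : F) (ν : E n) : rt κ μ t ν ν = 1 := by
  unfold rt
  have h2 : μ.swap ≠ κ.swap := fun e => h (by rw [← Sum.swap_swap κ, ← e, Sum.swap_swap])
  rw [Matrix.add_apply, Matrix.one_apply_eq, Matrix.smul_apply, Matrix.sub_apply, Matrix.single_apply,
    Matrix.single_apply, if_neg (by rintro ⟨rfl, e⟩; exact h e.symm), if_neg (by rintro ⟨rfl, e⟩; exact h2 e.symm)]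
  simp

end tri

section last

variable {F : Type*} [Field F] {m : ℕ} {G : Type*} [Group G]
variable {S S' : StPre F (m + 2) G} {π : G →* Matrix (E (m + 2)) (E (m + 2)) F}

local notation "bL" => Fin.last (m + 1)
local notation "aL" => Fin.castSucc (Fin.last m)

theorem U0_tri (D : DD S S' bL) (hπ : ∀ i j, i ≠ j → ∀ t, π (S.x i j t) = rt (.inl i) (.inl j) t)
    (hπ' : ∀ i j, i ≠ j → ∀ t, π (S'.x i j t) = rt (tau bL (.inl i)) (tau bL (.inl j)) t) : U0 S S' ≤ TT1 π := by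
  have hR : ∀ i j : Fin (m + 2), i.val < j.val → R S i j ≤ TT1 π := by
    intro i j hij x hx
    have hne : i ≠ j := by rintro rfl; exact lt_irrefl _ hij
    rw [mem_R S hne] at hx
    obtain ⟨t, rfl⟩ := hx
    have hne' : (.inl i : E (m + 2)) ≠ .inl j := fun e => hne (Sum.inl_injective e)
    refine ⟨⟨?_, ?_⟩, fun κ => ?_, fun κ => ?_⟩
    · rw [hπ i j hne]; exact rt_tri (κ := .inl i) (μ := .inl j) hij t
    · rw [← H45.StPres.x_neg S hne, hπ i j hne]; exact rt_tri (κ := .inl i) (μ := .inl j) hij _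
    · rw [hπ i j hne]; exact rt_diag hne' _ _
    · rw [← H45.StPres.x_neg S hne, hπ i j hne]; exact rt_diag hne' _ _
  have hY : ∀ i : Fin (m + 2), i ≠ bL → R S' i bL ≤ TT1 π := by
    intro i hi x hx
    rw [mem_R S' hi] at hx
    obtain ⟨t, rfl⟩ := hx
    have h1 : ρ (.inl i : E (m + 2)) < ρ (.inr bL : E (m + 2)) := by
      rw [rho_l, rho_r]
      have h2 : i.val ≠ (bL : Fin (m + 2)).val := fun e => hi (Fin.ext e)
      have h3 : (bL : Fin (m + 2)).val = m + 1 := by simp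
      have := i.2
      omega
    have hne' : (.inl i : E (m + 2)) ≠ .inr bL := Sum.inl_ne_inr
    refine ⟨⟨?_, ?_⟩, fun κ => ?_, fun κ => ?_⟩
    · rw [hπ' i bL hi, tau_l hi, tau_lb]; exact rt_tri h1 t
    · rw [← H45.StPres.x_neg S' hi, hπ' i bL hi, tau_l hi, tau_lb]; exact rt_tri h1 _
    · rw [hπ' i bL hi, tau_l hi, tau_lb]; exact rt_diag hne' _ _
    · rw [← H45.StPres.x_neg S' hi, hπ' i bL hi, tau_l hi, tau_lb]; exact rt_diag hne' _ _
  have hYY : ∀ i j : Fin (m + 2), i ≠ j → Y S S' bL i j ≤ TT1 π := by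
    intro i j hij
    by_cases hi : i = bL
    · subst hi; rw [Y_b']; exact hY j hij.symm
    by_cases hj : j = bL
    · subst hj; rw [Y_b]; exact hY i hi
    rw [Y_of hi hj, Subgroup.commutator_le]
    intro x hx y hy
    have h4 : j.val < (bL : Fin (m + 2)).val := by
      have h5 : j.val ≠ (bL : Fin (m + 2)).val := fun e => hj (Fin.ext e)
      have h6 : (bL : Fin (m + 2)).val = m + 1 := by simp
      have := j.2
      omega
    have hx' := hR j bL h4 hx
    have hy' := hY i hi hy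
    exact (TT1 π).mul_mem ((TT1 π).mul_mem ((TT1 π).mul_mem hx' hy') ((TT1 π).inv_mem hx')) ((TT1 π).inv_mem hy')
  apply Uu_le
  intro κ μ hv h _
  rcases κ with k | k <;> rcases μ with l | l
  · exact hR k l h
  · exact hYY k l (va_lr.1 hv)
  · exfalso
    rw [rho_l, rho_r] at h
    have := k.2
    have := l.2
    omega
  · rw [rho_r, rho_r] at h
    have := k.2
    have := l.2
    exact hR l k (by omega)

/-- the unipotent radical -/
def Bb {n : ℕ} (S S' : StPre F n G) (b : Fin n) : Subgroup G :=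
  ⨆ p : {p : Fin n × Fin n // p.1 < p.2}, Y S S' b p.1.1 p.1.2

/-- the unipotent group of the Levi factor -/
def Up {n : ℕ} (S : StPre F n G) : Subgroup G :=
  ⨆ p : {p : Fin n × Fin n // p.1 < p.2}, R S p.1.1 p.1.2

theorem Y_le_Bb {n : ℕ} {S S' : StPre F n G} {b : Fin n} (D : DD S S' b) {i j : Fin n} (hij : i ≠ j) :
    Y S S' b i j ≤ Bb S S' b := by
  rcases lt_or_gt_of_ne hij with h | h
  · exact le_iSup (fun p : {p : Fin n × Fin n // p.1 < p.2} => Y S S' b p.1.1 p.1.2) ⟨(i, j), h⟩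
  · rw [D.Y_symm]
    exact le_iSup (fun p : {p : Fin n × Fin n // p.1 < p.2} => Y S S' b p.1.1 p.1.2) ⟨(j, i), h⟩

theorem comm_Bb {n : ℕ} {S S' : StPre F n G} {b : Fin n} (D : DD S S' b) {k l i j : Fin n} (hkl : k ≠ l) (hij : i ≠ j) :
    ⁅R S k l, Y S S' b i j⁆ ≤ Bb S S' b := by
  by_cases h1 : l = i
  · subst h1
    by_cases h2 : k = j
    · subst h2
      rw [D.Y_symm]
      exact comm_bot (D.T1b hkl)
    · rw [D.T1r hkl hij h2]
      exact Y_le_Bb D h2
  · by_cases h2 : l = j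
    · subst h2
      by_cases h3 : k = i
      · subst h3
        exact comm_bot (D.T1b hkl)
      · rw [D.Y_symm, D.T1r hkl hij.symm h3]
        exact Y_le_Bb D h3
    · exact comm_bot (D.T1a hkl hij h1 h2)

theorem Up_stab {n : ℕ} {S S' : StPre F n G} {b : Fin n} (D : DD S S' b) : Up S ≤ stabSub (Bb S S' b) := by
  unfold Up
  apply iSup_le
  rintro ⟨⟨k, l⟩, hkl⟩
  have key : ∀ a ∈ R S k l, cj a (Bb S S' b) ≤ Bb S S' b := by
    intro a ha
    conv_lhs => unfold Bb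
    rw [cj_iSup]
    apply iSup_le
    rintro ⟨⟨i, j⟩, hij⟩
    rintro _ ⟨y, hy, rfl⟩
    have h2 := comm_Bb D (ne_of_lt hkl) (ne_of_lt hij) (Subgroup.commutator_mem_commutator ha hy)
    have h3 := (Bb S S' b).mul_mem h2 (Y_le_Bb D (ne_of_lt hij) hy)
    have e : ⁅a, y⁆ * y = a * y * a⁻¹ := by rw [commutatorElement_def]; group
    rw [e] at h3
    exact h3
  intro a ha
  rw [mem_stabSub]
  apply le_antisymm (key a ha)
  rw [← cj_le_cj (g := a⁻¹), cj_inv_cj]
  exact key a⁻¹ ((R S k l).inv_mem ha)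

theorem U0_le (D : DD S S' bL) : U0 S S' ≤ Bb S S' bL ⊔ Up S := by
  have hR : ∀ i j : Fin (m + 2), i < j → R S i j ≤ Up S := fun i j h =>
    le_iSup (fun p : {p : Fin (m + 2) × Fin (m + 2) // p.1 < p.2} => R S p.1.1 p.1.2) ⟨(i, j), h⟩
  apply Uu_le
  intro κ μ hv h _
  rcases κ with k | k <;> rcases μ with l | l
  · exact (hR k l h).trans le_sup_right
  · exact (Y_le_Bb D (va_lr.1 hv)).trans le_sup_left
  · exfalso
    rw [rho_l, rho_r] at h
    have := k.2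
    have := l.2
    omega
  · rw [rho_r, rho_r] at h
    have := k.2
    have := l.2
    exact (hR l k (by rw [Fin.lt_def]; omega)).trans le_sup_right

/-- block unitriangular elements -/
def Th {n : ℕ} (π : G →* Matrix (E n) (E n) F) : Subgroup G where
  carrier := {g | ∃ B : Matrix (Fin n) (Fin n) F, π g = fromBlocks 1 B 0 1 ∧ π g⁻¹ = fromBlocks 1 (-B) 0 1}
  one_mem' := ⟨0, by rw [map_one, Matrix.fromBlocks_one], by rw [inv_one, map_one, neg_zero, Matrix.fromBlocks_one]⟩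
  mul_mem' := by
    rintro g h ⟨B, h1, h2⟩ ⟨C, h3, h4⟩
    refine ⟨B + C, ?_, ?_⟩
    · rw [map_mul, h1, h3, Matrix.fromBlocks_multiply]
      simp [add_comm]
    · rw [_root_.mul_inv_rev, map_mul, h4, h2, Matrix.fromBlocks_multiply]
      simp [add_comm]
  inv_mem' := by
    rintro g ⟨B, h1, h2⟩
    exact ⟨-B, h2, by rw [inv_inv, neg_neg]; exact h1⟩

theorem rt_lr {n : ℕ} (i j : Fin n) (r : F) :
    rt (.inl i : E n) (.inr j) r = fromBlocks 1 (r • (Matrix.single i j 1 - Matrix.single j i 1)) 0 1 := by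
  unfold rt
  ext (x | x) (y | y)
  · simp [Matrix.single_apply, Matrix.one_apply]
  · simp [Matrix.single_apply, Matrix.one_apply]
  · simp [Matrix.single_apply, Matrix.one_apply]
  · simp [Matrix.single_apply, Matrix.one_apply]

theorem rt_zero {n : ℕ} (κ μ : E n) : rt κ μ (0 : F) = 1 := by
  unfold rt
  rw [zero_smul, add_zero]

/-- the elements of `Y` -/
theorem Y_elt {n : ℕ} {S S' : StPre F n G} {b : Fin n} {π : G →* Matrix (E n) (E n) F} (D : DD S S' b)
    (hπ : ∀ i j, i ≠ j → ∀ t, π (S.x i j t) = rt (.inl i) (.inl j) t)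
    (hπ' : ∀ i j, i ≠ j → ∀ t, π (S'.x i j t) = rt (tau b (.inl i)) (tau b (.inl j)) t) {i j : Fin n} (hi : i ≠ b)
    (hij : i ≠ j) {y : G} (hy : y ∈ Y S S' b i j) : ∃ r : F, π y = rt (.inl i) (.inr j) r ∧ π y⁻¹ = rt (.inl i) (.inr j) (-r) ∧
      (r = 0 → y = 1) := by
  by_cases hj : j = b
  · subst hj
    rw [Y_b, mem_R S' hi] at hy
    obtain ⟨r, rfl⟩ := hy
    refine ⟨r, ?_, ?_, ?_⟩
    · rw [hπ' i j hi, tau_l hi, tau_lb]
    · rw [← H45.StPres.x_neg S' hi, hπ' i j hi, tau_l hi, tau_lb]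
    · rintro rfl
      exact H45.StPres.x_zero S' hi
  obtain ⟨q, T⟩ := D.tab hi hj hij
  rw [← T.r03, mem_R q (by decide)] at hy
  obtain ⟨t, rfl⟩ := hy
  have h1 : S.x j b 1 ∈ R q 0 1 := by rw [T.r01]; exact x_mem S _ _ _
  rw [mem_R q (by decide)] at h1
  obtain ⟨c, hc⟩ := h1
  have hc0 : c ≠ 0 := by
    rintro rfl
    rw [H45.StPres.x_zero q (by decide)] at hc
    have h2 := hπ j b hj 1
    rw [hc, map_one] at h2
    have h3 := congrFun (congrFun h2 (.inl j)) (.inl b)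
    unfold rt at h3
    simp [Matrix.one_apply, Matrix.single_apply, hj] at h3
  have h4 : q.x 1 3 (c⁻¹ * t) ∈ R S' i b := by rw [← T.r13]; exact x_mem q _ _ _
  rw [mem_R S' hi] at h4
  obtain ⟨r, hr⟩ := h4
  have h5 := q.rel 0 1 3 (by decide) (by decide) (by decide) c (c⁻¹ * t)
  rw [mul_inv_cancel_left₀ hc0, ← hc, hr] at h5
  -- the matrix computation
  let θ : OO n F →* Matrix (E n) (E n) F := (alM b).comp ((alM j).comp (coeM n F))
  have hθ : ∀ {k l : Fin n} (h : k ≠ l) (t : F), θ ((SM n F).x k l t) = rt (tau b (tau j (.inl k))) (tau b (tau j (.inl l))) t := by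
    intro k l h t
    show ((coeM n F ((SM n F).x k l t)).submatrix (tau j) (tau j)).submatrix (tau b) (tau b) = _
    rw [coe_SM h, rt_al, rt_al]
  have eb : tau b (tau j (.inl b)) = (.inr b : E n) := by rw [tau_l (Ne.symm hj), tau_lb]
  have ej : tau b (tau j (.inl j)) = (.inr j : E n) := by rw [tau_lb, tau_r hj]
  have ei : tau b (tau j (.inl i)) = (.inl i : E n) := by rw [tau_l hij, tau_l hi]
  have g1 : ∀ s : F, θ ((SM n F).x b j (-s)) = π (S.x j b s) := by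
    intro s
    rw [hθ (Ne.symm hj), eb, ej, hπ j b hj]
    exact rt_dual (.inl j) (.inl b) s
  have g2 : ∀ s : F, θ ((SM n F).x i b s) = π (S'.x i b s) := by
    intro s
    rw [hθ hi, ei, eb, hπ' i b hi, tau_l hi, tau_lb]
  have hrel := (SM n F).rel i b j hi (Ne.symm hj) hij r (-1)
  have e1 : π (q.x 0 3 t) = θ ((SM n F).x b j (-1) * (SM n F).x i b r * ((SM n F).x b j (-1))⁻¹ * ((SM n F).x i b r)⁻¹) := by
    rw [← h5]
    simp only [map_mul]
    rw [g1, g2, ← H45.StPres.x_neg S hj, ← H45.StPres.x_neg S' hi, ← H45.StPres.x_neg (SM n F) (Ne.symm hj),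
      ← H45.StPres.x_neg (SM n F) hi, g1, g2]
  have e2 : (SM n F).x b j (-1) * (SM n F).x i b r * ((SM n F).x b j (-1))⁻¹ * ((SM n F).x i b r)⁻¹ = (SM n F).x i j r := by
    have h6 := congrArg Inv.inv hrel
    rw [← H45.StPres.x_neg (SM n F) hij] at h6
    have e3 : -(r * -1) = r := by ring
    rw [e3] at h6
    rw [← h6]
    group
  have e4 : π (q.x 0 3 t) = rt (.inl i) (.inr j) r := by rw [e1, e2, hθ hij, ei, ej]
  refine ⟨r, e4, ?_, ?_⟩
  · have e5 : π (q.x 0 3 t)⁻¹ = θ (((SM n F).x i j r)⁻¹) := by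
      rw [← e2, ← h5]
      simp only [_root_.mul_inv_rev, inv_inv, map_mul]
      rw [g1, g2, ← H45.StPres.x_neg S hj, ← H45.StPres.x_neg S' hi, ← H45.StPres.x_neg (SM n F) (Ne.symm hj),
        ← H45.StPres.x_neg (SM n F) hi, g1, g2]
    rw [e5, ← H45.StPres.x_neg (SM n F) hij, hθ hij, ei, ej]
  · intro h0
    rw [h0, H45.StPres.x_zero S' hi] at h5
    rw [← h5]
    group

theorem Bb_inj {n : ℕ} {S S' : StPre F n G} {b : Fin n} {π : G →* Matrix (E n) (E n) F} (D : DD S S' b)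
    (hπ : ∀ i j, i ≠ j → ∀ t, π (S.x i j t) = rt (.inl i) (.inl j) t)
    (hπ' : ∀ i j, i ≠ j → ∀ t, π (S'.x i j t) = rt (tau b (.inl i)) (tau b (.inl j)) t)
    (hb : ∀ i j : Fin n, i < j → i ≠ b) :
    Bb S S' b ≤ Th π ∧ ∀ y ∈ Bb S S' b, π y = 1 → y = 1 := by
  classical
  have hΘ : ∀ p : {p : Fin n × Fin n // p.1 < p.2}, Y S S' b p.1.1 p.1.2 ≤ Th π := by
    rintro ⟨⟨i, j⟩, hij⟩ y hy
    obtain ⟨r, h1, h2, -⟩ := Y_elt D hπ hπ' (hb i j hij) (ne_of_lt hij) hy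
    refine ⟨r • (Matrix.single i j 1 - Matrix.single j i 1), ?_, ?_⟩
    · rw [h1, rt_lr]
    · rw [h2, rt_lr, neg_smul]
  refine ⟨iSup_le hΘ, ?_⟩
  intro y hy h1
  refine sup_inj (H := fun p : {p : Fin n × Fin n // p.1 < p.2} => Y S S' b p.1.1 p.1.2)
    (χ := fun p g => π g (.inl p.1.1) (.inr p.1.2)) (Θ := Th π) ?_ hΘ ?_ ?_ ?_ Finset.univ y ?_ ?_
  · intro p q
    exact D.T3 (ne_of_lt p.2) (ne_of_lt q.2)
  · rintro p x ⟨B, hB, -⟩ y ⟨C, hC, -⟩
    show π (x * y) _ _ = π x _ _ + π y _ _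
    rw [map_mul, hB, hC, Matrix.fromBlocks_multiply]
    simp [add_comm]
  · rintro ⟨⟨i, j⟩, hij⟩ ⟨⟨k, l⟩, hkl⟩ hne x hx
    obtain ⟨r, h1, -, -⟩ := Y_elt D hπ hπ' (hb k l hkl) (ne_of_lt hkl) hx
    show π x (.inl i) (.inr j) = 0
    rw [h1, rt_lr]
    have n1 : ¬ (k = i ∧ l = j) := by rintro ⟨rfl, rfl⟩; exact hne rfl
    have n2 : ¬ (l = i ∧ k = j) := by
      rintro ⟨rfl, rfl⟩
      exact absurd hij (lt_asymm hkl)
    rw [Matrix.fromBlocks_apply₁₂, Matrix.smul_apply, Matrix.sub_apply, Matrix.single_apply, Matrix.single_apply,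
      if_neg n1, if_neg n2]
    simp
  · rintro ⟨⟨k, l⟩, hkl⟩ x hx h0
    obtain ⟨r, h1, -, h3⟩ := Y_elt D hπ hπ' (hb k l hkl) (ne_of_lt hkl) hx
    apply h3
    change π x (.inl k) (.inr l) = 0 at h0
    have hlk : ¬ (l = k ∧ k = l) := by rintro ⟨e, -⟩; exact ne_of_lt hkl e.symm
    rw [h1, rt_lr, Matrix.fromBlocks_apply₁₂, Matrix.smul_apply, Matrix.sub_apply, Matrix.single_apply,
      Matrix.single_apply, if_pos ⟨rfl, rfl⟩, if_neg hlk, sub_zero, smul_eq_mul, mul_one] at h0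
    exact h0
  · simpa [Bb] using hy
  · intro p _
    show π y _ _ = 0
    rw [h1]
    exact Matrix.one_apply_ne Sum.inl_ne_inr

end last

section main

variable {F : Type*} [Field F] {m : ℕ} {G : Type*} [Group G]
variable {Φ Φ' : SpecialLinearGroup (Fin (m + 2)) F →* G} {π : G →* Matrix (E (m + 2)) (E (m + 2)) F}

local notation "bL" => Fin.last (m + 1)
local notation "aL" => Fin.castSucc (Fin.last m)

theorem U0_inj (D : DD (SS Φ) (SS Φ') bL) (hπ : ∀ i j, i ≠ j → ∀ t, π ((SS Φ).x i j t) = rt (.inl i) (.inl j) t)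
    (hπ' : ∀ i j, i ≠ j → ∀ t, π ((SS Φ').x i j t) = rt (tau bL (.inl i)) (tau bL (.inl j)) t)
    {g : G} (hg : g ∈ U0 (SS Φ) (SS Φ')) (h1 : π g = 1) : g = 1 := by
  have hb : ∀ i j : Fin (m + 2), i < j → i ≠ bL := by
    rintro i j hij rfl
    exact absurd hij (not_lt.2 (Fin.le_last j))
  obtain ⟨hB1, hB2⟩ := Bb_inj D hπ hπ' hb
  obtain ⟨y, hy, a, ha, rfl⟩ := (mem_sup_of_normalizes (Up_stab D)).1 (U0_le D hg)
  have hUp : Up (SS Φ) ≤ Φ.range := by
    apply iSup_le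
    rintro ⟨⟨i, j⟩, hij⟩ x hx
    rw [mem_R _ (ne_of_lt hij)] at hx
    obtain ⟨t, rfl⟩ := hx
    exact ⟨_, rfl⟩
  obtain ⟨A, rfl⟩ := hUp ha
  obtain ⟨B, hB, -⟩ := hB1 hy
  rw [map_mul, hB, pi_phi hπ] at h1
  have h2 : fromBlocks (A : Matrix (Fin (m + 2)) (Fin (m + 2)) F) (B * ((A⁻¹ : SpecialLinearGroup (Fin (m + 2)) F) :
      Matrix (Fin (m + 2)) (Fin (m + 2)) F)ᵀ) 0 ((A⁻¹ : SpecialLinearGroup (Fin (m + 2)) F) :
      Matrix (Fin (m + 2)) (Fin (m + 2)) F)ᵀ = 1 := by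
    rw [← h1]
    show _ = fromBlocks 1 B 0 1 * fromBlocks (A : Matrix (Fin (m + 2)) (Fin (m + 2)) F) 0 0
      ((A⁻¹ : SpecialLinearGroup (Fin (m + 2)) F) : Matrix (Fin (m + 2)) (Fin (m + 2)) F)ᵀ
    rw [Matrix.fromBlocks_multiply]
    simp
  rw [← Matrix.fromBlocks_one, Matrix.fromBlocks_inj] at h2
  obtain ⟨e1, e2, -, e3⟩ := h2
  have hA : A = 1 := Subtype.ext e1
  subst hA
  rw [map_one, mul_one]
  apply hB2 y hy
  rw [hB]
  rw [e3, Matrix.mul_one] at e2
  rw [e2, Matrix.fromBlocks_one]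

/-- The kernel theorem. -/
theorem kernel_one (D : DD (SS Φ) (SS Φ') bL) (hπ : ∀ i j, i ≠ j → ∀ t, π ((SS Φ).x i j t) = rt (.inl i) (.inl j) t)
    (hπ' : ∀ i j, i ≠ j → ∀ t, π ((SS Φ').x i j t) = rt (tau bL (.inl i)) (tau bL (.inl j)) t)
    (hz : Φ (Hd aL bL (-1)) * Φ' (Hd aL bL (-1)) = 1)
    {g : G} (hg : g ∈ Xs (SS Φ) (SS Φ')) (h1 : π g = 1) : g = 1 := by
  obtain ⟨u, hu, w, hw, v, hv, rfl⟩ := bruhat D hπ hπ' hg
  have htri := U0_tri D hπ hπ'
  obtain ⟨σ, hσ⟩ := N1_le D hπ hπ' hw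
  have h2 : π w = π (u⁻¹ * v⁻¹) := by
    have : w = u⁻¹ * (u * w * v) * v⁻¹ := by group
    rw [this, map_mul, map_mul, h1, mul_one, ← map_mul]
  have huv : u⁻¹ * v⁻¹ ∈ TT1 π := htri (mul_mem (inv_mem hu) (inv_mem hv))
  have h3 : BlockTriangular (π w) (ρ : E (m + 2) → ℕ) := by
    rw [h2]
    exact huv.1.1
  have h4 : σ = 1 := by
    apply perm_one
    intro κ
    by_contra hcon
    push Not at hcon
    have h5 := h3 hcon
    obtain ⟨c, hc, hc'⟩ := hσ.mat
    have h6 := congrFun (hc' κ) (σ κ)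
    rw [Pi.smul_apply, bb_apply, if_pos rfl, smul_eq_mul, mul_one] at h6
    unfold bb at h6
    rw [Matrix.mulVec_single_one, Matrix.col_apply, h5] at h6
    exact hc κ h6.symm
  subst h4
  have hwT := torus_of_one D hπ hπ' hw hσ
  have hw1 : π w = 1 := by
    obtain ⟨c, hc, hc'⟩ := hσ.mat
    have h5 : ∀ κ μ, π w μ κ = c κ * (if μ = κ then 1 else 0) := by
      intro κ μ
      have h6 := congrFun (hc' κ) μ
      rw [Pi.smul_apply, bb_apply, smul_eq_mul] at h6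
      unfold bb at h6
      rw [Matrix.mulVec_single_one, Matrix.col_apply] at h6
      exact h6
    ext μ κ
    rw [h5]
    by_cases h : μ = κ
    · subst h
      have h7 := huv.2.1 μ
      rw [← h2, h5] at h7
      rw [h7, Matrix.one_apply_eq]
    · rw [if_neg h, mul_zero, Matrix.one_apply_ne h]
  rcases T0_ker D hπ hπ' aL_ne hwT hw1 with h | h
  · rw [h, mul_one]
    apply U0_inj D hπ hπ' (mul_mem hu hv)
    rw [h, mul_one] at h1
    exact h1
  · rw [hz] at h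
    rw [h, mul_one]
    apply U0_inj D hπ hπ' (mul_mem hu hv)
    rw [h, mul_one] at h1
    exact h1

end main

end H6.Om
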