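import Cfsg.Agent.Lib.H6.OmB
import Cfsg.Agent.Lib.H6.SLGen
import Cfsg.Agent.S2402
import Cfsg.Agent.S2403
import Cfsg.Agent.Lib.H43.PSLTwo
import Cfsg.Agent.Lib.H60.CTAut

/-!
Block embeddings and two-element generation of products.
-/
set_option autoImplicit false
set_option linter.unusedSectionVars false
set_option linter.unusedVariables false

namespace H6.Om

open Equiv H43.SLPerm Matrix
open H43.SteinHom (Tr)

section emb

variable {n k : ℕ} {F : Type*} [Field F]

/-- splitting the indices -/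
noncomputable def sumE (f : Fin k → Fin n) (hf : Function.Injective f) : Fin k ⊕ {x // x ∉ Set.range f} ≃ Fin n :=
  (Equiv.sumCongr (Equiv.ofInjective f hf) (Equiv.refl _)).trans (Equiv.Set.sumCompl (Set.range f))

theorem sumE_inl (f : Fin k → Fin n) (hf : Function.Injective f) (i : Fin k) : sumE f hf (.inl i) = f i := rfl

open Classical in
/-- the embedding of a special linear group along an injective map of indices -/
noncomputable def emb (f : Fin k → Fin n) (hf : Function.Injective f) :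
    SpecialLinearGroup (Fin k) F →* SpecialLinearGroup (Fin n) F where
  toFun A := ⟨(fromBlocks (A : Matrix (Fin k) (Fin k) F) 0 0 (1 : Matrix {x // x ∉ Set.range f} {x // x ∉ Set.range f} F)).submatrix
      (sumE f hf).symm (sumE f hf).symm, by
    rw [Matrix.det_submatrix_equiv_self, Matrix.det_fromBlocks_zero₂₁, Matrix.det_one, mul_one]
    exact A.2⟩
  map_one' := by
    apply Subtype.ext
    show (fromBlocks (1 : Matrix (Fin k) (Fin k) F) 0 0 1).submatrix _ _ = 1
    rw [Matrix.fromBlocks_one, Matrix.submatrix_one_equiv]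
  map_mul' A B := by
    apply Subtype.ext
    show (fromBlocks ((A : Matrix (Fin k) (Fin k) F) * (B : Matrix (Fin k) (Fin k) F)) 0 0 1).submatrix _ _ =
      (fromBlocks (A : Matrix (Fin k) (Fin k) F) 0 0 1).submatrix _ _ * (fromBlocks (B : Matrix (Fin k) (Fin k) F) 0 0 1).submatrix _ _
    rw [Matrix.submatrix_mul_equiv, Matrix.fromBlocks_multiply]
    simp

theorem emb_tr (f : Fin k → Fin n) (hf : Function.Injective f) {i j : Fin k} (h : i ≠ j) (t : F) :
    emb f hf (Tr i j h t) = Tr (f i) (f j) (fun e => h (hf e)) t := by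
  classical
  apply Subtype.ext
  show (fromBlocks (transvection i j t) 0 0 1).submatrix (sumE f hf).symm (sumE f hf).symm = transvection (f i) (f j) t
  have e1 : (fromBlocks (transvection i j t) 0 0 (1 : Matrix {x // x ∉ Set.range f} {x // x ∉ Set.range f} F)) =
      transvection (.inl i) (.inl j) t := by
    ext (x | x) (y | y)
    · simp [transvection, Matrix.one_apply, Matrix.single_apply]
    · simp [transvection, Matrix.one_apply, Matrix.single_apply]
    · simp [transvection, Matrix.one_apply, Matrix.single_apply]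
    · simp [transvection, Matrix.one_apply, Matrix.single_apply]
  rw [e1]
  ext x y
  rw [Matrix.submatrix_apply]
  unfold transvection
  rw [Matrix.add_apply, Matrix.add_apply, Matrix.one_apply, Matrix.one_apply, Matrix.single_apply, Matrix.single_apply]
  simp only [Equiv.eq_symm_apply, sumE_inl, Equiv.apply_symm_apply]

theorem emb_nn (f : Fin k → Fin n) (hf : Function.Injective f) {i j : Fin k} (h : i ≠ j) (t : Fˣ) :
    emb f hf (nn i j h t) = nn (f i) (f j) (fun e => h (hf e)) t := by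
  unfold nn
  rw [map_mul, map_mul, emb_tr, emb_tr]

theorem slgen_mem [Nontrivial (Fin k)] {G : Type*} [Group G] (θ : SpecialLinearGroup (Fin k) F →* G) (C : Subgroup G)
    (h : ∀ (i j : Fin k) (hij : i ≠ j) (t : F), θ (Tr i j hij t) ∈ C) (A : SpecialLinearGroup (Fin k) F) : θ A ∈ C := by
  have : C.comap θ = ⊤ := by
    apply H6.SLGen.eq_top_of_transvection_mem
    intro i j hij t
    exact h i j hij t
  have h2 : A ∈ C.comap θ := by rw [this]; trivial
  exact h2

theorem slgen_comm {l : ℕ} [Nontrivial (Fin k)] [Nontrivial (Fin l)] {G : Type*} [Group G]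
    (θ : SpecialLinearGroup (Fin k) F →* G)
    (η : SpecialLinearGroup (Fin l) F →* G)
    (h : ∀ (i j : Fin k) (hij : i ≠ j) (t : F) (i' j' : Fin l) (hij' : i' ≠ j') (t' : F),
      θ (Tr i j hij t) * η (Tr i' j' hij' t') = η (Tr i' j' hij' t') * θ (Tr i j hij t)) (A) (B) :
    θ A * η B = η B * θ A := by
  have h1 : ∀ (i j : Fin k) (hij : i ≠ j) (t : F) (B), θ (Tr i j hij t) * η B = η B * θ (Tr i j hij t) := by
    intro i j hij t B
    have := slgen_mem η (Subgroup.centralizer {θ (Tr i j hij t)}) (by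
      intro i' j' hij' t'
      rw [Subgroup.mem_centralizer_iff]
      rintro _ rfl
      exact h i j hij t i' j' hij' t') B
    exact Subgroup.mem_centralizer_iff.1 this _ rfl
  have := slgen_mem θ (Subgroup.centralizer {η B}) (by
    intro i j hij t
    rw [Subgroup.mem_centralizer_iff]
    rintro _ rfl
    exact (h1 i j hij t B).symm) A
  exact (Subgroup.mem_centralizer_iff.1 this _ rfl).symm

theorem Tr_commute {i j k' l : Fin n} (hij : i ≠ j) (hkl : k' ≠ l) (h1 : i ≠ l) (h2 : j ≠ k') (s t : F) :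
    Tr i j hij s * Tr k' l hkl t = Tr k' l hkl t * Tr i j hij s := by
  have := (H45.StPres.slData F n).comm i j k' l hij hkl h1 h2 s t
  rw [show (H45.StPres.slData F n).x i j s = Tr i j hij s from dif_pos hij,
    show (H45.StPres.slData F n).x k' l t = Tr k' l hkl t from dif_pos hkl] at this
  exact this

theorem emb_comm {l : ℕ} [Nontrivial (Fin k)] [Nontrivial (Fin l)] (f : Fin k → Fin n) (hf : Function.Injective f)
    (g : Fin l → Fin n) (hg : Function.Injective g) (h : ∀ i j, f i ≠ g j) (A : SpecialLinearGroup (Fin k) F)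
    (B : SpecialLinearGroup (Fin l) F) : emb f hf A * emb g hg B = emb g hg B * emb f hf A := by
  apply slgen_comm
  intro i j hij t i' j' hij' t'
  rw [emb_tr, emb_tr]
  exact Tr_commute _ _ (h _ _) (h _ _) _ _

end emb

section pairs

theorem pow_of_coprime {G : Type*} [Group G] {A B : Type*} [Group A] [Group B] {a : A} {b : B} {k l : ℕ} (ha : a ^ k = 1)
    (hb : b ^ l = 1) (h : Nat.Coprime k l) {C : Subgroup (A × B)} (hC : (a, b) ∈ C) : (a, 1) ∈ C ∧ (1, b) ∈ C := by
  have hbez : (1 : ℤ) = k * Nat.gcdA k l + l * Nat.gcdB k l := by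
    have := Nat.gcd_eq_gcd_ab k l
    rw [h] at this
    exact_mod_cast this
  have e1 : (a, b) ^ ((l : ℤ) * Nat.gcdB k l) = (a, 1) := by
    refine Prod.ext ?_ ?_
    · show a ^ _ = a
      have : a ^ ((l : ℤ) * Nat.gcdB k l) = a ^ (1 - (k : ℤ) * Nat.gcdA k l) := by congr 1; linarith
      rw [this, _root_.zpow_sub, zpow_one, _root_.zpow_mul, zpow_natCast, ha, _root_.one_zpow, inv_one, mul_one]
    · show b ^ _ = 1
      rw [_root_.zpow_mul, zpow_natCast, hb, _root_.one_zpow]
  have h1 : (a, 1) ∈ C := by rw [← e1]; exact zpow_mem hC _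
  refine ⟨h1, ?_⟩
  have e2 : ((1 : A), b) = (a, 1)⁻¹ * (a, b) := by
    refine Prod.ext ?_ ?_
    · show 1 = a⁻¹ * a; group
    · show b = 1⁻¹ * b; group
  rw [e2]
  exact mul_mem (inv_mem h1) hC

/-- two-element generation of `A × B` with `A` perfect -/
theorem gen_prod {A B : Type*} [Group A] [Group B] (hA : commutator A = ⊤) {a : Fin 2 → A} {b : Fin 2 → B}
    (ha : Subgroup.closure (Set.range a) = ⊤) (hb : Subgroup.closure (Set.range b) = ⊤) {k l : ℕ} (hk : a 0 ^ k = 1)
    (hl : b 0 ^ l = 1) (h : Nat.Coprime k l) : Subgroup.closure (Set.range (fun i => (a i, b i))) = ⊤ := by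
  set C := Subgroup.closure (Set.range (fun i => (a i, b i))) with hC
  have hi : ∀ i, (a i, b i) ∈ C := fun i => Subgroup.subset_closure ⟨i, rfl⟩
  obtain ⟨-, h0⟩ := pow_of_coprime (G := A) hk hl h (hi 0)
  have sA : ∀ x : A, ∃ y : B, (x, y) ∈ C := by
    have : (⊤ : Subgroup A) ≤ C.map (MonoidHom.fst A B) := by
      rw [← ha, Subgroup.closure_le]
      rintro _ ⟨i, rfl⟩
      exact ⟨_, hi i, rfl⟩
    intro x
    obtain ⟨y, hy, rfl⟩ := this (Subgroup.mem_top x)
    exact ⟨y.2, hy⟩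
  have sB : ∀ y : B, ∃ x : A, (x, y) ∈ C := by
    have : (⊤ : Subgroup B) ≤ C.map (MonoidHom.snd A B) := by
      rw [← hb, Subgroup.closure_le]
      rintro _ ⟨i, rfl⟩
      exact ⟨_, hi i, rfl⟩
    intro x
    obtain ⟨y, hy, rfl⟩ := this (Subgroup.mem_top x)
    exact ⟨y.1, hy⟩
  -- the normal subgroup `N`
  let N : Subgroup B := C.comap (MonoidHom.inr A B)
  have hN : N.Normal := by
    refine ⟨fun y hy g => ?_⟩
    obtain ⟨x, hx⟩ := sB g
    have h1 : (x, g) * (1, y) * (x, g)⁻¹ ∈ C := mul_mem (mul_mem hx hy) (inv_mem hx)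
    have e : (x, g) * (1, y) * (x, g)⁻¹ = (1, g * y * g⁻¹) := Prod.ext (by simp) rfl
    rw [e] at h1
    exact h1
  have hb0 : b 0 ∈ N := h0
  -- the quotient is cyclic
  have hcyc : ∀ y : B, ∃ z : ℤ, y * (b 1) ^ z ∈ N := by
    have : (⊤ : Subgroup B) ≤ N ⊔ Subgroup.zpowers (b 1) := by
      rw [← hb, Subgroup.closure_le]
      rintro _ ⟨i, rfl⟩
      fin_cases i
      · exact Subgroup.mem_sup_left hb0
      · exact Subgroup.mem_sup_right (Subgroup.mem_zpowers _)
    intro y
    obtain ⟨m, hm, _, ⟨z, rfl⟩, rfl⟩ := Subgroup.mem_sup_of_normal_left.1 (this (Subgroup.mem_top y))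
    refine ⟨-z, ?_⟩
    show m * b 1 ^ z * b 1 ^ (-z) ∈ N
    rw [mul_assoc, ← _root_.zpow_add, add_neg_cancel, zpow_zero, mul_one]
    exact hm
  have hcomm : ∀ y y' : B, y * y' * y⁻¹ * y'⁻¹ ∈ N := by
    intro y y'
    obtain ⟨z, hz⟩ := hcyc y
    obtain ⟨z', hz'⟩ := hcyc y'
    rw [← QuotientGroup.eq_one_iff] at hz hz' ⊢
    have h1 : (QuotientGroup.mk y : B ⧸ N) = ((QuotientGroup.mk (b 1) : B ⧸ N) ^ z)⁻¹ := by
      rw [eq_inv_iff_mul_eq_one]; exact hz
    have h2 : (QuotientGroup.mk y' : B ⧸ N) = ((QuotientGroup.mk (b 1) : B ⧸ N) ^ z')⁻¹ := by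
      rw [eq_inv_iff_mul_eq_one]; exact hz'
    show (QuotientGroup.mk y : B ⧸ N) * QuotientGroup.mk y' * (QuotientGroup.mk y)⁻¹ * (QuotientGroup.mk y')⁻¹ = 1
    rw [h1, h2, ← _root_.zpow_neg, ← _root_.zpow_neg, ← _root_.zpow_neg, ← _root_.zpow_neg, ← _root_.zpow_add, ← _root_.zpow_add, ← _root_.zpow_add]
    rw [show -z + -z' + - -z + - -z' = 0 by ring, zpow_zero]
  have hA1 : ∀ x : A, (x, 1) ∈ C := by
    have : (⊤ : Subgroup A) ≤ C.comap (MonoidHom.inl A B) := by
      rw [← hA, commutator_def, Subgroup.commutator_le]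
      intro x _ x' _
      obtain ⟨y, hy⟩ := sA x
      obtain ⟨y', hy'⟩ := sA x'
      have h1 : (x, y) * (x', y') * (x, y)⁻¹ * (x', y')⁻¹ ∈ C :=
        mul_mem (mul_mem (mul_mem hy hy') (inv_mem hy)) (inv_mem hy')
      have h2 : ((1 : A), y * y' * y⁻¹ * y'⁻¹) ∈ C := hcomm y y'
      have h3 := mul_mem h1 (inv_mem h2)
      have e : (x, y) * (x', y') * (x, y)⁻¹ * (x', y')⁻¹ * ((1 : A), y * y' * y⁻¹ * y'⁻¹)⁻¹ = (x * x' * x⁻¹ * x'⁻¹, 1) := by
        refine Prod.ext ?_ ?_
        · show x * x' * x⁻¹ * x'⁻¹ * 1⁻¹ = _; group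
        · show y * y' * y⁻¹ * y'⁻¹ * (y * y' * y⁻¹ * y'⁻¹)⁻¹ = 1; group
      rw [e] at h3
      exact h3
    exact fun x => this (Subgroup.mem_top x)
  rw [eq_top_iff]
  rintro ⟨x, y⟩ -
  obtain ⟨x', hx'⟩ := sB y
  have e : (x, y) = (x * x'⁻¹, 1) * (x', y) := Prod.ext (by simp) (by simp)
  rw [e]
  exact mul_mem (hA1 _) hx'

/-- two-element generation of `A × A` -/
theorem gen_prod' {A : Type*} [Group A] {a : Fin 2 → A}
    (ha : Subgroup.closure (Set.range a) = ⊤) {k l : ℕ} (hk : a 0 ^ k = 1)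
    (hl : a 1 ^ l = 1) (h : Nat.Coprime k l) : Subgroup.closure (Set.range (fun i => (a i, a (1 - i)))) = ⊤ := by
  set C := Subgroup.closure (Set.range (fun i : Fin 2 => (a i, a (1 - i)))) with hC
  have hi : ∀ i, (a i, a (1 - i)) ∈ C := fun i => Subgroup.subset_closure ⟨i, rfl⟩
  obtain ⟨h1, h2⟩ := pow_of_coprime (G := A) hk hl h (hi 0)
  obtain ⟨h3, h4⟩ := pow_of_coprime (G := A) hl hk h.symm (hi 1)
  have hA1 : ∀ x : A, (x, 1) ∈ C := by
    have : (⊤ : Subgroup A) ≤ C.comap (MonoidHom.inl A A) := by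
      rw [← ha, Subgroup.closure_le]
      rintro _ ⟨i, rfl⟩
      fin_cases i
      · exact h1
      · exact h3
    exact fun x => this (Subgroup.mem_top x)
  have hA2 : ∀ x : A, (1, x) ∈ C := by
    have : (⊤ : Subgroup A) ≤ C.comap (MonoidHom.inr A A) := by
      rw [← ha, Subgroup.closure_le]
      rintro _ ⟨i, rfl⟩
      fin_cases i
      · exact h4
      · exact h2
    exact fun x => this (Subgroup.mem_top x)
  rw [eq_top_iff]
  rintro ⟨x, y⟩ -
  have e : (x, y) = (x, 1) * (1, y) := Prod.ext (by simp) (by simp)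
  rw [e]
  exact mul_mem (hA1 _) (hA2 _)

end pairs

end H6.Om
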