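import Cfsg.Agent.Lib.H6.OmF

/-!
Generating pairs of `SL₂` and `SL_n` of coprime orders.
-/
set_option autoImplicit false
set_option linter.unusedSectionVars false
set_option linter.unusedVariables false

namespace H6.Om

open Equiv H43.SLPerm Matrix H60.CT H45.SL2
open H43.SteinHom (Tr)

variable {F : Type*} [Field F]

/-- additive span of the squares in a finite field -/
theorem squares_span' [Finite F] (S : F → Prop) (hadd : ∀ a b, S a → S b → S (a + b)) (hneg : ∀ a, S a → S (-a))
    (hsq : ∀ a, a ≠ 0 → S (a * a)) (h0 : S 0) (c : F) : S c := by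
  have hsq' : ∀ a, S (a * a) := fun a => by
    by_cases h : a = 0
    · subst h; rw [mul_zero]; exact h0
    · exact hsq a h
  by_cases h2 : (2 : F) = 0
  · have : Fintype F := Fintype.ofFinite F
    have hc : ringChar F = 2 := by
      have h3 : ringChar F ∣ 2 := by
        rw [← CharP.cast_eq_zero_iff F (ringChar F) 2]; exact_mod_cast h2
      have h4 : ringChar F ≠ 1 := CharP.ringChar_ne_one
      rcases (Nat.dvd_prime Nat.prime_two).1 h3 with h | h
      · exact absurd h h4
      · exact h
    obtain ⟨b, hb⟩ := FiniteField.isSquare_of_char_two hc c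
    rw [hb]; exact hsq' b
  · have h4 : (4 : F) ≠ 0 := by
      have : (4 : F) = 2 * 2 := by norm_num
      rw [this]; exact mul_ne_zero h2 h2
    have : c = ((c + 1) / 2) * ((c + 1) / 2) + -(((c - 1) / 2) * ((c - 1) / 2)) := by
      field_simp; ring
    rw [this]
    exact hadd _ _ (hsq' _) (hneg _ (hsq' _))

theorem ut_top (C : Subgroup (SL 2 F)) (h1 : ∀ t, e12 t ∈ C) {g : SL 2 F} (hg : g ∈ C) (hc : g.1 1 0 ≠ 0) : C = ⊤ := by
  have hd := det_eq g
  set c := g.1 1 0 with hcd
  let n : SL 2 F := mk2 0 (-c⁻¹) c 0 (by field_simp; ring)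
  have hn : n = e12 (-(g.1 0 0) / c) * g * e12 (-(g.1 1 1) / c) := by
    apply ext4
    · rw [mul_00, mul_00, mul_01]; simp [n, e12, ← hcd]; field_simp; ring
    · rw [mul_01, mul_00, mul_01]; simp [n, e12, ← hcd]; field_simp; linear_combination hd
    · rw [mul_10, mul_10, mul_11]; simp [n, e12, ← hcd]
    · rw [mul_11, mul_10, mul_11]; simp [n, e12, ← hcd]; field_simp; ring
  have hnC : n ∈ C := by rw [hn]; exact mul_mem (mul_mem (h1 _) hg) (h1 _)
  apply sl2_top _ h1
  intro t
  have e : e21 t = n * e12 (-t / (c * c)) * n⁻¹ := by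
    rw [eq_mul_inv_iff_mul_eq]
    apply ext4
    · rw [mul_00, mul_00]; simp [n, e12, e21]
    · rw [mul_01, mul_01]; simp [n, e12, e21]
    · rw [mul_10, mul_10]; simp [n, e12, e21]
    · rw [mul_11, mul_11]; simp [n, e12, e21]; field_simp
  rw [e]
  exact mul_mem (mul_mem hnC (h1 _)) (inv_mem hnC)

/-- diagonal elements -/
def dd (u : Fˣ) : SL 2 F := mk2 (u : F) 0 0 ((u⁻¹ : Fˣ) : F) (by simp)

theorem dd_mul (u v : Fˣ) : dd (u * v) = dd u * dd v := by
  apply ext4
  · rw [mul_00]; simp [dd]
  · rw [mul_01]; simp [dd]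
  · rw [mul_10]; simp [dd]
  · rw [mul_11]; simp [dd, mul_comm]

theorem dd_one : dd (1 : Fˣ) = 1 := by
  apply ext4 <;> simp [dd]

theorem dd_pow (u : Fˣ) (k : ℕ) : dd (u ^ k) = dd u ^ k := by
  induction k with
  | zero => rw [pow_zero, pow_zero, dd_one]
  | succ k ih => rw [pow_succ, pow_succ, dd_mul, ih]

theorem dd_conj (u : Fˣ) (t : F) : dd u * e12 t * (dd u)⁻¹ = e12 (u * u * t) := by
  rw [mul_inv_eq_iff_eq_mul]
  apply ext4
  · rw [mul_00, mul_00]; simp [dd, e12]
  · rw [mul_01, mul_01]; simp [dd, e12]; field_simp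
  · rw [mul_10, mul_10]; simp [dd, e12]
  · rw [mul_11, mul_11]; simp [dd, e12]

/-- the transvection fixing `(1,1)` -/
def yy (l : F) : SL 2 F := mk2 (1 - l) l (-l) (1 + l) (by ring)

theorem yy_add (l m : F) : yy (l + m) = yy l * yy m := by
  apply ext4
  · rw [mul_00]; simp [yy]; ring
  · rw [mul_01]; simp [yy]; ring
  · rw [mul_10]; simp [yy]; ring
  · rw [mul_11]; simp [yy]; ring

theorem yy_pow (l : F) (k : ℕ) : yy l ^ k = yy (k * l) := by
  induction k with
  | zero =>
    rw [pow_zero, Nat.cast_zero, zero_mul]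
    apply ext4 <;> simp [yy]
  | succ k ih => rw [pow_succ, ih, ← yy_add]; congr 1; push_cast; ring

theorem e12_pow (t : F) (k : ℕ) : (e12 t : SL 2 F) ^ k = e12 (k * t) := by
  induction k with
  | zero => rw [pow_zero, Nat.cast_zero, zero_mul, e12_zero]
  | succ k ih => rw [pow_succ, ih, ← e12_add]; congr 1; push_cast; ring

variable (F)

/-- the first exponent -/
noncomputable def kk [Fintype F] : ℕ := if 3 < Fintype.card F then Fintype.card F - 1 else Fintype.card F

variable {F}

theorem card_cast_zero [Fintype F] : ((Fintype.card F : ℕ) : F) = 0 := FiniteField.cast_card_eq_zero F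

theorem sl2_pair [Fintype F] : ∃ (b : Fin 2 → SL 2 F) (l : ℕ), Subgroup.closure (Set.range b) = ⊤ ∧
    b 1 ^ kk F = 1 ∧ b 0 ^ l = 1 ∧ Nat.Coprime (kk F) l := by
  classical
  by_cases h3 : 3 < Fintype.card F
  · have hkk : kk F = Fintype.card F - 1 := if_pos h3
    obtain ⟨ζ, hζ⟩ : ∃ ζ : Fˣ, ∀ t : Fˣ, t ∈ Subgroup.zpowers ζ := IsCyclic.exists_generator
    have hζ2 : (ζ : F) * ζ ≠ 1 := by
      intro h
      have h1 : ζ ^ 2 = 1 := by rw [sq]; exact Units.ext h
      have h2 : orderOf ζ ≤ 2 := orderOf_le_of_pow_eq_one (by norm_num) h1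
      rw [orderOf_eq_card_of_forall_mem_zpowers hζ, Nat.card_units, Nat.card_eq_fintype_card] at h2
      omega
    have hz0 : (ζ : F) ≠ 0 := ζ.ne_zero
    have hz1 : (ζ : F) * ζ - 1 ≠ 0 := sub_ne_zero.2 hζ2
    have hz2 : (ζ : F) ^ 2 - 1 ≠ 0 := by rw [sq]; exact hz1
    let l : F := (ζ * ζ) / (ζ * ζ - 1)
    have hl : l ≠ 0 := div_ne_zero (mul_ne_zero hz0 hz0) hz1
    refine ⟨![yy l, dd ζ], Fintype.card F, ?_, ?_, ?_, ?_⟩
    · set C := Subgroup.closure (Set.range ![yy l, dd ζ]) with hC
      have hy : yy l ∈ C := Subgroup.subset_closure ⟨0, rfl⟩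
      have hh : dd ζ ∈ C := Subgroup.subset_closure ⟨1, rfl⟩
      have hu : e12 ((ζ : F) * ζ - 1) ∈ C := by
        have e : e12 ((ζ : F) * ζ - 1) = (dd ζ * yy l)⁻¹ * yy l * (dd ζ * yy l) := by
          rw [mul_assoc, eq_inv_mul_iff_mul_eq]
          have e0 : ((ζ⁻¹ : Fˣ) : F) = (ζ : F)⁻¹ := by simp
          apply ext4
          · simp only [mul_00, mul_01, mul_10, mul_11]; simp [dd, yy, e12, l]; field_simp; ring
          · simp only [mul_00, mul_01, mul_10, mul_11]; simp [dd, yy, e12, l]; field_simp; ring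
          · simp only [mul_00, mul_01, mul_10, mul_11]; simp [dd, yy, e12, l]; field_simp; ring
          · simp only [mul_00, mul_01, mul_10, mul_11]; simp [dd, yy, e12, l]; field_simp; ring
        rw [e]
        exact mul_mem (mul_mem (inv_mem (mul_mem hh hy)) hy) (mul_mem hh hy)
      have hdd : ∀ u : Fˣ, dd u ∈ C := by
        intro u
        obtain ⟨k, hk⟩ := (mem_powers_iff_mem_zpowers (x := ζ)).2 (hζ u)
        have hk' : ζ ^ k = u := hk
        rw [← hk', dd_pow]
        exact pow_mem hh k
      have hall : ∀ t, e12 t ∈ C := by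
        intro t
        have h0 : ∀ s, (fun s : F => e12 (s * ((ζ : F) * ζ - 1)) ∈ C) s := by
          apply squares_span'
          · intro a b ha hb
            show e12 _ ∈ C
            rw [add_mul, e12_add]; exact mul_mem ha hb
          · intro a ha
            show e12 _ ∈ C
            have : e12 (-a * ((ζ : F) * ζ - 1)) = (e12 (a * ((ζ : F) * ζ - 1)))⁻¹ := by
              rw [eq_inv_iff_mul_eq_one, ← e12_add, ← e12_zero]; congr 1; ring
            rw [this]; exact inv_mem ha
          · intro a ha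
            show e12 _ ∈ C
            have h5 := dd_conj (Units.mk0 a ha) ((ζ : F) * ζ - 1)
            rw [Units.val_mk0] at h5
            rw [← h5]
            exact mul_mem (mul_mem (hdd _) hu) (inv_mem (hdd _))
          · show e12 _ ∈ C
            rw [zero_mul, e12_zero]; exact one_mem _
        have h5 := h0 (t / ((ζ : F) * ζ - 1))
        have h6 : e12 (t / ((ζ : F) * ζ - 1) * ((ζ : F) * ζ - 1)) ∈ C := h5
        rwa [div_mul_cancel₀ t hz1] at h6
      exact ut_top C hall hy (by show -l ≠ 0; exact neg_ne_zero.2 hl)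
    · show dd ζ ^ kk F = 1
      rw [hkk, ← dd_pow, ← Fintype.card_units, pow_card_eq_one, dd_one]
    · show yy l ^ Fintype.card F = 1
      rw [yy_pow, card_cast_zero, zero_mul]
      apply ext4 <;> simp [yy]
    · rw [hkk]
      have : Fintype.card F = (Fintype.card F - 1) + 1 := by omega
      nth_rw 2 [this]
      exact (Nat.coprime_self_add_right).2 (Nat.coprime_one_right _)
  · have hkk : kk F = Fintype.card F := if_neg h3
    have h1 : 1 < Fintype.card F := Fintype.one_lt_card
    let w : SL 2 F := mk2 0 1 (-1) 0 (by ring)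
    have hcases : Fintype.card F = 2 ∨ Fintype.card F = 3 := by omega
    rcases hcases with hc | hc
    · have hF2 : (2 : F) = 0 := by
        have := card_cast_zero (F := F)
        rw [hc] at this
        exact_mod_cast this
      have hel : ∀ t : F, t = 0 ∨ t = 1 := by
        intro t
        have h5 := FiniteField.pow_card t
        rw [hc] at h5
        have h6 : t * (t - 1) = 0 := by linear_combination h5
        rcases mul_eq_zero.1 h6 with h | h
        · exact Or.inl h
        · exact Or.inr (sub_eq_zero.1 h)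
      refine ⟨![w * e12 1, w], 3, ?_, ?_, ?_, ?_⟩
      · set C := Subgroup.closure (Set.range ![w * e12 1, w]) with hC
        have hy : w * e12 1 ∈ C := Subgroup.subset_closure ⟨0, rfl⟩
        have hw : w ∈ C := Subgroup.subset_closure ⟨1, rfl⟩
        have he : e12 1 ∈ C := by
          have := mul_mem (inv_mem hw) hy
          rwa [inv_mul_cancel_left] at this
        apply ut_top C _ hw (by show (-1 : F) ≠ 0; exact neg_ne_zero.2 one_ne_zero)
        intro t
        rcases hel t with rfl | rfl
        · rw [e12_zero]; exact one_mem _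
        · exact he
      · show w ^ kk F = 1
        rw [hkk, hc, sq]
        have hm : (-1 : F) = 1 := by linear_combination -hF2
        apply ext4
        · rw [mul_00]; simp [w, hm]
        · rw [mul_01]; simp [w]
        · rw [mul_10]; simp [w]
        · rw [mul_11]; simp [w, hm]
      · show (w * e12 1) ^ 3 = 1
        rw [pow_succ, sq]
        apply ext4
        · simp only [mul_00, mul_01, mul_10, mul_11]; simp [w, e12]
        · simp only [mul_00, mul_01, mul_10, mul_11]; simp [w, e12]
        · simp only [mul_00, mul_01, mul_10, mul_11]; simp [w, e12]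
        · simp only [mul_00, mul_01, mul_10, mul_11]; simp [w, e12]
      · rw [hkk, hc]; decide
    · have hF3 : (3 : F) = 0 := by
        have := card_cast_zero (F := F)
        rw [hc] at this
        exact_mod_cast this
      have hel : ∀ t : F, t = 0 ∨ t = 1 ∨ t = -1 := by
        intro t
        have h5 := FiniteField.pow_card t
        rw [hc] at h5
        have h6 : t * ((t - 1) * (t + 1)) = 0 := by linear_combination h5
        rcases mul_eq_zero.1 h6 with h | h
        · exact Or.inl h
        · rcases mul_eq_zero.1 h with h | h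
          · exact Or.inr (Or.inl (sub_eq_zero.1 h))
          · exact Or.inr (Or.inr (eq_neg_of_add_eq_zero_left h))
      refine ⟨![w, e12 1], 4, ?_, ?_, ?_, ?_⟩
      · set C := Subgroup.closure (Set.range ![w, e12 1]) with hC
        have hw : w ∈ C := Subgroup.subset_closure ⟨0, rfl⟩
        have he : e12 1 ∈ C := Subgroup.subset_closure ⟨1, rfl⟩
        apply ut_top C _ hw (by show (-1 : F) ≠ 0; exact neg_ne_zero.2 one_ne_zero)
        intro t
        rcases hel t with rfl | rfl | rfl
        · rw [e12_zero]; exact one_mem _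
        · exact he
        · have : e12 (-1 : F) = (e12 1)⁻¹ := by
            rw [eq_inv_iff_mul_eq_one, ← e12_add, ← e12_zero]; congr 1; ring
          rw [this]; exact inv_mem he
      · show e12 1 ^ kk F = 1
        rw [hkk, e12_pow, card_cast_zero, zero_mul, e12_zero]
      · show w ^ 4 = 1
        rw [pow_succ, pow_succ, sq]
        apply ext4
        · simp only [mul_00, mul_01, mul_10, mul_11]; simp [w]
        · simp only [mul_00, mul_01, mul_10, mul_11]; simp [w]
        · simp only [mul_00, mul_01, mul_10, mul_11]; simp [w]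
        · simp only [mul_00, mul_01, mul_10, mul_11]; simp [w]
      · rw [hkk, hc]; decide

theorem sln_pair [Fintype F] {m : ℕ} (hm : 3 ≤ m) : ∃ g : Fin 2 → SL m F, Subgroup.closure (Set.range g) = ⊤ ∧
    g 0 ^ kk F = 1 := by
  classical
  obtain ⟨m, rfl⟩ : ∃ k, m = k + 1 + 1 := ⟨m - 2, by omega⟩
  have hperf : commutator (SL (m + 1 + 1) F) = ⊤ := H6.SLGen.commutator_eq_top (by rw [Fintype.card_fin]; omega)
  have key : ∀ a b : SL (m + 1 + 1) F, Subgroup.closure {a, b} ⊔ Subgroup.center (SL (m + 1 + 1) F) = ⊤ →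
      Subgroup.closure (Set.range ![a, b]) = ⊤ := by
    intro a b h
    have hr : (Set.range ![a, b]) = {a, b} := by
      ext x
      constructor
      · rintro ⟨i, rfl⟩
        fin_cases i
        · exact Or.inl rfl
        · exact Or.inr rfl
      · rintro (rfl | rfl)
        · exact ⟨0, rfl⟩
        · exact ⟨1, rfl⟩
    rw [hr, eq_top_iff, ← hperf, commutator_def, Subgroup.commutator_le]
    intro x _ y _
    have hx : x ∈ Subgroup.closure {a, b} ⊔ Subgroup.center (SL (m + 1 + 1) F) := by rw [h]; trivial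
    have hy : y ∈ Subgroup.closure {a, b} ⊔ Subgroup.center (SL (m + 1 + 1) F) := by rw [h]; trivial
    obtain ⟨x1, hx1, z, hz, rfl⟩ := Subgroup.mem_sup_of_normal_right.1 hx
    obtain ⟨y1, hy1, z', hz', rfl⟩ := Subgroup.mem_sup_of_normal_right.1 hy
    rw [Subgroup.mem_center_iff] at hz hz'
    have e : x1 * z * (y1 * z') * (x1 * z)⁻¹ * (y1 * z')⁻¹ = x1 * y1 * x1⁻¹ * y1⁻¹ := by
      rw [_root_.mul_inv_rev, _root_.mul_inv_rev]
      have c1 : z' * (z⁻¹ * x1⁻¹) = z⁻¹ * x1⁻¹ * z' := (hz' _).symm
      calc x1 * z * (y1 * z') * (z⁻¹ * x1⁻¹) * (z'⁻¹ * y1⁻¹)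
          = x1 * z * y1 * (z' * (z⁻¹ * x1⁻¹)) * (z'⁻¹ * y1⁻¹) := by group
        _ = x1 * (z * y1) * z⁻¹ * x1⁻¹ * y1⁻¹ := by rw [c1]; group
        _ = _ := by rw [← hz y1]; group
    show x1 * z * (y1 * z') * (x1 * z)⁻¹ * (y1 * z')⁻¹ ∈ _
    rw [e]
    exact mul_mem (mul_mem (mul_mem hx1 hy1) (inv_mem hx1)) (inv_mem hy1)
  obtain ⟨w, hw⟩ := H43.PSLTwo.exists_w F (m + 1)
  obtain ⟨k, hk⟩ : ∃ ζ : Fˣ, ∀ t : Fˣ, t ∈ Subgroup.zpowers ζ := IsCyclic.exists_generator
  obtain ⟨h, hh⟩ := H43.PSLTwo.exists_h k m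
  have h01 : (0 : Fin (m + 1 + 1)) ≠ 1 := by
    intro h
    have := congrArg Fin.val h
    rw [Fin.val_zero, Fin.val_one] at this
    omega
  let x : SL (m + 1 + 1) F := ⟨transvection 0 1 1, det_transvection_of_ne 0 1 h01 1⟩
  by_cases hK : 3 < Fintype.card F
  · refine ⟨![h, x * w], key _ _ (Cfsg.Agent.S2402.result hK (m + 1) (by omega) k hk h x w hh rfl hw), ?_⟩
    show h ^ kk F = 1
    have hkk : kk F = Fintype.card F - 1 := if_pos hK
    have hk1 : k ^ (Fintype.card F - 1) = 1 := by rw [← Fintype.card_units, pow_card_eq_one]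
    rw [hkk]
    apply Subtype.ext
    show (h : Matrix (Fin (m + 1 + 1)) (Fin (m + 1 + 1)) F) ^ (Fintype.card F - 1) = 1
    rw [hh, Matrix.diagonal_pow, ← Matrix.diagonal_one]
    congr 1
    funext i
    rw [Pi.pow_apply]
    split_ifs
    · rw [← Units.val_pow_eq_pow_val, hk1, Units.val_one]
    · rw [← Units.val_pow_eq_pow_val, inv_pow, hk1, inv_one, Units.val_one]
    · rw [one_pow]
  · refine ⟨![x, w], key _ _ (Cfsg.Agent.S2403.result (not_lt.1 hK) (m + 1) (by omega) x w rfl hw), ?_⟩
    show x ^ kk F = 1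
    have hkk : kk F = Fintype.card F := if_neg hK
    have hx : ∀ j : ℕ, x ^ j = Tr 0 1 h01 (j : F) := by
      intro j
      induction j with
      | zero =>
        rw [pow_zero, Nat.cast_zero]
        apply Subtype.ext
        show (1 : Matrix _ _ F) = transvection 0 1 0
        rw [transvection_zero]
      | succ j ih =>
        rw [pow_succ, ih]
        push_cast
        rw [Tr_add]; rfl
    rw [hkk, hx, card_cast_zero]
    apply Subtype.ext
    show transvection 0 1 (0 : F) = 1
    rw [transvection_zero]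

/-- two generators of `SL_m × SL₂` -/
theorem prod_pair [Fintype F] {m : ℕ} (hm : 2 ≤ m) : ∃ (g : Fin 2 → SL m F) (b : Fin 2 → SL 2 F),
    Subgroup.closure (Set.range (fun i => (g i, b i))) = ⊤ := by
  obtain ⟨b, l, h1, h2, h3, h4⟩ := sl2_pair (F := F)
  rcases Nat.eq_or_lt_of_le hm with h | h
  · subst h
    have hr : Set.range (fun i : Fin 2 => b (1 - i)) = Set.range b := by
      ext x
      constructor
      · rintro ⟨i, rfl⟩; exact ⟨_, rfl⟩
      · rintro ⟨i, rfl⟩
        exact ⟨1 - i, by simp⟩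
    have := gen_prod' (a := fun i => b (1 - i)) (by rw [hr]; exact h1) (k := kk F) (l := l) (by simpa using h2) (by simpa using h3) h4
    exact ⟨_, _, this⟩
  · obtain ⟨g, hg1, hg2⟩ := sln_pair (F := F) (m := m) (by omega)
    have hperf : commutator (SL m F) = ⊤ := H6.SLGen.commutator_eq_top (by rw [Fintype.card_fin]; omega)
    exact ⟨g, b, gen_prod hperf hg1 h1 hg2 h3 h4⟩

end H6.Om
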