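import Cfsg.Agent.Lib.H6.OmD
import Cfsg.Agent.Lib.H6.OmF

/-!
The relations of the presentation of `Ω⁺` and the second system.
-/
set_option autoImplicit false
set_option linter.unusedSectionVars false
set_option linter.unusedVariables false

namespace H6.Om

open Equiv H43.SLPerm Matrix H60.DN H60.CTA H60.CT H22.RGD
open H43.SteinHom (Tr)
open H45.StPres (StPre slData)

section conj

variable {n : ℕ} {F : Type*} [Field F] {G : Type*} [Group G] (S : StPre F n G)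

theorem W1 {i j l : Fin n} (hij : i ≠ j) (hil : i ≠ l) (hjl : j ≠ l) (u : Fˣ) (s : F) :
    nw S i j u * S.x i l s * (nw S i j u)⁻¹ = S.x j l (-(((u⁻¹ : Fˣ) : F) * s)) := by
  have h1 := H45.StPres.w_col S hij hil hjl u s
  rw [neg_mul] at h1
  exact h1

theorem W2 {i j l : Fin n} (hij : i ≠ j) (hil : i ≠ l) (hjl : j ≠ l) (u : Fˣ) (s : F) :
    nw S i j u * S.x j l s * (nw S i j u)⁻¹ = S.x i l ((u : F) * s) := by
  have h1 := H45.StPres.w_col S hij hil hjl (-u) ((u : F) * s)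
  have e1 : (-(((-u)⁻¹ : Fˣ) : F) * ((u : F) * s)) = s := by
    have : ((u⁻¹ : Fˣ) : F) * (u : F) = 1 := Units.inv_mul u
    rw [inv_neg, Units.val_neg]
    linear_combination s * this
  rw [e1] at h1
  have h2 : nw S i j (-u) * S.x i l ((u : F) * s) * (nw S i j (-u))⁻¹ = S.x j l s := h1
  rw [← nw_inv S hij] at h2
  rw [← h2]; group

theorem W3 {i j k : Fin n} (hij : i ≠ j) (hik : i ≠ k) (hjk : j ≠ k) (u : Fˣ) (s : F) :
    nw S i j u * S.x k j s * (nw S i j u)⁻¹ = S.x k i (((u⁻¹ : Fˣ) : F) * s) :=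
  H45.StPres.w_row S hij hik hjk u s

theorem W4 {i j k : Fin n} (hij : i ≠ j) (hik : i ≠ k) (hjk : j ≠ k) (u : Fˣ) (s : F) :
    nw S i j u * S.x k i s * (nw S i j u)⁻¹ = S.x k j (-((u : F) * s)) := by
  have h1 := H45.StPres.w_row S hij hik hjk (-u) (-((u : F) * s))
  have e1 : ((((-u)⁻¹ : Fˣ) : F) * (-((u : F) * s))) = s := by
    have : ((u⁻¹ : Fˣ) : F) * (u : F) = 1 := Units.inv_mul u
    rw [inv_neg, Units.val_neg]
    linear_combination s * this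
  rw [e1] at h1
  have h2 : nw S i j (-u) * S.x k j (-((u : F) * s)) * (nw S i j (-u))⁻¹ = S.x k i s := h1
  rw [← nw_inv S hij] at h2
  rw [← h2]; group

theorem W5 {i j l : Fin n} (hij : i ≠ j) (hil : i ≠ l) (hjl : j ≠ l) (u : Fˣ) (s : F) :
    nw S i j u * S.x i j s * (nw S i j u)⁻¹ = S.x j i (-(((u⁻¹ : Fˣ) : F) ^ 2 * s)) :=
  H45.StPres.relw_of S hij hil hjl u s

end conj

section ro

variable {m : ℕ} {F : Type*} [Field F] {G : Type*} [Group G]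

local notation "bL" => Fin.last (m + 1)
local notation "aL" => Fin.castSucc (Fin.last m)

theorem bL_val : (bL : Fin (m + 2)).val = m + 1 := by simp
theorem aL_val : (aL : Fin (m + 2)).val = m := by simp

theorem a0 (hm : 2 ≤ m) : (aL : Fin (m + 2)) ≠ 0 := by
  intro e; have := congrArg Fin.val e; rw [aL_val] at this; simp at this; omega
theorem b0 : (bL : Fin (m + 2)) ≠ 0 := by
  intro e; have := congrArg Fin.val e; rw [bL_val] at this; simp at this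
theorem z1 : (0 : Fin (m + 2)) ≠ 1 := by
  intro e; have := congrArg Fin.val e; simp at this
theorem a1 (hm : 2 ≤ m) : (aL : Fin (m + 2)) ≠ 1 := by
  intro e; have := congrArg Fin.val e; rw [aL_val] at this; simp at this; omega
theorem b1 (hm : 2 ≤ m) : (bL : Fin (m + 2)) ≠ 1 := by
  intro e; have := congrArg Fin.val e; rw [bL_val] at this; simp at this; omega

/-- the relations -/
structure RO (hm : 2 ≤ m) (Φ : SpecialLinearGroup (Fin (m + 2)) F →* G) (s : G) : Prop where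
  c1 : ∀ (i j : Fin (m + 2)) (h : i ≠ j), 1 ≤ i.val → i.val ≤ m → 1 ≤ j.val → j.val ≤ m → ∀ t,
    s * Φ (Tr i j h t) = Φ (Tr i j h t) * s
  c2 : ∀ t, s * Φ (Tr 0 bL b0.symm t) = Φ (Tr 0 bL b0.symm t) * s
  c2' : ∀ t, s * Φ (Tr bL 0 b0 t) = Φ (Tr bL 0 b0 t) * s
  br : s * Φ (nn aL 0 (a0 hm) 1) * s = Φ (nn aL 0 (a0 hm) 1) * s * Φ (nn aL 0 (a0 hm) 1)
  c4 : ∀ t, s * Φ (Tr aL 0 (a0 hm) 1) * s⁻¹ * Φ (Tr 0 1 z1 t) = Φ (Tr 0 1 z1 t) * (s * Φ (Tr aL 0 (a0 hm) 1) * s⁻¹)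
  c5 : ∀ t, s * Φ (Tr aL 0 (a0 hm) 1) * s⁻¹ * Φ (Tr 1 0 z1.symm t) = Φ (Tr 1 0 z1.symm t) * (s * Φ (Tr aL 0 (a0 hm) 1) * s⁻¹)
  c6 : ∀ t, s * Φ (Tr aL 0 (a0 hm) 1) * s⁻¹ * Φ (Tr aL bL aL_ne t) = Φ (Tr aL bL aL_ne t) * (s * Φ (Tr aL 0 (a0 hm) 1) * s⁻¹)
  c7 : ∀ t, s * Φ (Tr aL 0 (a0 hm) 1) * s⁻¹ * Φ (Tr bL aL aL_ne.symm t) =
    Φ (Tr bL aL aL_ne.symm t) * (s * Φ (Tr aL 0 (a0 hm) 1) * s⁻¹)
  zz : Φ (Hd aL bL (-1)) * (s * Φ (Hd aL 0 (-1)) * s⁻¹) = 1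

variable {hm : 2 ≤ m} {Φ : SpecialLinearGroup (Fin (m + 2)) F →* G} {s : G} (H : RO hm Φ s)

/-- conjugate homomorphism -/
def cjH (s : G) (Φ : SpecialLinearGroup (Fin (m + 2)) F →* G) : SpecialLinearGroup (Fin (m + 2)) F →* G :=
  (MulAut.conj s).toMonoidHom.comp Φ

theorem cjH_apply (A : SpecialLinearGroup (Fin (m + 2)) F) : cjH s Φ A = s * Φ A * s⁻¹ := rfl

include H

theorem RO.fix {i j : Fin (m + 2)} (h : i ≠ j) (h1 : 1 ≤ i.val) (h2 : i.val ≤ m) (h3 : 1 ≤ j.val) (h4 : j.val ≤ m) (t : F) :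
    cjH s Φ (Tr i j h t) = Φ (Tr i j h t) := by
  rw [cjH_apply, H.c1 i j h h1 h2 h3 h4, mul_inv_cancel_right]

/-- the Weyl element -/
theorem RO.M_eq : cjH s Φ (nn aL 0 (a0 hm) 1) = (Φ (nn aL 0 (a0 hm) 1))⁻¹ * s * Φ (nn aL 0 (a0 hm) 1) := by
  rw [cjH_apply, mul_inv_eq_iff_eq_mul]
  have := H.br
  calc s * Φ (nn aL 0 (a0 hm) 1) = (Φ (nn aL 0 (a0 hm) 1))⁻¹ * (Φ (nn aL 0 (a0 hm) 1) * s * Φ (nn aL 0 (a0 hm) 1)) := by group
    _ = _ := by rw [← this]; group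

theorem RO.M_comm {X : G} (h : s * (Φ (nn aL 0 (a0 hm) 1) * X * (Φ (nn aL 0 (a0 hm) 1))⁻¹) =
    (Φ (nn aL 0 (a0 hm) 1) * X * (Φ (nn aL 0 (a0 hm) 1))⁻¹) * s) :
    cjH s Φ (nn aL 0 (a0 hm) 1) * X = X * cjH s Φ (nn aL 0 (a0 hm) 1) := by
  rw [H.M_eq]
  set n := Φ (nn aL 0 (a0 hm) 1)
  calc n⁻¹ * s * n * X = n⁻¹ * (s * (n * X * n⁻¹)) * n := by group
    _ = n⁻¹ * (n * X * n⁻¹ * s) * n := by rw [h]
    _ = _ := by group

/-- the root elements of the two orthogonal factors -/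
def KX (Φ : SpecialLinearGroup (Fin (m + 2)) F →* G) (c : Fin 4) (t : F) : G :=
  ![Φ (Tr 0 1 z1 t), Φ (Tr 1 0 z1.symm t), Φ (Tr aL bL aL_ne t), Φ (Tr bL aL aL_ne.symm t)] c

theorem RO.M_KX (c : Fin 4) (t : F) : cjH s Φ (nn aL 0 (a0 hm) 1) * KX Φ c t = KX Φ c t * cjH s Φ (nn aL 0 (a0 hm) 1) := by
  apply H.M_comm
  have v1 : (1 : Fin (m + 2)).val = 1 := by simp
  have va : (aL : Fin (m + 2)).val = m := aL_val
  fin_cases c
  · show s * (Φ (nn aL 0 (a0 hm) 1) * Φ (Tr 0 1 z1 t) * (Φ (nn aL 0 (a0 hm) 1))⁻¹) = _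
    have h := W2 (SS Φ) (a0 hm) (a1 hm) z1 1 t
    rw [SS_nw Φ (a0 hm), SS_x Φ z1, SS_x Φ (a1 hm)] at h
    rw [h]
    exact (H.c1 _ _ (a1 hm) (by omega) (by omega) (by omega) (by omega) _).trans (by
      show _ = (Φ (nn aL 0 (a0 hm) 1) * Φ (Tr 0 1 z1 t) * (Φ (nn aL 0 (a0 hm) 1))⁻¹) * s
      rw [h])
  · show s * (Φ (nn aL 0 (a0 hm) 1) * Φ (Tr 1 0 z1.symm t) * (Φ (nn aL 0 (a0 hm) 1))⁻¹) = _
    have h := W3 (SS Φ) (a0 hm) (a1 hm) z1 1 t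
    rw [SS_nw Φ (a0 hm), SS_x Φ z1.symm, SS_x Φ (a1 hm).symm] at h
    rw [h]
    exact (H.c1 _ _ (a1 hm).symm (by omega) (by omega) (by omega) (by omega) _).trans (by
      show _ = (Φ (nn aL 0 (a0 hm) 1) * Φ (Tr 1 0 z1.symm t) * (Φ (nn aL 0 (a0 hm) 1))⁻¹) * s
      rw [h])
  · show s * (Φ (nn aL 0 (a0 hm) 1) * Φ (Tr aL bL aL_ne t) * (Φ (nn aL 0 (a0 hm) 1))⁻¹) = _
    have h := W1 (SS Φ) (a0 hm) aL_ne b0.symm 1 t
    rw [SS_nw Φ (a0 hm), SS_x Φ aL_ne, SS_x Φ b0.symm] at h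
    rw [h]
    exact (H.c2 _).trans (by
      show _ = (Φ (nn aL 0 (a0 hm) 1) * Φ (Tr aL bL aL_ne t) * (Φ (nn aL 0 (a0 hm) 1))⁻¹) * s
      rw [h])
  · show s * (Φ (nn aL 0 (a0 hm) 1) * Φ (Tr bL aL aL_ne.symm t) * (Φ (nn aL 0 (a0 hm) 1))⁻¹) = _
    have h := W4 (SS Φ) (a0 hm) aL_ne b0.symm 1 t
    rw [SS_nw Φ (a0 hm), SS_x Φ aL_ne.symm, SS_x Φ b0] at h
    rw [h]
    exact (H.c2' _).trans (by
      show _ = (Φ (nn aL 0 (a0 hm) 1) * Φ (Tr bL aL aL_ne.symm t) * (Φ (nn aL 0 (a0 hm) 1))⁻¹) * s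
      rw [h])

theorem RO.P1_KX (c : Fin 4) (t : F) : cjH s Φ (Tr aL 0 (a0 hm) 1) * KX Φ c t = KX Φ c t * cjH s Φ (Tr aL 0 (a0 hm) 1) := by
  fin_cases c
  · exact H.c4 t
  · exact H.c5 t
  · exact H.c6 t
  · exact H.c7 t

theorem RO.Hd_comm_s (v : Fˣ) : s * Φ (Hd 1 aL v) = Φ (Hd 1 aL v) * s := by
  have v1 : (1 : Fin (m + 2)).val = 1 := by simp
  have va : (aL : Fin (m + 2)).val = m := aL_val
  have : BL (a1 hm).symm F ≤ (Subgroup.centralizer {s}).comap Φ := by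
    unfold BL
    rw [Subgroup.closure_le]
    rintro _ (⟨t, rfl⟩ | ⟨t, rfl⟩)
    · rw [SetLike.mem_coe, Subgroup.mem_comap, Subgroup.mem_centralizer_iff]
      rintro _ rfl
      exact H.c1 _ _ _ (by omega) (by omega) (by omega) (by omega) t
    · rw [SetLike.mem_coe, Subgroup.mem_comap, Subgroup.mem_centralizer_iff]
      rintro _ rfl
      exact H.c1 _ _ _ (by omega) (by omega) (by omega) (by omega) t
  have h3 := this (Hd_BL (a1 hm).symm v)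
  rw [Subgroup.mem_comap, Subgroup.mem_centralizer_iff] at h3
  exact h3 _ rfl

omit H in
theorem Hd_inv' {n : ℕ} (i j : Fin n) (t : Fˣ) : (Hd i j t : SpecialLinearGroup (Fin n) F)⁻¹ = Hd i j t⁻¹ := by
  rw [inv_eq_iff_mul_eq_one, Hd_mul', mul_inv_cancel]
  have h7 := Hd_mul' (F := F) i j 1 1
  rw [mul_one] at h7
  exact mul_eq_left.1 h7

omit H in
theorem KX_conj (c : Fin 4) (v : Fˣ) (t : F) : ∃ t', (Φ (Hd 1 aL v))⁻¹ * KX Φ c t * Φ (Hd 1 aL v) = KX Φ c t' := by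
  have key : ∀ {i j : Fin (m + 2)} (h : i ≠ j), ∃ t', (Φ (Hd 1 aL v))⁻¹ * Φ (Tr i j h t) * Φ (Hd 1 aL v) = Φ (Tr i j h t') := by
    intro i j h
    have h1 := Hd_tr (F := F) 1 (aL : Fin (m + 2)) v⁻¹ h t
    rw [← Hd_inv', inv_inv] at h1
    have h2 := congrArg Φ h1
    rw [map_mul, map_mul, map_inv] at h2
    exact ⟨_, h2⟩
  fin_cases c
  · exact key _
  · exact key _
  · exact key _
  · exact key _

theorem RO.P_KX (c : Fin 4) (u t : F) : cjH s Φ (Tr aL 0 (a0 hm) u) * KX Φ c t = KX Φ c t * cjH s Φ (Tr aL 0 (a0 hm) u) := by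
  by_cases hu : u = 0
  · subst hu
    have : (Tr aL 0 (a0 hm) (0 : F) : SpecialLinearGroup (Fin (m + 2)) F) = 1 := by
      apply Subtype.ext
      show transvection _ _ (0 : F) = 1
      rw [transvection_zero]
    rw [this, map_one, one_mul, mul_one]
  · let v : Fˣ := (Units.mk0 u hu)⁻¹
    have hP : Φ (Hd 1 aL v) * cjH s Φ (Tr aL 0 (a0 hm) 1) * (Φ (Hd 1 aL v))⁻¹ = cjH s Φ (Tr aL 0 (a0 hm) u) := by
      have h1 := Hd_tr (F := F) 1 (aL : Fin (m + 2)) v (a0 hm) 1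
      rw [Hf_right (a1 hm).symm, Hf_ne (z1 (m := m)) (a0 hm).symm] at h1
      have e : ((v⁻¹ : Fˣ) : F) * ((1⁻¹ : Fˣ) : F) * 1 = u := by simp [v]
      rw [e] at h1
      rw [← h1, cjH_apply, cjH_apply, map_mul, map_mul, map_inv]
      have h2 := H.Hd_comm_s v
      have h3 : s * (Φ (Hd 1 aL v))⁻¹ = (Φ (Hd 1 aL v))⁻¹ * s := by
        rw [mul_inv_eq_iff_eq_mul, mul_assoc, h2]; group
      calc Φ (Hd 1 aL v) * (s * Φ (Tr aL 0 (a0 hm) 1) * s⁻¹) * (Φ (Hd 1 aL v))⁻¹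
          = (Φ (Hd 1 aL v) * s) * Φ (Tr aL 0 (a0 hm) 1) * (Φ (Hd 1 aL v) * s)⁻¹ := by group
        _ = _ := by rw [← h2]; group
    obtain ⟨t', ht'⟩ := KX_conj (Φ := Φ) c v t
    have hK : KX Φ c t = Φ (Hd 1 aL v) * KX Φ c t' * (Φ (Hd 1 aL v))⁻¹ := by rw [← ht']; group
    rw [← hP, hK]
    have h1 := H.P1_KX c t'
    calc _ = Φ (Hd 1 aL v) * (cjH s Φ (Tr aL 0 (a0 hm) 1) * KX Φ c t') * (Φ (Hd 1 aL v))⁻¹ := by group
      _ = _ := by rw [h1]; group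

theorem RO.P'_KX (c : Fin 4) (u t : F) : cjH s Φ (Tr 0 aL (a0 hm).symm u) * KX Φ c t = KX Φ c t * cjH s Φ (Tr 0 aL (a0 hm).symm u) := by
  have h := W5 (SS (cjH s Φ)) (a0 hm) (a1 hm) z1 1 (-u)
  rw [SS_nw _ (a0 hm), SS_x _ (a0 hm), SS_x _ (a0 hm).symm] at h
  have e : (-((((1 : Fˣ)⁻¹ : Fˣ) : F) ^ 2 * -u)) = u := by simp
  rw [e] at h
  rw [← h]
  have h1 := H.M_KX c t
  have h2 := H.P_KX c (-u) t
  set M := cjH s Φ (nn aL 0 (a0 hm) 1)
  set X := cjH s Φ (Tr aL 0 (a0 hm) (-u))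
  have h3 : M⁻¹ * KX Φ c t = KX Φ c t * M⁻¹ := by
    rw [inv_mul_eq_iff_eq_mul, ← mul_assoc, h1, mul_assoc, mul_inv_cancel, mul_one]
  rw [mul_assoc, h3, ← mul_assoc, mul_assoc M, h2, ← mul_assoc, h1]
  group

end ro

section sl2

variable {F : Type*} [Field F] {G : Type*} [Group G]

theorem sl2_comm {f g : SL 2 F →* G} (h11 : ∀ t u, f (e12 t) * g (e12 u) = g (e12 u) * f (e12 t))
    (h12 : ∀ t u, f (e12 t) * g (e21 u) = g (e21 u) * f (e12 t))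
    (h21 : ∀ t u, f (e21 t) * g (e12 u) = g (e12 u) * f (e21 t))
    (h22 : ∀ t u, f (e21 t) * g (e21 u) = g (e21 u) * f (e21 t)) (x y : SL 2 F) : f x * g y = g y * f x := by
  have key : ∀ z : G, (∀ u, z * g (e12 u) = g (e12 u) * z) → (∀ u, z * g (e21 u) = g (e21 u) * z) → ∀ y, z * g y = g y * z := by
    intro z h1 h2 y
    have htop : (Subgroup.centralizer {z}).comap g = ⊤ := by
      apply sl2_top
      · intro t
        rw [Subgroup.mem_comap, Subgroup.mem_centralizer_iff]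
        rintro _ rfl
        exact h1 t
      · intro t
        rw [Subgroup.mem_comap, Subgroup.mem_centralizer_iff]
        rintro _ rfl
        exact h2 t
    have hy : y ∈ (Subgroup.centralizer {z}).comap g := by rw [htop]; trivial
    rw [Subgroup.mem_comap, Subgroup.mem_centralizer_iff] at hy
    exact hy _ rfl
  have htop : (Subgroup.centralizer {g y}).comap f = ⊤ := by
    apply sl2_top
    · intro t
      rw [Subgroup.mem_comap, Subgroup.mem_centralizer_iff]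
      rintro _ rfl
      exact (key _ (h11 t) (h12 t) y).symm
    · intro t
      rw [Subgroup.mem_comap, Subgroup.mem_centralizer_iff]
      rintro _ rfl
      exact (key _ (h21 t) (h22 t) y).symm
  have hx : x ∈ (Subgroup.centralizer {g y}).comap f := by rw [htop]; trivial
  rw [Subgroup.mem_comap, Subgroup.mem_centralizer_iff] at hx
  exact (hx _ rfl).symm

theorem e12_Tr (t : F) : (e12 t : SL 2 F) = Tr 0 1 (by decide) t := e12_tv t
theorem e21_Tr (t : F) : (e21 t : SL 2 F) = Tr 1 0 (by decide) t := e21_tv t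

theorem b12_12 (t : F) : b12 (e12 t) = Tr 0 1 (by decide) t := by rw [b12_e12', slx]
theorem b12_21 (t : F) : b12 (e21 t) = Tr 1 0 (by decide) t := by rw [b12_e21', slx]
theorem b23_12 (t : F) : b23 (e12 t) = Tr 1 2 (by decide) t := by rw [b23_e12', slx]
theorem b23_21 (t : F) : b23 (e21 t) = Tr 2 1 (by decide) t := by rw [b23_e21', slx]

end sl2

end H6.Om
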