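import Cfsg.Agent.Lib.H6.OmH

/-!
The second chain.
-/
set_option autoImplicit false
set_option linter.unusedSectionVars false
set_option linter.unusedVariables false

namespace H6.Om

open Equiv H43.SLPerm Matrix H60.DN H60.CTA H60.CT H22.RGD
open H43.SteinHom (Tr)
open H45.StPres (StPre slData)

section two

variable {n : ℕ} {F : Type*} [Field F]

theorem inj2 {a b : Fin n} (h : a ≠ b) : Function.Injective ![a, b] := by
  intro i j h'
  fin_cases i <;> fin_cases j <;> simp_all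

/-- rank one embedding -/
noncomputable def em2 {a b : Fin n} (h : a ≠ b) (F : Type*) [Field F] : SL 2 F →* SL n F := emb ![a, b] (inj2 h)

/-- rank two embedding -/
noncomputable def em3 {a b c : Fin n} (h1 : a ≠ b) (h2 : a ≠ c) (h3 : b ≠ c) (F : Type*) [Field F] : SL 3 F →* SL n F :=
  emb ![a, b, c] (inj3 h1 h2 h3)

theorem em2_12 {a b : Fin n} (h : a ≠ b) (t : F) : em2 h F (e12 t) = Tr a b h t := by
  rw [e12_Tr]; exact emb_tr _ _ _ _
theorem em2_21 {a b : Fin n} (h : a ≠ b) (t : F) : em2 h F (e21 t) = Tr b a h.symm t := by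
  rw [e21_Tr]; exact emb_tr _ _ _ _
theorem em3_12 {a b c : Fin n} (h1 : a ≠ b) (h2 : a ≠ c) (h3 : b ≠ c) (t : F) :
    em3 h1 h2 h3 F (b12 (e12 t)) = Tr a b h1 t := by
  rw [b12_12]; exact emb_tr _ _ _ _
theorem em3_21 {a b c : Fin n} (h1 : a ≠ b) (h2 : a ≠ c) (h3 : b ≠ c) (t : F) :
    em3 h1 h2 h3 F (b12 (e21 t)) = Tr b a h1.symm t := by
  rw [b12_21]; exact emb_tr _ _ _ _
theorem em3_23 {a b c : Fin n} (h1 : a ≠ b) (h2 : a ≠ c) (h3 : b ≠ c) (t : F) :
    em3 h1 h2 h3 F (b23 (e12 t)) = Tr b c h3 t := by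
  rw [b23_12]; exact emb_tr _ _ _ _
theorem em3_32 {a b c : Fin n} (h1 : a ≠ b) (h2 : a ≠ c) (h3 : b ≠ c) (t : F) :
    em3 h1 h2 h3 F (b23 (e21 t)) = Tr c b h3.symm t := by
  rw [b23_21]; exact emb_tr _ _ _ _

end two

section chain

variable {m : ℕ} {F : Type*} [Field F] {G : Type*} [Group G]

local notation "bL" => Fin.last (m + 1)
local notation "aL" => Fin.castSucc (Fin.last m)

theorem fne {n i j : ℕ} (hi : i < n) (hj : j < n) (h : i ≠ j) : (⟨i, hi⟩ : Fin n) ≠ ⟨j, hj⟩ :=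
  fun e => h (congrArg Fin.val e)

theorem exists_prime [Finite F] {hm : 2 ≤ m} {Φ : SpecialLinearGroup (Fin (m + 2)) F →* G} {s : G} (H : RO hm Φ s) :
    ∃ Φ' : SpecialLinearGroup (Fin (m + 2)) F →* G, DD (SS Φ) (SS Φ') bL ∧
      (∀ t, Φ' (Tr aL bL aL_ne t) = cjH s Φ (Tr aL 0 (a0 hm) t)) ∧
      (∀ t, Φ' (Tr bL aL aL_ne.symm t) = cjH s Φ (Tr 0 aL (a0 hm).symm t)) := by
  classical
  have va : (aL : Fin (m + 2)).val = m := aL_val
  have vb : (bL : Fin (m + 2)).val = m + 1 := bL_val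
  have v0 : (0 : Fin (m + 2)).val = 0 := by simp
  have v1 : (1 : Fin (m + 2)).val = 1 := by simp
  have ea : (aL : Fin (m + 2)) = ⟨m, by omega⟩ := Fin.ext va
  have eb : (bL : Fin (m + 2)) = ⟨m + 1, by omega⟩ := Fin.ext vb
  have e0 : (0 : Fin (m + 2)) = ⟨0, by omega⟩ := Fin.ext v0
  have e1 : (1 : Fin (m + 2)) = ⟨1, by omega⟩ := Fin.ext v1
  let Ψ := cjH s Φ
  let φ : ℕ → (SL 2 F →* G) := fun j =>
    if h : j < m then Φ.comp (em2 (fne (show j < m + 2 by omega) (show j + 1 < m + 2 by omega) (by omega)) F)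
    else Ψ.comp (em2 (a0 hm) F)
  let Θ : ℕ → (SL 3 F →* G) := fun j =>
    if h : 1 ≤ j ∧ j < m then Φ.comp (em3 (fne (show j - 1 < m + 2 by omega) (show j < m + 2 by omega) (by omega))
      (fne (show j - 1 < m + 2 by omega) (show j + 1 < m + 2 by omega) (by omega))
      (fne (show j < m + 2 by omega) (show j + 1 < m + 2 by omega) (by omega)) F)
    else Ψ.comp (em3 (show (⟨m - 1, by omega⟩ : Fin (m + 2)) ≠ aL by rw [ea]; exact fne _ _ (by omega))
      (show (⟨m - 1, by omega⟩ : Fin (m + 2)) ≠ 0 by rw [e0]; exact fne _ _ (by omega)) (a0 hm) F)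
  have hφ1 : ∀ j (h : j < m), φ j = Φ.comp (em2 (fne (show j < m + 2 by omega) (show j + 1 < m + 2 by omega) (by omega)) F) :=
    fun j h => dif_pos h
  have hφ2 : φ m = Ψ.comp (em2 (a0 hm) F) := dif_neg (lt_irrefl m)
  have hΘ1 : ∀ j (h : 1 ≤ j ∧ j < m), Θ j = Φ.comp (em3 (fne (show j - 1 < m + 2 by omega) (show j < m + 2 by omega) (by omega))
      (fne (show j - 1 < m + 2 by omega) (show j + 1 < m + 2 by omega) (by omega))
      (fne (show j < m + 2 by omega) (show j + 1 < m + 2 by omega) (by omega)) F) := fun j h => dif_pos h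
  have hΘ2 : Θ m = Ψ.comp (em3 (show (⟨m - 1, by omega⟩ : Fin (m + 2)) ≠ aL by rw [ea]; exact fne _ _ (by omega))
      (show (⟨m - 1, by omega⟩ : Fin (m + 2)) ≠ 0 by rw [e0]; exact fne _ _ (by omega)) (a0 hm) F) :=
    dif_neg (fun h => lt_irrefl m h.2)
  have C : Chain (m + 1) φ Θ := by
    refine ⟨?_, ?_, ?_⟩
    · intro j hj g
      rcases Nat.lt_or_ge (j + 1) m with h | h
      · rw [hΘ1 (j + 1) ⟨by omega, h⟩, hφ1 j (by omega)]
        refine DFunLike.congr_fun (hom_ext2 (f := (Φ.comp _).comp b12) (g := Φ.comp _) ?_ ?_) g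
        · intro t
          show Φ (em3 _ _ _ F (b12 (e12 t))) = Φ (em2 _ F (e12 t))
          rw [em3_12, em2_12]
          rfl
        · intro t
          show Φ (em3 _ _ _ F (b12 (e21 t))) = Φ (em2 _ F (e21 t))
          rw [em3_21, em2_21]
          rfl
      · obtain rfl : m = j + 1 := by omega
        rw [hΘ2, hφ1 j (by omega)]
        refine DFunLike.congr_fun (hom_ext2 (f := (Ψ.comp _).comp b12) (g := Φ.comp _) ?_ ?_) g
        · intro t
          show Ψ (em3 _ _ _ F (b12 (e12 t))) = Φ (em2 _ F (e12 t))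
          rw [em3_12, em2_12]
          exact H.fix _ (by simp; omega) (by simp) (by simp) (by simp) t
        · intro t
          show Ψ (em3 _ _ _ F (b12 (e21 t))) = Φ (em2 _ F (e21 t))
          rw [em3_21, em2_21]
          exact H.fix _ (by simp) (by simp) (by simp; omega) (by simp) t
    · intro j hj g
      rcases Nat.lt_or_ge (j + 1) m with h | h
      · rw [hΘ1 (j + 1) ⟨by omega, h⟩, hφ1 (j + 1) (by omega)]
        refine DFunLike.congr_fun (hom_ext2 (f := (Φ.comp _).comp b23) (g := Φ.comp _) ?_ ?_) g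
        · intro t
          show Φ (em3 _ _ _ F (b23 (e12 t))) = Φ (em2 _ F (e12 t))
          rw [em3_23, em2_12]
        · intro t
          show Φ (em3 _ _ _ F (b23 (e21 t))) = Φ (em2 _ F (e21 t))
          rw [em3_32, em2_21]
      · obtain rfl : m = j + 1 := by omega
        rw [hΘ2, hφ2]
        refine DFunLike.congr_fun (hom_ext2 (f := (Ψ.comp _).comp b23) (g := Ψ.comp _) ?_ ?_) g
        · intro t
          show Ψ (em3 _ _ _ F (b23 (e12 t))) = Ψ (em2 _ F (e12 t))
          rw [em3_23, em2_12]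
        · intro t
          show Ψ (em3 _ _ _ F (b23 (e21 t))) = Ψ (em2 _ F (e21 t))
          rw [em3_32, em2_21]
    · intro i j hij hj
      rcases Nat.lt_or_ge j m with h | h
      · rw [hφ1 i (by omega), hφ1 j h]
        apply sl2_comm <;> intro t u
        all_goals
          show Φ (em2 _ F _) * Φ (em2 _ F _) = Φ (em2 _ F _) * Φ (em2 _ F _)
          rw [← map_mul, ← map_mul]
          congr 1
        · rw [em2_12, em2_12]; exact Tr_commute _ _ (fne _ _ (by omega)) (fne _ _ (by omega)) _ _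
        · rw [em2_12, em2_21]; exact Tr_commute _ _ (fne _ _ (by omega)) (fne _ _ (by omega)) _ _
        · rw [em2_21, em2_12]; exact Tr_commute _ _ (fne _ _ (by omega)) (fne _ _ (by omega)) _ _
        · rw [em2_21, em2_21]; exact Tr_commute _ _ (fne _ _ (by omega)) (fne _ _ (by omega)) _ _
      · obtain rfl : j = m := by omega
        rw [hφ1 i (by omega), hφ2]
        by_cases hi : i = 0
        · subst hi
          apply sl2_comm <;> intro t u
          · show Φ (em2 _ F (e12 t)) * Ψ (em2 _ F (e12 u)) = Ψ (em2 _ F (e12 u)) * Φ (em2 _ F (e12 t))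
            rw [em2_12, em2_12]
            exact (H.P_KX 0 u t).symm
          · show Φ (em2 _ F (e12 t)) * Ψ (em2 _ F (e21 u)) = Ψ (em2 _ F (e21 u)) * Φ (em2 _ F (e12 t))
            rw [em2_12, em2_21]
            exact (H.P'_KX 0 u t).symm
          · show Φ (em2 _ F (e21 t)) * Ψ (em2 _ F (e12 u)) = Ψ (em2 _ F (e12 u)) * Φ (em2 _ F (e21 t))
            rw [em2_21, em2_12]
            exact (H.P_KX 1 u t).symm
          · show Φ (em2 _ F (e21 t)) * Ψ (em2 _ F (e21 u)) = Ψ (em2 _ F (e21 u)) * Φ (em2 _ F (e21 t))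
            rw [em2_21, em2_21]
            exact (H.P'_KX 1 u t).symm
        · apply sl2_comm <;> intro t u
          all_goals
            show Φ (em2 _ F _) * Ψ (em2 _ F _) = Ψ (em2 _ F _) * Φ (em2 _ F _)
          · rw [em2_12, em2_12, ← H.fix _ (by simp; omega) (by simp; omega) (by simp) (by simp; omega), ← map_mul, ← map_mul]
            congr 1
            exact Tr_commute _ _ (by rw [e0]; exact fne _ _ (by omega)) (by rw [ea]; exact fne _ _ (by omega)) _ _
          · rw [em2_12, em2_21, ← H.fix _ (by simp; omega) (by simp; omega) (by simp) (by simp; omega), ← map_mul, ← map_mul]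
            congr 1
            exact Tr_commute _ _ (by rw [ea]; exact fne _ _ (by omega)) (by rw [e0]; exact fne _ _ (by omega)) _ _
          · rw [em2_21, em2_12, ← H.fix _ (by simp) (by simp; omega) (by simp; omega) (by simp; omega), ← map_mul, ← map_mul]
            congr 1
            exact Tr_commute _ _ (by rw [e0]; exact fne _ _ (by omega)) (by rw [ea]; exact fne _ _ (by omega)) _ _
          · rw [em2_21, em2_21, ← H.fix _ (by simp) (by simp; omega) (by simp; omega) (by simp; omega), ← map_mul, ← map_mul]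
            congr 1
            exact Tr_commute _ _ (by rw [ea]; exact fne _ _ (by omega)) (by rw [e0]; exact fne _ _ (by omega)) _ _
  obtain ⟨k, rfl⟩ : ∃ k, m = k + 1 := ⟨m - 1, by omega⟩
  obtain ⟨S', hS'⟩ := C.exists_st k le_rfl
  obtain ⟨Φ', hΦ'⟩ := exists_hom S'
  have hx : ∀ {i j : Fin (k + 1 + 2)} (h : i ≠ j) (t : F), (SS Φ').x i j t = S'.x i j t := by
    intro i j h t
    rw [SS_x Φ' h]
    exact hΦ' i j h t
  have hadj : ∀ i (hi : i + 1 < k + 1 + 2) (t : F), Φ' (Tr ⟨i, by omega⟩ ⟨i + 1, hi⟩ (fne _ _ (by omega)) t) = φ i (e12 t) ∧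
      Φ' (Tr ⟨i + 1, hi⟩ ⟨i, by omega⟩ (fne _ _ (by omega)) t) = φ i (e21 t) := by
    intro i hi t
    exact ⟨(hΦ' _ _ (fne _ _ (by omega)) t).trans (hS' i hi t).1, (hΦ' _ _ (fne _ _ (by omega)) t).trans (hS' i hi t).2⟩
  have hab1 : ∀ t, Φ' (Tr (Fin.castSucc (Fin.last (k + 1))) (Fin.last (k + 1 + 1)) aL_ne t) =
      cjH s Φ (Tr (Fin.castSucc (Fin.last (k + 1))) 0 (a0 hm) t) := by
    intro t
    have h1 := (hadj (k + 1) (by omega) t).1
    rw [hφ2] at h1
    refine h1.trans ?_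
    show Ψ (em2 _ F (e12 t)) = _
    rw [em2_12]
  have hab2 : ∀ t, Φ' (Tr (Fin.last (k + 1 + 1)) (Fin.castSucc (Fin.last (k + 1))) aL_ne.symm t) =
      cjH s Φ (Tr 0 (Fin.castSucc (Fin.last (k + 1))) (a0 hm).symm t) := by
    intro t
    have h1 := (hadj (k + 1) (by omega) t).2
    rw [hφ2] at h1
    refine h1.trans ?_
    show Ψ (em2 _ F (e21 t)) = _
    rw [em2_21]
  have hval : ∀ j : Fin (k + 1 + 2), j ≠ Fin.last (k + 1 + 1) → j.val < k + 1 + 1 := by
    intro j hj
    have h1 : j.val ≠ k + 1 + 1 := fun h => hj (Fin.ext h)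
    have := j.2
    omega
  have common : ∀ i j, i ≠ Fin.last (k + 1 + 1) → j ≠ Fin.last (k + 1 + 1) → i ≠ j → ∀ t, (SS Φ).x i j t = (SS Φ').x i j t := by
    intro i j hi hj hij t
    refine H60.DN.eq_of_adj (SS Φ) (SS Φ') (k + 1 + 1) ?_ i j hij (hval i hi) (hval j hj) t
    intro i hi him t
    rw [SS_x Φ (fne _ _ (by omega)), SS_x Φ' (fne _ _ (by omega)), SS_x Φ (fne _ _ (by omega)), SS_x Φ' (fne _ _ (by omega)),
      (hadj i hi t).1, (hadj i hi t).2, hφ1 i (by omega)]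
    show Φ _ = Φ (em2 _ F (e12 t)) ∧ Φ _ = Φ (em2 _ F (e21 t))
    rw [em2_12, em2_21]
    exact ⟨rfl, rfl⟩
  have three : ∀ i j : Fin (k + 1 + 2), ∃ l, l ≠ i ∧ l ≠ j := by
    intro i j
    obtain ⟨l, hl⟩ : ∃ l, l ∉ ({i, j} : Finset (Fin (k + 1 + 2))) := by
      by_contra hcon
      push Not at hcon
      have h1 : (Finset.univ : Finset (Fin (k + 1 + 2))) ⊆ {i, j} := fun k _ => hcon k
      have h2 := Finset.card_le_card h1
      have h3 : ({i, j} : Finset (Fin (k + 1 + 2))).card ≤ 2 := Finset.card_le_two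
      rw [Finset.card_univ, Fintype.card_fin] at h2
      omega
    simp only [Finset.mem_insert, Finset.mem_singleton, not_or] at hl
    exact ⟨l, hl.1, hl.2⟩
  refine ⟨Φ', ?_, hab1, hab2⟩
  apply dd_of aL_ne three common
  · intro x hx y hy
    rw [mem_R _ aL_ne] at hx hy
    obtain ⟨t, rfl⟩ := hx
    obtain ⟨u, rfl⟩ := hy
    rw [SS_x Φ aL_ne, SS_x Φ' aL_ne, hab1]
    exact (H.P_KX 2 u t).symm
  · intro x hx y hy
    rw [mem_R _ aL_ne] at hx
    rw [mem_R _ aL_ne.symm] at hy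
    obtain ⟨t, rfl⟩ := hx
    obtain ⟨u, rfl⟩ := hy
    rw [SS_x Φ aL_ne, SS_x Φ' aL_ne.symm, hab2]
    exact (H.P'_KX 2 u t).symm
  · intro x hx y hy
    rw [mem_R _ aL_ne.symm] at hx
    rw [mem_R _ aL_ne] at hy
    obtain ⟨t, rfl⟩ := hx
    obtain ⟨u, rfl⟩ := hy
    rw [SS_x Φ aL_ne.symm, SS_x Φ' aL_ne, hab1]
    exact (H.P_KX 3 u t).symm
  · intro x hx y hy
    rw [mem_R _ aL_ne.symm] at hx hy
    obtain ⟨t, rfl⟩ := hx
    obtain ⟨u, rfl⟩ := hy
    rw [SS_x Φ aL_ne.symm, SS_x Φ' aL_ne.symm, hab2]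
    exact (H.P'_KX 3 u t).symm

end chain

end H6.Om
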