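import Cfsg.Agent.Lib.H6.OmI
import Cfsg.Agent.Lib.H60.DnO

/-!
The relations hold in the orthogonal group.
-/
set_option autoImplicit false
set_option linter.unusedSectionVars false
set_option linter.unusedVariables false

namespace H6.Om

open Equiv H43.SLPerm Matrix H60.DN H60.CTA H60.CT H22.RGD
open H43.SteinHom (Tr)
open H45.StPres (StPre slData)

section gen

variable {m : ℕ} {F : Type*} [Field F] {G : Type*} [Group G]

local notation "bL" => Fin.last (m + 1)
local notation "aL" => Fin.castSucc (Fin.last m)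

theorem mv_mul {n : ℕ} (A B : SpecialLinearGroup (Fin n) F) (v : Fin n → F) :
    (A * B).1.mulVec v = A.1.mulVec (B.1.mulVec v) := by
  rw [Matrix.mulVec_mulVec]; rfl

theorem nn_braid {n : ℕ} {i j k : Fin n} (hij : i ≠ j) (hjk : j ≠ k) (hik : i ≠ k) :
    (nn j k hjk (-1) : SpecialLinearGroup (Fin n) F) * nn i j hij 1 * nn j k hjk (-1) =
      nn i j hij 1 * nn j k hjk (-1) * nn i j hij 1 := by
  apply Subtype.ext
  apply ext_mulVec
  intro v
  funext l
  simp only [mv_mul, nn_mulVec]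
  by_cases h1 : l = i
  · subst h1
    simp [hij, hik, hjk, hij.symm, hik.symm, hjk.symm]
  · by_cases h2 : l = j
    · subst h2
      simp [hij, hik, hjk, hij.symm, hik.symm, hjk.symm]
    · by_cases h3 : l = k
      · subst h3
        simp [hij, hik, hjk, hij.symm, hik.symm, hjk.symm]
      · simp [h1, h2, h3]

theorem nn_Hd {n : ℕ} {i j k : Fin n} (hij : i ≠ j) (hjk : j ≠ k) (hik : i ≠ k) :
    (nn j k hjk (-1) : SpecialLinearGroup (Fin n) F) * Hd i j (-1) * (nn j k hjk (-1))⁻¹ = Hd i k (-1) := by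
  rw [mul_inv_eq_iff_eq_mul]
  apply Subtype.ext
  apply ext_mulVec
  intro v
  funext l
  simp only [mv_mul, Hd_mulVec _ _ hij, Hd_mulVec _ _ hik, nn_mulVec]
  by_cases h1 : l = i
  · subst h1
    simp [hij, hik, hjk, hij.symm, hik.symm, hjk.symm]
  · by_cases h2 : l = j
    · subst h2
      simp [hij, hik, hjk, hij.symm, hik.symm, hjk.symm]
    · by_cases h3 : l = k
      · subst h3
        simp [hij, hik, hjk, hij.symm, hik.symm, hjk.symm]
      · simp [h1, h2, h3]

theorem nn_Tr {n : ℕ} {i j k : Fin n} (hij : i ≠ j) (hjk : j ≠ k) (hik : i ≠ k) (t : F) :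
    (nn j k hjk (-1) : SpecialLinearGroup (Fin n) F) * Tr i j hij t * (nn j k hjk (-1))⁻¹ = Tr i k hik t := by
  have h := W4 (slData F n) hjk hij.symm hik.symm (-1) t
  have e : nw (slData F n) j k (-1) = nn j k hjk (-1) := by
    unfold nw nn
    rw [slx hjk, slx hjk.symm]
  rw [e, slx hij, slx hik] at h
  rw [h]
  congr 1
  simp

variable {Φ Φ' : SpecialLinearGroup (Fin (m + 2)) F →* G}

theorem RO.of_dd (hm : 2 ≤ m) (D : DD (SS Φ) (SS Φ') bL) (hz : Φ (Hd aL bL (-1)) * Φ' (Hd aL bL (-1)) = 1) :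
    RO hm Φ (Φ' (nn 0 bL b0.symm (-1))) := by
  have va : (aL : Fin (m + 2)).val = m := aL_val
  have vb : (bL : Fin (m + 2)).val = m + 1 := bL_val
  have hP : Φ' (nn 0 bL b0.symm (-1)) * Φ (Tr aL 0 (a0 hm) 1) * (Φ' (nn 0 bL b0.symm (-1)))⁻¹ = Φ' (Tr aL bL aL_ne 1) := by
    rw [eqBL D aL_ne b0.symm (a0 hm) (Tr_BL _ _), ← map_mul, ← map_inv, ← map_mul, nn_Tr _ _ aL_ne]
  have hH : Φ' (nn 0 bL b0.symm (-1)) * Φ (Hd aL 0 (-1)) * (Φ' (nn 0 bL b0.symm (-1)))⁻¹ = Φ' (Hd aL bL (-1)) := by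
    rw [eqBL D aL_ne b0.symm (a0 hm) (Hd_BL _ _), ← map_mul, ← map_inv, ← map_mul, nn_Hd (a0 hm) _ aL_ne]
  refine ⟨?_, ?_, ?_, ?_, ?_, ?_, ?_, ?_, ?_⟩
  · intro i j h i1 i2 j1 j2 t
    have hib : i ≠ bL := fun e => by rw [e, vb] at i2; omega
    have hjb : j ≠ bL := fun e => by rw [e, vb] at j2; omega
    have hi0 : i ≠ 0 := fun e => by rw [e] at i1; simp at i1
    have hj0 : j ≠ 0 := fun e => by rw [e] at j1; simp at j1
    rw [eqBL D hib hjb h (Tr_BL _ _), ← map_mul, ← map_mul]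
    congr 1
    have c1 : Commute (Tr 0 bL b0.symm ((-1 : Fˣ) : F)) (Tr i j h t : SpecialLinearGroup (Fin (m + 2)) F) :=
      Tr_commute _ _ hj0.symm hib.symm _ _
    have c2 : Commute (Tr bL 0 b0 (-(((-1 : Fˣ)⁻¹ : Fˣ) : F))) (Tr i j h t : SpecialLinearGroup (Fin (m + 2)) F) :=
      Tr_commute _ _ hjb.symm hi0.symm _ _
    exact ((c1.mul_left c2).mul_left c1)
  · intro t
    exact (commBL D b0.symm (Tr_BL _ t) (nn_BL _ _)).symm
  · intro t
    exact (commBL D b0.symm (Tr_BL' _ t) (nn_BL _ _)).symm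
  · rw [eqBL D aL_ne b0.symm (a0 hm) (nn_BL _ _), ← map_mul, ← map_mul, ← map_mul, ← map_mul, nn_braid _ _ aL_ne]
  · intro t
    rw [hP, eqBL D b0.symm (b1 hm).symm z1 (Tr_BL _ _), ← map_mul, ← map_mul]
    congr 1
    exact Tr_commute _ _ (a1 hm) b0 _ _
  · intro t
    rw [hP, eqBL D (b1 hm).symm b0.symm z1.symm (Tr_BL _ _), ← map_mul, ← map_mul]
    congr 1
    exact Tr_commute _ _ (a0 hm) (b1 hm) _ _
  · intro t
    rw [hP]
    exact (commBL D aL_ne (Tr_BL _ t) (Tr_BL _ _)).symm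
  · intro t
    rw [hP]
    exact (commBL D aL_ne (Tr_BL' _ t) (Tr_BL _ _)).symm
  · rw [hH, hz]

end gen

section target

variable {m : ℕ} (F : Type*) [Field F]

local notation "bL" => Fin.last (m + 1)
local notation "aL" => Fin.castSucc (Fin.last m)

/-- the second homomorphism -/
def lev' (m : ℕ) (F : Type*) [Field F] : SpecialLinearGroup (Fin (m + 2)) F →* OO (m + 2) F :=
  (al (Fin.last (m + 1))).comp (lev (m + 2) F)

theorem D0 [Finite F] (hm : 2 ≤ m) : DD (SS (lev (m + 2) F)) (SS (lev' m F)) bL := by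
  have three : ∀ i j : Fin (m + 2), ∃ l, l ≠ i ∧ l ≠ j := by
    intro i j
    obtain ⟨l, hl⟩ : ∃ l, l ∉ ({i, j} : Finset (Fin (m + 2))) := by
      by_contra hcon
      push Not at hcon
      have h1 : (Finset.univ : Finset (Fin (m + 2))) ⊆ {i, j} := fun k _ => hcon k
      have h2 := Finset.card_le_card h1
      have h3 : ({i, j} : Finset (Fin (m + 2))).card ≤ 2 := Finset.card_le_two
      rw [Finset.card_univ, Fintype.card_fin] at h2
      omega
    simp only [Finset.mem_insert, Finset.mem_singleton, not_or] at hl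
    exact ⟨l, hl.1, hl.2⟩
  obtain ⟨o1, o2, o3, o4⟩ := SM_orth (F := F) (aL_ne (m := m))
  exact dd_of (S := SM (m + 2) F) (S' := SM' bL F) aL_ne three (fun i j hi hj hij t => SM_common hi hj hij t) o1 o2 o3 o4

theorem coe_Hd (i j : Fin (m + 2)) (t : Fˣ) : coeM (m + 2) F (lev (m + 2) F (Hd i j t)) =
    Matrix.diagonal (Sum.elim (fun k => (Hf i j t k : F)) (fun k => ((Hf i j t k)⁻¹ : Fˣ))) := levM_Dg _

theorem hz0 : lev (m + 2) F (Hd aL bL (-1)) * lev' m F (Hd aL bL (-1)) = 1 := by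
  apply coeM_injective
  rw [map_mul, map_one]
  have h2 : coeM (m + 2) F (lev' m F (Hd aL bL (-1))) =
      (coeM (m + 2) F (lev (m + 2) F (Hd aL bL (-1)))).submatrix (tau bL) (tau bL) := coe_al _ _
  rw [h2, coe_Hd, Matrix.submatrix_diagonal_equiv, Matrix.diagonal_mul_diagonal, ← Matrix.diagonal_one]
  congr 1
  have hf : ∀ k, Hf (aL : Fin (m + 2)) bL (-1 : Fˣ) k = 1 ∨ Hf (aL : Fin (m + 2)) bL (-1 : Fˣ) k = -1 := by
    intro k
    unfold Hf
    simp only [Pi.mul_apply, Pi.inv_apply, Pi.mulSingle_apply]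
    split_ifs <;> simp
  have hi : ∀ k, (Hf (aL : Fin (m + 2)) bL (-1 : Fˣ) k)⁻¹ = Hf (aL : Fin (m + 2)) bL (-1 : Fˣ) k := by
    intro k
    rcases hf k with h | h <;> rw [h] <;> simp
  have hsq : ∀ k, ((Hf (aL : Fin (m + 2)) bL (-1 : Fˣ) k : Fˣ) : F) * ((Hf (aL : Fin (m + 2)) bL (-1 : Fˣ) k : Fˣ) : F) = 1 := by
    intro k
    rcases hf k with h | h <;> rw [h] <;> simp
  funext κ
  have ht : tau bL κ = κ ∨ tau bL κ = κ.swap := by
    rcases κ with k | k
    · by_cases h : k = bL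
      · subst h; right; rw [tau_lb]; rfl
      · left; exact tau_l h
    · by_cases h : k = bL
      · subst h; right; rw [tau_rb]; rfl
      · left; exact tau_r h
  rcases κ with k | k
  · rcases ht with h | h
    · simp only [Function.comp_apply, h, Sum.elim_inl]
      exact hsq k
    · simp only [Function.comp_apply, h, Sum.elim_inl, Sum.swap_inl, Sum.elim_inr, hi]
      exact hsq k
  · rcases ht with h | h
    · simp only [Function.comp_apply, h, Sum.elim_inr, hi]
      exact hsq k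
    · simp only [Function.comp_apply, h, Sum.elim_inr, Sum.swap_inr, Sum.elim_inl, hi]
      exact hsq k

/-- the extra generator -/
def s0 (m : ℕ) (F : Type*) [Field F] : OO (m + 2) F := lev' m F (nn 0 (Fin.last (m + 1)) b0.symm (-1))

theorem RO0 [Finite F] (hm : 2 ≤ m) : RO hm (lev (m + 2) F) (s0 m F) := RO.of_dd hm (D0 F hm) (hz0 F)

end target

end H6.Om
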