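import Cfsg.Agent.Lib.H6.OmJ
import Cfsg.Agent.Lib.H6.OmE

/-!
The graph of the homomorphism.
-/
set_option autoImplicit false
set_option linter.unusedSectionVars false
set_option linter.unusedVariables false

namespace H6.Om

open Equiv H43.SLPerm Matrix H60.DN H60.CTA H60.CT H22.RGD
open H43.SteinHom (Tr)
open H45.StPres (StPre slData)
open H48.QuadStd (qPlus)

section omega

variable {F : Type*} [Field F] {m : ℕ}

/-- the standard root elements generate the commutator subgroup, all fields -/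
theorem omega_le' [Fintype F] (hm : 2 ≤ m) (H : Subgroup (OO (m + 2) F))
    (h1 : ∀ i j, i ≠ j → ∀ t, (SM (m + 2) F).x i j t ∈ H)
    (h2 : ∀ i j, i ≠ j → ∀ t, (SM' (Fin.last (m + 1)) F).x i j t ∈ H) : commutator (OO (m + 2) F) ≤ H := by
  let b : Fin (m + 2) := Fin.last (m + 1)
  have hcl : ∀ i : Fin (m + 1), i.castSucc ≠ b := fun i => (Fin.castSucc_lt_last i).ne
  -- basis Siegel elements
  have hE : ∀ (κ : E (m + 1)) (c : F), ∃ g ∈ H,
      (eqv m F g : (F × F × (E (m + 1) → F)) ≃ₗ[F] (F × F × (E (m + 1) → F))) = H7.Hyp.E (qPlus (m + 1) F) (c • bb κ) := by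
    intro κ c
    rcases κ with i | i
    · refine ⟨_, h2 i.castSucc b (hcl i) c, E_bb ?_⟩
      rw [coe_SM' (hcl i), tau_l (hcl i), tau_lb]; rfl
    · refine ⟨_, h1 b i.castSucc (hcl i).symm (-c), E_bb ?_⟩
      rw [coe_SM (hcl i).symm]
      exact rt_dual (.inr i.castSucc) (.inr b) c
  have hE' : ∀ (κ : E (m + 1)) (c : F), ∃ g ∈ H,
      (eqv m F g : (F × F × (E (m + 1) → F)) ≃ₗ[F] (F × F × (E (m + 1) → F))) = H7.Omega.E' (qPlus (m + 1) F) (c • bb κ) := by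
    intro κ c
    rcases κ with i | i
    · refine ⟨_, h1 i.castSucc b (hcl i) c, E'_bb ?_⟩
      rw [coe_SM (hcl i)]; rfl
    · refine ⟨_, h2 b i.castSucc (hcl i).symm (-c), E'_bb ?_⟩
      rw [coe_SM' (hcl i).symm, tau_l (hcl i), tau_lb]
      exact rt_dual (.inr i.castSucc) (.inl b) c
  have hsum : ∀ w : E (m + 1) → F, ∀ s : Finset (E (m + 1)), ∃ g ∈ H,
      (eqv m F g : (F × F × (E (m + 1) → F)) ≃ₗ[F] (F × F × (E (m + 1) → F))) =
        H7.Hyp.E (qPlus (m + 1) F) (∑ κ ∈ s, w κ • bb κ) := by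
    intro w s
    induction s using Finset.induction_on with
    | empty =>
      refine ⟨1, H.one_mem, ?_⟩
      rw [Finset.sum_empty, H7.Omega.E_zero, map_one]; rfl
    | insert κ s hκ ih =>
      obtain ⟨g, hg, e⟩ := ih
      obtain ⟨g', hg', e'⟩ := hE κ (w κ)
      refine ⟨g' * g, H.mul_mem hg' hg, ?_⟩
      rw [Finset.sum_insert hκ, ← H7.Omega.E_mul, ← e, ← e', map_mul]; rfl
  have hsum' : ∀ w : E (m + 1) → F, ∀ s : Finset (E (m + 1)), ∃ g ∈ H,
      (eqv m F g : (F × F × (E (m + 1) → F)) ≃ₗ[F] (F × F × (E (m + 1) → F))) =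
        H7.Omega.E' (qPlus (m + 1) F) (∑ κ ∈ s, w κ • bb κ) := by
    intro w s
    induction s using Finset.induction_on with
    | empty =>
      refine ⟨1, H.one_mem, ?_⟩
      rw [Finset.sum_empty, map_one, H7.Omega.E'_eq, H7.Omega.E_zero, mul_one, mul_inv_cancel]; rfl
    | insert κ s hκ ih =>
      obtain ⟨g, hg, e⟩ := ih
      obtain ⟨g', hg', e'⟩ := hE' κ (w κ)
      refine ⟨g' * g, H.mul_mem hg' hg, ?_⟩
      rw [Finset.sum_insert hκ, ← H7.Omega.E'_mul, ← e, ← e', map_mul]; rfl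
  have hOm : ∀ x ∈ H7.Omega.Om (qPlus (m + 1) F), ∃ g ∈ H,
      (eqv m F g : (F × F × (E (m + 1) → F)) ≃ₗ[F] (F × F × (E (m + 1) → F))) = x := by
    intro x hx
    unfold H7.Omega.Om at hx
    induction hx using Subgroup.closure_induction with
    | mem x hx =>
      rcases hx with ⟨w, rfl⟩ | ⟨w, rfl⟩
      · obtain ⟨g, hg, e⟩ := hsum w Finset.univ
        exact ⟨g, hg, by rw [e, ← sum_bb]⟩
      · obtain ⟨g, hg, e⟩ := hsum' w Finset.univ
        exact ⟨g, hg, by rw [e, ← sum_bb]⟩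
    | one => exact ⟨1, H.one_mem, by rw [map_one]; rfl⟩
    | mul x y _ _ hx hy =>
      obtain ⟨g, hg, rfl⟩ := hx
      obtain ⟨g', hg', rfl⟩ := hy
      exact ⟨g * g', H.mul_mem hg hg', by rw [map_mul]; rfl⟩
    | inv x _ hx =>
      obtain ⟨g, hg, rfl⟩ := hx
      exact ⟨g⁻¹, H.inv_mem hg, by rw [map_inv]; rfl⟩
  intro g hg
  have hfin : Module.finrank F (E (m + 1) → F) ≠ 4 := by
    rw [Module.finrank_fintype_fun_eq_card, Fintype.card_sum, Fintype.card_fin]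
    omega
  have hcomm := H7.Omega.commutator_le (H7.HypOrd.nd_plus (F := F) (m + 1))
    (H7.OmegaIso.xr_of (H7.HypOrd.nd_plus (F := F) (m + 1)) (Or.inr hfin))
  have h3 : (eqv m F g : (F × F × (E (m + 1) → F)) ≃ₗ[F] (F × F × (E (m + 1) → F))) ∈ H7.Omega.Om (qPlus (m + 1) F) := by
    apply hcomm
    rw [← H7.OmegaIso.map_subtype_commutator']
    refine ⟨eqv m F g, ?_, rfl⟩
    rw [← H17.OrthTrans2.commutator_map (eqv m F)]
    exact ⟨g, hg, rfl⟩
  obtain ⟨g', hg', e⟩ := hOm _ h3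
  have h4 : eqv m F g' = eqv m F g := Subtype.ext e
  rw [(eqv m F).injective h4] at hg'
  exact hg'

theorem lev_mem (n : ℕ) (hn : 3 ≤ n) (A : SpecialLinearGroup (Fin n) F) {G : Type*} [Group G]
    (θ : SpecialLinearGroup (Fin n) F →* G) : θ A ∈ commutator G := by
  have h1 : A ∈ commutator (SpecialLinearGroup (Fin n) F) := by
    rw [H6.SLGen.commutator_eq_top (by simpa using hn)]; trivial
  have h2 : (commutator (SpecialLinearGroup (Fin n) F)).map θ ≤ commutator G := by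
    rw [commutator_def, Subgroup.map_commutator]
    exact Subgroup.commutator_mono le_top le_top
  exact h2 ⟨A, h1, rfl⟩

end omega

section graph

variable {m : ℕ} {F : Type*} [Field F] {G : Type*} [Group G]

local notation "bL" => Fin.last (m + 1)
local notation "aL" => Fin.castSucc (Fin.last m)

theorem RO.prod {G' : Type*} [Group G'] {hm : 2 ≤ m} {Φ : SpecialLinearGroup (Fin (m + 2)) F →* G} {s : G}
    {Φ' : SpecialLinearGroup (Fin (m + 2)) F →* G'} {s' : G'} (H : RO hm Φ s) (H' : RO hm Φ' s') :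
    RO hm (Φ.prod Φ') (s, s') := by
  refine ⟨?_, ?_, ?_, ?_, ?_, ?_, ?_, ?_, ?_⟩
  · intro i j h i1 i2 j1 j2 t
    exact Prod.ext (H.c1 i j h i1 i2 j1 j2 t) (H'.c1 i j h i1 i2 j1 j2 t)
  · intro t
    exact Prod.ext (H.c2 t) (H'.c2 t)
  · intro t
    exact Prod.ext (H.c2' t) (H'.c2' t)
  · exact Prod.ext H.br H'.br
  · intro t
    exact Prod.ext (H.c4 t) (H'.c4 t)
  · intro t
    exact Prod.ext (H.c5 t) (H'.c5 t)
  · intro t
    exact Prod.ext (H.c6 t) (H'.c6 t)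
  · intro t
    exact Prod.ext (H.c7 t) (H'.c7 t)
  · exact Prod.ext H.zz H'.zz

theorem nn_Tr' {n : ℕ} {i j k : Fin n} (hij : i ≠ j) (hjk : j ≠ k) (hik : i ≠ k) (t : F) :
    (nn j k hjk (-1) : SpecialLinearGroup (Fin n) F) * Tr j i hij.symm t * (nn j k hjk (-1))⁻¹ = Tr k i hik.symm t := by
  have h := W1 (slData F n) hjk hij.symm hik.symm (-1) t
  have e : nw (slData F n) j k (-1) = nn j k hjk (-1) := by
    unfold nw nn
    rw [slx hjk, slx hjk.symm]
  rw [e, slx hij.symm, slx hik.symm] at h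
  rw [h]
  congr 1
  simp

theorem s0_conj [Finite F] (hm : 2 ≤ m) (t : F) : cjH (s0 m F) (lev (m + 2) F) (Tr aL 0 (a0 hm) t) = lev' m F (Tr aL bL aL_ne t) := by
  have e := eqBL (D0 F hm) aL_ne b0.symm (a0 hm) (Tr_BL (a0 hm) t)
  rw [cjH_apply, e]
  unfold s0
  rw [← map_mul, ← map_inv, ← map_mul, nn_Tr _ _ aL_ne]

theorem s0_conj' [Finite F] (hm : 2 ≤ m) (t : F) :
    cjH (s0 m F) (lev (m + 2) F) (Tr 0 aL (a0 hm).symm t) = lev' m F (Tr bL aL aL_ne.symm t) := by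
  have e := eqBL (D0 F hm) aL_ne b0.symm (a0 hm) (Tr_BL' (a0 hm) t)
  rw [cjH_apply, e]
  unfold s0
  rw [← map_mul, ← map_inv, ← map_mul, nn_Tr' (a0 hm) _ aL_ne]

theorem graph [Fintype F] {hm : 2 ≤ m} {Φ : SpecialLinearGroup (Fin (m + 2)) F →* G} {s : G} (H : RO hm Φ s) :
    ∃ f : ↥(commutator (OO (m + 2) F)) →* G,
      (∀ A (h : lev (m + 2) F A ∈ commutator (OO (m + 2) F)), f ⟨lev (m + 2) F A, h⟩ = Φ A) ∧
      (∀ h : s0 m F ∈ commutator (OO (m + 2) F), f ⟨s0 m F, h⟩ = s) := by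
  have va : (aL : Fin (m + 2)).val = m := aL_val
  have vb : (bL : Fin (m + 2)).val = m + 1 := bL_val
  have : Nontrivial (Fin (m + 2)) := ⟨⟨0, 1, z1⟩⟩
  have hD0 := D0 F hm
  set Ψ : SpecialLinearGroup (Fin (m + 2)) F →* G × OO (m + 2) F := Φ.prod (lev (m + 2) F) with hΨ
  have Hp : RO hm Ψ (s, s0 m F) := H.prod (RO0 F hm)
  obtain ⟨Ψ', D, hab1, hab2⟩ := exists_prime Hp
  obtain ⟨memT, memT'⟩ := adj_mem D
  -- the second component
  have hsnd : ∀ i j : Fin (m + 2), i ≠ j → ∀ t, (SS ((MonoidHom.snd G (OO (m + 2) F)).comp Ψ')).x i j t = (SS (lev' m F)).x i j t := by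
    intro i j hij t
    refine eq_of_adj _ _ (m + 2) ?_ i j hij i.2 j.2 t
    intro i hi _ t
    have n3 : (⟨i, by omega⟩ : Fin (m + 2)) ≠ ⟨i + 1, hi⟩ := fne _ _ (by omega)
    rw [SS_x _ n3, SS_x _ n3.symm, SS_x _ n3, SS_x _ n3.symm]
    by_cases h : i + 1 = m + 1
    · have e1 : (⟨i, by omega⟩ : Fin (m + 2)) = aL := Fin.ext (by rw [va]; simp; omega)
      have e2 : (⟨i + 1, hi⟩ : Fin (m + 2)) = bL := Fin.ext (by rw [vb]; exact h)
      have h1 : (Ψ' (Tr aL bL aL_ne t)).2 = lev' m F (Tr aL bL aL_ne t) := by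
        rw [hab1, ← s0_conj hm]; rfl
      have h2 : (Ψ' (Tr bL aL aL_ne.symm t)).2 = lev' m F (Tr bL aL aL_ne.symm t) := by
        rw [hab2, ← s0_conj' hm]; rfl
      constructor
      · convert h1 using 2
        · simp only [e1, e2]; rfl
        · simp only [e1, e2]
      · convert h2 using 2
        · simp only [e1, e2]; rfl
        · simp only [e1, e2]
    · have n1 : (⟨i, by omega⟩ : Fin (m + 2)) ≠ bL := by
        intro e; have := congrArg Fin.val e; rw [vb] at this; simp at this; omega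
      have n2 : (⟨i + 1, hi⟩ : Fin (m + 2)) ≠ bL := by
        intro e; have := congrArg Fin.val e; rw [vb] at this; simp at this; omega
      have c1 := D.common _ _ n1 n2 n3 t
      have c2 := D.common _ _ n2 n1 n3.symm t
      have d1 := hD0.common _ _ n1 n2 n3 t
      have d2 := hD0.common _ _ n2 n1 n3.symm t
      rw [SS_x _ n3, SS_x _ n3] at c1 d1
      rw [SS_x _ n3.symm, SS_x _ n3.symm] at c2 d2
      rw [← d1, ← d2]
      exact ⟨(congrArg Prod.snd c1).symm, (congrArg Prod.snd c2).symm⟩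
  let π : (G × OO (m + 2) F) →* Matrix (E (m + 2)) (E (m + 2)) F := (coeM (m + 2) F).comp (MonoidHom.snd _ _)
  have hπ : ∀ i j, i ≠ j → ∀ t, π ((SS Ψ).x i j t) = rt (.inl i) (.inl j) t := fun i j h t => coe_SM h t
  have hπ' : ∀ i j, i ≠ j → ∀ t, π ((SS Ψ').x i j t) = rt (tau bL (.inl i)) (tau bL (.inl j)) t := by
    intro i j h t
    rw [← coe_SM' h t]
    exact congrArg (coeM (m + 2) F) (hsnd i j h t)
  have hnn : ∀ u : Fˣ, Ψ' (nn aL bL aL_ne u) = cjH (s, s0 m F) Ψ (nn aL 0 (a0 hm) u) := by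
    intro u
    unfold nn
    rw [map_mul, map_mul, map_mul, map_mul, hab1, hab2]
  have hz : Ψ (Hd aL bL (-1)) * Ψ' (Hd aL bL (-1)) = 1 := by
    have h1 : Ψ' (Hd aL bL (-1)) = cjH (s, s0 m F) Ψ (Hd aL 0 (-1)) := by
      rw [Hd_word aL bL aL_ne, Hd_word aL 0 (a0 hm), map_mul, map_mul, hnn]
    rw [h1]
    exact Hp.zz
  have hker : ∀ x ∈ Xs (SS Ψ) (SS Ψ'), x.2 = 1 → x = 1 := by
    intro x hx h
    refine kernel_one D hπ hπ' hz hx ?_
    show coeM (m + 2) F x.2 = 1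
    rw [h, map_one]
  have hmem : ∀ A, Ψ A ∈ Xs (SS Ψ) (SS Ψ') := by
    intro A
    refine slgen_mem Ψ _ ?_ A
    intro i j h t
    rw [← SS_x Ψ h]
    exact memT i j h t
  have hmem' : ∀ A, Ψ' A ∈ Xs (SS Ψ) (SS Ψ') := by
    intro A
    refine slgen_mem Ψ' _ ?_ A
    intro i j h t
    rw [← SS_x Ψ' h]
    exact memT' i j h t
  have hs : ((s, s0 m F) : G × OO (m + 2) F) ∈ Xs (SS Ψ) (SS Ψ') := by
    have h1 := Hp.M_eq
    rw [← hnn] at h1
    have h2 : ((s, s0 m F) : G × OO (m + 2) F) = Ψ (nn aL 0 (a0 hm) 1) * Ψ' (nn aL bL aL_ne 1) * (Ψ (nn aL 0 (a0 hm) 1))⁻¹ := by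
      rw [h1]; group
    rw [h2]
    exact mul_mem (mul_mem (hmem _) (hmem' _)) (inv_mem (hmem _))
  let f0 : ↥(Xs (SS Ψ) (SS Ψ')) →* OO (m + 2) F := (MonoidHom.snd _ _).comp (Xs (SS Ψ) (SS Ψ')).subtype
  have hinj : Function.Injective f0 := by
    rw [← MonoidHom.ker_eq_bot_iff, eq_bot_iff]
    intro x hx
    rw [Subgroup.mem_bot]
    exact Subtype.ext (hker x.1 x.2 hx)
  have hle : commutator (OO (m + 2) F) ≤ f0.range := by
    apply omega_le' hm
    · intro i j hij t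
      exact ⟨⟨_, memT i j hij t⟩, rfl⟩
    · intro i j hij t
      refine ⟨⟨_, memT' i j hij t⟩, ?_⟩
      exact hsnd i j hij t
  let e1 : ↥(Xs (SS Ψ) (SS Ψ')) ≃* ↥f0.range := MonoidHom.ofInjective hinj
  let f : ↥(commutator (OO (m + 2) F)) →* G :=
    ((MonoidHom.fst _ _).comp (Xs (SS Ψ) (SS Ψ')).subtype).comp (e1.symm.toMonoidHom.comp (Subgroup.inclusion hle))
  have hf : ∀ (x : G × OO (m + 2) F) (hx : x ∈ Xs (SS Ψ) (SS Ψ')) (h : x.2 ∈ commutator (OO (m + 2) F)), f ⟨x.2, h⟩ = x.1 := by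
    intro x hx h
    have h1 : Subgroup.inclusion hle ⟨x.2, h⟩ = e1 ⟨x, hx⟩ := Subtype.ext rfl
    show (e1.symm (Subgroup.inclusion hle ⟨x.2, h⟩)).1.1 = x.1
    rw [h1, MulEquiv.symm_apply_apply]
  refine ⟨f, ?_, ?_⟩
  · intro A h
    exact hf (Ψ A) (hmem A) h
  · intro h
    exact hf _ hs h

end graph

end H6.Om
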