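import Cfsg.Agent.Lib.H6.OmK
import Cfsg.Agent.Lib.H6.OmG
import Cfsg.Agent.Lib.H43.PresTools

/-!
The presentation of `Ω⁺`.
-/
set_option autoImplicit false
set_option linter.unusedSectionVars false
set_option linter.unusedVariables false

namespace H6.Om

open Equiv H43.SLPerm Matrix H60.DN H60.CTA H60.CT H22.RGD H43.Tietze Monoid
open H43.SteinHom (Tr)
open H45.StPres (StPre slData)

section rel

variable {m : ℕ} {F : Type*} [Field F] {G : Type*} [Group G]

local notation "bL" => Fin.last (m + 1)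
local notation "aL" => Fin.castSucc (Fin.last m)

/-- left sides -/
def rL {A : Type*} [Group A] (r k : Fin 2 → A) (n P h1 h2 : A) (α : A →* G) (z : G) : Fin 6 → G :=
  ![z * α (r 0), z * α (r 1), z * α n * z, (z * α P * z⁻¹) * α (k 0), (z * α P * z⁻¹) * α (k 1),
    α h1 * (z * α h2 * z⁻¹)]

/-- right sides -/
def rR {A : Type*} [Group A] (r k : Fin 2 → A) (n P h1 h2 : A) (α : A →* G) (z : G) : Fin 6 → G :=
  ![α (r 0) * z, α (r 1) * z, α n * z * α n, α (k 0) * (z * α P * z⁻¹), α (k 1) * (z * α P * z⁻¹), 1]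

theorem map_rL {A H : Type*} [Group A] [Group H] (r k : Fin 2 → A) (n P h1 h2 : A) (α : A →* G) (z : G) (φ : G →* H) (j : Fin 6) :
    φ (rL r k n P h1 h2 α z j) = rL r k n P h1 h2 (φ.comp α) (φ z) j := by
  fin_cases j <;> simp [rL]

theorem map_rR {A H : Type*} [Group A] [Group H] (r k : Fin 2 → A) (n P h1 h2 : A) (α : A →* G) (z : G) (φ : G →* H) (j : Fin 6) :
    φ (rR r k n P h1 h2 α z j) = rR r k n P h1 h2 (φ.comp α) (φ z) j := by
  fin_cases j <;> simp [rR]

/-- the middle coordinates -/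
def mid (m : ℕ) : Fin m → Fin (m + 2) := fun i => i.succ.castSucc

theorem mid_inj (m : ℕ) : Function.Injective (mid m) := fun i j h => Fin.succ_injective _ (Fin.castSucc_injective _ h)

theorem mid_val (i : Fin m) : (mid m i).val = i.val + 1 := by simp [mid]

theorem centr_top {B A : Type*} [Group B] [Group A] (Θ : B →* A) {w : Fin 2 → B} (hw : Subgroup.closure (Set.range w) = ⊤)
    (α : A →* G) (X : G) (h0 : X * α (Θ (w 0)) = α (Θ (w 0)) * X) (h1 : X * α (Θ (w 1)) = α (Θ (w 1)) * X) (x : B) :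
    X * α (Θ x) = α (Θ x) * X := by
  have htop : (Subgroup.centralizer {X}).comap (α.comp Θ) = ⊤ := by
    rw [eq_top_iff, ← hw, Subgroup.closure_le]
    rintro _ ⟨i, rfl⟩
    rw [SetLike.mem_coe, Subgroup.mem_comap, Subgroup.mem_centralizer_iff]
    rintro _ rfl
    fin_cases i
    · exact h0
    · exact h1
  have hx : x ∈ (Subgroup.centralizer {X}).comap (α.comp Θ) := by rw [htop]; trivial
  rw [Subgroup.mem_comap, Subgroup.mem_centralizer_iff] at hx
  exact hx _ rfl

theorem em2_comm {n k : ℕ} [Nontrivial (Fin k)] (f : Fin k → Fin n) (hf : Function.Injective f) {a b : Fin n} (h : a ≠ b)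
    (ha : ∀ i, f i ≠ a) (hb : ∀ i, f i ≠ b) (A : SpecialLinearGroup (Fin k) F) (B : SL 2 F) :
    Commute (emb f hf A) (em2 h F B) := by
  apply emb_comm
  intro i j
  fin_cases j
  · exact ha i
  · exact hb i

/-- the first factor -/
noncomputable def Th1 (m : ℕ) (F : Type*) [Field F] (hm : 2 ≤ m) : SpecialLinearGroup (Fin m) F × SL 2 F →* SpecialLinearGroup (Fin (m + 2)) F :=
  (emb (mid m) (mid_inj m)).noncommCoprod (em2 b0.symm F) (by
    have : Nontrivial (Fin m) := Fin.nontrivial_iff_two_le.2 hm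
    intro x y
    apply em2_comm
    · intro i e
      have := congrArg Fin.val e
      rw [mid_val] at this
      simp at this
    · intro i e
      have := congrArg Fin.val e
      rw [mid_val, bL_val] at this
      have := i.2
      omega)

/-- the second factor -/
noncomputable def Th2 (m : ℕ) (F : Type*) [Field F] (hm : 2 ≤ m) : SL 2 F × SL 2 F →* SpecialLinearGroup (Fin (m + 2)) F :=
  (em2 z1 F).noncommCoprod (em2 aL_ne F) (by
    intro x y
    apply em2_comm
    · intro i
      fin_cases i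
      · exact (a0 hm).symm
      · exact (a1 hm).symm
    · intro i
      fin_cases i
      · exact b0.symm
      · exact (b1 hm).symm)

theorem ro_iff (hm : 2 ≤ m) {w1 : Fin 2 → SpecialLinearGroup (Fin m) F × SL 2 F} (h1 : Subgroup.closure (Set.range w1) = ⊤)
    {w2 : Fin 2 → SL 2 F × SL 2 F} (h2 : Subgroup.closure (Set.range w2) = ⊤)
    (α : SpecialLinearGroup (Fin (m + 2)) F →* G) (z : G) :
    (∀ j, rL (fun i => Th1 m F hm (w1 i)) (fun i => Th2 m F hm (w2 i)) (nn aL 0 (a0 hm) 1) (Tr aL 0 (a0 hm) 1)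
      (Hd aL bL (-1)) (Hd aL 0 (-1)) α z j = rR (fun i => Th1 m F hm (w1 i)) (fun i => Th2 m F hm (w2 i)) (nn aL 0 (a0 hm) 1)
      (Tr aL 0 (a0 hm) 1) (Hd aL bL (-1)) (Hd aL 0 (-1)) α z j) ↔ RO hm α z := by
  have nt : Nontrivial (Fin m) := Fin.nontrivial_iff_two_le.2 hm
  constructor
  · intro h
    have g1 := centr_top (Th1 m F hm) h1 α z (h 0) (h 1)
    have g2 := centr_top (Th2 m F hm) h2 α (z * α (Tr aL 0 (a0 hm) 1) * z⁻¹) (h 3) (h 4)
    have e1 : ∀ A : SpecialLinearGroup (Fin m) F, Th1 m F hm (A, 1) = emb (mid m) (mid_inj m) A := by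
      intro A
      show emb (mid m) (mid_inj m) A * em2 b0.symm F 1 = _
      rw [map_one, mul_one]
    have e2 : ∀ B : SL 2 F, Th1 m F hm (1, B) = em2 b0.symm F B := by
      intro B
      show emb (mid m) (mid_inj m) 1 * em2 b0.symm F B = _
      rw [map_one, one_mul]
    have e3 : ∀ A : SL 2 F, Th2 m F hm (A, 1) = em2 z1 F A := by
      intro A
      show em2 z1 F A * em2 aL_ne F 1 = _
      rw [map_one, mul_one]
    have e4 : ∀ B : SL 2 F, Th2 m F hm (1, B) = em2 aL_ne F B := by
      intro B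
      show em2 z1 F 1 * em2 aL_ne F B = _
      rw [map_one, one_mul]
    refine ⟨?_, ?_, ?_, h 2, ?_, ?_, ?_, ?_, h 5⟩
    · intro i j hij i1 i2 j1 j2 t
      obtain ⟨i', rfl⟩ : ∃ i' : Fin m, mid m i' = i := ⟨⟨i.val - 1, by omega⟩, Fin.ext (by rw [mid_val]; simp; omega)⟩
      obtain ⟨j', rfl⟩ : ∃ j' : Fin m, mid m j' = j := ⟨⟨j.val - 1, by omega⟩, Fin.ext (by rw [mid_val]; simp; omega)⟩
      have hij' : i' ≠ j' := fun e => hij (by rw [e])
      have := g1 (Tr i' j' hij' t, 1)
      rw [e1, emb_tr] at this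
      exact this
    · intro t
      have := g1 (1, e12 t)
      rw [e2, em2_12] at this
      exact this
    · intro t
      have := g1 (1, e21 t)
      rw [e2, em2_21] at this
      exact this
    · intro t
      have := g2 (e12 t, 1)
      rw [e3, em2_12] at this
      exact this
    · intro t
      have := g2 (e21 t, 1)
      rw [e3, em2_21] at this
      exact this
    · intro t
      have := g2 (1, e12 t)
      rw [e4, em2_12] at this
      exact this
    · intro t
      have := g2 (1, e21 t)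
      rw [e4, em2_21] at this
      exact this
  · intro H
    have c2 : ∀ {a b : Fin (m + 2)} (hab : a ≠ b) (X : G), (∀ t, X * α (Tr a b hab t) = α (Tr a b hab t) * X) →
        (∀ t, X * α (Tr b a hab.symm t) = α (Tr b a hab.symm t) * X) → ∀ B, X * α (em2 hab F B) = α (em2 hab F B) * X := by
      intro a b hab X k1 k2 B
      have htop : (Subgroup.centralizer {X}).comap (α.comp (em2 hab F)) = ⊤ := by
        apply sl2_top
        · intro t
          rw [Subgroup.mem_comap, Subgroup.mem_centralizer_singleton_iff]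
          show α (em2 hab F (e12 t)) * X = X * α (em2 hab F (e12 t))
          rw [em2_12]; exact (k1 t).symm
        · intro t
          rw [Subgroup.mem_comap, Subgroup.mem_centralizer_singleton_iff]
          show α (em2 hab F (e21 t)) * X = X * α (em2 hab F (e21 t))
          rw [em2_21]; exact (k2 t).symm
      have hy : B ∈ (Subgroup.centralizer {X}).comap (α.comp (em2 hab F)) := by rw [htop]; trivial
      rw [Subgroup.mem_comap, Subgroup.mem_centralizer_iff] at hy
      exact hy _ rfl
    have c1 : ∀ A, z * α (emb (mid m) (mid_inj m) A) = α (emb (mid m) (mid_inj m) A) * z := by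
      intro A
      have := slgen_mem (α.comp (emb (mid m) (mid_inj m))) (Subgroup.centralizer {z}) (by
        intro i j hij t
        rw [Subgroup.mem_centralizer_singleton_iff]
        show α (emb (mid m) (mid_inj m) (Tr i j hij t)) * z = z * α (emb (mid m) (mid_inj m) (Tr i j hij t))
        rw [emb_tr]
        exact (H.c1 _ _ _ (by rw [mid_val]; omega) (by rw [mid_val]; omega) (by rw [mid_val]; omega) (by rw [mid_val]; omega) t).symm) A
      rw [Subgroup.mem_centralizer_iff] at this
      exact this _ rfl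
    have k1 : ∀ x, z * α (Th1 m F hm x) = α (Th1 m F hm x) * z := by
      rintro ⟨A, B⟩
      show z * α (emb (mid m) (mid_inj m) A * em2 b0.symm F B) = α (emb (mid m) (mid_inj m) A * em2 b0.symm F B) * z
      rw [map_mul, ← mul_assoc, c1, mul_assoc, c2 b0.symm z H.c2 H.c2', ← mul_assoc]
    have k2 : ∀ x, (z * α (Tr aL 0 (a0 hm) 1) * z⁻¹) * α (Th2 m F hm x) = α (Th2 m F hm x) * (z * α (Tr aL 0 (a0 hm) 1) * z⁻¹) := by
      rintro ⟨A, B⟩
      show (z * α (Tr aL 0 (a0 hm) 1) * z⁻¹) * α (em2 z1 F A * em2 aL_ne F B) = α (em2 z1 F A * em2 aL_ne F B) * (z * α (Tr aL 0 (a0 hm) 1) * z⁻¹)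
      rw [map_mul, ← mul_assoc, c2 z1 _ H.c4 H.c5, mul_assoc, c2 aL_ne _ H.c6 H.c7, ← mul_assoc]
    intro j
    fin_cases j
    · exact k1 _
    · exact k1 _
    · exact H.br
    · exact k2 _
    · exact k2 _
    · exact H.zz

end rel

end H6.Om
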