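import Cfsg.Agent.Lib.H6.OmL

/-!
The presentation of `Ω⁺`: assembly.
-/
set_option autoImplicit false
set_option linter.unusedSectionVars false
set_option linter.unusedVariables false

namespace H6.Om

open Equiv H43.SLPerm Matrix H60.DN H60.CTA H60.CT H22.RGD H43.Tietze Monoid
open H43.SteinHom (Tr)
open H45.StPres (StPre slData)

section pres

variable {m : ℕ} (F : Type*) [Field F]

local notation "bL" => Fin.last (m + 1)
local notation "aL" => Fin.castSucc (Fin.last m)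

theorem s0_mem (hm : 2 ≤ m) : s0 m F ∈ commutator (OO (m + 2) F) := lev_mem (m + 2) (by omega) _ (lev' m F)

theorem gen_all [Fintype F] (hm : 2 ≤ m) (K : Subgroup (OO (m + 2) F)) (h1 : ∀ A, lev (m + 2) F A ∈ K)
    (h2 : s0 m F ∈ K) : commutator (OO (m + 2) F) ≤ K := by
  have va : (aL : Fin (m + 2)).val = m := aL_val
  have vb : (bL : Fin (m + 2)).val = m + 1 := bL_val
  apply omega_le' hm
  · intro i j hij t
    exact h1 _
  · intro i j hij t
    show (SS (lev' m F)).x i j t ∈ K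
    refine mem_of_adj (SS (lev' m F)) K (m + 2) ?_ i j hij i.2 j.2 t
    intro i hi _ t
    have n3 : (⟨i, by omega⟩ : Fin (m + 2)) ≠ ⟨i + 1, hi⟩ := fne _ _ (by omega)
    by_cases h : i + 1 = m + 1
    · have e1 : (⟨i, by omega⟩ : Fin (m + 2)) = aL := Fin.ext (by rw [va]; simp; omega)
      have e2 : (⟨i + 1, hi⟩ : Fin (m + 2)) = bL := Fin.ext (by rw [vb]; exact h)
      rw [e1, e2, SS_x _ aL_ne, SS_x _ aL_ne.symm, ← s0_conj hm, ← s0_conj' hm, cjH_apply, cjH_apply]
      exact ⟨mul_mem (mul_mem h2 (h1 _)) (inv_mem h2), mul_mem (mul_mem h2 (h1 _)) (inv_mem h2)⟩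
    · have n1 : (⟨i, by omega⟩ : Fin (m + 2)) ≠ bL := by
        intro e; have := congrArg Fin.val e; rw [vb] at this; simp at this; omega
      have n2 : (⟨i + 1, hi⟩ : Fin (m + 2)) ≠ bL := by
        intro e; have := congrArg Fin.val e; rw [vb] at this; simp at this; omega
      have d1 := (D0 F hm).common _ _ n1 n2 n3 t
      have d2 := (D0 F hm).common _ _ n2 n1 n3.symm t
      rw [← d1, ← d2]
      exact ⟨h1 _, h1 _⟩

/-- the relators -/
noncomputable def rel6 {A : Type*} [Group A] (r1 r2 : Fin 2 → A) (n0 P0 h1 h2 : A) (j : Fin 6) : Coprod A (FreeGroup (Fin 1)) :=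
  rL r1 r2 n0 P0 h1 h2 Coprod.inl (Coprod.inr (FreeGroup.of 0)) j *
      (rR r1 r2 n0 P0 h1 h2 Coprod.inl (Coprod.inr (FreeGroup.of 0)) j)⁻¹

theorem rel6_ev {A : Type*} [Group A] (r1 r2 : Fin 2 → A) (n0 P0 h1 h2 : A) {G : Type*} [Group G] (α : A →* G) (z : Fin 1 → G) :
    (∀ j, Coprod.lift α (FreeGroup.lift z) (rel6 r1 r2 n0 P0 h1 h2 j) = 1) ↔
      ∀ j, rL r1 r2 n0 P0 h1 h2 α (z 0) j = rR r1 r2 n0 P0 h1 h2 α (z 0) j := by
  have e1 : (Coprod.lift α (FreeGroup.lift z)).comp Coprod.inl = α := Coprod.lift_comp_inl _ _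
  have e2 : Coprod.lift α (FreeGroup.lift z) (Coprod.inr (FreeGroup.of 0)) = z 0 := by simp
  apply forall_congr'
  intro i
  unfold rel6
  rw [map_mul, map_inv, mul_inv_eq_one, map_rL, map_rR, e1, e2]

theorem pres_omega [Fintype F] (hm : 2 ≤ m) {g k : ℕ} (hA : HasPres (SpecialLinearGroup (Fin (m + 2)) F) g k) :
    HasPres ↥(commutator (OO (m + 2) F)) (g + 1) (k + 6) := by
  obtain ⟨g1, b1, hw1⟩ := prod_pair (F := F) hm
  obtain ⟨g2, b2, hw2⟩ := prod_pair (F := F) (m := 2) le_rfl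
  obtain ⟨v, R, hRf, hRk, hP⟩ := hA.exists
  let r1 : Fin 2 → SpecialLinearGroup (Fin (m + 2)) F := fun i => Th1 m F hm (g1 i, b1 i)
  let r2 : Fin 2 → SpecialLinearGroup (Fin (m + 2)) F := fun i => Th2 m F hm (g2 i, b2 i)
  let n0 : SpecialLinearGroup (Fin (m + 2)) F := nn aL 0 (a0 hm) 1
  let P0 : SpecialLinearGroup (Fin (m + 2)) F := Tr aL 0 (a0 hm) 1
  let h1 : SpecialLinearGroup (Fin (m + 2)) F := Hd aL bL (-1)
  let h2 : SpecialLinearGroup (Fin (m + 2)) F := Hd aL 0 (-1)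
  let β : SpecialLinearGroup (Fin (m + 2)) F →* ↥(commutator (OO (m + 2) F)) :=
    (lev (m + 2) F).codRestrict _ (fun A => lev_mem (m + 2) (by omega) A (lev (m + 2) F))
  let y : Fin 1 → ↥(commutator (OO (m + 2) F)) := fun _ => ⟨s0 m F, s0_mem F hm⟩
  have hsat : RO hm β (y 0) := by
    have := RO0 F hm
    refine ⟨?_, ?_, ?_, ?_, ?_, ?_, ?_, ?_, ?_⟩
    · intro i j h i1 i2 j1 j2 t
      exact Subtype.ext (this.c1 i j h i1 i2 j1 j2 t)
    · intro t
      exact Subtype.ext (this.c2 t)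
    · intro t
      exact Subtype.ext (this.c2' t)
    · exact Subtype.ext this.br
    · intro t
      exact Subtype.ext (this.c4 t)
    · intro t
      exact Subtype.ext (this.c5 t)
    · intro t
      exact Subtype.ext (this.c6 t)
    · intro t
      exact Subtype.ext (this.c7 t)
    · exact Subtype.ext this.zz
  obtain ⟨W, hW⟩ := hP.extend β y (rel6 r1 r2 n0 P0 h1 h2) (by
    rw [eq_top_iff]
    rintro ⟨x, hx⟩ -
    have hle := gen_all F hm ((Subgroup.closure (Set.range β ∪ Set.range y)).map (commutator (OO (m + 2) F)).subtype)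
      (fun A => ⟨β A, Subgroup.subset_closure (Or.inl ⟨A, rfl⟩), rfl⟩)
      ⟨y 0, Subgroup.subset_closure (Or.inr ⟨0, rfl⟩), rfl⟩
    obtain ⟨x', hx', e⟩ := hle hx
    have : x' = ⟨x, hx⟩ := Subtype.ext e
    rw [← this]
    exact hx')
    ((rel6_ev r1 r2 n0 P0 h1 h2 β y).2 ((ro_iff hm hw1 hw2 β (y 0)).2 hsat)) (by
    intro G _ α z hz
    obtain ⟨f, f1, f2⟩ := graph ((ro_iff hm hw1 hw2 α (z 0)).1 ((rel6_ev r1 r2 n0 P0 h1 h2 α z).1 hz))
    refine ⟨f, fun A => f1 A _, fun k => ?_⟩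
    fin_cases k
    exact f2 _)
  apply hW.hasPres finSumFinEquiv ((hRf.image _).union (Set.finite_range _))
  calc _ ≤ _ := Set.ncard_union_le _ _
    _ ≤ k + 6 := by
      apply Nat.add_le_add (le_trans (Set.ncard_image_le hRf) hRk)
      have := ncard_range_le W
      simpa using this

end pres

end H6.Om
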