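import Cfsg.Agent.Lib.H6.OmM
import Cfsg.Agent.Lib.H7.OmegaOrd
import Cfsg.Agent.Lib.H43.SLFour
import Cfsg.Agent.Lib.H43.AltPres

/-!
Centre of `Ω⁺` and the final counts.
-/
set_option autoImplicit false
set_option linter.unusedSectionVars false
set_option linter.unusedVariables false

namespace H6.Om

open H43.Tietze Cfsg

theorem center_plus {F : Type*} [Field F] [Fintype F] (m : ℕ) (hm : 2 ≤ m) :
    ∃ z : ↥(Cfsg.Omega F (Cfsg.quadFormPlus (m + 2) F)),
      Subgroup.center ↥(Cfsg.Omega F (Cfsg.quadFormPlus (m + 2) F)) = Subgroup.zpowers z := by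
  classical
  obtain ⟨e⟩ := (H7.HypStd.plus_succ (F := F) (m + 1)).trans (H7.OmegaIso.hyp_congr (H7.HypStd.plus_succ (F := F) m))
  have hnt : Nonempty (Fin m ⊕ Fin m) := ⟨Sum.inl ⟨0, by omega⟩⟩
  have hnd := H7.HypOrd.nd_plus (F := F) m
  have hf : ∀ v, H7.Hyp.hyp (H7.Hyp.hyp (H48.QuadStd.qPlus m F)) (e.toLinearEquiv v) = Cfsg.quadFormPlus (m + 2) F v := by
    intro v
    have h1 := e.map_app v
    rw [← H48.QuadStd.coe_qPlus]
    exact h1
  have key := H7.OmegaOrd.mem_center_iff' hnd.hyp e.toLinearEquiv hf (H7.OmegaIso.commutator_eq_two hnd)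
  by_cases h : ∃ g : ↥(Cfsg.Omega F (Cfsg.quadFormPlus (m + 2) F)),
      ((g.1 : Matrix.GeneralLinearGroup (Fin (m + 2) ⊕ Fin (m + 2)) F) : Matrix (Fin (m + 2) ⊕ Fin (m + 2)) (Fin (m + 2) ⊕ Fin (m + 2)) F) = -1
  · obtain ⟨z, hz⟩ := h
    refine ⟨z, le_antisymm ?_ ?_⟩
    · intro x hx
      rcases (key x).1 hx with h1 | h1
      · have : x = 1 := Subtype.ext (Subtype.ext (Units.ext h1))
        rw [this]; exact one_mem _
      · have : x = z := Subtype.ext (Subtype.ext (Units.ext (h1.trans hz.symm)))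
        rw [this]; exact Subgroup.mem_zpowers _
    · rw [Subgroup.zpowers_le]
      exact (key z).2 (Or.inr hz)
  · refine ⟨1, ?_⟩
    rw [Subgroup.zpowers_one_eq_bot, eq_bot_iff]
    intro x hx
    rw [Subgroup.mem_bot]
    rcases (key x).1 hx with h1 | h1
    · exact Subtype.ext (Subtype.ext (Units.ext h1))
    · exact absurd ⟨x, h1⟩ h

theorem quot_plus {F : Type*} [Field F] [Fintype F] (m : ℕ) (hm : 2 ≤ m) {g k : ℕ}
    (h : HasPres ↥(Cfsg.Omega F (Cfsg.quadFormPlus (m + 2) F)) g k) :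
    HasPres (Cfsg.POmega F (Cfsg.quadFormPlus (m + 2) F)) g (k + 1) := by
  obtain ⟨z, hz⟩ := center_plus (F := F) m hm
  exact h.quot _ z hz

theorem omega_big {F : Type*} [Field F] [Fintype F] (m : ℕ) (hm : 3 ≤ m) :
    HasPres ↥(Cfsg.Omega F (Cfsg.quadFormPlus (m + 2) F)) 6 29 :=
  pres_omega F (by omega) (H43.SLRels.pres_big F (by omega) (H43.AltPres.pres_An (by omega)))

theorem omega_five {F : Type*} [Field F] [Fintype F] :
    HasPres ↥(Cfsg.Omega F (Cfsg.quadFormPlus 5 F)) 5 25 :=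
  pres_omega (m := 3) F (by omega) (H43.SLRels.pres_big F (by omega) H43.AltPres.pres_A5)

theorem omega_four {F : Type*} [Field F] [Fintype F] :
    HasPres ↥(Cfsg.Omega F (Cfsg.quadFormPlus 4 F)) 5 24 :=
  pres_omega (m := 2) F (by omega) (H43.SLRels.pres_four F H43.AltPres.pres_A4)

theorem main {F : Type*} [Field F] [Fintype F] (n : ℕ) (hn : 4 ≤ n) :
    HasPres ↥(Cfsg.Omega F (Cfsg.quadFormPlus n F)) 8 31 ∧ (n ≤ 5 → HasPres ↥(Cfsg.Omega F (Cfsg.quadFormPlus n F)) 8 29) := by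
  obtain ⟨m, rfl⟩ : ∃ m, n = m + 2 := ⟨n - 2, by omega⟩
  have h45 : m + 2 ≤ 5 → HasPres ↥(Cfsg.Omega F (Cfsg.quadFormPlus (m + 2) F)) 8 29 := by
    intro h
    obtain rfl | rfl : m = 2 ∨ m = 3 := by omega
    · exact (omega_four.pad 3).mono (by norm_num)
    · exact (omega_five.pad 3).mono (by norm_num)
  refine ⟨?_, h45⟩
  by_cases h : m + 2 ≤ 5
  · exact (h45 h).mono (by norm_num)
  · exact (omega_big m (by omega)).pad 2

end H6.Om
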