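import Cfsg.Agent.Lib.H6.PSUNorm
import Cfsg.Agent.Lib.H50.ClassCount

/-!
Field automorphisms of `PSU_n(q)`: coset conjugacy, centralizers, class count.
-/

set_option autoImplicit false
set_option linter.unusedSectionVars false

namespace H6.PSUField

open Matrix H50.PSLBasic H50.SpBasic H50.H90 H50.PSLCount H50.PSLField H50.ClassCount
  H6.PSUBasic H6.PSUUniq H6.PSUOut H6.PSUNorm

variable {n q : ℕ} {F : Type*} [Field F]

/-- scalar unitary matrices -/
noncomputable def scG (n : ℕ) : NU F q →* Cfsg.GU n F q where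
  toFun u := ⟨sc (u : Fˣ), by
    rw [mem_GU]
    intro x y
    rw [sc_coe, Matrix.smul_mulVec, Matrix.smul_mulVec, Matrix.one_mulVec, Matrix.one_mulVec]
    unfold Cfsg.hermForm
    refine Finset.sum_congr rfl fun i _ => ?_
    rw [Pi.smul_apply, Pi.smul_apply, smul_eq_mul, smul_eq_mul, mul_pow]
    have h1 : ((u : Fˣ) : F) ^ (q + 1) = 1 := congrArg Units.val (NU_pow u)
    rw [pow_succ] at h1
    linear_combination (x i * y i ^ q) * h1⟩
  map_one' := Subtype.ext (map_one _)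
  map_mul' u v := Subtype.ext (map_mul _ _ _)

lemma scG_coe (u : NU F q) : ((scG n u : Cfsg.GU n F q) : GL (Fin n) F) = sc (u : Fˣ) := rfl

lemma scG_comm (u : NU F q) (g : Cfsg.GU n F q) : scG n u * g = g * scG n u :=
  Subtype.ext (sc_comm (u : Fˣ) _)

lemma gt_scG_mul (u : NU F q) (g : Cfsg.GU n F q) : gt (scG n u * g) = ((u : Fˣ) : F) • gt g :=
  sc_mul_coe (u : Fˣ) _

lemma scG_injective (hn : 0 < n) : Function.Injective (scG n : NU F q →* Cfsg.GU n F q) := by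
  intro u v h
  have : Nonempty (Fin n) := ⟨⟨0, hn⟩⟩
  exact Subtype.ext (sc_injective (ι := Fin n) (congrArg Subtype.val h))

lemma psiSU_scG_mul (u : NU F q) (g : Cfsg.GU n F q) (σ : F ≃+* F) : psiSU (scG n u * g) σ = psiSU g σ :=
  psiSU_eq_of_smul (gt_scG_mul u g)

lemma guMap_scG (σ : F ≃+* F) (u : NU F q) : guMap σ (scG n u) = scG n (nuMap σ u) :=
  Subtype.ext (glMap_sc σ (u : Fˣ))

lemma guMap_pow (σ : F ≃+* F) (k : ℕ) : (guMap σ : MulAut (Cfsg.GU n F q)) ^ k = guMap (σ ^ k) := by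
  induction k with
  | zero => rfl
  | succ k ih => rw [pow_succ, ih, pow_succ]; rfl

lemma psiSU_pow (g : Cfsg.GU n F q) (σ : F ≃+* F) (k : ℕ) :
    (psiSU g σ) ^ k = psiSU (nm (guMap σ) g k) (σ ^ k) := by
  induction k with
  | zero => rw [pow_zero, pow_zero, nm_zero]; exact psiSU_one.symm
  | succ k ih => rw [pow_succ', ih, psiSU_mul, nm_succ, pow_succ' σ]

lemma nm_scG_mul (σ : F ≃+* F) (u : NU F q) (g : Cfsg.GU n F q) (k : ℕ) :
    nm (guMap σ) (scG n u * g) k = scG n (nm (nuMap σ) u k) * nm (guMap σ) g k := by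
  induction k with
  | zero => rw [nm_zero, nm_zero, nm_zero, map_one, one_mul]
  | succ k ih =>
    rw [nm_succ, ih, nm_succ, nm_succ, map_mul (guMap σ), guMap_scG, map_mul, mul_assoc, ← mul_assoc g,
      ← scG_comm _ g, mul_assoc, mul_assoc]

lemma nm_one_left {G : Type*} [Group G] (s : MulAut G) (k : ℕ) : nm s (1 : G) k = 1 := by
  have := nm_mul_inv s 1 k
  simpa using this

lemma psiSU_conj_psiSU (g h : Cfsg.GU n F q) (τ : F ≃+* F) :
    psiSU h τ * psiSU g 1 * (psiSU h τ)⁻¹ = psiSU (h * guMap τ g * h⁻¹) 1 := by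
  rw [mul_inv_eq_iff_eq_mul, psiSU_mul, psiSU_mul, guMap_one_apply, mul_one, one_mul, inv_mul_cancel_right]

lemma psiSU_std_conj (h : Cfsg.GU n F q) (σ : F ≃+* F) :
    psiSU h 1 * psiSU 1 σ * (psiSU h 1)⁻¹ = psiSU (h * (guMap σ h)⁻¹) σ := by
  rw [mul_inv_eq_iff_eq_mul, psiSU_mul, psiSU_mul, guMap_one_apply, mul_one, one_mul, mul_one, inv_mul_cancel_right]

section

variable [Fintype F]

lemma psiSU_eq_iff' (hF : Fintype.card F = q ^ 2) (hn : 3 ≤ n) {g h : Cfsg.GU n F q} {σ τ : F ≃+* F} :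
    psiSU g σ = psiSU h τ ↔ σ = τ ∧ ∃ u : NU F q, g = scG n u * h := by
  rw [psiSU_eq_iff hF hn]
  constructor
  · rintro ⟨h1, c, hc⟩
    have hcn := norm_of_smul (by omega) hc
    have hc0 : c ≠ 0 := by
      rintro rfl
      rw [zero_pow (by omega)] at hcn
      exact zero_ne_one hcn
    refine ⟨h1, ⟨Units.mk0 c hc0, mem_NU.2 (Units.ext hcn)⟩, ?_⟩
    apply Subtype.ext
    apply Units.ext
    change gt g = gt _
    rw [gt_scG_mul, hc]
    rfl
  · rintro ⟨h1, u, rfl⟩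
    exact ⟨h1, _, gt_scG_mul u h⟩

lemma psiSU_eq_one_iff (hF : Fintype.card F = q ^ 2) (hn : 3 ≤ n) {g : Cfsg.GU n F q} {σ : F ≃+* F} :
    psiSU g σ = 1 ↔ σ = 1 ∧ ∃ u : NU F q, g = scG n u := by
  rw [← psiSU_one, psiSU_eq_iff' hF hn]
  simp only [mul_one]

/-- the inner-diagonal group is normal -/
lemma inndiag_normal (hF : Fintype.card F = q ^ 2) (hn : 3 ≤ n) (h32 : ¬ (n = 3 ∧ q = 2)) :
    (Cfsg.inndiagPSU n F q).Normal := by
  constructor
  intro δ hδ α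
  obtain ⟨g, rfl⟩ := mem_inndiag_iff.mp hδ
  obtain ⟨h, τ, rfl⟩ := aut_psu hF hn h32 α
  exact mem_inndiag_iff.mpr ⟨_, psiSU_conj_psiSU g h τ⟩

lemma orderOf_psiSU_std (hF : Fintype.card F = q ^ 2) (hn : 3 ≤ n) (σ : F ≃+* F) :
    orderOf (psiSU (1 : Cfsg.GU n F q) σ) = orderOf σ := by
  have h1 : ∀ k : ℕ, psiSU (1 : Cfsg.GU n F q) σ ^ k = 1 ↔ σ ^ k = 1 := by
    intro k
    rw [psiSU_pow, nm_one_left, psiSU_eq_one_iff hF hn]
    exact ⟨fun h => h.1, fun h => ⟨h, 1, (map_one _).symm⟩⟩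
  apply Nat.dvd_antisymm
  · rw [orderOf_dvd_iff_pow_eq_one, h1, pow_orderOf_eq_one]
  · rw [orderOf_dvd_iff_pow_eq_one, ← h1, pow_orderOf_eq_one]

/-- elements of order `r` in the inner-diagonal coset of a standard field automorphism -/
theorem field_coset (hF : Fintype.card F = q ^ 2) (hn : 3 ≤ n) {σ : F ≃+* F} {r : ℕ} (hr : orderOf σ = r)
    (hodd : Odd r) {g : Cfsg.GU n F q} (hg : (psiSU g σ) ^ r = 1) :
    ∃ h : Cfsg.GU n F q, psiSU g σ = psiSU h 1 * psiSU 1 σ * (psiSU h 1)⁻¹ := by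
  have hσr : σ ^ r = 1 := by rw [← hr, pow_orderOf_eq_one]
  rw [psiSU_pow, psiSU_eq_one_iff hF hn] at hg
  obtain ⟨-, c, hc⟩ := hg
  have h1 := map_nm (guMap σ) g r
  rw [hc, guMap_scG, mul_assoc, scG_comm, guMap_pow, hσr, guMap_one_apply, inv_mul_cancel_left] at h1
  have h2 : nuMap σ c = c := scG_injective (by omega) h1
  have h3 : c⁻¹ ∈ (dvU σ).ker := by
    rw [MonoidHom.mem_ker, dvU_apply, map_inv, h2, mul_inv_cancel]
  obtain ⟨w, hw⟩ := nmU_surj hr hodd (pow_card_sq hF) h3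
  obtain ⟨h, hh⟩ := hilbert90_GU hF hr hodd (g := scG n w * g)
    (by rw [nm_scG_mul, ← nmU_apply, hw, hc, ← map_mul, inv_mul_cancel, map_one])
  refine ⟨h, ?_⟩
  rw [psiSU_std_conj, ← hh, psiSU_scG_mul]

lemma fieldClass_iff {x : MulAut (Cfsg.PSU n F q)} :
    Cfsg.IsFieldAutClassPSU x ↔ ∃ (α : MulAut (Cfsg.PSU n F q)) (σ : F ≃+* F),
      σ ≠ 1 ∧ Odd (orderOf σ) ∧ α * x * α⁻¹ = psiSU 1 σ := by
  unfold Cfsg.IsFieldAutClassPSU
  constructor
  · rintro ⟨α, φ, σ, h1, h2, h3, h4⟩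
    exact ⟨α, σ, h1, h2, by rw [h4]; exact (isFieldAutOf_iff σ _).mp h3⟩
  · rintro ⟨α, σ, h1, h2, h3⟩
    exact ⟨α, _, σ, h1, h2, (isFieldAutOf_iff σ _).mpr rfl, h3⟩

theorem coset_class (hF : Fintype.card F = q ^ 2) (hn : 3 ≤ n) (h32 : ¬ (n = 3 ∧ q = 2))
    (x δ : MulAut (Cfsg.PSU n F q)) (hx : Cfsg.IsFieldAutClassPSU x) {r : ℕ} (hxr : orderOf x = r)
    (hδ : δ ∈ Cfsg.inndiagPSU n F q) :
    orderOf (δ * x) = r ↔ Cfsg.IsConjUnder (Cfsg.inndiagPSU n F q) x (δ * x) := by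
  have hnorm := inndiag_normal hF hn h32
  constructor
  swap
  · rintro ⟨h, -, h1⟩
    rw [h1, orderOf_conj, hxr]
  intro hord
  obtain ⟨α, σ, hσ, hσo, hα⟩ := fieldClass_iff.mp hx
  have h1 : α * δ * α⁻¹ * (α * x * α⁻¹) = α * (δ * x) * α⁻¹ := by group
  rw [← isConjUnder_conj α, ← h1]
  have h2 : (α * δ * α⁻¹ * (α * x * α⁻¹)) ^ r = 1 := by
    rw [h1, ← hord, ← orderOf_conj α (δ * x), pow_orderOf_eq_one]
  obtain ⟨g, hg⟩ := mem_inndiag_iff.mp (hnorm.conj_mem δ hδ α)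
  rw [hα, hg, psiSU_mul, map_one, mul_one, one_mul] at h2 ⊢
  have hσr : orderOf σ = r := by rw [← orderOf_psiSU_std hF hn, ← hα, orderOf_conj, hxr]
  rw [hσr] at hσo
  obtain ⟨h, hh⟩ := field_coset hF hn hσr hσo h2
  exact ⟨psiSU h 1, mem_inndiag_iff.mpr ⟨h, rfl⟩, hh⟩

/-! ### class count -/

/-- `a ↦` the automorphism induced by `diag(a,1,…,1)` -/
noncomputable def dAut (i : Fin n) : NU F q →* MulAut (Cfsg.PSU n F q) where
  toFun a := psiSU (diagGU i a) 1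
  map_one' := by rw [map_one, psiSU_one]
  map_mul' a b := by rw [map_mul, psiSU_mul, guMap_one_apply, one_mul]

lemma guMap_diagGU (σ : F ≃+* F) (i : Fin n) (a : NU F q) : guMap σ (diagGU i a) = diagGU i (nuMap σ a) := by
  apply Subtype.ext; apply Units.ext
  change (Matrix.diagonal (Function.update 1 i ((a : Fˣ) : F))).map σ =
    Matrix.diagonal (Function.update 1 i (σ ((a : Fˣ) : F)))
  rw [Matrix.diagonal_map (map_zero σ)]
  congr 1
  ext j
  by_cases hj : j = i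
  · subst hj; simp
  · simp [Function.update_of_ne hj]

lemma detU_scG (hF : Fintype.card F = q ^ 2) (u : NU F q) : detU hF n (scG n u) = u ^ n := by
  apply Subtype.ext
  apply Units.ext
  rw [H6.PSUOut.detU_coe]
  change ((sc (u : Fˣ) : GL (Fin n) F) : Matrix (Fin n) (Fin n) F).det = _
  rw [sc_coe, Matrix.det_smul, Matrix.det_one, mul_one, Fintype.card_fin]
  rfl

lemma detU_guMap (hF : Fintype.card F = q ^ 2) (σ : F ≃+* F) (g : Cfsg.GU n F q) :
    detU hF n (guMap σ g) = nuMap σ (detU hF n g) := by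
  apply Subtype.ext
  apply Units.ext
  rw [H6.PSUOut.detU_coe]
  exact (RingHom.map_det (σ : F →+* F) (gt g)).symm

/-- the unitary matrix of an element of `SU` -/
def toG (s : Cfsg.SU n F q) : Cfsg.GU n F q :=
  ⟨Matrix.SpecialLinearGroup.toGL (s : SpecialLinearGroup (Fin n) F), s.2⟩

lemma conj_eq (s : Cfsg.SU n F q) :
    MulAut.conj (QuotientGroup.mk s : Cfsg.PSU n F q) = psiSU (toG s) 1 := conj_eq_psiSU s

lemma detU_toG (hF : Fintype.card F = q ^ 2) (s : Cfsg.SU n F q) : detU hF n (toG s) = 1 := by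
  apply Subtype.ext
  apply Units.ext
  rw [H6.PSUOut.detU_coe]
  exact Matrix.SpecialLinearGroup.det_coe (s : SpecialLinearGroup (Fin n) F)

/-- **Class count for `PSU`.** -/
theorem splitClassCount_psu (hF : Fintype.card F = q ^ 2) (hn : 3 ≤ n) (x : MulAut (Cfsg.PSU n F q))
    (B : Subgroup (NU F q))
    (hB : ∀ a : NU F q, a ∈ B ↔ ∃ (g : Cfsg.GU n F q) (w : NU F q), psiSU g 1 ∈ Subgroup.centralizer {x} ∧
      detU hF n g = a * w ^ n) :
    Cfsg.splitClassCount (Cfsg.inndiagPSU n F q) (Cfsg.Inn (Cfsg.PSU n F q)) x = B.index := by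
  have h0 : 0 < n := by omega
  let i : Fin n := ⟨0, h0⟩
  have hfac : ∀ (g : Cfsg.GU n F q) (a : NU F q) (w : NU F q), detU hF n g = a * w ^ n →
      psiSU g 1 * (dAut i a)⁻¹ ∈ Cfsg.Inn (Cfsg.PSU n F q) := by
    intro g a w h
    rw [← map_inv]
    change psiSU g 1 * psiSU (diagGU i a⁻¹) 1 ∈ _
    rw [psiSU_mul, guMap_one_apply, psiSU_mem_inn_iff hF hn]
    refine ⟨one_mul _, w, ?_⟩
    rw [map_mul, detU_diagGU, h, mul_comm a, mul_inv_cancel_right]
  apply splitClassCount_eq (Cfsg.inndiagPSU n F q) (Cfsg.Inn (Cfsg.PSU n F q)) x (dAut i)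
  · intro a
    exact mem_inndiag_iff.mpr ⟨_, rfl⟩
  · intro h hh
    obtain ⟨g, rfl⟩ := mem_inndiag_iff.mp hh
    refine ⟨psiSU g 1 * (dAut i (detU hF n g))⁻¹, hfac g (detU hF n g) 1 (by simp), detU hF n g, ?_⟩
    rw [inv_mul_cancel_right]
  · intro a
    rw [hB]
    constructor
    · rintro ⟨g, w, hg, hw⟩
      refine ⟨psiSU g 1 * (dAut i a)⁻¹, hfac g a w hw, ?_⟩
      rw [inv_mul_cancel_right]
      exact hg
    · rintro ⟨k, ⟨b, rfl⟩, hk⟩
      obtain ⟨s, rfl⟩ := QuotientGroup.mk_surjective b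
      refine ⟨toG s * diagGU i a, 1, ?_, ?_⟩
      · have : psiSU (toG s * diagGU i a) 1 =
            MulAut.conj (QuotientGroup.mk s : Cfsg.PSU n F q) * dAut i a := by
          rw [conj_eq]
          change _ = psiSU _ (1 : F ≃+* F) * psiSU (diagGU i a) 1
          rw [psiSU_mul, guMap_one_apply, one_mul]
        rw [this]; exact hk
      · rw [map_mul, detU_diagGU, detU_toG, one_pow, mul_one, one_mul]

/-- inner-diagonal elements commuting with `psiSU 1 σ` -/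
lemma psiSU_mem_centralizer_std (hF : Fintype.card F = q ^ 2) (hn : 3 ≤ n) {σ : F ≃+* F} {r : ℕ}
    (hr : orderOf σ = r) (hodd : Odd r) {g : Cfsg.GU n F q} :
    psiSU g 1 ∈ Subgroup.centralizer {psiSU 1 σ} ↔
      ∃ (w : NU F q) (h : Cfsg.GU n F q), g = scG n w * h ∧ guMap σ h = h := by
  have hσr : σ ^ r = 1 := by rw [← hr, pow_orderOf_eq_one]
  rw [mem_centralizer_singleton, psiSU_mul, psiSU_mul, guMap_one_apply, mul_one, one_mul, one_mul, mul_one,
    psiSU_eq_iff' hF hn]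
  constructor
  · rintro ⟨-, u, hu⟩
    have h1 : g * (guMap σ g)⁻¹ = scG n u := by rw [mul_inv_eq_iff_eq_mul, hu.symm]
    have h2 := nm_mul_inv (guMap σ) g r
    rw [h1, guMap_pow, hσr, guMap_one_apply, mul_inv_cancel] at h2
    have h3 := nm_scG_mul σ u (1 : Cfsg.GU n F q) r
    rw [mul_one, h2, nm_one_left, mul_one] at h3
    have h5 : nm (nuMap σ) u r = 1 := scG_injective (n := n) (by omega) (by rw [← h3, map_one])
    have h6 : u ∈ (dvU σ).range := by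
      rw [← nmU_ker hr hodd (pow_card_sq hF)]
      exact h5
    obtain ⟨w, hw⟩ := h6
    rw [dvU_apply] at hw
    refine ⟨w, scG n w⁻¹ * g, by rw [← mul_assoc, ← map_mul, mul_inv_cancel, map_one, one_mul], ?_⟩
    rw [(guMap σ).map_mul, guMap_scG]
    have h6 : guMap σ g = scG n u⁻¹ * g := by
      rw [eq_comm, map_inv, inv_mul_eq_iff_eq_mul, hu.symm]
    rw [h6, ← mul_assoc, ← map_mul, ← hw]
    congr 2
    rw [map_inv, _root_.mul_inv_rev, inv_inv, inv_mul_cancel_left]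
  · rintro ⟨w, h, rfl, hh⟩
    refine ⟨rfl, w * (nuMap σ w)⁻¹, ?_⟩
    rw [(guMap σ).map_mul, guMap_scG, hh, ← mul_assoc, ← map_mul, inv_mul_cancel_right]

theorem splitClassCount_field (hF : Fintype.card F = q ^ 2) (hn : 3 ≤ n) {σ : F ≃+* F} {r : ℕ}
    (hr : orderOf σ = r) (hodd : Odd r) :
    Cfsg.splitClassCount (Cfsg.inndiagPSU n F q) (Cfsg.Inn (Cfsg.PSU n F q)) (psiSU 1 σ) =
      Nat.gcd n (dvU (F := F) (q := q) σ).ker.index := by
  have h0 : 0 < n := by omega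
  rw [← index_sup_pow]
  apply splitClassCount_psu hF hn
  intro a
  rw [Subgroup.mem_sup]
  constructor
  · rintro ⟨b, hb, _, ⟨w, rfl⟩, rfl⟩
    rw [MonoidHom.mem_ker, dvU_apply, mul_inv_eq_one] at hb
    refine ⟨diagGU ⟨0, h0⟩ b, w⁻¹, ?_, ?_⟩
    · rw [psiSU_mem_centralizer_std hF hn hr hodd]
      exact ⟨1, _, by rw [map_one, one_mul], by rw [guMap_diagGU, ← hb]⟩
    · rw [detU_diagGU, powMonoidHom_apply, inv_pow, mul_inv_cancel_right]
  · rintro ⟨g, w, hg, hw⟩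
    obtain ⟨v, h, rfl, hh⟩ := (psiSU_mem_centralizer_std hF hn hr hodd).mp hg
    refine ⟨detU hF n h, ?_, (v * w⁻¹) ^ n, ⟨_, rfl⟩, ?_⟩
    · rw [MonoidHom.mem_ker, dvU_apply, mul_inv_eq_one, ← detU_guMap hF, hh]
    · rw [map_mul, detU_scG] at hw
      rw [mul_pow, inv_pow, ← mul_assoc, mul_comm (detU hF n h), hw, mul_inv_cancel_right]

end

end H6.PSUField
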