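import Cfsg.Agent.Lib.H6.PSUOut
import Cfsg.Agent.Lib.H50.H90
import Cfsg.Agent.Lib.H50.PSLCount

/-!
The group of norm one elements of a field with `q²` elements; Hilbert 90 for automorphisms of odd order;
Hilbert 90 for the general unitary group.
-/

set_option autoImplicit false
set_option linter.unusedSectionVars false

namespace H6.PSUNorm

open Matrix H50.PSLBasic H50.SpBasic H50.H90 H50.PSLCount H50.PSLField H6.PSUBasic H6.PSUUniq H6.PSUOut

variable {q : ℕ} {F : Type*} [Field F]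

/-- the group of elements `u` with `u ^ (q + 1) = 1` -/
abbrev NU (F : Type*) [Field F] (q : ℕ) : Type _ := ↥(H44.UField.normHom F q).ker

lemma mem_NU {u : Fˣ} : u ∈ (H44.UField.normHom F q).ker ↔ u ^ (q + 1) = 1 := MonoidHom.mem_ker

lemma NU_pow (u : NU F q) : (u : Fˣ) ^ (q + 1) = 1 := mem_NU.1 u.2

/-- the action of `σ` on the norm one elements -/
def nuMap (σ : F ≃+* F) : MulAut (NU F q) where
  toFun u := ⟨unitsMap σ u, by rw [mem_NU, ← map_pow, NU_pow, map_one]⟩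
  invFun u := ⟨unitsMap σ.symm u, by rw [mem_NU, ← map_pow, NU_pow, map_one]⟩
  left_inv u := by
    apply Subtype.ext; apply Units.ext; simp
  right_inv u := by
    apply Subtype.ext; apply Units.ext; simp
  map_mul' u v := by
    apply Subtype.ext
    exact map_mul (unitsMap σ) _ _

lemma nuMap_coe (σ : F ≃+* F) (u : NU F q) : ((nuMap σ u : NU F q) : Fˣ) = unitsMap σ u := rfl

lemma nuMap_one (u : NU F q) : nuMap (1 : F ≃+* F) u = u := by
  apply Subtype.ext; apply Units.ext; rfl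

lemma nuMap_pow (σ : F ≃+* F) (k : ℕ) : (nuMap σ : MulAut (NU F q)) ^ k = nuMap (σ ^ k) := by
  induction k with
  | zero => ext u; rfl
  | succ k ih => rw [pow_succ, ih, pow_succ]; rfl

lemma nm_nu_coe (σ : F ≃+* F) (u : NU F q) (k : ℕ) :
    ((nm (nuMap σ) u k : NU F q) : Fˣ) = nm (unitsMap σ) (u : Fˣ) k := by
  induction k with
  | zero => rfl
  | succ k ih => rw [nm_succ, nm_succ, Subgroup.coe_mul, nuMap_coe, ih]

/-- norm homomorphism -/
noncomputable def nmU (σ : F ≃+* F) (k : ℕ) : NU F q →* NU F q where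
  toFun u := nm (nuMap σ) u k
  map_one' := by
    have := nm_mul_inv (nuMap σ : MulAut (NU F q)) 1 k
    simpa using this
  map_mul' u v := nm_mul_comm _ _ _ _

/-- the homomorphism `u ↦ u / σ(u)` -/
noncomputable def dvU (σ : F ≃+* F) : NU F q →* NU F q where
  toFun u := u * (nuMap σ u)⁻¹
  map_one' := by simp
  map_mul' u v := by rw [map_mul, mul_inv, mul_mul_mul_comm]

lemma nmU_apply (σ : F ≃+* F) (k : ℕ) (u : NU F q) : nmU σ k u = nm (nuMap σ) u k := rfl

lemma dvU_apply (σ : F ≃+* F) (u : NU F q) : dvU σ u = u * (nuMap σ u)⁻¹ := rfl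

lemma mem_dvU_ker {σ : F ≃+* F} {u : NU F q} : u ∈ (dvU σ).ker ↔ σ ((u : Fˣ) : F) = ((u : Fˣ) : F) := by
  rw [MonoidHom.mem_ker, dvU_apply, mul_inv_eq_one]
  constructor
  · intro h
    exact (congrArg (fun v : NU F q => ((v : Fˣ) : F)) h).symm
  · intro h
    apply Subtype.ext
    apply Units.ext
    exact h.symm

section

variable [Finite F]

/-- norms are surjective for odd order -/
lemma nmU_surj {σ : F ≃+* F} {r : ℕ} (hr : orderOf σ = r) (hodd : Odd r)
    (hcard : ∀ x : Fˣ, x ^ (q ^ 2) = x) {c : NU F q} (hc : c ∈ (dvU σ).ker) : ∃ w : NU F q, nmU σ r w = c := by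
  obtain ⟨k, hk⟩ := hodd
  have hcσ := mem_dvU_ker.1 hc
  have hcσ' : unitsMap σ (c : Fˣ) = (c : Fˣ) := Units.ext hcσ
  obtain ⟨w', hw'⟩ := exists_nm_eq hr (by omega) (c := (c : Fˣ)⁻¹) (by
    rw [Units.val_inv_eq_inv_val, map_inv₀, hcσ])
  have hcn := NU_pow c
  have hcq : (c : Fˣ) ^ q = (c : Fˣ)⁻¹ := by
    rw [eq_inv_iff_mul_eq_one, ← pow_succ]; exact hcn
  have hnm : ∀ (u : Fˣ), nm (unitsMap σ) u r = nmHom σ r u := fun u => rfl
  have hnc : ∀ j, nm (unitsMap σ) (c : Fˣ) j = (c : Fˣ) ^ j := by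
    intro j
    induction j with
    | zero => rw [nm_zero, pow_zero]
    | succ j ih => rw [nm_succ, ih, map_pow, hcσ', pow_succ']
  -- v = w'^(1-q)
  set v : Fˣ := w' * (w' ^ q)⁻¹ with hv
  have hvn : v ^ (q + 1) = 1 := by
    rw [hv, mul_pow, inv_pow, ← pow_mul, mul_inv_eq_one]
    have : w' ^ (q * (q + 1)) = w' ^ (q ^ 2) * w' ^ q := by rw [← pow_add]; congr 1; ring
    rw [this, hcard, pow_succ, mul_comm]
  have hnv : nm (unitsMap σ) v r = ((c : Fˣ)⁻¹) ^ 2 := by
    rw [hnm, hv, map_mul, map_inv, map_pow, ← hnm, hw', inv_pow, inv_inv, hcq, pow_two]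
  refine ⟨(⟨v, mem_NU.2 hvn⟩ ^ (k + 1) * c)⁻¹, ?_⟩
  rw [map_inv, map_mul, map_pow]
  apply Subtype.ext
  rw [Subgroup.coe_inv, Subgroup.coe_mul, Subgroup.coe_pow, nmU_apply, nmU_apply, nm_nu_coe, nm_nu_coe, hnv, hnc,
    hk, ← pow_mul, inv_pow]
  rw [inv_eq_iff_eq_inv, eq_comm, inv_eq_iff_mul_eq_one, mul_comm (c : Fˣ), mul_assoc, ← pow_succ,
    inv_mul_eq_one]
  congr 1

lemma nmU_range {σ : F ≃+* F} {r : ℕ} (hr : orderOf σ = r) (hodd : Odd r)
    (hcard : ∀ x : Fˣ, x ^ (q ^ 2) = x) : (nmU (F := F) (q := q) σ r).range = (dvU σ).ker := by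
  have hσr : σ ^ r = 1 := by rw [← hr, pow_orderOf_eq_one]
  apply le_antisymm
  · rintro _ ⟨u, rfl⟩
    rw [MonoidHom.mem_ker, dvU_apply, nmU_apply, mul_inv_eq_one, map_nm, nuMap_pow, hσr, nuMap_one,
      mul_comm _ u, ← mul_assoc, mul_inv_cancel, one_mul]
  · intro c hc
    exact nmU_surj hr hodd hcard hc

lemma nmU_ker {σ : F ≃+* F} {r : ℕ} (hr : orderOf σ = r) (hodd : Odd r)
    (hcard : ∀ x : Fˣ, x ^ (q ^ 2) = x) : (nmU (F := F) (q := q) σ r).ker = (dvU σ).range := by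
  have hσr : σ ^ r = 1 := by rw [← hr, pow_orderOf_eq_one]
  symm
  apply Subgroup.eq_of_le_of_card_ge
  · rintro _ ⟨w, rfl⟩
    rw [MonoidHom.mem_ker, nmU_apply, dvU_apply, nm_mul_inv, nuMap_pow, hσr, nuMap_one, mul_inv_cancel]
  · have h1 := card_range_mul_card_ker (nmU (F := F) (q := q) σ r)
    have h2 := card_range_mul_card_ker (dvU (F := F) (q := q) σ)
    rw [nmU_range hr hodd hcard, ← h2, mul_comm] at h1
    exact (Nat.eq_of_mul_eq_mul_right Nat.card_pos h1).le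

end

lemma pow_card_sq [Fintype F] (hF : Fintype.card F = q ^ 2) (x : Fˣ) : x ^ (q ^ 2) = x := by
  apply Units.ext
  rw [Units.val_pow_eq_pow_val, ← hF, FiniteField.pow_card]

/-! ### the fixed field -/

lemma exists_q0 [Fintype F] (hF : Fintype.card F = q ^ 2) {σ : F ≃+* F} {r : ℕ} (hr : orderOf σ = r)
    (hodd : Odd r) : ∃ q₀ : ℕ, Nat.card (H49.FixedField.fixedField σ) = q₀ ^ 2 ∧ q = q₀ ^ r := by
  have h1 := H49.FixedField.card_fixedField_pow σ
  rw [hr, Nat.card_eq_fintype_card (α := F), hF] at h1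
  set N := Nat.card (H49.FixedField.fixedField σ) with hN
  obtain ⟨k, hk⟩ := hodd
  have hN0 : 0 < N := Nat.card_pos
  have h2 : N ^ k ∣ q := by
    rw [← Nat.pow_dvd_pow_iff (n := 2) (by norm_num), ← h1, hk, ← pow_mul]
    exact pow_dvd_pow N (by omega)
  obtain ⟨q₀, hq₀⟩ := h2
  have h3 : N = q₀ ^ 2 := by
    have h4 : N ^ (2 * k) * N = N ^ (2 * k) * q₀ ^ 2 := by
      rw [← pow_succ, ← hk, h1, hq₀, mul_pow, ← pow_mul]
      ring
    exact Nat.eq_of_mul_eq_mul_left (pow_pos hN0 _) h4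
  refine ⟨q₀, h3, ?_⟩
  rw [hq₀, h3, hk, ← pow_mul, pow_succ]

lemma pow_q0 {F₀ : Type*} [Field F₀] [Fintype F₀] {q₀ r : ℕ} (hF₀ : Fintype.card F₀ = q₀ ^ 2) (hodd : Odd r)
    (x : F₀) : x ^ (q₀ ^ r) = x ^ q₀ := by
  obtain ⟨k, rfl⟩ := hodd
  induction k with
  | zero => simp
  | succ k ih =>
    have : q₀ ^ (2 * (k + 1) + 1) = q₀ ^ 2 * q₀ ^ (2 * k + 1) := by ring
    rw [this, pow_mul, ← hF₀, FiniteField.pow_card]
    exact ih

/-! ### the `q`-power automorphism -/

/-- the automorphism `x ↦ x ^ q` -/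
noncomputable def bar [Fintype F] (hF : Fintype.card F = q ^ 2) : F ≃+* F :=
  RingEquiv.ofBijective (H16.Herm.frobQ F hF)
    (Finite.injective_iff_bijective.1 (H16.Herm.frobQ F hF).injective)

lemma bar_apply [Fintype F] (hF : Fintype.card F = q ^ 2) (x : F) : bar hF x = x ^ q := rfl

lemma bar_bar [Fintype F] (hF : Fintype.card F = q ^ 2) (x : F) : bar hF (bar hF x) = x := by
  rw [bar_apply, bar_apply, H16.Herm.pow_q_pow_q hF]

lemma bar_ne [Fintype F] (hF : Fintype.card F = q ^ 2) : bar hF ≠ RingEquiv.refl F := by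
  intro h
  obtain ⟨a, ha⟩ := H16.Herm.exists_pow_q_ne hF
  apply ha
  rw [← bar_apply hF, h]; rfl

lemma bar_comm [Fintype F] (hF : Fintype.card F = q ^ 2) (σ : F ≃+* F) (x : F) : bar hF (σ x) = σ (bar hF x) := by
  rw [bar_apply, bar_apply, map_pow]

variable {n : ℕ}

lemma herm_dot [Fintype F] (hF : Fintype.card F = q ^ 2) (u v : Fin n → F) :
    Cfsg.hermForm n F q u v = u ⬝ᵥ (bar hF ∘ v) := rfl

lemma mem_GU_iff [Fintype F] (hF : Fintype.card F = q ^ 2) {g : GL (Fin n) F} :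
    g ∈ Cfsg.GU n F q ↔ (g : Matrix (Fin n) (Fin n) F)ᵀ * (g : Matrix (Fin n) (Fin n) F).map (bar hF) = 1 := by
  constructor
  · intro h
    exact unitary_eq hF ⟨g, h⟩
  · intro h
    rw [mem_GU]
    intro u v
    rw [herm_dot hF, herm_dot hF, comp_mulVec, ← Matrix.vecMul_transpose, ← Matrix.dotProduct_mulVec,
      Matrix.mulVec_mulVec, h, Matrix.one_mulVec]

lemma nm_gu_coe (σ : F ≃+* F) (g : Cfsg.GU n F q) (k : ℕ) :
    ((nm (guMap σ) g k : Cfsg.GU n F q) : GL (Fin n) F) = nm (glMap σ) (g : GL (Fin n) F) k := by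
  induction k with
  | zero => rfl
  | succ k ih => rw [nm_succ, nm_succ, Subgroup.coe_mul, guMap_coe, ih]

/-- **Hilbert 90 for the general unitary group.** -/
theorem hilbert90_GU [Fintype F] (hF : Fintype.card F = q ^ 2) {σ : F ≃+* F} {r : ℕ} (hr : orderOf σ = r)
    (hodd : Odd r) {g : Cfsg.GU n F q} (hg : nm (guMap σ) g r = 1) :
    ∃ h : Cfsg.GU n F q, g = h * (guMap σ h)⁻¹ := by
  classical
  obtain ⟨k, hk⟩ := hilbert90 hr hodd.pos (g := (g : GL (Fin n) F)) (by rw [← nm_gu_coe, hg, Subgroup.coe_one])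
  set K : Matrix (Fin n) (Fin n) F := (k : Matrix (Fin n) (Fin n) F) with hK
  set M : Matrix (Fin n) (Fin n) F := Kᵀ * K.map (bar hF) with hM
  have hKσ : K = gt g * K.map σ := by
    have h1 : k = (g : GL (Fin n) F) * glMap σ k := by rw [hk, inv_mul_cancel_right]
    have := congrArg Units.val h1
    rwa [Units.val_mul, glMap_coe] at this
  have hcomm : ∀ A : Matrix (Fin n) (Fin n) F, (A.map σ).map (bar hF) = (A.map (bar hF)).map σ := by
    intro A; ext i j
    exact bar_comm hF σ _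
  have hMσ : M.map σ = M := by
    have h1 : M.map σ = (K.map σ)ᵀ * (K.map (bar hF)).map σ := by
      rw [hM, map_mul_ringEquiv]; rfl
    rw [h1, hM]
    conv_rhs => rw [hKσ]
    rw [map_mul_ringEquiv, Matrix.transpose_mul, hcomm]
    calc (K.map σ)ᵀ * (K.map (bar hF)).map σ = (K.map σ)ᵀ * 1 * (K.map (bar hF)).map σ := by rw [Matrix.mul_one]
      _ = _ := by rw [← (mem_GU_iff hF).1 g.2]; simp only [Matrix.mul_assoc]
  have hMh : (M.map (bar hF))ᵀ = M := by
    rw [hM, map_mul_ringEquiv, Matrix.transpose_mul]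
    have h1 : (K.map (bar hF)).map (bar hF) = K := by
      ext i j; exact bar_bar hF _
    rw [h1]
    congr 1
  have hMdet : M.det ≠ 0 := by
    have hKd : K.det ≠ 0 := ((Matrix.isUnit_iff_isUnit_det _).mp k.isUnit).ne_zero
    rw [hM, Matrix.det_mul, Matrix.det_transpose]
    refine mul_ne_zero hKd ?_
    have h1 := RingHom.map_det (bar hF : F →+* F) K
    have h2 : (K.map (bar hF)).det = bar hF K.det := h1.symm
    rw [h2]
    exact (map_ne_zero _).2 hKd
  -- descend to the fixed field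
  obtain ⟨q₀, hq₀, hqq⟩ := exists_q0 hF hr hodd
  let F₀ := H49.FixedField.fixedField σ
  have : Fintype F₀ := Fintype.ofFinite _
  have hF₀ : Fintype.card F₀ = q₀ ^ 2 := by rw [← Nat.card_eq_fintype_card]; exact hq₀
  let j : F₀ →+* F := F₀.subtype
  have hjbar : ∀ x : F₀, j (bar hF₀ x) = bar hF (j x) := by
    intro x
    rw [bar_apply, bar_apply, ← map_pow, hqq, pow_q0 hF₀ hodd]
  have hMe : ∀ a b, ∃ c : F₀, j c = M a b := fun a b => ⟨⟨M a b, congrFun (congrFun hMσ a) b⟩, rfl⟩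
  choose M₀ hM₀ using hMe
  have hM₀map : (Matrix.of M₀).map j = M := by ext a b; exact hM₀ a b
  have hM₀det : (Matrix.of M₀).det ≠ 0 := by
    intro h0
    apply hMdet
    rw [← hM₀map]
    have := RingHom.map_det j (Matrix.of M₀)
    rw [h0, map_zero] at this
    exact this.symm
  obtain ⟨m, hm⟩ := hermitian_factor (F := F₀) (σ := bar hF₀) (bar_ne hF₀) (bar_bar hF₀) (H := Matrix.of M₀)
    (isUnit_iff_ne_zero.mpr hM₀det) (by
      apply Matrix.ext
      intro a b
      apply j.injective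
      change j (bar hF₀ (M₀ b a)) = j (M₀ a b)
      rw [hjbar, hM₀, hM₀]
      exact congrFun (congrFun hMh a) b)
  set m' : GL (Fin n) F := glHom j m with hm'
  have hm'σ : glMap σ m' = m' := by
    apply Units.ext
    rw [glMap_coe, hm', glHom_coe]
    ext a b
    exact ((m : Matrix _ _ F₀) a b).2
  have hMm : M = (m' : Matrix (Fin n) (Fin n) F) * ((m' : Matrix (Fin n) (Fin n) F).map (bar hF))ᵀ := by
    rw [← hM₀map, hm, Matrix.map_mul, hm', glHom_coe]
    congr 1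
    ext a b
    exact hjbar _
  have hmem : k * glInvTr m' ∈ Cfsg.GU n F q := by
    rw [mem_GU_iff hF, Units.val_mul, glInvTr_coe, Matrix.transpose_mul, Matrix.transpose_transpose,
      map_mul_ringEquiv]
    have h1 : ((m'⁻¹ : GL (Fin n) F) : Matrix (Fin n) (Fin n) F) * (m' : Matrix (Fin n) (Fin n) F) = 1 := by
      rw [← Units.val_mul, inv_mul_cancel, Units.val_one]
    have h2 : ((m' : Matrix (Fin n) (Fin n) F).map (bar hF))ᵀ *
        (((m'⁻¹ : GL (Fin n) F) : Matrix (Fin n) (Fin n) F)ᵀ).map (bar hF) = 1 := by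
      rw [Matrix.transpose_map, ← Matrix.transpose_mul, ← map_mul_ringEquiv, h1]
      have : (1 : Matrix (Fin n) (Fin n) F).map (bar hF) = 1 := by
        ext a b
        rw [Matrix.map_apply, Matrix.one_apply]
        by_cases hab : a = b <;> simp [hab]
      rw [this, Matrix.transpose_one]
    calc ((m'⁻¹ : GL (Fin n) F) : Matrix (Fin n) (Fin n) F) * Kᵀ * (K.map (bar hF) *
          (((m'⁻¹ : GL (Fin n) F) : Matrix (Fin n) (Fin n) F)ᵀ).map (bar hF))
        = ((m'⁻¹ : GL (Fin n) F) : Matrix (Fin n) (Fin n) F) * M *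
          (((m'⁻¹ : GL (Fin n) F) : Matrix (Fin n) (Fin n) F)ᵀ).map (bar hF) := by
          rw [hM]; simp only [Matrix.mul_assoc]
      _ = (((m'⁻¹ : GL (Fin n) F) : Matrix (Fin n) (Fin n) F) * (m' : Matrix (Fin n) (Fin n) F)) *
          (((m' : Matrix (Fin n) (Fin n) F).map (bar hF))ᵀ *
          (((m'⁻¹ : GL (Fin n) F) : Matrix (Fin n) (Fin n) F)ᵀ).map (bar hF)) := by
          rw [hMm]; simp only [Matrix.mul_assoc]
      _ = 1 := by rw [h1, h2, Matrix.one_mul]
  refine ⟨⟨k * glInvTr m', hmem⟩, ?_⟩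
  apply Subtype.ext
  change (g : GL (Fin n) F) = (k * glInvTr m') * (glMap σ (k * glInvTr m'))⁻¹
  rw [map_mul, glMap_glInvTr, hm'σ, _root_.mul_inv_rev, mul_assoc, mul_inv_cancel_left]
  exact hk

end H6.PSUNorm
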