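import Cfsg.Agent.Lib.H6.SpSysE

/-!
Amalgams for symplectic groups: pairs and triples of `SL₂`'s.
-/

set_option autoImplicit false

namespace H6.Slim

open H6.SpSys Matrix
open scoped commutatorElement

variable {F : Type*} [Field F] {Γ : Type*} [Group Γ]

/-- relations of a pair -/
structure Pr (a b : SpecialLinearGroup (Fin 2) F →* Γ) (T : (Fin 2 → F) → (Fin 2 → F) → Γ) : Prop where
  conj : ∀ g v w, a g * T v w = T (g.1 *ᵥ v) w * a g
  conj' : ∀ g v w, b g * T v w = T v (g.1 *ᵥ w) * b g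
  smul : ∀ (c : F) v w, T (c • v) w = T v (c • w)
  mul : ∀ v w w', T v w * T v w' = T v (w + w') * a (tv v (om w' w))
  mul' : ∀ v v' w, T v w * T v' w = T (v + v') w * b (tv w (om v' v))

namespace Pr

variable {a b : SpecialLinearGroup (Fin 2) F →* Γ} {T : (Fin 2 → F) → (Fin 2 → F) → Γ} (h : Pr a b T)
include h

lemma swap : Pr b a (fun w v => T v w) where
  conj g v w := h.conj' g w v
  conj' g v w := h.conj g w v
  smul c v w := (h.smul c w v).symm
  mul v w w' := h.mul' w w' v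
  mul' v v' w := h.mul w v v'

lemma zero (v : Fin 2 → F) : T v 0 = 1 := by
  have := h.mul v 0 0
  rw [om_self, tv_zero, map_one, mul_one, add_zero] at this
  exact mul_eq_left.1 this

lemma zero' (v : Fin 2 → F) : T 0 v = 1 := h.swap.zero v

lemma neg (v w : Fin 2 → F) : T v (-w) = (T v w)⁻¹ := by
  rw [eq_inv_iff_mul_eq_one, h.mul, neg_add_cancel, om_neg_right, om_self, neg_zero, tv_zero, map_one, mul_one,
    h.zero]

lemma neg' (v w : Fin 2 → F) : T (-v) w = (T v w)⁻¹ := h.swap.neg w v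

end Pr

section groups

variable {A B X Y Z : Γ}

lemma cm_mul_right (h : A * Y = Y * A) : ⁅A, B * Y⁆ = ⁅A, B⁆ := by
  rw [commutatorElement_def, commutatorElement_def, _root_.mul_inv_rev]
  have h' : Y * A⁻¹ = A⁻¹ * Y := by rw [eq_inv_mul_iff_mul_eq, ← mul_assoc, h, mul_inv_cancel_right]
  calc A * (B * Y) * A⁻¹ * (Y⁻¹ * B⁻¹) = A * B * (Y * A⁻¹) * Y⁻¹ * B⁻¹ := by simp only [mul_assoc]
    _ = _ := by rw [h']; group

lemma cm_mul_left (h : Y * B = B * Y) : ⁅A * Y, B⁆ = ⁅A, B⁆ := by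
  rw [commutatorElement_def, commutatorElement_def, _root_.mul_inv_rev]
  calc A * Y * B * (Y⁻¹ * A⁻¹) * B⁻¹ = A * (Y * B) * Y⁻¹ * A⁻¹ * B⁻¹ := by simp only [mul_assoc]
    _ = _ := by rw [h]; group

lemma cm_mul_left' : ⁅X * Y, Z⁆ = X * ⁅Y, Z⁆ * X⁻¹ * ⁅X, Z⁆ := by
  simp only [commutatorElement_def]; group

lemma cm_mul_right' : ⁅Z, X * Y⁆ = ⁅Z, X⁆ * (X * ⁅Z, Y⁆ * X⁻¹) := by
  simp only [commutatorElement_def]; group

lemma cm_one (h : A * B = B * A) : ⁅A, B⁆ = 1 := commutatorElement_eq_one_iff_mul_comm.2 h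

/-- conjugating a commutator -/
lemma cm_conj {A' B' : Γ} (hA : X * A = A' * X) (hB : X * B = B' * X) : X * ⁅A, B⁆ = ⁅A', B'⁆ * X := by
  have e1 : A' = X * A * X⁻¹ := by rw [hA]; group
  have e2 : B' = X * B * X⁻¹ := by rw [hB]; group
  rw [e1, e2]; simp only [commutatorElement_def]; group

lemma cm_comm (hA : X * A = A * X) (hB : X * B = B * X) : X * ⁅A, B⁆ = ⁅A, B⁆ * X := cm_conj hA hB

lemma inv_comm (h : A * B = B * A) : A⁻¹ * B = B * A⁻¹ := by
  rw [inv_mul_eq_iff_eq_mul, ← mul_assoc, h, mul_inv_cancel_right]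

lemma comm_inv' (h : A * B = B * A) : A * B⁻¹ = B⁻¹ * A := (inv_comm h.symm).symm

end groups

/-- data of a triple -/
structure Tri (a b c : SpecialLinearGroup (Fin 2) F →* Γ) (A B : (Fin 2 → F) → (Fin 2 → F) → Γ) : Prop where
  ab : ∀ g h, a g * b h = b h * a g
  ac : ∀ g h, a g * c h = c h * a g
  bc : ∀ g h, b g * c h = c h * b g
  hA : Pr a b A
  hB : Pr b c B
  cA : ∀ g v w, c g * A v w = A v w * c g
  aB : ∀ g w x, a g * B w x = B w x * a g
  AB : ∀ v w x, A v w * B w x = B w x * A v w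

/-- the new elements -/
def CC (A B : (Fin 2 → F) → (Fin 2 → F) → Γ) (v x : Fin 2 → F) : Γ := ⁅A v (ee F), B (-(ff F)) x⁆

lemma exists_coef' {w w' : Fin 2 → F} (hw : w ≠ 0) (h : om w w' = 0) : ∃ a : F, w' = a • w := by
  unfold om at h
  by_cases h0 : w 0 = 0
  · have h1 : w 1 ≠ 0 := by
      intro h1; apply hw; ext i; fin_cases i
      · exact h0
      · exact h1
    refine ⟨w' 1 / w 1, ?_⟩
    rw [h0, zero_mul, zero_sub, neg_eq_zero] at h
    have h2 : w' 0 = 0 := (mul_eq_zero.1 h).resolve_left h1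
    ext i; fin_cases i
    · simp [h2, h0]
    · simp [h1]
  · refine ⟨w' 0 / w 0, ?_⟩
    ext i; fin_cases i
    · simp [h0]
    · simp only [Fin.mk_one, Pi.smul_apply, smul_eq_mul]
      field_simp
      linear_combination h

lemma exists_om' {w : Fin 2 → F} (h : w ≠ 0) (d : F) : ∃ u, om u w = d := by
  obtain ⟨z, hz⟩ := exists_om h
  exact ⟨-(d • z), by rw [om_neg_left, om_smul_left, om_swap, hz]; ring⟩

lemma sl2_gen {S : Subgroup (SpecialLinearGroup (Fin 2) F)} (he : ∀ c, tv (ee F) c ∈ S) (hf : ∀ c, tv (ff F) c ∈ S)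
    (g : SpecialLinearGroup (Fin 2) F) : g ∈ S := by rw [sl2_top he hf]; trivial

namespace Tri

variable {a b c : SpecialLinearGroup (Fin 2) F →* Γ} {A B : (Fin 2 → F) → (Fin 2 → F) → Γ} (t : Tri a b c A B)
include t

lemma swap : Tri c b a (fun x w => B w x) (fun w v => A v w) where
  ab g h := (t.bc h g).symm
  ac g h := (t.ac h g).symm
  bc g h := (t.ab h g).symm
  hA := t.hB.swap
  hB := t.hA.swap
  cA g v w := t.aB g w v
  aB g w x := t.cA g x w
  AB v w x := (t.AB x w v).symm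

lemma ABs (v w x : Fin 2 → F) (s : F) : A v w * B (s • w) x = B (s • w) x * A v w := by
  rw [t.hB.smul]; exact t.AB _ _ _

lemma ABs' (v w x : Fin 2 → F) (s : F) : A v (s • w) * B w x = B w x * A v (s • w) := by
  rw [← t.hA.smul]; exact t.AB _ _ _

lemma inv1 (v w w' x : Fin 2 → F) (s : F) : ⁅A v w, B (w' + s • w) x⁆ = ⁅A v w, B w' x⁆ := by
  have e1 : B (w' + s • w) x = B w' x * (B (s • w) x * (c (tv x (om (s • w) w')))⁻¹) := by
    rw [← mul_assoc, t.hB.mul', mul_inv_cancel_right]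
  rw [e1]
  apply cm_mul_right
  rw [← mul_assoc, t.ABs, mul_assoc, comm_inv' (t.cA _ v w).symm, mul_assoc]

lemma inv2 (v w w' x : Fin 2 → F) (s : F) : ⁅A v (w + s • w'), B w' x⁆ = ⁅A v w, B w' x⁆ := by
  have e1 : A v (w + s • w') = A v w * (A v (s • w') * (a (tv v (om (s • w') w)))⁻¹) := by
    rw [← mul_assoc, t.hA.mul, mul_inv_cancel_right]
  rw [e1]
  apply cm_mul_left
  rw [mul_assoc, inv_comm (t.aB _ w' x), ← mul_assoc, t.ABs', mul_assoc]

lemma bconj (g : SpecialLinearGroup (Fin 2) F) (v w w' x : Fin 2 → F) :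
    b g * ⁅A v w, B w' x⁆ = ⁅A v (g.1 *ᵥ w), B (g.1 *ᵥ w') x⁆ * b g :=
  cm_conj (t.hA.conj' g v w) (t.hB.conj g w' x)

/-- the commutators commute with `b` -/
lemma bfix (g : SpecialLinearGroup (Fin 2) F) (v x : Fin 2 → F) (d : F) :
    b g * ⁅A v (ee F), B (d • ff F) x⁆ = ⁅A v (ee F), B (d • ff F) x⁆ * b g := by
  let S : Subgroup (SpecialLinearGroup (Fin 2) F) :=
    (Subgroup.centralizer {⁅A v (ee F), B (d • ff F) x⁆}).comap b
  have hS : ∀ g, g ∈ S ↔ b g * ⁅A v (ee F), B (d • ff F) x⁆ = ⁅A v (ee F), B (d • ff F) x⁆ * b g := by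
    intro g
    rw [Subgroup.mem_comap, Subgroup.mem_centralizer_singleton_iff]
  rw [← hS]
  apply sl2_gen
  · intro s
    rw [hS, t.bconj, tv_act, om_self, mul_zero, zero_smul, add_zero, tv_act, om_smul_left, om_ff_ee]
    rw [t.inv1]
  · intro s
    rw [hS, t.bconj, tv_act, om_ee_ff, tv_act, om_smul_left, om_self, mul_zero, mul_zero, zero_smul, add_zero]
    by_cases hd : d = 0
    · rw [hd, zero_smul, t.hB.zero', cm_one (by rw [mul_one, one_mul]), cm_one (by rw [mul_one, one_mul])]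
    · have : (s * 1) • ff F = (s / d) • (d • ff F) := by rw [smul_smul, div_mul_cancel₀ _ hd, mul_one]
      rw [this, t.inv2]

/-- the commutators depend on `om w w'` only -/
lemma cval (v w w' x : Fin 2 → F) : ⁅A v w, B w' x⁆ = ⁅A v (ee F), B (om w w' • ff F) x⁆ := by
  by_cases hd : om w w' = 0
  · rw [hd, zero_smul, t.hB.zero', cm_one (A := A v (ee F)) (by rw [mul_one, one_mul])]
    apply cm_one
    by_cases hw : w = 0
    · rw [hw, t.hA.zero, mul_one, one_mul]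
    · obtain ⟨s, rfl⟩ := exists_coef' hw hd
      exact t.ABs _ _ _ _
  · obtain ⟨g, hg1, hg2⟩ := exists_act2 (v := w) (v' := (om w w')⁻¹ • w') (by
      rw [om_smul_right, inv_mul_cancel₀ hd])
    have e1 := t.bfix g v x (om w w')
    rw [t.bconj, hg1, Matrix.mulVec_smul, hg2, smul_smul, mul_inv_cancel₀ hd, one_smul] at e1
    exact mul_right_cancel e1

lemma commA (v w x : Fin 2 → F) (d : F) : A v w * ⁅A v (ee F), B (d • ff F) x⁆ = ⁅A v (ee F), B (d • ff F) x⁆ * A v w := by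
  by_cases hw : w = 0
  · rw [hw, t.hA.zero, mul_one, one_mul]
  obtain ⟨u, hu⟩ := exists_om' hw d
  have e1 : ⁅A v w * A v u, B w x⁆ = ⁅A v (w + u), B w x⁆ := by
    rw [t.hA.mul]
    exact cm_mul_left (t.aB _ w x)
  rw [cm_mul_left', cm_one (t.AB v w x), mul_one, t.cval v u, t.cval v (w + u), om_add_left, om_self, zero_add,
    hu] at e1
  rw [mul_inv_eq_iff_eq_mul] at e1
  exact e1

lemma commB (v w x : Fin 2 → F) (d : F) : B w x * ⁅A v (ee F), B (d • ff F) x⁆ = ⁅A v (ee F), B (d • ff F) x⁆ * B w x := by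
  by_cases hw : w = 0
  · rw [hw, t.hB.zero', mul_one, one_mul]
  obtain ⟨u, hu⟩ := exists_om' hw (-d)
  have e1 : ⁅A v w, B w x * B u x⁆ = ⁅A v w, B (w + u) x⁆ := by
    rw [t.hB.mul']
    exact cm_mul_right (t.cA _ v w).symm
  rw [cm_mul_right', cm_one (t.AB v w x), one_mul, t.cval v w u, t.cval v w (w + u), om_add_right, om_self, zero_add,
    om_swap, hu, neg_neg] at e1
  rw [mul_inv_eq_iff_eq_mul] at e1
  exact e1

lemma kadd (v x : Fin 2 → F) (r d : F) : ⁅A v (ee F), B ((r + d) • ff F) x⁆ =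
    ⁅A v (ee F), B (d • ff F) x⁆ * ⁅A v (ee F), B (r • ff F) x⁆ := by
  have e1 : ⁅A v (r • ee F) * A v (d • ee F), B (ff F) x⁆ = ⁅A v (r • ee F + d • ee F), B (ff F) x⁆ := by
    rw [t.hA.mul]
    exact cm_mul_left (t.aB _ _ x)
  rw [cm_mul_left', t.cval v (d • ee F), t.cval v (r • ee F), ← add_smul, t.cval v ((r + d) • ee F), om_smul_left,
    om_smul_left, om_smul_left, om_ee_ff, mul_one, mul_one, mul_one, t.commA, mul_inv_cancel_right] at e1
  exact e1.symm

/-- value of `C` -/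
lemma cc_smul (s : F) (v x : Fin 2 → F) : CC A B (s • v) x = ⁅A v (ee F), B ((-s) • ff F) x⁆ := by
  unfold CC
  rw [t.hA.smul, t.cval, om_smul_left, om_neg_right, om_ee_ff, mul_neg, mul_one]

lemma cc_eq (v x : Fin 2 → F) : CC A B v x = ⁅A v (ee F), B ((-1 : F) • ff F) x⁆ := by
  have := t.cc_smul 1 v x
  rwa [one_smul] at this

lemma cc_smul' (s : F) (v x : Fin 2 → F) : CC A B v (s • x) = ⁅A v (ee F), B ((-s) • ff F) x⁆ := by
  rw [t.cc_eq, ← t.hB.smul, smul_smul, mul_neg, mul_one]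

lemma cc_val (v w w' x : Fin 2 → F) : ⁅A v w, B w' x⁆ = CC A B (om w' w • v) x := by
  rw [t.cc_smul, t.cval, om_swap w w']

lemma cc_add (s r : F) (v x : Fin 2 → F) : CC A B (s • v) x * CC A B (r • v) x = CC A B ((s + r) • v) x := by
  rw [t.cc_smul, t.cc_smul, t.cc_smul, ← t.kadd]; congr 3; ring

lemma cc_zero (x : Fin 2 → F) : CC A B 0 x = 1 := by
  unfold CC; rw [t.hA.zero']; exact cm_one (by rw [mul_one, one_mul])

lemma cc_b (g : SpecialLinearGroup (Fin 2) F) (v x : Fin 2 → F) : b g * CC A B v x = CC A B v x * b g := by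
  rw [t.cc_eq]; exact t.bfix _ _ _ _

lemma cc_A (v w x : Fin 2 → F) : A v w * CC A B v x = CC A B v x * A v w := by
  rw [t.cc_eq]; exact t.commA _ _ _ _

lemma cc_B (v w x : Fin 2 → F) : B w x * CC A B v x = CC A B v x * B w x := by
  rw [t.cc_eq]; exact t.commB _ _ _ _

lemma cc_conj (g : SpecialLinearGroup (Fin 2) F) (v x : Fin 2 → F) : a g * CC A B v x = CC A B (g.1 *ᵥ v) x * a g :=
  cm_conj (t.hA.conj g v _) (t.aB g _ x)

lemma cc_conj' (g : SpecialLinearGroup (Fin 2) F) (v x : Fin 2 → F) : c g * CC A B v x = CC A B v (g.1 *ᵥ x) * c g :=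
  cm_conj (t.cA g v _) (t.hB.conj' g _ x)

/-- relation of the first kind -/
lemma c1 (v w w' x : Fin 2 → F) : A v w * B w' x = CC A B (om w' w • v) x * B w' x * A v w := by
  rw [← t.cc_val, commutatorElement_def]; group

lemma cc_swap (v x : Fin 2 → F) : CC (fun x w => B w x) (fun w v => A v w) x v = CC A B v x := by
  unfold CC
  have h1 : ⁅B (ee F) x, A v (-(ff F))⁆ = ⁅A v (-(ff F)), B (ee F) x⁆⁻¹ := (commutatorElement_inv _ _).symm
  rw [h1, t.cval, om_neg_left, om_ff_ee, neg_neg, one_smul]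
  have h2 := t.kadd v x 1 (-1)
  rw [add_neg_cancel, zero_smul, t.hB.zero', cm_one (A := A v (ee F)) (B := 1) (by rw [mul_one, one_mul]), one_smul,
    neg_one_smul] at h2
  rw [inv_eq_iff_mul_eq_one, ← commutatorElement_inv, inv_mul_eq_one]
  rw [eq_comm, mul_eq_one_iff_eq_inv] at h2
  rw [h2, commutatorElement_inv]

end Tri

end H6.Slim
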