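import Cfsg.Agent.Lib.H6.SlimA

/-!
Amalgams for symplectic groups: the rank-3 lemma.
-/

set_option autoImplicit false

namespace H6.Slim

open H6.SpSys Matrix
open scoped commutatorElement

variable {F : Type*} [Field F] {Γ : Type*} [Group Γ]

/-- diagonal elements -/
def hdg (a : F) (h : a ≠ 0) : SpecialLinearGroup (Fin 2) F := ⟨!![a, 0; 0, a⁻¹], by simp [Matrix.det_fin_two, h]⟩

lemma hdg_ee (a : F) (h : a ≠ 0) : (hdg a h).1 *ᵥ ee F = a • ee F := by
  ext i; fin_cases i <;> simp [hdg, ee, Matrix.mulVec, dotProduct, Fin.sum_univ_two]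

namespace Tri

variable {a b c : SpecialLinearGroup (Fin 2) F →* Γ} {A B : (Fin 2 → F) → (Fin 2 → F) → Γ} (t : Tri a b c A B)
include t

/-- `c` commutes with `a`, `b`, `A`, `C(·,x)` where `c = c (tv x d)` -/
lemma cz_A (g : SpecialLinearGroup (Fin 2) F) (v w : Fin 2 → F) : c g * A v w = A v w * c g := t.cA g v w

lemma cz_C (v x : Fin 2 → F) (d : F) : c (tv x d) * CC A B v x = CC A B v x * c (tv x d) := by
  have := t.cc_conj' (tv x d) v x
  rwa [tv_act, om_self, mul_zero, zero_smul, add_zero] at this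

lemma cz_B (w x : Fin 2 → F) (d : F) : c (tv x d) * B w x = B w x * c (tv x d) := by
  have := t.hB.conj' (tv x d) w x
  rwa [tv_act, om_self, mul_zero, zero_smul, add_zero] at this

omit t in
lemma b0_A (v x : Fin 2 → F) : B (-(ff F)) x * A v (ee F) = (CC A B v x)⁻¹ * A v (ee F) * B (-(ff F)) x := by
  unfold CC
  rw [commutatorElement_def]; group

lemma b0_b (x : Fin 2 → F) (d : F) : B (-(ff F)) x * b (tv (ee F) d) =
    b (tv (ee F) d) * B (-(d • ee F)) x * c (tv x d) * B (-(ff F)) x := by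
  have e1 := t.hB.conj (tv (ee F) (-d)) (-(ff F)) x
  rw [tv_act, om_neg_left, om_ff_ee, neg_neg, mul_one, neg_smul, tv_neg, map_inv] at e1
  have e2 : B (-(ff F)) x * b (tv (ee F) d) = b (tv (ee F) d) * B (-(ff F) + -(d • ee F)) x := by
    rw [inv_mul_eq_iff_eq_mul] at e1
    rw [e1]; group
  rw [e2]
  have e3 := t.hB.mul' (-(ff F) + -(d • ee F)) (ff F) x
  have e4 : -(ff F) + -(d • ee F) + ff F = -(d • ee F) := by abel
  have e5 : om (ff F) (-(ff F) + -(d • ee F)) = d := by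
    rw [om_add_right, om_neg_right, om_neg_right, om_self, om_smul_right, om_ff_ee]; ring
  rw [e4, e5] at e3
  have e6 : B (-(ff F) + -(d • ee F)) x = B (-(d • ee F)) x * c (tv x d) * B (-(ff F)) x := by
    rw [← e3, t.hB.neg' (ff F)]; group
  rw [e6]; simp only [mul_assoc]

lemma step1 (v v' x : Fin 2 → F) : A v (ee F) * (CC A B v' x)⁻¹ * (A v (ee F))⁻¹ =
    CC A B v x * (CC A B (v + v') x)⁻¹ * B (-(om v' v • ee F)) x * c (tv x (om v' v)) := by
  set d := om v' v with hd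
  set p := CC A B v x with hp
  set p' := CC A B v' x with hp'
  set p2 := CC A B (v + v') x with hp2
  set b0 := B (-(ff F)) x with hb0
  set Q := B (-(d • ee F)) x with hQ
  set R := c (tv x d) with hR
  have m1 : A v (ee F) * A v' (ee F) = A (v + v') (ee F) * b (tv (ee F) d) := t.hA.mul' v v' (ee F)
  have e1 : b0 * (A v (ee F) * A v' (ee F)) = p⁻¹ * A v (ee F) * (p'⁻¹ * A v' (ee F)) * b0 := by
    rw [← mul_assoc, b0_A, mul_assoc _ b0, b0_A]; simp only [mul_assoc]; rfl
  have e2 : b0 * (A (v + v') (ee F) * b (tv (ee F) d)) = p2⁻¹ * (A (v + v') (ee F) * b (tv (ee F) d)) * (Q * R) * b0 := by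
    rw [← mul_assoc, b0_A, mul_assoc _ b0, t.b0_b]; simp only [mul_assoc]; rfl
  rw [← m1, e1] at e2
  have e3 := mul_right_cancel e2
  have hQ1 : ∀ u, A u (ee F) * Q = Q * A u (ee F) := by
    intro u
    rw [hQ, ← neg_smul]; exact t.ABs _ _ _ _
  have hR1 : ∀ u, A u (ee F) * R = R * A u (ee F) := fun u => (t.cA _ _ _).symm
  have e4 : A v (ee F) * A v' (ee F) * (Q * R) = Q * R * A v (ee F) * A v' (ee F) := by
    calc A v (ee F) * A v' (ee F) * (Q * R) = A v (ee F) * (A v' (ee F) * Q) * R := by simp only [mul_assoc]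
      _ = (A v (ee F) * Q) * (A v' (ee F) * R) := by rw [hQ1]; simp only [mul_assoc]
      _ = Q * (A v (ee F) * R) * A v' (ee F) := by rw [hQ1, hR1]; simp only [mul_assoc]
      _ = _ := by rw [hR1]; simp only [mul_assoc]
  have e5 : p⁻¹ * A v (ee F) * p'⁻¹ = p2⁻¹ * (Q * R) * A v (ee F) := by
    apply mul_right_cancel (b := A v' (ee F))
    calc _ = p⁻¹ * A v (ee F) * (p'⁻¹ * A v' (ee F)) := by simp only [mul_assoc]
      _ = p2⁻¹ * (A v (ee F) * A v' (ee F) * (Q * R)) := by rw [e3]; simp only [mul_assoc]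
      _ = _ := by rw [e4]; simp only [mul_assoc]
  rw [mul_inv_eq_iff_eq_mul]
  calc A v (ee F) * p'⁻¹ = p * (p⁻¹ * A v (ee F) * p'⁻¹) := by group
    _ = _ := by rw [e5]; simp only [mul_assoc]

lemma step2 {κ : F} (h0 : κ ≠ 0) (v v' x : Fin 2 → F) :
    CC A B v x * (CC A B (v + v') x)⁻¹ * c (tv x (om v' v)) =
      CC A B (κ • v) x * (CC A B (κ • v + v') x)⁻¹ * c (tv x (κ * om v' v)) := by
  have e1 := t.step1 v v' x
  have e2 := t.step1 (κ • v) v' x
  rw [om_smul_right] at e2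
  set d := om v' v with hd
  set g := hdg κ h0 with hg
  have hge : g.1 *ᵥ ee F = κ • ee F := hdg_ee κ h0
  have c1 : b g * A v (ee F) = A (κ • v) (ee F) * b g := by rw [t.hA.conj', hge, ← t.hA.smul]
  have c2 : b g * B (-(d • ee F)) x = B (-((κ * d) • ee F)) x * b g := by
    rw [t.hB.conj, Matrix.mulVec_neg, Matrix.mulVec_smul, hge, smul_smul, mul_comm d κ]
  have c3 : ∀ u, b g * CC A B u x = CC A B u x * b g := fun u => t.cc_b g u x
  have c4 : ∀ h, b g * c h = c h * b g := t.bc g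
  have e3 : b g * (A v (ee F) * (CC A B v' x)⁻¹ * (A v (ee F))⁻¹) * (b g)⁻¹ =
      A (κ • v) (ee F) * (CC A B v' x)⁻¹ * (A (κ • v) (ee F))⁻¹ := by
    rw [mul_inv_eq_iff_eq_mul]
    have : (A (κ • v) (ee F))⁻¹ * b g = b g * (A v (ee F))⁻¹ := by
      rw [inv_mul_eq_iff_eq_mul, ← mul_assoc, ← c1, mul_inv_cancel_right]
    calc _ = (b g * A v (ee F)) * (CC A B v' x)⁻¹ * (A v (ee F))⁻¹ := by simp only [mul_assoc]
      _ = A (κ • v) (ee F) * (b g * (CC A B v' x)⁻¹) * (A v (ee F))⁻¹ := by rw [c1]; simp only [mul_assoc]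
      _ = A (κ • v) (ee F) * (CC A B v' x)⁻¹ * (b g * (A v (ee F))⁻¹) := by
          rw [comm_inv' (c3 v')]; simp only [mul_assoc]
      _ = _ := by rw [← this]; simp only [mul_assoc]
  rw [e1] at e3
  have e4 : b g * (CC A B v x * (CC A B (v + v') x)⁻¹ * B (-(d • ee F)) x * c (tv x d)) * (b g)⁻¹ =
      CC A B v x * (CC A B (v + v') x)⁻¹ * B (-((κ * d) • ee F)) x * c (tv x d) := by
    rw [mul_inv_eq_iff_eq_mul]
    calc _ = (b g * CC A B v x) * (CC A B (v + v') x)⁻¹ * B (-(d • ee F)) x * c (tv x d) := by simp only [mul_assoc]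
      _ = CC A B v x * (b g * (CC A B (v + v') x)⁻¹) * B (-(d • ee F)) x * c (tv x d) := by
          rw [c3]; simp only [mul_assoc]
      _ = CC A B v x * (CC A B (v + v') x)⁻¹ * (b g * B (-(d • ee F)) x) * c (tv x d) := by
          rw [comm_inv' (c3 _)]; simp only [mul_assoc]
      _ = CC A B v x * (CC A B (v + v') x)⁻¹ * B (-((κ * d) • ee F)) x * (b g * c (tv x d)) := by
          rw [c2]; simp only [mul_assoc]
      _ = _ := by rw [c4]; simp only [mul_assoc]
  rw [e4, e2] at e3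
  have e5 : ∀ d', B (-((κ * d) • ee F)) x * c (tv x d') = c (tv x d') * B (-((κ * d) • ee F)) x :=
    fun d' => (t.cz_B _ _ _).symm
  rw [mul_assoc, mul_assoc _ (B _ x), e5, e5, ← mul_assoc, ← mul_assoc] at e3
  exact mul_right_cancel e3

/-- additivity of `C` -/
lemma cc_mul' (hF : ∃ κ : F, κ ≠ 0 ∧ κ ≠ 1) (u u' x : Fin 2 → F) :
    CC A B u x * CC A B u' x = CC A B (u + u') x * c (tv x (om u' u)) := by
  obtain ⟨κ, h0, h1⟩ := hF
  have hk : κ - 1 ≠ 0 := sub_ne_zero.2 h1
  set v := (κ - 1)⁻¹ • u' with hv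
  set v' := u - v with hv'
  have e1 := t.step2 h0 v v' x
  have a1 : v + v' = u := by rw [hv']; abel
  have a2 : (κ - 1) • v = u' := by rw [hv, smul_smul, mul_inv_cancel₀ hk, one_smul]
  have a3 : κ • v + v' = u + u' := by
    rw [← a2, hv', sub_smul, one_smul]; abel
  have a4 : κ • v = v + (κ - 1) • v := by rw [sub_smul, one_smul]; abel
  have a5 : CC A B (κ • v) x = CC A B v x * CC A B u' x := by
    have := t.cc_add 1 (κ - 1) v x
    rw [one_smul, add_sub_cancel, a2] at this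
    exact this.symm
  rw [a1, a3, a5] at e1
  set d := om v' v with hd
  have hdd : om u' u = d - κ * d := by
    rw [hd, hv', om_sub_left, om_self, sub_zero, ← a2, om_smul_left, om_swap v u]; ring
  -- central element
  have z1 : ∀ y d, c (tv x d) * CC A B y x = CC A B y x * c (tv x d) := fun y d => t.cz_C y x d
  have e2 : (CC A B u x)⁻¹ * c (tv x d) = CC A B u' x * (CC A B (u + u') x)⁻¹ * c (tv x (κ * d)) := by
    have : CC A B v x * ((CC A B u x)⁻¹ * c (tv x d)) =
        CC A B v x * (CC A B u' x * (CC A B (u + u') x)⁻¹ * c (tv x (κ * d))) := by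
      simpa only [mul_assoc] using e1
    exact mul_left_cancel this
  have e3 : c (tv x (d - κ * d)) = c (tv x d) * (c (tv x (κ * d)))⁻¹ := by
    rw [sub_eq_add_neg, tv_add, tv_neg, map_mul, map_inv]
  rw [hdd, e3]
  have e4 : c (tv x d) = CC A B u x * CC A B u' x * (CC A B (u + u') x)⁻¹ * c (tv x (κ * d)) := by
    rw [inv_mul_eq_iff_eq_mul] at e2
    rw [e2]; simp only [mul_assoc]
  have e5 : c (tv x d) * CC A B (u + u') x = CC A B u x * CC A B u' x * c (tv x (κ * d)) := by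
    rw [e4, mul_assoc _ (c _), z1, mul_assoc _ (CC A B (u + u') x)⁻¹, inv_mul_cancel_left]
  rw [← mul_assoc, eq_mul_inv_iff_mul_eq, ← e5, z1]

/-- action of `A` on `C` -/
lemma c0e (hF : ∃ κ : F, κ ≠ 0 ∧ κ ≠ 1) (v v' x : Fin 2 → F) :
    A v (ee F) * CC A B v' x = B (om v' v • ee F) x * CC A B v' x * A v (ee F) := by
  have e1 := t.step1 v v' x
  have e2 := t.cc_mul' hF v' v x
  rw [add_comm v' v, om_swap v v', tv_neg, map_inv] at e2
  have zp : ∀ y, Commute (c (tv x (om v' v))) (CC A B y x) := fun y => t.cz_C _ x _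
  have zq : Commute (c (tv x (om v' v))) (B (-(om v' v • ee F)) x) := t.cz_B _ _ _
  have e3 : CC A B (v + v') x = CC A B v' x * CC A B v x * c (tv x (om v' v)) := by
    rw [e2, inv_mul_cancel_right]
  rw [e3] at e1
  have e4 : A v (ee F) * (CC A B v' x)⁻¹ * (A v (ee F))⁻¹ = (CC A B v' x)⁻¹ * B (-(om v' v • ee F)) x := by
    rw [e1]
    generalize c (tv x (om v' v)) = R at zp zq
    generalize B (-(om v' v • ee F)) x = q at zq
    have z1 := zp v
    have z2 := zp v'
    generalize CC A B v x = p at z1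
    generalize CC A B v' x = p' at z2
    have h1 : p * (p' * p * R)⁻¹ = R⁻¹ * p'⁻¹ := by
      rw [_root_.mul_inv_rev, _root_.mul_inv_rev, ← mul_assoc, (z1.symm.inv_right).eq]
      group
    rw [h1, mul_assoc, mul_assoc, ← zq.eq, ← mul_assoc _ R, ← (z2.inv_right).eq, ← mul_assoc, ← mul_assoc,
      inv_mul_cancel, one_mul]
  have e5 : B (om v' v • ee F) x = (B (-(om v' v • ee F)) x)⁻¹ := by rw [t.hB.neg', inv_inv]
  rw [e5]
  have e6 : A v (ee F) * CC A B v' x * (A v (ee F))⁻¹ = (A v (ee F) * (CC A B v' x)⁻¹ * (A v (ee F))⁻¹)⁻¹ := by group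
  rw [e4, _root_.mul_inv_rev, inv_inv] at e6
  rw [← e6]; group

/-- action of `A` on `C`, general form -/
lemma c0 (hF : ∃ κ : F, κ ≠ 0 ∧ κ ≠ 1) (v v' w x : Fin 2 → F) :
    A v w * CC A B v' x = B (om v' v • w) x * CC A B v' x * A v w := by
  by_cases hw : w = 0
  · rw [hw, smul_zero, t.hA.zero, t.hB.zero', one_mul, mul_one]
  obtain ⟨g, hg⟩ := exists_act hw
  have e1 := t.c0e hF v v' x
  have c1 : b g * A v (ee F) = A v w * b g := by rw [t.hA.conj', hg]
  have c2 : b g * B (om v' v • ee F) x = B (om v' v • w) x * b g := by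
    rw [t.hB.conj, Matrix.mulVec_smul, hg]
  have c3 := t.cc_b g v' x
  have e2 : b g * (A v (ee F) * CC A B v' x) = A v w * CC A B v' x * b g := by
    rw [← mul_assoc, c1, mul_assoc, c3, mul_assoc]
  rw [e1] at e2
  have e3 : b g * (B (om v' v • ee F) x * CC A B v' x * A v (ee F)) = B (om v' v • w) x * CC A B v' x * A v w * b g := by
    rw [← mul_assoc, ← mul_assoc, c2, mul_assoc _ (b g), c3, ← mul_assoc, mul_assoc _ (b g), c1, ← mul_assoc]
  rw [e3] at e2
  exact (mul_right_cancel e2).symm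

/-- relation of the third kind -/
lemma c2 (hF : ∃ κ : F, κ ≠ 0 ∧ κ ≠ 1) (v w x x' : Fin 2 → F) :
    B w x * CC A B v x' = A v (om x' x • w) * CC A B v x' * B w x := by
  have := t.swap.c0 hF x x' w v
  rw [t.cc_swap] at this
  exact this

/-- `C` is a pair -/
theorem prC (hF : ∃ κ : F, κ ≠ 0 ∧ κ ≠ 1) : Pr a c (CC A B) where
  conj := t.cc_conj
  conj' := t.cc_conj'
  smul s v x := by rw [t.cc_smul, t.cc_smul']
  mul' v v' x := t.cc_mul' hF v v' x
  mul v x x' := by
    have := t.swap.cc_mul' hF x x' v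
    rw [t.cc_swap, t.cc_swap, t.cc_swap] at this
    exact this

end Tri

end H6.Slim
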