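import Cfsg.Agent.Lib.H6.SlimB

/-!
Amalgams for symplectic groups: adding an index to a partial system.
-/

set_option autoImplicit false

namespace H6.Slim

open H6.SpSys Matrix
open scoped commutatorElement

variable {F : Type*} [Field F] {Γ : Type*} [Group Γ] {ι : Type*} [DecidableEq ι]

/-- partial system on the index set `I` -/
structure PS (L : ι → SpecialLinearGroup (Fin 2) F →* Γ) (I : ι → Prop)
    (T : ι → ι → (Fin 2 → F) → (Fin 2 → F) → Γ) : Prop where
  symm : ∀ {i j}, I i → I j → i ≠ j → ∀ v w, T i j v w = T j i w v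
  pr : ∀ {i j}, I i → I j → i ≠ j → Pr (L i) (L j) (T i j)
  comm3 : ∀ {i j}, I i → I j → i ≠ j → ∀ {k}, k ≠ i → k ≠ j → ∀ g v w, L k g * T i j v w = T i j v w * L k g
  com : ∀ {i j k}, I i → I j → I k → i ≠ j → i ≠ k → j ≠ k → ∀ v w v' w',
    T i j v w * T i k v' w' = T j k (om v' v • w) w' * T i k v' w' * T i j v w
  disj : ∀ {i j k l}, I i → I j → I k → I l → i ≠ j → k ≠ l → i ≠ k → i ≠ l → j ≠ k → j ≠ l → ∀ v w v' w',
    T i j v w * T k l v' w' = T k l v' w' * T i j v w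

/-- data of an extension -/
structure Ext (L : ι → SpecialLinearGroup (Fin 2) F →* Γ) (I : ι → Prop)
    (T : ι → ι → (Fin 2 → F) → (Fin 2 → F) → Γ) (j₀ z : ι) (B : (Fin 2 → F) → (Fin 2 → F) → Γ) : Prop where
  hL : ∀ {i j}, i ≠ j → ∀ g h, L i g * L j h = L j h * L i g
  hF : ∃ κ : F, κ ≠ 0 ∧ κ ≠ 1
  P : PS L I T
  hj : I j₀
  hz : ¬ I z
  hB : Pr (L j₀) (L z) B
  hB3 : ∀ {k}, k ≠ j₀ → k ≠ z → ∀ g w x, L k g * B w x = B w x * L k g
  h1 : ∀ {i j}, I i → I j → i ≠ j → i ≠ j₀ → j ≠ j₀ → ∀ v w w' x, T i j v w * B w' x = B w' x * T i j v w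
  h2 : ∀ {i}, I i → i ≠ j₀ → ∀ v w x, T i j₀ v w * B w x = B w x * T i j₀ v w

namespace Ext

variable {L : ι → SpecialLinearGroup (Fin 2) F →* Γ} {I : ι → Prop} {T : ι → ι → (Fin 2 → F) → (Fin 2 → F) → Γ}
  {j₀ z : ι} {B : (Fin 2 → F) → (Fin 2 → F) → Γ} (E : Ext L I T j₀ z B)

/-- the new elements -/
def D (T : ι → ι → (Fin 2 → F) → (Fin 2 → F) → Γ) (j₀ : ι) (B : (Fin 2 → F) → (Fin 2 → F) → Γ) (i : ι) :
    (Fin 2 → F) → (Fin 2 → F) → Γ := if i = j₀ then B else CC (T i j₀) B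

lemma D_eq : D T j₀ B j₀ = B := if_pos rfl
lemma D_ne {i : ι} (h : i ≠ j₀) : D T j₀ B i = CC (T i j₀) B := if_neg h

include E

lemma nz {i : ι} (hi : I i) : i ≠ z := fun h => E.hz (h ▸ hi)

lemma tri {i : ι} (hi : I i) (h : i ≠ j₀) : Tri (L i) (L j₀) (L z) (T i j₀) B where
  ab := E.hL h
  ac := E.hL (E.nz hi)
  bc := E.hL (E.nz E.hj)
  hA := E.P.pr hi E.hj h
  hB := E.hB
  cA g v w := E.P.comm3 hi E.hj h (E.nz hi).symm (E.nz E.hj).symm g v w
  aB g w x := E.hB3 h (E.nz hi) g w x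
  AB := E.h2 hi h

lemma prD {i : ι} (hi : I i) : Pr (L i) (L z) (D T j₀ B i) := by
  by_cases h : i = j₀
  · subst h; rw [D_eq]; exact E.hB
  · rw [D_ne h]; exact (E.tri hi h).prC E.hF

lemma D3 {i k : ι} (hi : I i) (hk : k ≠ i) (hkz : k ≠ z) (g : SpecialLinearGroup (Fin 2) F) (v x : Fin 2 → F) :
    L k g * D T j₀ B i v x = D T j₀ B i v x * L k g := by
  by_cases h : i = j₀
  · subst h; rw [D_eq]; exact E.hB3 hk hkz g v x
  · rw [D_ne h]
    by_cases hkj : k = j₀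
    · subst hkj; exact (E.tri hi h).cc_b g v x
    · exact cm_comm (E.P.comm3 hi E.hj h hk hkj g _ _) (E.hB3 hkj hkz g _ _)

/-- `T_{i j₀}` commutes with `D_k` -/
lemma disj1 {i k : ι} (hi : I i) (hk : I k) (hij : i ≠ j₀) (hkj : k ≠ j₀) (hik : i ≠ k) (v u₀ w' x : Fin 2 → F) :
    T i j₀ v u₀ * D T j₀ B k w' x = D T j₀ B k w' x * T i j₀ v u₀ := by
  rw [D_ne hkj]
  by_cases hu : u₀ = 0
  · rw [hu, (E.P.pr hi E.hj hij).zero, one_mul, mul_one]
  obtain ⟨u, hu1⟩ := exists_om' hu (-1)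
  have t := E.tri hk hkj
  have e1 : CC (T k j₀) B w' x = ⁅T k j₀ w' u, B u₀ x⁆ := by
    rw [t.cc_val, om_swap u₀ u, hu1, neg_neg, one_smul]
  rw [e1]
  set X := T i j₀ v u₀
  set Z := T k j₀ w' u
  set Y := T i k (-v) w' with hY
  have hXZ : X * Z = Y * Z * X := by
    have := E.P.com E.hj hi hk hij.symm hkj.symm hik u₀ v u w'
    rw [hu1, neg_one_smul, E.P.symm E.hj hi hij.symm, E.P.symm E.hj hk hkj.symm] at this
    exact this
  have hXB : X * B u₀ x = B u₀ x * X := E.h2 hi hij v u₀ x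
  have hYB : Y * B u₀ x = B u₀ x * Y := E.h1 hi hk hik hij hkj _ _ _ _
  have hYZ : Y * Z = Z * Y := by
    have := E.P.com hk hi E.hj hik.symm hkj hij w' (-v) w' u
    rw [om_self, zero_smul, (E.P.pr hi E.hj hij).zero', one_mul, E.P.symm hk hi hik.symm] at this
    exact this
  have h1 : X * ⁅Z, B u₀ x⁆ = ⁅Y * Z, B u₀ x⁆ * X := cm_conj hXZ hXB
  rw [h1, hYZ, cm_mul_left hYB]

/-- `T_ij` commutes with `D_k` -/
lemma d1 {i j k : ι} (hi : I i) (hj : I j) (hk : I k) (hij : i ≠ j) (hik : i ≠ k) (hjk : j ≠ k) (v w w' x : Fin 2 → F) :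
    T i j v w * D T j₀ B k w' x = D T j₀ B k w' x * T i j v w := by
  by_cases hkj : k = j₀
  · subst hkj; rw [D_eq]; exact E.h1 hi hj hij hik hjk _ _ _ _
  by_cases hjj : j = j₀
  · subst hjj; exact E.disj1 hi hk hij hkj hik _ _ _ _
  by_cases hii : i = j₀
  · subst hii
    rw [E.P.symm hi hj hij]
    exact E.disj1 hj hk hij.symm hkj hjk _ _ _ _
  rw [D_ne hkj]
  exact cm_comm (E.P.disj hi hj hk E.hj hij hkj hik hii hjk hjj _ _ _ _) (E.h1 hi hj hij hii hjj _ _ _ _)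

/-- main formula -/
lemma d2 {i j : ι} (hi : I i) (hj : I j) (hij : i ≠ j) (hii : i ≠ j₀) (hjj : j ≠ j₀) (v w w' x : Fin 2 → F) :
    T i j v w * D T j₀ B j w' x = D T j₀ B i (om w' w • v) x * D T j₀ B j w' x * T i j v w := by
  rw [D_ne hjj]
  have t := E.tri hj hjj
  have ti := E.tri hi hii
  set A := T i j v w
  set Z := T j j₀ w' (ee F)
  set X := T i j₀ (om w' w • v) (ee F)
  have hAZ : A * Z = X * Z * A := by
    have := E.P.com hj hi E.hj hij.symm hjj hii w v w' (ee F)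
    rw [E.P.symm hj hi hij.symm] at this
    exact this
  have hAB : A * B (-(ff F)) x = B (-(ff F)) x * A := E.h1 hi hj hij hii hjj _ _ _ _
  have hXD : X * CC (T j j₀) B w' x = CC (T j j₀) B w' x * X := by
    have := E.disj1 hi hj hii hjj hij (om w' w • v) (ee F) w' x
    rw [D_ne hjj] at this
    exact this
  have hBD : B (-(ff F)) x * CC (T j j₀) B w' x = CC (T j j₀) B w' x * B (-(ff F)) x := t.cc_B _ _ _
  have h1 : A * CC (T j j₀) B w' x = ⁅X * Z, B (-(ff F)) x⁆ * A := cm_conj hAZ hAB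
  rw [h1, cm_mul_left']
  have h2 : D T j₀ B i (om w' w • v) x = ⁅X, B (-(ff F)) x⁆ := by rw [D_ne hii]; rfl
  rw [h2]
  have h3 : ⁅Z, B (-(ff F)) x⁆ = CC (T j j₀) B w' x := rfl
  rw [h3, hXD, mul_inv_cancel_right]
  have h4 : CC (T j j₀) B w' x * ⁅X, B (-(ff F)) x⁆ = ⁅X, B (-(ff F)) x⁆ * CC (T j j₀) B w' x :=
    cm_comm hXD.symm hBD.symm
  rw [h4]

/-- good triples -/
def Good (L : ι → SpecialLinearGroup (Fin 2) F →* Γ) (T : ι → ι → (Fin 2 → F) → (Fin 2 → F) → Γ) (j₀ z : ι)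
    (B : (Fin 2 → F) → (Fin 2 → F) → Γ) (i j : ι) : Prop :=
  Tri (L i) (L j) (L z) (T i j) (D T j₀ B j) ∧ ∀ v x, CC (T i j) (D T j₀ B j) v x = D T j₀ B i v x

lemma good1 {i j : ι} (hi : I i) (hj : I j) (hij : i ≠ j) (hii : i ≠ j₀) : Good L T j₀ z B i j := by
  by_cases hjj : j = j₀
  · subst hjj
    unfold Good
    rw [D_eq, D_ne hii]
    exact ⟨E.tri hi hii, fun _ _ => rfl⟩
  refine ⟨{ ab := E.hL hij
            ac := E.hL (E.nz hi)
            bc := E.hL (E.nz hj)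
            hA := E.P.pr hi hj hij
            hB := E.prD hj
            cA := fun g v w => E.P.comm3 hi hj hij (E.nz hi).symm (E.nz hj).symm g v w
            aB := fun g w x => E.D3 hj hij (E.nz hi) g w x
            AB := fun v w x => ?_ }, fun v x => ?_⟩
  · rw [E.d2 hi hj hij hii hjj, om_self, zero_smul, (E.prD hi).zero', one_mul]
  · unfold CC
    have := E.d2 hi hj hij hii hjj v (ee F) (-(ff F)) x
    rw [om_neg_left, om_ff_ee, neg_neg, one_smul] at this
    rw [commutatorElement_def, this]; group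

lemma P1 {i j : ι} (hi : I i) (hj : I j) (hij : i ≠ j) (v w w' x : Fin 2 → F) :
    T i j v w * D T j₀ B j w' x = D T j₀ B i (om w' w • v) x * D T j₀ B j w' x * T i j v w := by
  by_cases hii : i = j₀
  · have hjj : j ≠ j₀ := fun h => hij (hii.trans h.symm)
    obtain ⟨t, ht⟩ := E.good1 hj hi hij.symm hjj
    have := t.c0 E.hF w w' v x
    rw [ht, E.P.symm hj hi hij.symm] at this
    exact this
  · obtain ⟨t, ht⟩ := E.good1 hi hj hij hii
    rw [← ht]
    exact t.c1 v w w' x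

lemma P2 {i j : ι} (hi : I i) (hj : I j) (hij : i ≠ j) (v x w x' : Fin 2 → F) :
    D T j₀ B i v x * D T j₀ B j w x' = T i j (om x' x • v) w * D T j₀ B j w x' * D T j₀ B i v x := by
  by_cases hii : i = j₀
  · have hjj : j ≠ j₀ := fun h => hij (hii.trans h.symm)
    obtain ⟨t, ht⟩ := E.good1 hj hi hij.symm hjj
    have := t.c2 E.hF w v x x'
    rw [ht, E.P.symm hj hi hij.symm] at this
    exact this
  · obtain ⟨t, ht⟩ := E.good1 hi hj hij hii
    have := t.c2 E.hF v w x' x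
    rw [ht] at this
    have hp := E.P.pr hi hj hij
    rw [hp.smul, om_swap x' x, neg_smul, hp.neg, mul_assoc, eq_inv_mul_iff_mul_eq, ← mul_assoc, this]

/-- the extended elements -/
def T' (T : ι → ι → (Fin 2 → F) → (Fin 2 → F) → Γ) (j₀ z : ι) (B : (Fin 2 → F) → (Fin 2 → F) → Γ) (i j : ι)
    (v w : Fin 2 → F) : Γ := if i = z then D T j₀ B j w v else if j = z then D T j₀ B i v w else T i j v w

omit E in
lemma T'_l (j : ι) (v w : Fin 2 → F) : T' T j₀ z B z j v w = D T j₀ B j w v := if_pos rfl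

lemma T'_r {i : ι} (hi : I i) (v w : Fin 2 → F) : T' T j₀ z B i z v w = D T j₀ B i v w := by
  unfold T'; rw [if_neg (E.nz hi), if_pos rfl]

lemma T'_o {i j : ι} (hi : I i) (hj : I j) (v w : Fin 2 → F) : T' T j₀ z B i j v w = T i j v w := by
  unfold T'; rw [if_neg (E.nz hi), if_neg (E.nz hj)]

/-- **extension** -/
theorem ext : PS L (fun i => I i ∨ i = z) (T' T j₀ z B) where
  symm := by
    rintro i j (hi | rfl) (hj | rfl) h v w
    · rw [E.T'_o hi hj, E.T'_o hj hi, E.P.symm hi hj h]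
    · rw [E.T'_r hi, T'_l]
    · rw [E.T'_r hj, T'_l]
    · exact absurd rfl h
  pr := by
    rintro i j (hi | rfl) (hj | rfl) h
    · have : T' T j₀ z B i j = T i j := by funext v w; exact E.T'_o hi hj v w
      rw [this]; exact E.P.pr hi hj h
    · have : T' T j₀ j B i j = D T j₀ B i := by funext v w; exact E.T'_r hi v w
      rw [this]; exact E.prD hi
    · have : T' T j₀ i B i j = fun v w => D T j₀ B j w v := by funext v w; exact T'_l j v w
      rw [this]; exact (E.prD hj).swap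
    · exact absurd rfl h
  comm3 := by
    rintro i j (hi | rfl) (hj | rfl) h k hki hkj g v w
    · rw [E.T'_o hi hj]; exact E.P.comm3 hi hj h hki hkj g v w
    · rw [E.T'_r hi]; exact E.D3 hi hki hkj g v w
    · rw [T'_l]; exact E.D3 hj hkj hki g w v
    · exact absurd rfl h
  com := by
    rintro i j k (hi | rfl) (hj | rfl) (hk | rfl) hij hik hjk v w v' w'
    · rw [E.T'_o hi hj, E.T'_o hi hk, E.T'_o hj hk]; exact E.P.com hi hj hk hij hik hjk v w v' w'
    · rw [E.T'_o hi hj, E.T'_r hi, E.T'_r hj, E.P.symm hi hj hij]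
      exact E.P1 hj hi hij.symm w v v' w'
    · rw [E.T'_r hi, E.T'_o hi hk, T'_l]
      have := E.P1 hk hi hik.symm w' v' v w
      rw [E.P.symm hk hi hik.symm] at this
      have hp := E.prD hk
      rw [← hp.smul, om_swap v' v, neg_smul, hp.neg', mul_assoc, eq_inv_mul_iff_mul_eq, ← mul_assoc, this]
    · exact absurd rfl hjk
    · rw [T'_l, T'_l, E.T'_o hj hk]
      exact E.P2 hj hk hjk w v w' v'
    · exact absurd rfl hik
    · exact absurd rfl hij
    · exact absurd rfl hij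
  disj := by
    rintro i j k l (hi | rfl) (hj | rfl) (hk | rfl) (hl | rfl) hij hkl hik hil hjk hjl v w v' w' <;>
      first
      | exact absurd rfl hij
      | exact absurd rfl hkl
      | exact absurd rfl hik
      | exact absurd rfl hil
      | exact absurd rfl hjk
      | exact absurd rfl hjl
      | skip
    · rw [E.T'_o hi hj, E.T'_o hk hl]; exact E.P.disj hi hj hk hl hij hkl hik hil hjk hjl v w v' w'
    · rw [E.T'_o hi hj, E.T'_r hk]; exact E.d1 hi hj hk hij hik hjk _ _ _ _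
    · rw [E.T'_o hi hj, T'_l]; exact E.d1 hi hj hl hij hil hjl _ _ _ _
    · rw [E.T'_r hi, E.T'_o hk hl]; exact (E.d1 hk hl hi hkl hik.symm hil.symm _ _ _ _).symm
    · rw [T'_l, E.T'_o hk hl]; exact (E.d1 hk hl hj hkl hjk.symm hjl.symm _ _ _ _).symm

end Ext

end H6.Slim
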