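import Cfsg.Agent.Lib.H6.SlimC

/-!
Amalgams for symplectic groups: from a chain to a full system.
-/

set_option autoImplicit false

namespace H6.Slim

open H6.SpSys Matrix
open scoped commutatorElement

variable {F : Type*} [Field F] {Γ : Type*} [Group Γ]

/-- chain data -/
structure Chain (n : ℕ) (L : Fin n → SpecialLinearGroup (Fin 2) F →* Γ)
    (Bf : Fin n → (Fin 2 → F) → (Fin 2 → F) → Γ) : Prop where
  hL : ∀ {i j}, i ≠ j → ∀ g h, L i g * L j h = L j h * L i g
  hF : ∃ κ : F, κ ≠ 0 ∧ κ ≠ 1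
  pr : ∀ (i j : Fin n), j.val = i.val + 1 → Pr (L i) (L j) (Bf i)
  b3 : ∀ (i j : Fin n), j.val = i.val + 1 → ∀ k, k ≠ i → k ≠ j → ∀ g v w, L k g * Bf i v w = Bf i v w * L k g
  far : ∀ i j : Fin n, i.val + 2 ≤ j.val → j.val + 1 < n → ∀ v w v' w', Bf i v w * Bf j v' w' = Bf j v' w' * Bf i v w
  near : ∀ i j : Fin n, j.val = i.val + 1 → j.val + 1 < n → ∀ v w x, Bf i v w * Bf j w x = Bf j w x * Bf i v w

/-- the induction hypothesis -/
def IH (n : ℕ) (L : Fin n → SpecialLinearGroup (Fin 2) F →* Γ) (Bf : Fin n → (Fin 2 → F) → (Fin 2 → F) → Γ)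
    (k : ℕ) (T : Fin n → Fin n → (Fin 2 → F) → (Fin 2 → F) → Γ) : Prop :=
  PS L (fun i => i.val ≤ k) T ∧
  (∀ i j l : Fin n, i.val ≤ k → j.val ≤ k → i ≠ j → k < l.val → l.val + 1 < n → ∀ v w w' x,
    T i j v w * Bf l w' x = Bf l w' x * T i j v w) ∧
  (∀ i j l : Fin n, i.val < k → j.val < k → i ≠ j → l.val = k → l.val + 1 < n → ∀ v w w' x,
    T i j v w * Bf l w' x = Bf l w' x * T i j v w) ∧
  (∀ i l : Fin n, i.val < k → l.val = k → l.val + 1 < n → ∀ v w x, T i l v w * Bf l w x = Bf l w x * T i l v w) ∧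
  (∀ i j : Fin n, j.val = i.val + 1 → j.val ≤ k → T i j = Bf i)

variable {n : ℕ} {L : Fin n → SpecialLinearGroup (Fin 2) F →* Γ} {Bf : Fin n → (Fin 2 → F) → (Fin 2 → F) → Γ}

lemma PS.congr {ι : Type*} {L : ι → SpecialLinearGroup (Fin 2) F →* Γ} {I J : ι → Prop}
    {T : ι → ι → (Fin 2 → F) → (Fin 2 → F) → Γ} (h : PS L I T) (hIJ : ∀ i, J i → I i) : PS L J T where
  symm hi hj := h.symm (hIJ _ hi) (hIJ _ hj)
  pr hi hj := h.pr (hIJ _ hi) (hIJ _ hj)
  comm3 hi hj := h.comm3 (hIJ _ hi) (hIJ _ hj)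
  com hi hj hk := h.com (hIJ _ hi) (hIJ _ hj) (hIJ _ hk)
  disj hi hj hk hl := h.disj (hIJ _ hi) (hIJ _ hj) (hIJ _ hk) (hIJ _ hl)

theorem exists_IH (C : Chain n L Bf) (k : ℕ) (hk : k < n) : ∃ T, IH n L Bf k T := by
  induction k with
  | zero =>
    refine ⟨fun _ _ _ _ => 1, ⟨?_, ?_, ?_, ?_, ?_⟩, ?_, ?_, ?_, ?_⟩
    · intro i j hi hj h
      exact absurd (Fin.ext (by omega)) h
    · intro i j hi hj h
      exact absurd (Fin.ext (by omega)) h
    · intro i j hi hj h
      exact absurd (Fin.ext (by omega)) h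
    · intro i j k hi hj _ h
      exact absurd (Fin.ext (by omega)) h
    · intro i j k l hi hj _ _ h
      exact absurd (Fin.ext (by omega)) h
    · intro i j l hi hj h
      exact absurd (Fin.ext (by omega)) h
    · intro i j l hi; omega
    · intro i l hi; omega
    · intro i j h1 h2; omega
  | succ k ih =>
    obtain ⟨T, hP, ha, hb, hc, hd⟩ := ih (by omega)
    let l₀ : Fin n := ⟨k, by omega⟩
    let z : Fin n := ⟨k + 1, hk⟩
    have hzl : z ≠ l₀ := fun h => by have := congrArg Fin.val h; simp [z, l₀] at this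
    have E : Ext L (fun i => i.val ≤ k) T l₀ z (Bf l₀) :=
      { hL := C.hL
        hF := C.hF
        P := hP
        hj := le_refl k
        hz := by change ¬ (k + 1 ≤ k); omega
        hB := C.pr l₀ z rfl
        hB3 := fun {i} h1 h2 => C.b3 l₀ z rfl i h1 h2
        h1 := fun {i j} hi hj h h1 h2 => by
          have h1' : i.val ≠ k := fun h => h1 (Fin.ext h)
          have h2' : j.val ≠ k := fun h => h2 (Fin.ext h)
          exact hb i j l₀ (by omega) (by omega) h rfl hk
        h2 := fun {i} hi h1 => by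
          have h1' : i.val ≠ k := fun h => h1 (Fin.ext h)
          exact hc i l₀ (by omega) rfl hk }
    have hI : ∀ i : Fin n, i.val ≤ k + 1 → i.val ≤ k ∨ i = z := by
      intro i hi
      by_cases h : i.val ≤ k
      · exact Or.inl h
      · exact Or.inr (Fin.ext (by change i.val = k + 1; omega))
    -- `D_i` against `Bf l`
    have hD : ∀ i l : Fin n, i.val ≤ k → k + 1 < l.val → l.val + 1 < n → ∀ v w w' x,
        Ext.D T l₀ (Bf l₀) i v w * Bf l w' x = Bf l w' x * Ext.D T l₀ (Bf l₀) i v w := by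
      intro i l hi hl hl' v w w' x
      by_cases h : i = l₀
      · subst h; rw [Ext.D_eq]
        exact C.far l₀ l (by change k + 2 ≤ _; omega) hl' v w w' x
      · rw [Ext.D_ne h]
        exact (cm_comm (ha i l₀ l hi le_rfl h (by omega) hl' _ _ _ _).symm
          (C.far l₀ l (by change k + 2 ≤ _; omega) hl' _ _ _ _).symm).symm
    refine ⟨Ext.T' T l₀ z (Bf l₀), E.ext.congr hI, ?_, ?_, ?_, ?_⟩
    · intro i j l hi hj hij hl hl' v w w' x
      rcases hI i hi with hi | rfl <;> rcases hI j hj with hj | rfl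
      · rw [E.T'_o hi hj]; exact ha i j l hi hj hij (by omega) hl' v w w' x
      · rw [E.T'_r hi]; exact hD i l hi hl hl' v w w' x
      · rw [Ext.T'_l]; exact hD j l hj hl hl' w v w' x
      · exact absurd rfl hij
    · intro i j l hi hj hij hl hl' v w w' x
      rw [E.T'_o (show i.val ≤ k by omega) (show j.val ≤ k by omega)]
      exact ha i j l (by omega) (by omega) hij (by omega) hl' v w w' x
    · intro i l hi hl hl' v w x
      obtain rfl : l = z := Fin.ext hl
      rw [E.T'_r (show i.val ≤ k by omega)]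
      by_cases h : i = l₀
      · subst h; rw [Ext.D_eq]
        exact C.near l₀ z rfl hl' v w x
      · rw [Ext.D_ne h]
        exact (cm_comm (ha i l₀ z (by omega) le_rfl h (by change k < k + 1; omega) hl' _ _ _ _).symm
          (C.near l₀ z rfl hl' _ _ _).symm).symm
    · intro i j hij hj
      by_cases h : j.val ≤ k
      · have : Ext.T' T l₀ z (Bf l₀) i j = T i j := by
          funext v w; exact E.T'_o (show i.val ≤ k by omega) h v w
        rw [this]; exact hd i j hij h
      · obtain rfl : j = z := Fin.ext (by change j.val = k + 1; omega)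
        have h2 : i = l₀ := Fin.ext (by change i.val = k; change k + 1 = _ at hij; omega)
        subst h2
        funext v w
        rw [E.T'_r (show l₀.val ≤ k from le_rfl), Ext.D_eq]

/-- the system of a chain -/
theorem exists_sys (C : Chain n L Bf) (hn : 0 < n) : ∃ S : Sys Γ (Fin n) F, (∀ i, S.lam i = L i) ∧
    ∀ i j : Fin n, j.val = i.val + 1 → S.T i j = Bf i := by
  obtain ⟨T, hP, -, -, -, hd⟩ := exists_IH C (n - 1) (by omega)
  have hI : ∀ i : Fin n, i.val ≤ n - 1 := fun i => by omega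
  refine ⟨{ lam := L
            T := T
            comm := C.hL
            symm := fun h v w => hP.symm (hI _) (hI _) h v w
            conj := fun h g v w => (hP.pr (hI _) (hI _) h).conj g v w
            comm3 := fun h h1 h2 g v w => hP.comm3 (hI _) (hI _) h h1 h2 g v w
            smul := fun h c v w => (hP.pr (hI _) (hI _) h).smul c v w
            mul := fun h v w w' => (hP.pr (hI _) (hI _) h).mul v w w'
            com := fun h1 h2 h3 v w v' w' => hP.com (hI _) (hI _) (hI _) h1 h2 h3 v w v' w'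
            disj := fun h1 h2 h3 h4 h5 h6 v w v' w' =>
              hP.disj (hI _) (hI _) (hI _) (hI _) h1 h2 h3 h4 h5 h6 v w v' w' }, fun _ => rfl,
    fun i j h => hd i j h (hI j)⟩

end H6.Slim
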