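import Cfsg.Agent.Lib.H6.SlimD

/-!
Amalgams for symplectic groups: subgroups of `Sp_2n(F)` defined by fixed vectors; pairs from two partial homomorphisms.
-/

set_option autoImplicit false

namespace H6.Slim

open H6.SpSys Matrix
open scoped commutatorElement

variable {F : Type*} [Field F] {ι : Type*} [DecidableEq ι] [Fintype ι]

omit [Fintype ι] in
lemma end_ext [Finite ι] {f f' : Module.End F (ι → Fin 2 → F)} (he : ∀ k, f (Pi.single k (ee F)) = f' (Pi.single k (ee F)))
    (hf : ∀ k, f (Pi.single k (ff F)) = f' (Pi.single k (ff F))) : f = f' := by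
  apply LinearMap.pi_ext
  intro k v
  rw [decomp v, Pi.single_add, map_add, map_add, Pi.single_smul, Pi.single_smul, map_smul, map_smul, map_smul, map_smul,
    he, hf]

omit [Fintype ι] in
lemma en_inl (k : ι) : en F ι (Pi.single (Sum.inl k) 1) = Pi.single k (ee F) := by
  ext i j
  by_cases h : i = k
  · subst h
    fin_cases j <;> simp [en]
  · fin_cases j <;> simp [en, h]

omit [Fintype ι] in
lemma en_inr (k : ι) : en F ι (Pi.single (Sum.inr k) 1) = Pi.single k (ff F) := by
  ext i j
  by_cases h : i = k
  · subst h
    fin_cases j <;> simp [en]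
  · fin_cases j <;> simp [en, h]

lemma fix_e (A : symplecticGroup ι F) (k : ι) : A.1 *ᵥ (Pi.single (Sum.inl k) (1 : F)) = Pi.single (Sum.inl k) (1 : F) ↔
    Th ι F A (Pi.single k (ee F)) = Pi.single k (ee F) := by
  rw [← en_inl, Th_apply, LinearEquiv.symm_apply_apply]
  exact (en F ι).injective.eq_iff.symm

lemma fix_f (A : symplecticGroup ι F) (k : ι) : A.1 *ᵥ (Pi.single (Sum.inr k) (1 : F)) = Pi.single (Sum.inr k) (1 : F) ↔
    Th ι F A (Pi.single k (ff F)) = Pi.single k (ff F) := by
  rw [← en_inr, Th_apply, LinearEquiv.symm_apply_apply]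
  exact (en F ι).injective.eq_iff.symm

lemma B_Th (A : symplecticGroup ι F) (x y : ι → Fin 2 → F) : B (Th ι F A x) (Th ι F A y) = B x y := by
  rw [Th_apply, Th_apply, B_en]
  have h := (H6.Symp.mem_iff_bf (A := A.1)).1 A.2
  rw [h, ← B_en, LinearEquiv.apply_symm_apply, LinearEquiv.apply_symm_apply]

lemma B_single (x : ι → Fin 2 → F) (k : ι) (v : Fin 2 → F) : B x (Pi.single k v) = om (x k) v := by
  unfold B
  rw [Finset.sum_eq_single k]
  · rw [Pi.single_eq_same]
  · intro b _ hb; rw [Pi.single_eq_of_ne hb, om_zero_right]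
  · intro h; exact absurd (Finset.mem_univ _) h

omit [Fintype ι] in
lemma sL_single {j k : ι} (h : k ≠ j) (g : SpecialLinearGroup (Fin 2) F) (v : Fin 2 → F) :
    sL j g (Pi.single k v) = Pi.single k v := by
  ext l : 1
  by_cases hl : l = j
  · subst hl; rw [sL_i, Pi.single_eq_of_ne (Ne.symm h), Matrix.mulVec_zero]
  · rw [sL_ne hl]

omit [Fintype ι] in
lemma sL_single' (j : ι) (g : SpecialLinearGroup (Fin 2) F) (v : Fin 2 → F) :
    sL j g (Pi.single j v) = Pi.single j (g.1 *ᵥ v) := by
  ext l : 1
  by_cases hl : l = j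
  · subst hl; rw [sL_i, Pi.single_eq_same, Pi.single_eq_same]
  · rw [sL_ne hl, Pi.single_eq_of_ne hl, Pi.single_eq_of_ne hl]

omit [Fintype ι] in
lemma sT_single_i {i j : ι} (h : i ≠ j) (v w u : Fin 2 → F) :
    sT i j v w (Pi.single i u) = Pi.single i u + Pi.single j (om u v • w) := by
  ext l : 1
  by_cases hi : l = i
  · subst hi; rw [sT_i h, Pi.add_apply, Pi.single_eq_same, Pi.single_eq_of_ne h.symm, Pi.single_eq_of_ne h, om_zero_left,
      zero_smul]
  · by_cases hj : l = j
    · subst hj; rw [sT_j h, Pi.add_apply, Pi.single_eq_same, Pi.single_eq_of_ne h.symm, Pi.single_eq_same]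
    · rw [sT_ne hi hj, Pi.add_apply, Pi.single_eq_of_ne hi, Pi.single_eq_of_ne hj, add_zero]

/-- elements moving only the plane `j` -/
lemma exists_cL {A : symplecticGroup ι F} {j : ι} (he : ∀ k, k ≠ j → Th ι F A (Pi.single k (ee F)) = Pi.single k (ee F))
    (hf : ∀ k, k ≠ j → Th ι F A (Pi.single k (ff F)) = Pi.single k (ff F)) : ∃ g, A = cL j g := by
  have h0 : ∀ v, ∀ k, k ≠ j → Th ι F A (Pi.single j v) k = 0 := by
    intro v k hk
    have e1 := B_Th A (Pi.single j v) (Pi.single k (ee F))
    rw [he k hk, B_single, B_single, Pi.single_eq_of_ne hk, om_zero_left, om_ee_right, neg_eq_zero] at e1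
    have e2 := B_Th A (Pi.single j v) (Pi.single k (ff F))
    rw [hf k hk, B_single, B_single, Pi.single_eq_of_ne hk, om_zero_left, om_ff_right] at e2
    ext a; fin_cases a
    · exact e2
    · exact e1
  have h1 : ∀ v, Th ι F A (Pi.single j v) = Pi.single j (Th ι F A (Pi.single j v) j) := by
    intro v
    ext l : 1
    by_cases hl : l = j
    · subst hl; rw [Pi.single_eq_same]
    · rw [h0 v l hl, Pi.single_eq_of_ne hl]
  have h2 : om (Th ι F A (Pi.single j (ee F)) j) (Th ι F A (Pi.single j (ff F)) j) = 1 := by
    have := B_Th A (Pi.single j (ee F)) (Pi.single j (ff F))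
    rw [h1 (ff F), B_single, B_single, Pi.single_eq_same, om_ee_ff] at this
    exact this
  obtain ⟨g, hg1, hg2⟩ := exists_act2 h2
  refine ⟨g, Th_inj (end_ext (fun k => ?_) (fun k => ?_))⟩
  · rw [Th_cL]
    by_cases hk : k = j
    · subst hk; rw [sL_single', hg1, ← h1]
    · rw [sL_single hk, he k hk]
  · rw [Th_cL]
    by_cases hk : k = j
    · subst hk; rw [sL_single', hg2, ← h1]
    · rw [sL_single hk, hf k hk]

/-- unipotent elements of two planes -/
lemma exists_uni {A : symplecticGroup ι F} {i j : ι} (hij : i ≠ j)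
    (he : ∀ k, Th ι F A (Pi.single k (ee F)) = Pi.single k (ee F))
    (hf : ∀ k, k ≠ i → k ≠ j → Th ι F A (Pi.single k (ff F)) = Pi.single k (ff F)) :
    ∃ a b c : F, A = cL i (tv (ee F) a) * cL j (tv (ee F) b) * cT i j (c • ee F) (ee F) := by
  set y := Th ι F A (Pi.single i (ff F)) with hy
  set y' := Th ι F A (Pi.single j (ff F)) with hy'
  have h1 : ∀ l k : ι, Th ι F A (Pi.single l (ff F)) k 1 = (Pi.single l (ff F) : ι → Fin 2 → F) k 1 := by
    intro l k
    have e1 := B_Th A (Pi.single l (ff F)) (Pi.single k (ee F))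
    rw [he k, B_single, B_single, om_ee_right, om_ee_right, neg_inj] at e1
    exact e1
  have h2 : ∀ l k : ι, k ≠ i → k ≠ j → Th ι F A (Pi.single l (ff F)) k 0 = (Pi.single l (ff F) : ι → Fin 2 → F) k 0 := by
    intro l k hki hkj
    have e1 := B_Th A (Pi.single l (ff F)) (Pi.single k (ff F))
    rw [hf k hki hkj, B_single, B_single, om_ff_right, om_ff_right] at e1
    exact e1
  have hyy : B y y' = 0 := by
    rw [hy, hy', B_Th, B_single, Pi.single_eq_of_ne hij.symm, om_zero_left]
  have hyi : y i = y i 0 • ee F + ff F := by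
    ext a; fin_cases a
    · simp
    · have := h1 i i
      rw [Pi.single_eq_same] at this
      simpa using this
  have hyj : y j = y j 0 • ee F := by
    ext a; fin_cases a
    · simp
    · have := h1 i j
      rw [Pi.single_eq_of_ne hij.symm] at this
      simpa using this
  have hyj' : y' j = y' j 0 • ee F + ff F := by
    ext a; fin_cases a
    · simp
    · have := h1 j j
      rw [Pi.single_eq_same] at this
      simpa using this
  have hyi' : y' i = y' i 0 • ee F := by
    ext a; fin_cases a
    · simp
    · have := h1 j i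
      rw [Pi.single_eq_of_ne hij] at this
      simpa using this
  have hyk : ∀ k, k ≠ i → k ≠ j → y k = 0 := by
    intro k hki hkj
    ext a; fin_cases a
    · have := h2 i k hki hkj
      rw [Pi.single_eq_of_ne hki] at this
      exact this
    · have := h1 i k
      rw [Pi.single_eq_of_ne hki] at this
      exact this
  have hyk' : ∀ k, k ≠ i → k ≠ j → y' k = 0 := by
    intro k hki hkj
    ext a; fin_cases a
    · have := h2 j k hki hkj
      rw [Pi.single_eq_of_ne hkj] at this
      exact this
    · have := h1 j k
      rw [Pi.single_eq_of_ne hkj] at this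
      exact this
  have hγ : y' i 0 = y j 0 := by
    have : B y y' = om (y i) (y' i) + om (y j) (y' j) := by
      unfold B
      rw [Finset.sum_eq_add i j hij]
      · intro k _ hk; rw [hyk k hk.1 hk.2, om_zero_left]
      · intro h; exact absurd (Finset.mem_univ _) h
      · intro h; exact absurd (Finset.mem_univ _) h
    rw [hyy, hyi, hyi', hyj, hyj', om_smul_right, om_add_left, om_smul_left, om_self, om_ff_ee, om_smul_left,
      om_add_right, om_smul_right, om_self, om_ee_ff] at this
    linear_combination this
  refine ⟨-(y i 0), -(y' j 0), -(y j 0), Th_inj (end_ext (fun k => ?_) (fun k => ?_))⟩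
  · rw [he, map_mul, map_mul, Th_cL, Th_cL, Th_cT hij, Module.End.mul_apply, Module.End.mul_apply]
    have s1 : sT i j (-(y j 0) • ee F) (ee F) (Pi.single k (ee F)) = Pi.single k (ee F) := by
      ext l : 1
      by_cases hi : l = i
      · subst hi
        rw [sT_i hij]
        by_cases hk : j = k
        · subst hk; rw [Pi.single_eq_same, om_self, zero_smul, add_zero]
        · rw [Pi.single_eq_of_ne hk, om_zero_left, zero_smul, add_zero]
      · by_cases hj : l = j
        · subst hj
          rw [sT_j hij]
          by_cases hk : i = k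
          · subst hk; rw [Pi.single_eq_same, om_smul_right, om_self, mul_zero, zero_smul, add_zero]
          · rw [Pi.single_eq_of_ne hk, om_zero_left, zero_smul, add_zero]
        · rw [sT_ne hi hj]
    rw [s1]
    have s2 : ∀ (l : ι) (a : F), sL l (tv (ee F) a) (Pi.single k (ee F)) = Pi.single k (ee F) := by
      intro l a
      by_cases hk : k = l
      · subst hk; rw [sL_single', tv_act, om_self, mul_zero, zero_smul, add_zero]
      · rw [sL_single hk]
    rw [s2, s2]
  · rw [map_mul, map_mul, Th_cL, Th_cL, Th_cT hij, Module.End.mul_apply, Module.End.mul_apply]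
    by_cases hki : k = i
    · subst hki
      rw [← hy]
      ext l : 1
      by_cases hl : l = k
      · subst hl
        rw [sL_i, sL_ne hij, sT_i hij, Pi.single_eq_same, Pi.single_eq_of_ne hij.symm, om_zero_left, zero_smul,
          add_zero, tv_act, om_ff_ee, hyi]
        simp [add_comm]
      · by_cases hlj : l = j
        · subst hlj
          rw [sL_ne hl, sL_i, sT_j hij, Pi.single_eq_same, Pi.single_eq_of_ne hij.symm, zero_add, om_smul_right,
            om_ff_ee, Matrix.mulVec_smul, tv_act, om_self, mul_zero, zero_smul, add_zero, hyj]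
          simp
        · rw [sL_ne hl, sL_ne hlj, sT_ne hl hlj, Pi.single_eq_of_ne hl, hyk l hl hlj]
    · by_cases hkj : k = j
      · subst hkj
        rw [← hy']
        ext l : 1
        by_cases hl : l = k
        · subst hl
          rw [sL_ne hij.symm, sL_i, sT_j hij, Pi.single_eq_same, Pi.single_eq_of_ne hij, om_zero_left, zero_smul,
            add_zero, tv_act, om_ff_ee, hyj']
          simp [add_comm]
        · by_cases hlj : l = i
          · subst hlj
            rw [sL_i, sL_ne hl, sT_i hij, Pi.single_eq_same, Pi.single_eq_of_ne hij, zero_add,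
              om_ff_ee, smul_smul, Matrix.mulVec_smul, tv_act, om_self, mul_zero, zero_smul, add_zero, hyi', hγ]
            simp
          · rw [sL_ne hlj, sL_ne hl, sT_ne hlj hl, Pi.single_eq_of_ne hl, hyk' l hlj hl]
      · rw [hf k hki hkj]
        have s1 : sT i j (-(y j 0) • ee F) (ee F) (Pi.single k (ff F)) = Pi.single k (ff F) := by
          ext l : 1
          by_cases hi : l = i
          · subst hi
            rw [sT_i hij, Pi.single_eq_of_ne (Ne.symm hkj), om_zero_left, zero_smul, add_zero]
          · by_cases hj : l = j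
            · subst hj
              rw [sT_j hij, Pi.single_eq_of_ne (Ne.symm hki), om_zero_left, zero_smul, add_zero]
            · rw [sT_ne hi hj]
        rw [s1, sL_single hkj, sL_single hki]

/-- the subgroup generated by a chain is everything -/
theorem chain_top {n : ℕ} {D : Subgroup (symplecticGroup (Fin n) F)} (h1 : ∀ i g, cL i g ∈ D)
    (h2 : ∀ i j : Fin n, j.val = i.val + 1 → cT i j (ee F) (ee F) ∈ D) : D = ⊤ := by
  have hv : ∀ i j : Fin n, i ≠ j → cT i j (ee F) (ee F) ∈ D → ∀ v w, cT i j v w ∈ D := by
    intro i j hij h v w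
    by_cases hv : v = 0
    · subst hv
      have := (conc (Fin n) F).T_zero' hij w
      change cT i j 0 w = 1 at this
      rw [this]; exact one_mem _
    by_cases hw : w = 0
    · subst hw
      have := (conc (Fin n) F).T_zero hij v
      change cT i j v 0 = 1 at this
      rw [this]; exact one_mem _
    obtain ⟨g, hg⟩ := exists_act hv
    obtain ⟨g', hg'⟩ := exists_act hw
    have e1 := (conc (Fin n) F).conj_both hij g g' (ee F) (ee F)
    change cL i g * cL j g' * cT i j (ee F) (ee F) = cT i j (g.1 *ᵥ ee F) (g'.1 *ᵥ ee F) * (cL i g * cL j g') at e1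
    rw [hg, hg'] at e1
    have e2 : cT i j v w = cL i g * cL j g' * cT i j (ee F) (ee F) * (cL i g * cL j g')⁻¹ := by rw [e1]; group
    rw [e2]
    exact mul_mem (mul_mem (mul_mem (h1 _ _) (h1 _ _)) h) (inv_mem (mul_mem (h1 _ _) (h1 _ _)))
  have h3 : ∀ d : ℕ, ∀ i j : Fin n, j.val = i.val + (d + 1) → ∀ v w, cT i j v w ∈ D := by
    intro d
    induction d with
    | zero =>
      intro i j h v w
      exact hv i j (fun h' => by rw [h'] at h; omega) (h2 i j h) v w
    | succ d ih =>
      intro i j h v w
      let k : Fin n := ⟨i.val + (d + 1), by omega⟩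
      have hik : i ≠ k := fun h' => by have := congrArg Fin.val h'; simp only [k] at this; omega
      have hkj : k ≠ j := fun h' => by have := congrArg Fin.val h'; simp only [k] at this; omega
      have hij : i ≠ j := fun h' => by rw [h'] at h; omega
      have e1 := (conc (Fin n) F).com hik.symm hkj hij (ff F) v (ee F) w
      rw [om_ee_ff, one_smul] at e1
      change cT k i _ _ * cT k j _ _ = cT i j v w * cT k j _ _ * cT k i _ _ at e1
      have e2 : cT i j v w = cT k i (ff F) v * cT k j (ee F) w * (cT k j (ee F) w * cT k i (ff F) v)⁻¹ := by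
        rw [e1]; group
      have m1 : cT k i (ff F) v ∈ D := by
        have := (conc (Fin n) F).symm hik.symm (ff F) v
        change cT k i _ _ = cT i k _ _ at this
        rw [this]; exact ih i k rfl _ _
      have m2 : cT k j (ee F) w ∈ D := by
        apply hv k j hkj
        apply h2
        change j.val = i.val + (d + 1) + 1
        omega
      rw [e2]
      exact mul_mem (mul_mem m1 m2) (inv_mem (mul_mem m2 m1))
  apply conc_top _ h1
  intro i j hij v w
  rcases lt_or_gt_of_ne (fun h => hij (Fin.ext h) : i.val ≠ j.val) with h | h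
  · exact h3 (j.val - i.val - 1) i j (by omega) v w
  · have := (conc (Fin n) F).symm hij v w
    change cT i j _ _ = cT j i _ _ at this
    rw [this]
    exact h3 (i.val - j.val - 1) j i (by omega) w v

end H6.Slim
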