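import Cfsg.Agent.Lib.H6.SlimE

/-!
Amalgams for symplectic groups: pairs from partial homomorphisms; the completion theorem.
-/

set_option autoImplicit false

namespace H6.Slim

open H6.SpSys Matrix
open scoped commutatorElement

variable {F : Type*} [Field F] {n : ℕ} {H : Type*} [Group H]

/-- a partial homomorphism given by a total function -/
def PH {G H : Type*} [Group G] [Group H] (P : Subgroup G) (f : G → H) : Prop :=
  ∀ x ∈ P, ∀ y ∈ P, f (x * y) = f x * f y

lemma PH.one {G H : Type*} [Group G] [Group H] {P : Subgroup G} {f : G → H} (h : PH P f) : f 1 = 1 := by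
  have := h 1 (one_mem _) 1 (one_mem _)
  rw [one_mul] at this
  exact mul_eq_left.1 this.symm

lemma PH.inv {G H : Type*} [Group G] [Group H] {P : Subgroup G} {f : G → H} (h : PH P f) {x : G} (hx : x ∈ P) :
    f x⁻¹ = (f x)⁻¹ := by
  rw [eq_inv_iff_mul_eq_one, ← h _ (inv_mem hx) _ hx, inv_mul_cancel, h.one]

/-- a relation `x * y = z * w` is preserved -/
lemma PH.rel {G H : Type*} [Group G] [Group H] {P : Subgroup G} {f : G → H} (h : PH P f) {x y z w : G}
    (hx : x ∈ P) (hy : y ∈ P) (hz : z ∈ P) (hw : w ∈ P) (e : x * y = z * w) : f x * f y = f z * f w := by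
  rw [← h _ hx _ hy, ← h _ hz _ hw, e]

open Classical in
/-- choice of an element moving `e` to `v` -/
noncomputable def gg (v : Fin 2 → F) : SpecialLinearGroup (Fin 2) F :=
  if h : v ≠ 0 then (exists_act h).choose else 1

lemma gg_ee {v : Fin 2 → F} (h : v ≠ 0) : (gg v).1 *ᵥ ee F = v := by
  unfold gg
  rw [dif_pos h]
  exact (exists_act h).choose_spec

open Classical in
/-- pairs from partial homomorphisms -/
theorem exists_pair {i j : Fin n} (hij : i ≠ j) {P Q : Subgroup (symplecticGroup (Fin n) F)}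
    {f f' : symplecticGroup (Fin n) F → H} (hf : PH P f) (hf' : PH Q f')
    {a b : SpecialLinearGroup (Fin 2) F →* H} (hab : ∀ g h, a g * b h = b h * a g)
    (hP1 : ∀ g, cL i g ∈ P) (hP2 : ∀ c, cL j (tv (ee F) c) ∈ P) (hP3 : cT i j (ee F) (ee F) ∈ P)
    (hQ1 : ∀ g, cL j g ∈ Q) (hQ2 : ∀ c, cL i (tv (ee F) c) ∈ Q) (hQ3 : cT i j (ee F) (ee F) ∈ Q)
    (fa : ∀ g, f (cL i g) = a g) (fb : ∀ c, f (cL j (tv (ee F) c)) = b (tv (ee F) c))
    (fa' : ∀ c, f' (cL i (tv (ee F) c)) = a (tv (ee F) c)) (fb' : ∀ g, f' (cL j g) = b g)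
    (hff : ∀ c : F, f (cT i j (c • ee F) (ee F)) = f' (cT i j (ee F) (c • ee F))) :
    ∃ T, Pr a b T ∧ ∀ c : F, T (c • ee F) (ee F) = f (cT i j (c • ee F) (ee F)) := by
  set C := conc (Fin n) F with hC
  -- memberships
  have memQ : ∀ w, cT i j (ee F) w ∈ Q := by
    intro w
    by_cases hw : w = 0
    · have := C.T_zero hij (ee F)
      change cT i j _ 0 = 1 at this
      rw [hw, this]; exact one_mem _
    · obtain ⟨g, hg⟩ := exists_act hw
      have e1 := C.conj' hij g (ee F) (ee F)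
      rw [hg] at e1
      change cL j g * cT i j _ _ = cT i j _ _ * cL j g at e1
      have : cT i j (ee F) w = cL j g * cT i j (ee F) (ee F) * (cL j g)⁻¹ := by rw [e1]; group
      rw [this]
      exact mul_mem (mul_mem (hQ1 g) hQ3) (inv_mem (hQ1 g))
  have memP : ∀ v, cT i j v (ee F) ∈ P := by
    intro v
    by_cases hv : v = 0
    · have := C.T_zero' hij (ee F)
      change cT i j 0 _ = 1 at this
      rw [hv, this]; exact one_mem _
    · obtain ⟨g, hg⟩ := exists_act hv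
      have e1 := C.conj hij g (ee F) (ee F)
      rw [hg] at e1
      change cL i g * cT i j _ _ = cT i j _ _ * cL i g at e1
      have : cT i j v (ee F) = cL i g * cT i j (ee F) (ee F) * (cL i g)⁻¹ := by rw [e1]; group
      rw [this]
      exact mul_mem (mul_mem (hP1 g) hP3) (inv_mem (hP1 g))
  set q : (Fin 2 → F) → H := fun w => f' (cT i j (ee F) w) with hq
  set p : (Fin 2 → F) → H := fun v => f (cT i j v (ee F)) with hp
  have q1 : ∀ c w, a (tv (ee F) c) * q w = q w * a (tv (ee F) c) := by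
    intro c w
    rw [← fa', hq]
    apply hf'.rel (hQ2 c) (memQ w) (memQ w) (hQ2 c)
    have := C.conj hij (tv (ee F) c) (ee F) w
    rw [tv_act, om_self, mul_zero, zero_smul, add_zero] at this
    exact this
  have q2 : ∀ h w, b h * q w = q (h.1 *ᵥ w) * b h := by
    intro h w
    rw [← fb', hq]
    exact hf'.rel (hQ1 h) (memQ w) (memQ _) (hQ1 h) (C.conj' hij h (ee F) w)
  have q3 : ∀ w w', q w * q w' = q (w + w') * a (tv (ee F) (om w' w)) := by
    intro w w'
    rw [← fa', hq]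
    exact hf'.rel (memQ w) (memQ w') (memQ _) (hQ2 _) (C.mul hij (ee F) w w')
  have q0 : q 0 = 1 := by
    rw [hq]
    have := C.T_zero hij (ee F)
    change cT i j _ 0 = 1 at this
    change f' (cT i j (ee F) 0) = 1
    rw [this, hf'.one]
  have p1 : ∀ g v, a g * p v = p (g.1 *ᵥ v) * a g := by
    intro g v
    rw [← fa, hp]
    exact hf.rel (hP1 g) (memP v) (memP _) (hP1 g) (C.conj hij g v (ee F))
  have p3 : ∀ v v', p v * p v' = p (v + v') * b (tv (ee F) (om v' v)) := by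
    intro v v'
    rw [← fb, hp]
    exact hf.rel (memP v) (memP v') (memP _) (hP2 _) (C.mul' hij v v' (ee F))
  have p0 : p 0 = 1 := by
    rw [hp]
    have := C.T_zero' hij (ee F)
    change cT i j 0 _ = 1 at this
    change f (cT i j 0 (ee F)) = 1
    rw [this, hf.one]
  have pq : ∀ c : F, p (c • ee F) = q (c • ee F) := hff
  have pq1 : p (ee F) = q (ee F) := by have := pq 1; rwa [one_smul] at this
  -- the elements
  set T : (Fin 2 → F) → (Fin 2 → F) → H := fun v w => if v = 0 then 1 else a (gg v) * q w * (a (gg v))⁻¹ with hT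
  have T0 : ∀ w, T 0 w = 1 := fun w => if_pos rfl
  have Tv : ∀ g w, T (g.1 *ᵥ ee F) w = a g * q w * (a g)⁻¹ := by
    intro g w
    have hv : g.1 *ᵥ ee F ≠ 0 := act_ne ee_ne
    have e1 : ((gg (g.1 *ᵥ ee F))⁻¹ * g).1 *ᵥ ee F = ee F := by
      rw [mul_act]
      have e2 := inv_act (gg (g.1 *ᵥ ee F)) (ee F)
      rwa [gg_ee hv] at e2
    obtain ⟨c, hc⟩ := eq_tv_of_fix e1
    have e2 : g = gg (g.1 *ᵥ ee F) * tv (ee F) c := by rw [← hc, mul_inv_cancel_left]
    have e3 : T (g.1 *ᵥ ee F) w = a (gg (g.1 *ᵥ ee F)) * q w * (a (gg (g.1 *ᵥ ee F)))⁻¹ := if_neg hv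
    rw [e3]
    have e4 : a g = a (gg (g.1 *ᵥ ee F)) * a (tv (ee F) c) := by
      rw [← map_mul, ← e2]
    rw [e4, mul_assoc (a (gg (g.1 *ᵥ ee F))) (a (tv (ee F) c)), q1]; group
  have Tp : ∀ v, T v (ee F) = p v := by
    intro v
    by_cases hv : v = 0
    · rw [hv, T0, p0]
    · obtain ⟨g, rfl⟩ := exists_act hv
      rw [Tv, ← pq1, p1]; group
  have Tq : ∀ w, T (ee F) w = q w := by
    intro w
    have := Tv 1 w
    rw [one_act, map_one] at this
    rw [this]; group
  have Tw0 : ∀ v, T v 0 = 1 := by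
    intro v
    by_cases hv : v = 0
    · rw [hv, T0]
    · obtain ⟨g, rfl⟩ := exists_act hv
      rw [Tv, q0]; group
  have Tc : ∀ g v w, a g * T v w = T (g.1 *ᵥ v) w * a g := by
    intro g v w
    by_cases hv : v = 0
    · rw [hv, Matrix.mulVec_zero, T0, mul_one, one_mul]
    · obtain ⟨u, rfl⟩ := exists_act hv
      rw [← mul_act, Tv, Tv, map_mul]; group
  have Tc' : ∀ h v w, b h * T v w = T v (h.1 *ᵥ w) * b h := by
    intro h v w
    by_cases hv : v = 0
    · rw [hv, T0, T0, mul_one, one_mul]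
    · obtain ⟨u, rfl⟩ := exists_act hv
      rw [Tv, Tv]
      have e1 : b h * (a u)⁻¹ = (a u)⁻¹ * b h := comm_inv' (hab u h).symm
      calc b h * (a u * q w * (a u)⁻¹) = (b h * a u) * q w * (a u)⁻¹ := by simp only [mul_assoc]
        _ = a u * (b h * q w) * (a u)⁻¹ := by rw [← hab]; simp only [mul_assoc]
        _ = a u * q (h.1 *ᵥ w) * (b h * (a u)⁻¹) := by rw [q2]; simp only [mul_assoc]
        _ = _ := by rw [e1]; simp only [mul_assoc]
  refine ⟨T, ⟨Tc, Tc', ?_, ?_, ?_⟩, fun c => Tp _⟩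
  · intro c v w
    by_cases hv : v = 0
    · rw [hv, smul_zero, T0, T0]
    by_cases hw : w = 0
    · rw [hw, smul_zero, Tw0, Tw0]
    obtain ⟨g, rfl⟩ := exists_act hv
    obtain ⟨h, rfl⟩ := exists_act hw
    have e1 : T (c • ee F) (ee F) = T (ee F) (c • ee F) := by rw [Tp, Tq, pq]
    have e2 := Tc g (c • ee F) (ee F)
    have e3 := Tc' h (g.1 *ᵥ (c • ee F)) (ee F)
    have e4 := Tc' h (ee F) (c • ee F)
    have e5 := Tc g (ee F) (h.1 *ᵥ (c • ee F))
    rw [Matrix.mulVec_smul] at e2 e3 e4 e5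
    have f2 : T (c • g.1 *ᵥ ee F) (ee F) = a g * T (c • ee F) (ee F) * (a g)⁻¹ := by rw [e2]; group
    have f3 : T (c • g.1 *ᵥ ee F) (h.1 *ᵥ ee F) = b h * T (c • g.1 *ᵥ ee F) (ee F) * (b h)⁻¹ := by rw [e3]; group
    have f4 : T (ee F) (c • h.1 *ᵥ ee F) = b h * T (ee F) (c • ee F) * (b h)⁻¹ := by rw [e4]; group
    have f5 : T (g.1 *ᵥ ee F) (c • h.1 *ᵥ ee F) = a g * T (ee F) (c • h.1 *ᵥ ee F) * (a g)⁻¹ := by rw [e5]; group
    rw [f3, f2, f5, f4, e1]
    have e6 := hab g h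
    calc b h * (a g * T (ee F) (c • ee F) * (a g)⁻¹) * (b h)⁻¹ = (b h * a g) * T (ee F) (c • ee F) * (b h * a g)⁻¹ := by
          rw [_root_.mul_inv_rev]; simp only [mul_assoc]
      _ = _ := by rw [← e6, _root_.mul_inv_rev]; simp only [mul_assoc]
  · intro v w w'
    by_cases hv : v = 0
    · rw [hv, T0, T0, T0, tv_zero', map_one]
    obtain ⟨g, rfl⟩ := exists_act hv
    rw [Tv, Tv, Tv]
    have e1 : a (tv (g.1 *ᵥ ee F) (om w' w)) * a g = a g * a (tv (ee F) (om w' w)) := by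
      rw [← map_mul, ← map_mul, tv_conj]
    have e2 : a (tv (g.1 *ᵥ ee F) (om w' w)) = a g * a (tv (ee F) (om w' w)) * (a g)⁻¹ := by rw [← e1]; group
    rw [e2]
    calc a g * q w * (a g)⁻¹ * (a g * q w' * (a g)⁻¹) = a g * (q w * q w') * (a g)⁻¹ := by group
      _ = _ := by rw [q3]; group
  · intro v v' w
    by_cases hw : w = 0
    · rw [hw, Tw0, Tw0, Tw0, tv_zero', map_one]
    obtain ⟨h, rfl⟩ := exists_act hw
    have e0 : ∀ u, T u (h.1 *ᵥ ee F) = b h * p u * (b h)⁻¹ := by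
      intro u
      rw [← Tp, Tc']; group
    rw [e0, e0, e0]
    have e1 : b (tv (h.1 *ᵥ ee F) (om v' v)) * b h = b h * b (tv (ee F) (om v' v)) := by
      rw [← map_mul, ← map_mul, tv_conj]
    have e2 : b (tv (h.1 *ᵥ ee F) (om v' v)) = b h * b (tv (ee F) (om v' v)) * (b h)⁻¹ := by rw [← e1]; group
    rw [e2]
    calc b h * p v * (b h)⁻¹ * (b h * p v' * (b h)⁻¹) = b h * (p v * p v') * (b h)⁻¹ := by group
      _ = _ := by rw [p3]; group

end H6.Slim
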