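import Cfsg.Agent.Lib.H6.SlimF

/-!
Amalgams for symplectic groups: the completion theorem.
-/

set_option autoImplicit false

namespace H6.Slim

open H6.SpSys Matrix
open scoped commutatorElement

variable {F : Type*} [Field F] {n : ℕ} {H : Type*} [Group H]

/-- the amalgam -/
structure Am (S M : Fin n → Subgroup (symplecticGroup (Fin n) F)) (σ μ : Fin n → symplecticGroup (Fin n) F → H) :
    Prop where
  hF : ∃ κ : F, κ ≠ 0 ∧ κ ≠ 1
  hS1 : ∀ j g, cL j g ∈ S j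
  hS2 : ∀ j, ∀ x ∈ S j, ∃ g, x = cL j g
  hM1 : ∀ i j : Fin n, j.val = i.val + 1 → ∀ c, cL i (tv (ee F) c) ∈ M i
  hM2 : ∀ i j : Fin n, j.val = i.val + 1 → ∀ c, cL j (tv (ee F) c) ∈ M i
  hM3 : ∀ i j : Fin n, j.val = i.val + 1 → ∀ c : F, cT i j (c • ee F) (ee F) ∈ M i
  hM4 : ∀ i j : Fin n, j.val = i.val + 1 → M i ≤ Subgroup.closure
    {x | ∃ a b c : F, x = cL i (tv (ee F) a) * cL j (tv (ee F) b) * cT i j (c • ee F) (ee F)}
  hσ : ∀ j, PH (S j) (σ j)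
  hμ : ∀ i, i.val + 1 < n → PH (M i) (μ i)
  hSS : ∀ j l, j ≠ l → ∃ f, PH (S j ⊔ S l) f ∧ (∀ g ∈ S j, f g = σ j g) ∧ (∀ g ∈ S l, f g = σ l g)
  hMM : ∀ i i', i ≠ i' → i.val + 1 < n → i'.val + 1 < n → ∃ f, PH (M i ⊔ M i') f ∧ (∀ g ∈ M i, f g = μ i g) ∧
    (∀ g ∈ M i', f g = μ i' g)
  hMS : ∀ i j, i.val + 1 < n → ∃ f, PH (M i ⊔ S j) f ∧ (∀ g ∈ M i, f g = μ i g) ∧ (∀ g ∈ S j, f g = σ j g)

namespace Am

variable {S M : Fin n → Subgroup (symplecticGroup (Fin n) F)} {σ μ : Fin n → symplecticGroup (Fin n) F → H}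
  (A : Am S M σ μ)
include A

lemma hMe {i j : Fin n} (h : j.val = i.val + 1) : cT i j (ee F) (ee F) ∈ M i := by
  have := A.hM3 i j h 1
  rwa [one_smul] at this

/-- `λ_i` -/
def L (j : Fin n) : SpecialLinearGroup (Fin 2) F →* H where
  toFun g := σ j (cL j g)
  map_one' := by rw [map_one]; exact (A.hσ j).one
  map_mul' g h := by rw [map_mul]; exact A.hσ j _ (A.hS1 j g) _ (A.hS1 j h)

lemma L_apply (j : Fin n) (g : SpecialLinearGroup (Fin 2) F) : A.L j g = σ j (cL j g) := rfl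

lemma Lcomm {i j : Fin n} (hij : i ≠ j) (g h : SpecialLinearGroup (Fin 2) F) : A.L i g * A.L j h = A.L j h * A.L i g := by
  obtain ⟨f, hf, h1, h2⟩ := A.hSS i j hij
  rw [L_apply, L_apply, ← h1 _ (A.hS1 i g), ← h2 _ (A.hS1 j h)]
  have m1 : cL i g ∈ S i ⊔ S j := Subgroup.mem_sup_left (A.hS1 i g)
  have m2 : cL j h ∈ S i ⊔ S j := Subgroup.mem_sup_right (A.hS1 j h)
  exact hf.rel m1 m2 m2 m1 ((conc (Fin n) F).comm hij g h)

/-- compatibility of `σ` and `μ` -/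
lemma compat {i j : Fin n} (hi : i.val + 1 < n) {x : symplecticGroup (Fin n) F} (hx : x ∈ M i) (hx' : x ∈ S j) :
    μ i x = σ j x := by
  obtain ⟨f, hf, h1, h2⟩ := A.hMS i j hi
  rw [← h1 x hx, h2 x hx']

lemma exT (i : Fin n) : ∃ T : (Fin 2 → F) → (Fin 2 → F) → H, ∀ j : Fin n, j.val = i.val + 1 →
    Pr (A.L i) (A.L j) T ∧ ∀ c : F, T (c • ee F) (ee F) = μ i (cT i j (c • ee F) (ee F)) := by
  by_cases hi : i.val + 1 < n
  · let j : Fin n := ⟨i.val + 1, hi⟩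
    have hij : i ≠ j := fun h => by have := congrArg Fin.val h; simp [j] at this
    obtain ⟨f, hf, h1, h2⟩ := A.hMS i i hi
    obtain ⟨f', hf', h1', h2'⟩ := A.hMS i j hi
    have hj : j.val = i.val + 1 := rfl
    obtain ⟨T, hT, hT2⟩ := exists_pair hij hf hf' (a := A.L i) (b := A.L j) (A.Lcomm hij)
      (fun g => Subgroup.mem_sup_right (A.hS1 i g)) (fun c => Subgroup.mem_sup_left (A.hM2 i j hj c))
      (Subgroup.mem_sup_left (A.hMe hj)) (fun g => Subgroup.mem_sup_right (A.hS1 j g))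
      (fun c => Subgroup.mem_sup_left (A.hM1 i j hj c)) (Subgroup.mem_sup_left (A.hMe hj))
      (fun g => h2 _ (A.hS1 i g))
      (fun c => by rw [h1 _ (A.hM2 i j hj c), A.compat hi (A.hM2 i j hj c) (A.hS1 j _)]; rfl)
      (fun c => by rw [h1' _ (A.hM1 i j hj c), A.compat hi (A.hM1 i j hj c) (A.hS1 i _)]; rfl)
      (fun g => h2' _ (A.hS1 j g))
      (fun c => by
        have e1 := (conc (Fin n) F).smul hij c (ee F) (ee F)
        change cT i j _ _ = cT i j _ _ at e1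
        rw [← e1, h1 _ (A.hM3 i j hj c), h1' _ (A.hM3 i j hj c)])
    refine ⟨T, fun j' hj' => ?_⟩
    have hjj : j' = j := Fin.ext hj'
    rw [hjj]
    exact ⟨hT, fun c => by rw [hT2, h1 _ (A.hM3 i j hj c)]⟩
  · exact ⟨fun _ _ => 1, fun j hj => absurd (hj ▸ j.2) hi⟩

/-- the short root elements -/
noncomputable def Bf (i : Fin n) : (Fin 2 → F) → (Fin 2 → F) → H := (A.exT i).choose

lemma Bf_pr {i j : Fin n} (h : j.val = i.val + 1) : Pr (A.L i) (A.L j) (A.Bf i) := ((A.exT i).choose_spec j h).1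

lemma Bf_eq {i j : Fin n} (h : j.val = i.val + 1) (c : F) : A.Bf i (c • ee F) (ee F) = μ i (cT i j (c • ee F) (ee F)) :=
  ((A.exT i).choose_spec j h).2 c

lemma Bf_e {i j : Fin n} (h : j.val = i.val + 1) : A.Bf i (ee F) (ee F) = μ i (cT i j (ee F) (ee F)) := by
  have := A.Bf_eq h 1
  rwa [one_smul] at this

/-- `Bf` as a conjugate -/
lemma Bf_conj {i j : Fin n} (h : j.val = i.val + 1) (g g' : SpecialLinearGroup (Fin 2) F) :
    A.Bf i (g.1 *ᵥ ee F) (g'.1 *ᵥ ee F) = (A.L i g * A.L j g') * A.Bf i (ee F) (ee F) * (A.L i g * A.L j g')⁻¹ := by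
  have e1 := (A.Bf_pr h).conj' g' (ee F) (ee F)
  have e2 := (A.Bf_pr h).conj g (ee F) (g'.1 *ᵥ ee F)
  rw [eq_mul_inv_iff_mul_eq, ← mul_assoc, ← e2, mul_assoc, ← e1, mul_assoc]

omit A [Group H] in
lemma nn {i j : Fin n} (h : j.val = i.val + 1) : i.val + 1 < n := h ▸ j.2

omit A [Group H] in
lemma ney {i j : Fin n} (h : j.val = i.val + 1) : i ≠ j := fun h' => by rw [h'] at h; omega

/-- far `λ`'s commute with `y` -/
lemma b3e {i j : Fin n} (h : j.val = i.val + 1) {k : Fin n} (hki : k ≠ i) (hkj : k ≠ j)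
    (g : SpecialLinearGroup (Fin 2) F) : A.L k g * A.Bf i (ee F) (ee F) = A.Bf i (ee F) (ee F) * A.L k g := by
  obtain ⟨f, hf, h1, h2⟩ := A.hMS i k (nn h)
  rw [A.Bf_e h, L_apply, ← h1 _ (A.hMe h), ← h2 _ (A.hS1 k g)]
  have m1 : cL k g ∈ M i ⊔ S k := Subgroup.mem_sup_right (A.hS1 k g)
  have m2 : cT i j (ee F) (ee F) ∈ M i ⊔ S k := Subgroup.mem_sup_left (A.hMe h)
  exact hf.rel m1 m2 m2 m1 ((conc (Fin n) F).comm3 (ney h) hki hkj g (ee F) (ee F))

lemma b3 {i j : Fin n} (h : j.val = i.val + 1) {k : Fin n} (hki : k ≠ i) (hkj : k ≠ j)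
    (g : SpecialLinearGroup (Fin 2) F) (v w : Fin 2 → F) : A.L k g * A.Bf i v w = A.Bf i v w * A.L k g := by
  by_cases hv : v = 0
  · rw [hv, (A.Bf_pr h).zero', one_mul, mul_one]
  by_cases hw : w = 0
  · rw [hw, (A.Bf_pr h).zero, one_mul, mul_one]
  obtain ⟨u, rfl⟩ := exists_act hv
  obtain ⟨u', rfl⟩ := exists_act hw
  rw [A.Bf_conj h]
  have c1 : Commute (A.L k g) (A.L i u) := A.Lcomm hki g u
  have c2 : Commute (A.L k g) (A.L j u') := A.Lcomm hkj g u'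
  have c3 : Commute (A.L k g) (A.Bf i (ee F) (ee F)) := A.b3e h hki hkj g
  exact (((c1.mul_right c2).mul_right c3).mul_right (c1.mul_right c2).inv_right).eq

lemma yy {i j i' j' : Fin n} (h : j.val = i.val + 1) (h' : j'.val = i'.val + 1) (hii : i ≠ i')
    (e : cT i j (ee F) (ee F) * cT i' j' (ee F) (ee F) = cT i' j' (ee F) (ee F) * cT i j (ee F) (ee F)) :
    Commute (A.Bf i (ee F) (ee F)) (A.Bf i' (ee F) (ee F)) := by
  obtain ⟨f, hf, h1, h2⟩ := A.hMM i i' hii (nn h) (nn h')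
  change _ = _
  rw [A.Bf_e h, A.Bf_e h', ← h1 _ (A.hMe h), ← h2 _ (A.hMe h')]
  have m1 : cT i j (ee F) (ee F) ∈ M i ⊔ M i' := Subgroup.mem_sup_left (A.hMe h)
  have m2 : cT i' j' (ee F) (ee F) ∈ M i ⊔ M i' := Subgroup.mem_sup_right (A.hMe h')
  exact hf.rel m1 m2 m2 m1 e

/-- the chain -/
theorem chain : Chain n A.L A.Bf where
  hL := A.Lcomm
  hF := A.hF
  pr i j h := A.Bf_pr h
  b3 i j h k h1 h2 g v w := A.b3 h h1 h2 g v w
  far := by
    intro i i' h h' v w v' w'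
    let j : Fin n := ⟨i.val + 1, by omega⟩
    let j' : Fin n := ⟨i'.val + 1, h'⟩
    have hj : j.val = i.val + 1 := rfl
    have hj' : j'.val = i'.val + 1 := rfl
    have n1 : i ≠ i' := fun h1 => by rw [h1] at h; omega
    have n2 : i ≠ j' := fun h1 => by have := congrArg Fin.val h1; omega
    have n3 : j ≠ i' := fun h1 => by have := congrArg Fin.val h1; omega
    have n4 : j ≠ j' := fun h1 => by have := congrArg Fin.val h1; omega
    by_cases hv : v = 0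
    · rw [hv, (A.Bf_pr hj).zero', one_mul, mul_one]
    by_cases hw : w = 0
    · rw [hw, (A.Bf_pr hj).zero, one_mul, mul_one]
    by_cases hv' : v' = 0
    · rw [hv', (A.Bf_pr hj').zero', one_mul, mul_one]
    by_cases hw' : w' = 0
    · rw [hw', (A.Bf_pr hj').zero, one_mul, mul_one]
    obtain ⟨u, rfl⟩ := exists_act hv
    obtain ⟨x, rfl⟩ := exists_act hw
    obtain ⟨u', rfl⟩ := exists_act hv'
    obtain ⟨x', rfl⟩ := exists_act hw'
    have c0 := A.yy hj hj' n1 ((conc (Fin n) F).disj (ney hj) (ney hj') n1 n2 n3 n4 _ _ _ _)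
    have c1 : Commute (A.Bf i (ee F) (ee F)) (A.L i' u') := (A.b3 hj n1.symm n3.symm u' _ _ : Commute _ _).symm
    have c2 : Commute (A.Bf i (ee F) (ee F)) (A.L j' x') := (A.b3 hj n2.symm n4.symm x' _ _ : Commute _ _).symm
    have c3 : Commute (A.Bf i (ee F) (ee F)) (A.Bf i' (u'.1 *ᵥ ee F) (x'.1 *ᵥ ee F)) := by
      rw [A.Bf_conj hj']
      exact ((c1.mul_right c2).mul_right c0).mul_right (c1.mul_right c2).inv_right
    have c4 : Commute (A.L i u) (A.Bf i' (u'.1 *ᵥ ee F) (x'.1 *ᵥ ee F)) := A.b3 hj' n1 n2 u _ _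
    have c5 : Commute (A.L j x) (A.Bf i' (u'.1 *ᵥ ee F) (x'.1 *ᵥ ee F)) := A.b3 hj' n3 n4 x _ _
    have c6 : Commute (A.Bf i (u.1 *ᵥ ee F) (x.1 *ᵥ ee F)) (A.Bf i' (u'.1 *ᵥ ee F) (x'.1 *ᵥ ee F)) := by
      rw [A.Bf_conj hj]
      exact ((c4.mul_left c5).mul_left c3).mul_left (c4.mul_left c5).inv_left
    exact c6.eq
  near := by
    intro i i' h h' v w x
    let j' : Fin n := ⟨i'.val + 1, h'⟩
    have hj' : j'.val = i'.val + 1 := rfl
    have n1 : i ≠ i' := ney h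
    have n2 : i ≠ j' := fun h1 => by have := congrArg Fin.val h1; omega
    have n3 : i' ≠ j' := ney hj'
    by_cases hv : v = 0
    · rw [hv, (A.Bf_pr h).zero', one_mul, mul_one]
    by_cases hw : w = 0
    · rw [hw, (A.Bf_pr h).zero, (A.Bf_pr hj').zero']
    by_cases hx : x = 0
    · rw [hx, (A.Bf_pr hj').zero, one_mul, mul_one]
    obtain ⟨u, rfl⟩ := exists_act hv
    obtain ⟨r, rfl⟩ := exists_act hw
    obtain ⟨s, rfl⟩ := exists_act hx
    have e0 : cT i i' (ee F) (ee F) * cT i' j' (ee F) (ee F) = cT i' j' (ee F) (ee F) * cT i i' (ee F) (ee F) := by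
      have := (conc (Fin n) F).com n1.symm n3 n2 (ee F) (ee F) (ee F) (ee F)
      rw [om_self, zero_smul, (conc (Fin n) F).T_zero' n2, one_mul, (conc (Fin n) F).symm n1.symm] at this
      exact this
    have c0 : Commute _ _ := A.yy h hj' n1 e0
    have hG1 : A.Bf i (u.1 *ᵥ ee F) (r.1 *ᵥ ee F) =
        (A.L i u * A.L i' r * A.L j' s) * A.Bf i (ee F) (ee F) * (A.L i u * A.L i' r * A.L j' s)⁻¹ := by
      rw [A.Bf_conj h]
      have := A.b3e h n2.symm n3.symm s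
      calc _ = (A.L i u * A.L i' r) * (A.Bf i (ee F) (ee F) * A.L j' s) * (A.L j' s)⁻¹ * (A.L i u * A.L i' r)⁻¹ := by
            group
        _ = _ := by rw [← this]; group
    have hG2 : A.Bf i' (r.1 *ᵥ ee F) (s.1 *ᵥ ee F) =
        (A.L i u * A.L i' r * A.L j' s) * A.Bf i' (ee F) (ee F) * (A.L i u * A.L i' r * A.L j' s)⁻¹ := by
      have e1 := A.b3 hj' n1 n2 u (r.1 *ᵥ ee F) (s.1 *ᵥ ee F)
      have e2 : A.Bf i' (r.1 *ᵥ ee F) (s.1 *ᵥ ee F) = A.L i u * A.Bf i' (r.1 *ᵥ ee F) (s.1 *ᵥ ee F) * (A.L i u)⁻¹ := by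
        rw [e1]; group
      rw [e2, A.Bf_conj hj']; group
    rw [hG1, hG2]
    set G := A.L i u * A.L i' r * A.L j' s
    calc G * A.Bf i (ee F) (ee F) * G⁻¹ * (G * A.Bf i' (ee F) (ee F) * G⁻¹) =
          G * (A.Bf i (ee F) (ee F) * A.Bf i' (ee F) (ee F)) * G⁻¹ := by group
      _ = _ := by rw [c0.eq]; group

/-- **completion** -/
theorem core (hn : 0 < n) : ∃ Φ : symplecticGroup (Fin n) F →* H, (∀ j, ∀ g ∈ S j, Φ g = σ j g) ∧
    ∀ i, i.val + 1 < n → ∀ g ∈ M i, Φ g = μ i g := by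
  obtain ⟨Sy, h1, h2⟩ := exists_sys A.chain hn
  obtain ⟨φ, h3, h4⟩ := univ Sy
  have hφ1 : ∀ j g, φ (cL j g) = σ j (cL j g) := by
    intro j g
    rw [h3, h1]; rfl
  refine ⟨φ, ?_, ?_⟩
  · intro j g hg
    obtain ⟨x, rfl⟩ := A.hS2 j g hg
    exact hφ1 j x
  · intro i hi g hg
    let j : Fin n := ⟨i.val + 1, hi⟩
    have hj : j.val = i.val + 1 := rfl
    have hle := A.hM4 i j hj hg
    clear hg
    have key : g ∈ M i ∧ φ g = μ i g := by
      induction hle using Subgroup.closure_induction with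
      | mem x hx =>
        obtain ⟨a, b, c, rfl⟩ := hx
        have m1 := A.hM1 i j hj a
        have m2 := A.hM2 i j hj b
        have m3 := A.hM3 i j hj c
        refine ⟨mul_mem (mul_mem m1 m2) m3, ?_⟩
        rw [map_mul, map_mul, hφ1, hφ1, h4 (ney hj), h2 i j hj, A.Bf_eq hj,
          A.hμ i hi _ (mul_mem m1 m2) _ m3, A.hμ i hi _ m1 _ m2, A.compat hi m1 (A.hS1 i _), A.compat hi m2 (A.hS1 j _)]
      | one => exact ⟨one_mem _, by rw [map_one, (A.hμ i hi).one]⟩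
      | mul x y _ _ hx hy =>
        exact ⟨mul_mem hx.1 hy.1, by rw [map_mul, A.hμ i hi _ hx.1 _ hy.1, hx.2, hy.2]⟩
      | inv x _ hx => exact ⟨inv_mem hx.1, by rw [map_inv, (A.hμ i hi).inv hx.1, hx.2]⟩
    exact key.2

end Am

end H6.Slim
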