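import Cfsg.Agent.Lib.H6.SlimG

/-!
Amalgams for symplectic groups: translation of the hypotheses.
-/

set_option autoImplicit false

namespace H6.Slim

open H6.SpSys Matrix
open scoped commutatorElement

variable {F : Type*} [Field F] {n : ℕ} {H : Type*} [Group H]

open Classical in
/-- total extension of a homomorphism on a subgroup -/
noncomputable def tot {G H : Type*} [Group G] [Group H] {P : Subgroup G} (Ψ : P →* H) (x : G) : H :=
  if h : x ∈ P then Ψ ⟨x, h⟩ else 1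

lemma tot_eq {G H : Type*} [Group G] [Group H] {P : Subgroup G} (Ψ : P →* H) {x : G} (h : x ∈ P) :
    tot Ψ x = Ψ ⟨x, h⟩ := dif_pos h

lemma tot_ph {G H : Type*} [Group G] [Group H] {P : Subgroup G} (Ψ : P →* H) : PH P (tot Ψ) := by
  intro x hx y hy
  rw [tot_eq Ψ hx, tot_eq Ψ hy, tot_eq Ψ (mul_mem hx hy), ← map_mul]; rfl

/-- the subgroups `S_j` -/
lemma cL_memS (j : Fin n) (g : SpecialLinearGroup (Fin 2) F) : ∀ k : Fin n, k ≠ j →
    ((cL j g : symplecticGroup (Fin n) F) : Matrix (Fin n ⊕ Fin n) (Fin n ⊕ Fin n) F).mulVec (Pi.single (Sum.inl k) (1 : F)) =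
      Pi.single (Sum.inl k) (1 : F) ∧
    ((cL j g : symplecticGroup (Fin n) F) : Matrix (Fin n ⊕ Fin n) (Fin n ⊕ Fin n) F).mulVec (Pi.single (Sum.inr k) (1 : F)) =
      Pi.single (Sum.inr k) (1 : F) := by
  intro k hk
  refine ⟨(fix_e _ k).2 ?_, (fix_f _ k).2 ?_⟩
  · rw [Th_cL, sL_single hk]
  · rw [Th_cL, sL_single hk]

lemma Th_tv_e (j k : Fin n) (c : F) : Th (Fin n) F (cL j (tv (ee F) c)) (Pi.single k (ee F)) = Pi.single k (ee F) := by
  rw [Th_cL]
  by_cases h : k = j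
  · subst h; rw [sL_single', tv_act, om_self, mul_zero, zero_smul, add_zero]
  · rw [sL_single h]

lemma Th_cT_e {i j : Fin n} (hij : i ≠ j) (k : Fin n) (c : F) :
    Th (Fin n) F (cT i j (c • ee F) (ee F)) (Pi.single k (ee F)) = Pi.single k (ee F) := by
  rw [Th_cT hij]
  ext l : 1
  by_cases hi : l = i
  · subst hi
    rw [sT_i hij]
    by_cases hk : j = k
    · subst hk; rw [Pi.single_eq_same, om_self, zero_smul, add_zero]
    · rw [Pi.single_eq_of_ne hk, om_zero_left, zero_smul, add_zero]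
  · by_cases hj : l = j
    · subst hj
      rw [sT_j hij]
      by_cases hk : i = k
      · subst hk; rw [Pi.single_eq_same, om_smul_right, om_self, mul_zero, zero_smul, add_zero]
      · rw [Pi.single_eq_of_ne hk, om_zero_left, zero_smul, add_zero]
    · rw [sT_ne hi hj]

lemma Th_cT_f {i j : Fin n} (hij : i ≠ j) {k : Fin n} (hki : k ≠ i) (hkj : k ≠ j) (v w : Fin 2 → F) (u : Fin 2 → F) :
    Th (Fin n) F (cT i j v w) (Pi.single k u) = Pi.single k u := by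
  rw [Th_cT hij]
  ext l : 1
  by_cases hi : l = i
  · subst hi
    rw [sT_i hij, Pi.single_eq_of_ne (Ne.symm hkj), om_zero_left, zero_smul, add_zero]
  · by_cases hj : l = j
    · subst hj
      rw [sT_j hij, Pi.single_eq_of_ne (Ne.symm hki), om_zero_left, zero_smul, add_zero]
    · rw [sT_ne hi hj]

theorem completion (hF : ∃ a : F, a ≠ 0 ∧ a ≠ 1) (n : ℕ) (hn : 2 ≤ n)
    (S M : Fin n → Subgroup ↥(Matrix.symplecticGroup (Fin n) F))
    (hS : ∀ j : Fin n, S j = Subgroup.closure {A : ↥(Matrix.symplecticGroup (Fin n) F) | ∀ k : Fin n, k ≠ j →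
      ((A : ↥(Matrix.symplecticGroup (Fin n) F)) : Matrix (Fin n ⊕ Fin n) (Fin n ⊕ Fin n) F).mulVec (Pi.single (Sum.inl k) (1 : F)) = (Pi.single (Sum.inl k) (1 : F)) ∧ ((A : ↥(Matrix.symplecticGroup (Fin n) F)) : Matrix (Fin n ⊕ Fin n) (Fin n ⊕ Fin n) F).mulVec (Pi.single (Sum.inr k) (1 : F)) = (Pi.single (Sum.inr k) (1 : F))})
    (hM : ∀ i : Fin n, (i : ℕ) + 1 < n → M i = Subgroup.closure {A : ↥(Matrix.symplecticGroup (Fin n) F) |
      (∀ k : Fin n, ((A : ↥(Matrix.symplecticGroup (Fin n) F)) : Matrix (Fin n ⊕ Fin n) (Fin n ⊕ Fin n) F).mulVec (Pi.single (Sum.inl k) (1 : F)) = (Pi.single (Sum.inl k) (1 : F))) ∧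
        ∀ k : Fin n, (k : ℕ) ≠ i → (k : ℕ) ≠ (i : ℕ) + 1 → ((A : ↥(Matrix.symplecticGroup (Fin n) F)) : Matrix (Fin n ⊕ Fin n) (Fin n ⊕ Fin n) F).mulVec (Pi.single (Sum.inr k) (1 : F)) = (Pi.single (Sum.inr k) (1 : F))})
    {H : Type*} [Group H] (σ : ∀ j : Fin n, ↥(S j) →* H) (μ : ∀ i : Fin n, ↥(M i) →* H)
    (hSS : ∀ j l : Fin n, j ≠ l → ∃ Ψ : ↥(S j ⊔ S l) →* H,
      (∀ (g : ↥(Matrix.symplecticGroup (Fin n) F)) (hg : g ∈ S j), Ψ ⟨g, Subgroup.mem_sup_left hg⟩ = σ j ⟨g, hg⟩) ∧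
        (∀ (g : ↥(Matrix.symplecticGroup (Fin n) F)) (hg : g ∈ S l), Ψ ⟨g, Subgroup.mem_sup_right hg⟩ = σ l ⟨g, hg⟩))
    (hMM : ∀ i i' : Fin n, i ≠ i' → (i : ℕ) + 1 < n → (i' : ℕ) + 1 < n → ∃ Ψ : ↥(M i ⊔ M i') →* H,
      (∀ (g : ↥(Matrix.symplecticGroup (Fin n) F)) (hg : g ∈ M i), Ψ ⟨g, Subgroup.mem_sup_left hg⟩ = μ i ⟨g, hg⟩) ∧
        (∀ (g : ↥(Matrix.symplecticGroup (Fin n) F)) (hg : g ∈ M i'), Ψ ⟨g, Subgroup.mem_sup_right hg⟩ = μ i' ⟨g, hg⟩))
    (hMS : ∀ i j : Fin n, (i : ℕ) + 1 < n → ∃ Ψ : ↥(M i ⊔ S j) →* H,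
      (∀ (g : ↥(Matrix.symplecticGroup (Fin n) F)) (hg : g ∈ M i), Ψ ⟨g, Subgroup.mem_sup_left hg⟩ = μ i ⟨g, hg⟩) ∧
        (∀ (g : ↥(Matrix.symplecticGroup (Fin n) F)) (hg : g ∈ S j), Ψ ⟨g, Subgroup.mem_sup_right hg⟩ = σ j ⟨g, hg⟩)) :
    ∃! Φ : ↥(Matrix.symplecticGroup (Fin n) F) →* H,
      (∀ (j : Fin n) (g : ↥(Matrix.symplecticGroup (Fin n) F)) (hg : g ∈ S j), Φ g = σ j ⟨g, hg⟩) ∧
        (∀ (i : Fin n), (i : ℕ) + 1 < n → ∀ (g : ↥(Matrix.symplecticGroup (Fin n) F)) (hg : g ∈ M i), Φ g = μ i ⟨g, hg⟩) := by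
  have hS1 : ∀ (j : Fin n) (g : SpecialLinearGroup (Fin 2) F), cL j g ∈ S j := by
    intro j g
    rw [hS j]
    exact Subgroup.subset_closure (cL_memS j g)
  have memM : ∀ (i : Fin n), (i : ℕ) + 1 < n → ∀ A : ↥(Matrix.symplecticGroup (Fin n) F),
      (∀ k, Th (Fin n) F A (Pi.single k (ee F)) = Pi.single k (ee F)) →
      (∀ k : Fin n, (k : ℕ) ≠ i → (k : ℕ) ≠ (i : ℕ) + 1 → Th (Fin n) F A (Pi.single k (ff F)) = Pi.single k (ff F)) →
      A ∈ M i := by
    intro i hi A h1 h2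
    rw [hM i hi]
    exact Subgroup.subset_closure ⟨fun k => (fix_e A k).2 (h1 k), fun k hk hk' => (fix_f A k).2 (h2 k hk hk')⟩
  have A : Am S M (fun j => tot (σ j)) (fun i => tot (μ i)) :=
    { hF := hF
      hS1 := hS1
      hS2 := by
        intro j x hx
        have : S j ≤ (cL j : _ →* symplecticGroup (Fin n) F).range := by
          rw [hS j, Subgroup.closure_le]
          intro A hA
          obtain ⟨g, hg⟩ := exists_cL (A := A) (j := j) (fun k hk => (fix_e A k).1 (hA k hk).1)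
            (fun k hk => (fix_f A k).1 (hA k hk).2)
          exact ⟨g, hg.symm⟩
        obtain ⟨g, hg⟩ := this hx
        exact ⟨g, hg.symm⟩
      hM1 := by
        intro i j hj c
        apply memM i (hj ▸ j.2) _ (fun k => Th_tv_e i k c)
        intro k hk _
        rw [Th_cL, sL_single (fun h => hk (by rw [h]))]
      hM2 := by
        intro i j hj c
        apply memM i (hj ▸ j.2) _ (fun k => Th_tv_e j k c)
        intro k _ hk
        rw [Th_cL, sL_single (fun h => hk (by rw [h, hj]))]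
      hM3 := by
        intro i j hj c
        have hij : i ≠ j := fun h' => by rw [h'] at hj; omega
        apply memM i (hj ▸ j.2) _ (fun k => Th_cT_e hij k c)
        intro k hk hk'
        exact Th_cT_f hij (fun h => hk (by rw [h])) (fun h => hk' (by rw [h, hj])) _ _ _
      hM4 := by
        intro i j hj
        have hij : i ≠ j := fun h' => by rw [h'] at hj; omega
        rw [hM i (hj ▸ j.2), Subgroup.closure_le]
        intro A hA
        apply Subgroup.subset_closure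
        exact exists_uni hij (fun k => (fix_e A k).1 (hA.1 k))
          (fun k hk hk' => (fix_f A k).1 (hA.2 k (fun h => hk (Fin.ext h)) (fun h => hk' (Fin.ext (h.trans hj.symm)))))
      hσ := fun j => tot_ph _
      hμ := fun i _ => tot_ph _
      hSS := by
        intro j l hjl
        obtain ⟨Ψ, h1, h2⟩ := hSS j l hjl
        refine ⟨tot Ψ, tot_ph _, fun g hg => ?_, fun g hg => ?_⟩
        · rw [tot_eq Ψ (Subgroup.mem_sup_left hg), h1 g hg, tot_eq _ hg]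
        · rw [tot_eq Ψ (Subgroup.mem_sup_right hg), h2 g hg, tot_eq _ hg]
      hMM := by
        intro j l hjl h h'
        obtain ⟨Ψ, h1, h2⟩ := hMM j l hjl h h'
        refine ⟨tot Ψ, tot_ph _, fun g hg => ?_, fun g hg => ?_⟩
        · rw [tot_eq Ψ (Subgroup.mem_sup_left hg), h1 g hg, tot_eq _ hg]
        · rw [tot_eq Ψ (Subgroup.mem_sup_right hg), h2 g hg, tot_eq _ hg]
      hMS := by
        intro j l h
        obtain ⟨Ψ, h1, h2⟩ := hMS j l h
        refine ⟨tot Ψ, tot_ph _, fun g hg => ?_, fun g hg => ?_⟩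
        · rw [tot_eq Ψ (Subgroup.mem_sup_left hg), h1 g hg, tot_eq _ hg]
        · rw [tot_eq Ψ (Subgroup.mem_sup_right hg), h2 g hg, tot_eq _ hg] }
  obtain ⟨Φ, h1, h2⟩ := A.core (by omega)
  have h1' : ∀ (j : Fin n) (g : ↥(Matrix.symplecticGroup (Fin n) F)) (hg : g ∈ S j), Φ g = σ j ⟨g, hg⟩ := by
    intro j g hg; rw [h1 j g hg, tot_eq _ hg]
  have h2' : ∀ (i : Fin n), (i : ℕ) + 1 < n → ∀ (g : ↥(Matrix.symplecticGroup (Fin n) F)) (hg : g ∈ M i),
      Φ g = μ i ⟨g, hg⟩ := by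
    intro j hj g hg; rw [h2 j hj g hg, tot_eq _ hg]
  refine ⟨Φ, ⟨h1', h2'⟩, ?_⟩
  rintro Φ' ⟨h3, h4⟩
  have htop : MonoidHom.eqLocus Φ' Φ = ⊤ := by
    apply chain_top
    · intro i g
      change Φ' _ = Φ _
      rw [h3 i _ (hS1 i g), h1' i _ (hS1 i g)]
    · intro i j hj
      change Φ' _ = Φ _
      have hm := A.hMe hj
      rw [h4 i (hj ▸ j.2) _ hm, h2' i (hj ▸ j.2) _ hm]
  ext g
  have : g ∈ MonoidHom.eqLocus Φ' Φ := by rw [htop]; trivial
  exact this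

end H6.Slim
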