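import Cfsg.Agent.Lib.H6.SpPresE

/-!
`Sp_2n(q)` is generated by two elements.
-/

set_option autoImplicit false

namespace H6.SpGen2

open H6.SpSys H6.SpPres Matrix Equiv

variable {F : Type*} [Field F] {m : ℕ}

section basic

lemma cTc0 (g : SpecialLinearGroup (Fin 2) F) (v w : Fin 2 → F) :
    cL (0 : Fin (m + 2)) g * cT 0 1 v w = cT 0 1 (g.1 *ᵥ v) w * cL 0 g :=
  (conc (Fin (m + 2)) F).conj (zo m) g v w

lemma cTc1 (g : SpecialLinearGroup (Fin 2) F) (v w : Fin 2 → F) :
    cL (1 : Fin (m + 2)) g * cT 0 1 v w = cT 0 1 v (g.1 *ᵥ w) * cL 1 g :=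
  (conc (Fin (m + 2)) F).conj' (zo m) g v w

lemma cTm (v w w' : Fin 2 → F) :
    cT (0 : Fin (m + 2)) 1 v w * cT 0 1 v w' = cT 0 1 v (w + w') * cL 0 (tv v (om w' w)) :=
  (conc (Fin (m + 2)) F).mul (zo m) v w w'

lemma cTm' (v v' w : Fin 2 → F) :
    cT (0 : Fin (m + 2)) 1 v w * cT 0 1 v' w = cT 0 1 (v + v') w * cL 1 (tv w (om v' v)) :=
  (conc (Fin (m + 2)) F).mul' (zo m) v v' w

lemma cTn (v w : Fin 2 → F) : cT (0 : Fin (m + 2)) 1 v (-w) = (cT 0 1 v w)⁻¹ :=
  (conc (Fin (m + 2)) F).T_neg (zo m) v w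

lemma cTn' (v w : Fin 2 → F) : cT (0 : Fin (m + 2)) 1 (-v) w = (cT 0 1 v w)⁻¹ :=
  (conc (Fin (m + 2)) F).T_neg' (zo m) v w

lemma cTz (v : Fin 2 → F) : cT (0 : Fin (m + 2)) 1 v 0 = 1 := (conc (Fin (m + 2)) F).T_zero (zo m) v
lemma cTz' (v : Fin 2 → F) : cT (0 : Fin (m + 2)) 1 0 v = 1 := (conc (Fin (m + 2)) F).T_zero' (zo m) v

lemma cTs (c : F) (v w : Fin 2 → F) : cT (0 : Fin (m + 2)) 1 (c • v) w = cT 0 1 v (c • w) :=
  (conc (Fin (m + 2)) F).smul (zo m) c v w

lemma cT3 {k : Fin (m + 2)} (h0 : k ≠ 0) (h1 : k ≠ 1) (g : SpecialLinearGroup (Fin 2) F) (v w : Fin 2 → F) :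
    cL k g * cT 0 1 v w = cT 0 1 v w * cL k g :=
  (conc (Fin (m + 2)) F).comm3 (zo m) h0 h1 g v w

lemma cLc {i j : Fin (m + 2)} (h : i ≠ j) (g g' : SpecialLinearGroup (Fin 2) F) :
    cL i g * cL j g' = cL j g' * cL i g := (conc (Fin (m + 2)) F).comm h g g'

end basic

variable (D : Subgroup (symplecticGroup (Fin (m + 2)) F))

lemma conj_mem {G : Type*} [Group G] {D : Subgroup G} {x a b : G} (hx : x ∈ D) (ha : a ∈ D) (h : x * a = b * x) :
    b ∈ D := by
  rw [Hyp.conj_eq h]; exact mul_mem (mul_mem hx ha) (inv_mem hx)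

lemma conj_mem' {G : Type*} [Group G] {D : Subgroup G} {x a b : G} (hx : x ∈ D) (hb : b ∈ D) (h : x * a = b * x) :
    a ∈ D := by
  have : a = x⁻¹ * b * x := by rw [mul_assoc, ← h, inv_mul_cancel_left]
  rw [this]; exact mul_mem (mul_mem (inv_mem hx) hb) hx

variable {D}

/-- moving indices -/
lemma rot (hC : cA (finRotate (m + 2)) ∈ D) {j : Fin (m + 2)} {g : SpecialLinearGroup (Fin 2) F} (h : cL j g ∈ D)
    (k : Fin (m + 2)) : cL k g ∈ D := by
  have hcyc : (finRotate (m + 2)).IsCycle := _root_.isCycle_finRotate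
  have hs : ∀ x : Fin (m + 2), finRotate (m + 2) x ≠ x := by
    intro x
    rw [← Equiv.Perm.mem_support, _root_.support_finRotate]
    exact Finset.mem_univ x
  obtain ⟨i, hi⟩ := hcyc.exists_zpow_eq (hs j) (hs k)
  have h1 : cA (finRotate (m + 2) ^ i) ∈ D := by rw [map_zpow]; exact zpow_mem hC i
  have h2 := cA_cL (F := F) (finRotate (m + 2) ^ i) j g
  rw [hi] at h2
  exact conj_mem h1 h h2

/-- end of the argument -/
theorem top_of (hC : cA (finRotate (m + 2)) ∈ D) (hT : cT 0 1 (ee F) (ee F) ∈ D)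
    {j : Fin (m + 2)} (h1 : ∀ c, cL j (tv (ee F) c) ∈ D) (h2 : ∀ c, cL j (tv (ff F) c) ∈ D) : D = ⊤ := by
  have h3 : ∀ k g, cL k g ∈ D := by
    intro k g
    apply rot hC (j := j)
    have : D.comap (cL j) = ⊤ := sl2_top (fun c => h1 c) (fun c => h2 c)
    have h4 : g ∈ D.comap (cL j) := by rw [this]; trivial
    exact h4
  have h4 : ∀ v w, v ≠ 0 → w ≠ 0 → cT 0 1 v w ∈ D := by
    intro v w hv hw
    obtain ⟨g, hg⟩ := exists_act hv
    obtain ⟨g', hg'⟩ := exists_act hw
    have e1 := (conc (Fin (m + 2)) F).conj_both (zo m) g g' (ee F) (ee F)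
    change cL 0 g * cL 1 g' * cT 0 1 (ee F) (ee F) = cT 0 1 (g.1 *ᵥ ee F) (g'.1 *ᵥ ee F) * (cL 0 g * cL 1 g') at e1
    rw [hg, hg'] at e1
    exact conj_mem (mul_mem (h3 _ _) (h3 _ _)) hT e1
  have h5 : cA (swap 0 1) ∈ D := by
    rw [Hyp.cA_swap (zo m)]
    have ha := h4 (ee F) (ff F) ee_ne ff_ne
    exact mul_mem (h3 _ _) (mul_mem (mul_mem ha (h4 _ _ (neg_ne_zero.2 ff_ne) ee_ne)) ha)
  have h6 : ∀ π, cA π ∈ D := by
    have h7 : Subgroup.closure ({finRotate (m + 2), swap 0 (finRotate (m + 2) 0)} : Set (Perm (Fin (m + 2)))) = ⊤ :=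
      Equiv.Perm.closure_cycle_adjacent_swap _root_.isCycle_finRotate _root_.support_finRotate 0
    have h8 : (⊤ : Subgroup (Perm (Fin (m + 2)))) ≤ D.comap cA := by
      rw [← h7, Subgroup.closure_le]
      rintro x (rfl | hx)
      · exact hC
      · rw [Set.mem_singleton_iff] at hx
        have h9 : (finRotate (m + 2)) 0 = 1 := by simp
        rw [h9] at hx
        rw [hx]; exact h5
    intro π
    exact h8 (Subgroup.mem_top π)
  exact gen_top D h6 (h3 0) hT

/-- first case: `q ≥ 3` -/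
theorem two_gen_big [Finite F] {ζ : Fˣ} (hζ : ∀ x : Fˣ, x ∈ Subgroup.zpowers ζ) (hζ1 : (ζ : F) ≠ 1)
    (h0 : cL (0 : Fin (m + 2)) (hd ζ) ∈ D) (h1 : cL (1 : Fin (m + 2)) (tv (ff F) 1) ∈ D)
    (hb : cA (finRotate (m + 2)) * cT 0 1 (ee F) (ee F) ∈ D) : D = ⊤ := by
  set C := finRotate (m + 2) with hC
  have hC1 : ∀ k : Fin (m + 2), C k = k + 1 := fun k => by rw [hC]; simp
  have hCl : C (Fin.last (m + 1)) = 0 := by rw [hC1]; simp
  set b := cA C * cT 0 1 (ee F) (ee F) with hbd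
  have hact : (hd ζ : SpecialLinearGroup (Fin 2) F).1 *ᵥ ee F = (ζ : F) • ee F := hd_ee ζ
  -- step 3
  have key : ∀ k : Fin (m + 2), cL (C k) (hd ζ) ∈ D → (cT 0 1 (ee F) (ee F))⁻¹ * cL k (hd ζ) * cT 0 1 (ee F) (ee F) ∈ D := by
    intro k hk
    have e1 : b * ((cT 0 1 (ee F) (ee F))⁻¹ * cL k (hd ζ) * cT 0 1 (ee F) (ee F)) = cL (C k) (hd ζ) * b := by
      rw [hbd]
      calc _ = cA C * cL k (hd ζ) * cT 0 1 (ee F) (ee F) := by group
        _ = _ := by rw [cA_cL]; group
    exact conj_mem' hb hk e1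
  have key2 : ∀ k : Fin (m + 2), k ≠ 0 → k ≠ 1 → cL (C k) (hd ζ) ∈ D → cL k (hd ζ) ∈ D := by
    intro k hk0 hk1 hk
    have := key k hk
    rwa [mul_assoc, cT3 hk0 hk1, inv_mul_cancel_left] at this
  have hdown : ∀ j : ℕ, j ≤ m → cL (C ⟨m + 1 - j, by omega⟩) (hd ζ) ∈ D := by
    intro j
    induction j with
    | zero =>
      intro _
      have : (⟨m + 1 - 0, by omega⟩ : Fin (m + 2)) = Fin.last (m + 1) := by ext; simp
      rw [this, hCl]; exact h0
    | succ j ih =>
      intro hj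
      have h2 := ih (by omega)
      have h3 : C ⟨m + 1 - (j + 1), by omega⟩ = (⟨m + 1 - j, by omega⟩ : Fin (m + 2)) := by
        rw [hC1]
        ext
        rw [Fin.val_add_one_of_lt]
        · simp only; omega
        · rw [Fin.lt_def]; simp only [Fin.val_last]; omega
      rw [h3]
      apply key2 _ _ _ h2
      · intro h; have := congrArg Fin.val h; simp at this; omega
      · intro h; have := congrArg Fin.val h; simp at this; omega
  have hY0 := key 1 (by
    have := hdown m le_rfl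
    have h3 : (⟨m + 1 - m, by omega⟩ : Fin (m + 2)) = 1 := by ext; simp
    rwa [h3] at this)
  -- step 4
  have hY : cT 0 1 (ee F) (((ζ : F) - 1) • ee F) * cL 1 (hd ζ) ∈ D := by
    have e1 : (cT (0 : Fin (m + 2)) 1 (ee F) (ee F))⁻¹ * cL 1 (hd ζ) * cT 0 1 (ee F) (ee F) =
        cT 0 1 (ee F) (((ζ : F) - 1) • ee F) * cL 1 (hd ζ) := by
      rw [mul_assoc, cTc1, hact, ← mul_assoc, ← cTn, cTm, om_smul_left, om_neg_right, om_self, neg_zero, mul_zero,
        tv_zero, map_one, mul_one, sub_smul, one_smul]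
      congr 2
      rw [neg_add_eq_sub]
    rw [← e1]; exact hY0
  have hTc0 : cT 0 1 (ee F) ((((ζ : F) - 1) * ((ζ : F) - 1)) • ee F) ∈ D := by
    have e1 : cL (0 : Fin (m + 2)) (hd ζ) * (cT 0 1 (ee F) (((ζ : F) - 1) • ee F) * cL 1 (hd ζ)) =
        (cT 0 1 (ee F) ((ζ * ((ζ : F) - 1)) • ee F) * cL 1 (hd ζ)) * cL 0 (hd ζ) := by
      rw [← mul_assoc, cTc0, hact, cTs, smul_smul, mul_assoc, cLc (zo m), mul_assoc]
    have e2 := conj_mem h0 hY e1
    have e3 := mul_mem e2 (inv_mem hY)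
    rw [_root_.mul_inv_rev, mul_assoc, mul_inv_cancel_left, ← cTn, cTm, om_neg_left, om_smul_left, om_smul_right, om_self,
      mul_zero, mul_zero, neg_zero, tv_zero, map_one, mul_one, ← neg_smul, ← add_smul] at e3
    have e4 : (ζ : F) * (ζ - 1) + -((ζ : F) - 1) = ((ζ : F) - 1) * ((ζ : F) - 1) := by ring
    rwa [e4] at e3
  -- step 5
  have hscal : ∀ (c : F) (a : Fˣ), cL (0 : Fin (m + 2)) (hd a) * cT 0 1 (ee F) (c • ee F) =
      cT 0 1 (ee F) ((a * c) • ee F) * cL 0 (hd a) := by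
    intro c a
    rw [cTc0, hd_ee, cTs, smul_smul]
  have hh : ∀ a : Fˣ, cL (0 : Fin (m + 2)) (hd a) ∈ D := by
    intro a
    obtain ⟨k, hk⟩ := Subgroup.mem_zpowers_iff.1 (hζ a)
    rw [← hk, hd_zpow, map_zpow]
    exact zpow_mem h0 k
  have hTc : ∀ c : F, cT 0 1 (ee F) (c • ee F) ∈ D := by
    intro c
    by_cases hc : c = 0
    · rw [hc, zero_smul, cTz]; exact one_mem _
    · have hc0 : ((ζ : F) - 1) * ((ζ : F) - 1) ≠ 0 := mul_ne_zero (sub_ne_zero.2 hζ1) (sub_ne_zero.2 hζ1)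
      have e1 := hscal (((ζ : F) - 1) * ((ζ : F) - 1)) (Units.mk0 (c / (((ζ : F) - 1) * ((ζ : F) - 1))) (div_ne_zero hc hc0))
      rw [Units.val_mk0, div_mul_cancel₀ _ hc0] at e1
      exact conj_mem (hh _) hTc0 e1
  have hT : cT 0 1 (ee F) (ee F) ∈ D := by have := hTc 1; rwa [one_smul] at this
  have hCD : cA C ∈ D := by
    have := mul_mem hb (inv_mem hT)
    rwa [hbd, mul_inv_cancel_right] at this
  -- step 7
  have h0u : cL (0 : Fin (m + 2)) (tv (ff F) 1) ∈ D := rot hCD h1 0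
  have hff : ∀ c : F, cL (0 : Fin (m + 2)) (tv (ff F) c) ∈ D := by
    apply squares_span
    · intro a b ha hb; rw [tv_add, map_mul]; exact mul_mem ha hb
    · intro a ha; rw [tv_neg, map_inv]; exact inv_mem ha
    · intro a ha
      have e1 : cL (0 : Fin (m + 2)) (hd (Units.mk0 a ha)⁻¹) * cL 0 (tv (ff F) 1) =
          cL 0 (tv (ff F) (a * a)) * cL 0 (hd (Units.mk0 a ha)⁻¹) := by
        rw [← map_mul, tv_conj, hd_ff, inv_inv, Units.val_mk0, tv_smul, one_mul, sq, map_mul]
      exact conj_mem (hh _) h0u e1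
    · rw [tv_zero, map_one]; exact one_mem _
  -- step 8
  have hZ : ∀ c : F, cT 0 1 (c • ff F) (ee F) * cL 1 (tv (ee F) (-c)) ∈ D := by
    intro c
    have e1 : cL (0 : Fin (m + 2)) (tv (ff F) c) * cT 0 1 (ee F) (ee F) =
        cT 0 1 (ee F + c • ff F) (ee F) * cL 0 (tv (ff F) c) := by
      rw [cTc0, tv_act, om_ee_ff, mul_one]
    have e2 := mul_mem (conj_mem (hff c) hT e1) (inv_mem hT)
    rw [← cTn', cTm', om_neg_left, om_add_right, om_self, zero_add, om_smul_right, om_ee_ff, mul_one] at e2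
    have e3 : ee F + c • ff F + -(ee F) = c • ff F := by abel
    rwa [e3] at e2
  have hfe : ∀ c : F, cT 0 1 (c • ff F) (ee F) ∈ D := by
    intro c
    have hne : (1 : F) - ((ζ⁻¹ : Fˣ) : F) ≠ 0 := by
      intro h
      have h2 : ((ζ⁻¹ : Fˣ) : F) = 1 := (sub_eq_zero.1 h).symm
      have h3 : (ζ⁻¹ : Fˣ) = 1 := Units.ext h2
      rw [inv_eq_one] at h3
      rw [h3] at hζ1; exact hζ1 rfl
    set d := c / ((1 : F) - ((ζ⁻¹ : Fˣ) : F)) with hd'
    have e1 : cL (0 : Fin (m + 2)) (hd ζ) * (cT 0 1 (d • ff F) (ee F) * cL 1 (tv (ee F) (-d))) =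
        (cT 0 1 ((d * ((ζ⁻¹ : Fˣ) : F)) • ff F) (ee F) * cL 1 (tv (ee F) (-d))) * cL 0 (hd ζ) := by
      rw [← mul_assoc, cTc0, Matrix.mulVec_smul, hd_ff, smul_smul, mul_assoc, cLc (zo m), mul_assoc]
    have e2 := mul_mem (hZ d) (inv_mem (conj_mem h0 (hZ d) e1))
    rw [_root_.mul_inv_rev, mul_assoc, mul_inv_cancel_left, ← cTn', cTm', om_neg_left, om_smul_left, om_smul_right, om_self,
      mul_zero, mul_zero, neg_zero, tv_zero, map_one, mul_one, ← neg_smul, ← add_smul] at e2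
    have e3 : d + -(d * ((ζ⁻¹ : Fˣ) : F)) = c := by
      rw [hd']; field_simp; ring
    rwa [e3] at e2
  have hee : ∀ c : F, cL (1 : Fin (m + 2)) (tv (ee F) c) ∈ D := by
    intro c
    have e1 := mul_mem (inv_mem (hfe (-c))) (hZ (-c))
    rwa [inv_mul_cancel_left, neg_neg] at e1
  exact top_of hCD hT hee (fun c => rot hCD (hff c) 1)

lemma tv_pow (v : Fin 2 → F) (c : F) (n : ℕ) : tv v c ^ n = tv v (n * c) := by
  induction n with
  | zero => rw [pow_zero, Nat.cast_zero, zero_mul, tv_zero]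
  | succ n ih => rw [pow_succ, ih, ← tv_add]; congr 1; push_cast; ring

/-- second case: `q = 2`, `n ≥ 3` -/
theorem two_gen_two (h01 : ∀ c : F, c = 0 ∨ c = 1) (hC : cA (finRotate (m + 2)) ∈ D)
    (hT : cT 0 1 (ee F) (ee F) ∈ D) {k : Fin (m + 2)} (hs : cL k (tv (ee F) 1 * tv (ff F) 1) ∈ D) : D = ⊤ := by
  have h2 : (-1 : F) = 1 := by
    rcases h01 (-1) with h | h
    · exact absurd h (neg_ne_zero.2 one_ne_zero)
    · exact h
  set s : SpecialLinearGroup (Fin 2) F := tv (ee F) 1 * tv (ff F) 1 with hsd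
  have hse : s.1 *ᵥ ee F = ff F := by
    rw [hsd, mul_act, tv_act (ff F), om_ee_ff, mul_one, one_smul, tv_act, om_add_left, om_self, zero_add, om_ff_ee,
      one_mul, neg_smul, one_smul]
    abel
  have hsf : s.1 *ᵥ ff F = ee F + ff F := by
    rw [hsd, mul_act, tv_act (ff F), om_self, mul_zero, zero_smul, add_zero, tv_act, om_ff_ee, one_mul, h2, one_smul,
      add_comm]
  have h0 : ∀ j, cL j s ∈ D := rot hC hs
  have t1 : cT 0 1 (ee F) (ff F) ∈ D := by
    have := cTc1 (m := m) s (ee F) (ee F)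
    rw [hse] at this
    exact conj_mem (h0 1) hT this
  have t2 : cT 0 1 (ee F) (ee F + ff F) ∈ D := by
    have := cTc1 (m := m) s (ee F) (ff F)
    rw [hsf] at this
    exact conj_mem (h0 1) t1 this
  have t3 : cL (0 : Fin (m + 2)) (tv (ee F) 1) ∈ D := by
    have := cTm (m := m) (ee F) (ee F) (ff F)
    rw [om_ff_ee, h2] at this
    have e1 := mul_mem (inv_mem t2) (mul_mem hT t1)
    rwa [this, inv_mul_cancel_left] at e1
  have t4 : cL (0 : Fin (m + 2)) (tv (ff F) 1) ∈ D := by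
    have e1 : cL (0 : Fin (m + 2)) s * cL 0 (tv (ee F) 1) = cL 0 (tv (ff F) 1) * cL 0 s := by
      rw [← map_mul, tv_conj, hse, map_mul]
    exact conj_mem (h0 0) t3 e1
  have z : ∀ v : Fin 2 → F, cL (0 : Fin (m + 2)) (tv v 0) ∈ D := by
    intro v; rw [tv_zero, map_one]; exact one_mem _
  refine top_of hC hT (j := 0) (fun c => ?_) (fun c => ?_)
  · rcases h01 c with rfl | rfl
    · exact z _
    · exact t3
  · rcases h01 c with rfl | rfl
    · exact z _
    · exact t4

/-- `Sp_2n(q)` is generated by two elements, `(n,q) ≠ (2,2)` -/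
theorem exists_two [Fintype F] (m : ℕ) (hF : m = 0 → 2 < Fintype.card F) :
    ∃ a b : symplecticGroup (Fin (m + 2)) F, Subgroup.closure {a, b} = ⊤ := by
  classical
  by_cases hq : 2 < Fintype.card F
  · obtain ⟨ζ, hζ⟩ := exists_zeta (F := F)
    have hζ1 : (ζ : F) ≠ 1 := by
      intro h
      have h1 : ζ = 1 := Units.ext h
      have h2 : Fintype.card Fˣ ≤ 1 := by
        rw [Fintype.card_le_one_iff]
        intro a b
        have ha := hζ a
        have hb := hζ b
        rw [h1, Subgroup.zpowers_one_eq_bot, Subgroup.mem_bot] at ha hb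
        rw [ha, hb]
      rw [Fintype.card_units] at h2
      omega
    set x := cL (0 : Fin (m + 2)) (hd ζ) with hx
    set y := cL (1 : Fin (m + 2)) (tv (ff F) 1) with hy
    set b := cA (finRotate (m + 2)) * cT 0 1 (ee F) (ee F) with hb
    refine ⟨x * y, b, ?_⟩
    set D := Subgroup.closure {x * y, b} with hD
    have ha : x * y ∈ D := Subgroup.subset_closure (Set.mem_insert _ _)
    have hbD : b ∈ D := Subgroup.subset_closure (Set.mem_insert_of_mem _ (Set.mem_singleton _))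
    have hc : Commute x y := cLc (zo m) _ _
    have hxq : x ^ Fintype.card F = x := by
      have h1 : ζ ^ Fintype.card F = ζ := by
        apply Units.ext
        rw [Units.val_pow_eq_pow_val, FiniteField.pow_card]
      have h2 : (hd ζ : SpecialLinearGroup (Fin 2) F) ^ Fintype.card F = hd (ζ ^ Fintype.card F) := by
        have := hd_zpow ζ (Fintype.card F : ℤ)
        rw [zpow_natCast, _root_.zpow_natCast] at this
        exact this.symm
      rw [hx, ← map_pow, h2, h1]
    have hyq : y ^ Fintype.card F = 1 := by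
      rw [hy, ← map_pow, tv_pow, FiniteField.cast_card_eq_zero, zero_mul, tv_zero, map_one]
    have hxD : x ∈ D := by
      have := pow_mem ha (Fintype.card F)
      rwa [hc.mul_pow, hxq, hyq, mul_one] at this
    have hyD : y ∈ D := by
      have := mul_mem (inv_mem hxD) ha
      rwa [inv_mul_cancel_left] at this
    exact two_gen_big hζ hζ1 hxD hyD hbD
  · have hc2 : Fintype.card F = 2 := by
      have := Fintype.one_lt_card (α := F)
      omega
    have hm : 1 ≤ m := by
      rcases Nat.eq_zero_or_pos m with h | h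
      · exact absurd (hF h) hq
      · exact h
    have h01 : ∀ c : F, c = 0 ∨ c = 1 := by
      intro c
      by_contra h
      push Not at h
      have : ({0, 1, c} : Finset F).card = 3 := by
        rw [Finset.card_insert_of_notMem, Finset.card_insert_of_notMem, Finset.card_singleton]
        · rw [Finset.mem_singleton]; exact h.2.symm
        · rw [Finset.mem_insert, Finset.mem_singleton]
          rintro (h1 | h1)
          · exact zero_ne_one h1
          · exact h.1 h1.symm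
      have h2 := Finset.card_le_univ ({0, 1, c} : Finset F)
      omega
    have h2 : (1 : F) + 1 = 0 := by
      rcases h01 (1 + 1) with h | h
      · exact h
      · exact absurd (add_eq_left.1 h) one_ne_zero
    have h2' : (-1 : F) = 1 := by linear_combination -h2
    let k : Fin (m + 2) := ⟨2, by omega⟩
    have hk0 : k ≠ 0 := fun h => by have := congrArg Fin.val h; simp [k] at this
    have hk1 : k ≠ 1 := fun h => by have := congrArg Fin.val h; simp [k] at this
    set s : SpecialLinearGroup (Fin 2) F := tv (ee F) 1 * tv (ff F) 1 with hsd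
    have hse : s.1 *ᵥ ee F = ff F := by
      rw [hsd, mul_act, tv_act (ff F), om_ee_ff, mul_one, one_smul, tv_act, om_add_left, om_self, zero_add, om_ff_ee,
        one_mul, neg_smul, one_smul]
      abel
    have hsf : s.1 *ᵥ ff F = ee F + ff F := by
      rw [hsd, mul_act, tv_act (ff F), om_self, mul_zero, zero_smul, add_zero, tv_act, om_ff_ee, one_mul, h2', one_smul,
        add_comm]
    have hv2 : ∀ v : Fin 2 → F, v + v = 0 := by
      intro v; rw [← two_smul F, show (2 : F) = 1 + 1 by norm_num, h2, zero_smul]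
    have hs3 : s ^ 3 = 1 := by
      apply ext_act
      · rw [pow_succ, sq, mul_act, mul_act, hse, hsf, Matrix.mulVec_add, hse, hsf, one_act]
        rw [← add_assoc, add_comm (ff F), add_assoc, hv2, add_zero]
      · rw [pow_succ, sq, mul_act, mul_act, hsf, Matrix.mulVec_add, Matrix.mulVec_add, hse, hsf, Matrix.mulVec_add,
          hse, hsf, one_act]
        rw [add_left_comm, hv2, add_zero]
    set x := cT (0 : Fin (m + 2)) 1 (ee F) (ee F) with hx
    have hx2 : x ^ 2 = 1 := by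
      rw [sq, hx, cTm, om_self, tv_zero, map_one, mul_one, hv2, cTz]
    refine ⟨x * cL k s, cA (finRotate (m + 2)), ?_⟩
    set D := Subgroup.closure {x * cL k s, cA (finRotate (m + 2))} with hD
    have ha : x * cL k s ∈ D := Subgroup.subset_closure (Set.mem_insert _ _)
    have hbD : cA (finRotate (m + 2)) ∈ D := Subgroup.subset_closure (Set.mem_insert_of_mem _ (Set.mem_singleton _))
    have hc : Commute x (cL k s) := (cT3 hk0 hk1 s (ee F) (ee F)).symm
    have hxD : x ∈ D := by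
      have := pow_mem ha 3
      rwa [hc.mul_pow, ← map_pow, hs3, map_one, mul_one, pow_succ, hx2, one_mul] at this
    have hsD : cL k s ∈ D := by
      have := mul_mem (inv_mem hxD) ha
      rwa [inv_mul_cancel_left] at this
    exact two_gen_two h01 hbD hxD hsD

end H6.SpGen2

namespace H6.SpGen2

open H43.Tietze

/-- `PSp_2n(q)` is generated by two elements, `(n,q) ≠ (2,2)` -/
theorem exists_two_psp {F : Type*} [Field F] [Fintype F] (n : ℕ) (hn : 2 ≤ n) (hF : n = 2 → 2 < Fintype.card F) :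
    ∃ a b : Cfsg.PSp n F, Subgroup.closure ({a, b} : Set (Cfsg.PSp n F)) = ⊤ := by
  obtain ⟨m, rfl⟩ : ∃ m, n = m + 2 := ⟨n - 2, by omega⟩
  obtain ⟨a, b, h⟩ := exists_two (F := F) m (fun h => hF (by omega))
  refine ⟨QuotientGroup.mk' _ a, QuotientGroup.mk' _ b, ?_⟩
  have h1 : ({QuotientGroup.mk' _ a, QuotientGroup.mk' _ b} : Set (Cfsg.PSp (m + 2) F)) =
      (QuotientGroup.mk' (Subgroup.center (Matrix.symplecticGroup (Fin (m + 2)) F))) '' {a, b} := by
    rw [Set.image_insert_eq, Set.image_singleton]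
  rw [h1, ← MonoidHom.map_closure, h, ← MonoidHom.range_eq_map, MonoidHom.range_eq_top]
  exact QuotientGroup.mk'_surjective _

/-- two generators, few relations -/
theorem psp_two {F : Type*} [Field F] [Fintype F] (n : ℕ) (hn : 2 ≤ n) (hF : n = 2 → 2 < Fintype.card F) :
    HasPres (Cfsg.PSp n F) 2 50 := by
  obtain ⟨a, b, h⟩ := exists_two_psp (F := F) n hn hF
  have h1 : Subgroup.closure (Set.range ![a, b]) = ⊤ := by
    rw [Matrix.range_cons, Matrix.range_cons, Matrix.range_empty, Set.union_empty]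
    exact h
  have h2 : HasPres (Cfsg.PSp n F) 6 48 := by
    have : NeZero n := ⟨by omega⟩
    obtain ⟨m, rfl⟩ : ∃ m, n = m + 2 := ⟨n - 2, by omega⟩
    rcases Nat.eq_zero_or_pos m with rfl | hm
    · exact (H6.SpPres.psp_of_sp H6.SpPres.sp_two).mono (by norm_num)
    · exact H6.SpPres.psp_of_sp (H6.SpPres.sp_more m hm)
  exact h2.change ![a, b] h1

end H6.SpGen2
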