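import Cfsg.Agent.Lib.H6.SpSysG
import Cfsg.Agent.Lib.H43.PresTools

/-!
Presentations of `Sp_2n(F)`: free products of presentations and the assembly theorem.
-/

set_option autoImplicit false

namespace H6.SpPres

open H43.Tietze Monoid

/-- presentation of a free product -/
theorem pres_coprod {ι κ : Type*} {A B : Type*} [Group A] [Group B] {a : ι → A} {Ra : Set (FreeGroup ι)}
    (ha : Pres a Ra) {b : κ → B} {Rb : Set (FreeGroup κ)} (hb : Pres b Rb) :
    Pres (Sum.elim (fun i => (Coprod.inl (a i) : Coprod A B)) (fun k => Coprod.inr (b k)))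
      (FreeGroup.map Sum.inl '' Ra ∪ FreeGroup.map Sum.inr '' Rb) := by
  set S : Set (FreeGroup (ι ⊕ κ)) := FreeGroup.map Sum.inl '' Ra ∪ FreeGroup.map Sum.inr '' Rb with hS
  obtain ⟨f, hf⟩ := ha.lift_hom (G := PresentedGroup S) (fun i => PresentedGroup.of (Sum.inl i)) (by
    intro s hs
    have h1 : FreeGroup.lift (fun i => (PresentedGroup.of (Sum.inl i) : PresentedGroup S)) s =
        PresentedGroup.mk S (FreeGroup.map Sum.inl s) := by
      have : FreeGroup.lift (fun i => (PresentedGroup.of (Sum.inl i) : PresentedGroup S)) =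
          (PresentedGroup.mk S).comp (FreeGroup.map Sum.inl) := by
        apply FreeGroup.ext_hom
        intro i
        rw [FreeGroup.lift_apply_of, MonoidHom.comp_apply, FreeGroup.map.of]; rfl
      rw [this]; rfl
    rw [h1]
    exact PresentedGroup.one_of_mem (Or.inl ⟨s, hs, rfl⟩))
  obtain ⟨f', hf'⟩ := hb.lift_hom (G := PresentedGroup S) (fun i => PresentedGroup.of (Sum.inr i)) (by
    intro s hs
    have h1 : FreeGroup.lift (fun i => (PresentedGroup.of (Sum.inr i) : PresentedGroup S)) s =
        PresentedGroup.mk S (FreeGroup.map Sum.inr s) := by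
      have : FreeGroup.lift (fun i => (PresentedGroup.of (Sum.inr i) : PresentedGroup S)) =
          (PresentedGroup.mk S).comp (FreeGroup.map Sum.inr) := by
        apply FreeGroup.ext_hom
        intro i
        rw [FreeGroup.lift_apply_of, MonoidHom.comp_apply, FreeGroup.map.of]; rfl
      rw [this]; rfl
    rw [h1]
    exact PresentedGroup.one_of_mem (Or.inr ⟨s, hs, rfl⟩))
  apply pres_of_hom _ _ (Coprod.lift f f')
  · rintro (i | k)
    · exact (Coprod.lift_apply_inl _ _ _).trans (hf i)
    · exact (Coprod.lift_apply_inr _ _ _).trans (hf' k)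
  · set C := Subgroup.closure (Set.range (Sum.elim (fun i => (Coprod.inl (a i) : Coprod A B))
      (fun k => Coprod.inr (b k)))) with hC
    have h1 : ∀ x : A, (Coprod.inl x : Coprod A B) ∈ C := by
      intro x
      have : (⊤ : Subgroup A) ≤ C.comap (Coprod.inl : A →* Coprod A B) := by
        rw [← ha.gen, Subgroup.closure_le]
        rintro _ ⟨i, rfl⟩
        exact Subgroup.subset_closure ⟨Sum.inl i, rfl⟩
      exact this (Subgroup.mem_top x)
    have h2 : ∀ x : B, (Coprod.inr x : Coprod A B) ∈ C := by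
      intro x
      have : (⊤ : Subgroup B) ≤ C.comap (Coprod.inr : B →* Coprod A B) := by
        rw [← hb.gen, Subgroup.closure_le]
        rintro _ ⟨i, rfl⟩
        exact Subgroup.subset_closure ⟨Sum.inr i, rfl⟩
      exact this (Subgroup.mem_top x)
    rw [eq_top_iff]
    rintro x -
    induction x using Coprod.induction_on with
    | inl a => exact h1 a
    | inr a => exact h2 a
    | mul x y hx hy => exact mul_mem hx hy
  · rintro s (⟨s, hs, rfl⟩ | ⟨s, hs, rfl⟩)
    · have : (FreeGroup.lift (Sum.elim (fun i => (Coprod.inl (a i) : Coprod A B)) (fun k => Coprod.inr (b k)))).comp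
          (FreeGroup.map Sum.inl) = (Coprod.inl : A →* Coprod A B).comp (FreeGroup.lift a) := by
        apply FreeGroup.ext_hom
        intro i
        simp
      have h2 := DFunLike.congr_fun this s
      rw [MonoidHom.comp_apply, MonoidHom.comp_apply] at h2
      rw [h2, ha.rel s hs, map_one]
    · have : (FreeGroup.lift (Sum.elim (fun i => (Coprod.inl (a i) : Coprod A B)) (fun k => Coprod.inr (b k)))).comp
          (FreeGroup.map Sum.inr) = (Coprod.inr : B →* Coprod A B).comp (FreeGroup.lift b) := by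
        apply FreeGroup.ext_hom
        intro i
        simp
      have h2 := DFunLike.congr_fun this s
      rw [MonoidHom.comp_apply, MonoidHom.comp_apply] at h2
      rw [h2, hb.rel s hs, map_one]

open H6.SpSys Matrix Equiv

variable {F : Type*} [Field F] {m : ℕ}

/-- the relation giving the permutation `(0 1)` -/
def RE {Γ : Type*} [Group Γ] (α : Perm (Fin (m + 2)) → Γ) (β : SpecialLinearGroup (Fin 2) F → Γ) (y : Γ) : Prop :=
  ∃ g g' : SpecialLinearGroup (Fin 2) F, g.1 *ᵥ ee F = ff F ∧ g'.1 *ᵥ ee F = - ff F ∧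
    α (swap 0 1) = lm α β 1 (-1) * (TT α β y 1 1 g * TT α β y 1 g' 1 * TT α β y 1 1 g)

/-- relations of `cA`, `cL`, `cT` -/
lemma cA_cL (π : Perm (Fin (m + 2))) (k : Fin (m + 2)) (g : SpecialLinearGroup (Fin 2) F) :
    cA π * cL k g = cL (π k) g * cA π := by
  have hpi : ∀ x, π⁻¹ (π x) = x := fun x => by rw [← Perm.mul_apply, inv_mul_cancel, Perm.one_apply]
  have hpi' : ∀ x, π (π⁻¹ x) = x := fun x => by rw [← Perm.mul_apply, mul_inv_cancel, Perm.one_apply]
  apply Th_inj
  rw [map_mul, map_mul, Th_cA, Th_cL, Th_cL]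
  apply LinearMap.ext; intro x; ext l : 1
  rw [Module.End.mul_apply, Module.End.mul_apply, sA_apply]
  by_cases hl : l = π k
  · subst hl
    rw [hpi, sL_i, sL_i, sA_apply, hpi]
  · rw [sL_ne (fun h => hl (by rw [← h, hpi'])), sL_ne hl, sA_apply]

lemma cA_cT (π : Perm (Fin (m + 2))) (v w : Fin 2 → F) :
    cA π * cT 0 1 v w = cT (π 0) (π 1) v w * cA π := by
  have hpi : ∀ x, π⁻¹ (π x) = x := fun x => by rw [← Perm.mul_apply, inv_mul_cancel, Perm.one_apply]
  have hpi' : ∀ x, π (π⁻¹ x) = x := fun x => by rw [← Perm.mul_apply, mul_inv_cancel, Perm.one_apply]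
  have h01 : π 0 ≠ π 1 := fun h => zo m (π.injective h)
  apply Th_inj
  rw [map_mul, map_mul, Th_cA, Th_cT (zo m), Th_cT h01]
  apply LinearMap.ext; intro x; ext l : 1
  rw [Module.End.mul_apply, Module.End.mul_apply, sA_apply]
  by_cases hl : l = π 0
  · subst hl
    rw [hpi, sT_i (zo m), sT_i h01, sA_apply, sA_apply, hpi, hpi]
  · by_cases hl1 : l = π 1
    · subst hl1
      rw [hpi, sT_j (zo m), sT_j h01, sA_apply, sA_apply, hpi, hpi]
    · rw [sT_ne (fun h => hl (by rw [← h, hpi'])) (fun h => hl1 (by rw [← h, hpi'])),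
        sT_ne hl hl1, sA_apply]

/-- `cA`, `cL 0`, `cT 0 1 e e` generate -/
lemma gen_top (C : Subgroup (symplecticGroup (Fin (m + 2)) F)) (hA : ∀ π, cA π ∈ C) (hB : ∀ g, cL 0 g ∈ C)
    (hy : cT 0 1 (ee F) (ee F) ∈ C) : C = ⊤ := by
  have hL : ∀ k g, cL k g ∈ C := by
    intro k g
    have := cA_cL (swap 0 k) 0 g
    rw [swap_apply_left] at this
    rw [Hyp.conj_eq this]
    exact mul_mem (mul_mem (hA _) (hB _)) (inv_mem (hA _))
  apply conc_top _ hL
  intro i j hij v w
  by_cases hv : v = 0
  · subst hv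
    have := (conc (Fin (m + 2)) F).T_zero' hij w
    change cT i j 0 w = 1 at this
    rw [this]; exact one_mem _
  by_cases hw : w = 0
  · subst hw
    have := (conc (Fin (m + 2)) F).T_zero hij v
    change cT i j v 0 = 1 at this
    rw [this]; exact one_mem _
  obtain ⟨π, h0, h1⟩ := exists_perm2 hij
  obtain ⟨g, hg⟩ := exists_act hv
  obtain ⟨g', hg'⟩ := exists_act hw
  have e1 := (conc (Fin (m + 2)) F).conj_both (zo m) g g' (ee F) (ee F)
  change cL 0 g * cL 1 g' * cT 0 1 (ee F) (ee F) = cT 0 1 (g.1 *ᵥ ee F) (g'.1 *ᵥ ee F) * (cL 0 g * cL 1 g') at e1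
  rw [hg, hg'] at e1
  have e2 := cA_cT π v w
  rw [h0, h1, Hyp.conj_eq e1] at e2
  rw [Hyp.conj_eq e2]
  exact mul_mem (mul_mem (hA _) (mul_mem (mul_mem (mul_mem (hL _ _) (hL _ _)) hy)
    (inv_mem (mul_mem (hL _ _) (hL _ _))))) (inv_mem (hA _))

/-- the free product in which relations are written -/
abbrev AB (m : ℕ) (F : Type*) [Field F] := Coprod (Perm (Fin (m + 2))) (SpecialLinearGroup (Fin 2) F)

/-- the free product in which relations are written -/
abbrev MM (m : ℕ) (F : Type*) [Field F] := Coprod (AB m F) (FreeGroup Unit)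

/-- the assembly theorem -/
theorem assemble {ra rb : ℕ} (ha : HasPres (Perm (Fin (m + 2))) 2 ra) (hb : HasPres (SpecialLinearGroup (Fin 2) F) 3 rb)
    {J : Type} [Fintype J] (r : J → MM m F)
    (hSp : ∀ j, Coprod.lift (Coprod.lift cA (cL 0)) (FreeGroup.lift fun _ => cT 0 1 (ee F) (ee F)) (r j) = 1)
    (hG : ∀ (G : Type) [Group G] (α : Perm (Fin (m + 2)) →* G) (β : SpecialLinearGroup (Fin 2) F →* G) (y : G),
      (∀ j, Coprod.lift (Coprod.lift α β) (FreeGroup.lift fun _ => y) (r j) = 1) → Hyp α β y ∧ RE α β y) :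
    HasPres (symplecticGroup (Fin (m + 2)) F) 6 (ra + rb + Fintype.card J) := by
  obtain ⟨a, Ra, hfa, hka, hPa⟩ := ha.exists
  obtain ⟨b, Rb, hfb, hkb, hPb⟩ := hb.exists
  obtain ⟨W, hW⟩ := (pres_coprod hPa hPb).extend (κ := Unit) (J := J)
    (Coprod.lift cA (cL 0) : AB m F →* symplecticGroup (Fin (m + 2)) F) (fun _ => cT 0 1 (ee F) (ee F)) r (by
      apply gen_top
      · intro π
        apply Subgroup.subset_closure
        exact Or.inl ⟨Coprod.inl π, Coprod.lift_apply_inl _ _ _⟩
      · intro g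
        apply Subgroup.subset_closure
        exact Or.inl ⟨Coprod.inr g, Coprod.lift_apply_inr _ _ _⟩
      · apply Subgroup.subset_closure
        exact Or.inr ⟨(), rfl⟩) hSp (by
      intro G _ γ z hz
      set α : Perm (Fin (m + 2)) →* G := γ.comp Coprod.inl with hα
      set β : SpecialLinearGroup (Fin 2) F →* G := γ.comp Coprod.inr with hβ
      have hγ : γ = Coprod.lift α β := by
        apply Coprod.hom_ext
        · rw [Coprod.lift_comp_inl]
        · rw [Coprod.lift_comp_inr]
      have hzz : z = fun _ => z () := by funext u; rfl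
      have hz' : ∀ j, Coprod.lift (Coprod.lift α β) (FreeGroup.lift fun _ => z ()) (r j) = 1 := by
        intro j
        rw [← hγ, ← hzz]; exact hz j
      obtain ⟨H, g, g', hg, hg', hE⟩ := hG G α β (z ()) hz'
      obtain ⟨φ, h1, h2, h3⟩ := H.exists_hom (by
        rw [hE, H.tt_eq' (i := 0) (j := 1) (π := 1) (v := ee F) (w := ff F) rfl rfl (one_act _) hg,
          H.tt_eq' (i := 0) (j := 1) (π := 1) (v := -(ff F)) (w := ee F) rfl rfl hg' (one_act _)])
      refine ⟨φ, ?_, fun k => h2⟩
      intro x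
      have : φ.comp (Coprod.lift cA (cL 0)) = γ := by
        rw [hγ]
        apply Coprod.hom_ext
        · rw [Coprod.lift_comp_inl, MonoidHom.comp_assoc, Coprod.lift_comp_inl]
          ext π; exact h3 π
        · rw [Coprod.lift_comp_inr, MonoidHom.comp_assoc, Coprod.lift_comp_inr]
          ext g; exact h1 g
      exact DFunLike.congr_fun this x)
  apply hW.hasPres (m := 6) (Fintype.equivFinOfCardEq (by rfl))
  · exact Set.Finite.union (Set.Finite.image _ ((hfa.image _).union (hfb.image _))) (Set.finite_range _)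
  · calc _ ≤ _ := Set.ncard_union_le _ _
      _ ≤ (ra + rb) + Fintype.card J := by
        apply Nat.add_le_add
        · refine (Set.ncard_image_le ((hfa.image _).union (hfb.image _))).trans ?_
          refine (Set.ncard_union_le _ _).trans (Nat.add_le_add ?_ ?_)
          · exact (Set.ncard_image_le hfa).trans hka
          · exact (Set.ncard_image_le hfb).trans hkb
        · have := ncard_range_le W
          rwa [Nat.card_eq_fintype_card] at this

end H6.SpPres
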