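import Cfsg.Agent.Lib.H6.SpPresA

/-!
Presentations of `Sp_2n(F)`: the relators, and their validity in `Sp_2n(F)`.
-/

set_option autoImplicit false

namespace H6.SpPres

open H43.Tietze Monoid H6.SpSys Matrix Equiv

variable {F : Type*} [Field F] {m : ℕ}

/-- first embedding -/
noncomputable def aM : Perm (Fin (m + 2)) →* MM m F := (Coprod.inl : AB m F →* MM m F).comp Coprod.inl
/-- second embedding -/
noncomputable def bM : SpecialLinearGroup (Fin 2) F →* MM m F := (Coprod.inl : AB m F →* MM m F).comp Coprod.inr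
/-- the free letter -/
noncomputable def yM : MM m F := Coprod.inr (FreeGroup.of ())

variable {Γ : Type*} [Group Γ]

/-- evaluation -/
noncomputable def Ev (α : Perm (Fin (m + 2)) →* Γ) (β : SpecialLinearGroup (Fin 2) F →* Γ) (y : Γ) : MM m F →* Γ :=
  Coprod.lift (Coprod.lift α β) (FreeGroup.lift fun _ => y)

section
variable (α : Perm (Fin (m + 2)) →* Γ) (β : SpecialLinearGroup (Fin 2) F →* Γ) (y : Γ)

@[simp] lemma Ev_aM (π : Perm (Fin (m + 2))) : Ev α β y (aM π) = α π := by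
  change Coprod.lift (Coprod.lift α β) (FreeGroup.lift fun _ => y) (Coprod.inl (Coprod.inl π)) = _
  rw [Coprod.lift_apply_inl, Coprod.lift_apply_inl]

@[simp] lemma Ev_bM (g : SpecialLinearGroup (Fin 2) F) : Ev α β y (bM g) = β g := by
  change Coprod.lift (Coprod.lift α β) (FreeGroup.lift fun _ => y) (Coprod.inl (Coprod.inr g)) = _
  rw [Coprod.lift_apply_inl, Coprod.lift_apply_inr]

@[simp] lemma Ev_yM : Ev α β y yM = y := by
  change Coprod.lift (Coprod.lift α β) (FreeGroup.lift fun _ => y) (Coprod.inr (FreeGroup.of ())) = _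
  rw [Coprod.lift_apply_inr, FreeGroup.lift_apply_of]

@[simp] lemma Ev_lm (k : Fin (m + 2)) (g : SpecialLinearGroup (Fin 2) F) :
    Ev α β y (lm (aM : Perm (Fin (m + 2)) →* MM m F) bM k g) = lm α β k g := by
  unfold lm
  rw [map_mul, map_mul, map_inv, Ev_aM, Ev_bM]

@[simp] lemma Ev_TT (π : Perm (Fin (m + 2))) (g g' : SpecialLinearGroup (Fin 2) F) :
    Ev α β y (TT (aM : Perm (Fin (m + 2)) →* MM m F) bM yM π g g') = TT α β y π g g' := by
  unfold TT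
  rw [map_mul, map_mul, map_inv, map_mul, map_mul, Ev_aM, Ev_bM, Ev_lm, Ev_yM]

end

/-- commutator relator -/
def cmm {G : Type*} [Group G] (a b : G) : G := a * b * (b * a)⁻¹

/-- relator of an equation -/
def rq {G : Type*} [Group G] (a b : G) : G := a * b⁻¹

lemma Ev_rq (f : MM m F →* Γ) (a b : MM m F) : f (rq a b) = 1 ↔ f a = f b := by
  unfold rq; rw [map_mul, map_inv, mul_inv_eq_one]

lemma Ev_cmm (f : MM m F →* Γ) (a b : MM m F) : f (cmm a b) = 1 ↔ f a * f b = f b * f a := by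
  unfold cmm; rw [map_mul, map_inv, mul_inv_eq_one, map_mul, map_mul]

open Hyp (gg)

/-- the relators for `n = 2` -/
noncomputable def relB (bb : Fin 3 → SpecialLinearGroup (Fin 2) F) (ζ : Fˣ) : (Fin 3 × Fin 3) ⊕ Fin 7 → MM m F
  | .inl (i, j) => cmm (bM (bb i)) (lm (aM : Perm (Fin (m + 2)) →* MM m F) bM 1 (bb j))
  | .inr 0 => cmm yM (bM (tv (ee F) 1))
  | .inr 1 => cmm yM (bM (hd ζ) * lm (aM : Perm (Fin (m + 2)) →* MM m F) bM 1 (hd ζ)⁻¹)
  | .inr 2 => cmm yM (aM (swap 0 1))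
  | .inr 3 => rq (yM * TT (aM : Perm (Fin (m + 2)) →* MM m F) bM yM 1 1 (gg ((1 : F) • ff F)))
      (TT (aM : Perm (Fin (m + 2)) →* MM m F) bM yM 1 1 (gg (ee F + (1 : F) • ff F)) * bM (tv (ee F) (-(1 : F))))
  | .inr 4 => rq (yM * TT (aM : Perm (Fin (m + 2)) →* MM m F) bM yM 1 1 (gg ((ζ : F) • ff F)))
      (TT (aM : Perm (Fin (m + 2)) →* MM m F) bM yM 1 1 (gg (ee F + (ζ : F) • ff F)) * bM (tv (ee F) (-(ζ : F))))
  | .inr 5 => TT (aM : Perm (Fin (m + 2)) →* MM m F) bM yM 1 1 (gg (-(ee F))) * yM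
  | .inr 6 => rq (aM (swap 0 1)) (lm (aM : Perm (Fin (m + 2)) →* MM m F) bM 1 (-1) *
      (TT (aM : Perm (Fin (m + 2)) →* MM m F) bM yM 1 1 (gg (ff F)) *
        TT (aM : Perm (Fin (m + 2)) →* MM m F) bM yM 1 (gg (-(ff F))) 1 *
        TT (aM : Perm (Fin (m + 2)) →* MM m F) bM yM 1 1 (gg (ff F))))

/-- the additional relators for `n ≥ 3` -/
noncomputable def relC (bb : Fin 3 → SpecialLinearGroup (Fin 2) F) (κ : Fin (m + 2)) (cc dd : Fin 2 → Perm (Fin (m + 2)))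
    (π5 π7 : Perm (Fin (m + 2))) : (Fin 2 × Fin 3) ⊕ Fin 3 ⊕ Fin 2 ⊕ Fin 3 → MM m F
  | .inl (i, j) => cmm (aM (cc i)) (bM (bb j))
  | .inr (.inl j) => cmm (lm (aM : Perm (Fin (m + 2)) →* MM m F) bM κ (bb j)) yM
  | .inr (.inr (.inl i)) => cmm (aM (dd i)) yM
  | .inr (.inr (.inr 0)) => cmm yM (TT (aM : Perm (Fin (m + 2)) →* MM m F) bM yM (swap 1 κ) 1 1)
  | .inr (.inr (.inr 1)) => rq (yM * TT (aM : Perm (Fin (m + 2)) →* MM m F) bM yM (swap 1 κ) (gg (ff F)) 1)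
      (TT (aM : Perm (Fin (m + 2)) →* MM m F) bM yM π5 (gg (-(ee F))) 1 *
        TT (aM : Perm (Fin (m + 2)) →* MM m F) bM yM (swap 1 κ) (gg (ff F)) 1 * yM)
  | .inr (.inr (.inr 2)) => cmm yM (TT (aM : Perm (Fin (m + 2)) →* MM m F) bM yM π7 1 1)

section values

lemma lm_conc (k : Fin (m + 2)) (g : SpecialLinearGroup (Fin 2) F) :
    lm (cA : Perm (Fin (m + 2)) →* symplecticGroup (Fin (m + 2)) F) (cL 0) k g = cL k g := by
  have := cA_cL (F := F) (swap 0 k) 0 g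
  rw [swap_apply_left] at this
  unfold lm
  rw [this]; group

lemma TT_conc (π : Perm (Fin (m + 2))) (g g' : SpecialLinearGroup (Fin 2) F) :
    TT (cA : Perm (Fin (m + 2)) →* symplecticGroup (Fin (m + 2)) F) (cL 0) (cT 0 1 (ee F) (ee F)) π g g' =
      cT (π 0) (π 1) (g.1 *ᵥ ee F) (g'.1 *ᵥ ee F) := by
  unfold TT
  rw [lm_conc]
  have e1 := (conc (Fin (m + 2)) F).conj_both (zo m) g g' (ee F) (ee F)
  change cL 0 g * cL 1 g' * cT 0 1 (ee F) (ee F) = cT 0 1 (g.1 *ᵥ ee F) (g'.1 *ᵥ ee F) * (cL 0 g * cL 1 g') at e1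
  have e2 := cA_cT (F := F) π (g.1 *ᵥ ee F) (g'.1 *ᵥ ee F)
  calc cA π * cL 0 g * cL 1 g' * cT 0 1 (ee F) (ee F) * (cA π * cL 0 g * cL 1 g')⁻¹
      = cA π * (cL 0 g * cL 1 g' * cT 0 1 (ee F) (ee F)) * (cA π * (cL 0 g * cL 1 g'))⁻¹ := by
        simp only [mul_assoc]
    _ = cA π * cT 0 1 (g.1 *ᵥ ee F) (g'.1 *ᵥ ee F) * (cA π)⁻¹ := by rw [e1]; group
    _ = _ := by rw [e2]; group

lemma ne_a {c : F} (hc : c ≠ 0) : c • ff F ≠ 0 := by
  intro h
  have := congrFun h 1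
  simp at this; exact hc this

lemma ne_b (c : F) : ee F + c • ff F ≠ 0 := by
  intro h
  have := congrFun h 0
  simp at this

lemma ne_c : -(ee F) ≠ 0 := neg_ne_zero.2 ee_ne
lemma ne_d : -(ff F) ≠ 0 := neg_ne_zero.2 ff_ne

lemma mul_conc (c : F) : cT (0 : Fin (m + 2)) 1 (ee F) (ee F) * cT 0 1 (ee F) (c • ff F) =
    cT 0 1 (ee F) (ee F + c • ff F) * cL 0 (tv (ee F) (-c)) := by
  have := (conc (Fin (m + 2)) F).mul (zo m) (ee F) (ee F) (c • ff F)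
  rw [om_smul_left, om_ff_ee, mul_neg, mul_one] at this
  exact this

theorem relB_conc (bb : Fin 3 → SpecialLinearGroup (Fin 2) F) (ζ : Fˣ) (x : (Fin 3 × Fin 3) ⊕ Fin 7) :
    Ev (cA : Perm (Fin (m + 2)) →* symplecticGroup (Fin (m + 2)) F) (cL 0) (cT 0 1 (ee F) (ee F)) (relB bb ζ x) = 1 := by
  rcases x with ⟨i, j⟩ | x
  · unfold relB
    rw [Ev_cmm, Ev_bM, Ev_lm, lm_conc]
    exact (conc (Fin (m + 2)) F).comm (zo m) _ _
  · fin_cases x
    · change Ev _ _ _ (cmm yM (bM (tv (ee F) 1))) = 1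
      rw [Ev_cmm, Ev_bM, Ev_yM]
      have := (conc (Fin (m + 2)) F).conj (zo m) (tv (ee F) 1) (ee F) (ee F)
      rw [tv_act, om_self, mul_zero, zero_smul, add_zero] at this
      exact this.symm
    · change Ev _ _ _ (cmm yM (bM (hd ζ) * lm (aM : Perm (Fin (m + 2)) →* MM m F) bM 1 (hd ζ)⁻¹)) = 1
      rw [Ev_cmm, Ev_yM, map_mul, Ev_bM, Ev_lm, lm_conc]
      have := (conc (Fin (m + 2)) F).conj_both (zo m) (hd ζ) (hd ζ)⁻¹ (ee F) (ee F)
      have h1 : ((hd ζ)⁻¹ : SpecialLinearGroup (Fin 2) F).1 *ᵥ ee F = ((ζ⁻¹ : Fˣ) : F) • ee F := by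
        have : ((hd ζ)⁻¹ : SpecialLinearGroup (Fin 2) F) = hd ζ⁻¹ := by
          rw [inv_eq_iff_mul_eq_one, ← hd_mul, mul_inv_cancel, hd_one]
        rw [this, hd_ee]
      rw [hd_ee, h1, (conc (Fin (m + 2)) F).smul (zo m), smul_smul, ← Units.val_mul, mul_inv_cancel, Units.val_one,
        one_smul] at this
      exact this.symm
    · change Ev _ _ _ (cmm yM (aM (swap 0 1))) = 1
      rw [Ev_cmm, Ev_yM, Ev_aM]
      have h1 := cA_cT (F := F) (m := m) (swap 0 1) (ee F) (ee F)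
      rw [swap_apply_left, swap_apply_right] at h1
      rw [h1]
      have h2 := (conc (Fin (m + 2)) F).symm (zo m) (ee F) (ee F)
      change cT 0 1 _ _ = cT 1 0 _ _ at h2
      rw [h2]
    · change Ev _ _ _ (rq (yM * TT (aM : Perm (Fin (m + 2)) →* MM m F) bM yM 1 1 (gg ((1 : F) • ff F)))
        (TT (aM : Perm (Fin (m + 2)) →* MM m F) bM yM 1 1 (gg (ee F + (1 : F) • ff F)) * bM (tv (ee F) (-(1 : F))))) = 1
      rw [Ev_rq, map_mul, map_mul, Ev_TT, Ev_TT, Ev_yM, Ev_bM, TT_conc, TT_conc,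
        Hyp.gg_ee (ne_a one_ne_zero), Hyp.gg_ee (ne_b 1), one_act]
      exact mul_conc 1
    · change Ev _ _ _ (rq (yM * TT (aM : Perm (Fin (m + 2)) →* MM m F) bM yM 1 1 (gg ((ζ : F) • ff F)))
        (TT (aM : Perm (Fin (m + 2)) →* MM m F) bM yM 1 1 (gg (ee F + (ζ : F) • ff F)) * bM (tv (ee F) (-(ζ : F))))) = 1
      rw [Ev_rq, map_mul, map_mul, Ev_TT, Ev_TT, Ev_yM, Ev_bM, TT_conc, TT_conc,
        Hyp.gg_ee (ne_a ζ.ne_zero), Hyp.gg_ee (ne_b _), one_act]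
      exact mul_conc _
    · change Ev _ _ _ (TT (aM : Perm (Fin (m + 2)) →* MM m F) bM yM 1 1 (gg (-(ee F))) * yM) = 1
      rw [map_mul, Ev_TT, Ev_yM, TT_conc, Hyp.gg_ee ne_c, one_act]
      have := (conc (Fin (m + 2)) F).T_neg (zo m) (ee F) (ee F)
      change cT 0 1 _ _ = (cT 0 1 _ _)⁻¹ at this
      change cT 0 1 _ _ * _ = 1
      rw [this, inv_mul_cancel]
    · change Ev _ _ _ (rq (aM (swap 0 1)) (lm (aM : Perm (Fin (m + 2)) →* MM m F) bM 1 (-1) *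
        (TT (aM : Perm (Fin (m + 2)) →* MM m F) bM yM 1 1 (gg (ff F)) *
          TT (aM : Perm (Fin (m + 2)) →* MM m F) bM yM 1 (gg (-(ff F))) 1 *
          TT (aM : Perm (Fin (m + 2)) →* MM m F) bM yM 1 1 (gg (ff F))))) = 1
      rw [Ev_rq, map_mul, map_mul, map_mul, Ev_TT, Ev_TT, Ev_aM, Ev_lm, TT_conc, TT_conc, lm_conc, Hyp.gg_ee ff_ne, Hyp.gg_ee ne_d, one_act]
      exact Hyp.cA_swap (zo m)

theorem relC_conc (bb : Fin 3 → SpecialLinearGroup (Fin 2) F) (κ : Fin (m + 2)) (h0 : κ ≠ 0) (h1 : κ ≠ 1)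
    (cc dd : Fin 2 → Perm (Fin (m + 2))) (hc : ∀ i, cc i 0 = 0) (hd : ∀ i, dd i 0 = 0 ∧ dd i 1 = 1)
    (π5 π7 : Perm (Fin (m + 2))) (h5 : π5 0 = 1 ∧ π5 1 = κ)
    (h7 : π7 = 1 ∨ (π7 0 ≠ 0 ∧ π7 0 ≠ 1 ∧ π7 1 ≠ 0 ∧ π7 1 ≠ 1))
    (x : (Fin 2 × Fin 3) ⊕ Fin 3 ⊕ Fin 2 ⊕ Fin 3) :
    Ev (cA : Perm (Fin (m + 2)) →* symplecticGroup (Fin (m + 2)) F) (cL 0) (cT 0 1 (ee F) (ee F))
      (relC bb κ cc dd π5 π7 x) = 1 := by
  have hsw0 : (swap 1 κ) 0 = 0 := swap_apply_of_ne_of_ne (zo m) h0.symm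
  rcases x with ⟨i, j⟩ | j | i | x
  · unfold relC
    rw [Ev_cmm, Ev_bM, Ev_aM]
    have := cA_cL (F := F) (cc i) 0 (bb j)
    rwa [hc i] at this
  · unfold relC
    rw [Ev_cmm, Ev_yM, Ev_lm, lm_conc]
    exact (conc (Fin (m + 2)) F).comm3 (zo m) h0 h1 _ _ _
  · unfold relC
    rw [Ev_cmm, Ev_yM, Ev_aM]
    have := cA_cT (F := F) (dd i) (ee F) (ee F)
    rwa [(hd i).1, (hd i).2] at this
  · fin_cases x
    · change Ev _ _ _ (cmm yM (TT (aM : Perm (Fin (m + 2)) →* MM m F) bM yM (swap 1 κ) 1 1)) = 1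
      rw [Ev_cmm, Ev_yM, Ev_TT, TT_conc, one_act, hsw0, swap_apply_left]
      have := (conc (Fin (m + 2)) F).com (zo m) h0.symm h1.symm (ee F) (ee F) (ee F) (ee F)
      rw [om_self, zero_smul, (conc (Fin (m + 2)) F).T_zero' h1.symm, one_mul] at this
      exact this
    · change Ev _ _ _ (rq (yM * TT (aM : Perm (Fin (m + 2)) →* MM m F) bM yM (swap 1 κ) (gg (ff F)) 1)
        (TT (aM : Perm (Fin (m + 2)) →* MM m F) bM yM π5 (gg (-(ee F))) 1 *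
          TT (aM : Perm (Fin (m + 2)) →* MM m F) bM yM (swap 1 κ) (gg (ff F)) 1 * yM)) = 1
      rw [Ev_rq, map_mul, map_mul, map_mul, Ev_TT, Ev_TT, Ev_yM, TT_conc, TT_conc, Hyp.gg_ee ff_ne, Hyp.gg_ee ne_c, one_act, hsw0, swap_apply_left, h5.1, h5.2]
      have := (conc (Fin (m + 2)) F).com (zo m) h0.symm h1.symm (ee F) (ee F) (ff F) (ee F)
      rw [om_ff_ee, neg_smul, one_smul] at this
      exact this
    · change Ev _ _ _ (cmm yM (TT (aM : Perm (Fin (m + 2)) →* MM m F) bM yM π7 1 1)) = 1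
      rw [Ev_cmm, Ev_yM, Ev_TT, TT_conc, one_act]
      rcases h7 with rfl | ⟨h, h', h'', h'''⟩
      · rfl
      · exact (conc (Fin (m + 2)) F).disj (zo m) (fun h => zo m (π7.injective h)) h.symm h''.symm h'.symm h'''.symm _ _ _ _

end values

end H6.SpPres
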