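import Cfsg.Agent.Lib.H6.SpPresB
import Cfsg.Agent.S2284

/-!
Presentations of `Sp_2n(F)`: consequences of the relators.
-/

set_option autoImplicit false

namespace H6.SpPres

open H43.Tietze Monoid H6.SpSys Matrix Equiv

variable {F : Type*} [Field F] {m : ℕ} {Γ : Type*} [Group Γ]

lemma comm_of_mem {A : Type*} [Group A] {ι : Type*} {v : ι → A} (φ : A →* Γ) (x : Γ)
    (h : ∀ i, φ (v i) * x = x * φ (v i)) {a : A} (ha : a ∈ Subgroup.closure (Set.range v)) : φ a * x = x * φ a := by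
  induction ha using Subgroup.closure_induction with
  | mem y hy => obtain ⟨i, rfl⟩ := hy; exact h i
  | one => rw [map_one, one_mul, mul_one]
  | mul a b _ _ ha hb => rw [map_mul, mul_assoc, hb, ← mul_assoc, ha, mul_assoc]
  | inv a _ ha => rw [map_inv, inv_mul_eq_iff_eq_mul, ← mul_assoc, ha, mul_assoc, mul_inv_cancel, mul_one]

lemma comm_of_gen {A : Type*} [Group A] {ι : Type*} {v : ι → A} (hv : Subgroup.closure (Set.range v) = ⊤)
    (φ : A →* Γ) (x : Γ) (h : ∀ i, φ (v i) * x = x * φ (v i)) (a : A) : φ a * x = x * φ a :=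
  comm_of_mem φ x h (by rw [hv]; trivial)

lemma perm_two (N : ℕ) : HasPres (Perm (Fin N)) 2 8 := (Cfsg.Agent.S2284.result N).1

/-- two generators for the pointwise stabilizer of the complement of `p` -/
lemma exists_stab_gen {N : ℕ} (p : Fin N → Prop) [DecidablePred p] :
    ∃ c : Fin 2 → Perm (Fin N), (∀ i x, ¬ p x → c i x = x) ∧
      ∀ π : Perm (Fin N), (∀ x, ¬ p x → π x = x) → π ∈ Subgroup.closure (Set.range c) := by
  obtain ⟨v, R, -, -, hP⟩ := (perm_two (Fintype.card {x // p x})).exists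
  let e : Fin (Fintype.card {x // p x}) ≃ {x // p x} := (Fintype.equivFin _).symm
  let φ : Perm (Fin (Fintype.card {x // p x})) →* Perm (Fin N) :=
    (Perm.ofSubtype (p := p)).comp e.permCongrHom.toMonoidHom
  refine ⟨fun i => φ (v i), ?_, ?_⟩
  · intro i x hx
    exact Perm.ofSubtype_apply_of_not_mem _ hx
  · intro π hπ
    have h1 : ∀ x, p (π x) ↔ p x := by
      intro x
      constructor
      · intro h
        by_contra hx
        rw [hπ x hx] at h
        exact hx h
      · intro h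
        by_contra hx
        have := hπ _ hx
        have := π.injective this
        rw [this] at hx
        exact hx h
    have h2 : Perm.ofSubtype (π.subtypePerm h1) = π :=
      Perm.ofSubtype_subtypePerm h1 (fun x hx => by
        by_contra h
        exact hx (hπ x h))
    have h3 : φ (e.permCongrHom.symm (π.subtypePerm h1)) = π := by
      change Perm.ofSubtype (e.permCongrHom (e.permCongrHom.symm (π.subtypePerm h1))) = π
      rw [MulEquiv.apply_symm_apply, h2]
    rw [← h3]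
    have h4 : (⊤ : Subgroup _) ≤ (Subgroup.closure (Set.range fun i => φ (v i))).comap φ := by
      rw [← hP.gen, Subgroup.closure_le]
      rintro _ ⟨i, rfl⟩
      exact Subgroup.subset_closure ⟨i, rfl⟩
    exact h4 (Subgroup.mem_top _)

section derive

variable {α : Perm (Fin (m + 2)) →* Γ} {β : SpecialLinearGroup (Fin 2) F →* Γ} {y : Γ}

/-- `λ_k` as a homomorphism -/
def lmH (α : Perm (Fin (m + 2)) →* Γ) (β : SpecialLinearGroup (Fin 2) F →* Γ) (k : Fin (m + 2)) :
    SpecialLinearGroup (Fin 2) F →* Γ where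
  toFun := lm α β k
  map_one' := Hyp0.lm_one' k
  map_mul' := Hyp0.lm_mul k

/-- the torus element centralizing `y` -/
def XX (α : Perm (Fin (m + 2)) →* Γ) (β : SpecialLinearGroup (Fin 2) F →* Γ) (a : Fˣ) : Γ :=
  β (hd a) * lm α β 1 (hd a)⁻¹

lemma hd_zpow (a : Fˣ) (k : ℤ) : (hd (a ^ k) : SpecialLinearGroup (Fin 2) F) = hd a ^ k := by
  let f : Fˣ →* SpecialLinearGroup (Fin 2) F := { toFun := hd, map_one' := hd_one, map_mul' := hd_mul }
  exact map_zpow f a k

lemma XX_mul (h2 : ∀ g g', β g * lm α β 1 g' = lm α β 1 g' * β g) (a b : Fˣ) :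
    XX α β (a * b) = XX α β a * XX α β b := by
  unfold XX
  rw [hd_mul, map_mul]
  have e1 : (hd a * hd b : SpecialLinearGroup (Fin 2) F)⁻¹ = (hd a)⁻¹ * (hd b)⁻¹ := by
    rw [← _root_.mul_inv_rev, ← hd_mul, ← hd_mul, mul_comm]
  rw [e1, Hyp0.lm_mul]
  calc β (hd a) * β (hd b) * (lm α β 1 (hd a)⁻¹ * lm α β 1 (hd b)⁻¹)
      = β (hd a) * (β (hd b) * lm α β 1 (hd a)⁻¹) * lm α β 1 (hd b)⁻¹ := by simp only [mul_assoc]
    _ = _ := by rw [h2]; simp only [mul_assoc]

/-- additive span of the squares in a finite field -/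
lemma squares_span [Finite F] (S : F → Prop) (hadd : ∀ a b, S a → S b → S (a + b)) (hneg : ∀ a, S a → S (-a))
    (hsq : ∀ a, a ≠ 0 → S (a * a)) (h0 : S 0) (c : F) : S c := by
  have hsq' : ∀ a, S (a * a) := fun a => by
    by_cases h : a = 0
    · subst h; rw [mul_zero]; exact h0
    · exact hsq a h
  by_cases h2 : (2 : F) = 0
  · have : Fintype F := Fintype.ofFinite F
    have hc : ringChar F = 2 := by
      have h3 : ringChar F ∣ 2 := by
        rw [← CharP.cast_eq_zero_iff F (ringChar F) 2]; exact_mod_cast h2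
      have h4 : ringChar F ≠ 1 := CharP.ringChar_ne_one
      rcases (Nat.dvd_prime Nat.prime_two).1 h3 with h | h
      · exact absurd h h4
      · exact h
    obtain ⟨b, hb⟩ := FiniteField.isSquare_of_char_two hc c
    rw [hb]; exact hsq' b
  · have h4 : (4 : F) ≠ 0 := by
      have : (4 : F) = 2 * 2 := by norm_num
      rw [this]; exact mul_ne_zero h2 h2
    have : c = ((c + 1) / 2) * ((c + 1) / 2) + -(((c - 1) / 2) * ((c - 1) / 2)) := by
      field_simp; ring
    rw [this]
    exact hadd _ _ (hsq' _) (hneg _ (hsq' _))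

variable {bb : Fin 3 → SpecialLinearGroup (Fin 2) F} {ζ : Fˣ}

lemma XX_conj (h2 : ∀ g g', β g * lm α β 1 g' = lm α β 1 g' * β g) (a : Fˣ) (g g' : SpecialLinearGroup (Fin 2) F) :
    XX α β a * (β g * lm α β 1 g') = (β (hd a * g * (hd a)⁻¹) * lm α β 1 ((hd a)⁻¹ * g' * hd a)) * XX α β a := by
  unfold XX
  have e : ∀ x u u' : SpecialLinearGroup (Fin 2) F, β x * (lm α β 1 u * β u') = lm α β 1 u * (β x * β u') := by
    intro x u u'
    rw [← mul_assoc, h2, mul_assoc]
  have e0 : ∀ x u : SpecialLinearGroup (Fin 2) F, β x * lm α β 1 u = lm α β 1 u * β x := h2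
  rw [map_mul, map_mul, Hyp0.lm_mul, Hyp0.lm_mul]
  have e1 : β (hd a) * lm α β 1 (hd a)⁻¹ * (β g * lm α β 1 g') = lm α β 1 (hd a)⁻¹ * lm α β 1 g' * (β (hd a) * β g) := by
    rw [e0 (hd a), e0 g]
    simp only [mul_assoc]
    rw [e]
  have e2 : β (hd a) * β g * β (hd a)⁻¹ * (lm α β 1 (hd a)⁻¹ * lm α β 1 g' * lm α β 1 (hd a)) *
      (β (hd a) * lm α β 1 (hd a)⁻¹) = lm α β 1 (hd a)⁻¹ * lm α β 1 g' * (β (hd a) * β g) := by
    rw [← map_mul, ← map_mul, ← Hyp0.lm_mul, ← Hyp0.lm_mul, e0 (hd a) (hd a)⁻¹]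
    calc _ = (β (hd a * g * (hd a)⁻¹) * (lm α β 1 ((hd a)⁻¹ * g' * hd a) * lm α β 1 (hd a)⁻¹)) * β (hd a) := by
          simp only [mul_assoc]
      _ = lm α β 1 ((hd a)⁻¹ * g') * (β (hd a * g * (hd a)⁻¹) * β (hd a)) := by
          rw [← Hyp0.lm_mul, e0, mul_assoc, mul_inv_cancel_right]
      _ = _ := by rw [← map_mul, inv_mul_cancel_right, Hyp0.lm_mul, map_mul]
  rw [e1, e2]

end derive

end H6.SpPres
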