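import Cfsg.Agent.Lib.H6.SpPresC

/-!
Presentations of `Sp_2n(F)`: derivation of the invariant relations from the relators.
-/

set_option autoImplicit false

namespace H6.SpPres

open H43.Tietze Monoid H6.SpSys Matrix Equiv

variable {F : Type*} [Field F] {m : ℕ} {Γ : Type*} [Group Γ]
variable {α : Perm (Fin (m + 2)) →* Γ} {β : SpecialLinearGroup (Fin 2) F →* Γ} {y : Γ}
variable {bb : Fin 3 → SpecialLinearGroup (Fin 2) F} {ζ : Fˣ}

open Hyp (gg gg_ee)

lemma XX_comm (h2 : ∀ g g', β g * lm α β 1 g' = lm α β 1 g' * β g) (hζ : ∀ x : Fˣ, x ∈ Subgroup.zpowers ζ)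
    (hy : y * XX α β ζ = XX α β ζ * y) (a : Fˣ) : XX α β a * y = y * XX α β a := by
  let f : Fˣ →* Γ := { toFun := XX α β, map_one' := by unfold XX; rw [hd_one, inv_one, map_one, Hyp0.lm_one', mul_one],
                       map_mul' := XX_mul h2 }
  obtain ⟨k, hk⟩ := Subgroup.mem_zpowers_iff.1 (hζ a)
  have h1 : Commute (f ζ) y := hy.symm
  have h2 : Commute (f a) y := by
    rw [← hk, map_zpow]; exact h1.zpow_left k
  exact h2

/-- the basic relations -/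
theorem derive0 [Finite F] (h1 : ∀ π : Perm (Fin (m + 2)), π 0 = 0 → ∀ g, α π * β g = β g * α π)
    (h3 : ∀ π : Perm (Fin (m + 2)), π 0 = 0 → π 1 = 1 → α π * y = y * α π)
    (hbb : Subgroup.closure (Set.range bb) = ⊤) (hζ : ∀ x : Fˣ, x ∈ Subgroup.zpowers ζ)
    (hB : ∀ x, Ev α β y (relB bb ζ x) = 1) : Hyp0 α β y := by
  have h2 : ∀ g g', β g * lm α β 1 g' = lm α β 1 g' * β g := by
    intro g g'
    have e0 : ∀ i j, β (bb i) * lm α β 1 (bb j) = lm α β 1 (bb j) * β (bb i) := by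
      intro i j
      have := hB (.inl (i, j))
      unfold relB at this
      rwa [Ev_cmm, Ev_bM, Ev_lm] at this
    have e1 : ∀ j g, β g * lm α β 1 (bb j) = lm α β 1 (bb j) * β g := fun j g =>
      comm_of_gen hbb β _ (fun i => e0 i j) g
    exact (comm_of_gen hbb (lmH α β 1) (β g) (fun j => (e1 j g).symm) g').symm
  have h4 : α (swap 0 1) * y = y * α (swap 0 1) := by
    have : Ev α β y (cmm yM (aM (swap 0 1))) = 1 := hB (.inr 2)
    rw [Ev_cmm, Ev_yM, Ev_aM] at this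
    exact this.symm
  have hX : ∀ a, XX α β a * y = y * XX α β a := by
    apply XX_comm h2 hζ
    have : Ev α β y (cmm yM (bM (hd ζ) * lm (aM : Perm (Fin (m + 2)) →* MM m F) bM 1 (hd ζ)⁻¹)) = 1 := hB (.inr 1)
    rw [Ev_cmm, Ev_yM, map_mul, Ev_bM, Ev_lm] at this
    exact this
  have hXt : ∀ (a : Fˣ) (c : F), XX α β a * β (tv (ee F) c) = β (tv (ee F) (c * (a : F) ^ 2)) * XX α β a := by
    intro a c
    have := XX_conj h2 a (tv (ee F) c) 1
    rw [Hyp0.lm_one', mul_one, mul_one, inv_mul_cancel, Hyp0.lm_one', mul_one, tv_conj, hd_ee, tv_smul,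
      mul_inv_cancel_right] at this
    exact this
  have h5 : ∀ c, β (tv (ee F) c) * y = y * β (tv (ee F) c) := by
    have e1 : β (tv (ee F) 1) * y = y * β (tv (ee F) 1) := by
      have : Ev α β y (cmm yM (bM (tv (ee F) 1))) = 1 := hB (.inr 0)
      rw [Ev_cmm, Ev_yM, Ev_bM] at this
      exact this.symm
    apply squares_span
    · intro a b ha hb
      rw [tv_add, map_mul, mul_assoc, hb, ← mul_assoc, ha, mul_assoc]
    · intro a ha
      rw [tv_neg, map_inv, inv_mul_eq_iff_eq_mul, ← mul_assoc, ha, mul_assoc, mul_inv_cancel, mul_one]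
    · intro a ha
      have e2 := hXt (Units.mk0 a ha) 1
      rw [one_mul, Units.val_mk0, sq] at e2
      have e3 := hX (Units.mk0 a ha)
      rw [Hyp.conj_eq e2]
      have e4 : (XX α β (Units.mk0 a ha))⁻¹ * y = y * (XX α β (Units.mk0 a ha))⁻¹ := by
        rw [inv_mul_eq_iff_eq_mul, ← mul_assoc, e3, mul_assoc, mul_inv_cancel, mul_one]
      rw [mul_assoc, e4, ← mul_assoc, mul_assoc (XX α β _), e1, ← mul_assoc, e3]; simp only [mul_assoc]
    · rw [tv_zero, map_one, one_mul, mul_one]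
  exact ⟨h1, h2, h3, h4, h5, fun a => by rw [← Hyp0.lm_inv]; exact hX a⟩

lemma alpha_TT (σ π : Perm (Fin (m + 2))) (g g' : SpecialLinearGroup (Fin 2) F) :
    α σ * TT α β y π g g' = TT α β y (σ * π) g g' * α σ := by
  unfold TT
  rw [map_mul]; group

/-- the Heisenberg relations -/
theorem derive8 (H0 : Hyp0 α β y) (hζ : ∀ x : Fˣ, x ∈ Subgroup.zpowers ζ)
    (hB : ∀ x, Ev α β y (relB bb ζ x) = 1) (c : F) (hc : c ≠ 0) (g g' : SpecialLinearGroup (Fin 2) F)
    (hg : g.1 *ᵥ ee F = c • ff F) (hg' : g'.1 *ᵥ ee F = ee F + c • ff F) :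
    y * TT α β y 1 1 g = TT α β y 1 1 g' * β (tv (ee F) (-c)) := by
  have hX : ∀ a, XX α β a * y = y * XX α β a := by
    intro a
    have := H0.h6 a
    rw [← Hyp0.lm_inv] at this
    exact this
  have hXt : ∀ (a : Fˣ) (c : F), XX α β a * β (tv (ee F) c) = β (tv (ee F) (c * (a : F) ^ 2)) * XX α β a := by
    intro a c
    have := XX_conj H0.h2 a (tv (ee F) c) 1
    rw [Hyp0.lm_one', mul_one, mul_one, inv_mul_cancel, Hyp0.lm_one', mul_one, tv_conj, hd_ee, tv_smul,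
      mul_inv_cancel_right] at this
    exact this
  have hXT : ∀ (a : Fˣ) (g : SpecialLinearGroup (Fin 2) F),
      XX α β a * TT α β y 1 1 g = TT α β y 1 1 ((hd a)⁻¹ * g * hd a) * XX α β a := by
    intro a g
    have e1 := XX_conj H0.h2 a 1 g
    rw [mul_one, mul_inv_cancel, map_one, one_mul, one_mul] at e1
    have e2 := hX a
    unfold TT
    rw [map_one, map_one, one_mul, one_mul]
    have e3 : XX α β a * (lm α β 1 g * y * (lm α β 1 g)⁻¹) * (XX α β a)⁻¹ =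
        (XX α β a * lm α β 1 g) * y * (XX α β a * lm α β 1 g)⁻¹ := by group
    rw [← mul_inv_eq_iff_eq_mul, e3, e1, _root_.mul_inv_rev]
    calc _ = lm α β 1 ((hd a)⁻¹ * g * hd a) * (XX α β a * y) * (XX α β a)⁻¹ * (lm α β 1 ((hd a)⁻¹ * g * hd a))⁻¹ := by
          simp only [mul_assoc]
      _ = _ := by rw [e2]; group
  have hinv : ∀ (a : Fˣ) (v : Fin 2 → F) (c d : F), v = c • ee F + d • ff F →
      ((hd a)⁻¹ : SpecialLinearGroup (Fin 2) F).1 *ᵥ v = (c * ((a⁻¹ : Fˣ) : F)) • ee F + (d * a) • ff F := by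
    intro a v c d hv
    have : ((hd a)⁻¹ : SpecialLinearGroup (Fin 2) F) = hd a⁻¹ := by
      rw [inv_eq_iff_mul_eq_one, ← hd_mul, mul_inv_cancel, hd_one]
    rw [this, hv, Matrix.mulVec_add, Matrix.mulVec_smul, Matrix.mulVec_smul, hd_ee, hd_ff, inv_inv, smul_smul, smul_smul]
  -- base cases
  have b1 : y * TT α β y 1 1 (gg ((1 : F) • ff F)) = TT α β y 1 1 (gg (ee F + (1 : F) • ff F)) * β (tv (ee F) (-(1 : F))) := by
    have := hB (.inr 3)
    change Ev _ _ _ (rq (yM * TT (aM : Perm (Fin (m + 2)) →* MM m F) bM yM 1 1 (gg ((1 : F) • ff F)))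
        (TT (aM : Perm (Fin (m + 2)) →* MM m F) bM yM 1 1 (gg (ee F + (1 : F) • ff F)) * bM (tv (ee F) (-(1 : F))))) = 1 at this
    rwa [Ev_rq, map_mul, map_mul, Ev_TT, Ev_TT, Ev_yM, Ev_bM] at this
  have bζ : y * TT α β y 1 1 (gg ((ζ : F) • ff F)) = TT α β y 1 1 (gg (ee F + (ζ : F) • ff F)) * β (tv (ee F) (-(ζ : F))) := by
    have := hB (.inr 4)
    change Ev _ _ _ (rq (yM * TT (aM : Perm (Fin (m + 2)) →* MM m F) bM yM 1 1 (gg ((ζ : F) • ff F)))
        (TT (aM : Perm (Fin (m + 2)) →* MM m F) bM yM 1 1 (gg (ee F + (ζ : F) • ff F)) * bM (tv (ee F) (-(ζ : F))))) = 1 at this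
    rwa [Ev_rq, map_mul, map_mul, Ev_TT, Ev_TT, Ev_yM, Ev_bM] at this
  -- scaling
  have step : ∀ (d : F) (hd0 : d ≠ 0) (a : Fˣ), c = d * (a : F) ^ 2 →
      y * TT α β y 1 1 (gg (d • ff F)) = TT α β y 1 1 (gg (ee F + d • ff F)) * β (tv (ee F) (-d)) →
      y * TT α β y 1 1 g = TT α β y 1 1 g' * β (tv (ee F) (-c)) := by
    intro d hd0 a hcd hb
    have e1 : TT α β y 1 1 g = TT α β y 1 1 ((hd a)⁻¹ * gg (d • ff F) * hd a) := by
      apply H0.TT_congr rfl rfl rfl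
      rw [hg, mul_act, mul_act, hd_ee, Matrix.mulVec_smul, gg_ee (ne_a hd0)]
      rw [hinv a ((a : F) • d • ff F) 0 (a * d) (by rw [zero_smul, zero_add, smul_smul]), zero_mul, zero_smul, zero_add,
        hcd]
      congr 1; ring
    have e2 : TT α β y 1 1 g' = TT α β y 1 1 ((hd a)⁻¹ * gg (ee F + d • ff F) * hd a) := by
      apply H0.TT_congr rfl rfl rfl
      rw [hg', mul_act, mul_act, hd_ee, Matrix.mulVec_smul, gg_ee (ne_b d)]
      rw [hinv a ((a : F) • (ee F + d • ff F)) a (a * d) (by rw [smul_add, smul_smul]), Units.mul_inv, one_smul, hcd]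
      congr 2; ring
    rw [e1, e2, Hyp.conj_eq (hXT a _), Hyp.conj_eq (hXT a _)]
    have e3 : β (tv (ee F) (-c)) = XX α β a * β (tv (ee F) (-d)) * (XX α β a)⁻¹ := by
      rw [hXt a (-d)]
      rw [mul_inv_cancel_right, hcd, neg_mul]
    rw [e3]
    have e4 := hX a
    calc y * (XX α β a * TT α β y 1 1 (gg (d • ff F)) * (XX α β a)⁻¹)
        = (y * XX α β a) * TT α β y 1 1 (gg (d • ff F)) * (XX α β a)⁻¹ := by simp only [mul_assoc]
      _ = XX α β a * (y * TT α β y 1 1 (gg (d • ff F))) * (XX α β a)⁻¹ := by rw [← e4]; simp only [mul_assoc]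
      _ = _ := by rw [hb]; group
  obtain ⟨k, hk⟩ := Subgroup.mem_zpowers_iff.1 (hζ (Units.mk0 c hc))
  have hk' : (((ζ ^ k : Fˣ)) : F) = c := by rw [hk, Units.val_mk0]
  rcases Int.even_or_odd' k with ⟨l, rfl | rfl⟩
  · apply step 1 one_ne_zero (ζ ^ l) _ b1
    rw [← hk', one_mul, ← Units.val_pow_eq_pow_val, ← zpow_natCast, ← _root_.zpow_mul, mul_comm]
    norm_cast
  · apply step ζ ζ.ne_zero (ζ ^ l) _ bζ
    rw [← hk', ← Units.val_pow_eq_pow_val, ← zpow_natCast, ← _root_.zpow_mul, ← Units.val_mul, ← _root_.zpow_one_add]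
    congr 2
    push_cast; ring

theorem derive9 (H0 : Hyp0 α β y) (hB : ∀ x, Ev α β y (relB bb ζ x) = 1) (g : SpecialLinearGroup (Fin 2) F)
    (hg : g.1 *ᵥ ee F = - ee F) : TT α β y 1 1 g * y = 1 := by
  have := hB (.inr 5)
  change Ev _ _ _ (TT (aM : Perm (Fin (m + 2)) →* MM m F) bM yM 1 1 (gg (-(ee F))) * yM) = 1 at this
  rw [map_mul, Ev_TT, Ev_yM] at this
  rwa [H0.TT_congr (u := 1) (u' := gg (-(ee F))) rfl rfl rfl (by rw [hg, gg_ee ne_c])]

theorem deriveE (hB : ∀ x, Ev α β y (relB bb ζ x) = 1) : RE α β y := by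
  have := hB (.inr 6)
  change Ev _ _ _ (rq (aM (swap 0 1)) (lm (aM : Perm (Fin (m + 2)) →* MM m F) bM 1 (-1) *
        (TT (aM : Perm (Fin (m + 2)) →* MM m F) bM yM 1 1 (gg (ff F)) *
          TT (aM : Perm (Fin (m + 2)) →* MM m F) bM yM 1 (gg (-(ff F))) 1 *
          TT (aM : Perm (Fin (m + 2)) →* MM m F) bM yM 1 1 (gg (ff F))))) = 1 at this
  rw [Ev_rq, map_mul, map_mul, map_mul, Ev_TT, Ev_TT, Ev_aM, Ev_lm] at this
  exact ⟨_, _, gg_ee ff_ne, gg_ee ne_d, this⟩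

/-- `n = 2` -/
theorem derive_two {α : Perm (Fin (0 + 2)) →* Γ} [Finite F] (hbb : Subgroup.closure (Set.range bb) = ⊤)
    (hζ : ∀ x : Fˣ, x ∈ Subgroup.zpowers ζ)
    (hB : ∀ x, Ev α β y (relB bb ζ x) = 1) : Hyp α β y ∧ RE α β y := by
  have h01 : ∀ k : Fin (0 + 2), k ≠ 0 → k = 1 := by
    intro k hk
    apply Fin.ext
    have h1 := k.2
    have h2 : k.val ≠ 0 := fun h => hk (Fin.ext h)
    have h3 : (1 : Fin (0 + 2)).val = 1 := rfl
    rw [h3]; omega
  have hπ : ∀ π : Perm (Fin (0 + 2)), π 0 = 0 → π = 1 := by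
    intro π h0
    ext k : 1
    by_cases hk : k = 0
    · rw [hk, h0]; rfl
    · have h1 := h01 k hk
      have h2 : π k ≠ 0 := fun h => hk (π.injective (h.trans h0.symm))
      rw [h01 _ h2, Perm.one_apply, h1]
  have H0 : Hyp0 α β y := derive0 (fun π h g => by rw [hπ π h, map_one, one_mul, mul_one])
    (fun π h _ => by rw [hπ π h, map_one, one_mul, mul_one]) hbb hζ hB
  exact ⟨{ toHyp0 := H0
           h7 := fun k h h' => absurd (h01 k h) h'
           h8 := fun c hc g g' hg hg' => derive8 H0 hζ hB c hc g g' hg hg'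
           h9 := fun g hg => derive9 H0 hB g hg
           h10 := fun k h h' => absurd (h01 k h) h'
           h11 := fun k h h' => absurd (h01 k h) h'
           h12 := fun k _ h h' => absurd (h01 k h) h' }, deriveE hB⟩

/-- `n ≥ 3` -/
theorem derive_more [Finite F] (hbb : Subgroup.closure (Set.range bb) = ⊤) (hζ : ∀ x : Fˣ, x ∈ Subgroup.zpowers ζ)
    {κ : Fin (m + 2)} (hκ0 : κ ≠ 0) (hκ1 : κ ≠ 1) {cc dd : Fin 2 → Perm (Fin (m + 2))}
    (hc : ∀ π : Perm (Fin (m + 2)), π 0 = 0 → π ∈ Subgroup.closure (Set.range cc))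
    (hd : ∀ π : Perm (Fin (m + 2)), π 0 = 0 → π 1 = 1 → π ∈ Subgroup.closure (Set.range dd))
    {π5 π7 : Perm (Fin (m + 2))} (h5 : π5 0 = 1 ∧ π5 1 = κ)
    (h7 : (∀ k l : Fin (m + 2), k ≠ 0 → k ≠ 1 → l ≠ 0 → l ≠ 1 → k = l) ∨
      (π7 0 ≠ 0 ∧ π7 0 ≠ 1 ∧ π7 1 ≠ 0 ∧ π7 1 ≠ 1))
    (hB : ∀ x, Ev α β y (relB bb ζ x) = 1) (hC : ∀ x, Ev α β y (relC bb κ cc dd π5 π7 x) = 1) :
    Hyp α β y ∧ RE α β y := by
  have h1 : ∀ π : Perm (Fin (m + 2)), π 0 = 0 → ∀ g, α π * β g = β g * α π := by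
    intro π h0 g
    apply comm_of_mem α (β g) (v := cc) _ (hc π h0)
    intro i
    apply (comm_of_gen hbb β (α (cc i)) _ g).symm
    intro j
    have := hC (.inl (i, j))
    unfold relC at this
    rw [Ev_cmm, Ev_bM, Ev_aM] at this
    exact this.symm
  have h3 : ∀ π : Perm (Fin (m + 2)), π 0 = 0 → π 1 = 1 → α π * y = y * α π := by
    intro π h0 h1
    apply comm_of_mem α y (v := dd) _ (hd π h0 h1)
    intro i
    have := hC (.inr (.inr (.inl i)))
    unfold relC at this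
    rwa [Ev_cmm, Ev_yM, Ev_aM] at this
  have H0 : Hyp0 α β y := derive0 h1 h3 hbb hζ hB
  have hs : ∀ k l x : Fin (m + 2), x ≠ k → x ≠ l → (swap k l) x = x := fun k l x h h' => swap_apply_of_ne_of_ne h h'
  have h01 := zo m
  have h10' := h01.symm
  refine ⟨{ toHyp0 := H0
            h7 := ?_
            h8 := fun c hc g g' hg hg' => derive8 H0 hζ hB c hc g g' hg hg'
            h9 := fun g hg => derive9 H0 hB g hg
            h10 := ?_
            h11 := ?_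
            h12 := ?_ }, deriveE hB⟩
  · intro k hk0 hk1 g
    have e1 := comm_of_gen hbb (lmH α β κ) y (fun j => by
      have := hC (.inr (.inl j))
      unfold relC at this
      rwa [Ev_cmm, Ev_yM, Ev_lm] at this) g
    change lm α β κ g * y = y * lm α β κ g at e1
    have e2 := H0.alpha_lm (swap κ k) κ g
    rw [swap_apply_left] at e2
    have e3 := h3 (swap κ k) (hs _ _ _ hκ0.symm hk0.symm) (hs _ _ _ hκ1.symm hk1.symm)
    rw [Hyp.conj_eq e2]
    have e4 : y = α (swap κ k) * y * (α (swap κ k))⁻¹ := Hyp.conj_eq e3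
    calc α (swap κ k) * lm α β κ g * (α (swap κ k))⁻¹ * y
        = α (swap κ k) * lm α β κ g * (α (swap κ k))⁻¹ * (α (swap κ k) * y * (α (swap κ k))⁻¹) := by rw [← e4]
      _ = α (swap κ k) * (lm α β κ g * y) * (α (swap κ k))⁻¹ := by group
      _ = (α (swap κ k) * y * (α (swap κ k))⁻¹) * (α (swap κ k) * lm α β κ g * (α (swap κ k))⁻¹) := by rw [e1]; group
      _ = _ := by rw [← e4]
  · intro k hk0 hk1
    have e1 : y * TT α β y (swap 1 κ) 1 1 = TT α β y (swap 1 κ) 1 1 * y := by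
      have : Ev α β y (cmm yM (TT (aM : Perm (Fin (m + 2)) →* MM m F) bM yM (swap 1 κ) 1 1)) = 1 :=
        hC (.inr (.inr (.inr 0)))
      rwa [Ev_cmm, Ev_yM, Ev_TT] at this
    have e3 := h3 (swap κ k) (hs _ _ _ hκ0.symm hk0.symm) (hs _ _ _ hκ1.symm hk1.symm)
    have e2 := alpha_TT (α := α) (β := β) (y := y) (swap κ k) (swap 1 κ) 1 1
    rw [H0.TT_congr (π := swap κ k * swap 1 κ) (π' := swap 1 k) (u := 1) (u' := 1)
      (by rw [Perm.mul_apply, hs 1 κ 0 h01 hκ0.symm, hs κ k 0 hκ0.symm hk0.symm, hs 1 k 0 h01 hk0.symm])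
      (by rw [Perm.mul_apply, swap_apply_left, swap_apply_left, swap_apply_left]) rfl rfl] at e2
    rw [Hyp.conj_eq e2]
    have e4 : y = α (swap κ k) * y * (α (swap κ k))⁻¹ := Hyp.conj_eq e3
    set S := α (swap κ k)
    set X := TT α β y (swap 1 κ) 1 1
    calc y * (S * X * S⁻¹) = (S * y * S⁻¹) * (S * X * S⁻¹) := by rw [← e4]
      _ = S * (y * X) * S⁻¹ := by group
      _ = (S * X * S⁻¹) * (S * y * S⁻¹) := by rw [e1]; group
      _ = _ := by rw [← e4]
  · intro k hk0 hk1 g g' π hg hg' hπ0 hπ1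
    have e1 : y * TT α β y (swap 1 κ) (gg (ff F)) 1 =
        TT α β y π5 (gg (-(ee F))) 1 * TT α β y (swap 1 κ) (gg (ff F)) 1 * y := by
      have := hC (.inr (.inr (.inr 1)))
      change Ev _ _ _ (rq (yM * TT (aM : Perm (Fin (m + 2)) →* MM m F) bM yM (swap 1 κ) (gg (ff F)) 1)
        (TT (aM : Perm (Fin (m + 2)) →* MM m F) bM yM π5 (gg (-(ee F))) 1 *
          TT (aM : Perm (Fin (m + 2)) →* MM m F) bM yM (swap 1 κ) (gg (ff F)) 1 * yM)) = 1 at this
      rwa [Ev_rq, map_mul, map_mul, map_mul, Ev_TT, Ev_TT, Ev_yM] at this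
    have e3 := h3 (swap κ k) (hs _ _ _ hκ0.symm hk0.symm) (hs _ _ _ hκ1.symm hk1.symm)
    have e2 := alpha_TT (α := α) (β := β) (y := y) (swap κ k) (swap 1 κ) (gg (ff F)) 1
    rw [H0.TT_congr (π := swap κ k * swap 1 κ) (π' := swap 1 k) (u := g) (u' := 1)
      (by rw [Perm.mul_apply, hs 1 κ 0 h01 hκ0.symm, hs κ k 0 hκ0.symm hk0.symm, hs 1 k 0 h01 hk0.symm])
      (by rw [Perm.mul_apply, swap_apply_left, swap_apply_left, swap_apply_left])
      (by rw [gg_ee ff_ne, hg]) rfl] at e2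
    have e5 := alpha_TT (α := α) (β := β) (y := y) (swap κ k) π5 (gg (-(ee F))) 1
    rw [H0.TT_congr (π := swap κ k * π5) (π' := π) (u := g') (u' := 1)
      (by rw [Perm.mul_apply, h5.1, hs κ k 1 hκ1.symm hk1.symm, hπ0])
      (by rw [Perm.mul_apply, h5.2, swap_apply_left, hπ1])
      (by rw [gg_ee ne_c, hg']) rfl] at e5
    rw [Hyp.conj_eq e2, Hyp.conj_eq e5]
    have e4 : y = α (swap κ k) * y * (α (swap κ k))⁻¹ := Hyp.conj_eq e3
    set S := α (swap κ k)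
    set X := TT α β y (swap 1 κ) (gg (ff F)) 1
    set Y := TT α β y π5 (gg (-(ee F))) 1
    calc y * (S * X * S⁻¹) = (S * y * S⁻¹) * (S * X * S⁻¹) := by rw [← e4]
      _ = S * (y * X) * S⁻¹ := by group
      _ = (S * Y * S⁻¹) * (S * X * S⁻¹) * (S * y * S⁻¹) := by rw [e1]; group
      _ = _ := by rw [← e4]
  · intro k l hk0 hk1 hl0 hl1 hkl π hπ0 hπ1
    rcases h7 with h7 | ⟨g0, g1, g2, g3⟩
    · exact absurd (h7 k l hk0 hk1 hl0 hl1) hkl
    set κ1 := π7 0 with hκ1'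
    set κ2 := π7 1 with hκ2'
    have hκ12 : κ1 ≠ κ2 := fun h => h01 (π7.injective h)
    have e1 : y * TT α β y π7 1 1 = TT α β y π7 1 1 * y := by
      have : Ev α β y (cmm yM (TT (aM : Perm (Fin (m + 2)) →* MM m F) bM yM π7 1 1)) = 1 :=
        hC (.inr (.inr (.inr 2)))
      rwa [Ev_cmm, Ev_yM, Ev_TT] at this
    -- the permutation
    set τ := swap κ1 k with hτ
    set κ3 := τ κ2 with hκ3
    have ht0 : τ 0 = 0 := hs _ _ _ g0.symm hk0.symm
    have ht1 : τ 1 = 1 := hs _ _ _ g1.symm hk1.symm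
    have h30 : κ3 ≠ 0 := fun h => g2 (τ.injective (h.trans ht0.symm))
    have h31 : κ3 ≠ 1 := fun h => g3 (τ.injective (h.trans ht1.symm))
    have h3k : κ3 ≠ k := fun h => hκ12 (τ.injective (by rw [hτ, swap_apply_left, ← hτ, ← hκ3, h]))
    set σ := swap l κ3 * τ with hσ
    have hs0 : σ 0 = 0 := by rw [hσ, Perm.mul_apply, ht0, hs _ _ _ hl0.symm h30.symm]
    have hs1 : σ 1 = 1 := by rw [hσ, Perm.mul_apply, ht1, hs _ _ _ hl1.symm h31.symm]
    have hs2 : σ κ1 = k := by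
      rw [hσ, Perm.mul_apply, hτ, swap_apply_left, hs _ _ _ hkl h3k.symm]
    have hs3 : σ κ2 = l := by
      rw [hσ, Perm.mul_apply, ← hκ3, swap_apply_right]
    have e3 := h3 σ hs0 hs1
    have e2 := alpha_TT (α := α) (β := β) (y := y) σ π7 1 1
    rw [H0.TT_congr (π := σ * π7) (π' := π) (u := 1) (u' := 1)
      (by rw [Perm.mul_apply, ← hκ1', hs2, hπ0]) (by rw [Perm.mul_apply, ← hκ2', hs3, hπ1]) rfl rfl] at e2
    rw [Hyp.conj_eq e2]
    have e4 : y = α σ * y * (α σ)⁻¹ := Hyp.conj_eq e3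
    set S := α σ
    set X := TT α β y π7 1 1
    calc y * (S * X * S⁻¹) = (S * y * S⁻¹) * (S * X * S⁻¹) := by rw [← e4]
      _ = S * (y * X) * S⁻¹ := by group
      _ = (S * X * S⁻¹) * (S * y * S⁻¹) := by rw [e1]; group
      _ = _ := by rw [← e4]

end H6.SpPres
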