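import Cfsg.Agent.Lib.H6.SpPresD
import Cfsg.Agent.S2286
import Cfsg.Agent.Lib.H6.SympPerfect
import Cfsg.Prelude.Def_Classical

/-!
Presentations of `Sp_2n(F)` and `PSp_2n(F)`.
-/

set_option autoImplicit false

namespace H6.SpPres

open H43.Tietze Monoid H6.SpSys Matrix Equiv

variable {F : Type*} [Field F] {m : ℕ}

/-- assembly with a prescribed generating triple of `SL₂(F)` -/
theorem assemble' {ra rb : ℕ} (ha : HasPres (Perm (Fin (m + 2))) 2 ra) (hb : HasPres (SpecialLinearGroup (Fin 2) F) 3 rb)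
    {J : Type} [Fintype J] (r : (Fin 3 → SpecialLinearGroup (Fin 2) F) → J → MM m F)
    (hSp : ∀ bb j, Ev (cA : Perm (Fin (m + 2)) →* symplecticGroup (Fin (m + 2)) F) (cL 0) (cT 0 1 (ee F) (ee F)) (r bb j) = 1)
    (hG : ∀ (bb : Fin 3 → SpecialLinearGroup (Fin 2) F), Subgroup.closure (Set.range bb) = ⊤ →
      ∀ (G : Type) [Group G] (α : Perm (Fin (m + 2)) →* G) (β : SpecialLinearGroup (Fin 2) F →* G) (y : G),
      (∀ j, Ev α β y (r bb j) = 1) → Hyp α β y ∧ RE α β y) :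
    HasPres (symplecticGroup (Fin (m + 2)) F) 6 (ra + rb + Fintype.card J) := by
  obtain ⟨bb, R, -, -, hP⟩ := hb.exists
  exact assemble ha hb (r bb) (hSp bb) (fun G _ α β y h => hG bb hP.gen G α β y h)

lemma sl_three [Finite F] : HasPres (SpecialLinearGroup (Fin 2) F) 3 9 := by
  have : Fintype F := Fintype.ofFinite F
  exact Cfsg.Agent.S2286.result.1

lemma exists_zeta [Finite F] : ∃ ζ : Fˣ, ∀ x : Fˣ, x ∈ Subgroup.zpowers ζ := IsCyclic.exists_generator

/-- `Sp_4` -/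
theorem sp_two [Finite F] : HasPres (symplecticGroup (Fin 2) F) 6 33 := by
  obtain ⟨ζ, hζ⟩ := exists_zeta (F := F)
  have := assemble' (m := 0) (F := F) (perm_two 2) sl_three (J := (Fin 3 × Fin 3) ⊕ Fin 7) (fun bb => relB bb ζ)
    (fun bb j => relB_conc bb ζ j) (fun bb hbb G _ α β y h => derive_two hbb hζ h)
  exact this

/-- `Sp_2n`, `n ≥ 3` -/
theorem sp_more [Finite F] (m : ℕ) (hm : 1 ≤ m) : HasPres (symplecticGroup (Fin (m + 2)) F) 6 47 := by
  obtain ⟨ζ, hζ⟩ := exists_zeta (F := F)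
  obtain ⟨cc, hc1, hc2⟩ := exists_stab_gen (N := m + 2) (fun x => x ≠ 0)
  obtain ⟨dd, hd1, hd2⟩ := exists_stab_gen (N := m + 2) (fun x => x ≠ 0 ∧ x ≠ 1)
  let κ : Fin (m + 2) := ⟨2, by omega⟩
  have hκ0 : κ ≠ 0 := fun h => by have := congrArg Fin.val h; simp [κ] at this
  have hκ1 : κ ≠ 1 := fun h => by have := congrArg Fin.val h; simp [κ] at this
  obtain ⟨π5, h5⟩ := exists_perm2 hκ1.symm
  obtain ⟨π7, h7⟩ : ∃ π7 : Perm (Fin (m + 2)),
      ((π7 = 1 ∧ ∀ k l : Fin (m + 2), k ≠ 0 → k ≠ 1 → l ≠ 0 → l ≠ 1 → k = l) ∨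
        (π7 0 ≠ 0 ∧ π7 0 ≠ 1 ∧ π7 1 ≠ 0 ∧ π7 1 ≠ 1)) := by
    by_cases h2 : 2 ≤ m
    · let κ' : Fin (m + 2) := ⟨3, by omega⟩
      have hκκ' : κ ≠ κ' := fun h => by have := congrArg Fin.val h; simp [κ, κ'] at this
      obtain ⟨π7, h1, h2⟩ := exists_perm2 hκκ'
      refine ⟨π7, Or.inr ⟨by rw [h1]; exact hκ0, by rw [h1]; exact hκ1, ?_, ?_⟩⟩
      · rw [h2]; intro h; have := congrArg Fin.val h; simp [κ'] at this
      · rw [h2]; intro h; have := congrArg Fin.val h; simp [κ'] at this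
    · obtain rfl : m = 1 := by omega
      refine ⟨1, Or.inl ⟨rfl, by decide⟩⟩
  have := assemble' (m := m) (F := F) (perm_two (m + 2)) sl_three
    (J := ((Fin 3 × Fin 3) ⊕ Fin 7) ⊕ ((Fin 2 × Fin 3) ⊕ Fin 3 ⊕ Fin 2 ⊕ Fin 3))
    (fun bb => Sum.elim (relB bb ζ) (relC bb κ cc dd π5 π7)) (by
      rintro bb (j | j)
      · exact relB_conc bb ζ j
      · exact relC_conc bb κ hκ0 hκ1 cc dd (fun i => hc1 i 0 (by simp))
          (fun i => ⟨hd1 i 0 (by simp), hd1 i 1 (by simp)⟩) π5 π7 h5 (h7.imp (fun h => h.1) id) j)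
    (fun bb hbb G _ α β y h => derive_more hbb hζ hκ0 hκ1 (fun π h0 => hc2 π (by
        intro x hx; rw [not_not] at hx; rw [hx, h0]))
      (fun π h0 h1 => hd2 π (by
        intro x hx
        by_cases hx0 : x = 0
        · rw [hx0, h0]
        · have : x = 1 := by
            by_contra hx1; exact hx ⟨hx0, hx1⟩
          rw [this, h1])) h5 (h7.imp (fun h => h.2) id) (fun x => h (.inl x)) (fun x => h (.inr x)))
  exact this

open SympPerfect in
lemma center_zpowers (n : ℕ) [NeZero n] : ∃ z : symplecticGroup (Fin n) F,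
    Subgroup.center (symplecticGroup (Fin n) F) = Subgroup.zpowers z := by
  have hm : (-1 : F) ^ 2 = 1 := by norm_num
  refine ⟨scal (-1) hm, ?_⟩
  apply le_antisymm
  · intro g hg
    rw [mem_center_iff] at hg
    obtain ⟨c, hc, h⟩ := hg
    have h1 : (c - 1) * (c + 1) = 0 := by linear_combination hc
    rcases mul_eq_zero.1 h1 with h2 | h2
    · have : g = 1 := by
        apply H6.Symp.ext_mulVec
        intro u
        rw [h, sub_eq_zero.1 h2, one_smul]
        change u = (1 : Matrix (Fin n ⊕ Fin n) (Fin n ⊕ Fin n) F) *ᵥ u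
        rw [Matrix.one_mulVec]
      rw [this]; exact one_mem _
    · have : g = scal (-1) hm := by
        apply H6.Symp.ext_mulVec
        intro u
        rw [h, scal_mulVec, eq_neg_of_add_eq_zero_left h2]
      rw [this]; exact Subgroup.mem_zpowers _
  · rw [Subgroup.zpowers_le, mem_center_iff]
    exact ⟨-1, hm, fun u => scal_mulVec _ _ u⟩

/-- quotient by the centre -/
theorem psp_of_sp {n : ℕ} [NeZero n] {g r : ℕ} (h : HasPres (symplecticGroup (Fin n) F) g r) :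
    HasPres (Cfsg.PSp n F) g (r + 1) := by
  obtain ⟨z, hz⟩ := center_zpowers (F := F) n
  exact h.quot _ z hz

end H6.SpPres
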