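import Mathlib

/-!
Symmetric matrices: a subspace of `n × n` matrices closed under `Q ↦ g Q gᵀ` for the upper Jordan block and,
on matrices with vanishing last row and column, under `Q ↦ g' Q g'ᵀ` for a lower bidiagonal matrix.
-/
set_option autoImplicit false

namespace H6.SpReg

open Matrix

variable {F : Type*} [Field F] {n : ℕ}

/-- standard vector -/
def ev (n : ℕ) (F : Type*) [Field F] (i : ℕ) : Fin n → F := fun j => if (j : ℕ) = i then 1 else 0

/-- predecessor vector -/
def pv (n : ℕ) (F : Type*) [Field F] (i : ℕ) : Fin n → F := if i = 0 then 0 else ev n F (i - 1)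

@[simp] theorem pv_zero : pv n F 0 = 0 := by simp [pv]
@[simp] theorem pv_succ (i : ℕ) : pv n F (i + 1) = ev n F i := by simp [pv]

def SQ (w : Fin n → F) : Matrix (Fin n) (Fin n) F := vecMulVec w w
def DD (w z : Fin n → F) : Matrix (Fin n) (Fin n) F := vecMulVec w z + vecMulVec z w

theorem SQ_apply (w : Fin n → F) (i j : Fin n) : SQ w i j = w i * w j := rfl
theorem DD_apply (w z : Fin n → F) (i j : Fin n) : DD w z i j = w i * z j + z i * w j := rfl

theorem conj_vmv (g : Matrix (Fin n) (Fin n) F) (w z : Fin n → F) :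
    g * vecMulVec w z * gᵀ = vecMulVec (g *ᵥ w) (g *ᵥ z) := by
  rw [mul_vecMulVec, vecMulVec_mul, vecMul_transpose]

theorem conj_SQ (g : Matrix (Fin n) (Fin n) F) (w : Fin n → F) : g * SQ w * gᵀ = SQ (g *ᵥ w) := conj_vmv g w w
theorem conj_DD (g : Matrix (Fin n) (Fin n) F) (w z : Fin n → F) : g * DD w z * gᵀ = DD (g *ᵥ w) (g *ᵥ z) := by
  rw [DD, DD, mul_add, add_mul, conj_vmv, conj_vmv]

theorem SQ_add (w z : Fin n → F) : SQ (w + z) = SQ w + DD w z + SQ z := by
  ext i j; simp only [SQ_apply, DD_apply, Pi.add_apply, Matrix.add_apply]; ring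
theorem SQ_smul (c : F) (w : Fin n → F) : SQ (c • w) = (c * c) • SQ w := by
  ext i j; simp only [SQ_apply, Pi.smul_apply, Matrix.smul_apply, smul_eq_mul]; ring
theorem DD_comm (w z : Fin n → F) : DD w z = DD z w := by
  ext i j; simp only [DD_apply]; ring
theorem DD_add_left (w w' z : Fin n → F) : DD (w + w') z = DD w z + DD w' z := by
  ext i j; simp only [DD_apply, Pi.add_apply, Matrix.add_apply]; ring
theorem DD_add_right (w z z' : Fin n → F) : DD w (z + z') = DD w z + DD w z' := by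
  ext i j; simp only [DD_apply, Pi.add_apply, Matrix.add_apply]; ring
theorem DD_smul_left (c : F) (w z : Fin n → F) : DD (c • w) z = c • DD w z := by
  ext i j; simp only [DD_apply, Pi.smul_apply, Matrix.smul_apply, smul_eq_mul]; ring
theorem DD_smul_right (c : F) (w z : Fin n → F) : DD w (c • z) = c • DD w z := by
  ext i j; simp only [DD_apply, Pi.smul_apply, Matrix.smul_apply, smul_eq_mul]; ring
theorem DD_self (w : Fin n → F) : DD w w = (2 : F) • SQ w := by
  ext i j; simp only [DD_apply, SQ_apply, Matrix.smul_apply, smul_eq_mul]; ring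
theorem DD_zero_left (z : Fin n → F) : DD 0 z = 0 := by
  ext i j; simp [DD_apply]
theorem SQ_zero : SQ (0 : Fin n → F) = 0 := by
  ext i j; simp [SQ_apply]

/-- vectors supported on the first `k` coordinates -/
def Wk (n : ℕ) (F : Type*) [Field F] (k : ℕ) : Submodule F (Fin n → F) where
  carrier := {w | ∀ j : Fin n, k ≤ (j : ℕ) → w j = 0}
  add_mem' := fun ha hb j hj => by simp [ha j hj, hb j hj]
  zero_mem' := fun j _ => rfl
  smul_mem' := fun c x hx j hj => by simp [hx j hj]

theorem mem_Wk {k : ℕ} {w : Fin n → F} : w ∈ Wk n F k ↔ ∀ j : Fin n, k ≤ (j : ℕ) → w j = 0 := Iff.rfl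

theorem ev_mem {i k : ℕ} (h : i < k) : ev n F i ∈ Wk n F k := by
  intro j hj
  rw [ev, if_neg (by omega)]

theorem eq_sum_ev (w : Fin n → F) : w = ∑ j : Fin n, w j • ev n F j := by
  funext i
  rw [Finset.sum_apply, Finset.sum_eq_single i]
  · simp [ev]
  · intro b _ hb
    simp only [Pi.smul_apply, ev, smul_eq_mul]
    rw [if_neg, mul_zero]
    intro h; exact hb (Fin.ext h.symm)
  · intro h; exact absurd (Finset.mem_univ _) h

theorem Wk_le {k : ℕ} {C : Submodule F (Fin n → F)} (h : ∀ j, j < k → ev n F j ∈ C) : Wk n F k ≤ C := by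
  intro w hw
  rw [eq_sum_ev w]
  refine C.sum_mem fun j _ => ?_
  by_cases hj : (j : ℕ) < k
  · exact C.smul_mem _ (h j hj)
  · rw [hw j (by omega), zero_smul]; exact C.zero_mem

theorem Wk_split {k : ℕ} (hk : k < n) {w : Fin n → F} (hw : w ∈ Wk n F (k + 1)) :
    ∃ w' ∈ Wk n F k, ∃ c : F, w = w' + c • ev n F k := by
  refine ⟨w - w ⟨k, hk⟩ • ev n F k, ?_, w ⟨k, hk⟩, by rw [sub_add_cancel]⟩
  intro j hj
  simp only [Pi.sub_apply, Pi.smul_apply, ev, smul_eq_mul]
  by_cases h : (j : ℕ) = k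
  · have : j = ⟨k, hk⟩ := Fin.ext h
    subst this; simp
  · rw [hw j (by omega), if_neg h]; simp

/-- vanishing last row and column -/
def Lst (Q : Matrix (Fin n) (Fin n) F) : Prop := ∀ i j : Fin n, ((i : ℕ) + 1 = n ∨ (j : ℕ) + 1 = n) → Q i j = 0

theorem lst_SQ {k : ℕ} (hk : k < n) {w : Fin n → F} (hw : w ∈ Wk n F k) : Lst (SQ w) := by
  intro i j h
  rw [SQ_apply]
  rcases h with h | h
  · rw [hw i (by omega), zero_mul]
  · rw [hw j (by omega), mul_zero]

theorem lst_DD {k : ℕ} (hk : k < n) {w z : Fin n → F} (hw : w ∈ Wk n F k) (hz : z ∈ Wk n F k) : Lst (DD w z) := by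
  intro i j h
  rw [DD_apply]
  rcases h with h | h
  · rw [hw i (by omega), hz i (by omega)]; simp
  · rw [hw j (by omega), hz j (by omega)]; simp

theorem Lst.smul {Q : Matrix (Fin n) (Fin n) F} (h : Lst Q) (c : F) : Lst (c • Q) := by
  intro i j hij
  rw [Matrix.smul_apply, h i j hij, smul_zero]

section sym

variable {B : Submodule F (Matrix (Fin n) (Fin n) F)} {g g' : Matrix (Fin n) (Fin n) F} {b : ℕ → F}

theorem sym_step (hg : ∀ Q ∈ B, g * Q * gᵀ ∈ B) (hg' : ∀ Q ∈ B, Lst Q → g' * Q * g'ᵀ ∈ B)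
    (hge : ∀ i, i < n → g *ᵥ ev n F i = ev n F i + pv n F i)
    (hge' : ∀ i, i + 1 < n → g' *ᵥ ev n F i = ev n F i + b i • ev n F (i + 1)) (hb : ∀ i, b i ≠ 0)
    {k : ℕ} (hk : k + 1 < n)
    (h : ∀ w ∈ Wk n F (k + 1), ∀ z ∈ Wk n F (k + 1), DD w z ∈ B ∧ SQ w ∈ B) :
    ∀ w ∈ Wk n F (k + 2), ∀ z ∈ Wk n F (k + 2), DD w z ∈ B ∧ SQ w ∈ B := by
  set y := ev n F (k + 1) with hy
  have hgy : g *ᵥ y = y + ev n F k := by rw [hy, hge _ hk, pv_succ]
  have hek : ev n F k ∈ Wk n F (k + 1) := ev_mem (by omega)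
  -- R
  have hR : DD (ev n F k) y + b k • SQ y ∈ B := by
    have h1 := hg' _ (h _ hek _ hek).2 (lst_SQ hk hek)
    rw [conj_SQ, hge' k hk, SQ_add, DD_smul_right, SQ_smul, ← hy] at h1
    have h2 := B.sub_mem h1 (h _ hek _ hek).2
    have h3 := B.smul_mem (b k)⁻¹ h2
    have h4 : (b k)⁻¹ • (SQ (ev n F k) + b k • DD (ev n F k) y + (b k * b k) • SQ y - SQ (ev n F k)) =
        DD (ev n F k) y + b k • SQ y := by
      rw [show SQ (ev n F k) + b k • DD (ev n F k) y + (b k * b k) • SQ y - SQ (ev n F k) =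
        b k • (DD (ev n F k) y + b k • SQ y) by rw [smul_add, smul_smul]; abel, smul_smul,
        inv_mul_cancel₀ (hb k), one_smul]
    rwa [h4] at h3
  -- the submodule C
  let C : Submodule F (Fin n → F) :=
    { carrier := {w | w ∈ Wk n F (k + 1) ∧ DD w y ∈ B}
      add_mem' := fun {a c} ha hc => ⟨add_mem ha.1 hc.1, by rw [DD_add_left]; exact B.add_mem ha.2 hc.2⟩
      zero_mem' := ⟨zero_mem _, by rw [DD_zero_left]; exact B.zero_mem⟩
      smul_mem' := fun c x hx => ⟨Submodule.smul_mem _ c hx.1, by rw [DD_smul_left]; exact B.smul_mem c hx.2⟩ }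
  have hgW : ∀ w ∈ Wk n F (k + 1), g *ᵥ w ∈ Wk n F (k + 1) := by
    have : Wk n F (k + 1) ≤ (Wk n F (k + 1)).comap (Matrix.mulVecLin g) := by
      apply Wk_le
      intro j hj
      rw [Submodule.mem_comap, mulVecLin_apply, hge j (by omega)]
      refine add_mem (ev_mem hj) ?_
      rcases j with _ | j
      · rw [pv_zero]; exact zero_mem _
      · rw [pv_succ]; exact ev_mem (by omega)
    exact fun w hw => this hw
  have hCg : ∀ w ∈ C, g *ᵥ w ∈ C := by
    intro w hw
    refine ⟨hgW w hw.1, ?_⟩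
    have h1 := hg _ hw.2
    rw [conj_DD, hgy, DD_add_right] at h1
    have h2 := B.sub_mem h1 (h _ (hgW w hw.1) _ hek).1
    rwa [add_sub_cancel_right] at h2
  have hpW : ∀ j, j < k + 1 → pv n F j ∈ Wk n F (k + 1) := by
    intro j hj
    rcases j with _ | j
    · rw [pv_zero]; exact zero_mem _
    · rw [pv_succ]; exact ev_mem (by omega)
  have hx : b k • ev n F k + pv n F k ∈ C := by
    refine ⟨add_mem (Submodule.smul_mem _ _ hek) (hpW k (by omega)), ?_⟩
    have h1 := B.sub_mem (hg _ hR) hR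
    rw [mul_add, add_mul, Matrix.mul_smul, Matrix.smul_mul, conj_DD, conj_SQ, hgy, hge k (by omega)] at h1
    have e1 : DD (ev n F k + pv n F k) (y + ev n F k) + b k • SQ (y + ev n F k) - (DD (ev n F k) y + b k • SQ y) =
        DD (b k • ev n F k + pv n F k) y + (DD (ev n F k + pv n F k) (ev n F k) + b k • SQ (ev n F k)) := by
      rw [SQ_add, DD_add_right, DD_add_left (ev n F k) (pv n F k) y, DD_add_left (b k • ev n F k), DD_smul_left,
        DD_comm y]
      module
    rw [e1] at h1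
    have h2 : DD (ev n F k + pv n F k) (ev n F k) + b k • SQ (ev n F k) ∈ B :=
      B.add_mem (h _ (add_mem hek (hpW k (by omega))) _ hek).1 (B.smul_mem _ (h _ hek _ hek).2)
    have h3 := B.sub_mem h1 h2
    rwa [add_sub_cancel_right] at h3
  have hdown : ∀ i, i ≤ k → b k • ev n F (k - i) + pv n F (k - i) ∈ C := by
    intro i
    induction i with
    | zero => intro _; exact hx
    | succ i ih =>
      intro hi
      have h1 := ih (by omega)
      have h2 := C.sub_mem (hCg _ h1) h1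
      obtain ⟨j, hj⟩ : ∃ j, k - i = j + 1 := ⟨k - i - 1, by omega⟩
      have hj' : k - (i + 1) = j := by omega
      rw [hj, pv_succ, mulVec_add, mulVec_smul, hge _ (by omega), hge _ (by omega), pv_succ] at h2
      rw [hj']
      have e1 : b k • (ev n F (j + 1) + ev n F j) + (ev n F j + pv n F j) - (b k • ev n F (j + 1) + ev n F j) =
          b k • ev n F j + pv n F j := by module
      rwa [e1] at h2
  have hup : ∀ i, i ≤ k → ev n F i ∈ C := by
    intro i
    induction i with
    | zero =>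
      intro _
      have h1 := hdown k le_rfl
      rw [Nat.sub_self, pv_zero, add_zero] at h1
      have h2 := C.smul_mem (b k)⁻¹ h1
      rwa [smul_smul, inv_mul_cancel₀ (hb k), one_smul] at h2
    | succ i ih =>
      intro hi
      have h1 := hdown (k - (i + 1)) (by omega)
      rw [show k - (k - (i + 1)) = i + 1 by omega, pv_succ] at h1
      have h2 := C.sub_mem h1 (ih (by omega))
      rw [add_sub_cancel_right] at h2
      have h3 := C.smul_mem (b k)⁻¹ h2
      rwa [smul_smul, inv_mul_cancel₀ (hb k), one_smul] at h3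
  have hWC : Wk n F (k + 1) ≤ C := Wk_le (fun j hj => hup j (by omega))
  have hyy : SQ y ∈ B := by
    have h1 := B.sub_mem hR (hWC hek).2
    rw [add_sub_cancel_left] at h1
    have h2 := B.smul_mem (b k)⁻¹ h1
    rwa [smul_smul, inv_mul_cancel₀ (hb k), one_smul] at h2
  intro w hw z hz
  obtain ⟨w', hw', c, rfl⟩ := Wk_split hk hw
  obtain ⟨z', hz', c', rfl⟩ := Wk_split hk hz
  rw [← hy]
  constructor
  · rw [DD_add_left, DD_add_right, DD_add_right, DD_smul_right, DD_smul_left, DD_smul_left, DD_smul_right, DD_comm y,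
      DD_self]
    exact B.add_mem (B.add_mem (h _ hw' _ hz').1 (B.smul_mem _ (hWC hw').2))
      (B.add_mem (B.smul_mem _ (hWC hz').2) (B.smul_mem _ (B.smul_mem _ (B.smul_mem _ hyy))))
  · rw [SQ_add, DD_smul_right, SQ_smul]
    exact B.add_mem (B.add_mem (h _ hw' _ hw').2 (B.smul_mem _ (hWC hw').2)) (B.smul_mem _ hyy)

theorem sym_full (hg : ∀ Q ∈ B, g * Q * gᵀ ∈ B) (hg' : ∀ Q ∈ B, Lst Q → g' * Q * g'ᵀ ∈ B)
    (hge : ∀ i, i < n → g *ᵥ ev n F i = ev n F i + pv n F i)
    (hge' : ∀ i, i + 1 < n → g' *ᵥ ev n F i = ev n F i + b i • ev n F (i + 1)) (hb : ∀ i, b i ≠ 0)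
    (h0 : SQ (ev n F 0) ∈ B) (w : Fin n → F) : SQ w ∈ B := by
  rcases Nat.eq_zero_or_pos n with hn | hn
  · subst hn
    have : SQ w = 0 := by ext i; exact i.elim0
    rw [this]; exact B.zero_mem
  have hall : ∀ k, k < n → ∀ w ∈ Wk n F (k + 1), ∀ z ∈ Wk n F (k + 1), DD w z ∈ B ∧ SQ w ∈ B := by
    intro k
    induction k with
    | zero =>
      intro _ w hw z hz
      obtain ⟨w', hw', c, rfl⟩ := Wk_split hn hw
      obtain ⟨z', hz', c', rfl⟩ := Wk_split hn hz
      have e1 : w' = 0 := funext fun j => hw' j (by omega)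
      have e2 : z' = 0 := funext fun j => hz' j (by omega)
      rw [e1, e2, zero_add, zero_add, SQ_smul, DD_smul_left, DD_smul_right, DD_self]
      exact ⟨B.smul_mem _ (B.smul_mem _ (B.smul_mem _ h0)), B.smul_mem _ h0⟩
    | succ k ih =>
      intro hk
      exact sym_step hg hg' hge hge' hb hk (ih (by omega))
  have := hall (n - 1) (by omega) w (fun j hj => by have := j.2; omega) w (fun j hj => by have := j.2; omega)
  exact this.2

end sym

end H6.SpReg
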