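import Cfsg.Agent.Lib.H6.SpRegA
import Cfsg.Agent.Lib.H16.SympTransv

/-!
Criterion: a subgroup of `Sp_2n(F)` containing all upper unipotent elements `[1 Q; 0 1]` and an element
`m(g') [1 0; d E 1]` is everything.  Field generation.
-/
set_option autoImplicit false

namespace H6.SpReg

open Matrix Cfsg H16.Symp H16.SympTransv

section field

variable {F : Type*} [Field F] [Fintype F]

/-- multipliers of an additive subgroup -/
def mulR (A : AddSubgroup F) : Subring F where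
  carrier := {x | ∀ d ∈ A, x * d ∈ A}
  mul_mem' := fun {a b} ha hb d hd => by rw [mul_assoc]; exact ha _ (hb _ hd)
  one_mem' := fun d hd => by rwa [one_mul]
  add_mem' := fun {a b} ha hb d hd => by rw [add_mul]; exact A.add_mem (ha _ hd) (hb _ hd)
  zero_mem' := fun d _ => by rw [zero_mul]; exact A.zero_mem
  neg_mem' := fun {a} ha d hd => by rw [neg_mul]; exact A.neg_mem (ha _ hd)

theorem mem_mulR {A : AddSubgroup F} {x : F} : x ∈ mulR A ↔ ∀ d ∈ A, x * d ∈ A := Iff.rfl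

theorem top_of_mulR {A : AddSubgroup F} (h : mulR A = ⊤) {c : F} (hc : c ∈ A) (hc0 : c ≠ 0) (x : F) : x ∈ A := by
  have h1 : x * c⁻¹ ∈ mulR A := by rw [h]; trivial
  have h2 := h1 c hc
  rwa [inv_mul_cancel_right₀ hc0] at h2

theorem subring_inv (R : Subring F) {x : F} (hx : x ∈ R) (hx0 : x ≠ 0) : x⁻¹ ∈ R := by
  have h1 := FiniteField.pow_card_sub_one_eq_one x hx0
  have h2 : 2 ≤ Fintype.card F := Fintype.one_lt_card
  have h3 : x⁻¹ = x ^ (Fintype.card F - 2) := by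
    apply inv_eq_of_mul_eq_one_right
    rw [← pow_succ', show Fintype.card F - 2 + 1 = Fintype.card F - 1 by omega]
    exact h1
  rw [h3]
  exact R.pow_mem hx _

theorem subring_top {ζ : Fˣ} (hζ : ∀ y : Fˣ, y ∈ Submonoid.powers ζ) (R : Subring F) (h : (ζ : F) ^ 2 ∈ R) :
    R = ⊤ := by
  have hsq : ∀ y : F, y ^ 2 ∈ R := by
    intro y
    by_cases hy : y = 0
    · rw [hy, zero_pow two_ne_zero]; exact R.zero_mem
    · obtain ⟨k, hk⟩ := hζ (Units.mk0 y hy)
      have : y = (ζ : F) ^ k := by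
        have := congrArg (fun u : Fˣ => (u : F)) hk
        simpa using this.symm
      rw [this, ← pow_mul, mul_comm k 2, pow_mul]
      exact R.pow_mem h k
  rw [eq_top_iff]
  intro x _
  by_cases h2 : (2 : F) = 0
  · haveI : CharP F 2 := CharTwo.of_one_ne_zero_of_two_eq_zero one_ne_zero h2
    obtain ⟨y, hy⟩ := FiniteField.isSquare_of_char_two (ringChar.eq F 2) x
    rw [hy, ← pow_two]; exact hsq y
  · have : x = ((x + 1) / 2) ^ 2 - ((x - 1) / 2) ^ 2 := by
      field_simp; ring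
    rw [this]
    exact R.sub_mem (hsq _) (hsq _)

theorem subring_top' {ζ : Fˣ} (hζ : ∀ y : Fˣ, y ∈ Submonoid.powers ζ) (R : Subring F) (h : 2 * (ζ : F) ^ 2 ∈ R) :
    (2 : F) ≠ 0 → R = ⊤ := by
  intro h2
  apply subring_top hζ
  have h3 : (2 : F) ∈ R := by
    have : (2 : F) = 1 + 1 := by norm_num
    rw [this]; exact R.add_mem R.one_mem R.one_mem
  have h4 := R.mul_mem (subring_inv R h3 h2) h
  rwa [← mul_assoc, inv_mul_cancel₀ h2, one_mul] at h4

end field

variable {F : Type*} [Field F] {n : ℕ}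

theorem mem_sp_iff {A : Matrix (Fin n ⊕ Fin n) (Fin n ⊕ Fin n) F} :
    A ∈ symplecticGroup (Fin n) F ↔ A * J (Fin n) F * Aᵀ = J (Fin n) F := Iff.rfl

/-- upper unipotent -/
def tq (Q : Matrix (Fin n) (Fin n) F) (hQ : Qᵀ = Q) : symplecticGroup (Fin n) F :=
  ⟨fromBlocks 1 Q 0 1, by
    rw [SymplecticGroup.mem_iff, J, fromBlocks_transpose, fromBlocks_multiply, fromBlocks_multiply]
    simp [hQ]⟩

/-- lower unipotent -/
def tl (Q : Matrix (Fin n) (Fin n) F) (hQ : Qᵀ = Q) : symplecticGroup (Fin n) F :=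
  ⟨fromBlocks 1 0 Q 1, by
    rw [SymplecticGroup.mem_iff, J, fromBlocks_transpose, fromBlocks_multiply, fromBlocks_multiply]
    simp [hQ]⟩

/-- Levi elements -/
def mm (g : (Matrix (Fin n) (Fin n) F)ˣ) : symplecticGroup (Fin n) F :=
  ⟨fromBlocks (g : Matrix (Fin n) (Fin n) F) 0 0 ((g⁻¹ : (Matrix (Fin n) (Fin n) F)ˣ) : Matrix (Fin n) (Fin n) F)ᵀ, by
    rw [SymplecticGroup.mem_iff, J, fromBlocks_transpose, fromBlocks_multiply, fromBlocks_multiply]
    have h1 : (g : Matrix (Fin n) (Fin n) F) * ((g⁻¹ : (Matrix (Fin n) (Fin n) F)ˣ) : Matrix (Fin n) (Fin n) F) = 1 :=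
      g.mul_inv
    have h2 : ((g⁻¹ : (Matrix (Fin n) (Fin n) F)ˣ) : Matrix (Fin n) (Fin n) F)ᵀ * (g : Matrix (Fin n) (Fin n) F)ᵀ = 1 := by
      rw [← transpose_mul, h1, transpose_one]
    simp only [Matrix.mul_zero, Matrix.zero_mul, add_zero, zero_add, Matrix.mul_neg, Matrix.mul_one, Matrix.neg_mul,
      transpose_transpose, transpose_zero, neg_zero, h1, h2]⟩

theorem coe_tq (Q : Matrix (Fin n) (Fin n) F) (hQ : Qᵀ = Q) :
    ((tq Q hQ : symplecticGroup (Fin n) F) : Matrix (Fin n ⊕ Fin n) (Fin n ⊕ Fin n) F) = fromBlocks 1 Q 0 1 := rfl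
theorem coe_tl (Q : Matrix (Fin n) (Fin n) F) (hQ : Qᵀ = Q) :
    ((tl Q hQ : symplecticGroup (Fin n) F) : Matrix (Fin n ⊕ Fin n) (Fin n ⊕ Fin n) F) = fromBlocks 1 0 Q 1 := rfl
theorem coe_mm (g : (Matrix (Fin n) (Fin n) F)ˣ) :
    ((mm g : symplecticGroup (Fin n) F) : Matrix (Fin n ⊕ Fin n) (Fin n ⊕ Fin n) F) =
      fromBlocks (g : Matrix (Fin n) (Fin n) F) 0 0
        ((g⁻¹ : (Matrix (Fin n) (Fin n) F)ˣ) : Matrix (Fin n) (Fin n) F)ᵀ := rfl

theorem coe_mulSp (A B : symplecticGroup (Fin n) F) :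
    ((A * B : symplecticGroup (Fin n) F) : Matrix (Fin n ⊕ Fin n) (Fin n ⊕ Fin n) F) =
      (A : Matrix (Fin n ⊕ Fin n) (Fin n ⊕ Fin n) F) * (B : Matrix (Fin n ⊕ Fin n) (Fin n ⊕ Fin n) F) := rfl

theorem conj_val {x y : symplecticGroup (Fin n) F} {P : Matrix (Fin n ⊕ Fin n) (Fin n ⊕ Fin n) F}
    (h : P * (x : Matrix (Fin n ⊕ Fin n) (Fin n ⊕ Fin n) F) =
      (x : Matrix (Fin n ⊕ Fin n) (Fin n ⊕ Fin n) F) * (y : Matrix (Fin n ⊕ Fin n) (Fin n ⊕ Fin n) F)) :
    ((x * y * x⁻¹ : symplecticGroup (Fin n) F) : Matrix (Fin n ⊕ Fin n) (Fin n ⊕ Fin n) F) = P := by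
  have h1 : (x : Matrix (Fin n ⊕ Fin n) (Fin n ⊕ Fin n) F) *
      ((x⁻¹ : symplecticGroup (Fin n) F) : Matrix (Fin n ⊕ Fin n) (Fin n ⊕ Fin n) F) = 1 := by
    rw [← coe_mulSp, mul_inv_cancel]; rfl
  rw [coe_mulSp, coe_mulSp, ← h, Matrix.mul_assoc, h1, Matrix.mul_one]

/-- the additive group of all `Q` with `[1 Q; 0 1] ∈ K` -/
def AK (K : Subgroup (symplecticGroup (Fin n) F)) : AddSubgroup (Matrix (Fin n) (Fin n) F) where
  carrier := {Q | ∃ x ∈ K, (x : Matrix (Fin n ⊕ Fin n) (Fin n ⊕ Fin n) F) = fromBlocks 1 Q 0 1}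
  zero_mem' := ⟨1, K.one_mem, by rw [fromBlocks_one]; rfl⟩
  add_mem' := by
    rintro a b ⟨x, hx, hx'⟩ ⟨y, hy, hy'⟩
    refine ⟨x * y, K.mul_mem hx hy, ?_⟩
    rw [coe_mulSp, hx', hy', fromBlocks_multiply]
    simp [add_comm]
  neg_mem' := by
    rintro a ⟨x, hx, hx'⟩
    refine ⟨x⁻¹, K.inv_mem hx, ?_⟩
    have h1 : (x : Matrix (Fin n ⊕ Fin n) (Fin n ⊕ Fin n) F) *
      ((x⁻¹ : symplecticGroup (Fin n) F) : Matrix (Fin n ⊕ Fin n) (Fin n ⊕ Fin n) F) = 1 := by
      rw [← coe_mulSp, mul_inv_cancel]; rfl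
    have h2 : fromBlocks 1 (-a) 0 1 * (x : Matrix (Fin n ⊕ Fin n) (Fin n ⊕ Fin n) F) = 1 := by
      rw [hx', fromBlocks_multiply]; simp
    have h3 := congrArg (fun z => fromBlocks 1 (-a) 0 1 * z) h1
    simp only [← Matrix.mul_assoc] at h3
    rw [h2, Matrix.one_mul, Matrix.mul_one] at h3
    exact h3

theorem mem_AK {K : Subgroup (symplecticGroup (Fin n) F)} {Q : Matrix (Fin n) (Fin n) F} :
    Q ∈ AK K ↔ ∃ x ∈ K, (x : Matrix (Fin n ⊕ Fin n) (Fin n ⊕ Fin n) F) = fromBlocks 1 Q 0 1 := Iff.rfl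

theorem conj_AK {K : Subgroup (symplecticGroup (Fin n) F)} {Q Q' : Matrix (Fin n) (Fin n) F} (hQ : Q ∈ AK K)
    {u : symplecticGroup (Fin n) F} (hu : u ∈ K)
    (h : fromBlocks 1 Q' 0 1 * (u : Matrix (Fin n ⊕ Fin n) (Fin n ⊕ Fin n) F) =
      (u : Matrix (Fin n ⊕ Fin n) (Fin n ⊕ Fin n) F) * fromBlocks 1 Q 0 1) : Q' ∈ AK K := by
  obtain ⟨x, hx, hx'⟩ := hQ
  refine ⟨u * x * u⁻¹, K.mul_mem (K.mul_mem hu hx) (K.inv_mem hu), ?_⟩
  apply conj_val
  rw [hx', h]

/-- the largest subspace of `AK K` -/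
def BK (K : Subgroup (symplecticGroup (Fin n) F)) : Submodule F (Matrix (Fin n) (Fin n) F) where
  carrier := {Q | ∀ c : F, c • Q ∈ AK K}
  zero_mem' := fun c => by rw [smul_zero]; exact (AK K).zero_mem
  add_mem' := fun ha hb c => by rw [smul_add]; exact (AK K).add_mem (ha c) (hb c)
  smul_mem' := fun c x hx d => by rw [smul_smul]; exact hx _

theorem mem_BK {K : Subgroup (symplecticGroup (Fin n) F)} {Q : Matrix (Fin n) (Fin n) F} :
    Q ∈ BK K ↔ ∀ c : F, c • Q ∈ AK K := Iff.rfl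

/-- `E` the last diagonal matrix unit -/
def EL (n : ℕ) (F : Type*) [Field F] : Matrix (Fin n) (Fin n) F := SQ (ev n F (n - 1))

theorem EL_symm : (EL n F)ᵀ = EL n F := by
  ext i j; simp only [transpose_apply, EL, SQ_apply]; ring

theorem lst_mul_EL {Q : Matrix (Fin n) (Fin n) F} (h : Lst Q) : Q * EL n F = 0 := by
  ext i j
  rw [Matrix.mul_apply]
  apply Finset.sum_eq_zero
  intro k _
  by_cases hk : (k : ℕ) + 1 = n
  · rw [h i k (Or.inr hk), zero_mul]
  · rw [EL, SQ_apply, ev, if_neg (by omega)]; simp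

theorem EL_mul_lst {Q : Matrix (Fin n) (Fin n) F} (h : Lst Q) : EL n F * Q = 0 := by
  ext i j
  rw [Matrix.mul_apply]
  apply Finset.sum_eq_zero
  intro k _
  by_cases hk : (k : ℕ) + 1 = n
  · rw [h k j (Or.inl hk), mul_zero]
  · rw [EL, SQ_apply, ev, ev, if_neg (show ¬ (k : ℕ) = n - 1 by omega)]; simp

theorem smul_symm {c : F} {Q : Matrix (Fin n) (Fin n) F} (h : Qᵀ = Q) : (c • Q)ᵀ = c • Q := by
  rw [transpose_smul, h]

/-- closure of `AK` under the upper unipotent element -/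
theorem AK_up {K : Subgroup (symplecticGroup (Fin n) F)} {g : (Matrix (Fin n) (Fin n) F)ˣ}
    {P : Matrix (Fin n) (Fin n) F} {hP : Pᵀ = P} (hu : tq P hP * mm g ∈ K)
    {Q : Matrix (Fin n) (Fin n) F} (hQ : Q ∈ AK K) : (g : Matrix (Fin n) (Fin n) F) * Q * (g : Matrix (Fin n) (Fin n) F)ᵀ ∈ AK K := by
  apply conj_AK hQ hu
  have h1 : (g : Matrix (Fin n) (Fin n) F)ᵀ * ((g⁻¹ : (Matrix (Fin n) (Fin n) F)ˣ) : Matrix (Fin n) (Fin n) F)ᵀ = 1 := by
    rw [← transpose_mul, g.inv_mul, transpose_one]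
  rw [coe_mulSp, coe_tq, coe_mm, fromBlocks_multiply, fromBlocks_multiply, fromBlocks_multiply]
  simp only [Matrix.one_mul, Matrix.mul_one, Matrix.mul_zero, Matrix.zero_mul, add_zero, zero_add, Matrix.mul_assoc, h1]
  rw [add_comm]

/-- closure of `AK` under the lower unipotent element -/
theorem AK_low {K : Subgroup (symplecticGroup (Fin n) F)} {g : (Matrix (Fin n) (Fin n) F)ˣ} {d : F}
    (hv : mm g * tl (d • EL n F) (smul_symm EL_symm) ∈ K)
    {Q : Matrix (Fin n) (Fin n) F} (hQ : Q ∈ AK K) (hl : Lst Q) :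
    (g : Matrix (Fin n) (Fin n) F) * Q * (g : Matrix (Fin n) (Fin n) F)ᵀ ∈ AK K := by
  apply conj_AK hQ hv
  have h1 : (g : Matrix (Fin n) (Fin n) F)ᵀ * ((g⁻¹ : (Matrix (Fin n) (Fin n) F)ˣ) : Matrix (Fin n) (Fin n) F)ᵀ = 1 := by
    rw [← transpose_mul, g.inv_mul, transpose_one]
  have h2 : (g : Matrix (Fin n) (Fin n) F)ᵀ * (((g⁻¹ : (Matrix (Fin n) (Fin n) F)ˣ) : Matrix (Fin n) (Fin n) F)ᵀ * EL n F) =
      EL n F := by rw [← Matrix.mul_assoc, h1, Matrix.one_mul]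
  rw [coe_mulSp, coe_tl, coe_mm, fromBlocks_multiply, fromBlocks_multiply, fromBlocks_multiply]
  simp only [Matrix.one_mul, Matrix.mul_one, Matrix.mul_zero, Matrix.zero_mul, add_zero, zero_add, Matrix.mul_assoc, h1,
    Matrix.mul_smul, Matrix.smul_mul, h2, lst_mul_EL hl, EL_mul_lst hl, smul_zero]

theorem tq_mem_of {K : Subgroup (symplecticGroup (Fin n) F)} {Q : Matrix (Fin n) (Fin n) F} {hQ : Qᵀ = Q} :
    tq Q hQ ∈ K ↔ Q ∈ AK K := by
  constructor
  · intro h; exact ⟨_, h, rfl⟩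
  · rintro ⟨x, hx, hx'⟩
    have : tq Q hQ = x := Subtype.ext (by rw [coe_tq, hx'])
    rwa [this]

/-- upper transvections -/
theorem tv_inl (w : Fin n → F) (c : F) (h : (c • SQ w)ᵀ = c • SQ w) : tv (Sum.elim w 0) c = tq (c • SQ w) h := by
  apply Subtype.ext
  rw [coe_tv, coe_tq]
  apply mulVec_ext
  intro x
  obtain ⟨a, b, rfl⟩ : ∃ a b, x = Sum.elim a b := ⟨x ∘ Sum.inl, x ∘ Sum.inr, (Sum.elim_comp_inl_inr x).symm⟩
  rw [sympTransvection_mulVec, sympForm_eq_sum, fromBlocks_mulVec]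
  funext i
  rcases i with i | i
  · simp only [Pi.add_apply, Pi.smul_apply, Sum.elim_inl, Sum.elim_inr, smul_eq_mul, Matrix.one_mulVec,
      Function.comp_def, Pi.zero_apply, mul_zero, smul_mulVec, SQ, vecMulVec_mulVec, MulOpposite.smul_eq_mul_unop,
      MulOpposite.unop_op, dotProduct]
    simp
    rw [Finset.sum_congr rfl (fun x _ => mul_comm (b x) (w x))]
    ring
  · simp [Function.comp_def]

/-- vectors all of whose transvections lie in `K` -/
def Fl (K : Subgroup (symplecticGroup (Fin n) F)) (x : Fin n ⊕ Fin n → F) : Prop := ∀ c : F, tv x c ∈ K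

theorem Fl.map {K : Subgroup (symplecticGroup (Fin n) F)} {x : Fin n ⊕ Fin n → F} (h : Fl K x)
    {k : symplecticGroup (Fin n) F} (hk : k ∈ K) :
    Fl K ((k : Matrix (Fin n ⊕ Fin n) (Fin n ⊕ Fin n) F) *ᵥ x) := by
  intro c
  have h1 : k * tv x c * k⁻¹ ∈ K := K.mul_mem (K.mul_mem hk (h c)) (K.inv_mem hk)
  have h2 : tv ((k : Matrix (Fin n ⊕ Fin n) (Fin n ⊕ Fin n) F) *ᵥ x) c = k * tv x c * k⁻¹ := by
    rw [eq_mul_inv_iff_mul_eq]
    apply Subtype.ext
    rw [coe_mulSp, coe_mulSp, coe_tv, coe_tv]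
    exact (mul_sympTransvection _ k.2 _ _).symm
  rwa [h2]

theorem Fl.smul {K : Subgroup (symplecticGroup (Fin n) F)} {x : Fin n ⊕ Fin n → F} (h : Fl K x) (a : F) :
    Fl K (a • x) := by
  intro c
  have : tv (a • x) c = tv x (c * a ^ 2) := Subtype.ext (sympTransvection_smul x a c)
  rw [this]; exact h _

theorem tv_act (w : Fin n ⊕ Fin n → F) (c : F) (x : Fin n ⊕ Fin n → F) :
    ((tv w c : symplecticGroup (Fin n) F) : Matrix (Fin n ⊕ Fin n) (Fin n ⊕ Fin n) F) *ᵥ x =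
      x + (c * sympForm n F x w) • w := by
  rw [coe_tv, sympTransvection_mulVec]

theorem Fl.extend {K : Subgroup (symplecticGroup (Fin n) F)} {X : Submodule F (Fin n ⊕ Fin n → F)}
    (hX : ∀ x ∈ X, Fl K x) (hperp : ∀ y, (∀ x ∈ X, sympForm n F y x = 0) → y ∈ X)
    {z : Fin n ⊕ Fin n → F} (hz : Fl K z) (hzX : z ∉ X) : ∀ x ∈ X ⊔ F ∙ z, Fl K x := by
  have key : ∀ x ∈ X, sympForm n F x z ≠ 0 → ∀ l : F, Fl K (x + l • z) := by
    intro x hx h l
    have h1 := (hX x hx).map (hz (l * (sympForm n F x z)⁻¹))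
    rw [tv_act, mul_assoc, inv_mul_cancel₀ h, mul_one] at h1
    exact h1
  obtain ⟨x1, hx1, hx1z⟩ : ∃ x ∈ X, sympForm n F x z ≠ 0 := by
    by_contra hcon
    push Not at hcon
    exact hzX (hperp z fun x hx => by rw [sympForm_swap, hcon x hx, neg_zero])
  intro x hx
  obtain ⟨y, hy, z', hz', rfl⟩ := Submodule.mem_sup.1 hx
  obtain ⟨l, rfl⟩ := Submodule.mem_span_singleton.1 hz'
  by_cases h : sympForm n F y z = 0
  · by_cases hl : l = 0
    · rw [hl, zero_smul, add_zero]; exact hX y hy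
    · obtain ⟨x2, hx2, hx2y⟩ : ∃ x ∈ X, sympForm n F (y + l • z) x ≠ 0 := by
        by_contra hcon
        push Not at hcon
        have h1 := X.sub_mem (hperp _ hcon) hy
        rw [add_sub_cancel_left] at h1
        have h2 := X.smul_mem l⁻¹ h1
        rw [smul_smul, inv_mul_cancel₀ hl, one_smul] at h2
        exact hzX h2
      obtain ⟨x', hx', hne, h5⟩ : ∃ x' ∈ X, sympForm n F x' z ≠ 0 ∧ sympForm n F (y + l • z) x' ≠ 0 := by
        by_cases e1 : sympForm n F (y + l • z) x1 = 0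
        · by_cases e2 : sympForm n F x2 z = 0
          · refine ⟨x1 + x2, X.add_mem hx1 hx2, ?_, ?_⟩
            · rw [sympForm_add_left, e2, add_zero]; exact hx1z
            · rw [sympForm_add_right, e1, zero_add]; exact hx2y
          · exact ⟨x2, hx2, e2, hx2y⟩
        · exact ⟨x1, hx1, hx1z, e1⟩
      have h1 : Fl K (y + x' + l • z) := by
        apply key _ (X.add_mem hy hx')
        rw [sympForm_add_left, h, zero_add]; exact hne
      have h6 := h1.map (hX x' hx' (-(sympForm n F (y + l • z) x')⁻¹))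
      rw [tv_act] at h6
      have e1 : y + x' + l • z + (-(sympForm n F (y + l • z) x')⁻¹ * sympForm n F (y + x' + l • z) x') • x' = y + l • z := by
        have : sympForm n F (y + x' + l • z) x' = sympForm n F (y + l • z) x' := by
          rw [sympForm_add_left, sympForm_add_left, sympForm_add_left, sympForm_self, add_zero]
        rw [this, neg_mul, inv_mul_cancel₀ h5]
        module
      rwa [e1] at h6
  · exact key y hy h l

theorem top_of_full {K : Subgroup (symplecticGroup (Fin n) F)} (hW : ∀ w : Fin n → F, SQ w ∈ BK K)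
    {g : (Matrix (Fin n) (Fin n) F)ˣ} {d : F} (hd : d ≠ 0) {b : ℕ → F} (hb : ∀ i, b i ≠ 0)
    (hv : mm g * tl (d • EL n F) (smul_symm EL_symm) ∈ K)
    (hge : ∀ i, i + 1 < n → (g : Matrix (Fin n) (Fin n) F) *ᵥ ev n F i = ev n F i + b i • ev n F (i + 1))
    (hge' : (g : Matrix (Fin n) (Fin n) F) *ᵥ ev n F (n - 1) = ev n F (n - 1)) : K = ⊤ := by
  have hFlW : ∀ w : Fin n → F, Fl K (Sum.elim w 0) := by
    intro w c
    rw [tv_inl w c (smul_symm (by ext i j; simp only [transpose_apply, SQ_apply]; ring)), tq_mem_of]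
    exact hW w c
  let W : Submodule F (Fin n ⊕ Fin n → F) :=
    { carrier := {x | ∀ i, x (Sum.inr i) = 0}
      add_mem' := fun ha hb i => by simp [ha i, hb i]
      zero_mem' := fun i => rfl
      smul_mem' := fun c x hx i => by simp [hx i] }
  have hWmem : ∀ x ∈ W, x = Sum.elim (x ∘ Sum.inl) 0 := by
    intro x hx
    funext i
    rcases i with i | i
    · rfl
    · exact hx i
  have hW1 : ∀ x ∈ W, Fl K x := fun x hx => by rw [hWmem x hx]; exact hFlW _
  obtain ⟨X, ⟨hWX, hX⟩, hmax⟩ := (wellFounded_gt (α := Submodule F (Fin n ⊕ Fin n → F))).has_min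
    {X | W ≤ X ∧ ∀ x ∈ X, Fl K x} ⟨W, le_rfl, hW1⟩
  have hperp : ∀ y, (∀ x ∈ X, sympForm n F y x = 0) → y ∈ X := by
    intro y hy
    apply hWX
    intro i
    have h1 : (Pi.single (Sum.inl i) 1 : Fin n ⊕ Fin n → F) ∈ W := by
      intro j
      simp
    have h2 := hy _ (hWX h1)
    rw [sympForm_single_inl] at h2
    exact h2
  have hinv : ∀ k ∈ K, ∀ x ∈ X, (k : Matrix (Fin n ⊕ Fin n) (Fin n ⊕ Fin n) F) *ᵥ x ∈ X := by
    intro k hk x hx
    by_contra hcon
    have h1 := Fl.extend hX hperp ((hX x hx).map hk) hcon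
    refine hmax (X ⊔ F ∙ ((k : Matrix (Fin n ⊕ Fin n) (Fin n ⊕ Fin n) F) *ᵥ x)) ⟨le_trans hWX le_sup_left, h1⟩ ?_
    refine lt_of_le_of_ne le_sup_left fun h => hcon ?_
    rw [h]
    exact Submodule.mem_sup_right (Submodule.mem_span_singleton_self _)
  -- the inverse of the lower element
  set v : symplecticGroup (Fin n) F := mm g * tl (d • EL n F) (smul_symm EL_symm) with hvdef
  have hvi : ((v⁻¹ : symplecticGroup (Fin n) F) : Matrix (Fin n ⊕ Fin n) (Fin n ⊕ Fin n) F) =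
      fromBlocks 1 0 (-(d • EL n F)) 1 *
        fromBlocks ((g⁻¹ : (Matrix (Fin n) (Fin n) F)ˣ) : Matrix (Fin n) (Fin n) F) 0 0 (g : Matrix (Fin n) (Fin n) F)ᵀ := by
    have h1 : (v : Matrix (Fin n ⊕ Fin n) (Fin n ⊕ Fin n) F) *
        ((v⁻¹ : symplecticGroup (Fin n) F) : Matrix (Fin n ⊕ Fin n) (Fin n ⊕ Fin n) F) = 1 := by
      rw [← coe_mulSp, mul_inv_cancel]; rfl
    have h2 : (fromBlocks 1 0 (-(d • EL n F)) 1 *
        fromBlocks ((g⁻¹ : (Matrix (Fin n) (Fin n) F)ˣ) : Matrix (Fin n) (Fin n) F) 0 0 (g : Matrix (Fin n) (Fin n) F)ᵀ) *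
        (v : Matrix (Fin n ⊕ Fin n) (Fin n ⊕ Fin n) F) = 1 := by
      have h3 : (g : Matrix (Fin n) (Fin n) F)ᵀ * ((g⁻¹ : (Matrix (Fin n) (Fin n) F)ˣ) : Matrix (Fin n) (Fin n) F)ᵀ = 1 := by
        rw [← transpose_mul, g.inv_mul, transpose_one]
      rw [hvdef, coe_mulSp, coe_mm, coe_tl, Matrix.mul_assoc, ← Matrix.mul_assoc (fromBlocks _ _ _ _) (fromBlocks _ _ _ _)
        (fromBlocks _ _ _ _), fromBlocks_multiply (((g⁻¹ : (Matrix (Fin n) (Fin n) F)ˣ) : Matrix (Fin n) (Fin n) F))]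
      simp only [Matrix.mul_zero, Matrix.zero_mul, add_zero, zero_add, g.inv_mul, h3]
      rw [fromBlocks_one, Matrix.one_mul, fromBlocks_multiply]
      simp
    have h4 := congrArg (fun z => (fromBlocks 1 0 (-(d • EL n F)) 1 *
        fromBlocks ((g⁻¹ : (Matrix (Fin n) (Fin n) F)ˣ) : Matrix (Fin n) (Fin n) F) 0 0 (g : Matrix (Fin n) (Fin n) F)ᵀ) * z) h1
    simp only [← Matrix.mul_assoc] at h4 h2
    rw [h2, Matrix.one_mul, Matrix.mul_one] at h4
    exact h4
  have hvact : ∀ a b' : Fin n → F, ((v⁻¹ : symplecticGroup (Fin n) F) : Matrix (Fin n ⊕ Fin n) (Fin n ⊕ Fin n) F) *ᵥ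
      (Sum.elim a b') = Sum.elim (((g⁻¹ : (Matrix (Fin n) (Fin n) F)ˣ) : Matrix (Fin n) (Fin n) F) *ᵥ a)
        (-(d • (EL n F *ᵥ (((g⁻¹ : (Matrix (Fin n) (Fin n) F)ˣ) : Matrix (Fin n) (Fin n) F) *ᵥ a))) +
          (g : Matrix (Fin n) (Fin n) F)ᵀ *ᵥ b') := by
    intro a b'
    rw [hvi, ← mulVec_mulVec, fromBlocks_mulVec, fromBlocks_mulVec]
    simp [Function.comp_def, neg_mulVec, smul_mulVec]
  let Y : Submodule F (Fin n → F) :=
    { carrier := {y | Sum.elim (0 : Fin n → F) y ∈ X}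
      add_mem' := fun {a c} ha hc => by
        have := X.add_mem ha hc
        rwa [show (Sum.elim (0 : Fin n → F) a + Sum.elim (0 : Fin n → F) c : Fin n ⊕ Fin n → F) =
            Sum.elim (0 : Fin n → F) (a + c) by
          funext i; rcases i with i | i <;> simp] at this
      zero_mem' := by
        have := X.zero_mem
        rwa [show (0 : Fin n ⊕ Fin n → F) = Sum.elim (0 : Fin n → F) (0 : Fin n → F) by funext i; rcases i with i | i <;> simp] at this
      smul_mem' := fun c x hx => by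
        have := X.smul_mem c hx
        rwa [show (c • Sum.elim (0 : Fin n → F) x : Fin n ⊕ Fin n → F) = Sum.elim (0 : Fin n → F) (c • x) by
          funext i; rcases i with i | i <;> simp] at this }
  have hsplit : ∀ a b' : Fin n → F, Sum.elim a b' ∈ X → b' ∈ Y := by
    intro a b' h
    have h1 : Sum.elim a (0 : Fin n → F) ∈ X := hWX (fun i => rfl)
    have h2 := X.sub_mem h h1
    change Sum.elim (0 : Fin n → F) b' ∈ X
    rwa [show (Sum.elim a b' - Sum.elim a (0 : Fin n → F) : Fin n ⊕ Fin n → F) = Sum.elim (0 : Fin n → F) b' by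
      funext i; rcases i with i | i <;> simp] at h2
  have hgi : ((g⁻¹ : (Matrix (Fin n) (Fin n) F)ˣ) : Matrix (Fin n) (Fin n) F) *ᵥ ev n F (n - 1) = ev n F (n - 1) := by
    conv_lhs => rw [← hge']
    rw [mulVec_mulVec, g.inv_mul, one_mulVec]
  rcases Nat.eq_zero_or_pos n with hn | hn
  · subst hn
    rw [eq_top_iff]
    intro x _
    have : x = 1 := by
      apply Subtype.ext
      ext i
      rcases i with i | i <;> exact i.elim0
    rw [this]; exact K.one_mem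
  have hlast : ev n F (n - 1) ∈ Y := by
    have h1 : Sum.elim (ev n F (n - 1)) 0 ∈ X := hWX (fun i => rfl)
    have h2 := hinv _ (K.inv_mem hv) _ h1
    rw [hvact, hgi, mulVec_zero, add_zero] at h2
    have h3 := hsplit _ _ h2
    have h4 : EL n F *ᵥ ev n F (n - 1) = ev n F (n - 1) := by
      rw [EL, SQ, vecMulVec_mulVec]
      have : ev n F (n - 1) ⬝ᵥ ev n F (n - 1) = 1 := by
        rw [dotProduct, Finset.sum_eq_single (⟨n - 1, by omega⟩ : Fin n)]
        · simp [ev]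
        · intro j _ hj
          rw [ev, if_neg, zero_mul]
          intro h; exact hj (Fin.ext h)
        · intro h; exact absurd (Finset.mem_univ _) h
      rw [this]; simp
    rw [h4] at h3
    have h5 := Y.smul_mem (-d⁻¹) h3
    rwa [smul_neg, neg_smul, neg_neg, smul_smul, inv_mul_cancel₀ hd, one_smul] at h5
  have hgT : ∀ y ∈ Y, (g : Matrix (Fin n) (Fin n) F)ᵀ *ᵥ y ∈ Y := by
    intro y hy
    have h2 := hinv _ (K.inv_mem hv) _ hy
    rw [hvact, mulVec_zero, mulVec_zero, smul_zero, neg_zero, zero_add] at h2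
    exact h2
  have hgTe : ∀ i, i + 1 < n → (g : Matrix (Fin n) (Fin n) F)ᵀ *ᵥ ev n F (i + 1) = ev n F (i + 1) + b i • ev n F i := by
    intro i hi
    have hcol : ∀ k : ℕ, ∀ hk : k < n, ∀ j : Fin n, (g : Matrix (Fin n) (Fin n) F) j ⟨k, hk⟩ =
        ((g : Matrix (Fin n) (Fin n) F) *ᵥ ev n F k) j := by
      intro k hk j
      rw [mulVec, dotProduct, Finset.sum_eq_single (⟨k, hk⟩ : Fin n)]
      · simp [ev]
      · intro l _ hl
        rw [ev, if_neg, mul_zero]
        intro h; exact hl (Fin.ext h)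
      · intro h; exact absurd (Finset.mem_univ _) h
    funext j
    rw [mulVec, dotProduct, Finset.sum_eq_single (⟨i + 1, hi⟩ : Fin n)]
    · rw [transpose_apply]
      have h1 := hcol j j.2 ⟨i + 1, hi⟩
      rw [h1]
      by_cases hj : (j : ℕ) + 1 < n
      · rw [hge j hj]
        simp only [Pi.add_apply, Pi.smul_apply, ev, smul_eq_mul, if_true, mul_one]
        by_cases e1 : (j : ℕ) = i
        · rw [e1]; simp
        · rw [if_neg (show ¬ i + 1 = (j : ℕ) + 1 by omega), if_neg e1]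
          by_cases e2 : i + 1 = (j : ℕ)
          · rw [if_pos e2, if_pos e2.symm]; simp
          · rw [if_neg e2, if_neg (Ne.symm e2)]; simp
      · have : (j : ℕ) = n - 1 := by omega
        rw [this, hge']
        simp only [Pi.add_apply, Pi.smul_apply, ev, smul_eq_mul, if_true, mul_one]
        rw [if_neg (show ¬ (j : ℕ) = i by omega)]
        by_cases e2 : i + 1 = n - 1
        · rw [if_pos e2, if_pos (show (j : ℕ) = i + 1 by omega)]; simp
        · rw [if_neg e2, if_neg (show ¬ (j : ℕ) = i + 1 by omega)]; simp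
    · intro l _ hl
      rw [ev, if_neg, mul_zero]
      intro h; exact hl (Fin.ext h)
    · intro h; exact absurd (Finset.mem_univ _) h
  have hall : ∀ i, i < n → ev n F (n - 1 - i) ∈ Y := by
    intro i
    induction i with
    | zero => intro _; exact hlast
    | succ i ih =>
      intro hi
      obtain ⟨j, hj⟩ : ∃ j, n - 1 - i = j + 1 := ⟨n - 1 - i - 1, by omega⟩
      have h1 := ih (by omega)
      rw [hj] at h1
      have h2 := Y.sub_mem (hgT _ h1) h1
      rw [hgTe j (by omega), add_sub_cancel_left] at h2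
      have h3 := Y.smul_mem (b j)⁻¹ h2
      rw [smul_smul, inv_mul_cancel₀ (hb j), one_smul] at h3
      rwa [show n - 1 - (i + 1) = j by omega]
  have hY : ∀ y, y ∈ Y := by
    intro y
    rw [eq_sum_ev y]
    refine Y.sum_mem fun j _ => Y.smul_mem _ ?_
    have := hall (n - 1 - j) (by omega)
    rwa [show n - 1 - (n - 1 - (j : ℕ)) = j by have := j.2; omega] at this
  have hXtop : ∀ x, x ∈ X := by
    intro x
    have h1 : x = Sum.elim (x ∘ Sum.inl) (0 : Fin n → F) + Sum.elim (0 : Fin n → F) (x ∘ Sum.inr) := by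
      funext i; rcases i with i | i <;> simp
    rw [h1]
    exact X.add_mem (hWX (fun i => rfl)) (hY _)
  rw [eq_top_iff, ← tvGroup_eq_top, tvGroup, Subgroup.closure_le]
  rintro A ⟨w, -, c, rfl⟩
  exact hX w (hXtop w) c

end H6.SpReg
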