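import Cfsg.Agent.Lib.H6.SpRegB

/-!
Field generation for the root subgroup of the highest root: odd characteristic (`n ≥ 2`) and
characteristic two (`n ≥ 3`).
-/
set_option autoImplicit false

namespace H6.SpReg

open Matrix Cfsg H16.Symp H16.SympTransv

variable {F : Type*} [Field F] {n : ℕ}

/-- multiples of a fixed matrix lying in `A` -/
def lineS (A : AddSubgroup (Matrix (Fin n) (Fin n) F)) (Q : Matrix (Fin n) (Fin n) F) : AddSubgroup F where
  carrier := {d | d • Q ∈ A}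
  zero_mem' := by change (0 : F) • Q ∈ A; rw [zero_smul]; exact A.zero_mem
  add_mem' := fun {a b} ha hb => by
    change (a + b) • Q ∈ A
    rw [add_smul]; exact A.add_mem ha hb
  neg_mem' := fun {a} ha => by
    change (-a) • Q ∈ A
    rw [neg_smul]; exact A.neg_mem ha

theorem mem_lineS {A : AddSubgroup (Matrix (Fin n) (Fin n) F)} {Q : Matrix (Fin n) (Fin n) F} {d : F} :
    d ∈ lineS A Q ↔ d • Q ∈ A := Iff.rfl

section

variable {A : AddSubgroup (Matrix (Fin n) (Fin n) F)} {g g' : Matrix (Fin n) (Fin n) F} {b : ℕ → F}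

theorem base_odd [Fintype F] (h2 : (2 : F) ≠ 0) (hn : 2 ≤ n) (hg : ∀ Q ∈ A, g * Q * gᵀ ∈ A)
    (hg' : ∀ Q ∈ A, Lst Q → g' * Q * g'ᵀ ∈ A)
    (hge : ∀ i, i < n → g *ᵥ ev n F i = ev n F i + pv n F i)
    (hge' : ∀ i, i + 1 < n → g' *ᵥ ev n F i = ev n F i + b i • ev n F (i + 1))
    {ζ : Fˣ} (hζ : ∀ y : Fˣ, y ∈ Submonoid.powers ζ) (hb0 : b 0 = ζ)
    {c : F} (hc : c ≠ 0) (hcA : c • SQ (ev n F 0) ∈ A) (x : F) : x • SQ (ev n F 0) ∈ A := by
  have hmul : 2 * (ζ : F) ^ 2 ∈ mulR (lineS A (SQ (ev n F 0))) := by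
    intro d hd
    rw [mem_lineS] at hd ⊢
    have e0 : g *ᵥ ev n F 0 = ev n F 0 := by rw [hge 0 (by omega), pv_zero, add_zero]
    have e1 : g *ᵥ ev n F 1 = ev n F 1 + ev n F 0 := by rw [hge 1 (by omega), pv_succ]
    have h1 := hg' _ hd ((lst_SQ (k := 1) (by omega) (ev_mem (by omega))).smul d)
    rw [Matrix.mul_smul, Matrix.smul_mul, conj_SQ, hge' 0 (by omega), hb0] at h1
    have h3 := hg _ h1
    rw [Matrix.mul_smul, Matrix.smul_mul, conj_SQ, mulVec_add, mulVec_smul, e0, e1] at h3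
    have h4 := hg _ h3
    rw [Matrix.mul_smul, Matrix.smul_mul, conj_SQ, mulVec_add, mulVec_smul, mulVec_add, e0, e1] at h4
    have h5 := A.add_mem (A.sub_mem h1 (A.add_mem h3 h3)) h4
    convert h5 using 1
    ext i j
    simp only [SQ_apply, Matrix.smul_apply, Matrix.add_apply, Matrix.sub_apply, smul_eq_mul, Pi.add_apply, Pi.smul_apply]
    ring
  exact top_of_mulR (subring_top' hζ _ hmul h2) (A := lineS A (SQ (ev n F 0))) hcA hc x

theorem base_two [Fintype F] (h2 : (2 : F) = 0) (hn : 3 ≤ n) (hg : ∀ Q ∈ A, g * Q * gᵀ ∈ A)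
    (hg' : ∀ Q ∈ A, Lst Q → g' * Q * g'ᵀ ∈ A)
    (hge : ∀ i, i < n → g *ᵥ ev n F i = ev n F i + pv n F i)
    (hge' : ∀ i, i + 1 < n → g' *ᵥ ev n F i = ev n F i + b i • ev n F (i + 1))
    {ζ : Fˣ} (hζ : ∀ y : Fˣ, y ∈ Submonoid.powers ζ) (hb0 : b 0 = ζ) (hb1 : b 1 = 1)
    {c : F} (hc : c ≠ 0) (hcA : c • SQ (ev n F 0) ∈ A) (x : F) : x • SQ (ev n F 0) ∈ A := by
  have e0 : g *ᵥ ev n F 0 = ev n F 0 := by rw [hge 0 (by omega), pv_zero, add_zero]
  have e1 : g *ᵥ ev n F 1 = ev n F 1 + ev n F 0 := by rw [hge 1 (by omega), pv_succ]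
  have e2 : g *ᵥ ev n F 2 = ev n F 2 + ev n F 1 := by rw [hge 2 (by omega), pv_succ]
  have f0 : g' *ᵥ ev n F 0 = ev n F 0 + (ζ : F) • ev n F 1 := by rw [hge' 0 (by omega), hb0]
  have f1 : g' *ᵥ ev n F 1 = ev n F 1 + ev n F 2 := by rw [hge' 1 (by omega), hb1, one_smul]
  have hz : (ζ : F) ≠ 0 := ζ.ne_zero
  -- step a
  have ha : ∀ d : F, d • SQ (ev n F 0) ∈ A → (d * (ζ : F) ^ 2) • DD (ev n F 0) (ev n F 1) ∈ A := by
    intro d hd
    have h1 := hg' _ hd ((lst_SQ (k := 1) (by omega) (ev_mem (by omega))).smul d)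
    rw [Matrix.mul_smul, Matrix.smul_mul, conj_SQ, f0] at h1
    have h3 := hg' _ h1 ((lst_SQ (k := 2) (by omega)
      (add_mem (ev_mem (by omega)) (Submodule.smul_mem _ _ (ev_mem (by omega))))).smul d)
    rw [Matrix.mul_smul, Matrix.smul_mul, conj_SQ] at h3
    have h4 := hg _ h3
    rw [Matrix.mul_smul, Matrix.smul_mul, conj_SQ] at h4
    have h5 := hg _ h4
    rw [Matrix.mul_smul, Matrix.smul_mul, conj_SQ] at h5
    have h6 := hg _ h5
    rw [Matrix.mul_smul, Matrix.smul_mul, conj_SQ] at h6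
    simp only [mulVec_add, mulVec_smul, f0, f1, e0, e1, e2] at h3 h4 h5 h6
    have h7 := A.add_mem (A.add_mem h3 h4) (A.add_mem h5 h6)
    convert h7 using 1
    ext i j
    simp only [SQ_apply, DD_apply, Matrix.smul_apply, Matrix.add_apply, smul_eq_mul, Pi.add_apply, Pi.smul_apply]
    linear_combination ((-2) * ev n F 0 j * ev n F 0 i * d + (-16) * ev n F 0 j * ev n F 0 i * d * (ζ : F) +
      (-55) * ev n F 0 j * ev n F 0 i * d * (ζ : F) * (ζ : F) + (-7) * ev n F 0 j * ev n F 1 i * d * (ζ : F) +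
      (-35) * ev n F 0 j * ev n F 1 i * d * (ζ : F) * (ζ : F) + (-2) * ev n F 0 j * ev n F 2 i * d * (ζ : F) +
      (-8) * ev n F 0 j * ev n F 2 i * d * (ζ : F) * (ζ : F) + (-7) * ev n F 1 j * ev n F 0 i * d * (ζ : F) +
      (-35) * ev n F 1 j * ev n F 0 i * d * (ζ : F) * (ζ : F) + (-27) * ev n F 1 j * ev n F 1 i * d * (ζ : F) * (ζ : F) +
      (-7) * ev n F 1 j * ev n F 2 i * d * (ζ : F) * (ζ : F) + (-2) * ev n F 2 j * ev n F 0 i * d * (ζ : F) +
      (-8) * ev n F 2 j * ev n F 0 i * d * (ζ : F) * (ζ : F) + (-7) * ev n F 2 j * ev n F 1 i * d * (ζ : F) * (ζ : F) +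
      (-2) * ev n F 2 j * ev n F 2 i * d * (ζ : F) * (ζ : F)) * h2
  have hb : (ζ : F) ∈ mulR (lineS A (DD (ev n F 0) (ev n F 1))) := by
    intro d hd
    rw [mem_lineS] at hd ⊢
    have h1 := hg' _ hd ((lst_DD (k := 2) (by omega) (ev_mem (by omega)) (ev_mem (by omega))).smul d)
    rw [Matrix.mul_smul, Matrix.smul_mul, conj_DD] at h1
    have h3 := hg _ h1
    rw [Matrix.mul_smul, Matrix.smul_mul, conj_DD] at h3
    have h4 := hg _ h3
    rw [Matrix.mul_smul, Matrix.smul_mul, conj_DD] at h4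
    simp only [mulVec_add, mulVec_smul, f0, f1, e0, e1, e2] at h1 h4
    have h7 := A.add_mem h1 h4
    convert h7 using 1
    ext i j
    simp only [DD_apply, Matrix.smul_apply, Matrix.add_apply, smul_eq_mul, Pi.add_apply, Pi.smul_apply]
    linear_combination ((-3) * ev n F 0 j * ev n F 0 i * d + (-6) * ev n F 0 j * ev n F 0 i * d * (ζ : F) +
      (-2) * ev n F 0 j * ev n F 1 i * d + (-4) * ev n F 0 j * ev n F 1 i * d * (ζ : F) + (-1) * ev n F 0 j * ev n F 2 i * d +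
      (-1) * ev n F 0 j * ev n F 2 i * d * (ζ : F) + (-2) * ev n F 1 j * ev n F 0 i * d +
      (-4) * ev n F 1 j * ev n F 0 i * d * (ζ : F) + (-4) * ev n F 1 j * ev n F 1 i * d * (ζ : F) +
      (-1) * ev n F 1 j * ev n F 2 i * d * (ζ : F) + (-1) * ev n F 2 j * ev n F 0 i * d +
      (-1) * ev n F 2 j * ev n F 0 i * d * (ζ : F) + (-1) * ev n F 2 j * ev n F 1 i * d * (ζ : F)) * h2
  have hD : ∀ y : F, y • DD (ev n F 0) (ev n F 1) ∈ A := by
    intro y
    have h1 := subring_top hζ _ ((mulR (lineS A (DD (ev n F 0) (ev n F 1)))).pow_mem hb 2)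
    exact top_of_mulR h1 (A := lineS A (DD (ev n F 0) (ev n F 1))) (ha c hcA) (mul_ne_zero hc (pow_ne_zero 2 hz)) y
  have hmul : (ζ : F) ^ 2 ∈ mulR (lineS A (SQ (ev n F 0))) := by
    intro d hd
    rw [mem_lineS] at hd ⊢
    have h1 := hg' _ hd ((lst_SQ (k := 1) (by omega) (ev_mem (by omega))).smul d)
    rw [Matrix.mul_smul, Matrix.smul_mul, conj_SQ] at h1
    have h3 := hg _ h1
    rw [Matrix.mul_smul, Matrix.smul_mul, conj_SQ] at h3
    simp only [mulVec_add, mulVec_smul, f0, f1, e0, e1, e2] at h1 h3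
    have h7 := A.sub_mem (A.add_mem h1 h3) (hD (d * (ζ : F) * (ζ : F)))
    convert h7 using 1
    ext i j
    simp only [SQ_apply, DD_apply, Matrix.smul_apply, Matrix.add_apply, Matrix.sub_apply, smul_eq_mul, Pi.add_apply,
      Pi.smul_apply]
    linear_combination ((-1) * ev n F 0 j * ev n F 0 i * d + (-1) * ev n F 0 j * ev n F 0 i * d * (ζ : F) +
      (-1) * ev n F 0 j * ev n F 1 i * d * (ζ : F) + (-1) * ev n F 1 j * ev n F 0 i * d * (ζ : F) +
      (-1) * ev n F 1 j * ev n F 1 i * d * (ζ : F) * (ζ : F)) * h2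
  exact top_of_mulR (subring_top hζ _ hmul) (A := lineS A (SQ (ev n F 0))) hcA hc x

end

end H6.SpReg
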