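import Cfsg.Agent.Lib.H6.SpRegC

/-!
The case `n = 2`, characteristic two.
-/
set_option autoImplicit false

namespace H6.SpReg

open Matrix Cfsg H16.Symp H16.SympTransv

section gen

variable {F : Type*} [Field F] {n : ℕ}

theorem tq_ext {Q Q' : Matrix (Fin n) (Fin n) F} {hQ : Qᵀ = Q} {hQ' : Q'ᵀ = Q'} (h : Q = Q') : tq Q hQ = tq Q' hQ' := by
  subst h; rfl
theorem tl_ext {Q Q' : Matrix (Fin n) (Fin n) F} {hQ : Qᵀ = Q} {hQ' : Q'ᵀ = Q'} (h : Q = Q') : tl Q hQ = tl Q' hQ' := by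
  subst h; rfl
theorem mm_ext {g g' : (Matrix (Fin n) (Fin n) F)ˣ} (h : (g : Matrix (Fin n) (Fin n) F) = g') : mm g = mm g' := by
  rw [Units.ext h]

theorem add_symm' {Q Q' : Matrix (Fin n) (Fin n) F} (h : Qᵀ = Q) (h' : Q'ᵀ = Q') : (Q + Q')ᵀ = Q + Q' := by
  rw [transpose_add, h, h']
theorem neg_symm' {Q : Matrix (Fin n) (Fin n) F} (h : Qᵀ = Q) : (-Q)ᵀ = -Q := by
  rw [transpose_neg, h]
theorem conj_symm (g : Matrix (Fin n) (Fin n) F) {Q : Matrix (Fin n) (Fin n) F} (h : Qᵀ = Q) :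
    (g * Q * gᵀ)ᵀ = g * Q * gᵀ := by
  rw [transpose_mul, transpose_mul, transpose_transpose, h, Matrix.mul_assoc]
theorem SQ_symm (w : Fin n → F) : (SQ w)ᵀ = SQ w := by
  ext i j; simp only [transpose_apply, SQ_apply]; ring
theorem DD_symm (w z : Fin n → F) : (DD w z)ᵀ = DD w z := by
  ext i j; simp only [transpose_apply, DD_apply]; ring

theorem tq_mul {Q Q' : Matrix (Fin n) (Fin n) F} (hQ : Qᵀ = Q) (hQ' : Q'ᵀ = Q') :
    tq Q hQ * tq Q' hQ' = tq (Q + Q') (add_symm' hQ hQ') := by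
  apply Subtype.ext
  rw [coe_mulSp, coe_tq, coe_tq, coe_tq, fromBlocks_multiply]
  simp [add_comm]

theorem tl_mul {Q Q' : Matrix (Fin n) (Fin n) F} (hQ : Qᵀ = Q) (hQ' : Q'ᵀ = Q') :
    tl Q hQ * tl Q' hQ' = tl (Q + Q') (add_symm' hQ hQ') := by
  apply Subtype.ext
  rw [coe_mulSp, coe_tl, coe_tl, coe_tl, fromBlocks_multiply]
  simp

theorem tq_zero (h : (0 : Matrix (Fin n) (Fin n) F)ᵀ = 0) : tq 0 h = 1 := by
  apply Subtype.ext
  rw [coe_tq, fromBlocks_one]; rfl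
theorem tl_zero (h : (0 : Matrix (Fin n) (Fin n) F)ᵀ = 0) : tl 0 h = 1 := by
  apply Subtype.ext
  rw [coe_tl, fromBlocks_one]; rfl

theorem tq_inv {Q : Matrix (Fin n) (Fin n) F} (hQ : Qᵀ = Q) : (tq Q hQ)⁻¹ = tq (-Q) (neg_symm' hQ) := by
  rw [inv_eq_iff_mul_eq_one, tq_mul, ← tq_zero transpose_zero]
  exact tq_ext (add_neg_cancel Q)
theorem tl_inv {Q : Matrix (Fin n) (Fin n) F} (hQ : Qᵀ = Q) : (tl Q hQ)⁻¹ = tl (-Q) (neg_symm' hQ) := by
  rw [inv_eq_iff_mul_eq_one, tl_mul, ← tl_zero transpose_zero]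
  exact tl_ext (add_neg_cancel Q)

theorem mm_mul (g g' : (Matrix (Fin n) (Fin n) F)ˣ) : mm g * mm g' = mm (g * g') := by
  apply Subtype.ext
  rw [coe_mulSp, coe_mm, coe_mm, coe_mm, fromBlocks_multiply]
  rw [_root_.mul_inv_rev, Units.val_mul, Units.val_mul, transpose_mul]
  simp only [Matrix.mul_zero, Matrix.zero_mul, add_zero, zero_add]

theorem mm_one : mm (1 : (Matrix (Fin n) (Fin n) F)ˣ) = 1 := by
  apply Subtype.ext
  rw [coe_mm, inv_one, Units.val_one, transpose_one, fromBlocks_one]; rfl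

theorem mm_inv (g : (Matrix (Fin n) (Fin n) F)ˣ) : (mm g)⁻¹ = mm g⁻¹ := by
  rw [inv_eq_iff_mul_eq_one, mm_mul, mul_inv_cancel, mm_one]

theorem mm_tq (g : (Matrix (Fin n) (Fin n) F)ˣ) {Q : Matrix (Fin n) (Fin n) F} (hQ : Qᵀ = Q) :
    mm g * tq Q hQ = tq ((g : Matrix (Fin n) (Fin n) F) * Q * (g : Matrix (Fin n) (Fin n) F)ᵀ) (conj_symm _ hQ) * mm g := by
  apply Subtype.ext
  have h1 : (g : Matrix (Fin n) (Fin n) F)ᵀ * ((g⁻¹ : (Matrix (Fin n) (Fin n) F)ˣ) : Matrix (Fin n) (Fin n) F)ᵀ = 1 := by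
    rw [← transpose_mul, g.inv_mul, transpose_one]
  rw [coe_mulSp, coe_mulSp, coe_mm, coe_tq, coe_tq, fromBlocks_multiply, fromBlocks_multiply]
  simp only [Matrix.mul_zero, Matrix.zero_mul, add_zero, zero_add, Matrix.mul_one, Matrix.one_mul, Matrix.mul_assoc, h1]

theorem mm_tl (g : (Matrix (Fin n) (Fin n) F)ˣ) {Q : Matrix (Fin n) (Fin n) F} (hQ : Qᵀ = Q) :
    mm g * tl Q hQ = tl (((g⁻¹ : (Matrix (Fin n) (Fin n) F)ˣ) : Matrix (Fin n) (Fin n) F)ᵀ * Q *
      ((g⁻¹ : (Matrix (Fin n) (Fin n) F)ˣ) : Matrix (Fin n) (Fin n) F)) (by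
        have := conj_symm (((g⁻¹ : (Matrix (Fin n) (Fin n) F)ˣ) : Matrix (Fin n) (Fin n) F)ᵀ) hQ
        rwa [transpose_transpose] at this) * mm g := by
  apply Subtype.ext
  rw [coe_mulSp, coe_mulSp, coe_mm, coe_tl, coe_tl, fromBlocks_multiply, fromBlocks_multiply]
  simp only [Matrix.mul_zero, Matrix.zero_mul, add_zero, zero_add, Matrix.mul_one, Matrix.one_mul, Matrix.mul_assoc,
    g.inv_mul]

end gen

section two

variable {F : Type*} [Field F]

/-- upper transvection matrix as a unit -/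
def tr (β : F) : (Matrix (Fin 2) (Fin 2) F)ˣ where
  val := !![1, β; 0, 1]
  inv := !![1, -β; 0, 1]
  val_inv := by rw [Matrix.mul_fin_two, Matrix.one_fin_two]; simp
  inv_val := by rw [Matrix.mul_fin_two, Matrix.one_fin_two]; simp

/-- lower transvection matrix as a unit -/
def lo (β : F) : (Matrix (Fin 2) (Fin 2) F)ˣ where
  val := !![1, 0; β, 1]
  inv := !![1, 0; -β, 1]
  val_inv := by rw [Matrix.mul_fin_two, Matrix.one_fin_two]; simp
  inv_val := by rw [Matrix.mul_fin_two, Matrix.one_fin_two]; simp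

theorem coe_tr (β : F) : ((tr β : (Matrix (Fin 2) (Fin 2) F)ˣ) : Matrix (Fin 2) (Fin 2) F) = !![1, β; 0, 1] := rfl
theorem coe_tr_inv (β : F) : (((tr β)⁻¹ : (Matrix (Fin 2) (Fin 2) F)ˣ) : Matrix (Fin 2) (Fin 2) F) = !![1, -β; 0, 1] := rfl
theorem coe_lo (β : F) : ((lo β : (Matrix (Fin 2) (Fin 2) F)ˣ) : Matrix (Fin 2) (Fin 2) F) = !![1, 0; β, 1] := rfl
theorem coe_lo_inv (β : F) : (((lo β)⁻¹ : (Matrix (Fin 2) (Fin 2) F)ˣ) : Matrix (Fin 2) (Fin 2) F) = !![1, 0; -β, 1] := rfl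

theorem SQ0 : SQ (ev 2 F 0) = !![1, 0; 0, 0] := by
  ext i j; fin_cases i <;> fin_cases j <;> simp [SQ_apply, ev]
theorem SQ1 : SQ (ev 2 F 1) = !![0, 0; 0, 1] := by
  ext i j; fin_cases i <;> fin_cases j <;> simp [SQ_apply, ev]
theorem EL2 : EL 2 F = !![0, 0; 0, 1] := SQ1

theorem sy (a b c : F) : (!![a, b; b, c])ᵀ = !![a, b; b, c] := by
  ext i j; fin_cases i <;> fin_cases j <;> rfl

/-- symmetric element with entries `a b c` -/
def q3 (a b c : F) : symplecticGroup (Fin 2) F := tq !![a, b; b, c] (sy a b c)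

/-- elements of the unipotent radical of the point stabiliser -/
def hh (α β l : F) : symplecticGroup (Fin 2) F := q3 l α 0 * mm (tr β)

theorem q3_mul (a b c a' b' c' : F) : q3 a b c * q3 a' b' c' = q3 (a + a') (b + b') (c + c') := by
  rw [q3, q3, tq_mul]
  apply tq_ext
  ext i j; fin_cases i <;> fin_cases j <;> simp

theorem tr_q3 (β a b c : F) : mm (tr β) * q3 a b c = q3 (a + 2 * β * b + β ^ 2 * c) (b + β * c) c * mm (tr β) := by
  rw [q3, mm_tq, q3]
  congr 1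
  apply tq_ext
  rw [coe_tr]
  ext i j; fin_cases i <;> fin_cases j <;> simp [Matrix.mul_apply, Fin.sum_univ_two] <;> ring

theorem tr_mul (β β' : F) : mm (tr β) * mm (tr β') = mm (tr (β + β')) := by
  rw [mm_mul]
  apply mm_ext
  rw [Units.val_mul, coe_tr, coe_tr, coe_tr, Matrix.mul_fin_two]
  simp [add_comm]

theorem hh_mul (h2 : (2 : F) = 0) (α β l α' β' l' : F) : hh α β l * hh α' β' l' = hh (α + α') (β + β') (l + l') := by
  unfold hh
  rw [mul_assoc, ← mul_assoc (mm (tr β)), tr_q3, mul_assoc, tr_mul, ← mul_assoc, q3_mul, h2]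
  congr 2 <;> ring

theorem q3_hh (α β l c : F) : q3 0 0 c * hh α β l = hh (α - c * β) β (l - c * β ^ 2) * q3 0 0 c := by
  unfold hh
  rw [mul_assoc (q3 (l - c * β ^ 2) (α - c * β) 0), tr_q3, ← mul_assoc, ← mul_assoc, q3_mul, q3_mul]
  congr 2 <;> ring

/-- lower element on the second pair -/
def l3 (d : F) : symplecticGroup (Fin 2) F := tl !![0, 0; 0, d] (sy 0 0 d)

theorem t2 (a b c d : F) : (!![a, b; c, d])ᵀ = !![a, c; b, d] := by
  ext i j; fin_cases i <;> fin_cases j <;> rfl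
theorem a2 (a b c d a' b' c' d' : F) : (!![a, b; c, d] : Matrix (Fin 2) (Fin 2) F) + !![a', b'; c', d'] =
    !![a + a', b + b'; c + c', d + d'] := by
  ext i j; fin_cases i <;> fin_cases j <;> rfl
theorem z2 : (0 : Matrix (Fin 2) (Fin 2) F) = !![0, 0; 0, 0] := by
  ext i j; fin_cases i <;> fin_cases j <;> rfl

theorem l3_hh (α β l d : F) : l3 d * hh α β l = hh α (β - d * α) (l - d * α ^ 2) * l3 d := by
  unfold hh l3 q3
  apply Subtype.ext
  simp only [coe_mulSp, coe_tq, coe_tl, coe_mm, coe_tr, coe_tr_inv, fromBlocks_multiply, t2, Matrix.one_fin_two, z2,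
    Matrix.mul_fin_two, a2]
  congr 1
  all_goals
    ext i j
    fin_cases i <;> fin_cases j <;> simp <;> ring

theorem q3_congr {a b c a' b' c' : F} (h1 : a = a') (h2 : b = b') (h3 : c = c') : q3 a b c = q3 a' b' c' := by
  subst h1 h2 h3; rfl

theorem q3_inv (a b c : F) : (q3 a b c)⁻¹ = q3 (-a) (-b) (-c) := by
  rw [q3, tq_inv, q3]
  apply tq_ext
  ext i j; fin_cases i <;> fin_cases j <;> simp

theorem l3_inv (d : F) : (l3 d)⁻¹ = l3 (-d) := by
  rw [l3, tl_inv, l3]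
  apply tl_ext
  ext i j; fin_cases i <;> fin_cases j <;> simp

theorem lo_q3 (β a b c : F) : mm (lo β) * q3 a b c = q3 a (b + β * a) (c + 2 * β * b + β ^ 2 * a) * mm (lo β) := by
  rw [q3, mm_tq, q3]
  congr 1
  apply tq_ext
  rw [coe_lo]
  ext i j; fin_cases i <;> fin_cases j <;> simp [Matrix.mul_apply, Fin.sum_univ_two] <;> ring

theorem lo_inv_eq (β : F) : (lo β)⁻¹ = lo (-β) := Units.ext rfl

theorem l3_q3 (d a : F) : l3 d * q3 a 0 0 = q3 a 0 0 * l3 d := by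
  unfold l3 q3
  apply Subtype.ext
  simp only [coe_mulSp, coe_tq, coe_tl, fromBlocks_multiply, Matrix.one_fin_two, z2, Matrix.mul_fin_two, a2]
  simp

/-- swap -/
def sw (F : Type*) [Field F] : (Matrix (Fin 2) (Fin 2) F)ˣ := (lo 1)⁻¹ * tr 1 * lo 1

theorem sw_q3 (h2 : (2 : F) = 0) (a b c : F) : mm (sw F) * q3 a b c = q3 c b a * mm (sw F) := by
  rw [q3, mm_tq, q3]
  congr 1
  apply tq_ext
  rw [sw, Units.val_mul, Units.val_mul, coe_lo, coe_tr, coe_lo_inv, Matrix.mul_fin_two, Matrix.mul_fin_two, t2,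
    Matrix.mul_fin_two, Matrix.mul_fin_two]
  ext i j
  fin_cases i <;> fin_cases j
  · simp
    linear_combination (2 * a + 2 * b) * h2
  · simp
    linear_combination (- a - b) * h2
  · simp
    linear_combination (- a - b) * h2
  · simp

theorem mem_conj {G : Type*} [Group G] {K : Subgroup G} {x y y' : G} (hx : x ∈ K) (hy : y ∈ K) (h : x * y = y' * x) :
    y' ∈ K := by
  have : y' = x * y * x⁻¹ := by rw [h]; group
  rw [this]; exact K.mul_mem (K.mul_mem hx hy) (K.inv_mem hx)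

theorem base_pair [Fintype F] (h2 : (2 : F) = 0) {K : Subgroup (symplecticGroup (Fin 2) F)} {ζ : Fˣ}
    (hζ : ∀ y : Fˣ, y ∈ Submonoid.powers ζ) {c d : F} (hcd : c * d = ζ) {μ : F} (hμ0 : μ ≠ 0) (hμ1 : μ ≠ 1)
    (hu : q3 0 0 1 * mm (tr 1) ∈ K) (hv : mm (lo 1) * l3 d ∈ K) (hc : q3 c 0 0 ∈ K) (x : F) : q3 x 0 0 ∈ K := by
  have hz : (ζ : F) ≠ 0 := ζ.ne_zero
  have hc0 : c ≠ 0 := fun h => hz (by rw [← hcd, h, zero_mul])
  have hd0 : d ≠ 0 := fun h => hz (by rw [← hcd, h, mul_zero])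
  -- step 1
  have hccc : q3 c c c ∈ K := by
    apply mem_conj hv hc
    rw [mul_assoc, l3_q3, ← mul_assoc, lo_q3, mul_assoc]
    congr 1
    apply q3_congr <;> ring
  have h00c : q3 0 0 c ∈ K := by
    apply mem_conj hu hccc
    rw [mul_assoc, tr_q3, ← mul_assoc, ← mul_assoc, q3_mul, q3_mul]
    congr 1
    apply q3_congr
    · linear_combination (2 * c) * h2
    · linear_combination c * h2
    · ring
  have h0c0 : q3 0 c 0 ∈ K := by
    have h1 := K.mul_mem (K.mul_mem hccc h00c) hc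
    rw [q3_mul, q3_mul] at h1
    convert h1 using 1
    apply q3_congr
    · linear_combination (-c) * h2
    · ring
    · linear_combination (-c) * h2
  set K' : Subgroup (symplecticGroup (Fin 2) F) := K.comap (MulAut.conj (mm (lo (1 : F)))).toMonoidHom with hK'
  have memK' : ∀ y, y ∈ K' ↔ mm (lo 1) * y * (mm (lo 1))⁻¹ ∈ K := fun y => Iff.rfl
  have memq : ∀ a b e : F, q3 a b e ∈ K' ↔ q3 a (b + a) (e + a) ∈ K := by
    intro a b e
    rw [memK', lo_q3, mul_inv_cancel_right, q3_congr (a' := a) (b' := b + a) (c' := e + a) rfl (by ring)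
      (by linear_combination b * h2)]
  have k0 : q3 0 0 c ∈ K' := by rw [memq]; rwa [add_zero, add_zero]
  have k1 : q3 0 c 0 ∈ K' := by rw [memq]; rwa [add_zero, add_zero]
  have k2 : q3 c 0 0 ∈ K' := by rw [memq]; rwa [zero_add]
  have kw : l3 d * mm (lo 1) ∈ K' := by
    rw [memK', ← mul_assoc, mul_inv_cancel_right]; exact hv
  have ku : q3 0 0 1 * mm (sw F) ∈ K' := by
    rw [memK', sw, ← mm_mul, ← mm_mul, ← mm_inv]
    have e1 : mm (lo 1) * q3 0 0 1 = q3 0 0 1 * mm (lo (1 : F)) := by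
      rw [lo_q3]; congr 1; apply q3_congr <;> ring
    have : mm (lo 1) * (q3 0 0 1 * ((mm (lo 1))⁻¹ * mm (tr 1) * mm (lo 1))) * (mm (lo 1))⁻¹ =
        q3 0 0 1 * mm (tr (1 : F)) := by
      rw [← mul_assoc, e1]; group
    rwa [this]
  have kT : l3 d * q3 0 0 c * (l3 d)⁻¹ ∈ K' := by
    rw [memK']
    have : mm (lo 1) * (l3 d * q3 0 0 c * (l3 d)⁻¹) * (mm (lo 1))⁻¹ =
        (mm (lo 1) * l3 d) * q3 0 0 c * (mm (lo 1) * l3 d)⁻¹ := by group
    rw [this]
    exact K.mul_mem (K.mul_mem hv h00c) (K.inv_mem hv)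
  -- step 5 : the set L
  have Ladd : ∀ {a b a' b' : F}, (∃ l, hh a b l ∈ K') → (∃ l, hh a' b' l ∈ K') → ∃ l, hh (a + a') (b + b') l ∈ K' := by
    rintro a b a' b' ⟨l, hl⟩ ⟨l', hl'⟩
    exact ⟨l + l', by rw [← hh_mul h2]; exact K'.mul_mem hl hl'⟩
  have Lt : ∀ {a b : F}, (∃ l, hh a b l ∈ K') → ∃ l, hh (a - c * b) b l ∈ K' := by
    rintro a b ⟨l, hl⟩
    exact ⟨_, mem_conj k0 hl (q3_hh a b l c)⟩
  have LT : ∀ {a b : F}, (∃ l, hh a b l ∈ K') →
      ∃ l, hh (a - c * (b + d * a)) ((b + d * a) - d * (a - c * (b + d * a))) l ∈ K' := by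
    rintro a b ⟨l, hl⟩
    have e1 : (l3 d)⁻¹ * hh a b l = hh a (b + d * a) (l + d * a ^ 2) * (l3 d)⁻¹ := by
      rw [l3_inv, l3_hh]
      congr 2 <;> ring
    refine ⟨_, mem_conj kT hl (y' := hh (a - c * (b + d * a)) ((b + d * a) - d * (a - c * (b + d * a)))
      ((l + d * a ^ 2) - c * (b + d * a) ^ 2 - d * (a - c * (b + d * a)) ^ 2)) ?_⟩
    rw [mul_assoc, e1, mul_assoc, ← mul_assoc (q3 0 0 c), q3_hh, mul_assoc, ← mul_assoc (l3 d), l3_hh]
    simp only [mul_assoc]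
  let L1 : AddSubgroup F :=
    { carrier := {a | ∃ l, hh a 0 l ∈ K'}
      zero_mem' := ⟨0, by
        have : hh (0 : F) 0 0 = 1 := by
          unfold hh q3
          rw [tq_ext (Q' := 0) (hQ' := transpose_zero) (by rw [z2]), tq_zero, one_mul, ← mm_one]
          apply mm_ext
          rw [coe_tr, Units.val_one, Matrix.one_fin_two]
        rw [this]; exact K'.one_mem⟩
      add_mem' := fun ha hb => by
        have := Ladd ha hb
        rwa [add_zero] at this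
      neg_mem' := fun {a} ha => by
        have : -a = a := by linear_combination (-a) * h2
        change ∃ l, hh (-a) 0 l ∈ K'
        rw [this]; exact ha }
  have hL1 : ∀ a, a ∈ L1 ↔ ∃ l, hh a 0 l ∈ K' := fun a => Iff.rfl
  have hmul : (ζ : F) ^ 2 ∈ mulR L1 := by
    intro a ha
    rw [hL1] at ha ⊢
    have h1 := Ladd (LT (Lt ha)) (Lt (LT ha))
    obtain ⟨l, hl⟩ := h1
    refine ⟨l, ?_⟩
    convert hl using 2
    · linear_combination (-a * (ζ + c * d)) * hcd + (- a * (1 - c * d - c ^ 2 * d ^ 2)) * h2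
    · linear_combination (-a * c * d ^ 2) * h2
  have hL1c : c ∈ L1 := by
    rw [hL1]
    refine ⟨0, ?_⟩
    have : hh c 0 0 = q3 0 c 0 := by
      unfold hh
      have : mm (tr (0 : F)) = 1 := by
        rw [← mm_one]
        apply mm_ext
        rw [coe_tr, Units.val_one, Matrix.one_fin_two]
      rw [this, mul_one]
    rw [this]; exact k1
  have hLa : ∀ a : F, ∃ l, hh a 0 l ∈ K' := fun a => (hL1 a).1 (top_of_mulR (subring_top hζ _ hmul) hL1c hc0 a)
  have hLb : ∀ b : F, ∃ l, hh 0 b l ∈ K' := by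
    intro b
    have h1 := LT (hLa (b / (c * d ^ 2)))
    have h3 := Ladd h1 (hLa ((1 - c * d) * (b / (c * d ^ 2))))
    obtain ⟨l, hl⟩ := h3
    refine ⟨l, ?_⟩
    convert hl using 2
    · linear_combination (-(1 - c * d) * (b / (c * d ^ 2))) * h2
    · field_simp
      ring
  -- step 6
  have hphi : ∀ β a b e : F, q3 a b e ∈ K' → q3 (a + β ^ 2 * e) (b + β * e) e ∈ K' := by
    intro β a b e h
    obtain ⟨l, hl⟩ := hLb β
    apply mem_conj hl h
    unfold hh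
    rw [mul_assoc, tr_q3, ← mul_assoc, ← mul_assoc, q3_mul, q3_mul]
    congr 1
    apply q3_congr
    · linear_combination (β * b) * h2
    · ring
    · ring
  have hsw : ∀ a b e : F, q3 a b e ∈ K' → q3 e b a ∈ K' := by
    intro a b e h
    apply mem_conj ku h
    rw [mul_assoc, sw_q3 h2, ← mul_assoc, ← mul_assoc, q3_mul, q3_mul]
    congr 1
    apply q3_congr <;> ring
  have hX : ∀ β : F, q3 (c * β ^ 2) (c * β) 0 ∈ K' := by
    intro β
    have h1 := K'.mul_mem (hphi β _ _ _ k0) (K'.inv_mem k0)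
    rw [q3_inv, q3_mul] at h1
    convert h1 using 1
    apply q3_congr <;> ring
  have hY : ∀ β : F, q3 (c * β ^ 2) 0 (c * β ^ 2) ∈ K' := by
    intro β
    have h1 := K'.mul_mem (hX β) (hsw _ _ _ (hX β))
    rw [q3_mul] at h1
    convert h1 using 1
    apply q3_congr
    · ring
    · linear_combination (-(c * β)) * h2
    · ring
  have hE : ∀ ν : F, q3 (c * μ ^ 2 * ν ^ 2 * (1 + μ ^ 2)) 0 0 ∈ K' := by
    intro ν
    have h1 := K'.mul_mem (K'.mul_mem (hphi ν _ _ _ (hY μ)) (hY μ)) (hX (μ ^ 2 * ν))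
    rw [q3_mul, q3_mul] at h1
    convert h1 using 1
    apply q3_congr
    · linear_combination (-(c * μ ^ 2)) * h2
    · linear_combination (-(c * μ ^ 2 * ν)) * h2
    · linear_combination (-(c * μ ^ 2)) * h2
  have hall : ∀ y : F, q3 y 0 0 ∈ K' := by
    intro y
    haveI : CharP F 2 := CharTwo.of_one_ne_zero_of_two_eq_zero one_ne_zero h2
    obtain ⟨ν, hν⟩ := FiniteField.isSquare_of_char_two (ringChar.eq F 2) (y / (c * μ ^ 2 * (1 + μ ^ 2)))
    have hne : (1 + μ ^ 2 : F) ≠ 0 := by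
      intro h
      have : (μ - 1) ^ 2 = 0 := by linear_combination h - μ * h2
      exact hμ1 (sub_eq_zero.1 (pow_eq_zero_iff two_ne_zero |>.1 this))
    have h1 := hE ν
    convert h1 using 1
    apply q3_congr _ rfl rfl
    rw [pow_two ν, ← hν]
    field_simp
  have hfin : q3 x x x ∈ K' := by
    apply mem_conj (K'.inv_mem kw) (hall x)
    rw [_root_.mul_inv_rev, mul_assoc, l3_inv, l3_q3, ← mul_assoc, mm_inv, lo_inv_eq, lo_q3, mul_assoc]
    congr 1
    apply q3_congr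
    · rfl
    · linear_combination (-x) * h2
    · ring
  rw [memq] at hfin
  convert hfin using 1
  apply q3_congr
  · rfl
  · linear_combination (-x) * h2
  · linear_combination (-x) * h2

end two

end H6.SpReg
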