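import Cfsg.Agent.Lib.H6.SpRegD

/-!
The regular unipotent element `u = [1 E; 0 1] m(J)`, its conjugates, and the main theorem.
-/
set_option autoImplicit false

namespace H6.SpReg

open Matrix Cfsg H16.Symp H16.SympTransv

variable {F : Type*} [Field F] {n : ℕ}

/-- nilpotent upper shift -/
def NS (n : ℕ) (F : Type*) [Field F] : Matrix (Fin n) (Fin n) F := fun i j => if (i : ℕ) + 1 = j then 1 else 0

theorem mulVec_ev (A : Matrix (Fin n) (Fin n) F) {k : ℕ} (hk : k < n) (j : Fin n) :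
    (A *ᵥ ev n F k) j = A j ⟨k, hk⟩ := by
  rw [mulVec, dotProduct, Finset.sum_eq_single (⟨k, hk⟩ : Fin n)]
  · simp [ev]
  · intro l _ hl
    rw [ev, if_neg, mul_zero]
    intro h; exact hl (Fin.ext h)
  · intro h; exact absurd (Finset.mem_univ _) h

theorem ext_ev {A B : Matrix (Fin n) (Fin n) F} (h : ∀ k, k < n → A *ᵥ ev n F k = B *ᵥ ev n F k) : A = B := by
  ext i j
  have h1 := congrFun (h j j.2) i
  rwa [mulVec_ev A j.2, mulVec_ev B j.2] at h1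

theorem NS_ev {k : ℕ} (hk : k < n) : NS n F *ᵥ ev n F k = pv n F k := by
  funext j
  rw [mulVec_ev _ hk, NS]
  rcases k with _ | k
  · simp
  · rw [pv_succ, ev]
    simp

theorem NSt_ev {k : ℕ} (hk : k < n) : (NS n F)ᵀ *ᵥ ev n F k = ev n F (k + 1) := by
  funext j
  rw [mulVec_ev _ hk, transpose_apply, NS, ev]
  by_cases h : k + 1 = (j : ℕ)
  · rw [if_pos h, if_pos h.symm]
  · rw [if_neg h, if_neg (Ne.symm h)]

theorem ev_ge {k : ℕ} (hk : n ≤ k) : ev n F k = 0 := by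
  funext j
  rw [ev, if_neg (by have := j.2; omega)]; rfl

theorem NSt_pow_ev (m k : ℕ) (hk : k < n) : ((NS n F)ᵀ ^ m) *ᵥ ev n F k = ev n F (k + m) := by
  induction m generalizing k with
  | zero => rw [pow_zero, one_mulVec, add_zero]
  | succ m ih =>
    rw [pow_succ, ← mulVec_mulVec, NSt_ev hk]
    by_cases h : k + 1 < n
    · rw [ih _ h]; congr 1; omega
    · rw [ev_ge (by omega), mulVec_zero, ev_ge (by omega)]

theorem NSt_pow_zero : ((NS n F)ᵀ) ^ n = 0 := by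
  apply ext_ev
  intro k hk
  rw [NSt_pow_ev n k hk, zero_mulVec, ev_ge (by omega)]

theorem NS_pow_zero : (NS n F) ^ n = 0 := by
  have := congrArg transpose (NSt_pow_zero (n := n) (F := F))
  rwa [transpose_pow, transpose_transpose, transpose_zero] at this

theorem NS_pow_ev (m : ℕ) (k : ℕ) (hk : k + m < n) : ((NS n F) ^ m) *ᵥ ev n F (k + m) = ev n F k := by
  induction m generalizing k with
  | zero => rw [pow_zero, one_mulVec, add_zero]
  | succ m ih =>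
    rw [pow_succ, ← mulVec_mulVec, NS_ev hk, show k + (m + 1) = (k + m) + 1 by ring, pv_succ]
    exact ih k (by omega)

/-- the upper Jordan block as a unit -/
noncomputable def gJ (n : ℕ) (F : Type*) [Field F] : (Matrix (Fin n) (Fin n) F)ˣ :=
  (IsNilpotent.isUnit_one_add (r := NS n F) ⟨n, NS_pow_zero⟩).unit

theorem coe_gJ : ((gJ n F : (Matrix (Fin n) (Fin n) F)ˣ) : Matrix (Fin n) (Fin n) F) = 1 + NS n F := rfl

/-- transpose of a unit -/
def ut (g : (Matrix (Fin n) (Fin n) F)ˣ) : (Matrix (Fin n) (Fin n) F)ˣ where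
  val := (g : Matrix (Fin n) (Fin n) F)ᵀ
  inv := ((g⁻¹ : (Matrix (Fin n) (Fin n) F)ˣ) : Matrix (Fin n) (Fin n) F)ᵀ
  val_inv := by rw [← transpose_mul, g.inv_mul, transpose_one]
  inv_val := by rw [← transpose_mul, g.mul_inv, transpose_one]

/-- diagonal unit -/
def dg (η : ℕ → Fˣ) (n : ℕ) : (Matrix (Fin n) (Fin n) F)ˣ where
  val := diagonal fun i => ((η i : Fˣ) : F)
  inv := diagonal fun i => (((η i)⁻¹ : Fˣ) : F)
  val_inv := by rw [diagonal_mul_diagonal]; simp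
  inv_val := by rw [diagonal_mul_diagonal]; simp

theorem dg_ev (η : ℕ → Fˣ) {k : ℕ} (hk : k < n) : (dg η n : Matrix (Fin n) (Fin n) F) *ᵥ ev n F k = (η k : F) • ev n F k := by
  funext j
  change ((diagonal fun i : Fin n => ((η i : Fˣ) : F)) *ᵥ ev n F k) j = _
  rw [mulVec_diagonal, Pi.smul_apply, smul_eq_mul, ev]
  by_cases h : (j : ℕ) = k
  · rw [h]
  · rw [if_neg h, mul_zero, mul_zero]

theorem dg_inv_ev (η : ℕ → Fˣ) {k : ℕ} (hk : k < n) :
    (((dg η n)⁻¹ : (Matrix (Fin n) (Fin n) F)ˣ) : Matrix (Fin n) (Fin n) F) *ᵥ ev n F k = (((η k)⁻¹ : Fˣ) : F) • ev n F k := by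
  funext j
  change ((diagonal fun i : Fin n => (((η i)⁻¹ : Fˣ) : F)) *ᵥ ev n F k) j = _
  rw [mulVec_diagonal, Pi.smul_apply, smul_eq_mul, ev]
  by_cases h : (j : ℕ) = k
  · rw [h]
  · rw [if_neg h, mul_zero, mul_zero]

/-- the lower element `g' = h gᵀ h⁻¹` -/
noncomputable def gL (g : (Matrix (Fin n) (Fin n) F)ˣ) (η : ℕ → Fˣ) : (Matrix (Fin n) (Fin n) F)ˣ :=
  dg η n * ut g * (dg η n)⁻¹

theorem gL_ev {g : (Matrix (Fin n) (Fin n) F)ˣ} (hg : (g : Matrix (Fin n) (Fin n) F) = 1 + NS n F) (η : ℕ → Fˣ)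
    {i : ℕ} (hi : i + 1 < n) : (gL g η : Matrix (Fin n) (Fin n) F) *ᵥ ev n F i =
      ev n F i + ((η (i + 1) * (η i)⁻¹ : Fˣ) : F) • ev n F (i + 1) := by
  rw [gL, Units.val_mul, Units.val_mul, ← mulVec_mulVec, ← mulVec_mulVec, dg_inv_ev _ (by omega), mulVec_smul]
  change _ *ᵥ (_ • ((g : Matrix (Fin n) (Fin n) F)ᵀ *ᵥ _)) = _
  rw [hg, transpose_add, transpose_one, add_mulVec, one_mulVec, NSt_ev (by omega), mulVec_smul, mulVec_add,
    dg_ev _ (by omega), dg_ev _ hi, smul_add, smul_smul, smul_smul, ← Units.val_mul, inv_mul_cancel, Units.val_one,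
    one_smul, ← Units.val_mul, mul_comm (η i)⁻¹]

theorem gL_last {g : (Matrix (Fin n) (Fin n) F)ˣ} (hg : (g : Matrix (Fin n) (Fin n) F) = 1 + NS n F) (η : ℕ → Fˣ)
    (hn : 0 < n) : (gL g η : Matrix (Fin n) (Fin n) F) *ᵥ ev n F (n - 1) = ev n F (n - 1) := by
  rw [gL, Units.val_mul, Units.val_mul, ← mulVec_mulVec, ← mulVec_mulVec, dg_inv_ev _ (by omega), mulVec_smul]
  change _ *ᵥ (_ • ((g : Matrix (Fin n) (Fin n) F)ᵀ *ᵥ _)) = _
  rw [hg, transpose_add, transpose_one, add_mulVec, one_mulVec, NSt_ev (by omega), ev_ge (k := n - 1 + 1) (by omega),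
    add_zero, mulVec_smul, dg_ev _ (by omega), smul_smul, ← Units.val_mul, inv_mul_cancel, Units.val_one, one_smul]

/-- `J` as an element of the group -/
def JJ (n : ℕ) (F : Type*) [Field F] : symplecticGroup (Fin n) F := SymplecticGroup.symJ (Fin n) F

theorem coe_JJ : ((JJ n F : symplecticGroup (Fin n) F) : Matrix (Fin n ⊕ Fin n) (Fin n ⊕ Fin n) F) =
    fromBlocks 0 (-1) 1 0 := rfl

theorem JJ_tq {Q : Matrix (Fin n) (Fin n) F} (hQ : Qᵀ = Q) : JJ n F * tq Q hQ = tl (-Q) (neg_symm' hQ) * JJ n F := by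
  apply Subtype.ext
  rw [coe_mulSp, coe_mulSp, coe_tq, coe_tl, coe_JJ, fromBlocks_multiply, fromBlocks_multiply]
  simp

theorem JJ_mm (g : (Matrix (Fin n) (Fin n) F)ˣ) : JJ n F * mm g = mm (ut g)⁻¹ * JJ n F := by
  apply Subtype.ext
  rw [coe_mulSp, coe_mulSp, coe_mm, coe_mm, coe_JJ, fromBlocks_multiply, fromBlocks_multiply, inv_inv]
  change fromBlocks _ _ _ _ = fromBlocks _ (((((g⁻¹ : (Matrix (Fin n) (Fin n) F)ˣ) : Matrix (Fin n) (Fin n) F)ᵀ) * (-1)) + _)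
    (_ + (((g : Matrix (Fin n) (Fin n) F)ᵀ)ᵀ * 1)) _
  simp

/-- the basic regular unipotent element -/
noncomputable def uu (g : (Matrix (Fin n) (Fin n) F)ˣ) : symplecticGroup (Fin n) F := tq (EL n F) EL_symm * mm g

theorem dgT (η : ℕ → Fˣ) : ((dg η n : (Matrix (Fin n) (Fin n) F)ˣ) : Matrix (Fin n) (Fin n) F)ᵀ = dg η n :=
  diagonal_transpose _
theorem dgiT (η : ℕ → Fˣ) : (((dg η n)⁻¹ : (Matrix (Fin n) (Fin n) F)ˣ) : Matrix (Fin n) (Fin n) F)ᵀ =
    (((dg η n)⁻¹ : (Matrix (Fin n) (Fin n) F)ˣ) : Matrix (Fin n) (Fin n) F) :=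
  diagonal_transpose _

theorem conj_low (hn : 0 < n) (g : (Matrix (Fin n) (Fin n) F)ˣ) (η : ℕ → Fˣ) {d : F}
    (hd : d = (((η (n - 1))⁻¹ ^ 2 : Fˣ) : F)) :
    (mm (dg η n) * JJ n F) * uu g * (mm (dg η n) * JJ n F)⁻¹ =
      (mm (gL g η) * tl (d • EL n F) (smul_symm EL_symm))⁻¹ := by
  rw [mul_inv_eq_iff_eq_mul, uu, _root_.mul_inv_rev, mm_inv, tl_inv]
  have e1 : mm (dg η n) * JJ n F * (tq (EL n F) EL_symm * mm g) =
      mm (dg η n) * tl (-EL n F) (neg_symm' EL_symm) * (mm (ut g)⁻¹ * JJ n F) := by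
    rw [mul_assoc, ← mul_assoc (JJ n F), JJ_tq EL_symm, mul_assoc (tl _ _), JJ_mm, ← mul_assoc (mm (dg η n))]
  have e2 : mm (gL g η)⁻¹ * (mm (dg η n) * JJ n F) = mm (dg η n) * (mm (ut g)⁻¹ * JJ n F) := by
    rw [← mul_assoc, ← mul_assoc, mm_mul, mm_mul]
    congr 2
    rw [gL]; group
  rw [e1, mul_assoc (tl _ _), e2, mm_tl, mul_assoc]
  congr 1
  apply tl_ext
  rw [dgiT, mul_neg, neg_mul]
  congr 1
  have h1 : ((((dg η n)⁻¹ : (Matrix (Fin n) (Fin n) F)ˣ) : Matrix (Fin n) (Fin n) F) * EL n F *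
      (((dg η n)⁻¹ : (Matrix (Fin n) (Fin n) F)ˣ) : Matrix (Fin n) (Fin n) F)ᵀ) = d • EL n F := by
    rw [EL, conj_SQ, dg_inv_ev _ (by omega), SQ_smul, hd, pow_two, Units.val_mul]
  rwa [dgiT] at h1

end H6.SpReg
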