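import Cfsg.Agent.Lib.H6.SpRegE

/-!
Three conjugate regular unipotents generate `Sp_2n(F)`.
-/
set_option autoImplicit false

namespace H6.SpReg

open Matrix Cfsg H16.Symp H16.SympTransv

variable {F : Type*} [Field F] {n : ℕ}

theorem gJ_ev {g : (Matrix (Fin n) (Fin n) F)ˣ} (hg : (g : Matrix (Fin n) (Fin n) F) = 1 + NS n F) {k : ℕ} (hk : k < n) :
    (g : Matrix (Fin n) (Fin n) F) *ᵥ ev n F k = ev n F k + pv n F k := by
  rw [hg, add_mulVec, one_mulVec, NS_ev hk]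

/-- `t u ~ u` for `n ≥ 3` -/
theorem conj_up3 (hn : 3 ≤ n) {g : (Matrix (Fin n) (Fin n) F)ˣ} (hg : (g : Matrix (Fin n) (Fin n) F) = 1 + NS n F) :
    ∃ x : symplecticGroup (Fin n) F, x * uu g * x⁻¹ = tq ((1 : F) • SQ (ev n F 0)) (smul_symm (SQ_symm _)) * uu g := by
  have e0 : (g : Matrix (Fin n) (Fin n) F) *ᵥ ev n F 0 = ev n F 0 := by rw [gJ_ev hg (by omega), pv_zero, add_zero]
  have e1 : (g : Matrix (Fin n) (Fin n) F) *ᵥ ev n F 1 = ev n F 1 + ev n F 0 := by rw [gJ_ev hg (by omega), pv_succ]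
  have e2 : (g : Matrix (Fin n) (Fin n) F) *ᵥ ev n F 2 = ev n F 2 + ev n F 1 := by rw [gJ_ev hg (by omega), pv_succ]
  have hs : (DD (ev n F 0) (ev n F 2) + -SQ (ev n F 1))ᵀ = DD (ev n F 0) (ev n F 2) + -SQ (ev n F 1) :=
    add_symm' (DD_symm _ _) (neg_symm' (SQ_symm _))
  refine ⟨tq _ hs, ?_⟩
  rw [mul_inv_eq_iff_eq_mul, uu, mul_assoc (tq _ (smul_symm (SQ_symm _))), mul_assoc (tq _ EL_symm), mm_tq,
    ← mul_assoc, ← mul_assoc, ← mul_assoc, tq_mul, tq_mul, tq_mul]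
  congr 1
  apply tq_ext
  rw [mul_add, add_mul, mul_neg, neg_mul, conj_SQ, conj_DD, e0, e1, e2]
  ext i j
  simp only [Matrix.add_apply, Matrix.neg_apply, SQ_apply, DD_apply, Matrix.smul_apply, smul_eq_mul, Pi.add_apply]
  ring

/-- `t u ~ u` for `n = 2` -/
theorem conj_up2 (s : F) : ∃ x : symplecticGroup (Fin 2) F, x * uu (tr (1 : F)) * x⁻¹ = q3 (s * (s - 1)) 0 0 * uu (tr 1) := by
  refine ⟨q3 0 0 s * mm (tr s), ?_⟩
  have hu : uu (tr (1 : F)) = q3 0 0 1 * mm (tr 1) := by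
    rw [uu, q3]
    congr 1
    exact tq_ext EL2
  rw [mul_inv_eq_iff_eq_mul, hu]
  have e1 : mm (tr s) * mm (tr (1 : F)) = mm (tr 1) * mm (tr s) := by rw [tr_mul, tr_mul, add_comm]
  calc q3 0 0 s * mm (tr s) * (q3 0 0 1 * mm (tr 1)) = q3 0 0 s * (mm (tr s) * q3 0 0 1) * mm (tr 1) := by group
    _ = q3 0 0 s * (q3 (0 + 2 * s * 0 + s ^ 2 * 1) (0 + s * 1) 1 * mm (tr s)) * mm (tr 1) := by rw [tr_q3]
    _ = (q3 0 0 s * q3 (0 + 2 * s * 0 + s ^ 2 * 1) (0 + s * 1) 1) * (mm (tr s) * mm (tr 1)) := by group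
    _ = q3 (s * (s - 1)) 0 0 * (q3 0 0 1 * (q3 (0 + 2 * 1 * 0 + 1 ^ 2 * s) (0 + 1 * s) s)) * (mm (tr 1) * mm (tr s)) := by
        rw [e1, q3_mul, q3_mul, q3_mul]
        congr 1
        apply q3_congr <;> ring
    _ = q3 (s * (s - 1)) 0 0 * (q3 0 0 1 * (q3 (0 + 2 * 1 * 0 + 1 ^ 2 * s) (0 + 1 * s) s * mm (tr 1))) * mm (tr s) := by
        simp only [mul_assoc]
    _ = q3 (s * (s - 1)) 0 0 * (q3 0 0 1 * (mm (tr 1) * q3 0 0 s)) * mm (tr s) := by rw [← tr_q3]
    _ = q3 (s * (s - 1)) 0 0 * (q3 0 0 1 * mm (tr 1)) * (q3 0 0 s * mm (tr s)) := by simp only [mul_assoc]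

theorem tr_one : ((tr (1 : F) : (Matrix (Fin 2) (Fin 2) F)ˣ) : Matrix (Fin 2) (Fin 2) F) = 1 + NS 2 F := by
  rw [coe_tr]
  ext i j; fin_cases i <;> fin_cases j <;> simp [NS]

/-- regularity -/
theorem uu_regular (hn : 0 < n) {g : (Matrix (Fin n) (Fin n) F)ˣ} (hg : (g : Matrix (Fin n) (Fin n) F) = 1 + NS n F) :
    IsNilpotent ((uu g : Matrix (Fin n ⊕ Fin n) (Fin n ⊕ Fin n) F) - 1) ∧
      ((uu g : Matrix (Fin n ⊕ Fin n) (Fin n ⊕ Fin n) F) - 1) ^ (2 * n - 1) ≠ 0 := by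
  set N : Matrix (Fin n ⊕ Fin n) (Fin n ⊕ Fin n) F := (uu g : Matrix (Fin n ⊕ Fin n) (Fin n ⊕ Fin n) F) - 1 with hN
  set gi : Matrix (Fin n) (Fin n) F := ((g⁻¹ : (Matrix (Fin n) (Fin n) F)ˣ) : Matrix (Fin n) (Fin n) F)ᵀ with hgi
  have hNb : N = fromBlocks (NS n F) (EL n F * gi) 0 (gi - 1) := by
    rw [hN, sub_eq_iff_eq_add, uu, coe_mulSp, coe_tq, coe_mm, ← hgi, fromBlocks_multiply, ← fromBlocks_one, fromBlocks_add, hg]
    congr 1 <;> simp [add_comm]
  have hact : ∀ a b : Fin n → F, N *ᵥ (Sum.elim a b) =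
      Sum.elim (NS n F *ᵥ a + EL n F *ᵥ (gi *ᵥ b)) ((gi - 1) *ᵥ b) := by
    intro a b
    rw [hNb, fromBlocks_mulVec]
    simp [Function.comp_def]
  have hgig : (g : Matrix (Fin n) (Fin n) F)ᵀ * gi = 1 := by rw [hgi, ← transpose_mul, g.inv_mul, transpose_one]
  have hggi : gi * (g : Matrix (Fin n) (Fin n) F)ᵀ = 1 := by rw [hgi, ← transpose_mul, g.mul_inv, transpose_one]
  -- first part
  have h1 : ∀ m (a : Fin n → F), (N ^ m) *ᵥ (Sum.elim a 0) = Sum.elim ((NS n F ^ m) *ᵥ a) 0 := by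
    intro m
    induction m with
    | zero => intro a; simp
    | succ m ih =>
      intro a
      rw [pow_succ, ← mulVec_mulVec, hact, mulVec_zero, mulVec_zero, mulVec_zero, add_zero, ih, pow_succ, ← mulVec_mulVec]
  have h2 : ∀ m (a b : Fin n → F), ∃ a', (N ^ m) *ᵥ (Sum.elim a b) = Sum.elim a' (((gi - 1) ^ m) *ᵥ b) := by
    intro m
    induction m with
    | zero => intro a b; exact ⟨a, by simp⟩
    | succ m ih =>
      intro a b
      obtain ⟨a', ha'⟩ := ih (NS n F *ᵥ a + EL n F *ᵥ (gi *ᵥ b)) ((gi - 1) *ᵥ b)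
      exact ⟨a', by rw [pow_succ, ← mulVec_mulVec, hact, ha', pow_succ, ← mulVec_mulVec]⟩
  have hM : gi - 1 = -((NS n F)ᵀ * gi) := by
    have h3 : (g : Matrix (Fin n) (Fin n) F)ᵀ = 1 + (NS n F)ᵀ := by rw [hg, transpose_add, transpose_one]
    have h4 : (1 + (NS n F)ᵀ) * gi = 1 := by rw [← h3]; exact hgig
    rw [add_mul, one_mul] at h4
    rw [← h4]; abel
  have hcomm : Commute ((NS n F)ᵀ) gi := by
    have h3 : (g : Matrix (Fin n) (Fin n) F)ᵀ = 1 + (NS n F)ᵀ := by rw [hg, transpose_add, transpose_one]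
    have h4 : (1 + (NS n F)ᵀ) * gi = 1 := by rw [← h3]; exact hgig
    have h5 : gi * (1 + (NS n F)ᵀ) = 1 := by rw [← h3]; exact hggi
    rw [add_mul, one_mul] at h4
    rw [mul_add, mul_one] at h5
    exact add_left_cancel (h4.trans h5.symm)
  have hMp : ∀ m, (gi - 1) ^ m = (-1) ^ m * (gi ^ m * ((NS n F)ᵀ) ^ m) := by
    intro m
    rw [hM, neg_pow, hcomm.mul_pow, (hcomm.pow_pow m m).eq]
  have hMn : (gi - 1) ^ n = 0 := by
    rw [hMp, NSt_pow_zero, mul_zero, mul_zero]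
  have hnil : N ^ (n + n) = 0 := by
    apply mulVec_ext
    intro x
    rw [show x = Sum.elim (x ∘ Sum.inl) (x ∘ Sum.inr) from (Sum.elim_comp_inl_inr x).symm, pow_add, ← mulVec_mulVec]
    obtain ⟨a', ha'⟩ := h2 n (x ∘ Sum.inl) (x ∘ Sum.inr)
    rw [ha', hMn, zero_mulVec, h1, NS_pow_zero, zero_mulVec, zero_mulVec]
    funext i; rcases i with i | i <;> rfl
  refine ⟨⟨n + n, hnil⟩, ?_⟩
  intro hzero
  have hgil : gi *ᵥ ev n F (n - 1) = ev n F (n - 1) := by
    have h3 : (g : Matrix (Fin n) (Fin n) F)ᵀ *ᵥ ev n F (n - 1) = ev n F (n - 1) := by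
      rw [hg, transpose_add, transpose_one, add_mulVec, one_mulVec, NSt_ev (by omega),
        ev_ge (k := n - 1 + 1) (by omega), add_zero]
    conv_lhs => rw [← h3]
    rw [mulVec_mulVec, hggi, one_mulVec]
  have hgip : ∀ m, (gi ^ m) *ᵥ ev n F (n - 1) = ev n F (n - 1) := by
    intro m
    induction m with
    | zero => rw [pow_zero, one_mulVec]
    | succ m ih => rw [pow_succ, ← mulVec_mulVec, hgil, ih]
  obtain ⟨a', ha'⟩ := h2 (n - 1) 0 (ev n F 0)
  have h5 : ((gi - 1) ^ (n - 1)) *ᵥ ev n F 0 = ((-1 : F) ^ (n - 1)) • ev n F (n - 1) := by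
    rw [hMp, ← mulVec_mulVec, ← mulVec_mulVec, NSt_pow_ev _ _ hn, zero_add, hgip]
    have : ((-1 : Matrix (Fin n) (Fin n) F)) ^ (n - 1) = ((-1 : F) ^ (n - 1)) • (1 : Matrix (Fin n) (Fin n) F) := by
      rcases neg_one_pow_eq_or F (n - 1) with h | h
      · have : Even (n - 1) ∨ Odd (n - 1) := Nat.even_or_odd _
        rcases this with h' | h'
        · rw [h'.neg_one_pow, h'.neg_one_pow, one_smul]
        · rw [h'.neg_one_pow, h'.neg_one_pow, neg_smul, one_smul]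
      · have : Even (n - 1) ∨ Odd (n - 1) := Nat.even_or_odd _
        rcases this with h' | h'
        · rw [h'.neg_one_pow, h'.neg_one_pow, one_smul]
        · rw [h'.neg_one_pow, h'.neg_one_pow, neg_smul, one_smul]
    rw [this, smul_mulVec, one_mulVec]
  rw [h5] at ha'
  have h6 : (N ^ (2 * n - 1)) *ᵥ (Sum.elim 0 (ev n F 0)) = ((-1 : F) ^ (n - 1)) • Sum.elim (ev n F 0) 0 := by
    have e1 : 2 * n - 1 = (n - 1) + (1 + (n - 1)) := by omega
    rw [e1, pow_add, ← mulVec_mulVec, pow_add, ← mulVec_mulVec, ha', pow_one, hact, mulVec_smul, mulVec_smul, hgil]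
    have e2 : (gi - 1) *ᵥ ev n F (n - 1) = 0 := by rw [sub_mulVec, one_mulVec, hgil, sub_self]
    have e3 : EL n F *ᵥ ev n F (n - 1) = ev n F (n - 1) := by
      rw [EL, SQ, vecMulVec_mulVec]
      have : ev n F (n - 1) ⬝ᵥ ev n F (n - 1) = 1 := by
        rw [dotProduct, Finset.sum_eq_single (⟨n - 1, by omega⟩ : Fin n)]
        · simp [ev]
        · intro j _ hj
          rw [ev, if_neg, zero_mul]
          intro h; exact hj (Fin.ext h)
        · intro h; exact absurd (Finset.mem_univ _) h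
      rw [this]; simp
    rw [mulVec_smul, e2, smul_zero, e3, h1, mulVec_add, mulVec_mulVec, ← pow_succ, Nat.sub_add_cancel hn, NS_pow_zero,
      zero_mulVec, zero_add, mulVec_smul]
    have e4 := NS_pow_ev (F := F) (n := n) (n - 1) 0 (by omega)
    rw [zero_add] at e4
    rw [e4]
    funext i; rcases i with i | i <;> simp
  rw [hzero, zero_mulVec] at h6
  have h7 := congrFun h6 (Sum.inl ⟨0, hn⟩)
  simp only [Pi.zero_apply, Pi.smul_apply, Sum.elim_inl, ev, smul_eq_mul, if_true, mul_one] at h7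
  exact pow_ne_zero _ (neg_ne_zero.2 one_ne_zero) h7.symm

/-- assembly: from the base statement to the theorem -/
theorem assemble (hn : 2 ≤ n) {g : (Matrix (Fin n) (Fin n) F)ˣ} (hg : (g : Matrix (Fin n) (Fin n) F) = 1 + NS n F)
    (η : ℕ → Fˣ) {c : F}
    {x : symplecticGroup (Fin n) F} (hx : x * uu g * x⁻¹ = tq (c • SQ (ev n F 0)) (smul_symm (SQ_symm _)) * uu g)
    (hbase : ∀ K : Subgroup (symplecticGroup (Fin n) F), uu g ∈ K →
      mm (gL g η) * tl ((((η (n - 1))⁻¹ ^ 2 : Fˣ) : F) • EL n F) (smul_symm EL_symm) ∈ K → c • SQ (ev n F 0) ∈ AK K →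
      ∀ y : F, y • SQ (ev n F 0) ∈ AK K) :
    ∃ u g h : Matrix.symplecticGroup (Fin n) F,
      IsNilpotent ((u : Matrix (Fin n ⊕ Fin n) (Fin n ⊕ Fin n) F) - 1) ∧
      ((u : Matrix (Fin n ⊕ Fin n) (Fin n ⊕ Fin n) F) - 1) ^ (2 * n - 1) ≠ 0 ∧
      Subgroup.closure ({u, g * u * g⁻¹, h * u * h⁻¹} : Set (Matrix.symplecticGroup (Fin n) F)) = ⊤ := by
  obtain ⟨hr1, hr2⟩ := uu_regular (show 0 < n by omega) hg
  refine ⟨uu g, x, mm (dg η n) * JJ n F, hr1, hr2, ?_⟩
  set K := Subgroup.closure ({uu g, x * uu g * x⁻¹, mm (dg η n) * JJ n F * uu g * (mm (dg η n) * JJ n F)⁻¹} :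
    Set (Matrix.symplecticGroup (Fin n) F)) with hK
  have hu : uu g ∈ K := Subgroup.subset_closure (by simp)
  have h2 : x * uu g * x⁻¹ ∈ K := Subgroup.subset_closure (by simp)
  have h3 : mm (dg η n) * JJ n F * uu g * (mm (dg η n) * JJ n F)⁻¹ ∈ K := Subgroup.subset_closure (by simp)
  rw [conj_low (by omega) g η rfl] at h3
  have hv := K.inv_mem h3
  rw [inv_inv] at hv
  rw [hx] at h2
  have ht : c • SQ (ev n F 0) ∈ AK K := by
    rw [← tq_mem_of (hQ := smul_symm (SQ_symm _))]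
    have := K.mul_mem h2 (K.inv_mem hu)
    rwa [mul_inv_cancel_right] at this
  have h0 : SQ (ev n F 0) ∈ BK K := hbase K hu hv ht
  have hge : ∀ i, i < n → (g : Matrix (Fin n) (Fin n) F) *ᵥ ev n F i = ev n F i + pv n F i := fun i hi => gJ_ev hg hi
  have hge' : ∀ i, i + 1 < n → (gL g η : Matrix (Fin n) (Fin n) F) *ᵥ ev n F i = ev n F i +
    (fun i => ((η (i + 1) * (η i)⁻¹ : Fˣ) : F)) i • ev n F (i + 1) := fun i hi => gL_ev hg η hi
  have hfull : ∀ w : Fin n → F, SQ w ∈ BK K := by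
    apply sym_full (g := (g : Matrix (Fin n) (Fin n) F)) (g' := (gL g η : Matrix (Fin n) (Fin n) F))
      (b := fun i => ((η (i + 1) * (η i)⁻¹ : Fˣ) : F)) _ _ hge hge' (fun i => Units.ne_zero _) h0
    · intro Q hQ c
      have := AK_up hu (hQ c)
      rwa [Matrix.mul_smul, Matrix.smul_mul] at this
    · intro Q hQ hl c
      have := AK_low hv (hQ c) (hl.smul c)
      rwa [Matrix.mul_smul, Matrix.smul_mul] at this
  exact top_of_full hfull (Units.ne_zero _) (fun i => Units.ne_zero _) hv hge' (gL_last hg η (by omega))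

theorem main [Fintype F] (n : ℕ) (hn : 2 ≤ n) (h22 : ¬ (n = 2 ∧ Fintype.card F = 2)) :
    ∃ u g h : Matrix.symplecticGroup (Fin n) F,
      IsNilpotent ((u : Matrix (Fin n ⊕ Fin n) (Fin n ⊕ Fin n) F) - 1) ∧
      ((u : Matrix (Fin n ⊕ Fin n) (Fin n ⊕ Fin n) F) - 1) ^ (2 * n - 1) ≠ 0 ∧
      Subgroup.closure ({u, g * u * g⁻¹, h * u * h⁻¹} : Set (Matrix.symplecticGroup (Fin n) F)) = ⊤ := by
  obtain ⟨ζ, hζ⟩ := IsCyclic.exists_monoid_generator (α := Fˣ)
  have hge : ∀ i, i < n → (gJ n F : Matrix (Fin n) (Fin n) F) *ᵥ ev n F i = ev n F i + pv n F i :=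
    fun i hi => gJ_ev coe_gJ hi
  by_cases h3 : 3 ≤ n
  · let η : ℕ → Fˣ := fun i => if i = 0 then 1 else ζ
    obtain ⟨x, hx⟩ := conj_up3 (F := F) h3 (g := gJ n F) coe_gJ
    have hge' : ∀ i, i + 1 < n → (gL (gJ n F) η : Matrix (Fin n) (Fin n) F) *ᵥ ev n F i = ev n F i +
      (fun i => ((η (i + 1) * (η i)⁻¹ : Fˣ) : F)) i • ev n F (i + 1) := fun i hi => gL_ev coe_gJ η hi
    refine assemble hn coe_gJ η hx ?_
    intro K hu hv hc y
    by_cases h2 : (2 : F) = 0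
    · refine base_two h2 h3 (fun Q hQ => AK_up hu hQ) (fun Q hQ hl => AK_low hv hQ hl) hge hge' hζ ?_ ?_ one_ne_zero hc y
      · simp [η]
      · simp [η]
    · refine base_odd h2 hn (fun Q hQ => AK_up hu hQ) (fun Q hQ hl => AK_low hv hQ hl) hge hge' hζ ?_ one_ne_zero hc y
      simp [η]
  · have hn2 : n = 2 := by omega
    subst hn2
    have hge2 : ∀ i, i < 2 → (tr (1 : F) : Matrix (Fin 2) (Fin 2) F) *ᵥ ev 2 F i = ev 2 F i + pv 2 F i :=
      fun i hi => gJ_ev tr_one hi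
    have hq3 : ∀ c : F, q3 c 0 0 = tq (c • SQ (ev 2 F 0)) (smul_symm (SQ_symm _)) := by
      intro c
      rw [q3]
      apply tq_ext
      rw [SQ0]
      ext i j; fin_cases i <;> fin_cases j <;> simp
    by_cases h2 : (2 : F) = 0
    · -- characteristic two, q ≥ 4
      have hcard : Fintype.card F ≠ 2 := fun h => h22 ⟨rfl, h⟩
      obtain ⟨s, hs0, hs1⟩ : ∃ s : F, s ≠ 0 ∧ s ≠ 1 := by
        by_contra hcon
        push Not at hcon
        apply hcard
        rw [Fintype.card_eq_nat_card]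
        classical
        have h1 : (Finset.univ : Finset F) = {0, 1} := by
          ext s
          simp only [Finset.mem_univ, Finset.mem_insert, Finset.mem_singleton, true_iff]
          by_cases h : s = 0
          · exact Or.inl h
          · exact Or.inr (hcon s h)
        rw [Nat.card_eq_fintype_card, ← Finset.card_univ, h1, Finset.card_pair zero_ne_one]
      set c := s * (s - 1) with hcdef
      have hc0 : c ≠ 0 := mul_ne_zero hs0 (sub_ne_zero.2 hs1)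
      obtain ⟨x, hx⟩ := conj_up2 s
      haveI : CharP F 2 := CharTwo.of_one_ne_zero_of_two_eq_zero one_ne_zero h2
      obtain ⟨e, he⟩ := FiniteField.isSquare_of_char_two (ringChar.eq F 2) (c * (ζ : F)⁻¹)
      have he0 : e ≠ 0 := by
        rintro rfl
        rw [mul_zero] at he
        exact mul_ne_zero hc0 (inv_ne_zero ζ.ne_zero) he
      let η : ℕ → Fˣ := fun _ => Units.mk0 e he0
      rw [hq3] at hx
      refine assemble hn tr_one η hx ?_
      intro K hu hv hc y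
      have hd : c * (((η (2 - 1))⁻¹ ^ 2 : Fˣ) : F) = ζ := by
        have : (((η (2 - 1))⁻¹ ^ 2 : Fˣ) : F) = (e * e)⁻¹ := by
          simp [η, pow_two]
        rw [this, ← he]
        have := ζ.ne_zero
        field_simp
      have hlo : gL (tr (1 : F)) η = lo 1 := by
        apply Units.ext
        apply ext_ev
        intro k hk
        interval_cases k
        · rw [gL_ev tr_one η (by omega)]
          funext j
          fin_cases j <;> simp [ev, coe_lo, η, mulVec, dotProduct]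
        · have := gL_last (F := F) tr_one η (n := 2) (by omega)
          rw [show (2 - 1 : ℕ) = 1 by rfl] at this
          rw [this]
          funext j
          fin_cases j <;> simp [ev, coe_lo, mulVec, dotProduct]
      have hu' : q3 0 0 1 * mm (tr 1) ∈ K := by
        rw [uu, tq_ext (Q' := !![0, 0; 0, 1]) (hQ' := sy 0 0 1) EL2] at hu
        exact hu
      have hv' : mm (lo 1) * l3 (((η (2 - 1))⁻¹ ^ 2 : Fˣ) : F) ∈ K := by
        rw [hlo, tl_ext (Q' := !![0, 0; 0, (((η (2 - 1))⁻¹ ^ 2 : Fˣ) : F)]) (hQ' := sy 0 0 _)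
          (by rw [EL2]; ext i j; fin_cases i <;> fin_cases j <;> simp)] at hv
        exact hv
      have hc' : q3 c 0 0 ∈ K := by
        rw [hq3, tq_mem_of]; exact hc
      have := base_pair h2 hζ hd hs0 hs1 hu' hv' hc' y
      rwa [hq3, tq_mem_of] at this
    · -- odd characteristic
      let η : ℕ → Fˣ := fun i => if i = 0 then 1 else ζ
      obtain ⟨x, hx⟩ := conj_up2 (-1 : F)
      rw [hq3] at hx
      refine assemble hn tr_one η hx ?_
      intro K hu hv hc y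
      refine base_odd h2 hn (fun Q hQ => AK_up hu hQ) (fun Q hQ hl => AK_low hv hQ hl) hge2
        (b := fun i => ((η (i + 1) * (η i)⁻¹ : Fˣ) : F)) (fun i hi => gL_ev tr_one η hi) hζ ?_ ?_ hc y
      · simp [η]
      · have : (-1 : F) * (-1 - 1) = 2 := by ring
        rw [this]; exact h2

end H6.SpReg
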