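import Cfsg.Agent.Lib.H6.SpSysE

/-!
From finitely many relations in `S_n`, `SL₂(F)` and one short root element to an `SL₂`-system.
-/

set_option autoImplicit false

namespace H6.SpSys

open Matrix Equiv

variable {F : Type*} [Field F] {m : ℕ} {Γ : Type*} [Group Γ]

/-- `λ_k` -/
def lm (α : Perm (Fin (m + 2)) → Γ) (β : SpecialLinearGroup (Fin 2) F → Γ) (k : Fin (m + 2))
    (g : SpecialLinearGroup (Fin 2) F) : Γ := α (swap 0 k) * β g * (α (swap 0 k))⁻¹

/-- conjugates of `y` -/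
def TT (α : Perm (Fin (m + 2)) → Γ) (β : SpecialLinearGroup (Fin 2) F → Γ) (y : Γ) (π : Perm (Fin (m + 2)))
    (g g' : SpecialLinearGroup (Fin 2) F) : Γ := (α π * β g * lm α β 1 g') * y * (α π * β g * lm α β 1 g')⁻¹

/-- diagonal elements -/
def hd (a : Fˣ) : SpecialLinearGroup (Fin 2) F := ⟨!![(a : F), 0; 0, ((a⁻¹ : Fˣ) : F)], by
  simp [Matrix.det_fin_two]⟩

lemma hd_ee (a : Fˣ) : (hd a).1 *ᵥ ee F = (a : F) • ee F := by
  ext i; fin_cases i <;> simp [hd, ee, Matrix.mulVec, dotProduct, Fin.sum_univ_two]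

lemma hd_ff (a : Fˣ) : (hd a).1 *ᵥ ff F = ((a⁻¹ : Fˣ) : F) • ff F := by
  ext i; fin_cases i <;> simp [hd, ff, Matrix.mulVec, dotProduct, Fin.sum_univ_two]

lemma hd_mul (a b : Fˣ) : (hd (a * b) : SpecialLinearGroup (Fin 2) F) = hd a * hd b := by
  apply ext_act
  · rw [mul_act, hd_ee, hd_ee, Matrix.mulVec_smul, hd_ee, smul_smul, Units.val_mul, mul_comm]
  · rw [mul_act, hd_ff, hd_ff, Matrix.mulVec_smul, hd_ff, smul_smul, _root_.mul_inv_rev, Units.val_mul]

lemma hd_one : (hd 1 : SpecialLinearGroup (Fin 2) F) = 1 := by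
  apply ext_act
  · rw [hd_ee, one_act, Units.val_one, one_smul]
  · rw [hd_ff, one_act, inv_one, Units.val_one, one_smul]

lemma zo (m : ℕ) : (0 : Fin (m + 2)) ≠ 1 := by
  intro h
  have := congrArg Fin.val h
  simp at this

/-- the basic relations in invariant form -/
structure Hyp0 (α : Perm (Fin (m + 2)) →* Γ) (β : SpecialLinearGroup (Fin 2) F →* Γ) (y : Γ) : Prop where
  h1 : ∀ π : Perm (Fin (m + 2)), π 0 = 0 → ∀ g, α π * β g = β g * α π
  h2 : ∀ g g', β g * lm α β 1 g' = lm α β 1 g' * β g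
  h3 : ∀ π : Perm (Fin (m + 2)), π 0 = 0 → π 1 = 1 → α π * y = y * α π
  h4 : α (swap 0 1) * y = y * α (swap 0 1)
  h5 : ∀ c, β (tv (ee F) c) * y = y * β (tv (ee F) c)
  h6 : ∀ a : Fˣ, β (hd a) * (lm α β 1 (hd a))⁻¹ * y = y * (β (hd a) * (lm α β 1 (hd a))⁻¹)

/-- the relations in invariant form -/
structure Hyp (α : Perm (Fin (m + 2)) →* Γ) (β : SpecialLinearGroup (Fin 2) F →* Γ) (y : Γ) : Prop
    extends Hyp0 α β y where
  h7 : ∀ k : Fin (m + 2), k ≠ 0 → k ≠ 1 → ∀ g, lm α β k g * y = y * lm α β k g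
  h8 : ∀ c : F, c ≠ 0 → ∀ g g' : SpecialLinearGroup (Fin 2) F, g.1 *ᵥ ee F = c • ff F → g'.1 *ᵥ ee F = ee F + c • ff F →
    y * TT α β y 1 1 g = TT α β y 1 1 g' * β (tv (ee F) (-c))
  h9 : ∀ g : SpecialLinearGroup (Fin 2) F, g.1 *ᵥ ee F = - ee F → TT α β y 1 1 g * y = 1
  h10 : ∀ k : Fin (m + 2), k ≠ 0 → k ≠ 1 → y * TT α β y (swap 1 k) 1 1 = TT α β y (swap 1 k) 1 1 * y
  h11 : ∀ k : Fin (m + 2), k ≠ 0 → k ≠ 1 → ∀ (g g' : SpecialLinearGroup (Fin 2) F) (π : Perm (Fin (m + 2))),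
    g.1 *ᵥ ee F = ff F → g'.1 *ᵥ ee F = - ee F → π 0 = 1 → π 1 = k →
      y * TT α β y (swap 1 k) g 1 = TT α β y π g' 1 * TT α β y (swap 1 k) g 1 * y
  h12 : ∀ k l : Fin (m + 2), k ≠ 0 → k ≠ 1 → l ≠ 0 → l ≠ 1 → k ≠ l → ∀ π : Perm (Fin (m + 2)), π 0 = k → π 1 = l →
    y * TT α β y π 1 1 = TT α β y π 1 1 * y

lemma exists_perm2 {i j : Fin (m + 2)} (h : i ≠ j) : ∃ π : Perm (Fin (m + 2)), π 0 = i ∧ π 1 = j := by
  refine ⟨swap j (swap 0 i 1) * swap 0 i, ?_, ?_⟩
  · rw [Perm.mul_apply, swap_apply_left, swap_apply_of_ne_of_ne h]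
    intro h'
    rw [swap_apply_def] at h'
    split_ifs at h' with h1 h2
    · exact zo m h1.symm
    · exact zo m (h'.symm.trans h2.symm)
    · exact h2 h'.symm
  · rw [Perm.mul_apply, swap_apply_right]

namespace Hyp0

variable {α : Perm (Fin (m + 2)) →* Γ} {β : SpecialLinearGroup (Fin 2) F →* Γ} {y : Γ} (H : Hyp0 α β y)
include H

omit H in
lemma lm_zero (g : SpecialLinearGroup (Fin 2) F) : lm α β (0 : Fin (m + 2)) g = β g := by
  unfold lm; rw [swap_self]; change α 1 * β g * (α 1)⁻¹ = _; rw [map_one]; simp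

omit H in
lemma lm_mul (k : Fin (m + 2)) (g g' : SpecialLinearGroup (Fin 2) F) : lm α β k (g * g') = lm α β k g * lm α β k g' := by
  unfold lm; rw [map_mul]; group

omit H in
lemma lm_one' (k : Fin (m + 2)) : lm α β k (1 : SpecialLinearGroup (Fin 2) F) = 1 := by
  unfold lm; rw [map_one]; group

omit H in
lemma lm_inv (k : Fin (m + 2)) (g : SpecialLinearGroup (Fin 2) F) : lm α β k g⁻¹ = (lm α β k g)⁻¹ := by
  unfold lm; rw [map_inv]; group

lemma alpha_lm (π : Perm (Fin (m + 2))) (k : Fin (m + 2)) (g : SpecialLinearGroup (Fin 2) F) :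
    α π * lm α β k g = lm α β (π k) g * α π := by
  have h1 : (swap 0 (π k) * π * swap 0 k) 0 = 0 := by
    rw [Perm.mul_apply, Perm.mul_apply, swap_apply_left, swap_apply_right]
  have h2 := H.h1 _ h1 g
  have h3 : α (swap 0 (π k) * π * swap 0 k) = (α (swap 0 (π k)))⁻¹ * α π * α (swap 0 k) := by
    rw [map_mul, map_mul, ← map_inv, swap_inv]
  rw [h3] at h2
  unfold lm
  calc α π * (α (swap 0 k) * β g * (α (swap 0 k))⁻¹)
      = α (swap 0 (π k)) * ((α (swap 0 (π k)))⁻¹ * α π * α (swap 0 k) * β g) * (α (swap 0 k))⁻¹ := by group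
    _ = α (swap 0 (π k)) * (β g * ((α (swap 0 (π k)))⁻¹ * α π * α (swap 0 k))) * (α (swap 0 k))⁻¹ := by rw [h2]
    _ = _ := by group

lemma lm_comm {i j : Fin (m + 2)} (h : i ≠ j) (g g' : SpecialLinearGroup (Fin 2) F) :
    lm α β i g * lm α β j g' = lm α β j g' * lm α β i g := by
  obtain ⟨π, h0, h1⟩ := exists_perm2 h
  have e1 := H.alpha_lm π 0 g
  have e2 := H.alpha_lm π 1 g'
  rw [h0, lm_zero] at e1
  rw [h1] at e2
  have e1' : lm α β i g = α π * β g * (α π)⁻¹ := by rw [e1]; group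
  have e2' : lm α β j g' = α π * lm α β 1 g' * (α π)⁻¹ := by rw [e2]; group
  have e3 := H.h2 g g'
  rw [e1', e2']
  calc _ = α π * (β g * lm α β 1 g') * (α π)⁻¹ := by group
    _ = _ := by rw [e3]; group

/-- conjugator of `y` -/
lemma W_comm {π : Perm (Fin (m + 2))} (h0 : π 0 = 0) (h1 : π 1 = 1) (g g' : SpecialLinearGroup (Fin 2) F) :
    α π * (β g * lm α β 1 g') = (β g * lm α β 1 g') * α π := by
  rw [← mul_assoc, H.h1 π h0, mul_assoc, H.alpha_lm, h1, mul_assoc]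

lemma TT_mul (π σ : Perm (Fin (m + 2))) (g g' u u' : SpecialLinearGroup (Fin 2) F) (h0 : σ 0 = 0) (h1 : σ 1 = 1)
    (hu : u.1 *ᵥ ee F = ee F) (hu' : u'.1 *ᵥ ee F = ee F) :
    TT α β y (π * σ) (g * u) (g' * u') = TT α β y π g g' := by
  obtain ⟨c, rfl⟩ := eq_tv_of_fix hu
  obtain ⟨c', rfl⟩ := eq_tv_of_fix hu'
  have e1 : α (π * σ) * β (g * tv (ee F) c) * lm α β 1 (g' * tv (ee F) c') =
      (α π * β g * lm α β 1 g') * (α σ * β (tv (ee F) c) * lm α β 1 (tv (ee F) c')) := by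
    rw [map_mul, map_mul, lm_mul]
    calc α π * α σ * (β g * β (tv (ee F) c)) * (lm α β 1 g' * lm α β 1 (tv (ee F) c'))
        = α π * α σ * β g * (β (tv (ee F) c) * lm α β 1 g') * lm α β 1 (tv (ee F) c') := by simp only [mul_assoc]
      _ = α π * (α σ * (β g * lm α β 1 g')) * β (tv (ee F) c) * lm α β 1 (tv (ee F) c') := by
          rw [H.h2]; simp only [mul_assoc]
      _ = _ := by rw [H.W_comm h0 h1]; simp only [mul_assoc]
  have e2 : (α σ * β (tv (ee F) c) * lm α β 1 (tv (ee F) c')) * y =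
      y * (α σ * β (tv (ee F) c) * lm α β 1 (tv (ee F) c')) := by
    have e3 : lm α β 1 (tv (ee F) c') * y = y * lm α β 1 (tv (ee F) c') := by
      unfold lm
      have h4 := H.h4
      have h4' : (α (swap 0 1))⁻¹ * y = y * (α (swap 0 1))⁻¹ := by
        rw [inv_mul_eq_iff_eq_mul, ← mul_assoc, h4]; group
      calc _ = α (swap 0 1) * β (tv (ee F) c') * ((α (swap 0 1))⁻¹ * y) := by simp only [mul_assoc]
        _ = α (swap 0 1) * (β (tv (ee F) c') * y) * (α (swap 0 1))⁻¹ := by rw [h4']; simp only [mul_assoc]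
        _ = (α (swap 0 1) * y) * β (tv (ee F) c') * (α (swap 0 1))⁻¹ := by rw [H.h5]; simp only [mul_assoc]
        _ = _ := by rw [h4]; simp only [mul_assoc]
    calc _ = α σ * β (tv (ee F) c) * (lm α β 1 (tv (ee F) c') * y) := by simp only [mul_assoc]
      _ = α σ * (β (tv (ee F) c) * y) * lm α β 1 (tv (ee F) c') := by rw [e3]; simp only [mul_assoc]
      _ = (α σ * y) * β (tv (ee F) c) * lm α β 1 (tv (ee F) c') := by rw [H.h5]; simp only [mul_assoc]
      _ = _ := by rw [H.h3 σ h0 h1]; simp only [mul_assoc]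
  unfold TT
  rw [e1]
  have e4 : (α σ * β (tv (ee F) c) * lm α β 1 (tv (ee F) c')) * y *
      (α σ * β (tv (ee F) c) * lm α β 1 (tv (ee F) c'))⁻¹ = y := by
    rw [e2]; group
  calc _ = (α π * β g * lm α β 1 g') * ((α σ * β (tv (ee F) c) * lm α β 1 (tv (ee F) c')) * y *
      (α σ * β (tv (ee F) c) * lm α β 1 (tv (ee F) c'))⁻¹) * (α π * β g * lm α β 1 g')⁻¹ := by
        rw [_root_.mul_inv_rev (α π * β g * lm α β 1 g')]; simp only [mul_assoc]
    _ = _ := by rw [e4]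

/-- `TT` depends only on the images -/
lemma TT_congr {π π' : Perm (Fin (m + 2))} {g g' u u' : SpecialLinearGroup (Fin 2) F} (h0 : π 0 = π' 0)
    (h1 : π 1 = π' 1) (hg : g.1 *ᵥ ee F = u.1 *ᵥ ee F) (hg' : g'.1 *ᵥ ee F = u'.1 *ᵥ ee F) :
    TT α β y π g g' = TT α β y π' u u' := by
  have := H.TT_mul π' (π'⁻¹ * π) u u' (u⁻¹ * g) (u'⁻¹ * g')
    (by rw [Perm.mul_apply, h0, Perm.inv_eq_iff_eq]) (by rw [Perm.mul_apply, h1, Perm.inv_eq_iff_eq])
    (by rw [mul_act, hg, inv_act]) (by rw [mul_act, hg', inv_act])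
  rw [← this]
  congr 1 <;> group

end Hyp0

namespace Hyp

open Hyp0

variable {α : Perm (Fin (m + 2)) →* Γ} {β : SpecialLinearGroup (Fin 2) F →* Γ} {y : Γ} (H : Hyp α β y)
include H

omit H in
open Classical in
/-- choice of an element moving `e` to `v` -/
noncomputable def gg (v : Fin 2 → F) : SpecialLinearGroup (Fin 2) F :=
  if h : v ≠ 0 then (exists_act h).choose else 1

omit H in
lemma gg_ee {v : Fin 2 → F} (h : v ≠ 0) : (gg v).1 *ᵥ ee F = v := by
  unfold gg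
  rw [dif_pos h]
  exact (exists_act h).choose_spec

omit H in
/-- choice of a permutation -/
noncomputable def pp (i j : Fin (m + 2)) : Perm (Fin (m + 2)) :=
  if h : i ≠ j then (exists_perm2 h).choose else 1

omit H in
lemma pp_zero {i j : Fin (m + 2)} (h : i ≠ j) : pp i j 0 = i := by
  unfold pp
  rw [dif_pos h]
  exact (exists_perm2 h).choose_spec.1

omit H in
lemma pp_one {i j : Fin (m + 2)} (h : i ≠ j) : pp i j 1 = j := by
  unfold pp
  rw [dif_pos h]
  exact (exists_perm2 h).choose_spec.2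

omit H in
open Classical in
/-- the elements `T_ij(v,w)` -/
noncomputable def tt (α : Perm (Fin (m + 2)) →* Γ) (β : SpecialLinearGroup (Fin 2) F →* Γ) (y : Γ)
    (i j : Fin (m + 2)) (v w : Fin 2 → F) : Γ :=
  if v = 0 ∨ w = 0 then 1 else TT α β y (pp i j) (gg v) (gg w)

omit H in
lemma tt_zero (i j : Fin (m + 2)) (v : Fin 2 → F) : tt α β y i j v 0 = 1 := by
  unfold tt; rw [if_pos (Or.inr rfl)]

omit H in
lemma tt_zero' (i j : Fin (m + 2)) (v : Fin 2 → F) : tt α β y i j 0 v = 1 := by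
  unfold tt; rw [if_pos (Or.inl rfl)]

lemma tt_eq (π : Perm (Fin (m + 2))) (g g' : SpecialLinearGroup (Fin 2) F) :
    tt α β y (π 0) (π 1) (g.1 *ᵥ ee F) (g'.1 *ᵥ ee F) = TT α β y π g g' := by
  have h : π 0 ≠ π 1 := fun h => zo m (π.injective h)
  unfold tt
  rw [if_neg (by rintro (h | h); exact act_ne ee_ne h; exact act_ne ee_ne h)]
  exact H.TT_congr (pp_zero h) (pp_one h) (gg_ee (act_ne ee_ne)) (gg_ee (act_ne ee_ne))

lemma tt_eq' {i j : Fin (m + 2)} {v w : Fin 2 → F} {π : Perm (Fin (m + 2))} {g g' : SpecialLinearGroup (Fin 2) F}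
    (hi : π 0 = i) (hj : π 1 = j) (hv : g.1 *ᵥ ee F = v) (hw : g'.1 *ᵥ ee F = w) :
    tt α β y i j v w = TT α β y π g g' := by
  subst hi hj hv hw; exact H.tt_eq π g g'

/-- conjugation of `T` by permutations -/
lemma alpha_tt (σ : Perm (Fin (m + 2))) {i j : Fin (m + 2)} (h : i ≠ j) (v w : Fin 2 → F) :
    α σ * tt α β y i j v w = tt α β y (σ i) (σ j) v w * α σ := by
  by_cases hv : v = 0
  · subst hv; rw [tt_zero', tt_zero', mul_one, one_mul]
  by_cases hw : w = 0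
  · subst hw; rw [tt_zero, tt_zero, mul_one, one_mul]
  obtain ⟨π, h0, h1⟩ := exists_perm2 h
  rw [H.tt_eq' h0 h1 (gg_ee hv) (gg_ee hw), H.tt_eq' (π := σ * π) (by rw [Perm.mul_apply, h0])
    (by rw [Perm.mul_apply, h1]) (gg_ee hv) (gg_ee hw)]
  unfold TT
  rw [map_mul]; group

lemma symm {i j : Fin (m + 2)} (h : i ≠ j) (v w : Fin 2 → F) : tt α β y i j v w = tt α β y j i w v := by
  by_cases hv : v = 0
  · subst hv; rw [tt_zero', tt_zero]
  by_cases hw : w = 0
  · subst hw; rw [tt_zero', tt_zero]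
  obtain ⟨π, h0, h1⟩ := exists_perm2 h
  rw [H.tt_eq' h0 h1 (gg_ee hv) (gg_ee hw), H.tt_eq' (π := π * swap 0 1) (by rw [Perm.mul_apply, swap_apply_left, h1])
    (by rw [Perm.mul_apply, swap_apply_right, h0]) (gg_ee hw) (gg_ee hv)]
  unfold TT
  set a := gg v
  set b := gg w
  have e1 : α (swap 0 1) * β b = lm α β 1 b * α (swap 0 1) := by
    have := H.alpha_lm (swap 0 1) 0 b
    rwa [lm_zero, swap_apply_left] at this
  have e2 : α (swap 0 1) * lm α β 1 a = β a * α (swap 0 1) := by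
    have := H.alpha_lm (swap 0 1) 1 a
    rwa [swap_apply_right, lm_zero] at this
  have e3 : α (π * swap 0 1) * β b * lm α β 1 a = (α π * β a * lm α β 1 b) * α (swap 0 1) := by
    calc α (π * swap 0 1) * β b * lm α β 1 a = α π * (α (swap 0 1) * β b) * lm α β 1 a := by
          rw [map_mul]; simp only [mul_assoc]
      _ = α π * lm α β 1 b * (α (swap 0 1) * lm α β 1 a) := by rw [e1]; simp only [mul_assoc]
      _ = α π * (lm α β 1 b * β a) * α (swap 0 1) := by rw [e2]; simp only [mul_assoc]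
      _ = _ := by rw [← H.h2]; simp only [mul_assoc]
  rw [e3]
  have e4 : α (swap 0 1) * y * (α (swap 0 1))⁻¹ = y := by rw [H.h4]; group
  symm
  calc _ = (α π * β a * lm α β 1 b) * (α (swap 0 1) * y * (α (swap 0 1))⁻¹) * (α π * β a * lm α β 1 b)⁻¹ := by
        rw [_root_.mul_inv_rev (α π * β a * lm α β 1 b)]; simp only [mul_assoc]
    _ = _ := by rw [e4]

lemma conj {i j : Fin (m + 2)} (h : i ≠ j) (g : SpecialLinearGroup (Fin 2) F) (v w : Fin 2 → F) :
    lm α β i g * tt α β y i j v w = tt α β y i j (g.1 *ᵥ v) w * lm α β i g := by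
  by_cases hv : v = 0
  · subst hv; rw [Matrix.mulVec_zero, tt_zero', mul_one, one_mul]
  by_cases hw : w = 0
  · subst hw; rw [tt_zero, tt_zero, mul_one, one_mul]
  obtain ⟨π, h0, h1⟩ := exists_perm2 h
  rw [H.tt_eq' h0 h1 (gg_ee hv) (gg_ee hw), H.tt_eq' (g := g * gg v) h0 h1 (by rw [mul_act, gg_ee hv]) (gg_ee hw)]
  have e1 : lm α β i g * α π = α π * β g := by
    rw [← h0, ← H.alpha_lm, lm_zero]
  unfold TT
  have e2 : α π * β (g * gg v) * lm α β 1 (gg w) = lm α β i g * (α π * β (gg v) * lm α β 1 (gg w)) := by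
    calc _ = (α π * β g) * β (gg v) * lm α β 1 (gg w) := by rw [map_mul]; simp only [mul_assoc]
      _ = _ := by rw [← e1]; simp only [mul_assoc]
  rw [e2]; group

lemma comm3 {i j k : Fin (m + 2)} (h : i ≠ j) (hi : k ≠ i) (hj : k ≠ j) (g : SpecialLinearGroup (Fin 2) F)
    (v w : Fin 2 → F) : lm α β k g * tt α β y i j v w = tt α β y i j v w * lm α β k g := by
  by_cases hv : v = 0
  · subst hv; rw [tt_zero', mul_one, one_mul]
  by_cases hw : w = 0
  · subst hw; rw [tt_zero, mul_one, one_mul]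
  obtain ⟨π, h0, h1⟩ := exists_perm2 h
  rw [H.tt_eq' h0 h1 (gg_ee hv) (gg_ee hw)]
  set l := π⁻¹ k with hl
  have hπl : π l = k := by rw [hl, ← Perm.mul_apply, mul_inv_cancel, Perm.one_apply]
  have hl0 : l ≠ 0 := by intro h; rw [h, h0] at hπl; exact hi hπl.symm
  have hl1 : l ≠ 1 := by intro h; rw [h, h1] at hπl; exact hj hπl.symm
  have e1 := H.alpha_lm π l g
  rw [hπl] at e1
  unfold TT
  have e2 : lm α β k g * (α π * β (gg v) * lm α β 1 (gg w)) = (α π * β (gg v) * lm α β 1 (gg w)) * lm α β l g := by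
    calc _ = (lm α β k g * α π) * β (gg v) * lm α β 1 (gg w) := by simp only [mul_assoc]
      _ = α π * (lm α β l g * lm α β 0 (gg v)) * lm α β 1 (gg w) := by rw [← e1, lm_zero]; simp only [mul_assoc]
      _ = α π * lm α β 0 (gg v) * (lm α β l g * lm α β 1 (gg w)) := by rw [H.lm_comm hl0]; simp only [mul_assoc]
      _ = _ := by rw [H.lm_comm hl1, lm_zero]; simp only [mul_assoc]
  set X := α π * β (gg v) * lm α β 1 (gg w)
  calc lm α β k g * (X * y * X⁻¹) = (lm α β k g * X) * y * X⁻¹ := by simp only [mul_assoc]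
    _ = X * (lm α β l g * y) * X⁻¹ := by rw [e2]; simp only [mul_assoc]
    _ = X * y * (lm α β l g * X⁻¹) := by rw [H.h7 l hl0 hl1]; simp only [mul_assoc]
    _ = X * y * (X⁻¹ * lm α β k g) := by
        congr 1
        rw [mul_inv_eq_iff_eq_mul, mul_assoc, e2]; group
    _ = _ := by simp only [mul_assoc]

lemma smul {i j : Fin (m + 2)} (h : i ≠ j) (c : F) (v w : Fin 2 → F) :
    tt α β y i j (c • v) w = tt α β y i j v (c • w) := by
  by_cases hc : c = 0
  · subst hc; rw [zero_smul, zero_smul, tt_zero, tt_zero']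
  by_cases hv : v = 0
  · subst hv; rw [smul_zero, tt_zero', tt_zero']
  by_cases hw : w = 0
  · subst hw; rw [smul_zero, tt_zero, tt_zero]
  obtain ⟨π, h0, h1⟩ := exists_perm2 h
  set a : Fˣ := Units.mk0 c hc with ha
  rw [H.tt_eq' (g := gg v * hd a) h0 h1 (by rw [mul_act, hd_ee, Matrix.mulVec_smul, gg_ee hv]; rfl) (gg_ee hw),
    H.tt_eq' (g' := gg w * hd a) h0 h1 (gg_ee hv) (by rw [mul_act, hd_ee, Matrix.mulVec_smul, gg_ee hw]; rfl)]
  unfold TT
  have e1 : α π * β (gg v * hd a) * lm α β 1 (gg w) =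
      (α π * β (gg v) * lm α β 1 (gg w * hd a)) * (β (hd a) * (lm α β 1 (hd a))⁻¹) := by
    rw [map_mul, lm_mul]
    calc α π * (β (gg v) * β (hd a)) * lm α β 1 (gg w) = α π * β (gg v) * (β (hd a) * lm α β 1 (gg w)) := by
          simp only [mul_assoc]
      _ = α π * β (gg v) * lm α β 1 (gg w) * β (hd a) := by rw [H.h2]; simp only [mul_assoc]
      _ = α π * β (gg v) * lm α β 1 (gg w) * (β (hd a) * lm α β 1 (hd a)) * (lm α β 1 (hd a))⁻¹ := by group
      _ = _ := by rw [H.h2]; simp only [mul_assoc]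
  rw [e1]
  set X := α π * β (gg v) * lm α β 1 (gg w * hd a)
  set Y := β (hd a) * (lm α β 1 (hd a))⁻¹ with hY
  have e2 : Y * y * Y⁻¹ = y := by
    have := H.h6 a
    rw [← hY] at this
    rw [this]; group
  calc X * Y * y * (X * Y)⁻¹ = X * (Y * y * Y⁻¹) * X⁻¹ := by group
    _ = _ := by rw [e2]

end Hyp

end H6.SpSys
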