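import Cfsg.Agent.Lib.H6.SpSysF

/-!
From finitely many relations to an `SL₂`-system: Heisenberg and commutator relations, the system, the
isomorphism.
-/

set_option autoImplicit false

namespace H6.SpSys

open Matrix Equiv

variable {F : Type*} [Field F] {m : ℕ} {Γ : Type*} [Group Γ]

namespace Hyp

open Hyp0

variable {α : Perm (Fin (m + 2)) →* Γ} {β : SpecialLinearGroup (Fin 2) F →* Γ} {y : Γ} (H : Hyp α β y)
include H

/-- transport of relations: conjugation by `α π β g λ_1 g'` -/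
lemma conj_W (π : Perm (Fin (m + 2))) (g g' : SpecialLinearGroup (Fin 2) F) (v w : Fin 2 → F) :
    (α π * β g * lm α β 1 g') * tt α β y 0 1 v w =
      tt α β y (π 0) (π 1) (g.1 *ᵥ v) (g'.1 *ᵥ w) * (α π * β g * lm α β 1 g') := by
  have e1 : lm α β 1 g' * tt α β y 0 1 v w = tt α β y 0 1 v (g'.1 *ᵥ w) * lm α β 1 g' := by
    rw [H.symm (zo m), H.conj (zo m).symm, ← H.symm (zo m)]
  have e2 : β g * tt α β y 0 1 v (g'.1 *ᵥ w) = tt α β y 0 1 (g.1 *ᵥ v) (g'.1 *ᵥ w) * β g := by
    have := H.conj (zo m) g v (g'.1 *ᵥ w)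
    rwa [lm_zero] at this
  have e3 := H.alpha_tt π (zo m) (g.1 *ᵥ v) (g'.1 *ᵥ w)
  calc _ = α π * β g * (lm α β 1 g' * tt α β y 0 1 v w) := by simp only [mul_assoc]
    _ = α π * (β g * tt α β y 0 1 v (g'.1 *ᵥ w)) * lm α β 1 g' := by rw [e1]; simp only [mul_assoc]
    _ = (α π * tt α β y 0 1 (g.1 *ᵥ v) (g'.1 *ᵥ w)) * β g * lm α β 1 g' := by rw [e2]; simp only [mul_assoc]
    _ = _ := by rw [e3]; simp only [mul_assoc]

omit H in
lemma conj_eq {x a b : Γ} (h : x * a = b * x) : b = x * a * x⁻¹ := by rw [h]; group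

lemma y_eq : tt α β y 0 1 (ee F) (ee F) = y := by
  rw [H.tt_eq' (i := 0) (j := 1) (π := 1) (g := 1) (g' := 1) rfl rfl (one_act _) (one_act _)]
  unfold TT
  rw [map_one, map_one, lm_one']; group

/-- Heisenberg relation for independent vectors -/
lemma mul_indep {i j : Fin (m + 2)} (h : i ≠ j) (v w w' : Fin 2 → F) (hw : om w w' ≠ 0) :
    tt α β y i j v w * tt α β y i j v w' = tt α β y i j v (w + w') * lm α β i (tv v (om w' w)) := by
  by_cases hv : v = 0
  · subst hv; rw [tt_zero', tt_zero', tt_zero', tv_zero', lm_one', one_mul]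
  obtain ⟨π, h0, h1⟩ := exists_perm2 h
  set c := om w w' with hc
  obtain ⟨g', hg1, hg2⟩ := exists_act2 (v := w) (v' := c⁻¹ • w') (by
    rw [om_smul_right, ← hc, inv_mul_cancel₀ hw])
  have hw' : g'.1 *ᵥ (c • ff F) = w' := by
    rw [Matrix.mulVec_smul, hg2, smul_smul, mul_inv_cancel₀ hw, one_smul]
  have hww : g'.1 *ᵥ (ee F + c • ff F) = w + w' := by rw [Matrix.mulVec_add, hg1, hw']
  -- base relation
  have hcf : c • ff F ≠ 0 := smul_ne_zero hw ff_ne
  have hecf : ee F + c • ff F ≠ 0 := by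
    intro h
    have := congrFun h 0
    simp at this
  have base := H.h8 c hw (gg (c • ff F)) (gg (ee F + c • ff F)) (gg_ee hcf) (gg_ee hecf)
  rw [← H.tt_eq' (i := 0) (j := 1) (π := 1) (v := ee F) (w := c • ff F) rfl rfl (one_act _) (gg_ee hcf),
    ← H.tt_eq' (i := 0) (j := 1) (π := 1) (v := ee F) (w := ee F + c • ff F) rfl rfl (one_act _) (gg_ee hecf),
    ← H.y_eq, H.y_eq] at base
  have base' : tt α β y 0 1 (ee F) (ee F) * tt α β y 0 1 (ee F) (c • ff F) =
      tt α β y 0 1 (ee F) (ee F + c • ff F) * β (tv (ee F) (-c)) := by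
    rw [H.y_eq]; exact base
  have c1 := H.conj_W π (gg v) g' (ee F) (ee F)
  have c2 := H.conj_W π (gg v) g' (ee F) (c • ff F)
  have c3 := H.conj_W π (gg v) g' (ee F) (ee F + c • ff F)
  rw [h0, h1, gg_ee hv, hg1] at c1
  rw [h0, h1, gg_ee hv, hw'] at c2
  rw [h0, h1, gg_ee hv, hww] at c3
  set W := α π * β (gg v) * lm α β 1 g' with hW
  have c4 : W * β (tv (ee F) (-c)) = lm α β i (tv v (om w' w)) * W := by
    have e1 : β (gg v) * β (tv (ee F) (-c)) = β (tv v (-c)) * β (gg v) := by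
      rw [← map_mul, tv_conj, gg_ee hv, map_mul]
    have e2 : α π * β (tv v (-c)) = lm α β i (tv v (-c)) * α π := by
      have := H.alpha_lm π 0 (tv v (-c))
      rwa [lm_zero, h0] at this
    have e3 : om w' w = -c := by rw [hc, om_swap]
    rw [hW, e3]
    calc _ = α π * β (gg v) * (lm α β 1 g' * β (tv (ee F) (-c))) := by simp only [mul_assoc]
      _ = α π * (β (gg v) * β (tv (ee F) (-c))) * lm α β 1 g' := by rw [← H.h2]; simp only [mul_assoc]
      _ = (α π * β (tv v (-c))) * β (gg v) * lm α β 1 g' := by rw [e1]; simp only [mul_assoc]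
      _ = _ := by rw [e2]; simp only [mul_assoc]
  rw [conj_eq c1, conj_eq c2, conj_eq c3, conj_eq c4]
  calc _ = W * (tt α β y 0 1 (ee F) (ee F) * tt α β y 0 1 (ee F) (c • ff F)) * W⁻¹ := by group
    _ = W * (tt α β y 0 1 (ee F) (ee F + c • ff F) * β (tv (ee F) (-c))) * W⁻¹ := by rw [base']
    _ = _ := by group

lemma neg {i j : Fin (m + 2)} (h : i ≠ j) (v w : Fin 2 → F) :
    tt α β y i j v (-w) * tt α β y i j v w = 1 := by
  by_cases hv : v = 0
  · subst hv; rw [tt_zero', tt_zero', one_mul]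
  by_cases hw : w = 0
  · subst hw; rw [neg_zero, tt_zero, one_mul]
  obtain ⟨π, h0, h1⟩ := exists_perm2 h
  have base := H.h9 (gg (-ee F)) (gg_ee (neg_ne_zero.2 ee_ne))
  rw [← H.tt_eq' (i := 0) (j := 1) (π := 1) (v := ee F) (w := -ee F) rfl rfl (one_act _)
    (gg_ee (neg_ne_zero.2 ee_ne))] at base
  have c1 := H.conj_W π (gg v) (gg w) (ee F) (ee F)
  have c2 := H.conj_W π (gg v) (gg w) (ee F) (-ee F)
  rw [h0, h1, gg_ee hv, gg_ee hw] at c1
  rw [h0, h1, gg_ee hv, Matrix.mulVec_neg, gg_ee hw] at c2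
  rw [conj_eq c1, conj_eq c2]
  rw [H.y_eq]
  set W := α π * β (gg v) * lm α β 1 (gg w) with hW
  calc _ = W * (tt α β y 0 1 (ee F) (-ee F) * y) * W⁻¹ := by group
    _ = _ := by rw [base]; group

omit H in
lemma exists_coef {w w' : Fin 2 → F} (hw : w ≠ 0) (h : om w w' = 0) : ∃ a : F, w' = a • w := by
  unfold om at h
  by_cases h0 : w 0 = 0
  · have h1 : w 1 ≠ 0 := by
      intro h1; apply hw; ext i; fin_cases i
      · exact h0
      · exact h1
    refine ⟨w' 1 / w 1, ?_⟩
    rw [h0, zero_mul, zero_sub, neg_eq_zero] at h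
    have h2 : w' 0 = 0 := by
      rcases mul_eq_zero.1 h with h | h
      · exact absurd h h1
      · exact h
    ext i; fin_cases i
    · simp [h0, h2]
    · simp [h1]
  · refine ⟨w' 0 / w 0, ?_⟩
    ext i; fin_cases i
    · simp [h0]
    · simp only [Fin.mk_one, Pi.smul_apply, smul_eq_mul]
      field_simp
      linear_combination h

lemma mul {i j : Fin (m + 2)} (h : i ≠ j) (v w w' : Fin 2 → F) :
    tt α β y i j v w * tt α β y i j v w' = tt α β y i j v (w + w') * lm α β i (tv v (om w' w)) := by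
  by_cases h0 : om w w' = 0
  swap
  · exact H.mul_indep h v w w' h0
  by_cases hw : w = 0
  · subst hw; rw [tt_zero, one_mul, zero_add, om_zero_right, tv_zero, lm_one', mul_one]
  obtain ⟨a, rfl⟩ := exists_coef hw h0
  have h00 : om (a • w) w = 0 := by rw [om_smul_left, om_self, mul_zero]
  rw [h00, tv_zero, lm_one', mul_one]
  by_cases ha : a = 0
  · subst ha; rw [zero_smul, tt_zero, add_zero, mul_one]
  by_cases ha1 : 1 + a = 0
  · have : a = -1 := by linear_combination ha1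
    subst this
    rw [neg_smul, one_smul, add_neg_cancel, tt_zero]
    have := H.neg h v (-w)
    rwa [neg_neg] at this
  obtain ⟨z, hz⟩ := exists_om hw
  -- `T(aw) = T(z) T(aw - z) λ(-a)`
  have o1 : om z (a • w - z) = -a := by
    rw [om_sub_right, om_smul_right, om_self, om_swap, hz]; ring
  have o1' : om (a • w - z) z = a := by rw [om_swap, o1, neg_neg]
  have o2 : om (w + z) (a • w - z) = -(1 + a) := by
    rw [om_add_left, o1, om_sub_right, om_smul_right, om_self, hz]; ring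
  have o2' : om (a • w - z) (w + z) = 1 + a := by rw [om_swap, o2, neg_neg]
  have o3 : om z w = -1 := by rw [om_swap, hz]
  have e1 := H.mul_indep h v z (a • w - z) (by rw [o1]; exact neg_ne_zero.2 ha)
  rw [add_sub_cancel, o1'] at e1
  have e2 := H.mul_indep h v w z (by rw [hz]; exact one_ne_zero)
  rw [o3] at e2
  have e3 := H.mul_indep h v (w + z) (a • w - z) (by rw [o2]; exact neg_ne_zero.2 ha1)
  have hsum : w + z + (a • w - z) = w + a • w := by abel
  rw [hsum, o2'] at e3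
  have ec : ∀ (c : F) (x : Fin 2 → F), lm α β i (tv v c) * tt α β y i j v x = tt α β y i j v x * lm α β i (tv v c) := by
    intro c x
    rw [H.conj h, tv_act, om_self, mul_zero, zero_smul, add_zero]
  have el : ∀ c d : F, lm α β i (tv v c) * lm α β i (tv v d) = lm α β i (tv v (c + d)) := by
    intro c d; rw [tv_add, lm_mul]
  have e4 : tt α β y i j v (a • w) = tt α β y i j v z * tt α β y i j v (a • w - z) * lm α β i (tv v (-a)) := by
    rw [e1, mul_assoc, el, add_neg_cancel, tv_zero, lm_one', mul_one]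
  calc _ = (tt α β y i j v w * tt α β y i j v z) * tt α β y i j v (a • w - z) * lm α β i (tv v (-a)) := by
        rw [e4]; simp only [mul_assoc]
    _ = tt α β y i j v (w + z) * (lm α β i (tv v (-1)) * tt α β y i j v (a • w - z)) * lm α β i (tv v (-a)) := by
        rw [e2]; simp only [mul_assoc]
    _ = (tt α β y i j v (w + z) * tt α β y i j v (a • w - z)) * (lm α β i (tv v (-1)) * lm α β i (tv v (-a))) := by
        rw [ec]; simp only [mul_assoc]
    _ = tt α β y i j v (w + a • w) * (lm α β i (tv v (1 + a)) * (lm α β i (tv v (-1)) * lm α β i (tv v (-a)))) := by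
        rw [e3]; simp only [mul_assoc]
    _ = _ := by
        rw [el, el]
        have : 1 + a + (-1 + -a) = 0 := by ring
        rw [this, tv_zero, lm_one', mul_one]

omit H in
lemma exists_perm3 {i j k : Fin (m + 2)} (hij : i ≠ j) (hik : i ≠ k) (hjk : j ≠ k) :
    ∃ (π : Perm (Fin (m + 2))) (l : Fin (m + 2)), π 0 = i ∧ π 1 = j ∧ π l = k ∧ l ≠ 0 ∧ l ≠ 1 := by
  obtain ⟨π, h0, h1⟩ := exists_perm2 hij
  refine ⟨π, π⁻¹ k, h0, h1, by rw [← Perm.mul_apply, mul_inv_cancel, Perm.one_apply], ?_, ?_⟩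
  · intro h; apply hik; rw [← h0, ← h, ← Perm.mul_apply, mul_inv_cancel, Perm.one_apply]
  · intro h; apply hjk; rw [← h1, ← h, ← Perm.mul_apply, mul_inv_cancel, Perm.one_apply]

/-- transport with three indices -/
lemma conj_W3 (π : Perm (Fin (m + 2))) {l : Fin (m + 2)} (hl0 : l ≠ 0) (hl1 : l ≠ 1)
    (g g' g'' : SpecialLinearGroup (Fin 2) F) (v w : Fin 2 → F) :
    (α π * lm α β 0 g * lm α β 1 g' * lm α β l g'') * tt α β y 0 1 v w =
        tt α β y (π 0) (π 1) (g.1 *ᵥ v) (g'.1 *ᵥ w) * (α π * lm α β 0 g * lm α β 1 g' * lm α β l g'') ∧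
      (α π * lm α β 0 g * lm α β 1 g' * lm α β l g'') * tt α β y 0 l v w =
        tt α β y (π 0) (π l) (g.1 *ᵥ v) (g''.1 *ᵥ w) * (α π * lm α β 0 g * lm α β 1 g' * lm α β l g'') ∧
      (α π * lm α β 0 g * lm α β 1 g' * lm α β l g'') * tt α β y 1 l v w =
        tt α β y (π 1) (π l) (g'.1 *ᵥ v) (g''.1 *ᵥ w) * (α π * lm α β 0 g * lm α β 1 g' * lm α β l g'') := by
  have h01 := zo m
  have conj' : ∀ {i j : Fin (m + 2)} (h : i ≠ j) (g : SpecialLinearGroup (Fin 2) F) (v w : Fin 2 → F),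
      lm α β j g * tt α β y i j v w = tt α β y i j v (g.1 *ᵥ w) * lm α β j g := by
    intro i j h g v w
    rw [H.symm h, H.conj h.symm, ← H.symm h]
  refine ⟨?_, ?_, ?_⟩
  · calc _ = α π * lm α β 0 g * lm α β 1 g' * (lm α β l g'' * tt α β y 0 1 v w) := by simp only [mul_assoc]
      _ = α π * lm α β 0 g * (lm α β 1 g' * tt α β y 0 1 v w) * lm α β l g'' := by
          rw [H.comm3 h01 hl0 hl1]; simp only [mul_assoc]
      _ = α π * (lm α β 0 g * tt α β y 0 1 v (g'.1 *ᵥ w)) * lm α β 1 g' * lm α β l g'' := by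
          rw [conj' h01]; simp only [mul_assoc]
      _ = (α π * tt α β y 0 1 (g.1 *ᵥ v) (g'.1 *ᵥ w)) * lm α β 0 g * lm α β 1 g' * lm α β l g'' := by
          rw [H.conj h01]; simp only [mul_assoc]
      _ = _ := by rw [H.alpha_tt π h01]; simp only [mul_assoc]
  · calc _ = α π * lm α β 0 g * lm α β 1 g' * (lm α β l g'' * tt α β y 0 l v w) := by simp only [mul_assoc]
      _ = α π * lm α β 0 g * (lm α β 1 g' * tt α β y 0 l v (g''.1 *ᵥ w)) * lm α β l g'' := by
          rw [conj' hl0.symm]; simp only [mul_assoc]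
      _ = α π * (lm α β 0 g * tt α β y 0 l v (g''.1 *ᵥ w)) * lm α β 1 g' * lm α β l g'' := by
          rw [H.comm3 hl0.symm h01.symm hl1.symm]; simp only [mul_assoc]
      _ = (α π * tt α β y 0 l (g.1 *ᵥ v) (g''.1 *ᵥ w)) * lm α β 0 g * lm α β 1 g' * lm α β l g'' := by
          rw [H.conj hl0.symm]; simp only [mul_assoc]
      _ = _ := by rw [H.alpha_tt π hl0.symm]; simp only [mul_assoc]
  · calc _ = α π * lm α β 0 g * lm α β 1 g' * (lm α β l g'' * tt α β y 1 l v w) := by simp only [mul_assoc]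
      _ = α π * lm α β 0 g * (lm α β 1 g' * tt α β y 1 l v (g''.1 *ᵥ w)) * lm α β l g'' := by
          rw [conj' hl1.symm]; simp only [mul_assoc]
      _ = α π * (lm α β 0 g * tt α β y 1 l (g'.1 *ᵥ v) (g''.1 *ᵥ w)) * lm α β 1 g' * lm α β l g'' := by
          rw [H.conj hl1.symm]; simp only [mul_assoc]
      _ = (α π * tt α β y 1 l (g'.1 *ᵥ v) (g''.1 *ᵥ w)) * lm α β 0 g * lm α β 1 g' * lm α β l g'' := by
          rw [H.comm3 hl1.symm h01 hl0.symm]; simp only [mul_assoc]
      _ = _ := by rw [H.alpha_tt π hl1.symm]; simp only [mul_assoc]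

omit H in
lemma sw1 {k : Fin (m + 2)} (h0 : k ≠ 0) : (swap 1 k) 0 = (0 : Fin (m + 2)) :=
  swap_apply_of_ne_of_ne (zo m) h0.symm

lemma com {i j k : Fin (m + 2)} (hij : i ≠ j) (hik : i ≠ k) (hjk : j ≠ k) (v w v' w' : Fin 2 → F) :
    tt α β y i j v w * tt α β y i k v' w' =
      tt α β y j k (om v' v • w) w' * tt α β y i k v' w' * tt α β y i j v w := by
  by_cases hv : v = 0
  · subst hv; simp only [tt_zero', om_zero_right, zero_smul, one_mul, mul_one]
  by_cases hw : w = 0
  · subst hw; simp only [tt_zero, smul_zero, tt_zero', one_mul, mul_one]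
  by_cases hv' : v' = 0
  · subst hv'; simp only [tt_zero', om_zero_left, zero_smul, one_mul, mul_one]
  by_cases hw' : w' = 0
  · subst hw'; simp only [tt_zero, one_mul, mul_one]
  obtain ⟨π, l, h0, h1, hl, hl0, hl1⟩ := exists_perm3 hij hik hjk
  by_cases hd : om v v' = 0
  · -- dependent
    obtain ⟨a, rfl⟩ := exists_coef hv hd
    have ha : a ≠ 0 := by rintro rfl; exact hv' (zero_smul _ _)
    have hd' : om (a • v) v = 0 := by rw [om_smul_left, om_self, mul_zero]
    rw [hd', zero_smul, tt_zero', one_mul, H.smul hik]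
    have haw : a • w' ≠ 0 := smul_ne_zero ha hw'
    have base := H.h10 l hl0 hl1
    rw [← H.tt_eq' (i := 0) (j := l) (π := swap 1 l) (v := ee F) (w := ee F) (sw1 hl0) (swap_apply_left 1 l)
      (one_act _) (one_act _)] at base
    obtain ⟨c1, c2, -⟩ := H.conj_W3 π hl0 hl1 (gg v) (gg w) (gg (a • w')) (ee F) (ee F)
    rw [h0, h1, gg_ee hv, gg_ee hw, H.y_eq] at c1
    rw [h0, hl, gg_ee hv, gg_ee haw] at c2
    rw [conj_eq c1, conj_eq c2]
    set W := α π * lm α β 0 (gg v) * lm α β 1 (gg w) * lm α β l (gg (a • w'))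
    calc _ = W * (y * tt α β y 0 l (ee F) (ee F)) * W⁻¹ := by group
      _ = W * (tt α β y 0 l (ee F) (ee F) * y) * W⁻¹ := by rw [base]
      _ = _ := by group
  · -- independent
    set c := om v' v with hc
    have hc0 : c ≠ 0 := by rw [hc, om_swap]; exact neg_ne_zero.2 hd
    -- `v' = -c v''`
    obtain ⟨g, hg1, hg2⟩ := exists_act2 (v := v) (v' := (-c⁻¹) • v') (by
      rw [om_smul_right, om_swap, ← hc]; field_simp)
    have hv2 : v' = (-c) • ((-c⁻¹) • v') := by
      rw [smul_smul, neg_mul_neg, mul_inv_cancel₀ hc0, one_smul]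
    have hcw : (-c) • w' ≠ 0 := smul_ne_zero (neg_ne_zero.2 hc0) hw'
    have e1 : tt α β y i k v' w' = tt α β y i k ((-c⁻¹) • v') ((-c) • w') := by
      conv_lhs => rw [hv2]
      rw [H.smul hik]
    have e2 : tt α β y j k (c • w) w' = tt α β y j k (-w) ((-c) • w') := by
      rw [← H.smul hjk]; congr 1; rw [neg_smul, smul_neg, neg_neg]
    rw [e1, e2]
    obtain ⟨πk, hπ0, hπ1⟩ := exists_perm2 hl1.symm
    have hne : -(ee F) ≠ 0 := neg_ne_zero.2 ee_ne
    have base := H.h11 l hl0 hl1 (gg (ff F)) (gg (-(ee F))) πk (gg_ee ff_ne) (gg_ee hne) hπ0 hπ1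
    rw [← H.tt_eq' (i := 0) (j := l) (π := swap 1 l) (v := ff F) (w := ee F) (sw1 hl0) (swap_apply_left 1 l)
      (gg_ee ff_ne) (one_act _),
      ← H.tt_eq' (i := 1) (j := l) (π := πk) (v := -(ee F)) (w := ee F) hπ0 hπ1 (gg_ee hne) (one_act _)] at base
    obtain ⟨c1, -, -⟩ := H.conj_W3 π hl0 hl1 g (gg w) (gg ((-c) • w')) (ee F) (ee F)
    obtain ⟨-, c2, -⟩ := H.conj_W3 π hl0 hl1 g (gg w) (gg ((-c) • w')) (ff F) (ee F)
    obtain ⟨-, -, c3⟩ := H.conj_W3 π hl0 hl1 g (gg w) (gg ((-c) • w')) (-(ee F)) (ee F)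
    rw [h0, h1, hg1, gg_ee hw, H.y_eq] at c1
    rw [h0, hl, hg2, gg_ee hcw] at c2
    rw [h1, hl, Matrix.mulVec_neg, gg_ee hw, gg_ee hcw] at c3
    rw [conj_eq c1, conj_eq c2, conj_eq c3]
    set W := α π * lm α β 0 g * lm α β 1 (gg w) * lm α β l (gg ((-c) • w'))
    calc _ = W * (y * tt α β y 0 l (ff F) (ee F)) * W⁻¹ := by group
      _ = W * (tt α β y 1 l (-(ee F)) (ee F) * tt α β y 0 l (ff F) (ee F) * y) * W⁻¹ := by rw [base]
      _ = _ := by group

lemma disj {i j k l : Fin (m + 2)} (hij : i ≠ j) (hkl : k ≠ l) (hik : i ≠ k) (hil : i ≠ l) (hjk : j ≠ k)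
    (hjl : j ≠ l) (v w v' w' : Fin 2 → F) :
    tt α β y i j v w * tt α β y k l v' w' = tt α β y k l v' w' * tt α β y i j v w := by
  by_cases hv : v = 0
  · subst hv; rw [tt_zero', one_mul, mul_one]
  by_cases hw : w = 0
  · subst hw; rw [tt_zero, one_mul, mul_one]
  by_cases hv' : v' = 0
  · subst hv'; rw [tt_zero', one_mul, mul_one]
  by_cases hw' : w' = 0
  · subst hw'; rw [tt_zero, one_mul, mul_one]
  obtain ⟨π, h0, h1⟩ := exists_perm2 hij
  have hk : π (π⁻¹ k) = k := by rw [← Perm.mul_apply, mul_inv_cancel, Perm.one_apply]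
  have hl : π (π⁻¹ l) = l := by rw [← Perm.mul_apply, mul_inv_cancel, Perm.one_apply]
  set k' := π⁻¹ k with hk'
  set l' := π⁻¹ l with hl'
  have hk0 : k' ≠ 0 := by intro h; rw [h, h0] at hk; exact hik hk
  have hk1 : k' ≠ 1 := by intro h; rw [h, h1] at hk; exact hjk hk
  have hl0 : l' ≠ 0 := by intro h; rw [h, h0] at hl; exact hil hl
  have hl1 : l' ≠ 1 := by intro h; rw [h, h1] at hl; exact hjl hl
  have hkl' : k' ≠ l' := by intro h; rw [h, hl] at hk; exact hkl hk.symm
  obtain ⟨σ, hσ0, hσ1⟩ := exists_perm2 hkl'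
  have base := H.h12 k' l' hk0 hk1 hl0 hl1 hkl' σ hσ0 hσ1
  rw [← H.tt_eq' (i := k') (j := l') (v := ee F) (w := ee F) hσ0 hσ1 (one_act _) (one_act _)] at base
  -- conjugator
  set W := α π * lm α β 0 (gg v) * lm α β 1 (gg w) * (lm α β k' (gg v') * lm α β l' (gg w')) with hW
  have conj' : ∀ {i j : Fin (m + 2)} (h : i ≠ j) (g : SpecialLinearGroup (Fin 2) F) (v w : Fin 2 → F),
      lm α β j g * tt α β y i j v w = tt α β y i j v (g.1 *ᵥ w) * lm α β j g := by
    intro i j h g v w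
    rw [H.symm h, H.conj h.symm, ← H.symm h]
  have c1 : W * y = tt α β y i j v w * W := by
    rw [hW]
    conv_lhs => rw [← H.y_eq]
    calc _ = α π * lm α β 0 (gg v) * lm α β 1 (gg w) * lm α β k' (gg v') *
          (lm α β l' (gg w') * tt α β y 0 1 (ee F) (ee F)) := by simp only [mul_assoc]
      _ = α π * lm α β 0 (gg v) * lm α β 1 (gg w) * (lm α β k' (gg v') * tt α β y 0 1 (ee F) (ee F)) *
          lm α β l' (gg w') := by rw [H.comm3 (zo m) hl0 hl1]; simp only [mul_assoc]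
      _ = α π * lm α β 0 (gg v) * (lm α β 1 (gg w) * tt α β y 0 1 (ee F) (ee F)) * lm α β k' (gg v') *
          lm α β l' (gg w') := by rw [H.comm3 (zo m) hk0 hk1]; simp only [mul_assoc]
      _ = α π * (lm α β 0 (gg v) * tt α β y 0 1 (ee F) w) * lm α β 1 (gg w) * lm α β k' (gg v') *
          lm α β l' (gg w') := by rw [conj' (zo m), gg_ee hw]; simp only [mul_assoc]
      _ = (α π * tt α β y 0 1 v w) * lm α β 0 (gg v) * lm α β 1 (gg w) * lm α β k' (gg v') *
          lm α β l' (gg w') := by rw [H.conj (zo m), gg_ee hv]; simp only [mul_assoc]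
      _ = _ := by rw [H.alpha_tt π (zo m), h0, h1]; simp only [mul_assoc]
  have c2 : W * tt α β y k' l' (ee F) (ee F) = tt α β y k l v' w' * W := by
    rw [hW]
    calc _ = α π * lm α β 0 (gg v) * lm α β 1 (gg w) * lm α β k' (gg v') *
          (lm α β l' (gg w') * tt α β y k' l' (ee F) (ee F)) := by simp only [mul_assoc]
      _ = α π * lm α β 0 (gg v) * lm α β 1 (gg w) * (lm α β k' (gg v') * tt α β y k' l' (ee F) w') *
          lm α β l' (gg w') := by rw [conj' hkl', gg_ee hw']; simp only [mul_assoc]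
      _ = α π * lm α β 0 (gg v) * (lm α β 1 (gg w) * tt α β y k' l' v' w') * lm α β k' (gg v') *
          lm α β l' (gg w') := by rw [H.conj hkl', gg_ee hv']; simp only [mul_assoc]
      _ = α π * (lm α β 0 (gg v) * tt α β y k' l' v' w') * lm α β 1 (gg w) * lm α β k' (gg v') *
          lm α β l' (gg w') := by rw [H.comm3 hkl' hk1.symm hl1.symm]; simp only [mul_assoc]
      _ = (α π * tt α β y k' l' v' w') * lm α β 0 (gg v) * lm α β 1 (gg w) * lm α β k' (gg v') *
          lm α β l' (gg w') := by rw [H.comm3 hkl' hk0.symm hl0.symm]; simp only [mul_assoc]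
      _ = _ := by rw [H.alpha_tt π hkl', hk, hl]; simp only [mul_assoc]
  rw [conj_eq c1, conj_eq c2]
  calc _ = W * (y * tt α β y k' l' (ee F) (ee F)) * W⁻¹ := by group
    _ = W * (tt α β y k' l' (ee F) (ee F) * y) * W⁻¹ := by rw [base]
    _ = _ := by group

/-- the system -/
noncomputable def sys : Sys Γ (Fin (m + 2)) F where
  lam i := { toFun := lm α β i, map_one' := lm_one' i, map_mul' := lm_mul i }
  T := tt α β y
  comm h g g' := H.lm_comm h g g'
  symm h v w := H.symm h v w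
  conj h g v w := H.conj h g v w
  comm3 h1 h2 h3 g v w := H.comm3 h1 h2 h3 g v w
  smul h c v w := H.smul h c v w
  mul h v w w' := H.mul h v w w'
  com h1 h2 h3 v w v' w' := H.com h1 h2 h3 v w v' w'
  disj h1 h2 h3 h4 h5 h6 v w v' w' := H.disj h1 h2 h3 h4 h5 h6 v w v' w'

omit H in
/-- transpositions in terms of the short Weyl elements -/
lemma cA_swap {i j : Fin (m + 2)} (h : i ≠ j) : (cA (swap i j) : symplecticGroup (Fin (m + 2)) F) =
    cL j (-1) * (cT i j (ee F) (ff F) * cT i j (-(ff F)) (ee F) * cT i j (ee F) (ff F)) := by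
  apply Th_inj
  rw [map_mul, map_mul, map_mul, Th_cA, Th_cL, Th_cT h, Th_cT h]
  apply LinearMap.ext; intro x; ext k : 1
  rw [Module.End.mul_apply, Module.End.mul_apply, Module.End.mul_apply, sA_apply, swap_inv]
  by_cases hi : k = i
  · subst hi
    rw [swap_apply_left, sL_ne h]
    simp only [sT_i h, sT_j h]
    ext a
    fin_cases a <;> simp [om]
  · by_cases hj : k = j
    · subst hj
      rw [swap_apply_right, sL_i, neg_act]
      simp only [sT_i h, sT_j h]
      ext a
      fin_cases a <;> simp [om]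
    · rw [swap_apply_of_ne_of_ne hi hj, sL_ne hj, sT_ne hi hj, sT_ne hi hj, sT_ne hi hj]

/-- the homomorphism from `Sp` -/
theorem exists_hom (hE : α (swap 0 1) = lm α β 1 (-1) * (tt α β y 0 1 (ee F) (ff F) * tt α β y 0 1 (-(ff F)) (ee F) *
      tt α β y 0 1 (ee F) (ff F))) :
    ∃ φ : symplecticGroup (Fin (m + 2)) F →* Γ, (∀ g, φ (cL 0 g) = β g) ∧ φ (cT 0 1 (ee F) (ee F)) = y ∧
      ∀ π, φ (cA π) = α π := by
  obtain ⟨φ, h1, h2⟩ := univ H.sys
  refine ⟨φ, fun g => ?_, ?_, ?_⟩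
  · rw [h1]; exact lm_zero g
  · rw [h2 (zo m)]; exact H.y_eq
  · -- transpositions
    have hswap : ∀ i j : Fin (m + 2), i ≠ j → φ (cA (swap i j)) = α (swap i j) := by
      intro i j h
      obtain ⟨π, h0, h1'⟩ := exists_perm2 h
      rw [cA_swap h, map_mul, map_mul, map_mul, h1, h2 h, h2 h]
      have e1 : swap i j = π * swap 0 1 * π⁻¹ := by
        rw [← h0, ← h1', Equiv.swap_apply_apply]
      rw [e1, map_mul, map_mul, hE, map_inv]
      have c1 := H.alpha_lm π 1 (-1)
      have c2 := H.alpha_tt π (zo m) (ee F) (ff F)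
      have c3 := H.alpha_tt π (zo m) (-(ff F)) (ee F)
      rw [h1'] at c1
      rw [h0, h1'] at c2 c3
      change lm α β j (-1) * (tt α β y i j (ee F) (ff F) * tt α β y i j (-(ff F)) (ee F) *
        tt α β y i j (ee F) (ff F)) = _
      rw [conj_eq c1, conj_eq c2, conj_eq c3]
      group
    intro π
    induction π using Perm.swap_induction_on with
    | one => rw [map_one, map_one, map_one]
    | swap_mul f x z hxz hf => rw [map_mul, map_mul, map_mul, hswap x z hxz, hf]

end Hyp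

end H6.SpSys
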