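import Mathlib
import Cfsg.Agent.Lib.H43.SUTwoB

/-!
The model of the unitary space of dimension `2 m + 1`: `(a, ξ, b)`, with upper unipotent elements, Levi elements and the
Weyl element.
-/
set_option autoImplicit false
set_option linter.unusedSectionVars false
set_option linter.unusedVariables false

namespace H6.UnR

open Matrix Module H95.UBasic H43.SUTwoB

variable {F : Type*} [Field F] {m : ℕ}

/-- the space -/
abbrev V0 (m : ℕ) (F : Type*) := (Fin m → F) × F × (Fin m → F)

theorem v0ext {x y : V0 m F} (h1 : x.1 = y.1) (h2 : x.2.1 = y.2.1) (h3 : x.2.2 = y.2.2) : x = y :=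
  Prod.ext h1 (Prod.ext h2 h3)

section form

variable (σ : F →+* F) (ε : F)

/-- conjugate vector -/
def cv (v : Fin m → F) : Fin m → F := fun i => σ (v i)

/-- conjugate transpose -/
def cs (M : Matrix (Fin m) (Fin m) F) : Matrix (Fin m) (Fin m) F := (M.map σ)ᵀ

theorem cs_mul (M N : Matrix (Fin m) (Fin m) F) : cs σ (M * N) = cs σ N * cs σ M := by
  unfold cs
  rw [Matrix.map_mul, transpose_mul]

theorem cs_one : cs σ (1 : Matrix (Fin m) (Fin m) F) = 1 := by
  unfold cs
  rw [Matrix.map_one _ (map_zero σ) (map_one σ), transpose_one]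

theorem cs_apply (M : Matrix (Fin m) (Fin m) F) (i j : Fin m) : cs σ M i j = σ (M j i) := rfl

variable {σ} in
theorem cs_cs (hσ : ∀ x, σ (σ x) = x) (M : Matrix (Fin m) (Fin m) F) : cs σ (cs σ M) = M := by
  ext i j
  rw [cs_apply, cs_apply, hσ]

theorem cv_mulVec (M : Matrix (Fin m) (Fin m) F) (v : Fin m → F) : cv σ (M *ᵥ v) = M.map σ *ᵥ cv σ v := by
  funext i
  simp only [cv, mulVec, dotProduct, map_sum, map_mul, map_apply]

theorem cv_add (v w : Fin m → F) : cv σ (v + w) = cv σ v + cv σ w := by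
  funext i; simp [cv]
theorem cv_smul (c : F) (v : Fin m → F) : cv σ (c • v) = σ c • cv σ v := by
  funext i; simp [cv]
theorem cv_neg (v : Fin m → F) : cv σ (-v) = -cv σ v := by
  funext i; simp [cv]
theorem cv_zero : cv σ (0 : Fin m → F) = 0 := by
  funext i; simp [cv]
variable {σ} in
theorem cv_cv (hσ : ∀ x, σ (σ x) = x) (v : Fin m → F) : cv σ (cv σ v) = v := by
  funext i; exact hσ _

theorem σ_dot (v w : Fin m → F) : σ (v ⬝ᵥ w) = cv σ v ⬝ᵥ cv σ w := by
  simp [dotProduct, cv, map_sum]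

/-- the form -/
noncomputable def h0 (m : ℕ) : V0 m F →ₗ[F] V0 m F →ₛₗ[σ] F :=
  LinearMap.mk₂'ₛₗ (RingHom.id F) σ (fun x y => x.1 ⬝ᵥ cv σ y.2.2 - x.2.2 ⬝ᵥ cv σ y.1 + ε * (x.2.1 * σ y.2.1))
    (by intro x x' y; simp only [Prod.fst_add, Prod.snd_add, add_dotProduct]; ring)
    (by intro c x y; simp only [Prod.smul_fst, Prod.smul_snd, smul_dotProduct, smul_eq_mul, RingHom.id_apply]; ring)
    (by intro x y y'; simp only [Prod.fst_add, Prod.snd_add, cv_add, dotProduct_add, map_add]; ring)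
    (by intro c x y; simp only [Prod.smul_fst, Prod.smul_snd, cv_smul, dotProduct_smul, smul_eq_mul, map_mul]; ring)

theorem h0_apply (x y : V0 m F) : h0 σ ε m x y = x.1 ⬝ᵥ cv σ y.2.2 - x.2.2 ⬝ᵥ cv σ y.1 + ε * (x.2.1 * σ y.2.1) := rfl

variable {σ ε}

theorem h0_skew (P : Par σ ε) : IsSkew (h0 σ ε m) where
  inv := P.inv
  ne := P.ne
  norm := P.norm
  skew := by
    intro x y
    rw [h0_apply, h0_apply, map_add, map_sub, map_mul, map_mul, P.σz, σ_dot, σ_dot, cv_cv P.inv, cv_cv P.inv, P.inv,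
      dotProduct_comm (cv σ x.1), dotProduct_comm (cv σ x.2.2)]
    ring
  nd := by
    intro v hv
    have e1 : v.1 = 0 := by
      funext i
      have h1 := hv (0, 0, Pi.single i 1)
      rw [h0_apply] at h1
      have h2 : cv σ (Pi.single i (1 : F)) = Pi.single i 1 := by
        funext j
        by_cases h : j = i
        · subst h; simp [cv]
        · simp [cv, h]
      simpa [h2, cv_zero] using h1
    have e2 : v.2.2 = 0 := by
      funext i
      have h1 := hv (Pi.single i 1, 0, 0)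
      rw [h0_apply] at h1
      have h2 : cv σ (Pi.single i (1 : F)) = Pi.single i 1 := by
        funext j
        by_cases h : j = i
        · subst h; simp [cv]
        · simp [cv, h]
      simpa [h2, cv_zero] using h1
    have e3 : v.2.1 = 0 := by
      have h1 := hv (0, 1, 0)
      rw [h0_apply] at h1
      simp only [cv_zero, dotProduct_zero, sub_zero, zero_add, map_one, mul_one] at h1
      exact (mul_eq_zero.1 h1).resolve_left P.z0
    exact v0ext e1 e3 e2

end form

section elts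

variable (σ : F →+* F) (ε : F)

/-- upper unipotent map -/
def nF (v : Fin m → F) (B : Matrix (Fin m) (Fin m) F) : V0 m F →ₗ[F] V0 m F where
  toFun x := (x.1 + x.2.1 • v + B *ᵥ x.2.2, x.2.1 + ε⁻¹ * (x.2.2 ⬝ᵥ cv σ v), x.2.2)
  map_add' x y := by
    apply v0ext
    · simp only [Prod.fst_add, Prod.snd_add, add_smul, mulVec_add]; abel
    · simp only [Prod.fst_add, Prod.snd_add, add_dotProduct]; ring
    · rfl
  map_smul' c x := by
    apply v0ext
    · simp only [Prod.smul_fst, Prod.smul_snd, smul_eq_mul, mulVec_smul, RingHom.id_apply, smul_add, smul_smul]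
    · simp only [Prod.smul_fst, Prod.smul_snd, smul_dotProduct, smul_eq_mul, RingHom.id_apply]; ring
    · rfl

theorem nF_apply (v : Fin m → F) (B : Matrix (Fin m) (Fin m) F) (x : V0 m F) :
    nF σ ε v B x = (x.1 + x.2.1 • v + B *ᵥ x.2.2, x.2.1 + ε⁻¹ * (x.2.2 ⬝ᵥ cv σ v), x.2.2) := rfl

/-- rank one matrix `v w*` -/
def vw (v w : Fin m → F) : Matrix (Fin m) (Fin m) F := vecMulVec v (cv σ w)

theorem vw_apply (v w : Fin m → F) (i j : Fin m) : vw σ v w i j = v i * σ (w j) := rfl

theorem vw_mulVec (v w b : Fin m → F) : vw σ v w *ᵥ b = (b ⬝ᵥ cv σ w) • v := by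
  rw [vw, vecMulVec_mulVec, dotProduct_comm]
  funext i
  simp [mul_comm]

theorem nF_comp (v v' : Fin m → F) (B B' : Matrix (Fin m) (Fin m) F) (x : V0 m F) :
    nF σ ε v B (nF σ ε v' B' x) = nF σ ε (v + v') (B + B' + ε⁻¹ • vw σ v v') x := by
  simp only [nF_apply]
  apply v0ext
  · simp only [add_mulVec, smul_mulVec, vw_mulVec]
    module
  · simp only [cv_add, dotProduct_add]; ring
  · rfl

theorem nF_zero (x : V0 m F) : nF σ ε (0 : Fin m → F) (0 : Matrix (Fin m) (Fin m) F) x = x := by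
  rw [nF_apply]
  apply v0ext
  · simp
  · simp [cv_zero]
  · rfl

/-- upper unipotent element -/
def nU (v : Fin m → F) (B : Matrix (Fin m) (Fin m) F) : V0 m F ≃ₗ[F] V0 m F where
  toFun := nF σ ε v B
  map_add' := (nF σ ε v B).map_add
  map_smul' := (nF σ ε v B).map_smul
  invFun := nF σ ε (-v) (-B + ε⁻¹ • vw σ v v)
  left_inv x := by
    rw [nF_comp]
    have e1 : -v + v = 0 := neg_add_cancel v
    have e2 : -B + ε⁻¹ • vw σ v v + B + ε⁻¹ • vw σ (-v) v = 0 := by
      ext i j
      simp only [Matrix.add_apply, Matrix.neg_apply, Matrix.smul_apply, vw_apply, Pi.neg_apply, smul_eq_mul, Matrix.zero_apply]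
      ring
    rw [e1, e2, nF_zero]
  right_inv x := by
    rw [nF_comp]
    have e1 : v + -v = 0 := add_neg_cancel v
    have e2 : B + (-B + ε⁻¹ • vw σ v v) + ε⁻¹ • vw σ v (-v) = 0 := by
      ext i j
      simp only [Matrix.add_apply, Matrix.neg_apply, Matrix.smul_apply, vw_apply, Pi.neg_apply, smul_eq_mul, Matrix.zero_apply,
        map_neg]
      ring
    rw [e1, e2, nF_zero]

theorem nU_apply (v : Fin m → F) (B : Matrix (Fin m) (Fin m) F) (x : V0 m F) :
    nU σ ε v B x = (x.1 + x.2.1 • v + B *ᵥ x.2.2, x.2.1 + ε⁻¹ * (x.2.2 ⬝ᵥ cv σ v), x.2.2) := rfl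

theorem nU_mul (v v' : Fin m → F) (B B' : Matrix (Fin m) (Fin m) F) :
    nU σ ε v B * nU σ ε v' B' = nU σ ε (v + v') (B + B' + ε⁻¹ • vw σ v v') := by
  apply LinearEquiv.ext
  intro x
  exact nF_comp σ ε v v' B B' x

theorem nU_one : nU σ ε (0 : Fin m → F) (0 : Matrix (Fin m) (Fin m) F) = 1 := by
  apply LinearEquiv.ext
  intro x
  exact nF_zero σ ε x

theorem vw_zero_left (w : Fin m → F) : vw σ 0 w = 0 := by
  ext i j; simp [vw_apply]
theorem vw_zero_right (w : Fin m → F) : vw σ w 0 = 0 := by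
  ext i j; simp [vw_apply]

theorem nU_mul0 (v' : Fin m → F) (B B' : Matrix (Fin m) (Fin m) F) :
    nU σ ε 0 B * nU σ ε v' B' = nU σ ε v' (B + B') := by
  rw [nU_mul, zero_add, vw_zero_left, smul_zero, add_zero]

theorem nU_mul0' (v' : Fin m → F) (B B' : Matrix (Fin m) (Fin m) F) :
    nU σ ε v' B' * nU σ ε 0 B = nU σ ε v' (B' + B) := by
  rw [nU_mul, add_zero, vw_zero_right, smul_zero, add_zero]

theorem nU_inv0 (B : Matrix (Fin m) (Fin m) F) : (nU σ ε 0 B)⁻¹ = nU σ ε 0 (-B) := by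
  rw [inv_eq_iff_mul_eq_one, nU_mul0, add_neg_cancel, nU_one]

/-- Levi element -/
def mU (g : (Matrix (Fin m) (Fin m) F)ˣ) : V0 m F ≃ₗ[F] V0 m F where
  toFun x := ((g : Matrix (Fin m) (Fin m) F) *ᵥ x.1, x.2.1, cs σ ((g⁻¹ : (Matrix (Fin m) (Fin m) F)ˣ) : Matrix (Fin m) (Fin m) F) *ᵥ x.2.2)
  map_add' x y := by
    apply v0ext
    · simp only [Prod.fst_add, mulVec_add]
    · rfl
    · simp only [Prod.snd_add, mulVec_add]
  map_smul' c x := by
    apply v0ext
    · simp only [Prod.smul_fst, mulVec_smul, RingHom.id_apply]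
    · rfl
    · simp only [Prod.smul_snd, mulVec_smul, RingHom.id_apply]
  invFun x := (((g⁻¹ : (Matrix (Fin m) (Fin m) F)ˣ) : Matrix (Fin m) (Fin m) F) *ᵥ x.1, x.2.1, cs σ (g : Matrix (Fin m) (Fin m) F) *ᵥ x.2.2)
  left_inv x := by
    apply v0ext
    · simp only [mulVec_mulVec, g.inv_mul, one_mulVec]
    · rfl
    · simp only [mulVec_mulVec, ← cs_mul, g.inv_mul, cs_one, one_mulVec]
  right_inv x := by
    apply v0ext
    · simp only [mulVec_mulVec, g.mul_inv, one_mulVec]
    · rfl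
    · simp only [mulVec_mulVec, ← cs_mul, g.mul_inv, cs_one, one_mulVec]

theorem mU_apply (g : (Matrix (Fin m) (Fin m) F)ˣ) (x : V0 m F) :
    mU σ g x = ((g : Matrix (Fin m) (Fin m) F) *ᵥ x.1, x.2.1,
      cs σ ((g⁻¹ : (Matrix (Fin m) (Fin m) F)ˣ) : Matrix (Fin m) (Fin m) F) *ᵥ x.2.2) := rfl

theorem mU_mul (g g' : (Matrix (Fin m) (Fin m) F)ˣ) : mU σ g * mU σ g' = mU σ (g * g') := by
  apply LinearEquiv.ext
  intro x
  rw [LinearEquiv.mul_apply]
  apply v0ext
  · simp only [mU_apply, mulVec_mulVec, Units.val_mul]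
  · rfl
  · simp only [mU_apply, mulVec_mulVec, _root_.mul_inv_rev, Units.val_mul, cs_mul]

theorem mU_one : mU σ (1 : (Matrix (Fin m) (Fin m) F)ˣ) = 1 := by
  apply LinearEquiv.ext
  intro x
  apply v0ext
  · simp only [mU_apply, Units.val_one, one_mulVec]; rfl
  · rfl
  · simp only [mU_apply, inv_one, Units.val_one, cs_one, one_mulVec]; rfl

theorem mU_inv (g : (Matrix (Fin m) (Fin m) F)ˣ) : (mU σ g)⁻¹ = mU σ g⁻¹ := by
  rw [inv_eq_iff_mul_eq_one, mU_mul, mul_inv_cancel, mU_one]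

/-- Weyl element -/
def wU (m : ℕ) (F : Type*) [Field F] : V0 m F ≃ₗ[F] V0 m F where
  toFun x := (x.2.2, x.2.1, -x.1)
  map_add' x y := by
    apply v0ext
    · rfl
    · rfl
    · show -(x.1 + y.1) = -x.1 + -y.1
      abel
  map_smul' c x := by
    apply v0ext
    · rfl
    · rfl
    · show -(c • x.1) = c • -x.1
      rw [smul_neg]
  invFun x := (-x.2.2, x.2.1, x.1)
  left_inv x := by
    apply v0ext
    · show - -x.1 = x.1
      rw [neg_neg]
    · rfl
    · rfl
  right_inv x := by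
    apply v0ext
    · rfl
    · rfl
    · show - -x.2.2 = x.2.2
      rw [neg_neg]

theorem wU_apply (x : V0 m F) : wU m F x = (x.2.2, x.2.1, -x.1) := rfl
theorem wU_inv_apply (x : V0 m F) : (wU m F)⁻¹ x = (-x.2.2, x.2.1, x.1) := rfl

/-- lower unipotent element at the last coordinate -/
def nL (p r s : F) (l : Fin m) : V0 m F ≃ₗ[F] V0 m F where
  toFun x := (x.1, x.2.1 + p * x.1 l, x.2.2 + Pi.single l (r * x.2.1 + s * x.1 l))
  map_add' x y := by
    apply v0ext
    · rfl
    · simp only [Prod.fst_add, Prod.snd_add, Pi.add_apply]; ring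
    · funext i
      simp only [Prod.fst_add, Prod.snd_add, Pi.add_apply]
      by_cases h : i = l
      · subst h; simp only [Pi.single_eq_same]; ring
      · simp only [Pi.single_eq_of_ne h]; ring
  map_smul' c x := by
    apply v0ext
    · rfl
    · simp only [Prod.smul_fst, Prod.smul_snd, Pi.smul_apply, smul_eq_mul, RingHom.id_apply]; ring
    · funext i
      simp only [Prod.smul_fst, Prod.smul_snd, Pi.smul_apply, Pi.add_apply, smul_eq_mul, RingHom.id_apply]
      by_cases h : i = l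
      · subst h; simp only [Pi.single_eq_same]; ring
      · simp only [Pi.single_eq_of_ne h]; ring
  invFun x := (x.1, x.2.1 - p * x.1 l, x.2.2 + Pi.single l (-r * x.2.1 + (r * p - s) * x.1 l))
  left_inv x := by
    apply v0ext
    · rfl
    · simp
    · funext i
      simp only [Pi.add_apply]
      by_cases h : i = l
      · subst h; simp only [Pi.single_eq_same]; ring
      · simp only [Pi.single_eq_of_ne h]; ring
  right_inv x := by
    apply v0ext
    · rfl
    · simp
    · funext i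
      simp only [Pi.add_apply]
      by_cases h : i = l
      · subst h; simp only [Pi.single_eq_same]; ring
      · simp only [Pi.single_eq_of_ne h]; ring

theorem nL_apply (p r s : F) (l : Fin m) (x : V0 m F) :
    nL p r s l x = (x.1, x.2.1 + p * x.1 l, x.2.2 + Pi.single l (r * x.2.1 + s * x.1 l)) := rfl

theorem nL_inv (p r s : F) (l : Fin m) : (nL p r s l)⁻¹ = nL (-p) (-r) (r * p - s) l := by
  apply LinearEquiv.ext
  intro x
  show (nL p r s l).symm x = _
  rw [nL_apply]
  apply v0ext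
  · rfl
  · show x.2.1 - p * x.1 l = x.2.1 + -p * x.1 l
    ring
  · rfl

variable {σ ε}

theorem mU_nU (hσ : ∀ x, σ (σ x) = x) (g : (Matrix (Fin m) (Fin m) F)ˣ) (v : Fin m → F) (B : Matrix (Fin m) (Fin m) F) :
    mU σ g * nU σ ε v B = nU σ ε ((g : Matrix (Fin m) (Fin m) F) *ᵥ v)
      ((g : Matrix (Fin m) (Fin m) F) * B * cs σ (g : Matrix (Fin m) (Fin m) F)) * mU σ g := by
  apply LinearEquiv.ext
  intro x
  rw [LinearEquiv.mul_apply, LinearEquiv.mul_apply]
  apply v0ext
  · simp only [mU_apply, nU_apply, mulVec_add, mulVec_smul, mulVec_mulVec, Matrix.mul_assoc, ← cs_mul, g.inv_mul, cs_one,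
      Matrix.mul_one]
  · simp only [mU_apply, nU_apply]
    have h1 : cs σ ((g⁻¹ : (Matrix (Fin m) (Fin m) F)ˣ) : Matrix (Fin m) (Fin m) F) *ᵥ x.2.2 ⬝ᵥ
        cv σ ((g : Matrix (Fin m) (Fin m) F) *ᵥ v) = x.2.2 ⬝ᵥ cv σ v := by
      rw [cv_mulVec, dotProduct_mulVec, ← mulVec_transpose, mulVec_mulVec]
      have h2 : ((g : Matrix (Fin m) (Fin m) F).map σ)ᵀ * cs σ ((g⁻¹ : (Matrix (Fin m) (Fin m) F)ˣ) : Matrix (Fin m) (Fin m) F)
          = 1 := by
        rw [show ((g : Matrix (Fin m) (Fin m) F).map σ)ᵀ = cs σ (g : Matrix (Fin m) (Fin m) F) from rfl, ← cs_mul, g.inv_mul,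
          cs_one]
      rw [h2, one_mulVec]
    rw [h1]
  · rfl

end elts

end H6.UnR
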