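import Cfsg.Agent.Lib.H6.UnA

/-!
Isotropic vectors all of whose transvections lie in a subgroup `K` of the isometry group.
-/
set_option autoImplicit false
set_option linter.unusedSectionVars false
set_option linter.unusedVariables false

namespace H6.UnR

open Module H95.UBasic H57.Polar

section abs

variable {F V : Type*} [Field F] [AddCommGroup V] [Module F V] {σ : F →+* F} {h : V →ₗ[F] V →ₛₗ[σ] F}
  {K : Subgroup (V ≃ₗ[F] V)}

/-- isotropic vectors all of whose transvections lie in `K` -/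
def SS (h : V →ₗ[F] V →ₛₗ[σ] F) (K : Subgroup (V ≃ₗ[F] V)) : Set V := {x | h x x = 0 ∧ ∀ c, σ c = c → rf h x c ∈ K}

theorem SS_conj (hK : K ≤ isom h) {g : V ≃ₗ[F] V} (hg : g ∈ K) {x : V} (hx : x ∈ SS h K) : g x ∈ SS h K := by
  refine ⟨by rw [hK hg]; exact hx.1, fun c hc => ?_⟩
  rw [← rf_conj x c g (hK hg)]
  exact K.mul_mem (K.mul_mem hg (hx.2 c hc)) (K.inv_mem hg)

theorem SS_smul (H : IsSkew h) {x : V} (hx : x ∈ SS h K) (a : F) : a • x ∈ SS h K := by
  refine ⟨H6.SUGenB.iso_smul a hx.1, fun c hc => ?_⟩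
  rw [rf_smul H]
  apply hx.2
  rw [map_mul, map_mul, hc, H.inv]
  ring

theorem SS_of_smul (H : IsSkew h) {x : V} {a : F} (ha : a ≠ 0) (hx : a • x ∈ SS h K) : x ∈ SS h K := by
  have := SS_smul H hx a⁻¹
  rwa [smul_smul, inv_mul_cancel₀ ha, one_smul] at this

theorem SS_move (hK : K ≤ isom h) {x y : V} (hx : x ∈ SS h K) (hy : y ∈ SS h K) {c : F} (hc : σ c = c) :
    y + (c * h y x) • x ∈ SS h K := by
  have := SS_conj hK (hx.2 c hc) hy
  rwa [rf_apply (tr_good hx.1 hc)] at this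

/-- adding a non-orthogonal vector -/
theorem SS_add (hK : K ≤ isom h) {x y : V} (hx : x ∈ SS h K) (hy : y ∈ SS h K) (h1 : σ (h y x) = h y x)
    (h2 : h y x ≠ 0) : y + x ∈ SS h K := by
  have := SS_move hK hx hy (c := (h y x)⁻¹) (by rw [map_inv₀, h1])
  rwa [inv_mul_cancel₀ h2, one_smul] at this

section TT

variable (hK : K ≤ isom h) (H : IsSkew h) {x r z : V} (hx : x ∈ SS h K) (hr : r ∈ SS h K) (hxr : h x r = 1)
  (hzx : h z x = 0) (hzr : h z r = 0) (hzz : h z z = 0)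

include hK H hx hr hxr hzx hzr hzz

theorem tt1 {α β τ : F} (hα : σ α = α) (hβ : σ β = β) {d : F} (hd : σ d = d) (hS : α • x + β • r + τ • z ∈ SS h K) :
    α • x + (β + d * α) • r + τ • z ∈ SS h K := by
  have h1 := SS_move hK hr hS hd
  have e1 : h (α • x + β • r + τ • z) r = α := by
    simp only [map_add, LinearMap.add_apply, map_smul, LinearMap.smul_apply, smul_eq_mul, hxr, hr.1, hzr]; ring
  rw [e1] at h1
  convert h1 using 1
  module

theorem tt2 {α β τ : F} (hα : σ α = α) (hβ : σ β = β) {d : F} (hd : σ d = d) (hS : α • x + β • r + τ • z ∈ SS h K) :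
    (α - d * β) • x + β • r + τ • z ∈ SS h K := by
  have h1 := SS_move hK hx hS hd
  have hrx : h r x = -1 := by rw [H.skew, hxr, map_one]
  have e1 : h (α • x + β • r + τ • z) x = -β := by
    simp only [map_add, LinearMap.add_apply, map_smul, LinearMap.smul_apply, smul_eq_mul, hrx, hx.1, hzx]; ring
  rw [e1] at h1
  convert h1 using 1
  module

theorem tt_scale {α τ : F} (hα : σ α = α) (hα0 : α ≠ 0) (hS : x + τ • z ∈ SS h K) : x + (α * τ) • z ∈ SS h K := by
  have h0 : (1 : F) • x + (0 : F) • r + τ • z ∈ SS h K := by rwa [one_smul, zero_smul, add_zero]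
  have h1 := tt1 hK H hx hr hxr hzx hzr hzz (map_one σ) (map_zero σ) (map_one σ) h0
  have h2 := tt2 hK H hx hr hxr hzx hzr hzz (map_one σ) (by simp) (d := 1 - α⁻¹) (by simp [hα]) h1
  have e2 : (1 - (1 - α⁻¹) * (0 + 1 * 1)) = α⁻¹ := by ring
  rw [e2] at h2
  have h3 := tt1 hK H hx hr hxr hzx hzr hzz (by rw [map_inv₀, hα]) (by simp) (d := -α) (by rw [map_neg, hα]) h2
  have e3 : (0 + 1 * 1 + -α * α⁻¹ : F) = 0 := by field_simp; ring
  rw [e3, zero_smul, add_zero] at h3
  have h4 := SS_smul H h3 α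
  rwa [smul_add, smul_smul, smul_smul, mul_inv_cancel₀ hα0, one_smul] at h4

theorem tt_add {τ τ' : F} (hS : x + τ • z ∈ SS h K) (hS' : x + τ' • z ∈ SS h K) : x + (τ + τ') • z ∈ SS h K := by
  have h0 : (1 : F) • x + (0 : F) • r + τ' • z ∈ SS h K := by rwa [one_smul, zero_smul, add_zero]
  have h1 := tt1 hK H hx hr hxr hzx hzr hzz (map_one σ) (map_zero σ) (map_one σ) h0
  have h2 := tt2 hK H hx hr hxr hzx hzr hzz (map_one σ) (by simp) (d := 1) (by simp) h1
  have e2 : (1 - 1 * (0 + 1 * 1) : F) = 0 := by ring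
  have e3 : (0 + 1 * 1 : F) = 1 := by ring
  rw [e2, e3, zero_smul, zero_add, one_smul] at h2
  have hxz : h x z = 0 := H.symm_zero hzx
  have e4 : h (x + τ • z) (r + τ' • z) = 1 := by
    simp only [map_add, LinearMap.add_apply, map_smul, LinearMap.smul_apply, map_smulₛₗ, smul_eq_mul, hxr, hxz, hzr,
      hzz]; ring
  have h5 := SS_add hK h2 hS (by rw [e4, map_one]) (by rw [e4]; exact one_ne_zero)
  have h6 : (1 : F) • x + (1 : F) • r + (τ + τ') • z ∈ SS h K := by
    convert h5 using 1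
    module
  have h7 := tt1 hK H hx hr hxr hzx hzr hzz (map_one σ) (map_one σ) (d := -1) (by simp) h6
  convert h7 using 1
  module

/-- the set is everything once it contains `ρ⁻¹` and `(1 + ρ)⁻¹` with `ρ` not fixed -/
theorem tt_all {ρ : F} (hρ : σ ρ ≠ ρ) (h1 : x + ρ⁻¹ • z ∈ SS h K) (h2 : x + (1 + ρ)⁻¹ • z ∈ SS h K) (τ : F) :
    x + τ • z ∈ SS h K := by
  have hρ0 : ρ ≠ 0 := by rintro rfl; exact hρ (map_zero _)
  have hρ1 : 1 + ρ ≠ 0 := by
    intro h0
    apply hρ
    have : ρ = -1 := by linear_combination h0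
    rw [this, map_neg, map_one]
  set κ := (1 + ρ) * ρ⁻¹ with hκ
  have hκσ : κ - σ κ ≠ 0 := by
    intro h0
    apply hρ
    have hσρ0 : σ ρ ≠ 0 := fun h => hρ0 (H.inj h)
    have h3 : κ = 1 + ρ⁻¹ := by rw [hκ]; field_simp; ring
    rw [h3, map_add, map_one, map_inv₀] at h0
    have : ρ⁻¹ = (σ ρ)⁻¹ := by linear_combination h0
    exact (inv_injective this).symm
  set y := τ * (1 + ρ) with hy
  set b := (y - σ y) / (κ - σ κ) with hb
  set a := y - b * κ with ha
  have hbσ : σ b = b := by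
    rw [hb, map_div₀, map_sub, map_sub, H.inv, H.inv, ← neg_sub y, ← neg_sub κ, neg_div_neg_eq]
  have haσ : σ a = a := by
    rw [ha, map_sub, map_mul σ b κ, hbσ]
    have : b * (κ - σ κ) = y - σ y := div_mul_cancel₀ _ hκσ
    linear_combination this
  have e1 : τ = a * (1 + ρ)⁻¹ + b * ρ⁻¹ := by
    have h3 : y = a + b * κ := by rw [ha]; ring
    have h4 : τ = y * (1 + ρ)⁻¹ := by rw [hy, mul_inv_cancel_right₀ hρ1]
    rw [h4, h3, hκ]
    field_simp
  have hS0 : x + (0 : F) • z ∈ SS h K := by rwa [zero_smul, add_zero]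
  have hsc : ∀ {α τ : F}, σ α = α → x + τ • z ∈ SS h K → x + (α * τ) • z ∈ SS h K := by
    intro α τ hα hS
    by_cases h0 : α = 0
    · rw [h0, zero_mul]; exact hS0
    · exact tt_scale hK H hx hr hxr hzx hzr hzz hα h0 hS
  rw [e1]
  exact tt_add hK H hx hr hxr hzx hzr hzz (hsc haσ h2) (hsc hbσ h1)

end TT

end abs

end H6.UnR
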