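import Cfsg.Agent.Lib.H6.UnB
import Cfsg.Agent.Lib.H6.SpRegE

/-!
Isometries, the regular unipotent element and its conjugate, the additive group of matrices.
-/
set_option autoImplicit false
set_option linter.unusedSectionVars false
set_option linter.unusedVariables false

namespace H6.UnR

open Matrix Module H95.UBasic H57.Polar H43.SUTwoB H6.SpReg

variable {F : Type*} [Field F] {m : ℕ} {σ : F →+* F} {ε : F}

theorem dot_cs (M : Matrix (Fin m) (Fin m) F) (b b' : Fin m → F) :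
    b ⬝ᵥ cv σ (M *ᵥ b') = (cs σ M *ᵥ b) ⬝ᵥ cv σ b' := by
  rw [cv_mulVec, dotProduct_mulVec, ← mulVec_transpose]
  rfl

theorem σinv (P : Par σ ε) : σ ε⁻¹ = -ε⁻¹ := by rw [map_inv₀, P.σz, inv_neg]

theorem nU_isom (P : Par σ ε) {v : Fin m → F} {B : Matrix (Fin m) (Fin m) F} (hB : B - cs σ B = ε⁻¹ • vw σ v v) :
    nU σ ε v B ∈ isom (h0 σ ε m) := by
  intro x y
  rw [h0_apply, h0_apply, nU_apply, nU_apply]
  have h1 : x.2.2 ⬝ᵥ cv σ (B *ᵥ y.2.2) = (B *ᵥ x.2.2) ⬝ᵥ cv σ y.2.2 - ε⁻¹ * ((x.2.2 ⬝ᵥ cv σ v) * (v ⬝ᵥ cv σ y.2.2)) := by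
    rw [dot_cs]
    have h2 : cs σ B = B - ε⁻¹ • vw σ v v := by rw [← hB]; abel
    rw [h2, sub_mulVec, sub_dotProduct, smul_mulVec, vw_mulVec, smul_dotProduct, smul_dotProduct]
    simp only [smul_eq_mul]
  have h2 : σ (y.2.2 ⬝ᵥ cv σ v) = v ⬝ᵥ cv σ y.2.2 := by
    rw [σ_dot, cv_cv P.inv, dotProduct_comm]
  simp only [cv_add, cv_smul, dotProduct_add, add_dotProduct, dotProduct_smul, smul_dotProduct, smul_eq_mul, map_add,
    map_mul, h1, h2, σinv P]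
  have hz := P.z0
  field_simp
  ring

theorem mU_isom (P : Par σ ε) (g : (Matrix (Fin m) (Fin m) F)ˣ) : mU σ g ∈ isom (h0 σ ε m) := by
  intro x y
  rw [h0_apply, h0_apply, mU_apply, mU_apply]
  have h1 : ((g : Matrix (Fin m) (Fin m) F) *ᵥ x.1) ⬝ᵥ
      cv σ (cs σ ((g⁻¹ : (Matrix (Fin m) (Fin m) F)ˣ) : Matrix (Fin m) (Fin m) F) *ᵥ y.2.2) = x.1 ⬝ᵥ cv σ y.2.2 := by
    rw [dot_cs, cs_cs P.inv, mulVec_mulVec, g.inv_mul, one_mulVec]
  have h2 : (cs σ ((g⁻¹ : (Matrix (Fin m) (Fin m) F)ˣ) : Matrix (Fin m) (Fin m) F) *ᵥ x.2.2) ⬝ᵥ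
      cv σ ((g : Matrix (Fin m) (Fin m) F) *ᵥ y.1) = x.2.2 ⬝ᵥ cv σ y.1 := by
    rw [dot_cs, mulVec_mulVec, ← cs_mul, g.inv_mul, cs_one, one_mulVec]
  simp only [h1, h2]

theorem wU_isom (P : Par σ ε) : wU m F ∈ isom (h0 σ ε m) := by
  intro x y
  rw [h0_apply, h0_apply, wU_apply, wU_apply]
  simp only [cv_neg, dotProduct_neg, neg_dotProduct]
  ring

/-- real units -/
def Re (σ : F →+* F) (g : (Matrix (Fin m) (Fin m) F)ˣ) : Prop := (g : Matrix (Fin m) (Fin m) F).map σ = g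

theorem Re.inv {g : (Matrix (Fin m) (Fin m) F)ˣ} (hg : Re σ g) : Re σ g⁻¹ := by
  unfold Re at hg ⊢
  have h1 : (g : Matrix (Fin m) (Fin m) F) * ((g⁻¹ : (Matrix (Fin m) (Fin m) F)ˣ) : Matrix (Fin m) (Fin m) F).map σ = 1 := by
    conv_lhs => rw [← hg]
    rw [← Matrix.map_mul, g.mul_inv, Matrix.map_one _ (map_zero σ) (map_one σ)]
  calc ((g⁻¹ : (Matrix (Fin m) (Fin m) F)ˣ) : Matrix (Fin m) (Fin m) F).map σ
      = ((g⁻¹ : (Matrix (Fin m) (Fin m) F)ˣ) : Matrix (Fin m) (Fin m) F) * ((g : Matrix (Fin m) (Fin m) F) *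
        ((g⁻¹ : (Matrix (Fin m) (Fin m) F)ˣ) : Matrix (Fin m) (Fin m) F).map σ) := by
        rw [← Matrix.mul_assoc, g.inv_mul, Matrix.one_mul]
    _ = _ := by rw [h1, Matrix.mul_one]

theorem Re.mul {g g' : (Matrix (Fin m) (Fin m) F)ˣ} (hg : Re σ g) (hg' : Re σ g') : Re σ (g * g') := by
  unfold Re at hg hg' ⊢
  rw [Units.val_mul, Matrix.map_mul, hg, hg']

theorem Re.ut {g : (Matrix (Fin m) (Fin m) F)ˣ} (hg : Re σ g) : Re σ (ut g) := by
  unfold Re at hg ⊢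
  show ((g : Matrix (Fin m) (Fin m) F)ᵀ).map σ = (g : Matrix (Fin m) (Fin m) F)ᵀ
  rw [transpose_map, hg]

theorem Re.cs {g : (Matrix (Fin m) (Fin m) F)ˣ} (hg : Re σ g) : cs σ (g : Matrix (Fin m) (Fin m) F) =
    (g : Matrix (Fin m) (Fin m) F)ᵀ := by
  rw [UnR.cs, hg]

theorem real_gJ : Re σ (gJ m F) := by
  unfold Re
  rw [coe_gJ]
  ext i j
  rw [map_apply, Matrix.add_apply, NS, map_add, Matrix.one_apply, apply_ite σ, apply_ite σ, map_one, map_zero]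

theorem real_dg {η : ℕ → Fˣ} (hη : ∀ i, σ (η i : F) = η i) : Re σ (dg η m) := by
  unfold Re
  show (diagonal fun i : Fin m => ((η i : Fˣ) : F)).map σ = diagonal fun i : Fin m => ((η i : Fˣ) : F)
  rw [diagonal_map (map_zero σ)]
  congr 1
  funext i
  exact hη i

theorem real_gL {g : (Matrix (Fin m) (Fin m) F)ˣ} (hg : Re σ g) {η : ℕ → Fˣ} (hη : ∀ i, σ (η i : F) = η i) :
    Re σ (gL g η) :=
  ((real_dg hη).mul hg.ut).mul (real_dg hη).inv

theorem cv_ev (k : ℕ) : cv σ (ev m F k) = ev m F k := by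
  funext i
  rw [cv, ev, apply_ite σ, map_one, map_zero]

theorem dot_ev {k : ℕ} (hk : k < m) (b : Fin m → F) : b ⬝ᵥ ev m F k = b ⟨k, hk⟩ := by
  rw [dotProduct, Finset.sum_eq_single (⟨k, hk⟩ : Fin m)]
  · simp [ev]
  · intro l _ hl
    rw [ev, if_neg, mul_zero]
    intro h; exact hl (Fin.ext h)
  · intro h; exact absurd (Finset.mem_univ _) h

theorem single_ev {k : ℕ} (hk : k < m) (c : F) : (Pi.single (⟨k, hk⟩ : Fin m) c : Fin m → F) = c • ev m F k := by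
  funext i
  rw [Pi.smul_apply, smul_eq_mul, ev]
  by_cases h : i = ⟨k, hk⟩
  · rw [h, Pi.single_eq_same, if_pos rfl, mul_one]
  · rw [Pi.single_eq_of_ne h, if_neg (fun h' => h (Fin.ext h')), mul_zero]

/-- the regular unipotent element -/
noncomputable def uR (σ : F →+* F) (ε β : F) (m : ℕ) : V0 m F ≃ₗ[F] V0 m F :=
  nU σ ε (ev m F (m - 1)) (β • SQ (ev m F (m - 1))) * mU σ (gJ m F)

/-- the conjugating element -/
noncomputable def MR (σ : F →+* F) (η : ℕ → Fˣ) (m : ℕ) : V0 m F ≃ₗ[F] V0 m F := mU σ (dg η m) * wU m F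

/-- the last index -/
def ll (hm : 0 < m) : Fin m := ⟨m - 1, Nat.sub_lt hm one_pos⟩

theorem wU_nU (hm : 0 < m) (β : F) :
    wU m F * nU σ ε (ev m F (m - 1)) (β • SQ (ev m F (m - 1))) = nL ε⁻¹ (-1) (-β) (ll hm) * wU m F := by
  have hl : m - 1 < m := Nat.sub_lt hm one_pos
  apply LinearEquiv.ext
  intro x
  rw [LinearEquiv.mul_apply, LinearEquiv.mul_apply]
  have h1 : SQ (ev m F (m - 1)) *ᵥ x.2.2 = x.2.2 (ll hm) • ev m F (m - 1) := by
    rw [SQ, vecMulVec_mulVec, dotProduct_comm, dot_ev hl]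
    funext i
    simp [ll, mul_comm]
  apply v0ext
  · rfl
  · simp only [nU_apply, wU_apply, nL_apply, cv_ev, dot_ev hl]
    rfl
  · simp only [nU_apply, wU_apply, nL_apply]
    rw [smul_mulVec, h1, ll, single_ev hl]
    module

theorem wU_mU {g : (Matrix (Fin m) (Fin m) F)ˣ} (hg : Re σ g) : wU m F * mU σ g = mU σ (ut g)⁻¹ * wU m F := by
  apply LinearEquiv.ext
  intro x
  rw [LinearEquiv.mul_apply, LinearEquiv.mul_apply]
  apply v0ext
  · simp only [mU_apply, wU_apply]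
    rw [hg.inv.cs]
    rfl
  · rfl
  · simp only [mU_apply, wU_apply, inv_inv]
    rw [hg.ut.cs, mulVec_neg]
    rfl

theorem mU_nL (hm : 0 < m) {η : ℕ → Fˣ} (hη : ∀ i, σ (η i : F) = η i) (p r s : F) :
    mU σ (dg η m) * nL p r s (ll hm) = nL (p * (η (m - 1) : F)⁻¹) (r * (η (m - 1) : F)⁻¹)
      (s * (η (m - 1) : F)⁻¹ * (η (m - 1) : F)⁻¹) (ll hm) * mU σ (dg η m) := by
  have hl : m - 1 < m := Nat.sub_lt hm one_pos
  have hη0 : (η (m - 1) : F) ≠ 0 := Units.ne_zero _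
  apply LinearEquiv.ext
  intro x
  rw [LinearEquiv.mul_apply, LinearEquiv.mul_apply]
  have h1 : ((dg η m : (Matrix (Fin m) (Fin m) F)ˣ) : Matrix (Fin m) (Fin m) F) *ᵥ x.1 =
      fun i : Fin m => (η (i : ℕ) : F) * x.1 i := by
    funext i
    change ((diagonal fun i : Fin m => ((η i : Fˣ) : F)) *ᵥ x.1) i = _
    rw [mulVec_diagonal]
  apply v0ext
  · rfl
  · simp only [mU_apply, nL_apply, h1]
    show x.2.1 + p * x.1 (ll hm) = x.2.1 + p * (η (m - 1) : F)⁻¹ * ((η (m - 1) : F) * x.1 (ll hm))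
    rw [mul_assoc p, inv_mul_cancel_left₀ hη0]
  · simp only [mU_apply, nL_apply, h1]
    rw [(real_dg hη).inv.cs, dgiT, mulVec_add]
    congr 1
    rw [ll, single_ev hl, single_ev hl, mulVec_smul, dg_inv_ev _ hl, smul_smul]
    congr 1
    have : (((η (m - 1))⁻¹ : Fˣ) : F) = (η (m - 1) : F)⁻¹ := Units.val_inv_eq_inv_val _
    rw [this]
    field_simp

/-- the third generator -/
theorem conj_low (hm : 0 < m) (β : F) {η : ℕ → Fˣ} (hη : ∀ i, σ (η i : F) = η i) :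
    MR σ η m * uR σ ε β m * (MR σ η m)⁻¹ = nL (ε⁻¹ * (η (m - 1) : F)⁻¹) (-1 * (η (m - 1) : F)⁻¹)
      (-β * (η (m - 1) : F)⁻¹ * (η (m - 1) : F)⁻¹) (ll hm) * mU σ (gL (gJ m F) η)⁻¹ := by
  rw [mul_inv_eq_iff_eq_mul, MR, uR]
  have e1 : mU σ (gL (gJ m F) η)⁻¹ * (mU σ (dg η m) * wU m F) = mU σ (dg η m) * (mU σ (ut (gJ m F))⁻¹ * wU m F) := by
    rw [← mul_assoc, ← mul_assoc, mU_mul, mU_mul]
    congr 2
    rw [gL]; group
  calc mU σ (dg η m) * wU m F * (nU σ ε (ev m F (m - 1)) (β • SQ (ev m F (m - 1))) * mU σ (gJ m F))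
      = mU σ (dg η m) * (wU m F * nU σ ε (ev m F (m - 1)) (β • SQ (ev m F (m - 1)))) * mU σ (gJ m F) := by
        simp only [mul_assoc]
    _ = (mU σ (dg η m) * nL ε⁻¹ (-1) (-β) (ll hm)) * (wU m F * mU σ (gJ m F)) := by
        rw [wU_nU hm]; simp only [mul_assoc]
    _ = _ := by
        rw [mU_nL hm hη, wU_mU real_gJ, mul_assoc (nL _ _ _ _), mul_assoc (nL _ _ _ _), e1]

/-- the upper matrices -/
def AM (σ : F →+* F) (ε : F) (K : Subgroup (V0 m F ≃ₗ[F] V0 m F)) : AddSubgroup (Matrix (Fin m) (Fin m) F) where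
  carrier := {B | nU σ ε 0 B ∈ K}
  zero_mem' := by
    show nU σ ε 0 0 ∈ K
    rw [nU_one]; exact K.one_mem
  add_mem' := fun {a b} ha hb => by
    show nU σ ε 0 (a + b) ∈ K
    rw [← nU_mul0]; exact K.mul_mem ha hb
  neg_mem' := fun {a} ha => by
    show nU σ ε 0 (-a) ∈ K
    rw [← nU_inv0]; exact K.inv_mem ha

theorem mem_AM {K : Subgroup (V0 m F ≃ₗ[F] V0 m F)} {B : Matrix (Fin m) (Fin m) F} : B ∈ AM σ ε K ↔ nU σ ε 0 B ∈ K :=
  Iff.rfl

theorem AM_up (hσ : ∀ x, σ (σ x) = x) {K : Subgroup (V0 m F ≃ₗ[F] V0 m F)} {v : Fin m → F}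
    {C : Matrix (Fin m) (Fin m) F} {g : (Matrix (Fin m) (Fin m) F)ˣ} (hu : nU σ ε v C * mU σ g ∈ K)
    {B : Matrix (Fin m) (Fin m) F} (hB : B ∈ AM σ ε K) :
    (g : Matrix (Fin m) (Fin m) F) * B * cs σ (g : Matrix (Fin m) (Fin m) F) ∈ AM σ ε K := by
  have h1 : nU σ ε v C * mU σ g * nU σ ε 0 B =
      nU σ ε 0 ((g : Matrix (Fin m) (Fin m) F) * B * cs σ (g : Matrix (Fin m) (Fin m) F)) * (nU σ ε v C * mU σ g) := by
    rw [mul_assoc, mU_nU hσ, mulVec_zero, ← mul_assoc, ← mul_assoc, nU_mul0, nU_mul0', add_comm]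
  have h2 := K.mul_mem (K.mul_mem hu hB) (K.inv_mem hu)
  rwa [h1, mul_inv_cancel_right] at h2

theorem nL_nU0 {p r s : F} (hm : 0 < m) {B : Matrix (Fin m) (Fin m) F} (hB : Lst B) :
    nL p r s (ll hm) * nU σ ε 0 B = nU σ ε 0 B * nL p r s (ll hm) := by
  have hl : m - 1 < m := Nat.sub_lt hm one_pos
  have h1 : ∀ b : Fin m → F, (B *ᵥ b) (ll hm) = 0 := by
    intro b
    rw [mulVec, dotProduct]
    apply Finset.sum_eq_zero
    intro j _
    rw [hB (ll hm) j (Or.inl (by simp only [ll]; omega)), zero_mul]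
  have h2 : B *ᵥ ev m F (m - 1) = 0 := by
    funext i
    rw [mulVec_ev _ hl, hB _ _ (Or.inr (by simp only; omega))]
    rfl
  apply LinearEquiv.ext
  intro x
  rw [LinearEquiv.mul_apply, LinearEquiv.mul_apply]
  simp only [nU_apply, nL_apply, cv_zero, dotProduct_zero, mul_zero, add_zero, smul_zero, Pi.add_apply, h1]
  apply v0ext
  · show x.1 + B *ᵥ x.2.2 = x.1 + B *ᵥ (x.2.2 + _)
    rw [mulVec_add, ll, single_ev hl, mulVec_smul, h2, smul_zero, add_zero]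
  · rfl
  · rfl

theorem AM_low (hσ : ∀ x, σ (σ x) = x) {K : Subgroup (V0 m F ≃ₗ[F] V0 m F)} {p r s : F} (hm : 0 < m)
    {g : (Matrix (Fin m) (Fin m) F)ˣ} (hu : nL p r s (ll hm) * mU σ g⁻¹ ∈ K)
    {B : Matrix (Fin m) (Fin m) F} (hB : B ∈ AM σ ε K) (hl : Lst B) :
    (g : Matrix (Fin m) (Fin m) F) * B * cs σ (g : Matrix (Fin m) (Fin m) F) ∈ AM σ ε K := by
  have h1 : (nL p r s (ll hm) * mU σ g⁻¹)⁻¹ * nU σ ε 0 B * (nL p r s (ll hm) * mU σ g⁻¹) =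
      nU σ ε 0 ((g : Matrix (Fin m) (Fin m) F) * B * cs σ (g : Matrix (Fin m) (Fin m) F)) := by
    rw [_root_.mul_inv_rev, mU_inv, inv_inv]
    calc mU σ g * (nL p r s (ll hm))⁻¹ * nU σ ε 0 B * (nL p r s (ll hm) * mU σ g⁻¹)
        = mU σ g * (nL p r s (ll hm))⁻¹ * (nU σ ε 0 B * nL p r s (ll hm)) * mU σ g⁻¹ := by simp only [mul_assoc]
      _ = mU σ g * nU σ ε 0 B * mU σ g⁻¹ := by
        rw [← nL_nU0 hm hl]; group
      _ = _ := by
        rw [mU_nU hσ, mulVec_zero, mul_assoc, mU_mul, mul_inv_cancel, mU_one, mul_one]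
  rw [mem_AM, ← h1]
  exact K.mul_mem (K.mul_mem (K.inv_mem hu) hB) hu

end H6.UnR
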