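import Cfsg.Agent.Lib.H6.UnC
import Cfsg.Agent.Lib.H6.SpRegC

/-!
The additive group of matrices: passage to the fixed field, and the non-real part.
-/
set_option autoImplicit false
set_option linter.unusedSectionVars false
set_option linter.unusedVariables false

namespace H6.UnR

open Matrix Module H95.UBasic H57.Polar H43.SUTwoB H6.SpReg

variable {F : Type*} [Field F] {m : ℕ} {σ : F →+* F} {ε : F}

/-- the fixed field -/
def FX (σ : F →+* F) : Subfield F := RingHom.eqLocusField σ (RingHom.id F)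

theorem mem_FX {x : F} : x ∈ FX σ ↔ σ x = x := Iff.rfl

theorem fx_val (x : FX σ) : σ (x : F) = x := x.2

/-- the inclusion -/
abbrev io (σ : F →+* F) : FX σ →+* F := (FX σ).subtype

/-- real matrices in the group -/
def A0 (σ : F →+* F) (ε : F) (K : Subgroup (V0 m F ≃ₗ[F] V0 m F)) : AddSubgroup (Matrix (Fin m) (Fin m) (FX σ)) :=
  (AM σ ε K).comap ((io σ).mapMatrix : Matrix (Fin m) (Fin m) (FX σ) →+* Matrix (Fin m) (Fin m) F).toAddMonoidHom

theorem mem_A0 {K : Subgroup (V0 m F ≃ₗ[F] V0 m F)} {Q : Matrix (Fin m) (Fin m) (FX σ)} :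
    Q ∈ A0 σ ε K ↔ Q.map (io σ) ∈ AM σ ε K := Iff.rfl

theorem gJ_io : ((gJ m (FX σ) : (Matrix (Fin m) (Fin m) (FX σ))ˣ) : Matrix (Fin m) (Fin m) (FX σ)).map (io σ) =
    (gJ m F : Matrix (Fin m) (Fin m) F) := by
  rw [coe_gJ, coe_gJ]
  ext i j
  rw [map_apply, Matrix.add_apply, Matrix.add_apply, NS, NS, map_add, Matrix.one_apply, Matrix.one_apply,
    apply_ite (io σ), apply_ite (io σ), map_one, map_zero]

/-- units of the fixed field -/
def iu (η : ℕ → (FX σ)ˣ) : ℕ → Fˣ := fun i => Units.map (io σ : FX σ →* F) (η i)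

theorem iu_real (η : ℕ → (FX σ)ˣ) (i : ℕ) : σ (iu η i : F) = iu η i := fx_val _

theorem gL_io (η : ℕ → (FX σ)ˣ) :
    ((gL (gJ m (FX σ)) η : (Matrix (Fin m) (Fin m) (FX σ))ˣ) : Matrix (Fin m) (Fin m) (FX σ)).map (io σ) =
    (gL (gJ m F) (iu η) : Matrix (Fin m) (Fin m) F) := by
  rw [gL, gL, Units.val_mul, Units.val_mul, Units.val_mul, Units.val_mul, Matrix.map_mul, Matrix.map_mul]
  congr 1
  · congr 1
    · show (diagonal fun i : Fin m => ((η i : (FX σ)ˣ) : FX σ)).map (io σ) = diagonal fun i : Fin m => ((iu η i : Fˣ) : F)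
      rw [diagonal_map (map_zero _)]
      rfl
    · show (((gJ m (FX σ) : (Matrix (Fin m) (Fin m) (FX σ))ˣ) : Matrix (Fin m) (Fin m) (FX σ))ᵀ).map (io σ) =
        ((gJ m F : (Matrix (Fin m) (Fin m) F)ˣ) : Matrix (Fin m) (Fin m) F)ᵀ
      rw [transpose_map, gJ_io]
  · show (diagonal fun i : Fin m => (((η i)⁻¹ : (FX σ)ˣ) : FX σ)).map (io σ) =
      diagonal fun i : Fin m => (((iu η i)⁻¹ : Fˣ) : F)
    rw [diagonal_map (map_zero _)]
    rfl

theorem A0_up (hσ : ∀ x, σ (σ x) = x) {K : Subgroup (V0 m F ≃ₗ[F] V0 m F)} {β : F} (hu : uR σ ε β m ∈ K)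
    (Q : Matrix (Fin m) (Fin m) (FX σ)) (hQ : Q ∈ A0 σ ε K) :
    (gJ m (FX σ) : Matrix (Fin m) (Fin m) (FX σ)) * Q * (gJ m (FX σ) : Matrix (Fin m) (Fin m) (FX σ))ᵀ ∈ A0 σ ε K := by
  rw [mem_A0, Matrix.map_mul, Matrix.map_mul, transpose_map, gJ_io, ← (real_gJ (σ := σ)).cs]
  exact AM_up hσ hu hQ

theorem A0_low (hσ : ∀ x, σ (σ x) = x) {K : Subgroup (V0 m F ≃ₗ[F] V0 m F)} {p r s : F} (hm : 0 < m)
    {η : ℕ → (FX σ)ˣ} (hu : nL p r s (ll hm) * mU σ (gL (gJ m F) (iu η))⁻¹ ∈ K)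
    (Q : Matrix (Fin m) (Fin m) (FX σ)) (hQ : Q ∈ A0 σ ε K) (hl : Lst Q) :
    (gL (gJ m (FX σ)) η : Matrix (Fin m) (Fin m) (FX σ)) * Q *
      (gL (gJ m (FX σ)) η : Matrix (Fin m) (Fin m) (FX σ))ᵀ ∈ A0 σ ε K := by
  rw [mem_A0, Matrix.map_mul, Matrix.map_mul, transpose_map, gL_io, ← (real_gL real_gJ (iu_real η)).cs]
  apply AM_low hσ hm hu hQ
  intro i j hij
  show (io σ) (Q i j) = 0
  rw [hl i j hij, map_zero]

/-- the largest submodule -/
def BS {k : Type*} [Field k] (A : AddSubgroup (Matrix (Fin m) (Fin m) k)) : Submodule k (Matrix (Fin m) (Fin m) k) where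
  carrier := {Q | ∀ c : k, c • Q ∈ A}
  add_mem' := fun {a b} ha hb c => by rw [smul_add]; exact A.add_mem (ha c) (hb c)
  zero_mem' := fun c => by rw [smul_zero]; exact A.zero_mem
  smul_mem' := fun d x hx c => by rw [smul_smul]; exact hx _

/-- all real rank one matrices -/
theorem real_full (hσ : ∀ x, σ (σ x) = x) {K : Subgroup (V0 m F ≃ₗ[F] V0 m F)} {β p r s : F} (hm : 0 < m)
    (hu : uR σ ε β m ∈ K) {η : ℕ → (FX σ)ˣ} (hv : nL p r s (ll hm) * mU σ (gL (gJ m F) (iu η))⁻¹ ∈ K)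
    (hbase : ∀ y : FX σ, y • SQ (ev m (FX σ) 0) ∈ A0 σ ε K) (w : Fin m → F) (hw : ∀ i, σ (w i) = w i) {c : F}
    (hc : σ c = c) : c • vw σ w w ∈ AM σ ε K := by
  have hfull : ∀ w : Fin m → FX σ, SQ w ∈ BS (A0 σ ε K) := by
    apply sym_full (g := (gJ m (FX σ) : Matrix (Fin m) (Fin m) (FX σ)))
      (g' := (gL (gJ m (FX σ)) η : Matrix (Fin m) (Fin m) (FX σ)))
      (b := fun i => ((η (i + 1) * (η i)⁻¹ : (FX σ)ˣ) : FX σ)) _ _ _ _ (fun i => Units.ne_zero _)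
    · exact hbase
    · intro Q hQ c
      have := A0_up hσ hu _ (hQ c)
      rwa [Matrix.mul_smul, Matrix.smul_mul] at this
    · intro Q hQ hl c
      have := A0_low hσ hm hv _ (hQ c) (hl.smul c)
      rwa [Matrix.mul_smul, Matrix.smul_mul] at this
    · intro i hi
      rw [coe_gJ, add_mulVec, one_mulVec, NS_ev hi]
    · intro i hi
      exact gL_ev coe_gJ η hi
  have h1 := hfull (fun i => ⟨w i, hw i⟩) ⟨c, hc⟩
  rw [mem_A0] at h1
  convert h1 using 1
  ext i j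
  rw [Matrix.smul_apply, vw_apply, map_apply, Matrix.smul_apply, SQ_apply, hw]
  rfl

/-- the vector `(w, 0, 0)` -/
def xw (w : Fin m → F) : V0 m F := (w, 0, 0)

theorem xw_add (w z : Fin m → F) : xw (w + z) = xw w + xw z := by
  apply v0ext
  · rfl
  · simp [xw]
  · simp [xw]
theorem xw_smul (c : F) (w : Fin m → F) : xw (c • w) = c • xw w := by
  apply v0ext
  · rfl
  · simp [xw]
  · simp [xw]
theorem xw_sub (w z : Fin m → F) : xw (w - z) = xw w - xw z := by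
  apply v0ext
  · rfl
  · simp [xw]
  · simp [xw]

theorem h_xw (w : Fin m → F) (y : V0 m F) : h0 σ ε m (xw w) y = w ⬝ᵥ cv σ y.2.2 := by
  rw [h0_apply, xw]
  simp
theorem h_xw' (w : Fin m → F) (y : V0 m F) : h0 σ ε m y (xw w) = -(y.2.2 ⬝ᵥ cv σ w) := by
  rw [h0_apply, xw]
  simp [cv_zero]
theorem h_xw_xw (w w' : Fin m → F) : h0 σ ε m (xw w) (xw w') = 0 := by
  rw [h_xw]
  simp [xw, cv_zero]

theorem rf_xw (w : Fin m → F) {c : F} (hc : σ c = c) : rf (h0 σ ε m) (xw w) c = nU σ ε 0 (-(c • vw σ w w)) := by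
  apply LinearEquiv.ext
  intro x
  rw [rf_apply (tr_good (h_xw_xw w w) hc), h_xw', nU_apply]
  apply v0ext
  · show x.1 + (c * -(x.2.2 ⬝ᵥ cv σ w)) • w = _
    rw [neg_mulVec, smul_mulVec, vw_mulVec]
    module
  · simp [xw, cv_zero]
  · simp [xw]

theorem xw_mem {K : Subgroup (V0 m F ≃ₗ[F] V0 m F)} {w : Fin m → F} :
    xw w ∈ SS (h0 σ ε m) K ↔ ∀ c, σ c = c → c • vw σ w w ∈ AM σ ε K := by
  constructor
  · rintro ⟨-, h2⟩ c hc
    have h3 := h2 (-c) (by rw [map_neg, hc])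
    rw [rf_xw _ (by rw [map_neg, hc]), neg_smul, neg_neg] at h3
    exact h3
  · intro h
    refine ⟨h_xw_xw w w, fun c hc => ?_⟩
    rw [rf_xw _ hc]
    exact (AM σ ε K).neg_mem (h c hc)

theorem vw_add_left (v v' w : Fin m → F) : vw σ (v + v') w = vw σ v w + vw σ v' w := by
  ext i j; simp only [vw_apply, Matrix.add_apply, Pi.add_apply]; ring
theorem vw_add_right (v w w' : Fin m → F) : vw σ v (w + w') = vw σ v w + vw σ v w' := by
  ext i j; simp only [vw_apply, Matrix.add_apply, Pi.add_apply, map_add]; ring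
theorem vw_smul_left (c : F) (v w : Fin m → F) : vw σ (c • v) w = c • vw σ v w := by
  ext i j; simp only [vw_apply, Matrix.smul_apply, Pi.smul_apply, smul_eq_mul]; ring
theorem vw_smul_right (c : F) (v w : Fin m → F) : vw σ v (c • w) = σ c • vw σ v w := by
  ext i j; simp only [vw_apply, Matrix.smul_apply, Pi.smul_apply, smul_eq_mul, map_mul]; ring

/-- the mixed matrices -/
def PP (σ : F →+* F) (ε : F) (K : Subgroup (V0 m F ≃ₗ[F] V0 m F)) (w z : Fin m → F) : Prop :=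
  ∀ l : F, l • vw σ w z + σ l • vw σ z w ∈ AM σ ε K

theorem PP.symm (hσ : ∀ x, σ (σ x) = x) {K : Subgroup (V0 m F ≃ₗ[F] V0 m F)} {w z : Fin m → F} (h : PP σ ε K w z) :
    PP σ ε K z w := by
  intro l
  have := h (σ l)
  rwa [hσ, add_comm] at this

theorem PP.add {K : Subgroup (V0 m F ≃ₗ[F] V0 m F)} {w z z' : Fin m → F} (h : PP σ ε K w z)
    (h' : PP σ ε K w z') : PP σ ε K w (z + z') := by
  intro l
  have := (AM σ ε K).add_mem (h l) (h' l)
  rw [vw_add_left, vw_add_right]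
  convert this using 1
  module

theorem PP.sub {K : Subgroup (V0 m F ≃ₗ[F] V0 m F)} {w z z' : Fin m → F} (h : PP σ ε K w z)
    (h' : PP σ ε K w z') : PP σ ε K w (z - z') := by
  intro l
  have := (AM σ ε K).sub_mem (h l) (h' l)
  have e : z - z' = z + (-1 : F) • z' := by module
  rw [e, vw_add_left, vw_add_right, vw_smul_left, vw_smul_right, map_neg, map_one]
  convert this using 1
  module

/-- the key step -/
theorem PP_of_ratio (P : Par σ ε) {K : Subgroup (V0 m F ≃ₗ[F] V0 m F)} (hK : K ≤ isom (h0 σ ε m))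
    (hreal : ∀ (w : Fin m → F), (∀ i, σ (w i) = w i) → xw w ∈ SS (h0 σ ε m) K)
    {r : V0 m F} (hr : r ∈ SS (h0 σ ε m) K) {w z : Fin m → F} (hw : ∀ i, σ (w i) = w i) (hz : ∀ i, σ (z i) = z i)
    (hφ : h0 σ ε m (xw w) r ≠ 0)
    (hρ : σ (h0 σ ε m (xw z) r / h0 σ ε m (xw w) r) ≠ h0 σ ε m (xw z) r / h0 σ ε m (xw w) r) :
    PP σ ε K w z := by
  have H := h0_skew (m := m) P
  set φ := h0 σ ε m (xw w) r with hφd
  set ψ := h0 σ ε m (xw z) r with hψd
  set ρ := ψ / φ with hρd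
  have hρ0 : ρ ≠ 0 := by
    intro h0'
    rw [h0', map_zero] at hρ
    exact hρ rfl
  have hρ1 : 1 + ρ ≠ 0 := by
    intro h0'
    have : ρ = -1 := by linear_combination h0'
    rw [this, map_neg, map_one] at hρ
    exact hρ rfl
  have hσφ : σ φ ≠ 0 := fun h => hφ (H.inj h)
  have hr1 : (σ φ)⁻¹ • r ∈ SS (h0 σ ε m) K := SS_smul H hr _
  have hxr : h0 σ ε m (xw w) ((σ φ)⁻¹ • r) = 1 := by
    rw [map_smulₛₗ, map_inv₀, P.inv, ← hφd, smul_eq_mul, inv_mul_cancel₀ hφ]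
  set z' := xw (z - ρ • w) with hz'
  have hzx : h0 σ ε m z' (xw w) = 0 := h_xw_xw _ _
  have hzz : h0 σ ε m z' z' = 0 := h_xw_xw _ _
  have hzr : h0 σ ε m z' ((σ φ)⁻¹ • r) = 0 := by
    rw [map_smulₛₗ, hz', xw_sub, xw_smul, map_sub, map_smul, LinearMap.sub_apply, LinearMap.smul_apply, ← hφd, ← hψd,
      hρd]
    simp only [smul_eq_mul, div_mul_cancel₀ _ hφ, sub_self, mul_zero]
  have hxS := hreal w hw
  have hzS := hreal z hz
  have hwzS := hreal (w + z) (fun i => by rw [Pi.add_apply, map_add, hw, hz])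
  have h1 : xw w + ρ⁻¹ • z' ∈ SS (h0 σ ε m) K := by
    have : xw w + ρ⁻¹ • z' = ρ⁻¹ • xw z := by
      rw [hz', ← xw_smul, ← xw_add, ← xw_smul]
      congr 1
      rw [smul_sub, smul_smul, inv_mul_cancel₀ hρ0]
      module
    rw [this]; exact SS_smul H hzS _
  have h2 : xw w + (1 + ρ)⁻¹ • z' ∈ SS (h0 σ ε m) K := by
    have : xw w + (1 + ρ)⁻¹ • z' = (1 + ρ)⁻¹ • xw (w + z) := by
      rw [hz', ← xw_smul, ← xw_add, ← xw_smul]
      congr 1
      have e : w = (1 + ρ)⁻¹ • ((1 + ρ) • w) := by rw [smul_smul, inv_mul_cancel₀ hρ1, one_smul]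
      conv_lhs => rw [show w + (1 + ρ)⁻¹ • (z - ρ • w) = (1 + ρ)⁻¹ • ((1 + ρ) • w) + (1 + ρ)⁻¹ • (z - ρ • w) by rw [← e]]
      rw [← smul_add]
      congr 1
      module
    rw [this]; exact SS_smul H hwzS _
  have hall := tt_all hK H hxS hr1 hxr hzx hzr hzz hρ h1 h2
  -- conclusion for most scalars
  have key : ∀ l : F, 1 + σ l * ρ ≠ 0 → l • vw σ w z + σ l • vw σ z w ∈ AM σ ε K := by
    intro l hl
    have h3 := hall (σ l / (1 + σ l * ρ))
    have h4 : xw w + (σ l / (1 + σ l * ρ)) • z' = (1 + σ l * ρ)⁻¹ • xw (w + σ l • z) := by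
      rw [hz', ← xw_smul, ← xw_add, ← xw_smul]
      congr 1
      have e : w = (1 + σ l * ρ)⁻¹ • ((1 + σ l * ρ) • w) := by rw [smul_smul, inv_mul_cancel₀ hl, one_smul]
      conv_lhs => rw [show w + (σ l / (1 + σ l * ρ)) • (z - ρ • w) =
        (1 + σ l * ρ)⁻¹ • ((1 + σ l * ρ) • w) + (σ l / (1 + σ l * ρ)) • (z - ρ • w) by rw [← e]]
      have e2 : σ l / (1 + σ l * ρ) = (1 + σ l * ρ)⁻¹ * σ l := by rw [div_eq_mul_inv, mul_comm]
      rw [e2, mul_smul, ← smul_add]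
      congr 1
      module
    rw [h4] at h3
    have h5 := SS_of_smul H (inv_ne_zero hl) h3
    have h6 := xw_mem.1 h5 1 (map_one σ)
    have h7 := xw_mem.1 hxS 1 (map_one σ)
    have h8 := xw_mem.1 hzS (l * σ l) (by rw [map_mul, P.inv, mul_comm])
    have h9 := (AM σ ε K).sub_mem ((AM σ ε K).sub_mem h6 h7) h8
    convert h9 using 1
    rw [vw_add_left, vw_add_right, vw_add_right, vw_smul_left, vw_smul_left, vw_smul_right, vw_smul_right, P.inv]
    module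
  intro l
  by_cases hl : 1 + σ l * ρ = 0
  · have h3 : 1 + σ (l - 1) * ρ ≠ 0 := by
      rw [map_sub, map_one]
      intro h
      apply hρ0
      linear_combination hl - h
    have h4 : 1 + σ 1 * ρ ≠ 0 := by rw [map_one, one_mul]; exact hρ1
    have h5 := (AM σ ε K).add_mem (key _ h3) (key _ h4)
    convert h5 using 1
    rw [map_sub, map_one]
    module
  · exact key l hl

end H6.UnR
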