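import Cfsg.Agent.Lib.H6.UnD

/-!
All hermitian matrices; then all isotropic vectors.
-/
set_option autoImplicit false
set_option linter.unusedSectionVars false
set_option linter.unusedVariables false

namespace H6.UnR

open Matrix Module H95.UBasic H57.Polar H43.SUTwoB H6.SpReg

variable {F : Type*} [Field F] {m : ℕ} {σ : F →+* F} {ε : F}

theorem ev_real (k : ℕ) (i : Fin m) : σ (ev m F k i) = ev m F k i := congrFun (cv_ev (σ := σ) k) i

theorem cs_smul_vw (hσ : ∀ x, σ (σ x) = x) (c : F) (v w : Fin m → F) : cs σ (c • vw σ v w) = σ c • vw σ w v := by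
  ext i j
  rw [cs_apply, Matrix.smul_apply, Matrix.smul_apply, vw_apply, vw_apply, smul_eq_mul, smul_eq_mul, map_mul, map_mul, hσ]
  ring

theorem cs_add (B C : Matrix (Fin m) (Fin m) F) : cs σ (B + C) = cs σ B + cs σ C := by
  ext i j
  rw [cs_apply, Matrix.add_apply, Matrix.add_apply, cs_apply, cs_apply, map_add]

section all

variable (P : Par σ ε) {K : Subgroup (V0 m F ≃ₗ[F] V0 m F)} (hK : K ≤ isom (h0 σ ε m)) (hm : 2 ≤ m)
  (hreal : ∀ (w : Fin m → F), (∀ i, σ (w i) = w i) → xw w ∈ SS (h0 σ ε m) K)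
  {r : V0 m F} (hr : r ∈ SS (h0 σ ε m) K) (h1 : ∀ i, i < m - 2 → h0 σ ε m (xw (ev m F i)) r = 0)
  (h2 : h0 σ ε m (xw (ev m F (m - 2))) r ≠ 0)
  (h3 : σ (h0 σ ε m (xw (ev m F (m - 1))) r / h0 σ ε m (xw (ev m F (m - 2))) r) ≠
    h0 σ ε m (xw (ev m F (m - 1))) r / h0 σ ε m (xw (ev m F (m - 2))) r)

include P hK hm hreal hr h1 h2 h3

theorem PP_gen {w z : Fin m → F} (hw : ∀ i, σ (w i) = w i) (hz : ∀ i, σ (z i) = z i)
    (hw0 : h0 σ ε m (xw w) r = 0) (hz0 : h0 σ ε m (xw z) r = 0) :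
    PP σ ε K (ev m F (m - 2) + w) (ev m F (m - 1) + z) := by
  have e1 : h0 σ ε m (xw (ev m F (m - 2) + w)) r = h0 σ ε m (xw (ev m F (m - 2))) r := by
    rw [xw_add, map_add, LinearMap.add_apply, hw0, add_zero]
  have e2 : h0 σ ε m (xw (ev m F (m - 1) + z)) r = h0 σ ε m (xw (ev m F (m - 1))) r := by
    rw [xw_add, map_add, LinearMap.add_apply, hz0, add_zero]
  apply PP_of_ratio P hK hreal hr
  · intro i; rw [Pi.add_apply, map_add, hw, ev_real]
  · intro i; rw [Pi.add_apply, map_add, hz, ev_real]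
  · rw [e1]; exact h2
  · rw [e1, e2]; exact h3

theorem PP_ab : PP σ ε K (ev m F (m - 2)) (ev m F (m - 1)) := by
  have := PP_gen P hK hm hreal hr h1 h2 h3 (w := 0) (z := 0) (by simp) (by simp) (by rw [h_xw]; simp) (by rw [h_xw]; simp)
  rwa [add_zero, add_zero] at this

theorem PP_a {z : Fin m → F} (hz : ∀ i, σ (z i) = z i) (hz0 : h0 σ ε m (xw z) r = 0) :
    PP σ ε K (ev m F (m - 2)) z := by
  have h4 := PP_gen P hK hm hreal hr h1 h2 h3 (w := 0) (z := z) (by simp) hz (by rw [h_xw]; simp) hz0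
  rw [add_zero] at h4
  have := h4.sub (PP_ab P hK hm hreal hr h1 h2 h3)
  rwa [add_sub_cancel_left] at this

theorem PP_b {w : Fin m → F} (hw : ∀ i, σ (w i) = w i) (hw0 : h0 σ ε m (xw w) r = 0) :
    PP σ ε K (ev m F (m - 1)) w := by
  have h4 := PP_gen P hK hm hreal hr h1 h2 h3 (w := w) (z := 0) hw (by simp) hw0 (by rw [h_xw]; simp)
  rw [add_zero] at h4
  have := (h4.symm P.inv).sub ((PP_ab P hK hm hreal hr h1 h2 h3).symm P.inv)
  rwa [add_sub_cancel_left] at this

theorem PP_c {w z : Fin m → F} (hw : ∀ i, σ (w i) = w i) (hz : ∀ i, σ (z i) = z i)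
    (hw0 : h0 σ ε m (xw w) r = 0) (hz0 : h0 σ ε m (xw z) r = 0) : PP σ ε K w z := by
  have h4 := (PP_gen P hK hm hreal hr h1 h2 h3 hw hz hw0 hz0).symm P.inv
  have h5 : PP σ ε K (ev m F (m - 2)) (ev m F (m - 1) + z) := by
    have := PP_gen P hK hm hreal hr h1 h2 h3 (w := 0) (z := z) (by simp) hz (by rw [h_xw]; simp) hz0
    rwa [add_zero] at this
  have h6 := h4.sub (h5.symm P.inv)
  rw [add_sub_cancel_left] at h6
  have h7 := (h6.symm P.inv).sub ((PP_b P hK hm hreal hr h1 h2 h3 hw hw0).symm P.inv)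
  rwa [add_sub_cancel_left] at h7

theorem PP_all {i j : ℕ} (hi : i < m) (hj : j < m) : PP σ ε K (ev m F i) (ev m F j) := by
  by_cases hij : i = j
  · subst hij
    intro l
    have h4 := xw_mem.1 (hreal (ev m F i) (ev_real i)) (l + σ l) (by rw [map_add, P.inv, add_comm])
    rwa [add_smul] at h4
  · have hr' : ∀ k, ∀ i, σ (ev m F k i) = ev m F k i := fun k i => ev_real k i
    rcases lt_or_ge i (m - 2) with hi2 | hi2
    · rcases lt_or_ge j (m - 2) with hj2 | hj2
      · exact PP_c P hK hm hreal hr h1 h2 h3 (hr' i) (hr' j) (h1 i hi2) (h1 j hj2)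
      · rcases Nat.eq_or_lt_of_le hj2 with h | h
        · rw [← h]; exact (PP_a P hK hm hreal hr h1 h2 h3 (hr' i) (h1 i hi2)).symm P.inv
        · rw [show j = m - 1 by omega]; exact (PP_b P hK hm hreal hr h1 h2 h3 (hr' i) (h1 i hi2)).symm P.inv
    · rcases lt_or_ge j (m - 2) with hj2 | hj2
      · rcases Nat.eq_or_lt_of_le hi2 with h | h
        · rw [← h]; exact PP_a P hK hm hreal hr h1 h2 h3 (hr' j) (h1 j hj2)
        · rw [show i = m - 1 by omega]; exact PP_b P hK hm hreal hr h1 h2 h3 (hr' j) (h1 j hj2)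
      · rcases Nat.eq_or_lt_of_le hi2 with h | h
        · rw [← h, show j = m - 1 by omega]; exact PP_ab P hK hm hreal hr h1 h2 h3
        · rw [show i = m - 1 by omega, show j = m - 2 by omega]
          exact (PP_ab P hK hm hreal hr h1 h2 h3).symm P.inv

theorem AM_full {θ : F} (hθ : θ + σ θ = 1) {B : Matrix (Fin m) (Fin m) F} (hB : cs σ B = B) : B ∈ AM σ ε K := by
  let A' : AddSubgroup (Matrix (Fin m) (Fin m) F) :=
    { carrier := {C | C + cs σ C ∈ AM σ ε K}
      zero_mem' := by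
        show (0 : Matrix (Fin m) (Fin m) F) + cs σ 0 ∈ AM σ ε K
        have : cs σ (0 : Matrix (Fin m) (Fin m) F) = 0 := by ext i j; rw [cs_apply]; simp
        rw [this, add_zero]; exact (AM σ ε K).zero_mem
      add_mem' := fun {a b} ha hb => by
        show (a + b) + cs σ (a + b) ∈ AM σ ε K
        have := (AM σ ε K).add_mem ha hb
        rw [cs_add]
        convert this using 1
        abel
      neg_mem' := fun {a} ha => by
        show (-a) + cs σ (-a) ∈ AM σ ε K
        have := (AM σ ε K).neg_mem ha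
        convert this using 1
        ext i j
        simp only [Matrix.add_apply, Matrix.neg_apply, cs_apply, map_neg]
        ring }
  have hA' : ∀ C, C ∈ A' ↔ C + cs σ C ∈ AM σ ε K := fun C => Iff.rfl
  have hall : ∀ C, C ∈ A' := by
    intro C
    rw [Matrix.matrix_eq_sum_single C]
    refine A'.sum_mem fun i _ => A'.sum_mem fun j _ => ?_
    have e1 : Matrix.single i j (C i j) = C i j • vw σ (ev m F i) (ev m F j) := by
      ext a b
      rw [Matrix.smul_apply, vw_apply, ev_real, ev, ev, Matrix.single_apply, smul_eq_mul]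
      by_cases ha : i = a
      · by_cases hb : j = b
        · simp [ha, hb]
        · rw [if_neg (fun h => hb h.2), if_neg (fun h : (b : ℕ) = j => hb (Fin.ext h.symm))]; simp
      · rw [if_neg (fun h => ha h.1), if_neg (fun h : (a : ℕ) = i => ha (Fin.ext h.symm))]; simp
    rw [e1, hA', cs_smul_vw P.inv]
    exact PP_all P hK hm hreal hr h1 h2 h3 i.2 j.2 _
  have hBB : ∀ i j, σ (B j i) = B i j := fun i j => by
    have := congrFun (congrFun hB i) j
    rwa [cs_apply] at this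
  have h5 := (hA' (fun i j => if i < j then B i j else if i = j then θ * B i j else 0)).1 (hall _)
  convert h5 using 1
  ext i j
  show B i j = (if i < j then B i j else if i = j then θ * B i j else 0) +
    σ (if j < i then B j i else if j = i then θ * B j i else 0)
  rcases lt_trichotomy i j with h | h | h
  · rw [if_pos h, if_neg (not_lt.2 h.le), if_neg h.ne']; simp
  · subst h
    rw [if_neg (lt_irrefl i), if_pos rfl, map_mul, hBB, ← add_mul, hθ, one_mul]
  · rw [if_neg (not_lt.2 h.le), if_neg h.ne', if_pos h, hBB, zero_add]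

end all

section iso

variable (P : Par σ ε) {K : Subgroup (V0 m F ≃ₗ[F] V0 m F)} (hK : K ≤ isom (h0 σ ε m)) (hm : 2 ≤ m)
  (hA : ∀ B : Matrix (Fin m) (Fin m) F, cs σ B = B → B ∈ AM σ ε K)

include P hK hA

theorem xw_all (w : Fin m → F) : xw w ∈ SS (h0 σ ε m) K := by
  rw [xw_mem]
  intro c hc
  apply hA
  rw [cs_smul_vw P.inv, hc]

theorem W_all {y : V0 m F} (hy : y.2 = 0) : y ∈ SS (h0 σ ε m) K := by
  have : y = xw y.1 := Prod.ext rfl hy
  rw [this]
  exact xw_all P hK hA _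

/-- `y ∈ S` gives all isotropic vectors of `y + W` -/
theorem coset {y y' : V0 m F} (hy : y ∈ SS (h0 σ ε m) K) (hb : y.2.2 ≠ 0) (h2 : y'.2 = y.2)
    (hy' : h0 σ ε m y' y' = 0) : y' ∈ SS (h0 σ ε m) K := by
  obtain ⟨i, hi⟩ : ∃ i, y.2.2 i ≠ 0 := by
    by_contra hcon
    push Not at hcon
    exact hb (funext hcon)
  set b := y.2.2 with hbd
  set f : Fin m → F := Pi.single i (σ (b i))⁻¹ with hf
  have hσb : σ (b i) ≠ 0 := fun h => hi (by rw [← P.inv (b i), h, map_zero])
  have hbf : b ⬝ᵥ cv σ f = 1 := by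
    have : cv σ f = Pi.single i (b i)⁻¹ := by
      funext j
      by_cases hj : j = i
      · subst hj; rw [cv, hf, Pi.single_eq_same, Pi.single_eq_same, map_inv₀, P.inv]
      · rw [cv, hf, Pi.single_eq_of_ne hj, Pi.single_eq_of_ne hj, map_zero]
    rw [this, dotProduct_single, mul_inv_cancel₀ hi]
  set δ := y'.1 - y.1 with hδ
  set κ := b ⬝ᵥ cv σ δ with hκ
  have hκσ : σ κ = κ := by
    have e1 := hy.1
    rw [h0_apply] at e1 hy'
    rw [show y'.2.1 = y.2.1 from congrArg Prod.fst h2, show y'.2.2 = b from congrArg Prod.snd h2] at hy'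
    rw [← hbd] at e1
    have e2 : y'.1 = δ + y.1 := by rw [hδ]; abel
    rw [e2, add_dotProduct, cv_add, dotProduct_add] at hy'
    have e3 : δ ⬝ᵥ cv σ b = κ := by linear_combination hy' - e1
    rw [hκ, σ_dot, cv_cv P.inv, dotProduct_comm, e3, hκ]
  set B : Matrix (Fin m) (Fin m) F := vw σ δ f + vw σ f δ - κ • vw σ f f with hB
  have hBh : cs σ B = B := by
    ext j k
    rw [cs_apply, hB]
    simp only [Matrix.sub_apply, Matrix.add_apply, Matrix.smul_apply, vw_apply, smul_eq_mul, map_sub, map_add, map_mul,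
      P.inv, hκσ]
    ring
  have hBb : B *ᵥ b = δ := by
    rw [hB, sub_mulVec, add_mulVec, smul_mulVec, vw_mulVec, vw_mulVec, vw_mulVec, hbf, ← hκ]
    module
  have h5 := SS_conj hK (hA B hBh) hy
  have h6 : nU σ ε 0 B y = y' := by
    rw [nU_apply]
    apply v0ext
    · show y.1 + y.2.1 • (0 : Fin m → F) + B *ᵥ y.2.2 = y'.1
      rw [← hbd, hBb, hδ, smul_zero]; abel
    · show y.2.1 + ε⁻¹ * (y.2.2 ⬝ᵥ cv σ 0) = y'.2.1
      rw [cv_zero, dotProduct_zero, mul_zero, add_zero]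
      exact (congrArg Prod.fst h2).symm
    · exact (congrArg Prod.snd h2).symm
  rwa [h6] at h5

omit hK hA in
theorem exists_w {b c : Fin m → F} (hc0 : c ≠ 0) (hbc : ∀ t : F, b ≠ t • c) (A C : F) :
    ∃ w : Fin m → F, w ⬝ᵥ cv σ b = A ∧ w ⬝ᵥ cv σ c = C := by
  have H := h0_skew (m := m) P
  set x : V0 m F := (0, 0, c) with hx
  set y : V0 m F := (0, 0, b) with hy
  have hx0 : x ≠ 0 := fun h => hc0 (congrArg (fun z : V0 m F => z.2.2) h)
  have hxy : ∀ t : F, y ≠ t • x := fun t h => hbc t (congrArg (fun z : V0 m F => z.2.2) h)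
  obtain ⟨u, -, hu⟩ := exists_dual H (H6.SUGenB.top_nd H) (x := ![x, y]) (fun _ => trivial)
    (pair_indep hx0 hxy) ![C, A]
  have h1 : h0 σ ε m u x = C := hu 0
  have h2 : h0 σ ε m u y = A := hu 1
  refine ⟨u.1, ?_, ?_⟩
  · rw [h0_apply] at h2
    simpa [hy, cv_zero] using h2
  · rw [h0_apply] at h1
    simpa [hx, cv_zero] using h1

/-- adding with independent last parts -/
theorem step_indep {X : Submodule F (V0 m F)} (hXW : ∀ y : V0 m F, y.2 = 0 → y ∈ X)
    (hXS : ∀ y ∈ X, h0 σ ε m y y = 0 → y ∈ SS (h0 σ ε m) K) {x z : V0 m F} (hx : x ∈ X)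
    (hz : z ∈ SS (h0 σ ε m) K) (hz0 : z.2.2 ≠ 0) (hxz : ∀ c : F, x.2.2 ≠ c • z.2.2) :
    ∃ y ∈ SS (h0 σ ε m) K, y.2 = x.2 + z.2 := by
  have H := h0_skew (m := m) P
  obtain ⟨A, hA'⟩ := exists_sub_conj H (s := -h0 σ ε m x x) (by rw [map_neg, H.self])
  obtain ⟨w, hw1, hw2⟩ := exists_w P hz0 hxz A (1 - h0 σ ε m x z)
  have e1 : h0 σ ε m (xw w) x = A := by rw [h_xw, hw1]
  have e2 : h0 σ ε m x (xw w) = -σ A := by rw [H.skew (xw w) x, e1]
  have h1 : h0 σ ε m (x + xw w) (x + xw w) = 0 := by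
    simp only [map_add, LinearMap.add_apply, h_xw_xw, e1, e2]
    linear_combination hA'
  have h2 : h0 σ ε m (x + xw w) z = 1 := by
    rw [map_add, LinearMap.add_apply, h_xw, hw2]
    ring
  have h3 := SS_add hK hz (hXS _ (X.add_mem hx (hXW _ rfl)) h1) (by rw [h2, map_one]) (by rw [h2]; exact one_ne_zero)
  refine ⟨_, h3, ?_⟩
  show x.2 + (0 : F × (Fin m → F)) + z.2 = x.2 + z.2
  rw [add_zero]

/-- the extension step -/
theorem step_ext {X : Submodule F (V0 m F)} (hXW : ∀ y : V0 m F, y.2 = 0 → y ∈ X)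
    (hXS : ∀ y ∈ X, h0 σ ε m y y = 0 → y ∈ SS (h0 σ ε m) K) {z : V0 m F}
    (hz : z ∈ SS (h0 σ ε m) K) (hz0 : z.2.2 ≠ 0) {x2 : V0 m F} (hx2 : x2 ∈ X) (hxz2 : ∀ c : F, x2.2.2 ≠ c • z.2.2) :
    ∀ y ∈ X ⊔ Submodule.span F {z}, h0 σ ε m y y = 0 → y ∈ SS (h0 σ ε m) K := by
  have H := h0_skew (m := m) P
  -- the normalised case
  have key : ∀ x ∈ X, h0 σ ε m (x + z) (x + z) = 0 → x + z ∈ SS (h0 σ ε m) K := by
    intro x hx hxi
    by_cases hb : (x + z).2.2 = 0
    · apply W_all P hK hA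
      apply Prod.ext _ hb
      rw [h0_apply, hb] at hxi
      simp only [cv_zero, dotProduct_zero, zero_dotProduct, sub_zero, zero_add] at hxi
      have h1 := (mul_eq_zero.1 hxi).resolve_left P.z0
      rcases mul_eq_zero.1 h1 with h2 | h2
      · exact h2
      · rw [← P.inv (x + z).2.1, h2, map_zero]; rfl
    by_cases hdep : ∀ c : F, x.2.2 ≠ c • z.2.2
    · obtain ⟨y, hy, hy2⟩ := step_indep P hK hA hXW hXS hx hz hz0 hdep
      exact coset P hK hA hy (by rw [hy2]; exact hb) hy2.symm hxi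
    · push Not at hdep
      obtain ⟨c, hc⟩ := hdep
      obtain ⟨y2, hy2, hy22⟩ := step_indep P hK hA hXW hXS hx2 hz hz0 hxz2
      have hb2 : y2.2.2 = x2.2.2 + z.2.2 := congrArg Prod.snd hy22
      have hy20 : y2.2.2 ≠ 0 := by
        rw [hb2]
        intro h
        apply hxz2 (-1)
        rw [neg_smul, one_smul]
        exact eq_neg_of_add_eq_zero_left h
      have hdep2 : ∀ k : F, (x - x2).2.2 ≠ k • y2.2.2 := by
        intro k hk
        have h1 : x.2.2 - x2.2.2 = k • (x2.2.2 + z.2.2) := by rw [← hb2]; exact hk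
        rw [hc] at h1
        have h2 : (c - k) • z.2.2 = (k + 1) • x2.2.2 := by
          have : c • z.2.2 - x2.2.2 - k • (x2.2.2 + z.2.2) = 0 := by rw [h1, sub_self]
          have e : (c - k) • z.2.2 - (k + 1) • x2.2.2 = c • z.2.2 - x2.2.2 - k • (x2.2.2 + z.2.2) := by module
          rw [← sub_eq_zero, e, this]
        by_cases hk1 : k + 1 = 0
        · rw [hk1, zero_smul] at h2
          have h3 : c - k = 0 := (smul_eq_zero.1 h2).resolve_right hz0
          apply hb
          show x.2.2 + z.2.2 = 0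
          rw [hc]
          have : c = -1 := by linear_combination h3 + hk1
          rw [this]; module
        · apply hxz2 ((k + 1)⁻¹ * (c - k))
          rw [mul_smul, h2, smul_smul, inv_mul_cancel₀ hk1, one_smul]
      obtain ⟨y3, hy3, hy33⟩ := step_indep P hK hA hXW hXS (X.sub_mem hx hx2) hy2 hy20 hdep2
      have h5 : y3.2 = (x + z).2 := by
        rw [hy33, hy22]
        show x.2 - x2.2 + (x2.2 + z.2) = x.2 + z.2
        abel
      exact coset P hK hA hy3 (by rw [h5]; exact hb) h5.symm hxi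
  intro y hy hyi
  obtain ⟨x, hx, u, hu, rfl⟩ := Submodule.mem_sup.1 hy
  obtain ⟨l, rfl⟩ := Submodule.mem_span_singleton.1 hu
  by_cases hl : l = 0
  · subst hl
    rw [zero_smul, add_zero] at hyi ⊢
    exact hXS x hx hyi
  · have h1 : x + l • z = l • (l⁻¹ • x + z) := by rw [smul_add, smul_smul, mul_inv_cancel₀ hl, one_smul]
    rw [h1]
    apply SS_smul H
    apply key _ (X.smul_mem _ hx)
    have h2 : l⁻¹ • x + z = l⁻¹ • (x + l • z) := by rw [smul_add, smul_smul, inv_mul_cancel₀ hl, one_smul]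
    rw [h2]
    exact H6.SUGenB.iso_smul _ hyi

include hm in
/-- all isotropic vectors -/
theorem SS_all (hspan : ∀ E : Submodule F (V0 m F), (∀ y ∈ SS (h0 σ ε m) K, y ∈ E) → E = ⊤)
    {y1 : V0 m F} (hy1 : y1 ∈ SS (h0 σ ε m) K) (hy10 : y1.2.2 ≠ 0) :
    ∀ y, h0 σ ε m y y = 0 → y ∈ SS (h0 σ ε m) K := by
  have H := h0_skew (m := m) P
  let Gd : Set (Submodule F (V0 m F)) := {X | (∀ y : V0 m F, y.2 = 0 → y ∈ X) ∧
    (∀ y ∈ X, h0 σ ε m y y = 0 → y ∈ SS (h0 σ ε m) K) ∧ ∃ x ∈ X, x.2.2 ≠ 0}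
  have hne : Gd.Nonempty := by
    let W : Submodule F (V0 m F) := LinearMap.ker (LinearMap.snd F (Fin m → F) (F × (Fin m → F)))
    have hW : ∀ y : V0 m F, y ∈ W ↔ y.2 = 0 := fun y => LinearMap.mem_ker
    refine ⟨W ⊔ Submodule.span F {y1}, ?_, ?_, ?_⟩
    · intro y hy
      exact Submodule.mem_sup_left ((hW y).2 hy)
    · intro y hy hyi
      obtain ⟨x, hx, u, hu, rfl⟩ := Submodule.mem_sup.1 hy
      obtain ⟨l, rfl⟩ := Submodule.mem_span_singleton.1 hu
      rw [hW] at hx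
      by_cases hl : l = 0
      · subst hl
        rw [zero_smul, add_zero]
        exact W_all P hK hA hx
      · refine coset P hK hA (SS_smul H hy1 l) ?_ ?_ hyi
        · exact smul_ne_zero hl hy10
        · show x.2 + (l • y1).2 = (l • y1).2
          rw [hx, zero_add]
    · exact ⟨y1, Submodule.mem_sup_right (Submodule.mem_span_singleton_self _), hy10⟩
  obtain ⟨X, ⟨hX1, hX2, x0, hx0, hx00⟩, hmax⟩ := WellFounded.has_min
    (wellFounded_gt : WellFounded ((· > ·) : Submodule F (V0 m F) → Submodule F (V0 m F) → Prop)) Gd hne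
  suffices hX : X = ⊤ by
    intro y hy
    exact hX2 y (by rw [hX]; trivial) hy
  by_contra hX
  -- find z
  have hex : ∃ z ∈ SS (h0 σ ε m) K, z ∉ X ∧ ∃ x2 ∈ X, ∀ c : F, x2.2.2 ≠ c • z.2.2 := by
    by_contra hcon
    push Not at hcon
    obtain ⟨z0, hz0, hz0X⟩ : ∃ z ∈ SS (h0 σ ε m) K, z ∉ X := by
      by_contra hc
      push Not at hc
      exact hX (hspan X hc)
    have hpar : ∀ z ∈ SS (h0 σ ε m) K, z ∉ X → ∃ c : F, z.2.2 = c • x0.2.2 := by
      intro z hz hzX
      obtain ⟨c, hc⟩ := hcon z hz hzX x0 hx0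
      have hc0 : c ≠ 0 := by rintro rfl; exact hx00 (by rw [hc, zero_smul])
      exact ⟨c⁻¹, by rw [hc, smul_smul, inv_mul_cancel₀ hc0, one_smul]⟩
    let Y : Submodule F (V0 m F) := (Submodule.span F {x0.2.2}).comap
      ((LinearMap.snd F F (Fin m → F)).comp (LinearMap.snd F (Fin m → F) (F × (Fin m → F))))
    have hY : ∀ y : V0 m F, y ∈ Y ↔ ∃ c : F, c • x0.2.2 = y.2.2 := fun y => Submodule.mem_span_singleton
    have hYtop : Y = ⊤ := by
      apply hspan
      intro y hy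
      rw [hY]
      by_cases hyX : y ∈ X
      · obtain ⟨c, hc⟩ := hcon z0 hz0 hz0X y hyX
        obtain ⟨d, hd⟩ := hpar z0 hz0 hz0X
        exact ⟨c * d, by rw [hc, hd, smul_smul]⟩
      · obtain ⟨c, hc⟩ := hpar y hy hyX
        exact ⟨c, hc.symm⟩
    have h0' : ((0, 0, ev m F 0) : V0 m F) ∈ Y := by rw [hYtop]; trivial
    have h1' : ((0, 0, ev m F 1) : V0 m F) ∈ Y := by rw [hYtop]; trivial
    rw [hY] at h0' h1'
    obtain ⟨c, hc⟩ := h0'
    obtain ⟨d, hd⟩ := h1'
    have a1 := congrFun hc ⟨0, by omega⟩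
    have a2 := congrFun hc ⟨1, by omega⟩
    have a3 := congrFun hd ⟨1, by omega⟩
    simp [ev] at a1 a2 a3
    rcases a2 with a2 | a2
    · rw [a2, zero_mul] at a1; exact zero_ne_one a1
    · rw [a2, mul_zero] at a3; exact zero_ne_one a3
  obtain ⟨z, hz, hzX, x2, hx2, hx2z⟩ := hex
  have hz0 : z.2.2 ≠ 0 := by
    intro h
    apply hzX
    apply hX1
    apply Prod.ext _ h
    have hzi := hz.1
    rw [h0_apply, h] at hzi
    simp only [cv_zero, dotProduct_zero, zero_dotProduct, sub_zero, zero_add] at hzi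
    have h1 := (mul_eq_zero.1 hzi).resolve_left P.z0
    rcases mul_eq_zero.1 h1 with h2 | h2
    · exact h2
    · rw [← P.inv z.2.1, h2, map_zero]; rfl
  refine hmax (X ⊔ Submodule.span F {z}) ⟨?_, step_ext P hK hA hX1 hX2 hz hz0 hx2 hx2z, x0,
    Submodule.mem_sup_left hx0, hx00⟩ ?_
  · intro y hy
    exact Submodule.mem_sup_left (hX1 y hy)
  · refine lt_of_le_of_ne le_sup_left ?_
    intro h
    apply hzX
    rw [h]
    exact Submodule.mem_sup_right (Submodule.mem_span_singleton_self _)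

end iso

end H6.UnR
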