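import Cfsg.Agent.Lib.H6.UnE

/-!
The group generated is everything, once the base root subgroup is present.
-/
set_option autoImplicit false
set_option linter.unusedSectionVars false
set_option linter.unusedVariables false

namespace H6.UnR

open Matrix Module H95.UBasic H57.Polar H43.SUTwoB H6.SpReg

variable {F : Type*} [Field F] {m : ℕ} {σ : F →+* F} {ε : F}

theorem gLt_ev (η : ℕ → Fˣ) {i : ℕ} (hi : i < m) :
    ((gL (gJ m F) η : (Matrix (Fin m) (Fin m) F)ˣ) : Matrix (Fin m) (Fin m) F)ᵀ *ᵥ ev m F i =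
      ev m F i + ((η i * (η (i - 1))⁻¹ : Fˣ) : F) • pv m F i := by
  rw [gL, Units.val_mul, Units.val_mul, transpose_mul, transpose_mul, dgT, dgiT]
  change _ *ᵥ _ = _
  have e1 : ((ut (gJ m F) : (Matrix (Fin m) (Fin m) F)ˣ) : Matrix (Fin m) (Fin m) F)ᵀ = 1 + NS m F := by
    show ((gJ m F : Matrix (Fin m) (Fin m) F)ᵀ)ᵀ = _
    rw [transpose_transpose, coe_gJ]
  rw [e1, ← mulVec_mulVec, ← mulVec_mulVec, dg_ev _ hi, mulVec_smul, mulVec_smul, add_mulVec, one_mulVec, NS_ev hi,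
    mulVec_add, dg_inv_ev _ hi, smul_add, smul_smul, ← Units.val_mul, mul_inv_cancel, Units.val_one, one_smul]
  congr 1
  rcases i with _ | i
  · simp
  · rw [pv_succ, dg_inv_ev _ (by omega), smul_smul, Nat.add_sub_cancel, ← Units.val_mul]

section core

variable (P : Par σ ε) {K : Subgroup (V0 m F ≃ₗ[F] V0 m F)} (hK : K ≤ isom (h0 σ ε m)) (hm : 2 ≤ m) (hm0 : 0 < m)
  {η : ℕ → Fˣ} (hη : ∀ i, σ (η i : F) = η i) {p r s : F}

include hη

theorem U3_apply (x : V0 m F) : (nL p r s (ll hm0) * mU σ (gL (gJ m F) η)⁻¹) x =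
    ((((gL (gJ m F) η)⁻¹ : (Matrix (Fin m) (Fin m) F)ˣ) : Matrix (Fin m) (Fin m) F) *ᵥ x.1,
      x.2.1 + p * ((((gL (gJ m F) η)⁻¹ : (Matrix (Fin m) (Fin m) F)ˣ) : Matrix (Fin m) (Fin m) F) *ᵥ x.1) (ll hm0),
      ((gL (gJ m F) η : (Matrix (Fin m) (Fin m) F)ˣ) : Matrix (Fin m) (Fin m) F)ᵀ *ᵥ x.2.2 +
        (r * x.2.1 + s * ((((gL (gJ m F) η)⁻¹ : (Matrix (Fin m) (Fin m) F)ˣ) : Matrix (Fin m) (Fin m) F) *ᵥ x.1) (ll hm0))
          • ev m F (m - 1)) := by
  rw [LinearEquiv.mul_apply]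
  apply v0ext
  · rfl
  · rfl
  · rw [nL_apply, mU_apply]
    show cs σ ((((gL (gJ m F) η)⁻¹)⁻¹ : (Matrix (Fin m) (Fin m) F)ˣ) : Matrix (Fin m) (Fin m) F) *ᵥ x.2.2 +
      Pi.single (ll hm0) _ = _
    rw [inv_inv, (real_gL real_gJ hη).cs, ll, single_ev (Nat.sub_lt hm0 one_pos)]

omit hη in
theorem gLinv_last : (((gL (gJ m F) η)⁻¹ : (Matrix (Fin m) (Fin m) F)ˣ) : Matrix (Fin m) (Fin m) F) *ᵥ ev m F (m - 1) =
    ev m F (m - 1) := by
  rcases Nat.eq_zero_or_pos m with h | h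
  · subst h
    funext i; exact i.elim0
  have h1 := gL_last (F := F) coe_gJ η h
  conv_lhs => rw [← h1]
  rw [mulVec_mulVec, Units.inv_mul, one_mulVec]

include hm in
theorem U3_e : (nL p r s (ll hm0) * mU σ (gL (gJ m F) η)⁻¹) (xw (ev m F (m - 1))) =
    (ev m F (m - 1), p, s • ev m F (m - 1)) := by
  rw [U3_apply hm0 hη]
  have h1 : ev m F (m - 1) (ll hm0) = (1 : F) := by simp [ev, ll]
  apply v0ext
  · exact gLinv_last
  · show (0 : F) + p * _ = p
    rw [xw, gLinv_last, h1]; ring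
  · show _ *ᵥ (0 : Fin m → F) + (r * (0 : F) + s * _) • _ = _
    rw [xw, gLinv_last, h1, mulVec_zero]
    simp

include hm in
theorem U3_ee : (nL p r s (ll hm0) * mU σ (gL (gJ m F) η)⁻¹) (ev m F (m - 1), p, s • ev m F (m - 1)) =
    (ev m F (m - 1), 2 * p, (2 * s + r * p) • ev m F (m - 1) +
      (s * ((η (m - 1) * (η (m - 2))⁻¹ : Fˣ) : F)) • ev m F (m - 2)) := by
  rw [U3_apply hm0 hη]
  have h1 : ev m F (m - 1) (ll hm0) = (1 : F) := by simp [ev, ll]
  apply v0ext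
  · exact gLinv_last
  · show p + p * _ = 2 * p
    rw [gLinv_last, h1]; ring
  · show _ *ᵥ (s • ev m F (m - 1)) + (r * p + s * _) • _ = _
    rw [gLinv_last, h1, mulVec_smul, gLt_ev _ (by omega)]
    have h2 : pv m F (m - 1) = ev m F (m - 2) := by
      rw [show m - 1 = (m - 2) + 1 by omega, pv_succ]
    rw [h2, show m - 1 - 1 = m - 2 by omega]
    module

/-- spanning -/
theorem span_all (hm : 2 ≤ m) (hp : p ≠ 0) (hr : r ≠ 0) (hs : s ≠ 0) {E : Submodule F (V0 m F)} (hW : ∀ w, xw w ∈ E)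
    (hE : ∀ x ∈ E, (nL p r s (ll hm0) * mU σ (gL (gJ m F) η)⁻¹) x ∈ E) : E = ⊤ := by
  set G := ((gL (gJ m F) η : (Matrix (Fin m) (Fin m) F)ˣ) : Matrix (Fin m) (Fin m) F)ᵀ with hG
  have h1 : ((0, p, s • ev m F (m - 1)) : V0 m F) ∈ E := by
    have h2 := E.sub_mem (hE _ (hW (ev m F (m - 1)))) (hW (ev m F (m - 1)))
    rw [U3_e hm hm0 hη] at h2
    have : ((ev m F (m - 1), p, s • ev m F (m - 1)) : V0 m F) - xw (ev m F (m - 1)) = (0, p, s • ev m F (m - 1)) := by
      apply v0ext <;> simp [xw]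
    rwa [this] at h2
  let E' : Submodule F (Fin m → F) := E.comap ((LinearMap.inr F (Fin m → F) (F × (Fin m → F))).comp
    (LinearMap.inr F F (Fin m → F)))
  have hE' : ∀ b, b ∈ E' ↔ ((0, 0, b) : V0 m F) ∈ E := fun b => Iff.rfl
  have hU0 : ∀ (x : F) (b : Fin m → F), ((0, x, b) : V0 m F) ∈ E → ((0, x, G *ᵥ b + (r * x) • ev m F (m - 1)) : V0 m F) ∈ E := by
    intro x b hb
    have h2 := hE _ hb
    rw [U3_apply hm0 hη] at h2
    convert h2 using 1
    apply v0ext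
    · simp
    · simp
    · simp [hG]
  have hN : ∀ b ∈ E', (G - 1) *ᵥ b ∈ E' := by
    intro b hb
    have h2 := E.sub_mem (hU0 0 b hb) hb
    rw [hE']
    convert h2 using 1
    apply v0ext
    · simp
    · simp
    · simp [sub_mulVec]
  set k : ℕ → F := fun i => ((η i * (η (i - 1))⁻¹ : Fˣ) : F) with hk
  have hk0 : ∀ i, k i ≠ 0 := fun i => Units.ne_zero _
  have hGe : ∀ i, i < m → (G - 1) *ᵥ ev m F i = k i • pv m F i := by
    intro i hi
    rw [sub_mulVec, one_mulVec, hG, gLt_ev _ hi, add_sub_cancel_left]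
  -- the first vector
  have hb2 : (r * p) • ev m F (m - 1) + (s * k (m - 1)) • pv m F (m - 1) ∈ E' := by
    have h2 := E.sub_mem (hU0 _ _ h1) h1
    rw [hE']
    convert h2 using 1
    apply v0ext
    · simp
    · simp
    · show _ = (G *ᵥ (s • ev m F (m - 1)) + (r * p) • ev m F (m - 1)) - s • ev m F (m - 1)
      rw [mulVec_smul, hG, gLt_ev _ (by omega)]
      show _ = s • (ev m F (m - 1) + k (m - 1) • pv m F (m - 1)) + (r * p) • ev m F (m - 1) - s • ev m F (m - 1)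
      module
  have hdown : ∀ j, j ≤ m - 1 → ∃ c d : F, c ≠ 0 ∧ c • ev m F (m - 1 - j) + d • pv m F (m - 1 - j) ∈ E' := by
    intro j
    induction j with
    | zero =>
      intro _
      exact ⟨_, _, mul_ne_zero hr hp, hb2⟩
    | succ j ih =>
      intro hj
      obtain ⟨c, d, hc, hcd⟩ := ih (by omega)
      obtain ⟨i, hi⟩ : ∃ i, m - 1 - j = i + 1 := ⟨m - 1 - j - 1, by omega⟩
      have hi' : m - 1 - (j + 1) = i := by omega
      have h2 := hN _ hcd
      rw [mulVec_add, mulVec_smul, mulVec_smul, hi, hGe _ (by omega), pv_succ, hGe _ (by omega)] at h2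
      rw [hi']
      exact ⟨c * k (i + 1), d * k i, mul_ne_zero hc (hk0 _), by rwa [mul_smul, mul_smul]⟩
  have hup : ∀ i, i < m → ev m F i ∈ E' := by
    intro i
    induction i with
    | zero =>
      intro hi
      obtain ⟨c, d, hc, hcd⟩ := hdown (m - 1) le_rfl
      rw [Nat.sub_self, pv_zero, smul_zero, add_zero] at hcd
      have := E'.smul_mem c⁻¹ hcd
      rwa [smul_smul, inv_mul_cancel₀ hc, one_smul] at this
    | succ i ih =>
      intro hi
      obtain ⟨c, d, hc, hcd⟩ := hdown (m - 1 - (i + 1)) (by omega)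
      rw [show m - 1 - (m - 1 - (i + 1)) = i + 1 by omega, pv_succ] at hcd
      have h2 := E'.sub_mem hcd (E'.smul_mem d (ih (by omega)))
      rw [add_sub_cancel_right] at h2
      have := E'.smul_mem c⁻¹ h2
      rwa [smul_smul, inv_mul_cancel₀ hc, one_smul] at this
  have hE'top : ∀ b, b ∈ E' := by
    intro b
    rw [eq_sum_ev b]
    exact E'.sum_mem fun j _ => E'.smul_mem _ (hup j j.2)
  have hmid : ∀ x : F, ((0, x, 0) : V0 m F) ∈ E := by
    intro x
    have h2 := E.smul_mem (x * p⁻¹) (E.sub_mem h1 ((hE' _).1 (hE'top (s • ev m F (m - 1)))))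
    convert h2 using 1
    apply v0ext
    · simp
    · simp [hp]
    · simp
  rw [eq_top_iff]
  intro y _
  have h2 := E.add_mem (E.add_mem (hW y.1) (hmid y.2.1)) ((hE' _).1 (hE'top y.2.2))
  convert h2 using 1
  apply v0ext <;> simp [xw]

end core

/-- the group is everything -/
theorem core (P : Par σ ε) {K : Subgroup (V0 m F ≃ₗ[F] V0 m F)} (hK : K ≤ isom (h0 σ ε m)) (hm : 2 ≤ m) (hm0 : 0 < m)
    {β : F} (hβ : β - σ β = ε⁻¹) (hβ' : σ β ≠ -β) (hu : uR σ ε β m ∈ K) {η : ℕ → (FX σ)ˣ}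
    (hv : nL (ε⁻¹ * (iu η (m - 1) : F)⁻¹) (-1 * (iu η (m - 1) : F)⁻¹)
      (-β * (iu η (m - 1) : F)⁻¹ * (iu η (m - 1) : F)⁻¹) (ll hm0) * mU σ (gL (gJ m F) (iu η))⁻¹ ∈ K)
    (hbase : ∀ y : FX σ, y • SQ (ev m (FX σ) 0) ∈ A0 σ ε K) : SU (h0 σ ε m) ≤ K := by
  have H := h0_skew (m := m) P
  have hη := iu_real (σ := σ) η
  set t : F := (iu η (m - 1) : F) with ht
  have ht0 : t ≠ 0 := Units.ne_zero _
  have hσt : σ t = t := hη _
  have hβ0 : β ≠ 0 := by
    rintro rfl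
    rw [map_zero, sub_zero] at hβ
    exact inv_ne_zero P.z0 hβ.symm
  set p := ε⁻¹ * t⁻¹ with hp
  set r := -1 * t⁻¹ with hr
  set s := -β * t⁻¹ * t⁻¹ with hs
  have hp0 : p ≠ 0 := mul_ne_zero (inv_ne_zero P.z0) (inv_ne_zero ht0)
  have hr0 : r ≠ 0 := mul_ne_zero (neg_ne_zero.2 one_ne_zero) (inv_ne_zero ht0)
  have hs0 : s ≠ 0 := mul_ne_zero (mul_ne_zero (neg_ne_zero.2 hβ0) (inv_ne_zero ht0)) (inv_ne_zero ht0)
  have hreal : ∀ (w : Fin m → F), (∀ i, σ (w i) = w i) → xw w ∈ SS (h0 σ ε m) K := by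
    intro w hw
    rw [xw_mem]
    intro c hc
    exact real_full P.inv hm0 hu hv hbase w hw hc
  have hy1 := SS_conj hK hv (hreal (ev m F (m - 1)) (ev_real _))
  rw [U3_e hm hm0 hη] at hy1
  have hy2 := SS_conj hK hv hy1
  rw [U3_ee hm hm0 hη] at hy2
  set κ : F := ((iu η (m - 1) * (iu η (m - 2))⁻¹ : Fˣ) : F) with hκ
  have hκ0 : κ ≠ 0 := Units.ne_zero _
  have hκσ : σ κ = κ := by
    rw [hκ, Units.val_mul, map_mul, hη, Units.val_inv_eq_inv_val, map_inv₀, hη]
  set rr : V0 m F := (ev m F (m - 1), 2 * p, (2 * s + r * p) • ev m F (m - 1) + (s * κ) • ev m F (m - 2)) with hrr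
  have hφ : ∀ i, i < m → h0 σ ε m (xw (ev m F i)) rr =
      σ (2 * s + r * p) * (ev m F (m - 1) ⬝ᵥ ev m F i) + σ (s * κ) * (ev m F (m - 2) ⬝ᵥ ev m F i) := by
    intro i hi
    rw [h_xw, hrr]
    simp only [cv_add, cv_smul, cv_ev, dotProduct_add, dotProduct_smul, smul_eq_mul]
    rw [dotProduct_comm (ev m F i), dotProduct_comm (ev m F i)]
  have hev : ∀ i j, j < m → ev m F i ⬝ᵥ ev m F j = if j = i then 1 else 0 := by
    intro i j hj
    rw [dot_ev hj, ev]
  have hφ1 : h0 σ ε m (xw (ev m F (m - 1))) rr = σ (2 * s + r * p) := by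
    rw [hφ _ (by omega), hev _ _ (by omega), hev _ _ (by omega), if_pos rfl, if_neg (by omega)]
    ring
  have hφ2 : h0 σ ε m (xw (ev m F (m - 2))) rr = σ (s * κ) := by
    rw [hφ _ (by omega), hev _ _ (by omega), hev _ _ (by omega), if_pos rfl, if_neg (by omega)]
    ring
  have hφ3 : ∀ i, i < m - 2 → h0 σ ε m (xw (ev m F i)) rr = 0 := by
    intro i hi
    rw [hφ _ (by omega), hev _ _ (by omega), hev _ _ (by omega), if_neg (by omega), if_neg (by omega)]
    ring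
  have hsκ : s * κ ≠ 0 := mul_ne_zero hs0 hκ0
  have hA : ∀ B : Matrix (Fin m) (Fin m) F, cs σ B = B → B ∈ AM σ ε K := by
    intro B hB
    have hθ : ε * β + σ (ε * β) = 1 := by
      rw [map_mul, P.σz]
      have : ε * (β - σ β) = 1 := by rw [hβ, mul_inv_cancel₀ P.z0]
      linear_combination this
    refine AM_full P hK hm hreal hy2 hφ3 ?_ ?_ hθ hB
    · rw [hφ2]
      exact fun h => hsκ (H.inj h)
    · rw [hφ1, hφ2, ← map_div₀, P.inv]
      intro h
      -- (2 s + r p) / (s κ) real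
      have e1 : (2 * s + r * p) / (s * κ) = (2 + ε⁻¹ * β⁻¹) * κ⁻¹ := by
        rw [hs, hr, hp]
        have := P.z0
        field_simp
        ring
      rw [e1, map_mul, map_inv₀, hκσ] at h
      have h2 := mul_right_cancel₀ (inv_ne_zero hκ0) h
      rw [map_add, map_mul, σinv P, map_ofNat] at h2
      have h3 : ε⁻¹ * β⁻¹ = -ε⁻¹ * σ β⁻¹ := add_left_cancel h2
      have h4 : β⁻¹ = - σ β⁻¹ := by
        apply mul_left_cancel₀ (inv_ne_zero P.z0)
        linear_combination h3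
      rw [map_inv₀, ← inv_neg] at h4
      have h5 := inv_injective h4
      apply hβ'
      linear_combination h5
  have hsp : ∀ E : Submodule F (V0 m F), (∀ y ∈ SS (h0 σ ε m) K, y ∈ E) → E = ⊤ := by
    intro E hE
    have h1 : Submodule.span F (SS (h0 σ ε m) K) = ⊤ := by
      apply span_all hm0 hη hm hp0 hr0 hs0 (fun w => Submodule.subset_span (xw_all P hK hA w))
      intro x hx
      have h2 : Submodule.span F (SS (h0 σ ε m) K) ≤ (Submodule.span F (SS (h0 σ ε m) K)).comap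
          ((nL p r s (ll hm0) * mU σ (gL (gJ m F) (iu η))⁻¹ : V0 m F ≃ₗ[F] V0 m F) : V0 m F →ₗ[F] V0 m F) := by
        rw [Submodule.span_le]
        intro y hy
        exact Submodule.subset_span (SS_conj hK hv hy)
      exact h2 hx
    rw [eq_top_iff, ← h1]
    exact Submodule.span_le.2 hE
  have hall := SS_all P hK hm hA hsp hy1 (by
    show s • ev m F (m - 1) ≠ 0
    apply smul_ne_zero hs0
    intro h
    have := congrFun h (ll hm0)
    simp [ev, ll] at this)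
  have hfr : finrank F (V0 m F) = m + (1 + m) := by
    rw [finrank_prod, finrank_prod, finrank_fin_fun, finrank_self]
  apply H6.SUGenB.SU_le_of_tr H (by omega) (Or.inl (by omega))
  intro v hv c hc
  exact (hall v hv).2 c hc

end H6.UnR
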