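import Cfsg.Agent.Lib.H6.UnF

/-!
The base step for `m = 2`, characteristic two.
-/
set_option autoImplicit false
set_option linter.unusedSectionVars false
set_option linter.unusedVariables false

namespace H6.UnR

open Matrix Module H95.UBasic H57.Polar H43.SUTwoB H6.SpReg

section comm

variable {F V : Type*} [Field F] [AddCommGroup V] [Module F V] {σ : F →+* F} {h : V →ₗ[F] V →ₛₗ[σ] F}
  {K : Subgroup (V ≃ₗ[F] V)}

theorem sieg_comm (H : Sk h) {v w w' : V} {a a' : F} (h1 : Good h v w a) (h2 : Good h v w' a')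
    (k1 : sieg h v w a ∈ K) (k2 : sieg h v w' a' ∈ K) : rf h v (h w' w - h w w') ∈ K := by
  have e1 := sieg_mul H h1 h2
  have e2 := sieg_mul H h2 h1
  have g2 := Good.add H h2 h1
  have ht : σ (h w' w - h w w') = h w' w - h w w' := by
    rw [map_sub, H.skew w w', map_neg, H.inv]
    ring
  have g0 : Good h v 0 (h w' w - h w w') := good_tr h1.1 ht
  have e3 := sieg_mul H g0 g2
  have e4 : sieg h v w a * sieg h v w' a' * (sieg h v w' a' * sieg h v w a)⁻¹ = rf h v (h w' w - h w w') := by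
    rw [← H43.SUTwoA.sieg_zero_eq h1.1 ht, mul_inv_eq_iff_eq_mul, e2, e3, e1]
    congr 1
    · abel
    · rw [map_zero]; ring
  rw [← e4]
  exact K.mul_mem (K.mul_mem k1 k2) (K.inv_mem (K.mul_mem k2 k1))

end comm

variable {F : Type*} [Field F] {m : ℕ} {σ : F →+* F} {ε : F}

theorem conj_vw (hσ : ∀ x, σ (σ x) = x) (g : Matrix (Fin m) (Fin m) F) (v w : Fin m → F) :
    g * vw σ v w * cs σ g = vw σ (g *ᵥ v) (g *ᵥ w) := by
  rw [vw, mul_vecMulVec, vecMulVec_mul, vw, cv_mulVec]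
  congr 1
  rw [cs, vecMul_transpose]

theorem vw_ev (i : ℕ) (v : Fin m → F) : vw σ v (ev m F i) = vecMulVec v (ev m F i) := by
  rw [vw, cv_ev]

theorem vw_ev_SQ (i : ℕ) : vw σ (ev m F i) (ev m F i) = SQ (ev m F i) := vw_ev _ _

theorem gJ_ev' {k : ℕ} (hk : k < m) : (gJ m F : Matrix (Fin m) (Fin m) F) *ᵥ ev m F k = ev m F k + pv m F k := by
  rw [coe_gJ, add_mulVec, one_mulVec, NS_ev hk]

section base

variable (P : Par σ (1 : F)) (h2 : (2 : F) = 0)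

include P h2

theorem neg_eq' (x : F) : -x = x := by linear_combination (-x) * h2

theorem gJ_sq : gJ 2 F * gJ 2 F = 1 := by
  apply Units.ext
  rw [Units.val_mul, coe_gJ, Units.val_one]
  ext i j
  fin_cases i <;> fin_cases j <;> simp [Matrix.mul_apply, Fin.sum_univ_two, NS, Matrix.one_apply]
  linear_combination h2

theorem e_sum : ev 2 F 1 + (ev 2 F 1 + ev 2 F 0) = ev 2 F 0 := by
  have : ev 2 F 1 + (ev 2 F 1 + ev 2 F 0) = (2 : F) • ev 2 F 1 + ev 2 F 0 := by module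
  rw [this, h2, zero_smul, zero_add]

/-- the square of the regular unipotent -/
def B2 (σ : F →+* F) (β : F) : Matrix (Fin 2) (Fin 2) F :=
  β • SQ (ev 2 F 1) + β • vw σ (ev 2 F 1 + ev 2 F 0) (ev 2 F 1 + ev 2 F 0) + vw σ (ev 2 F 1) (ev 2 F 1 + ev 2 F 0)

theorem uR_sq (β : F) : uR σ 1 β 2 * uR σ 1 β 2 = nU σ 1 (ev 2 F 0) (B2 σ β) := by
  have hg := gJ_ev' (F := F) (m := 2) (k := 1) (by norm_num)
  rw [pv_succ] at hg
  rw [uR]
  calc nU σ 1 (ev 2 F (2 - 1)) (β • SQ (ev 2 F (2 - 1))) * mU σ (gJ 2 F) *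
        (nU σ 1 (ev 2 F (2 - 1)) (β • SQ (ev 2 F (2 - 1))) * mU σ (gJ 2 F))
      = nU σ 1 (ev 2 F 1) (β • SQ (ev 2 F 1)) * (mU σ (gJ 2 F) * nU σ 1 (ev 2 F 1) (β • SQ (ev 2 F 1))) * mU σ (gJ 2 F) := by
        simp only [mul_assoc]
    _ = nU σ 1 (ev 2 F 1) (β • SQ (ev 2 F 1)) * nU σ 1 ((gJ 2 F : Matrix (Fin 2) (Fin 2) F) *ᵥ ev 2 F 1)
        ((gJ 2 F : Matrix (Fin 2) (Fin 2) F) * (β • SQ (ev 2 F 1)) * cs σ (gJ 2 F : Matrix (Fin 2) (Fin 2) F)) *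
        (mU σ (gJ 2 F) * mU σ (gJ 2 F)) := by
        rw [mU_nU P.inv]; simp only [mul_assoc]
    _ = _ := by
        rw [mU_mul, gJ_sq P h2, mU_one, mul_one, nU_mul, hg, e_sum P h2, ← vw_ev_SQ (σ := σ), Matrix.mul_smul, Matrix.smul_mul,
          conj_vw P.inv, hg, inv_one, one_smul, B2, vw_ev_SQ]

theorem uR_four (β : F) : uR σ 1 β 2 * uR σ 1 β 2 * (uR σ 1 β 2 * uR σ 1 β 2) = nU σ 1 0 (SQ (ev 2 F 0)) := by
  rw [uR_sq P h2, nU_mul]
  have e1 : ev 2 F 0 + ev 2 F 0 = 0 := by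
    have : ev 2 F 0 + ev 2 F 0 = (2 : F) • ev 2 F 0 := by module
    rw [this, h2, zero_smul]
  have e2 : B2 σ β + B2 σ β = 0 := by
    have : B2 σ β + B2 σ β = (2 : F) • B2 σ β := by module
    rw [this, h2, zero_smul]
  rw [e1, e2, zero_add, inv_one, one_smul, vw_ev_SQ]

omit P h2 in
theorem mulVec2 (v w : Fin 2 → F) (b0 b1 : F) :
    vw σ v w *ᵥ (b0 • ev 2 F 0 + b1 • ev 2 F 1) = (b0 * σ (w 0) + b1 * σ (w 1)) • v := by
  rw [vw_mulVec]
  congr 1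
  simp [dotProduct, Fin.sum_univ_two, cv, ev]

section QQ

variable {V : Type*} [AddCommGroup V] [Module F V] {h : V →ₗ[F] V →ₛₗ[σ] F} {K : Subgroup (V ≃ₗ[F] V)}

omit P h2

/-- Siegel elements in the group -/
def QQ (h : V →ₗ[F] V →ₛₗ[σ] F) (K : Subgroup (V ≃ₗ[F] V)) (v w : V) : Prop :=
  ∃ a, Good h v w a ∧ sieg h v w a ∈ K

theorem QQ.add (H : Sk h) {v w w' : V} (h1 : QQ h K v w) (h2 : QQ h K v w') : QQ h K v (w + w') := by
  obtain ⟨a, g1, k1⟩ := h1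
  obtain ⟨a', g2, k2⟩ := h2
  refine ⟨_, Good.add H g1 g2, ?_⟩
  rw [← sieg_mul H g1 g2]
  exact K.mul_mem k1 k2

theorem QQ.neg (H : Sk h) {v w : V} (h1 : QQ h K v w) : QQ h K v (-w) := by
  obtain ⟨a, g1, k1⟩ := h1
  refine ⟨_, H43.SUTwoA.good_inv H g1, ?_⟩
  rw [← H43.SUTwoA.sieg_inv H g1]
  exact K.inv_mem k1

theorem QQ.conj (hK : K ≤ isom h) {v w : V} (h1 : QQ h K v w) {g : V ≃ₗ[F] V} (hg : g ∈ K) (hgv : g v = v) :
    QQ h K v (g w) := by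
  obtain ⟨a, g1, k1⟩ := h1
  have h3 := g1.map (hK hg)
  rw [hgv] at h3
  refine ⟨a, h3, ?_⟩
  have := sieg_conj (hK hg) v w a
  rw [hgv] at this
  rw [← this]
  exact K.mul_mem (K.mul_mem hg k1) (K.inv_mem hg)

end QQ

theorem base22 [Finite F] {K : Subgroup (V0 2 F ≃ₗ[F] V0 2 F)} (hK : K ≤ isom (h0 σ 1 2)) {β : F}
    (hβ : β - σ β = 1) (hu : uR σ 1 β 2 ∈ K) {p r s : F} (hp : p = 1) (hr : r = 1) (hs : s = β)
    (hv : nL p r s (ll two_pos) * mU σ (gL (gJ 2 F) (iu (σ := σ) fun _ => 1))⁻¹ ∈ K) {ζ : (FX σ)ˣ}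
    (hζ : ∀ y : (FX σ)ˣ, y ∈ Submonoid.powers ζ) (hζA : (ζ : FX σ) • SQ (ev 2 (FX σ) 0) ∈ A0 σ 1 K) (y : FX σ) :
    y • SQ (ev 2 (FX σ) 0) ∈ A0 σ 1 K := by
  haveI : Finite (FX σ) := Finite.of_injective _ (FX σ).subtype_injective
  haveI : Fintype (FX σ) := Fintype.ofFinite _
  subst hp hr hs
  have H := h0_skew (m := 2) P
  have hS := H57.PolarSU.toSk H
  have hη := iu_real (σ := σ) (fun _ => (1 : (FX σ)ˣ))
  have hng := neg_eq' P h2
  set L := lineS (A0 σ 1 K) (SQ (ev 2 (FX σ) 0)) with hL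
  have memL : ∀ d : FX σ, d ∈ L ↔ nU σ 1 0 ((d : F) • SQ (ev 2 F 0)) ∈ K := by
    intro d
    rw [hL, mem_lineS, mem_A0, mem_AM]
    have : (d • SQ (ev 2 (FX σ) 0)).map (io σ) = (d : F) • SQ (ev 2 F 0) := by
      ext i j
      rw [map_apply, Matrix.smul_apply, Matrix.smul_apply, SQ_apply, SQ_apply]
      fin_cases i <;> fin_cases j <;> simp [ev]
    rw [this]
  have h1L : (1 : FX σ) ∈ L := by
    rw [memL]
    have := K.mul_mem (K.mul_mem hu hu) (K.mul_mem hu hu)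
    rw [uR_four P h2] at this
    simpa using this
  have up := A0_up P.inv hu
  have low := A0_low (ε := (1 : F)) P.inv two_pos hv
  have f0 : (gL (gJ 2 (FX σ)) (fun _ => 1) : Matrix (Fin 2) (Fin 2) (FX σ)) *ᵥ ev 2 (FX σ) 0 =
      ev 2 (FX σ) 0 + ev 2 (FX σ) 1 := by
    rw [gL_ev coe_gJ _ (by norm_num)]
    simp
  have g1 : (gJ 2 (FX σ) : Matrix (Fin 2) (Fin 2) (FX σ)) *ᵥ ev 2 (FX σ) 1 = ev 2 (FX σ) 1 + ev 2 (FX σ) 0 := by
    rw [gJ_ev' (by norm_num), pv_succ]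
  have g0 : (gJ 2 (FX σ) : Matrix (Fin 2) (Fin 2) (FX σ)) *ᵥ ev 2 (FX σ) 0 = ev 2 (FX σ) 0 := by
    rw [gJ_ev' (by norm_num), pv_zero, add_zero]
  have h2K : (2 : FX σ) = 0 := Subtype.ext ((map_ofNat (io σ) 2).trans h2)
  have hLa : ∀ d ∈ L, d • SQ (ev 2 (FX σ) 0 + ev 2 (FX σ) 1) ∈ A0 σ 1 K := by
    intro d hd
    have := low _ hd ((lst_SQ (k := 1) (by norm_num) (ev_mem (by norm_num))).smul d)
    rwa [Matrix.mul_smul, Matrix.smul_mul, conj_SQ, f0] at this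
  have hLb : ∀ d ∈ L, d • SQ (ev 2 (FX σ) 1) ∈ A0 σ 1 K := by
    intro d hd
    have := up _ (hLa d hd)
    rw [Matrix.mul_smul, Matrix.smul_mul, conj_SQ, mulVec_add, g0, g1] at this
    have e : ev 2 (FX σ) 0 + (ev 2 (FX σ) 1 + ev 2 (FX σ) 0) = ev 2 (FX σ) 1 := by
      have : ev 2 (FX σ) 0 + (ev 2 (FX σ) 1 + ev 2 (FX σ) 0) = (2 : FX σ) • ev 2 (FX σ) 0 + ev 2 (FX σ) 1 := by module
      rw [this, h2K, zero_smul, zero_add]
    rwa [e] at this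
  have hLc : ∀ d ∈ L, nU σ 1 0 ((d : F) • (vw σ (ev 2 F 0) (ev 2 F 1) + vw σ (ev 2 F 1) (ev 2 F 0))) ∈ K := by
    intro d hd
    have h3 := (A0 σ 1 K).sub_mem ((A0 σ 1 K).sub_mem (hLa d hd) hd) (hLb d hd)
    rw [mem_A0, mem_AM] at h3
    convert h3 using 2
    ext i j
    rw [map_apply]
    fin_cases i <;> fin_cases j <;> simp [vw_apply, SQ_apply, ev]
  set G : Matrix (Fin 2) (Fin 2) F := (((gL (gJ 2 F) (iu (σ := σ) fun _ => 1))⁻¹ : (Matrix (Fin 2) (Fin 2) F)ˣ) :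
    Matrix (Fin 2) (Fin 2) F) with hG
  have hG1 : G *ᵥ ev 2 F 1 = ev 2 F 1 := gLinv_last
  have hG0 : G *ᵥ (ev 2 F 0 + ev 2 F 1) = ev 2 F 0 := by
    have h3 := gL_ev (F := F) (n := 2) coe_gJ (iu (σ := σ) fun _ => 1) (i := 0) (by norm_num)
    have h4 : ((iu (σ := σ) (fun _ => 1) (0 + 1) * (iu (σ := σ) (fun _ => 1) 0)⁻¹ : Fˣ) : F) = 1 := by simp [iu]
    rw [h4, one_smul, zero_add] at h3
    rw [← h3, mulVec_mulVec, hG, Units.inv_mul, one_mulVec]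
  have hGt0 : ((gL (gJ 2 F) (iu (σ := σ) fun _ => 1) : (Matrix (Fin 2) (Fin 2) F)ˣ) : Matrix (Fin 2) (Fin 2) F)ᵀ *ᵥ ev 2 F 0 =
      ev 2 F 0 := by
    rw [gLt_ev _ (by norm_num), pv_zero, smul_zero, add_zero]
  have hGt1 : ((gL (gJ 2 F) (iu (σ := σ) fun _ => 1) : (Matrix (Fin 2) (Fin 2) F)ˣ) : Matrix (Fin 2) (Fin 2) F)ᵀ *ᵥ ev 2 F 1 =
      ev 2 F 1 + ev 2 F 0 := by
    rw [gLt_ev _ (by norm_num), pv_succ]
    simp [iu]
  -- the vectors
  set eh : V0 2 F := xw (ev 2 F 0 + ev 2 F 1) with heh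
  set x1 : V0 2 F := (ev 2 F 1, 1, σ s • ev 2 F 0 + σ s • ev 2 F 1) with hx1
  set U3 := nL (1 : F) 1 s (ll two_pos) * mU σ (gL (gJ 2 F) (iu (σ := σ) fun _ => 1))⁻¹ with hU3
  have hee : ev 2 F 1 + ev 2 F 1 = 0 := by
    have : ev 2 F 1 + ev 2 F 1 = (2 : F) • ev 2 F 1 := by module
    rw [this, h2, zero_smul]
  have hee0 : ev 2 F 0 + ev 2 F 0 = 0 := by
    have : ev 2 F 0 + ev 2 F 0 = (2 : F) • ev 2 F 0 := by module
    rw [this, h2, zero_smul]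
  have hU3e : U3 eh = xw (ev 2 F 0) := by
    rw [hU3, U3_apply two_pos hη, heh]
    apply v0ext
    · exact hG0
    · show (0 : F) + 1 * (G *ᵥ (ev 2 F 0 + ev 2 F 1)) (ll two_pos) = 0
      rw [hG0]
      simp [ev, ll]
    · show _ *ᵥ (0 : Fin 2 → F) + (1 * (0 : F) + s * (G *ᵥ (ev 2 F 0 + ev 2 F 1)) (ll two_pos)) • _ = 0
      rw [hG0]
      simp [ev, ll]
  have hU3x : U3 x1 = xw (ev 2 F 1) := by
    rw [hU3, U3_apply two_pos hη, hx1]
    apply v0ext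
    · exact hG1
    · show (1 : F) + 1 * (G *ᵥ (ev 2 F 1)) (ll two_pos) = 0
      rw [hG1]
      simp [ev, ll]
      linear_combination h2
    · show _ *ᵥ (σ s • ev 2 F 0 + σ s • ev 2 F 1) + (1 * (1 : F) + s * (G *ᵥ (ev 2 F 1)) (ll two_pos)) • ev 2 F (2 - 1) = 0
      rw [hG1, mulVec_add, mulVec_smul, mulVec_smul, hGt0, hGt1]
      have e1 : ev 2 F 1 (ll two_pos) = (1 : F) := by simp [ev, ll]
      rw [e1]
      have e2 : σ s • ev 2 F 0 + σ s • (ev 2 F 1 + ev 2 F 0) + (1 * (1 : F) + s * 1) • ev 2 F (2 - 1) =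
          (2 * σ s) • ev 2 F 0 + (σ s + 1 + s) • ev 2 F 1 := by
        rw [show (2 : ℕ) - 1 = 1 from rfl]
        module
      rw [e2, h2, show σ s + 1 + s = 0 by linear_combination (-1 : F) * hβ + s * h2 + h2 - h2, zero_mul, zero_smul, zero_smul, add_zero]
  -- Siegel elements
  have hQ1 : ∀ d ∈ L, QQ (h0 σ 1 2) K eh (xw ((d : F) • ev 2 F 1)) := by
    intro d hd
    have hdσ : σ (d : F) = d := fx_val d
    have g : Good (h0 σ 1 2) eh (xw ((d : F) • ev 2 F 1)) 0 :=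
      ⟨h_xw_xw _ _, h_xw_xw _ _, h_xw_xw _ _, by rw [h_xw_xw, map_zero, sub_zero]⟩
    refine ⟨0, g, ?_⟩
    have : sieg (h0 σ 1 2) eh (xw ((d : F) • ev 2 F 1)) 0 =
        nU σ 1 0 ((d : F) • (vw σ (ev 2 F 0) (ev 2 F 1) + vw σ (ev 2 F 1) (ev 2 F 0))) := by
      apply LinearEquiv.ext
      intro x
      rw [sieg_apply g, h_xw', heh, h_xw', nU_apply, zero_mul, zero_smul, add_zero, cv_smul, cv_add, hdσ]
      apply v0ext
      · show x.1 + (-(x.2.2 ⬝ᵥ (cv σ (ev 2 F 0) + cv σ (ev 2 F 1)))) • ((d : F) • ev 2 F 1) +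
          (-(x.2.2 ⬝ᵥ ((d : F) • cv σ (ev 2 F 1)))) • (ev 2 F 0 + ev 2 F 1) = x.1 + x.2.1 • (0 : Fin 2 → F) + _
        rw [smul_mulVec, add_mulVec, vw_mulVec, vw_mulVec, dotProduct_add, dotProduct_smul]
        generalize x.2.2 ⬝ᵥ cv σ (ev 2 F 0) = B0
        generalize x.2.2 ⬝ᵥ cv σ (ev 2 F 1) = B1
        rw [smul_eq_mul, ← sub_eq_zero]
        have e : x.1 + (-(B0 + B1)) • ((d : F) • ev 2 F 1) + (-((d : F) * B1)) • (ev 2 F 0 + ev 2 F 1) -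
            (x.1 + x.2.1 • (0 : Fin 2 → F) + (d : F) • (B1 • ev 2 F 0 + B0 • ev 2 F 1)) =
            (2 : F) • ((-((d : F) * B1)) • ev 2 F 0 + (-((d : F) * (B0 + B1))) • ev 2 F 1) := by module
        rw [e, h2, zero_smul]
      · simp [xw, cv_zero]
      · simp [xw]
    rw [this]
    exact hLc d hd
  have hU3K : U3 ∈ K := hv
  have hx1' : U3⁻¹ (xw (ev 2 F 1)) = x1 := by
    rw [← hU3x]; exact U3.symm_apply_apply x1
  have htau : rf (h0 σ 1 2) x1 1 ∈ K := by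
    have h3 : rf (h0 σ 1 2) (xw (ev 2 F 1)) 1 ∈ K := by
      rw [rf_xw _ (map_one σ)]
      have h4 := hLb 1 h1L
      have e : ((1 : FX σ) • SQ (ev 2 (FX σ) 1)).map (io σ) = (1 : F) • vw σ (ev 2 F 1) (ev 2 F 1) := by
        ext i j
        rw [map_apply]
        fin_cases i <;> fin_cases j <;> simp [vw_apply, SQ_apply, ev]
      rw [mem_A0, e] at h4
      exact (AM σ 1 K).neg_mem h4
    have h4 := rf_conj (h := h0 σ 1 2) (xw (ev 2 F 1)) 1 U3⁻¹ ((isom _).inv_mem (hK hU3K))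
    rw [hx1', inv_inv] at h4
    rw [← h4]
    exact K.mul_mem (K.mul_mem (K.inv_mem hU3K) h3) hU3K
  have hx1i : h0 σ 1 2 x1 x1 = 0 := by
    rw [← hK hU3K, hU3x]
    exact h_xw_xw _ _
  have hcvx : cv σ x1.2.2 = s • ev 2 F 0 + s • ev 2 F 1 := by
    rw [hx1]
    show cv σ (σ s • ev 2 F 0 + σ s • ev 2 F 1) = _
    rw [cv_add, cv_smul, cv_smul, P.inv, cv_ev, cv_ev]
  have d00 : ev 2 F 0 ⬝ᵥ ev 2 F 0 = (1 : F) := by rw [dot_ev (by norm_num)]; simp [ev]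
  have d01 : ev 2 F 0 ⬝ᵥ ev 2 F 1 = (0 : F) := by rw [dot_ev (by norm_num)]; simp [ev]
  have d10 : ev 2 F 1 ⬝ᵥ ev 2 F 0 = (0 : F) := by rw [dot_ev (by norm_num)]; simp [ev]
  have d11 : ev 2 F 1 ⬝ᵥ ev 2 F 1 = (1 : F) := by rw [dot_ev (by norm_num)]; simp [ev]
  have hex : h0 σ 1 2 eh x1 = 0 := by
    rw [heh, h_xw, hcvx]
    simp only [add_dotProduct, dotProduct_add, dotProduct_smul, smul_eq_mul, d00, d01, d10, d11]
    linear_combination s * h2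
  have hex1 : h0 σ 1 2 (xw (ev 2 F 1)) x1 = s := by
    rw [h_xw, hcvx]
    simp only [add_dotProduct, dotProduct_add, dotProduct_smul, smul_eq_mul, d00, d01, d10, d11]
    ring
  have hgx := tr_good (c := (1 : F)) hx1i (map_one σ)
  have htau1 : rf (h0 σ 1 2) x1 1 eh = eh := by
    rw [rf_apply hgx, hex, mul_zero, zero_smul, add_zero]
  have hQ2 : ∀ d ∈ L, QQ (h0 σ 1 2) K eh (((d : F) * s) • x1) := by
    intro d hd
    have q1 := hQ1 d hd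
    have q2 := q1.conj hK htau htau1
    have q3 := q2.add hS (q1.neg hS)
    convert q3 using 1
    rw [rf_apply hgx, xw_smul, map_smul, LinearMap.smul_apply, hex1, one_mul, smul_eq_mul]
    abel
  have ha2K := K.mul_mem hu hu
  rw [uR_sq P h2] at ha2K
  have ha2e : nU σ 1 (ev 2 F 0) (B2 σ s) eh = eh := by
    rw [nU_apply, heh]
    apply v0ext
    · simp [xw]
    · simp [xw]
    · rfl
  have hQ3 : ∀ d ∈ L, QQ (h0 σ 1 2) K eh (((d : F) * s) • nU σ 1 (ev 2 F 0) (B2 σ s) x1) := by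
    intro d hd
    have := (hQ2 d hd).conj hK ha2K ha2e
    rwa [map_smul] at this
  have hB2 : B2 σ s *ᵥ x1.2.2 = (s * σ s) • ev 2 F 1 := by
    have hx2 : x1.2.2 = σ s • ev 2 F 0 + σ s • ev 2 F 1 := rfl
    have v0 : ev 2 F 0 0 = (1 : F) := by simp [ev]
    have v01 : ev 2 F 0 1 = (0 : F) := by simp [ev]
    have v10 : ev 2 F 1 0 = (0 : F) := by simp [ev]
    have v11 : ev 2 F 1 1 = (1 : F) := by simp [ev]
    rw [B2, ← vw_ev_SQ (σ := σ), add_mulVec, add_mulVec, smul_mulVec, smul_mulVec, hx2, mulVec2, mulVec2, mulVec2]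
    simp only [Pi.add_apply, v0, v01, v10, v11, map_zero, map_one, zero_add, add_zero, mul_one, mul_zero]
    have e : s • σ s • ev 2 F 1 + s • (σ s + σ s) • (ev 2 F 1 + ev 2 F 0) + (σ s + σ s) • ev 2 F 1 =
        (s * σ s) • ev 2 F 1 + (2 : F) • ((s * σ s) • (ev 2 F 1 + ev 2 F 0) + σ s • ev 2 F 1) := by module
    rw [e, h2, zero_smul, add_zero]
  set N : F := s * σ s with hN
  have hNσ : σ N = N := by rw [hN, map_mul, P.inv, mul_comm]
  have hN0 : N ≠ 0 := by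
    intro h
    rcases mul_eq_zero.1 h with h | h
    · rw [h, map_zero, sub_zero] at hβ; exact zero_ne_one hβ
    · rw [H.inj h, map_zero, sub_zero] at hβ; exact zero_ne_one hβ
  have ha2x : nU σ 1 (ev 2 F 0) (B2 σ s) x1 =
      (ev 2 F 1 + ev 2 F 0 + N • ev 2 F 1, 1 + σ s, σ s • ev 2 F 0 + σ s • ev 2 F 1) := by
    rw [nU_apply]
    apply v0ext
    · show ev 2 F 1 + (1 : F) • ev 2 F 0 + B2 σ s *ᵥ x1.2.2 = _
      rw [hB2, one_smul]
    · show (1 : F) + 1⁻¹ * ((σ s • ev 2 F 0 + σ s • ev 2 F 1) ⬝ᵥ cv σ (ev 2 F 0)) = 1 + σ s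
      rw [cv_ev, add_dotProduct, smul_dotProduct, smul_dotProduct, d00, d10]
      simp
    · rfl
  have hκ : h0 σ 1 2 (nU σ 1 (ev 2 F 0) (B2 σ s) x1) x1 = 1 + s * N + 2 * s := by
    rw [h0_apply, hcvx, ha2x]
    show (ev 2 F 1 + ev 2 F 0 + N • ev 2 F 1) ⬝ᵥ (s • ev 2 F 0 + s • ev 2 F 1) -
      (σ s • ev 2 F 0 + σ s • ev 2 F 1) ⬝ᵥ cv σ (ev 2 F 1) + 1 * ((1 + σ s) * σ 1) = _
    simp only [add_dotProduct, dotProduct_add, dotProduct_smul, smul_dotProduct, smul_eq_mul, d00, d01, d10, d11, cv_ev,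
      map_one]
    ring
  have hLL : ∀ d ∈ L, ∀ d' ∈ L, nU σ 1 0 (((d : F) * d' * N * N) • SQ (ev 2 F 0)) ∈ K := by
    intro d hd d' hd'
    have hdσ : σ (d : F) = d := fx_val d
    have hdσ' : σ (d' : F) = d' := fx_val d'
    obtain ⟨a, q1, k1⟩ := hQ2 d hd
    obtain ⟨a', q2, k2⟩ := hQ3 d' hd'
    have h3 := sieg_comm hS q1 q2 k1 k2
    have e1 : h0 σ 1 2 (((d' : F) * s) • nU σ 1 (ev 2 F 0) (B2 σ s) x1) (((d : F) * s) • x1) =
        d * d' * N * (1 + s * N + 2 * s) := by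
      simp only [map_smul, LinearMap.smul_apply, map_smulₛₗ, smul_eq_mul, hκ, map_mul, hdσ]
      rw [hN]; ring
    have e2 : h0 σ 1 2 (((d : F) * s) • x1) (((d' : F) * s) • nU σ 1 (ev 2 F 0) (B2 σ s) x1) =
        -(d * d' * N * (1 + σ s * N + 2 * σ s)) := by
      rw [H.skew, e1]
      simp only [map_mul, map_add, map_one, map_ofNat, hdσ, hdσ', hNσ]
    rw [e1, e2] at h3
    have e3 : (d : F) * d' * N * (1 + s * N + 2 * s) - -(d * d' * N * (1 + σ s * N + 2 * σ s)) = d * d' * N * N := by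
      linear_combination ((d : F) * d' * N * N) * hβ + (d * d' * N * (1 + s + σ s + N * σ s)) * h2
    rw [e3] at h3
    have h4 := rf_conj (h := h0 σ 1 2) eh (d * d' * N * N) U3 (hK hU3K)
    rw [hU3e] at h4
    have h5 : rf (h0 σ 1 2) (xw (ev 2 F 0)) (d * d' * N * N) ∈ K := by
      rw [← h4]
      exact K.mul_mem (K.mul_mem hU3K h3) (K.inv_mem hU3K)
    rw [rf_xw _ (by simp only [map_mul, hdσ, hdσ', hNσ]), ← nU_inv0, vw_ev_SQ] at h5
    have := K.inv_mem h5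
    rwa [inv_inv] at this
  set N0 : FX σ := ⟨N, hNσ⟩ with hN0'
  have hN00 : N0 ≠ 0 := fun h => hN0 (congrArg Subtype.val h)
  have hmul : ∀ d' ∈ L, d' * (N0 * N0) ∈ mulR L := by
    intro d' hd'
    rw [mem_mulR]
    intro d hd
    rw [memL]
    have := hLL d hd d' hd'
    convert this using 3
    show (d' : F) * (N * N) * d = d * d' * N * N
    ring
  have hζL : (ζ : FX σ) ∈ L := by rw [hL, mem_lineS]; exact hζA
  have m1 := hmul 1 h1L
  rw [one_mul] at m1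
  have m2 := (mulR L).mul_mem (hmul _ hζL) (subring_inv _ m1 (mul_ne_zero hN00 hN00))
  rw [mul_inv_cancel_right₀ (mul_ne_zero hN00 hN00)] at m2
  have htop := subring_top hζ (mulR L) ((mulR L).pow_mem m2 2)
  exact top_of_mulR htop (A := L) h1L one_ne_zero y

end base

end H6.UnR
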