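import Cfsg.Agent.Lib.H6.UnG

/-!
Determinants, the second generator, regularity.
-/
set_option autoImplicit false
set_option linter.unusedSectionVars false
set_option linter.unusedVariables false

namespace H6.UnR

open Matrix Module H95.UBasic H57.Polar H43.SUTwoB H6.SpReg

variable {F : Type*} [Field F] {m : ℕ} {σ : F →+* F} {ε : F}

theorem conj_up (hσ : ∀ x, σ (σ x) = x) (hm : 2 ≤ m) (β l : F) :
    nU σ ε 0 (l • vw σ (ev m F 0) (ev m F 1) + σ l • vw σ (ev m F 1) (ev m F 0)) * uR σ ε β m *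
      (nU σ ε 0 (l • vw σ (ev m F 0) (ev m F 1) + σ l • vw σ (ev m F 1) (ev m F 0)))⁻¹ =
      nU σ ε 0 ((-(l + σ l)) • SQ (ev m F 0)) * uR σ ε β m := by
  set L := l • vw σ (ev m F 0) (ev m F 1) + σ l • vw σ (ev m F 1) (ev m F 0) with hL
  have g0 : (gJ m F : Matrix (Fin m) (Fin m) F) *ᵥ ev m F 0 = ev m F 0 := by
    rw [gJ_ev' (by omega), pv_zero, add_zero]
  have g1 : (gJ m F : Matrix (Fin m) (Fin m) F) *ᵥ ev m F 1 = ev m F 1 + ev m F 0 := by
    rw [gJ_ev' (by omega), pv_succ]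
  rw [mul_inv_eq_iff_eq_mul, uR, mul_assoc (nU σ ε 0 ((-(l + σ l)) • SQ (ev m F 0))), mul_assoc (nU σ ε (ev m F (m - 1)) _),
    mU_nU hσ, ← mul_assoc, ← mul_assoc, ← mul_assoc, mulVec_zero, nU_mul0, nU_mul0, nU_mul0']
  congr 2
  rw [hL, mul_add, add_mul, Matrix.mul_smul, Matrix.smul_mul, Matrix.mul_smul, Matrix.smul_mul, conj_vw hσ, conj_vw hσ,
    g0, g1, vw_add_left, vw_add_right, vw_ev_SQ]
  module

theorem nU_pow (v : Fin m → F) (B : Matrix (Fin m) (Fin m) F) (k : ℕ) :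
    ∃ B', (nU σ ε v B) ^ k = nU σ ε ((k : F) • v) B' := by
  induction k with
  | zero => exact ⟨0, by rw [pow_zero, Nat.cast_zero, zero_smul, nU_one]⟩
  | succ k ih =>
    obtain ⟨B', hB'⟩ := ih
    refine ⟨B' + B + ε⁻¹ • vw σ ((k : F) • v) v, ?_⟩
    rw [pow_succ, hB', nU_mul, Nat.cast_succ, add_smul, one_smul]

theorem nU_pow0 (B : Matrix (Fin m) (Fin m) F) (k : ℕ) : (nU σ ε 0 B) ^ k = nU σ ε 0 ((k : F) • B) := by
  induction k with
  | zero => rw [pow_zero, Nat.cast_zero, zero_smul, nU_one]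
  | succ k ih => rw [pow_succ, ih, nU_mul0, Nat.cast_succ, add_smul, one_smul]

theorem det_one_of_pow {V : Type*} [AddCommGroup V] [Module F V] {p : ℕ} [Fact p.Prime] [CharP F p]
    {g : V ≃ₗ[F] V} {k : ℕ} (h : g ^ (p ^ k) = 1) : LinearEquiv.det g = 1 := by
  have h1 : (LinearEquiv.det g) ^ (p ^ k) = 1 := by rw [← map_pow, h, map_one]
  have h2 : ((LinearEquiv.det g : Fˣ) : F) ^ (p ^ k) = 1 := by
    rw [← Units.val_pow_eq_pow_val, h1, Units.val_one]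
  have h3 : (((LinearEquiv.det g : Fˣ) : F) - 1) ^ (p ^ k) = 0 := by
    rw [sub_pow_char_pow, h2, one_pow, sub_self]
  have h4 := pow_eq_zero_iff (pow_ne_zero k (Fact.out : p.Prime).ne_zero) |>.1 h3
  apply Units.ext
  rw [Units.val_one]
  exact sub_eq_zero.1 h4

theorem det_nU (p : ℕ) [Fact p.Prime] [CharP F p] (v : Fin m → F) (B : Matrix (Fin m) (Fin m) F) :
    LinearEquiv.det (nU σ ε v B) = 1 := by
  apply det_one_of_pow (p := p) (k := 2)
  obtain ⟨B', hB'⟩ := nU_pow (σ := σ) (ε := ε) v B p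
  rw [pow_two, pow_mul, hB', CharP.cast_eq_zero, zero_smul, nU_pow0, CharP.cast_eq_zero, zero_smul, nU_one]

theorem det_wU (p : ℕ) [Fact p.Prime] [CharP F p] : LinearEquiv.det (wU m F) = 1 := by
  have h1 : wU m F = nU (RingHom.id F) (1 : F) 0 1 * ((wU m F)⁻¹ * nU (RingHom.id F) (1 : F) 0 1 * wU m F) *
      nU (RingHom.id F) (1 : F) 0 1 := by
    apply LinearEquiv.ext
    intro x
    simp only [LinearEquiv.mul_apply, nU_apply, wU_apply, wU_inv_apply, cv_zero, dotProduct_zero, mul_zero, add_zero,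
      smul_zero, one_mulVec]
    apply v0ext
    · show x.2.2 = _
      abel
    · rfl
    · show -x.1 = _
      abel
  rw [h1, map_mul, map_mul, map_mul, map_mul, map_inv, det_nU p, mul_one, one_mul, mul_one, inv_mul_cancel]

theorem det_mU {g : (Matrix (Fin m) (Fin m) F)ˣ} (hg : Re σ g) : LinearEquiv.det (mU σ g) = 1 := by
  apply Units.ext
  rw [LinearEquiv.coe_det, Units.val_one]
  have h1 : ((mU σ g : V0 m F ≃ₗ[F] V0 m F) : V0 m F →ₗ[F] V0 m F) =
      LinearMap.prodMap (Matrix.toLin' (g : Matrix (Fin m) (Fin m) F)) (LinearMap.prodMap LinearMap.id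
        (Matrix.toLin' (((g⁻¹ : (Matrix (Fin m) (Fin m) F)ˣ) : Matrix (Fin m) (Fin m) F)ᵀ))) := by
    apply LinearMap.ext
    intro x
    show mU σ g x = _
    rw [mU_apply, hg.inv.cs]
    rfl
  rw [h1, LinearMap.det_prodMap, LinearMap.det_prodMap, LinearMap.det_id, one_mul, LinearMap.det_toLin',
    LinearMap.det_toLin', det_transpose, ← det_mul, g.mul_inv, det_one]

theorem cs_SQ_ev (hσ : ∀ x, σ (σ x) = x) (β : F) (i : ℕ) : cs σ (β • SQ (ev m F i)) = σ β • SQ (ev m F i) := by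
  rw [← vw_ev_SQ (σ := σ), cs_smul_vw hσ]

theorem uR_mem (P : Par σ ε) (p : ℕ) [Fact p.Prime] [CharP F p] {β : F} (hβ : β - σ β = ε⁻¹) :
    uR σ ε β m ∈ SU (h0 σ ε m) := by
  rw [mem_SU, uR]
  constructor
  · refine (isom _).mul_mem (nU_isom P ?_) (mU_isom P _)
    rw [cs_SQ_ev P.inv, ← sub_smul, hβ, vw_ev_SQ]
  · rw [map_mul, det_nU p, det_mU real_gJ, one_mul]

theorem MR_mem (P : Par σ ε) (p : ℕ) [Fact p.Prime] [CharP F p] {η : ℕ → Fˣ} (hη : ∀ i, σ (η i : F) = η i) :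
    MR σ η m ∈ SU (h0 σ ε m) := by
  rw [mem_SU, MR]
  exact ⟨(isom _).mul_mem (mU_isom P _) (wU_isom P), by rw [map_mul, det_wU p, det_mU (real_dg hη), one_mul]⟩

theorem nU0_mem (P : Par σ ε) (p : ℕ) [Fact p.Prime] [CharP F p] {B : Matrix (Fin m) (Fin m) F} (hB : cs σ B = B) :
    nU σ ε 0 B ∈ SU (h0 σ ε m) := by
  rw [mem_SU]
  refine ⟨nU_isom P ?_, det_nU p _ _⟩
  rw [hB, sub_self, vw_zero_left, smul_zero]

/-! ### regularity -/

/-- `u - 1` -/
noncomputable def TR (σ : F →+* F) (ε β : F) (m : ℕ) : V0 m F →ₗ[F] V0 m F :=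
  ((uR σ ε β m : V0 m F ≃ₗ[F] V0 m F) : V0 m F →ₗ[F] V0 m F) - LinearMap.id

theorem TR_apply (hm : 0 < m) (β : F) (x : V0 m F) : TR σ ε β m x =
    (NS m F *ᵥ x.1 + x.2.1 • ev m F (m - 1) +
      (β * ((((gJ m F)⁻¹ : (Matrix (Fin m) (Fin m) F)ˣ) : Matrix (Fin m) (Fin m) F)ᵀ *ᵥ x.2.2) (ll hm)) • ev m F (m - 1),
      ε⁻¹ * ((((gJ m F)⁻¹ : (Matrix (Fin m) (Fin m) F)ˣ) : Matrix (Fin m) (Fin m) F)ᵀ *ᵥ x.2.2) (ll hm),
      ((((gJ m F)⁻¹ : (Matrix (Fin m) (Fin m) F)ˣ) : Matrix (Fin m) (Fin m) F)ᵀ - 1) *ᵥ x.2.2) := by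
  have hl : m - 1 < m := Nat.sub_lt hm one_pos
  have h0' : TR σ ε β m x = uR σ ε β m x - x := rfl
  rw [h0', uR, LinearEquiv.mul_apply, mU_apply, nU_apply, (real_gJ (σ := σ)).inv.cs, coe_gJ]
  set y := (((gJ m F)⁻¹ : (Matrix (Fin m) (Fin m) F)ˣ) : Matrix (Fin m) (Fin m) F)ᵀ *ᵥ x.2.2 with hy
  have h1 : SQ (ev m F (m - 1)) *ᵥ y = y (ll hm) • ev m F (m - 1) := by
    rw [SQ, vecMulVec_mulVec, dotProduct_comm, dot_ev hl]
    funext i
    simp [ll, mul_comm]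
  apply v0ext
  · show (1 + NS m F) *ᵥ x.1 + x.2.1 • ev m F (m - 1) + (β • SQ (ev m F (m - 1))) *ᵥ y - x.1 = _
    rw [add_mulVec, one_mulVec, smul_mulVec, h1, smul_smul]
    abel
  · show x.2.1 + ε⁻¹ * (y ⬝ᵥ cv σ (ev m F (m - 1))) - x.2.1 = _
    rw [cv_ev, dot_ev hl, add_sub_cancel_left]
    rfl
  · show y - x.2.2 = _
    rw [sub_mulVec, one_mulVec, ← hy]

theorem TR_regular (hε : ε ≠ 0) (hm : 0 < m) (β : F) :
    (TR σ ε β m) ^ (m + (1 + m)) = 0 ∧ (TR σ ε β m) ^ (2 * m) ≠ 0 := by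
  set T := TR σ ε β m with hT
  set gi : Matrix (Fin m) (Fin m) F := (((gJ m F)⁻¹ : (Matrix (Fin m) (Fin m) F)ˣ) : Matrix (Fin m) (Fin m) F)ᵀ with hgi
  have hTa : ∀ x, T x = (NS m F *ᵥ x.1 + x.2.1 • ev m F (m - 1) + (β * (gi *ᵥ x.2.2) (ll hm)) • ev m F (m - 1),
      ε⁻¹ * (gi *ᵥ x.2.2) (ll hm), (gi - 1) *ᵥ x.2.2) := TR_apply hm β
  have hgig : (gJ m F : Matrix (Fin m) (Fin m) F)ᵀ * gi = 1 := by
    rw [hgi, ← transpose_mul, (gJ m F).inv_mul, transpose_one]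
  have hggi : gi * (gJ m F : Matrix (Fin m) (Fin m) F)ᵀ = 1 := by
    rw [hgi, ← transpose_mul, (gJ m F).mul_inv, transpose_one]
  have h3 : (gJ m F : Matrix (Fin m) (Fin m) F)ᵀ = 1 + (NS m F)ᵀ := by rw [coe_gJ, transpose_add, transpose_one]
  have hM : gi - 1 = -((NS m F)ᵀ * gi) := by
    have h4 : (1 + (NS m F)ᵀ) * gi = 1 := by rw [← h3]; exact hgig
    rw [add_mul, one_mul] at h4
    rw [← h4]; abel
  have hcomm : Commute ((NS m F)ᵀ) gi := by
    have h4 : (1 + (NS m F)ᵀ) * gi = 1 := by rw [← h3]; exact hgig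
    have h5 : gi * (1 + (NS m F)ᵀ) = 1 := by rw [← h3]; exact hggi
    rw [add_mul, one_mul] at h4
    rw [mul_add, mul_one] at h5
    exact add_left_cancel (h4.trans h5.symm)
  have hMp : ∀ k, (gi - 1) ^ k = (-1) ^ k * (gi ^ k * ((NS m F)ᵀ) ^ k) := by
    intro k
    rw [hM, neg_pow, hcomm.mul_pow, (hcomm.pow_pow k k).eq]
  have hMn : (gi - 1) ^ m = 0 := by rw [hMp, NSt_pow_zero, mul_zero, mul_zero]
  have ha : ∀ k (a : Fin m → F), (T ^ k) (a, 0, 0) = ((NS m F ^ k) *ᵥ a, 0, 0) := by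
    intro k
    induction k with
    | zero => intro a; simp
    | succ k ih =>
      intro a
      rw [pow_succ, Module.End.mul_apply, hTa]
      have : ((NS m F *ᵥ a + (0 : F) • ev m F (m - 1) + (β * (gi *ᵥ (0 : Fin m → F)) (ll hm)) • ev m F (m - 1),
        ε⁻¹ * (gi *ᵥ (0 : Fin m → F)) (ll hm), (gi - 1) *ᵥ (0 : Fin m → F)) : V0 m F) = (NS m F *ᵥ a, 0, 0) := by
        simp
      rw [this, ih, pow_succ, ← mulVec_mulVec]
  have hc : ∀ k (x : V0 m F), ((T ^ k) x).2.2 = ((gi - 1) ^ k) *ᵥ x.2.2 := by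
    intro k
    induction k with
    | zero => intro x; simp
    | succ k ih =>
      intro x
      rw [pow_succ, Module.End.mul_apply, ih, hTa, pow_succ, ← mulVec_mulVec]
  have h1 : ∀ x : V0 m F, x.2.2 = 0 → (T x).2 = 0 := by
    intro x hx
    rw [hTa, hx]
    simp
  constructor
  · apply LinearMap.ext
    intro x
    have e1 : T ^ (m + (1 + m)) = T ^ m * (T * T ^ m) := by rw [pow_add, pow_add, pow_one]
    rw [e1, Module.End.mul_apply, Module.End.mul_apply]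
    have e2 : ((T ^ m) x).2.2 = 0 := by rw [hc, hMn, zero_mulVec]
    have e3 := h1 _ e2
    set y := T ((T ^ m) x) with hy
    have e4 : y = (y.1, 0, 0) := Prod.ext rfl e3
    rw [e4, ha, NS_pow_zero, zero_mulVec]
    rfl
  · intro hzero
    have hgil : gi *ᵥ ev m F (m - 1) = ev m F (m - 1) := by
      have h3' : (gJ m F : Matrix (Fin m) (Fin m) F)ᵀ *ᵥ ev m F (m - 1) = ev m F (m - 1) := by
        rw [h3, add_mulVec, one_mulVec, NSt_ev (by omega), ev_ge (k := m - 1 + 1) (by omega), add_zero]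
      conv_lhs => rw [← h3']
      rw [mulVec_mulVec, hggi, one_mulVec]
    have hgip : ∀ k, (gi ^ k) *ᵥ ev m F (m - 1) = ev m F (m - 1) := by
      intro k
      induction k with
      | zero => rw [pow_zero, one_mulVec]
      | succ k ih => rw [pow_succ, ← mulVec_mulVec, hgil, ih]
    set δ : F := (-1) ^ (m - 1) with hδ
    have hδ0 : δ ≠ 0 := pow_ne_zero _ (neg_ne_zero.2 one_ne_zero)
    have h5 : ((gi - 1) ^ (m - 1)) *ᵥ ev m F 0 = δ • ev m F (m - 1) := by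
      rw [hMp, ← mulVec_mulVec, ← mulVec_mulVec, NSt_pow_ev _ _ hm, zero_add, hgip]
      have : ((-1 : Matrix (Fin m) (Fin m) F)) ^ (m - 1) = δ • (1 : Matrix (Fin m) (Fin m) F) := by
        rcases Nat.even_or_odd (m - 1) with h' | h'
        · rw [hδ, h'.neg_one_pow, h'.neg_one_pow, one_smul]
        · rw [hδ, h'.neg_one_pow, h'.neg_one_pow, neg_smul, one_smul]
      rw [this, smul_mulVec, one_mulVec]
    have e1 : T ^ (2 * m) = T ^ (m - 1) * (T * (T * T ^ (m - 1))) := by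
      rw [← pow_succ', ← pow_succ', ← pow_add]
      congr 1
      omega
    set x := (T ^ (m - 1)) ((0, 0, ev m F 0) : V0 m F) with hx
    have hx2 : x.2.2 = δ • ev m F (m - 1) := by rw [hx, hc, h5]
    have el : ev m F (m - 1) (ll hm) = (1 : F) := by simp [ev, ll]
    have hTx : (T x).2 = (ε⁻¹ * δ, 0) := by
      rw [hTa, hx2, mulVec_smul, hgil]
      apply Prod.ext
      · show ε⁻¹ * (δ • ev m F (m - 1)) (ll hm) = ε⁻¹ * δ
        rw [Pi.smul_apply, el, smul_eq_mul, mul_one]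
      · show (gi - 1) *ᵥ (δ • ev m F (m - 1)) = 0
        rw [mulVec_smul, sub_mulVec, one_mulVec, hgil, sub_self, smul_zero]
    set y := T x with hy
    have hTy : T y = (NS m F *ᵥ y.1 + (ε⁻¹ * δ) • ev m F (m - 1), 0, 0) := by
      rw [hTa, hTx]
      simp
    have h6 : (T ^ (2 * m)) ((0, 0, ev m F 0) : V0 m F) = ((ε⁻¹ * δ) • ev m F 0, 0, 0) := by
      rw [e1, Module.End.mul_apply, Module.End.mul_apply, Module.End.mul_apply, ← hx, ← hy, hTy, ha, mulVec_add,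
        mulVec_mulVec, ← pow_succ, Nat.sub_add_cancel hm, NS_pow_zero, zero_mulVec, zero_add, mulVec_smul]
      have e4 := NS_pow_ev (F := F) (n := m) (m - 1) 0 (by omega)
      rw [zero_add] at e4
      rw [e4]
    rw [hzero] at h6
    have h7 := congrFun (congrArg Prod.fst h6) ⟨0, hm⟩
    simp [ev] at h7
    rcases h7 with h7 | h7
    · exact hε h7
    · exact hδ0 h7

end H6.UnR
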