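import Cfsg.Agent.Lib.H6.UnH
import Cfsg.Agent.Lib.H43.SUTwoC
import Cfsg.Agent.Lib.H41.Herm

/-!
Three conjugate regular unipotents generate `SU_(2m+1)(q)`.
-/
set_option autoImplicit false
set_option linter.unusedSectionVars false
set_option linter.unusedVariables false

namespace H6.UnR

open Matrix Module H95.UBasic H57.Polar H43.SUTwoB H6.SpReg

variable {F : Type*} [Field F] {m : ℕ} {σ : F →+* F} {ε : F}

theorem gen_main [Finite F] (p : ℕ) [Fact p.Prime] [CharP F p] (P : Par σ ε) (hm : 2 ≤ m) {β : F} (hβ : β - σ β = ε⁻¹)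
    (hβ' : σ β ≠ -β) (η : ℕ → (FX σ)ˣ) (c : FX σ)
    (hbase : ∀ K : Subgroup (V0 m F ≃ₗ[F] V0 m F), K ≤ isom (h0 σ ε m) → uR σ ε β m ∈ K →
      nL (ε⁻¹ * (iu η (m - 1) : F)⁻¹) (-1 * (iu η (m - 1) : F)⁻¹)
      (-β * (iu η (m - 1) : F)⁻¹ * (iu η (m - 1) : F)⁻¹) (ll (by omega : 0 < m)) * mU σ (gL (gJ m F) (iu η))⁻¹ ∈ K →
      c • SQ (ev m (FX σ) 0) ∈ A0 σ ε K → ∀ y : FX σ, y • SQ (ev m (FX σ) 0) ∈ A0 σ ε K) :
    ∃ x ∈ SU (h0 σ ε m), ∃ M ∈ SU (h0 σ ε m), ∀ K : Subgroup (V0 m F ≃ₗ[F] V0 m F), K ≤ isom (h0 σ ε m) →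
      uR σ ε β m ∈ K → x * uR σ ε β m * x⁻¹ ∈ K → M * uR σ ε β m * M⁻¹ ∈ K → SU (h0 σ ε m) ≤ K := by
  have hm0 : 0 < m := by omega
  set l : F := -(ε * β) * (c : F) with hl
  have hc : σ (c : F) = c := fx_val c
  have hlc : -(l + σ l) = (c : F) := by
    have h1 : ε * (β - σ β) = 1 := by rw [hβ, mul_inv_cancel₀ P.z0]
    rw [hl, map_mul, map_neg, map_mul, P.σz, hc]
    linear_combination (c : F) * h1
  set L := l • vw σ (ev m F 0) (ev m F 1) + σ l • vw σ (ev m F 1) (ev m F 0) with hL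
  have hLh : cs σ L = L := by
    rw [hL, cs_add, cs_smul_vw P.inv, cs_smul_vw P.inv, P.inv, add_comm]
  refine ⟨nU σ ε 0 L, nU0_mem P p hLh, MR σ (iu η) m, MR_mem P p (iu_real η), ?_⟩
  intro K hK hu hx hM
  rw [hL, conj_up P.inv hm, hlc] at hx
  rw [conj_low hm0 β (iu_real η)] at hM
  have h1 : c • SQ (ev m (FX σ) 0) ∈ A0 σ ε K := by
    rw [mem_A0, mem_AM]
    have h2 := K.mul_mem hx (K.inv_mem hu)
    rw [mul_inv_cancel_right] at h2
    have e : (c • SQ (ev m (FX σ) 0)).map (io σ) = (c : F) • SQ (ev m F 0) := by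
      ext i j
      rw [map_apply, Matrix.smul_apply, Matrix.smul_apply, SQ_apply, SQ_apply]
      simp only [ev, smul_eq_mul, map_mul, apply_ite (io σ), map_one, map_zero]
      rfl
    rw [e]
    exact h2
  exact core P hK hm hm0 hβ hβ' hu hM (hbase K hK hu hM h1)

/-- transport of automorphisms -/
def cE {W V' : Type*} [AddCommGroup W] [Module F W] [AddCommGroup V'] [Module F V'] (E : W ≃ₗ[F] V') :
    (V' ≃ₗ[F] V') →* (W ≃ₗ[F] W) where
  toFun g := E.trans (g.trans E.symm)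
  map_one' := by
    apply LinearEquiv.ext
    intro x
    exact E.symm_apply_apply x
  map_mul' g g' := by
    apply LinearEquiv.ext
    intro x
    show E.symm (g (g' (E x))) = E.symm (g (E (E.symm (g' (E x)))))
    rw [E.apply_symm_apply]

theorem cE_apply {W V' : Type*} [AddCommGroup W] [Module F W] [AddCommGroup V'] [Module F V'] (E : W ≃ₗ[F] V')
    (g : V' ≃ₗ[F] V') (x : W) : cE E g x = E.symm (g (E x)) := rfl

theorem cE_mem {W V' : Type*} [AddCommGroup W] [Module F W] [AddCommGroup V'] [Module F V'] {E : W ≃ₗ[F] V'}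
    {h : W →ₗ[F] W →ₛₗ[σ] F} {h' : V' →ₗ[F] V' →ₛₗ[σ] F} (hE : ∀ x y, h' (E x) (E y) = h x y) (g : V' ≃ₗ[F] V') :
    cE E g ∈ SU h ↔ g ∈ SU h' := by
  rw [mem_SU, mem_SU]
  have h1 : LinearEquiv.det (cE E g) = LinearEquiv.det g := by
    have := LinearEquiv.det_conj g E.symm
    exact this
  rw [h1]
  apply and_congr _ Iff.rfl
  constructor
  · intro hg x y
    have := hg (E.symm x) (E.symm y)
    rw [← hE, ← hE, cE_apply, cE_apply] at this
    simpa using this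
  · intro hg x y
    rw [← hE, ← hE, cE_apply, cE_apply, E.apply_symm_apply, E.apply_symm_apply]
    exact hg _ _

theorem transfer [Fintype F] {q n : ℕ} (D : H6.SUGenC.Data n F q) {V' : Type*} [AddCommGroup V'] [Module F V']
    {h' : V' →ₗ[F] V' →ₛₗ[D.σ] F} {E : (Fin n → F) ≃ₗ[F] V'} (hE : ∀ x y, h' (E x) (E y) = D.h x y)
    {u x M : V' ≃ₗ[F] V'} (hu : u ∈ SU h') (hx : x ∈ SU h') (hM : M ∈ SU h')
    (hgen : ∀ K : Subgroup (V' ≃ₗ[F] V'), K ≤ isom h' → u ∈ K → x * u * x⁻¹ ∈ K → M * u * M⁻¹ ∈ K → SU h' ≤ K)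
    {N k : ℕ} (hN : ((u : V' →ₗ[F] V') - LinearMap.id) ^ N = 0) (hk : ((u : V' →ₗ[F] V') - LinearMap.id) ^ k ≠ 0) :
    ∃ u g h : ↥(Cfsg.SU n F q),
      (IsNilpotent (((u : Matrix.SpecialLinearGroup (Fin n) F) : Matrix (Fin n) (Fin n) F) - 1) ∧
        (((u : Matrix.SpecialLinearGroup (Fin n) F) : Matrix (Fin n) (Fin n) F) - 1) ^ k ≠ 0) ∧
      Subgroup.closure ({u, g * u * g⁻¹, h * u * h⁻¹} : Set ↥(Cfsg.SU n F q)) = ⊤ := by
  obtain ⟨A, hA⟩ := H6.SUGenC.exists_emb D ((cE_mem hE u).2 hu)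
  obtain ⟨X, hX⟩ := H6.SUGenC.exists_emb D ((cE_mem hE x).2 hx)
  obtain ⟨Y, hY⟩ := H6.SUGenC.exists_emb D ((cE_mem hE M).2 hM)
  have hpow : ∀ (j : ℕ) (v : Fin n → F),
      ((((A : Matrix.SpecialLinearGroup (Fin n) F) : Matrix (Fin n) (Fin n) F) - 1) ^ j) *ᵥ v =
        E.symm ((((u : V' →ₗ[F] V') - LinearMap.id) ^ j : Module.End F V') (E v)) := by
    intro j
    induction j with
    | zero => intro v; simp
    | succ j ih =>
      intro v
      rw [pow_succ, ← mulVec_mulVec, ih, pow_succ, Module.End.mul_apply]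
      congr 2
      rw [sub_mulVec, one_mulVec, ← H6.SUGenC.emb_apply, hA, cE_apply, map_sub, E.apply_symm_apply]
      rfl
  refine ⟨A, X, Y, ⟨⟨N, ?_⟩, ?_⟩, ?_⟩
  · apply Matrix.ext_of_mulVec_single
    intro i
    rw [hpow, hN, zero_mulVec, LinearMap.zero_apply, map_zero]
  · intro h0'
    apply hk
    apply LinearMap.ext
    intro v
    have h1 := hpow k (E.symm v)
    rw [h0', zero_mulVec, E.apply_symm_apply] at h1
    rw [LinearMap.zero_apply]
    exact (E.symm.map_eq_zero_iff).1 h1.symm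
  · set C := Subgroup.closure ({A, X * A * X⁻¹, Y * A * Y⁻¹} : Set (Cfsg.SU n F q)) with hC
    have memC : ∀ g, g ∈ (C.map (H6.SUGenC.emb n F q)).comap (cE E) ↔ cE E g ∈ C.map (H6.SUGenC.emb n F q) :=
      fun g => Iff.rfl
    have h1 := hgen ((C.map (H6.SUGenC.emb n F q)).comap (cE E)) (by
        intro g hg
        rw [memC] at hg
        obtain ⟨g', -, hg'⟩ := hg
        exact SU_le _ ((cE_mem hE g).1 (by rw [← hg']; exact H6.SUGenC.emb_mem D g')))
      (by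
        rw [memC, ← hA]
        exact Subgroup.mem_map_of_mem _ (Subgroup.subset_closure (by simp)))
      (by
        rw [memC, map_mul, map_mul, map_inv, ← hA, ← hX, ← map_inv, ← map_mul, ← map_mul]
        exact Subgroup.mem_map_of_mem _ (Subgroup.subset_closure (by simp)))
      (by
        rw [memC, map_mul, map_mul, map_inv, ← hA, ← hY, ← map_inv, ← map_mul, ← map_mul]
        exact Subgroup.mem_map_of_mem _ (Subgroup.subset_closure (by simp)))
    rw [eq_top_iff]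
    intro g _
    have h2 : cE E (cE E.symm (H6.SUGenC.emb n F q g)) = H6.SUGenC.emb n F q g := by
      apply LinearEquiv.ext
      intro v
      rw [cE_apply, cE_apply, E.symm_symm, E.symm_apply_apply, E.symm_apply_apply]
    have h3 : cE E.symm (H6.SUGenC.emb n F q g) ∈ SU h' := by
      rw [← cE_mem hE, h2]
      exact H6.SUGenC.emb_mem D g
    have h4 := h1 h3
    rw [memC, h2] at h4
    obtain ⟨g', hg', h5⟩ := h4
    rwa [← H6.SUGenC.emb_injective n F q h5]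

/-- the isometry with the standard form -/
theorem exists_E [Fintype F] {q : ℕ} (hF : Fintype.card F = q ^ 2) (hσ : ∀ x, σ x = x ^ q) (P : Par σ ε) {n : ℕ}
    (hn : n = m + (1 + m)) : ∃ E : (Fin n → F) ≃ₗ[F] V0 m F, ∀ x y, h0 σ ε m (E x) (E y) = sf σ ε (Fin n) x y := by
  have H := h0_skew (m := m) P
  have hfr : finrank F (V0 m F) = n := by
    rw [finrank_prod, finrank_prod, finrank_fin_fun, finrank_self, hn]
  obtain ⟨e, he⟩ := H41.Herm.exists_orthonormal hF hσ n (ε⁻¹ • h0 σ ε m) (by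
    intro x y
    show ε⁻¹ * h0 σ ε m y x = σ (ε⁻¹ * h0 σ ε m x y)
    rw [map_mul, σinv P, H.skew x y]; ring) (by
    intro x hx
    apply H.nd
    intro y
    have := hx y
    exact (mul_eq_zero.1 this).resolve_left (inv_ne_zero P.z0)) hfr
  have he' : ∀ i j, h0 σ ε m (e i) (e j) = if i = j then ε else 0 := by
    intro i j
    have h1 : ε⁻¹ * h0 σ ε m (e i) (e j) = if i = j then 1 else 0 := he i j
    by_cases hij : i = j
    · rw [if_pos hij] at h1 ⊢
      field_simp at h1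
      exact (inv_mul_eq_one₀ P.z0).1 (he i j |>.trans (if_pos hij)) |>.symm
    · rw [if_neg hij] at h1 ⊢
      exact (mul_eq_zero.1 h1).resolve_left (inv_ne_zero P.z0)
  have hli : LinearIndependent F e := by
    rw [Fintype.linearIndependent_iff]
    intro c hc i
    have h1 : h0 σ ε m (∑ j, c j • e j) (e i) = 0 := by rw [hc, map_zero, LinearMap.zero_apply]
    rw [map_sum, LinearMap.sum_apply, Finset.sum_eq_single i] at h1
    · rw [map_smul, LinearMap.smul_apply, he', if_pos rfl, smul_eq_mul] at h1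
      exact (mul_eq_zero.1 h1).resolve_right P.z0
    · intro j _ hj
      rw [map_smul, LinearMap.smul_apply, he', if_neg hj, smul_zero]
    · intro h; exact absurd (Finset.mem_univ _) h
  haveI : Nonempty (Fin n) := ⟨⟨0, by omega⟩⟩
  let b := basisOfLinearIndependentOfCardEqFinrank (b := e) hli (by rw [Fintype.card_fin, hfr])
  have hb : ∀ i, b i = e i := fun i => congrFun (coe_basisOfLinearIndependentOfCardEqFinrank _ _) i
  refine ⟨b.equivFun.symm, ?_⟩
  intro x y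
  rw [Basis.equivFun_symm_apply, Basis.equivFun_symm_apply, map_sum, sf_apply, Finset.mul_sum]
  apply Finset.sum_congr rfl
  intro i _
  rw [map_sum, LinearMap.sum_apply, Finset.sum_eq_single i]
  · rw [map_smulₛₗ, map_smul, LinearMap.smul_apply, hb, he', if_pos rfl, smul_eq_mul, smul_eq_mul]
    ring
  · intro j _ hj
    rw [map_smulₛₗ, map_smul, LinearMap.smul_apply, hb, hb, he', if_neg hj, smul_zero, smul_zero]
  · intro h; exact absurd (Finset.mem_univ _) h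

theorem exists_beta (P : Par σ ε) : ∃ β : F, β - σ β = ε⁻¹ ∧ σ β ≠ -β := by
  obtain ⟨b, hb⟩ := exists_sub_conj (h0_skew (m := 0) P) (s := ε⁻¹) (σinv P)
  by_cases h : σ b = -b
  · refine ⟨b + 1, by rw [map_add, map_one, ← hb]; ring, ?_⟩
    intro h2
    rw [map_add, map_one, h] at h2
    have h3 : (2 : F) = 0 := by linear_combination h2
    have h4 : b - σ b = 2 * b := by rw [h]; ring
    rw [h4, h3, zero_mul] at hb
    exact inv_ne_zero P.z0 hb.symm
  · exact ⟨b, hb, h⟩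

theorem main [Fintype F] (q : ℕ) (hF : Fintype.card F = q ^ 2) (m : ℕ) (hm : 2 ≤ m) (n : ℕ) (hn : n = m + (1 + m)) :
    ∃ u g h : ↥(Cfsg.SU n F q),
      (IsNilpotent (((u : Matrix.SpecialLinearGroup (Fin n) F) : Matrix (Fin n) (Fin n) F) - 1) ∧
        (((u : Matrix.SpecialLinearGroup (Fin n) F) : Matrix (Fin n) (Fin n) F) - 1) ^ (2 * m) ≠ 0) ∧
      Subgroup.closure ({u, g * u * g⁻¹, h * u * h⁻¹} : Set ↥(Cfsg.SU n F q)) = ⊤ := by
  obtain ⟨p, hpF⟩ := CharP.exists F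
  haveI : Fact p.Prime := ⟨(CharP.char_is_prime_or_zero F p).resolve_right (CharP.char_ne_zero_of_finite F p)⟩
  obtain ⟨σ, ε0, P0, hσ⟩ := H43.SUTwoC.exists_par hF
  haveI : Finite (FX σ) := Finite.of_injective _ (FX σ).subtype_injective
  haveI : Fintype (FX σ) := Fintype.ofFinite _
  obtain ⟨ζ, hζ⟩ := IsCyclic.exists_monoid_generator (α := (FX σ)ˣ)
  have fin : ∀ {ε : F} (P : Par σ ε) {β : F} (hβ : β - σ β = ε⁻¹)
      (hx : ∃ x ∈ SU (h0 σ ε m), ∃ M ∈ SU (h0 σ ε m), ∀ K : Subgroup (V0 m F ≃ₗ[F] V0 m F), K ≤ isom (h0 σ ε m) →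
      uR σ ε β m ∈ K → x * uR σ ε β m * x⁻¹ ∈ K → M * uR σ ε β m * M⁻¹ ∈ K → SU (h0 σ ε m) ≤ K),
      ∃ u g h : ↥(Cfsg.SU n F q),
      (IsNilpotent (((u : Matrix.SpecialLinearGroup (Fin n) F) : Matrix (Fin n) (Fin n) F) - 1) ∧
        (((u : Matrix.SpecialLinearGroup (Fin n) F) : Matrix (Fin n) (Fin n) F) - 1) ^ (2 * m) ≠ 0) ∧
      Subgroup.closure ({u, g * u * g⁻¹, h * u * h⁻¹} : Set ↥(Cfsg.SU n F q)) = ⊤ := by
    intro ε P β hβ hx
    obtain ⟨x, hx, M, hM, hgen⟩ := hx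
    obtain ⟨E, hE⟩ := exists_E hF hσ P hn
    obtain ⟨r1, r2⟩ := TR_regular (m := m) (σ := σ) P.z0 (by omega : 0 < m) β
    exact transfer (H43.SUTwoC.dat P hσ n) (h' := h0 σ ε m) (E := E) hE (uR_mem P p hβ) hx hM hgen r1 r2
  have hbb : ∀ (η : ℕ → (FX σ)ˣ) i, i + 1 < m → (gL (gJ m (FX σ)) η : Matrix (Fin m) (Fin m) (FX σ)) *ᵥ ev m (FX σ) i =
      ev m (FX σ) i + (fun i => ((η (i + 1) * (η i)⁻¹ : (FX σ)ˣ) : FX σ)) i • ev m (FX σ) (i + 1) :=
    fun η i hi => gL_ev coe_gJ η hi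
  by_cases h2 : (2 : F) = 0
  · have P : Par σ (1 : F) := ⟨P0.inv, P0.ne, P0.norm, one_ne_zero, by rw [map_one]; linear_combination h2⟩
    have h2K : (2 : FX σ) = 0 := Subtype.ext ((map_ofNat (io σ) 2).trans h2)
    obtain ⟨β, hβ, hβ'⟩ := exists_beta P
    apply fin P hβ
    by_cases h3 : 3 ≤ m
    · set η : ℕ → (FX σ)ˣ := fun i => if i = 0 then 1 else ζ with hη
      refine gen_main p P hm hβ hβ' η 1 ?_
      intro K hK hu hv hc y
      refine base_two h2K h3 (A0_up P.inv hu) (A0_low (ε := (1 : F)) P.inv (by omega) hv)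
        (fun i hi => gJ_ev' hi) (hbb η) hζ ?_ ?_ one_ne_zero hc y
      · simp [hη]
      · simp [hη]
    · have hm2 : m = 2 := by omega
      subst hm2
      refine gen_main p P hm hβ hβ' (fun _ => 1) ζ ?_
      intro K hK hu hv hc y
      have hng := neg_eq' P h2
      have e1 : ((iu (σ := σ) (fun _ => 1) (2 - 1) : Fˣ) : F) = 1 := by simp [iu]
      refine base22 P h2 hK (by rw [hβ, inv_one]) hu ?_ ?_ ?_ hv hζ hc y
      · rw [e1]; simp
      · rw [e1]; simp [hng]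
      · rw [e1]; simp [hng]
  · have h2K : (2 : FX σ) ≠ 0 := fun h => h2 ((map_ofNat (io σ) 2).symm.trans (congrArg Subtype.val h))
    obtain ⟨β, hβ, hβ'⟩ := exists_beta P0
    apply fin P0 hβ
    set η : ℕ → (FX σ)ˣ := fun i => if i = 0 then 1 else ζ with hη
    refine gen_main p P0 hm hβ hβ' η 1 ?_
    intro K hK hu hv hc y
    refine base_odd h2K hm (A0_up P0.inv hu) (A0_low (ε := ε0) P0.inv (by omega) hv)
      (fun i hi => gJ_ev' hi) (hbb η) hζ ?_ one_ne_zero hc y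
    simp [hη]

end H6.UnR
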