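import Mathlib

/-!
Presentations of special unitary groups, part A: `SL_2` matrices, quadratic extensions with involution.
-/

set_option autoImplicit false

namespace H6.Up

open Matrix

/-- `SL_2` -/
abbrev SL2 (R : Type*) [CommRing R] := Matrix.SpecialLinearGroup (Fin 2) R

section mats
variable {R : Type*} [CommRing R]

/-- the matrix -/
def mx (g : SL2 R) : Matrix (Fin 2) (Fin 2) R := g.1
/-- build an element -/
def mk2 (a b c d : R) (h : a * d - b * c = 1) : SL2 R := ⟨!![a, b; c, d], by rw [det_fin_two_of]; exact h⟩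

lemma mx_mk2 (a b c d : R) (h : a * d - b * c = 1) : mx (mk2 a b c d h) = !![a, b; c, d] := rfl
lemma mx_mul (g h : SL2 R) : mx (g * h) = mx g * mx h := rfl
lemma mx_one : mx (1 : SL2 R) = 1 := rfl
lemma mx_inv (g : SL2 R) : mx g⁻¹ = !![mx g 1 1, -mx g 0 1; -mx g 1 0, mx g 0 0] := by
  unfold mx
  have := Matrix.SpecialLinearGroup.coe_inv g
  rw [adjugate_fin_two] at this
  exact this
lemma mx_det (g : SL2 R) : mx g 0 0 * mx g 1 1 - mx g 0 1 * mx g 1 0 = 1 := by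
  have := g.2
  rw [det_fin_two] at this
  exact this

lemma ext2 {g h : SL2 R} (h00 : mx g 0 0 = mx h 0 0) (h01 : mx g 0 1 = mx h 0 1) (h10 : mx g 1 0 = mx h 1 0)
    (h11 : mx g 1 1 = mx h 1 1) : g = h := by
  apply Subtype.ext
  ext i j
  fin_cases i <;> fin_cases j <;> assumption

lemma m00 (M N : Matrix (Fin 2) (Fin 2) R) : (M * N) 0 0 = M 0 0 * N 0 0 + M 0 1 * N 1 0 := by
  rw [Matrix.mul_apply, Fin.sum_univ_two]
lemma m01 (M N : Matrix (Fin 2) (Fin 2) R) : (M * N) 0 1 = M 0 0 * N 0 1 + M 0 1 * N 1 1 := by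
  rw [Matrix.mul_apply, Fin.sum_univ_two]
lemma m10 (M N : Matrix (Fin 2) (Fin 2) R) : (M * N) 1 0 = M 1 0 * N 0 0 + M 1 1 * N 1 0 := by
  rw [Matrix.mul_apply, Fin.sum_univ_two]
lemma m11 (M N : Matrix (Fin 2) (Fin 2) R) : (M * N) 1 1 = M 1 0 * N 0 1 + M 1 1 * N 1 1 := by
  rw [Matrix.mul_apply, Fin.sum_univ_two]
lemma f00 (a b c d : R) : (!![a, b; c, d] : Matrix (Fin 2) (Fin 2) R) 0 0 = a := rfl
lemma f01 (a b c d : R) : (!![a, b; c, d] : Matrix (Fin 2) (Fin 2) R) 0 1 = b := rfl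
lemma f10 (a b c d : R) : (!![a, b; c, d] : Matrix (Fin 2) (Fin 2) R) 1 0 = c := rfl
lemma f11 (a b c d : R) : (!![a, b; c, d] : Matrix (Fin 2) (Fin 2) R) 1 1 = d := rfl
lemma o00 : (1 : Matrix (Fin 2) (Fin 2) R) 0 0 = 1 := rfl
lemma o01 : (1 : Matrix (Fin 2) (Fin 2) R) 0 1 = 0 := rfl
lemma o10 : (1 : Matrix (Fin 2) (Fin 2) R) 1 0 = 0 := rfl
lemma o11 : (1 : Matrix (Fin 2) (Fin 2) R) 1 1 = 1 := rfl

/-- upper unipotent -/
def U2 (b : R) : SL2 R := mk2 1 b 0 1 (by ring)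
/-- lower unipotent -/
def L2 (a : R) : SL2 R := mk2 1 0 a 1 (by ring)
/-- torus -/
def H2 (z : Rˣ) : SL2 R := mk2 z 0 0 ((z⁻¹ : Rˣ) : R) (by rw [Units.mul_inv]; ring)
/-- Weyl element -/
def W2 : SL2 R := mk2 0 1 (-1) 0 (by ring)

lemma U2_mx (b : R) : mx (U2 b) = !![1, b; 0, 1] := rfl
lemma L2_mx (b : R) : mx (L2 b) = !![1, 0; b, 1] := rfl
lemma H2_mx (z : Rˣ) : mx (H2 z) = !![(z : R), 0; 0, ((z⁻¹ : Rˣ) : R)] := rfl
lemma W2_mx : mx (W2 : SL2 R) = !![0, 1; -1, 0] := rfl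

/-- compute with two by two matrices -/
macro "mx2" : tactic => `(tactic| (apply ext2 <;> simp only [mx_mul, mx_inv, mx_one, U2_mx, L2_mx, H2_mx, W2_mx, mx_mk2,
  m00, m01, m10, m11, f00, f01, f10, f11, o00, o01, o10, o11]))

/-- conjugation by `diag(d, 1)` -/
def cD (d : Rˣ) : SL2 R →* SL2 R where
  toFun g := mk2 (mx g 0 0) (d * mx g 0 1) (((d⁻¹ : Rˣ) : R) * mx g 1 0) (mx g 1 1) (by
    have h := mx_det g
    have h1 : (d : R) * ((d⁻¹ : Rˣ) : R) = 1 := Units.mul_inv d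
    linear_combination h - (mx g 0 1 * mx g 1 0) * h1)
  map_one' := by
    mx2 <;> ring
  map_mul' g h := by
    have h1 : (d : R) * ((d⁻¹ : Rˣ) : R) = 1 := Units.mul_inv d
    mx2
    · linear_combination (-(mx g 0 1 * mx h 1 0)) * h1
    · ring
    · ring
    · linear_combination (-(mx g 1 0 * mx h 0 1)) * h1

lemma cD_mx (d : Rˣ) (g : SL2 R) : mx (cD d g) = !![mx g 0 0, d * mx g 0 1; ((d⁻¹ : Rˣ) : R) * mx g 1 0, mx g 1 1] := rfl

lemma U2_mul (a b : R) : U2 a * U2 b = U2 (a + b) := by mx2 <;> ring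
lemma U2_zero : (U2 0 : SL2 R) = 1 := by mx2
lemma U2_inv (a : R) : (U2 a)⁻¹ = U2 (-a) := by
  rw [inv_eq_iff_mul_eq_one, U2_mul, add_neg_cancel, U2_zero]
lemma L2_mul (a b : R) : L2 a * L2 b = L2 (a + b) := by mx2 <;> ring
lemma L2_zero : (L2 0 : SL2 R) = 1 := by mx2
lemma L2_inv (a : R) : (L2 a)⁻¹ = L2 (-a) := by
  rw [inv_eq_iff_mul_eq_one, L2_mul, add_neg_cancel, L2_zero]
lemma H2_mul (a b : Rˣ) : (H2 a * H2 b : SL2 R) = H2 (a * b) := by
  mx2
  · rw [Units.val_mul]; ring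
  · ring
  · ring
  · rw [mul_inv, Units.val_mul]; ring
lemma H2_one : (H2 1 : SL2 R) = 1 := by mx2 <;> simp
lemma H2_inv (a : Rˣ) : (H2 a : SL2 R)⁻¹ = H2 a⁻¹ := by
  rw [inv_eq_iff_mul_eq_one, H2_mul, mul_inv_cancel, H2_one]
lemma W2_sq : (W2 * W2 : SL2 R) = H2 (-1) := by mx2 <;> simp

lemma W2_U2 (b : R) : W2 * U2 b = L2 (-b) * W2 := by mx2 <;> ring
lemma W2_L2 (b : R) : W2 * L2 b = U2 (-b) * W2 := by mx2 <;> ring
lemma W2_H2 (z : Rˣ) : W2 * H2 z = H2 z⁻¹ * W2 := by mx2 <;> (try rw [inv_inv]) <;> ring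
lemma H2_U2 (z : Rˣ) (b : R) : H2 z * U2 b = U2 ((z : R) * z * b) * H2 z := by
  have h1 : (z : R) * ((z⁻¹ : Rˣ) : R) = 1 := Units.mul_inv z
  mx2
  · ring
  · linear_combination (-(z * b : R)) * h1
  · ring
  · ring

lemma cD_U2 (d : Rˣ) (b : R) : cD d (U2 b) = U2 (d * b) := by
  mx2 <;> simp only [cD_mx, U2_mx, f00, f01, f10, f11]; ring
lemma cD_L2 (d : Rˣ) (b : R) : cD d (L2 b) = L2 (((d⁻¹ : Rˣ) : R) * b) := by
  mx2 <;> simp only [cD_mx, L2_mx, f00, f01, f10, f11]; ring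
lemma cD_H2 (d z : Rˣ) : cD d (H2 z) = H2 z := by
  mx2 <;> simp only [cD_mx, H2_mx, f00, f01, f10, f11] <;> ring
lemma cD_W2 (d : Rˣ) : cD d (W2 : SL2 R) = H2 d * W2 := by
  mx2 <;> simp only [cD_mx, W2_mx, f00, f01, f10, f11] <;> ring
lemma cD_cD (d d' : Rˣ) (g : SL2 R) : cD d (cD d' g) = cD (d * d') g := by
  apply ext2 <;> simp only [cD_mx, f00, f01, f10, f11]
  · rw [Units.val_mul]; ring
  · rw [_root_.mul_inv, Units.val_mul]; ring
lemma cD_one (g : SL2 R) : cD 1 g = g := by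
  apply ext2 <;> simp [cD_mx]
lemma cD_W2_conj (d : Rˣ) (g : SL2 R) : W2 * cD d (W2⁻¹ * g * W2) * W2⁻¹ = cD d⁻¹ g := by
  mx2 <;> simp only [cD_mx, mx_mul, mx_inv, W2_mx, m00, m01, m10, m11, f00, f01, f10, f11, inv_inv] <;> ring

end mats

/-- generation of `SL_2` -/
lemma closure_U2_W2 {F : Type*} [Field F] (C : Subgroup (SL2 F)) (hU : ∀ b, U2 b ∈ C) (hW : W2 ∈ C) : C = ⊤ := by
  have hL : ∀ a, L2 a ∈ C := by
    intro a
    have h := W2_U2 (-a : F)
    rw [neg_neg] at h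
    rw [← mul_inv_eq_iff_eq_mul.2 h]
    exact mul_mem (mul_mem hW (hU _)) (inv_mem hW)
  have key : ∀ g : SL2 F, mx g 1 0 ≠ 0 → g ∈ C := by
    intro g hg
    have hd := mx_det g
    have h1 : g = U2 ((mx g 0 0 - 1) / mx g 1 0) * L2 (mx g 1 0) * U2 ((mx g 1 1 - 1) / mx g 1 0) := by
      mx2
      · field_simp; ring
      · field_simp
        linear_combination -hd
      · ring
      · field_simp; ring
    rw [h1]
    exact mul_mem (mul_mem (hU _) (hL _)) (hU _)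
  rw [eq_top_iff]
  rintro g -
  by_cases hg : mx g 1 0 = 0
  · have hd := mx_det g
    rw [hg, mul_zero, sub_zero] at hd
    have h00 : mx g 0 0 ≠ 0 := by
      intro h; rw [h, zero_mul] at hd; exact zero_ne_one hd
    have h2 : mx (L2 1 * g) 1 0 ≠ 0 := by
      simp only [mx_mul, L2_mx, m10, f10, f11, hg]
      simpa using h00
    have h3 := key _ h2
    have h4 : g = (L2 1)⁻¹ * (L2 1 * g) := by group
    rw [h4]; exact mul_mem (inv_mem (hL 1)) h3
  · exact key g hg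

/-- Bruhat decomposition -/
lemma bruhat {F : Type*} [Field F] (g : SL2 F) : (∃ b z, g = U2 b * H2 z) ∨ ∃ b z c, g = U2 b * H2 z * W2 * U2 c := by
  have hd := mx_det g
  by_cases hg : mx g 1 0 = 0
  · left
    rw [hg, mul_zero, sub_zero] at hd
    have h11 : mx g 1 1 ≠ 0 := by
      intro h; rw [h, mul_zero] at hd; exact zero_ne_one hd
    have h00 : mx g 0 0 ≠ 0 := by
      intro h; rw [h, zero_mul] at hd; exact zero_ne_one hd
    refine ⟨mx g 0 1 * mx g 0 0, Units.mk0 _ h00, ?_⟩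
    mx2
    · simp
    · simp; field_simp
    · rw [hg]; ring
    · simp; field_simp
      linear_combination hd
  · right
    refine ⟨mx g 0 0 / mx g 1 0, Units.mk0 (-(mx g 1 0)⁻¹) (by simpa using hg), mx g 1 1 / mx g 1 0, ?_⟩
    mx2
    · simp; field_simp
    · simp; field_simp
      linear_combination -hd
    · simp
    · simp; field_simp

/-- lower decomposition -/
lemma lower {F : Type*} [Field F] (g : SL2 F) : (∃ a z b, g = L2 a * H2 z * U2 b) ∨ ∃ a z, g = L2 a * H2 z * W2 := by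
  have hd := mx_det g
  by_cases hg : mx g 0 0 = 0
  · right
    rw [hg, zero_mul, zero_sub] at hd
    have h01 : mx g 0 1 ≠ 0 := by
      intro h; rw [h, zero_mul, neg_zero] at hd; exact zero_ne_one hd
    refine ⟨mx g 1 1 / mx g 0 1, Units.mk0 _ h01, ?_⟩
    mx2
    · rw [hg]; ring
    · simp
    · simp; field_simp
      linear_combination -hd
    · simp; field_simp
  · left
    refine ⟨mx g 1 0 / mx g 0 0, Units.mk0 _ hg, mx g 0 1 / mx g 0 0, ?_⟩
    mx2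
    · simp
    · simp; field_simp
    · simp; field_simp
    · simp; field_simp
      linear_combination hd

lemma U2_split {F : Type*} [Field F] (b : Fˣ) : U2 (b : F) = L2 ((b⁻¹ : Fˣ) : F) * (H2 b * W2) * L2 ((b⁻¹ : Fˣ) : F) := by
  mx2 <;> simp

/-- a quadratic extension with its involution -/
structure QE (k K : Type*) [Field k] [Field K] where
  ι : k →+* K
  σ : K →+* K
  inv : ∀ x, σ (σ x) = x
  fix : ∀ c, σ (ι c) = ι c
  mem : ∀ x, σ x = x → ∃ c, ι c = x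
  N : K → k
  hN : ∀ x, ι (N x) = x * σ x
  T : K → k
  hT : ∀ x, ι (T x) = x + σ x

namespace QE
variable {k K : Type*} [Field k] [Field K] (Q : QE k K)

lemma ιu_inj {a b : k} (h : Q.ι a = Q.ι b) : a = b := Q.ι.injective h

lemma N_mul (x y : K) : Q.N (x * y) = Q.N x * Q.N y := by
  apply Q.ιu_inj
  rw [map_mul, Q.hN, Q.hN, Q.hN, map_mul]; ring

lemma N_one : Q.N 1 = 1 := by
  apply Q.ιu_inj
  rw [Q.hN, map_one, map_one, mul_one]

/-- norm on units -/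
def Nu : Kˣ →* kˣ := Units.map { toFun := Q.N, map_one' := Q.N_one, map_mul' := Q.N_mul }

lemma Nu_val (z : Kˣ) : (Q.Nu z : k) = Q.N z := rfl

lemma N_neg (x : K) : Q.N (-x) = Q.N x := by
  apply Q.ιu_inj
  rw [Q.hN, Q.hN, map_neg]; ring

lemma N_add (x y : K) : Q.N (x + y) = Q.N x + Q.N y + Q.T (x * Q.σ y) := by
  apply Q.ιu_inj
  rw [map_add, map_add, Q.hN, Q.hN, Q.hN, Q.hT, map_add, map_mul, Q.inv]; ring

lemma N_ι (c : k) : Q.N (Q.ι c) = c * c := by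
  apply Q.ιu_inj
  rw [Q.hN, Q.fix, map_mul]

lemma N_zero : Q.N 0 = 0 := by
  apply Q.ιu_inj
  rw [Q.hN, zero_mul, map_zero]

/-- `ι` on units -/
def ιu : kˣ →* Kˣ := Units.map Q.ι

lemma ιu_val (d : kˣ) : (Q.ιu d : K) = Q.ι d := rfl

/-- conjugate inverse transpose -/
noncomputable def th : SL2 K →* SL2 K := (MulAut.conj W2).toMonoidHom.comp (Matrix.SpecialLinearGroup.map Q.σ)

lemma th_apply (g : SL2 K) : Q.th g = W2 * Matrix.SpecialLinearGroup.map Q.σ g * W2⁻¹ := rfl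

lemma map_mx (g : SL2 K) (i j : Fin 2) : mx (Matrix.SpecialLinearGroup.map Q.σ g) i j = Q.σ (mx g i j) := rfl

lemma th_mx (g : SL2 K) : mx (Q.th g) = !![Q.σ (mx g 1 1), -Q.σ (mx g 1 0); -Q.σ (mx g 0 1), Q.σ (mx g 0 0)] := by
  rw [th_apply]
  ext i j
  fin_cases i <;> fin_cases j
  · change mx _ 0 0 = Q.σ (mx g 1 1)
    simp only [mx_mul, mx_inv, W2_mx, m00, m01, m10, m11, map_mx, f00, f01, f10, f11]; ring
  · change mx _ 0 1 = -Q.σ (mx g 1 0)
    simp only [mx_mul, mx_inv, W2_mx, m00, m01, m10, m11, map_mx, f00, f01, f10, f11]; ring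
  · change mx _ 1 0 = -Q.σ (mx g 0 1)
    simp only [mx_mul, mx_inv, W2_mx, m00, m01, m10, m11, map_mx, f00, f01, f10, f11]; ring
  · change mx _ 1 1 = Q.σ (mx g 0 0)
    simp only [mx_mul, mx_inv, W2_mx, m00, m01, m10, m11, map_mx, f00, f01, f10, f11]; ring

lemma th_U2 (b : K) : Q.th (U2 b) = L2 (-Q.σ b) := by
  apply ext2 <;> simp [th_mx, U2_mx, L2_mx]

end QE

end H6.Up
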