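import Cfsg.Agent.Lib.H6.UpA

/-!
Presentations of special unitary groups, part B: the relations of `SU_4` in an abstract group and the double coset
argument.
-/

set_option autoImplicit false

namespace H6.Up

open Matrix

variable {k K : Type*} [Field k] [Field K] (Q : QE k K) {G : Type*} [Group G]

/-- the second copy of `SL_2(k)` -/
def l2 (s : SL2 K →* G) (l : SL2 k →* G) : SL2 k →* G := (MulAut.conj (s W2)).toMonoidHom.comp l

lemma l2_apply (s : SL2 K →* G) (l : SL2 k →* G) (g : SL2 k) : l2 s l g = s W2 * l g * (s W2)⁻¹ := rfl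

/-- the short root elements -/
def yy (s : SL2 K →* G) (l : SL2 k →* G) (a : K) : G := (l2 s l W2)⁻¹ * s (U2 a) * l2 s l W2

/-- the relations, without `E` -/
structure Rel0 (s : SL2 K →* G) (l : SL2 k →* G) : Prop where
  A : ∀ g h, l g * l2 s l h = l2 s l h * l g
  B : ∀ d g, l (H2 d) * s g = s (cD (Q.ιu d) g) * l (H2 d)
  C : ∀ z g, s (H2 z) * l g = l (cD (Q.Nu z) g) * s (H2 z)
  D : ∀ c b, l (U2 c) * s (U2 b) = s (U2 b) * l (U2 c)
  F : ∀ g, l W2 * l2 s l W2 * s g = s (Q.th g) * (l W2 * l2 s l W2)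

/-- the relations -/
structure Rel (s : SL2 K →* G) (l : SL2 k →* G) : Prop extends Rel0 Q s l where
  E : ∀ b c, s (U2 b) * l2 s l (U2 c) = l2 s l (U2 c) * yy s l (Q.ι c * b) * l (U2 (c * Q.N b)) * s (U2 b)

/-! ### consequences of `A`, `B`, `C`, `F`, `D` -/

section basic
variable {Q} {s : SL2 K →* G} {l : SL2 k →* G}

lemma sW2_sq : s W2 * s W2 = s (H2 (-1)) := by rw [← map_mul, W2_sq]

lemma yy_mul (a b : K) : yy s l a * yy s l b = yy s l (a + b) := by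
  unfold yy
  rw [← U2_mul, map_mul]; group

lemma yy_zero : yy s l 0 = 1 := by
  unfold yy
  rw [U2_zero, map_one]; group

lemma yy_inv (a : K) : (yy s l a)⁻¹ = yy s l (-a) := by
  rw [inv_eq_iff_mul_eq_one, yy_mul, add_neg_cancel, yy_zero]

/-- `w² ` commutes with `l` -/
lemma sq_l (hC : ∀ z g, s (H2 z) * l g = l (cD (Q.Nu z) g) * s (H2 z)) (g : SL2 k) :
    s W2 * s W2 * l g = l g * (s W2 * s W2) := by
  rw [sW2_sq, hC]
  have : Q.Nu (-1) = 1 := by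
    apply Units.ext
    rw [Q.Nu_val, Units.val_neg, Units.val_one, Q.N_neg, Q.N_one, Units.val_one]
  rw [this, cD_one]

lemma w_l (g : SL2 k) : s W2 * l g = l2 s l g * s W2 := by rw [l2_apply]; group

lemma w_l2 (hC : ∀ z g, s (H2 z) * l g = l (cD (Q.Nu z) g) * s (H2 z)) (g : SL2 k) :
    s W2 * l2 s l g = l g * s W2 := by
  rw [l2_apply]
  have := sq_l hC g
  calc s W2 * (s W2 * l g * (s W2)⁻¹) = (s W2 * s W2 * l g) * (s W2)⁻¹ := by group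
    _ = l g * s W2 := by rw [this]; group

/-- `B` for the second copy -/
lemma B2 (hB : ∀ d g, l (H2 d) * s g = s (cD (Q.ιu d) g) * l (H2 d)) (d : kˣ) (g : SL2 K) :
    l2 s l (H2 d) * s g = s (cD (Q.ιu d)⁻¹ g) * l2 s l (H2 d) := by
  rw [l2_apply]
  have h := hB d (W2⁻¹ * g * W2)
  calc s W2 * l (H2 d) * (s W2)⁻¹ * s g = s W2 * (l (H2 d) * s (W2⁻¹ * g * W2)) * (s W2)⁻¹ := by
        rw [map_mul, map_mul, map_inv]; group
    _ = s (W2 * cD (Q.ιu d) (W2⁻¹ * g * W2) * W2⁻¹) * (s W2 * l (H2 d) * (s W2)⁻¹) := by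
        rw [h, map_mul s (W2 * cD (Q.ιu d) (W2⁻¹ * g * W2)), map_mul s W2, map_inv]; group
    _ = _ := by rw [cD_W2_conj]

/-- `C` for the second copy -/
lemma C2 (hC : ∀ z g, s (H2 z) * l g = l (cD (Q.Nu z) g) * s (H2 z)) (z : Kˣ) (g : SL2 k) :
    s (H2 z) * l2 s l g = l2 s l (cD (Q.Nu z)⁻¹ g) * s (H2 z) := by
  rw [l2_apply, l2_apply]
  have h := hC z⁻¹ g
  have h1 : s (H2 z) * s W2 = s W2 * s (H2 z⁻¹) := by
    rw [← map_mul, ← map_mul, W2_H2, inv_inv]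
  have h2 : (s W2)⁻¹ * s (H2 z) = s (H2 z⁻¹) * (s W2)⁻¹ := by
    rw [inv_mul_eq_iff_eq_mul, ← mul_assoc, ← h1]; group
  rw [map_inv] at h
  calc s (H2 z) * (s W2 * l g * (s W2)⁻¹) = (s (H2 z) * s W2) * l g * (s W2)⁻¹ := by group
    _ = s W2 * (s (H2 z⁻¹) * l g) * (s W2)⁻¹ := by rw [h1]; group
    _ = s W2 * l (cD (Q.Nu z)⁻¹ g) * (s (H2 z⁻¹) * (s W2)⁻¹) := by rw [h]; group
    _ = _ := by rw [← h2]; group

end basic

namespace Rel0

variable {Q} {s : SL2 K →* G} {l : SL2 k →* G} (H : Rel0 Q s l)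
include H

lemma comm (g h : SL2 k) : l g * l2 s l h = l2 s l h * l g := H.A g h

/-- the torus and `yy` -/
lemma h_yy (d : kˣ) (a : K) : l (H2 d) * yy s l a = yy s l (Q.ι d * a) * l (H2 d) := by
  unfold yy
  have h1 := H.A (H2 d) W2
  have h2 := H.B d (U2 a)
  rw [cD_U2, Q.ιu_val] at h2
  have h3 : l (H2 d) * (l2 s l W2)⁻¹ = (l2 s l W2)⁻¹ * l (H2 d) := by
    rw [eq_inv_mul_iff_mul_eq, ← mul_assoc, ← h1]; group
  calc l (H2 d) * ((l2 s l W2)⁻¹ * s (U2 a) * l2 s l W2) = (l (H2 d) * (l2 s l W2)⁻¹) * s (U2 a) * l2 s l W2 := by group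
    _ = (l2 s l W2)⁻¹ * (l (H2 d) * s (U2 a)) * l2 s l W2 := by rw [h3]; group
    _ = (l2 s l W2)⁻¹ * s (U2 (Q.ι d * a)) * (l (H2 d) * l2 s l W2) := by rw [h2]; group
    _ = _ := by rw [h1]; group

lemma yy_x1 (a : K) (c : k) : yy s l a * l (U2 c) = l (U2 c) * yy s l a := by
  unfold yy
  have h1 := H.A (U2 c) W2
  have h2 := H.D c a
  have h3 : (l2 s l W2)⁻¹ * l (U2 c) = l (U2 c) * (l2 s l W2)⁻¹ := by
    rw [inv_mul_eq_iff_eq_mul, ← mul_assoc, ← h1]; group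
  calc (l2 s l W2)⁻¹ * s (U2 a) * l2 s l W2 * l (U2 c) = (l2 s l W2)⁻¹ * s (U2 a) * (l2 s l W2 * l (U2 c)) := by group
    _ = (l2 s l W2)⁻¹ * (s (U2 a) * l (U2 c)) * l2 s l W2 := by rw [← h1]; group
    _ = ((l2 s l W2)⁻¹ * l (U2 c)) * s (U2 a) * l2 s l W2 := by rw [← h2]; group
    _ = _ := by rw [h3]; group

/-- alternative form of `yy` -/
lemma yy_eq (a : K) : yy s l a = (l W2)⁻¹ * s (L2 (Q.σ a)) * l W2 := by
  unfold yy
  have h1 := H.F (U2 a)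
  rw [Q.th_U2] at h1
  have h2 : l2 s l W2 * l2 s l W2 = l2 s l (H2 (-1)) := by rw [← map_mul, W2_sq]
  have h3 := B2 H.B (-1) (L2 (-Q.σ a))
  have h4 : cD (Q.ιu (-1))⁻¹ (L2 (-Q.σ a)) = L2 (Q.σ a) := by
    have : (Q.ιu (-1))⁻¹ = -1 := by
      rw [inv_eq_iff_mul_eq_one]
      apply Units.ext
      simp [Q.ιu_val]
    rw [this, cD_L2]
    simp
  rw [h4] at h3
  have h5 := H.A W2 (H2 (-1))
  -- s U = t2⁻¹ t1⁻¹ s L⁻ t1 t2
  have h6 : s (U2 a) = (l2 s l W2)⁻¹ * (l W2)⁻¹ * s (L2 (-Q.σ a)) * l W2 * l2 s l W2 := by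
    have := eq_inv_mul_of_mul_eq h1
    rw [this]; group
  have h7 := H.A W2 W2
  have h8 : (l2 s l W2)⁻¹ * (l2 s l W2)⁻¹ = (l2 s l (H2 (-1)))⁻¹ := by rw [← h2]; group
  have h9 : (l2 s l (H2 (-1)))⁻¹ * (l W2)⁻¹ = (l W2)⁻¹ * (l2 s l (H2 (-1)))⁻¹ := by
    rw [← _root_.mul_inv_rev, ← _root_.mul_inv_rev, h5]
  have h10 : (l2 s l (H2 (-1)))⁻¹ * s (L2 (-Q.σ a)) = s (L2 (Q.σ a)) * (l2 s l (H2 (-1)))⁻¹ := by
    have h3' := B2 H.B (-1) (L2 (Q.σ a))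
    have h4' : cD (Q.ιu (-1))⁻¹ (L2 (Q.σ a)) = L2 (-Q.σ a) := by
      have : (Q.ιu (-1))⁻¹ = -1 := by
        rw [inv_eq_iff_mul_eq_one]
        apply Units.ext
        simp [Q.ιu_val]
      rw [this, cD_L2]
      simp
    rw [h4'] at h3'
    rw [inv_mul_eq_iff_eq_mul, ← mul_assoc, h3']; group
  calc (l2 s l W2)⁻¹ * s (U2 a) * l2 s l W2
      = ((l2 s l W2)⁻¹ * (l2 s l W2)⁻¹) * (l W2)⁻¹ * s (L2 (-Q.σ a)) * l W2 * (l2 s l W2 * l2 s l W2) := by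
        rw [h6]; group
    _ = ((l2 s l (H2 (-1)))⁻¹ * (l W2)⁻¹) * s (L2 (-Q.σ a)) * l W2 * l2 s l (H2 (-1)) := by rw [h8, h2]
    _ = (l W2)⁻¹ * ((l2 s l (H2 (-1)))⁻¹ * s (L2 (-Q.σ a))) * (l W2 * l2 s l (H2 (-1))) := by rw [h9]; group
    _ = _ := by rw [h10, h5]; group

lemma yy_x2 (a : K) (c : k) : yy s l a * l2 s l (U2 c) = l2 s l (U2 c) * yy s l a := by
  rw [H.yy_eq]
  -- s (L2 b) commutes with x2
  have key : s (L2 (Q.σ a)) * l2 s l (U2 c) = l2 s l (U2 c) * s (L2 (Q.σ a)) := by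
    have h1 := H.D c (-Q.σ a)
    have h2 : s (L2 (Q.σ a)) * s W2 = s W2 * s (U2 (-Q.σ a)) := by
      rw [← map_mul, ← map_mul, W2_U2, neg_neg]
    rw [l2_apply]
    calc s (L2 (Q.σ a)) * (s W2 * l (U2 c) * (s W2)⁻¹) = (s (L2 (Q.σ a)) * s W2) * l (U2 c) * (s W2)⁻¹ := by group
      _ = s W2 * (s (U2 (-Q.σ a)) * l (U2 c)) * (s W2)⁻¹ := by rw [h2]; group
      _ = s W2 * l (U2 c) * (s W2)⁻¹ * (s W2 * s (U2 (-Q.σ a))) * (s W2)⁻¹ := by rw [← h1]; group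
      _ = _ := by rw [← h2]; group
  have h1 := H.A W2 (U2 c)
  have h3 : (l W2)⁻¹ * l2 s l (U2 c) = l2 s l (U2 c) * (l W2)⁻¹ := by
    rw [inv_mul_eq_iff_eq_mul, ← mul_assoc, h1]; group
  calc (l W2)⁻¹ * s (L2 (Q.σ a)) * l W2 * l2 s l (U2 c) = (l W2)⁻¹ * s (L2 (Q.σ a)) * (l W2 * l2 s l (U2 c)) := by group
    _ = (l W2)⁻¹ * (s (L2 (Q.σ a)) * l2 s l (U2 c)) * l W2 := by rw [h1]; group
    _ = ((l W2)⁻¹ * l2 s l (U2 c)) * s (L2 (Q.σ a)) * l W2 := by rw [key]; group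
    _ = _ := by rw [h3]; group

lemma x1_x2 (c d : k) : l (U2 c) * l2 s l (U2 d) = l2 s l (U2 d) * l (U2 c) := H.A _ _

omit H in
/-- the elements of the unipotent radical -/
def _root_.H6.Up.nn (s : SL2 K →* G) (l : SL2 k →* G) (c : k) (a : K) (d : k) : G :=
  l (U2 c) * yy s l a * l2 s l (U2 d)

lemma nn_mul (c c' d d' : k) (a a' : K) : nn s l c a d * nn s l c' a' d' = nn s l (c + c') (a + a') (d + d') := by
  unfold nn
  have h1 := H.yy_x1 a c'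
  have h2 := H.yy_x2 a' d
  have h3 := H.x1_x2 c' d
  rw [← U2_mul, map_mul, ← yy_mul, ← U2_mul, map_mul]
  calc l (U2 c) * yy s l a * l2 s l (U2 d) * (l (U2 c') * yy s l a' * l2 s l (U2 d'))
      = l (U2 c) * yy s l a * (l2 s l (U2 d) * l (U2 c')) * yy s l a' * l2 s l (U2 d') := by group
    _ = l (U2 c) * (yy s l a * l (U2 c')) * (l2 s l (U2 d) * yy s l a') * l2 s l (U2 d') := by rw [← h3]; group
    _ = _ := by rw [h1, ← h2]; group

lemma nn_inv (c d : k) (a : K) : (nn s l c a d)⁻¹ = nn s l (-c) (-a) (-d) := by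
  rw [inv_eq_iff_mul_eq_one, H.nn_mul, add_neg_cancel, add_neg_cancel, add_neg_cancel]
  unfold nn
  rw [U2_zero, map_one, map_one, yy_zero, one_mul, one_mul]

lemma x1_eq (c : k) : l (U2 c) = nn s l c 0 0 := by
  unfold nn; rw [yy_zero, U2_zero, map_one, mul_one, mul_one]
lemma yy_eq' (a : K) : yy s l a = nn s l 0 a 0 := by
  unfold nn; rw [U2_zero, map_one, map_one, mul_one, one_mul]
lemma x2_eq (c : k) : l2 s l (U2 c) = nn s l 0 0 c := by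
  unfold nn; rw [yy_zero, U2_zero, map_one, one_mul, one_mul]

/-- the torus acts -/
lemma h_nn (e : kˣ) (c d : k) (a : K) : l (H2 e) * nn s l c a d = nn s l (e * e * c) (Q.ι e * a) d * l (H2 e) := by
  unfold nn
  have h1 : l (H2 e) * l (U2 c) = l (U2 (e * e * c)) * l (H2 e) := by rw [← map_mul, H2_U2, map_mul]
  have h2 := H.h_yy e a
  have h3 := H.A (H2 e) (U2 d)
  calc l (H2 e) * (l (U2 c) * yy s l a * l2 s l (U2 d)) = (l (H2 e) * l (U2 c)) * yy s l a * l2 s l (U2 d) := by group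
    _ = l (U2 (e * e * c)) * (l (H2 e) * yy s l a) * l2 s l (U2 d) := by rw [h1]; group
    _ = l (U2 (e * e * c)) * yy s l (Q.ι e * a) * (l (H2 e) * l2 s l (U2 d)) := by rw [h2]; group
    _ = _ := by rw [h3]; group

/-- `w` and `yy` -/
lemma w_yy (a : K) : s W2 * yy s l a = yy s l (-Q.σ a) * s W2 := by
  rw [H.yy_eq (-Q.σ a), map_neg, Q.inv]
  unfold yy
  have h1 := w_l2 H.C W2
  have h2 : s W2 * s (U2 a) = s (L2 (-a)) * s W2 := by rw [← map_mul, W2_U2, map_mul]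
  have h3 : s W2 * (l2 s l W2)⁻¹ = (l W2)⁻¹ * s W2 := by
    rw [mul_inv_eq_iff_eq_mul, mul_assoc, h1]; group
  calc s W2 * ((l2 s l W2)⁻¹ * s (U2 a) * l2 s l W2) = (s W2 * (l2 s l W2)⁻¹) * s (U2 a) * l2 s l W2 := by group
    _ = (l W2)⁻¹ * (s W2 * s (U2 a)) * l2 s l W2 := by rw [h3]; group
    _ = (l W2)⁻¹ * s (L2 (-a)) * (s W2 * l2 s l W2) := by rw [h2]; group
    _ = _ := by rw [h1]; group

lemma w_nn (c d : k) (a : K) : s W2 * nn s l c a d = nn s l d (-Q.σ a) c * s W2 := by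
  have h1 := w_l (s := s) (l := l) (U2 c)
  have h2 := H.w_yy a
  have h3 := w_l2 H.C (U2 d)
  have h4 : nn s l d (-Q.σ a) c = nn s l 0 0 c * nn s l 0 (-Q.σ a) 0 * nn s l d 0 0 := by
    rw [H.nn_mul, H.nn_mul]; simp
  rw [h4, ← H.x2_eq, ← H.yy_eq', ← H.x1_eq]
  unfold nn
  calc s W2 * (l (U2 c) * yy s l a * l2 s l (U2 d)) = (s W2 * l (U2 c)) * yy s l a * l2 s l (U2 d) := by group
    _ = l2 s l (U2 c) * (s W2 * yy s l a) * l2 s l (U2 d) := by rw [h1]; group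
    _ = l2 s l (U2 c) * yy s l (-Q.σ a) * (s W2 * l2 s l (U2 d)) := by rw [h2]; group
    _ = _ := by rw [h3]; group

end Rel0

namespace Rel

variable {Q} {s : SL2 K →* G} {l : SL2 k →* G} (H : Rel Q s l)
include H

/-- `U2` and `yy` -/
lemma u_yy (b a : K) : s (U2 b) * yy s l a = yy s l a * l (U2 (Q.T (b * Q.σ a))) * s (U2 b) := by
  have e1 := H.E (b + a) 1
  have e2 := H.E b 1
  have e3 := H.E a 1
  rw [map_one, one_mul, one_mul] at e1 e2 e3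
  have e4 : s (U2 (b + a)) = s (U2 b) * s (U2 a) := by rw [← U2_mul, map_mul]
  rw [e4] at e1
  have e5 : s (U2 b) * (s (U2 a) * l2 s l (U2 1)) =
      l2 s l (U2 1) * yy s l b * l (U2 (Q.N b)) * (s (U2 b) * yy s l a) * l (U2 (Q.N a)) * s (U2 a) := by
    rw [e3]
    calc s (U2 b) * (l2 s l (U2 1) * yy s l a * l (U2 (Q.N a)) * s (U2 a))
        = (s (U2 b) * l2 s l (U2 1)) * yy s l a * l (U2 (Q.N a)) * s (U2 a) := by group
      _ = _ := by rw [e2]; group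
  have e6 : l2 s l (U2 1) * yy s l b * l (U2 (Q.N b)) * (s (U2 b) * yy s l a) * l (U2 (Q.N a)) * s (U2 a) =
      l2 s l (U2 1) * yy s l (b + a) * l (U2 (Q.N (b + a))) * (s (U2 b) * s (U2 a)) := by
    rw [← e5, ← mul_assoc, e1]
  have e7 : s (U2 b) * yy s l a = (l (U2 (Q.N b)))⁻¹ * (yy s l b)⁻¹ * yy s l (b + a) * l (U2 (Q.N (b + a))) *
      (s (U2 b) * (l (U2 (Q.N a)))⁻¹) := by
    have h1 := H.D (Q.N a) 0
    have : s (U2 b) * yy s l a = (l2 s l (U2 1) * yy s l b * l (U2 (Q.N b)))⁻¹ *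
        (l2 s l (U2 1) * yy s l b * l (U2 (Q.N b)) * (s (U2 b) * yy s l a) * l (U2 (Q.N a)) * s (U2 a)) *
        ((s (U2 a))⁻¹ * (l (U2 (Q.N a)))⁻¹) := by group
    rw [this, e6]; group
  have e8 : s (U2 b) * (l (U2 (Q.N a)))⁻¹ = (l (U2 (Q.N a)))⁻¹ * s (U2 b) := by
    have := H.D (Q.N a) b
    rw [mul_inv_eq_iff_eq_mul, mul_assoc, ← this]; group
  have e9 : (yy s l b)⁻¹ * yy s l (b + a) = yy s l a := by rw [yy_inv, yy_mul]; congr 1; ring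
  have e10 : (l (U2 (Q.N b)))⁻¹ * yy s l a = yy s l a * (l (U2 (Q.N b)))⁻¹ := by
    have := H.yy_x1 a (Q.N b)
    rw [inv_mul_eq_iff_eq_mul, ← mul_assoc, ← this]; group
  rw [e7, e8]
  calc (l (U2 (Q.N b)))⁻¹ * (yy s l b)⁻¹ * yy s l (b + a) * l (U2 (Q.N (b + a))) * ((l (U2 (Q.N a)))⁻¹ * s (U2 b))
      = (l (U2 (Q.N b)))⁻¹ * ((yy s l b)⁻¹ * yy s l (b + a)) * l (U2 (Q.N (b + a))) * ((l (U2 (Q.N a)))⁻¹ * s (U2 b)) := by
        group
    _ = yy s l a * ((l (U2 (Q.N b)))⁻¹ * l (U2 (Q.N (b + a))) * (l (U2 (Q.N a)))⁻¹) * s (U2 b) := by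
        rw [e9, e10]; group
    _ = _ := by
        congr 2
        rw [← map_inv, ← map_inv, U2_inv, U2_inv, ← map_mul, U2_mul, ← map_mul, U2_mul, Q.N_add]
        congr 2; ring

lemma u_nn (b : K) (c d : k) (a : K) : s (U2 b) * nn s l c a d =
    nn s l (c + Q.T (b * Q.σ a) + d * Q.N b) (a + Q.ι d * b) d * s (U2 b) := by
  have h1 : s (U2 b) * l (U2 c) = l (U2 c) * s (U2 b) := (H.D c b).symm
  have h2 := H.u_yy b a
  have h3 := H.E b d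
  have h4 : nn s l (c + Q.T (b * Q.σ a) + d * Q.N b) (a + Q.ι d * b) d =
      nn s l c 0 0 * nn s l 0 a 0 * nn s l (Q.T (b * Q.σ a)) 0 0 * nn s l 0 0 d * nn s l 0 (Q.ι d * b) 0 *
        nn s l (d * Q.N b) 0 0 := by
    rw [H.nn_mul, H.nn_mul, H.nn_mul, H.nn_mul, H.nn_mul]; simp
  rw [h4, ← H.x1_eq, ← H.x1_eq, ← H.x1_eq, ← H.x2_eq, ← H.yy_eq', ← H.yy_eq']
  unfold nn
  calc s (U2 b) * (l (U2 c) * yy s l a * l2 s l (U2 d)) = (s (U2 b) * l (U2 c)) * yy s l a * l2 s l (U2 d) := by group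
    _ = l (U2 c) * (s (U2 b) * yy s l a) * l2 s l (U2 d) := by rw [h1]; group
    _ = l (U2 c) * yy s l a * l (U2 (Q.T (b * Q.σ a))) * (s (U2 b) * l2 s l (U2 d)) := by rw [h2]; group
    _ = _ := by rw [h3]; group

end Rel

end H6.Up
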