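import Cfsg.Agent.Lib.H6.UpB

/-!
Presentations of special unitary groups, part C: the double coset argument.
-/

set_option autoImplicit false

namespace H6.Up

open Matrix

variable {k K : Type*} [Field k] [Field K] {Q : QE k K} {G : Type*} [Group G]

/-- the parabolic subgroup -/
def Pc (s : SL2 K →* G) (l : SL2 k →* G) : Subgroup G :=
  Subgroup.closure ({x | ∃ c, x = l (U2 c)} ∪ {x | ∃ a, x = yy s l a} ∪ {x | ∃ e, x = l (H2 e)} ∪ (s.range : Set G))

/-- normal forms -/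
def PG (s : SL2 K →* G) (l : SL2 k →* G) : Set G := {g | ∃ c a d e A, g = nn s l c a d * l (H2 e) * s A}

/-- the stabilizer of the normal forms -/
def Stab (S : Set G) : Subgroup G where
  carrier := {x | ∀ g, x * g ∈ S ↔ g ∈ S}
  mul_mem' {x y} hx hy := by
    intro g
    rw [mul_assoc, hx, hy]
  one_mem' := fun g => by rw [one_mul]
  inv_mem' {x} hx := by
    intro g
    rw [← hx (x⁻¹ * g), mul_inv_cancel_left]

lemma mem_Stab {S : Set G} {x : G} (h1 : ∀ g ∈ S, x * g ∈ S) (h2 : ∀ g ∈ S, x⁻¹ * g ∈ S) : x ∈ Stab S := by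
  intro g
  constructor
  · intro h
    have := h2 _ h
    rwa [inv_mul_cancel_left] at this
  · exact h1 g

section
variable (s : SL2 K →* G) (l : SL2 k →* G)
lemma Pc_x1 (c : k) : l (U2 c) ∈ Pc s l := Subgroup.subset_closure (Or.inl (Or.inl (Or.inl ⟨c, rfl⟩)))
lemma Pc_yy (a : K) : yy s l a ∈ Pc s l := Subgroup.subset_closure (Or.inl (Or.inl (Or.inr ⟨a, rfl⟩)))
lemma Pc_h (e : kˣ) : l (H2 e) ∈ Pc s l := Subgroup.subset_closure (Or.inl (Or.inr ⟨e, rfl⟩))
lemma Pc_s (A : SL2 K) : s A ∈ Pc s l := Subgroup.subset_closure (Or.inr ⟨A, rfl⟩)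
lemma Pc_conj {g : SL2 k} (h : l g ∈ Pc s l) : l2 s l g ∈ Pc s l := by
  rw [l2_apply]; exact mul_mem (mul_mem (Pc_s s l _) h) (inv_mem (Pc_s s l _))
end

namespace Rel

variable {s : SL2 K →* G} {l : SL2 k →* G} (H : Rel Q s l)
include H

lemma one_PG : (1 : G) ∈ PG s l := by
  refine ⟨0, 0, 0, 1, 1, ?_⟩
  rw [← H.x1_eq, U2_zero, map_one, H2_one, map_one, map_one, mul_one, mul_one]

lemma nn_PG (c d : k) (a : K) {g : G} (hg : g ∈ PG s l) : nn s l c a d * g ∈ PG s l := by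
  obtain ⟨c', a', d', e, A, rfl⟩ := hg
  refine ⟨c + c', a + a', d + d', e, A, ?_⟩
  rw [← mul_assoc, ← mul_assoc, H.nn_mul]

lemma h_PG (e : kˣ) {g : G} (hg : g ∈ PG s l) : l (H2 e) * g ∈ PG s l := by
  obtain ⟨c', a', d', e', A, rfl⟩ := hg
  refine ⟨e * e * c', Q.ι e * a', d', e * e', A, ?_⟩
  rw [← mul_assoc, ← mul_assoc, H.h_nn, mul_assoc (nn s l _ _ _), ← map_mul, H2_mul]

lemma s_mv (A : SL2 K) (e : kˣ) (B : SL2 K) : ∃ B', s A * l (H2 e) * s B = l (H2 e) * s B' := by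
  have h := H.B e (cD (Q.ιu e⁻¹) A)
  rw [cD_cD, ← map_mul, mul_inv_cancel, map_one, cD_one] at h
  refine ⟨cD (Q.ιu e⁻¹) A * B, ?_⟩
  rw [← h, map_mul]; group

lemma u_PG (b : K) {g : G} (hg : g ∈ PG s l) : s (U2 b) * g ∈ PG s l := by
  obtain ⟨c, a, d, e, A, rfl⟩ := hg
  obtain ⟨B', h⟩ := H.s_mv (U2 b) e A
  refine ⟨c + Q.T (b * Q.σ a) + d * Q.N b, a + Q.ι d * b, d, e, B', ?_⟩
  rw [← mul_assoc, ← mul_assoc, H.u_nn, mul_assoc, mul_assoc, ← mul_assoc (s (U2 b)), h]; group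

lemma w_PG {g : G} (hg : g ∈ PG s l) : s W2 * g ∈ PG s l := by
  obtain ⟨c, a, d, e, A, rfl⟩ := hg
  obtain ⟨B', h⟩ := H.s_mv W2 e A
  refine ⟨d, -Q.σ a, c, e, B', ?_⟩
  rw [← mul_assoc, ← mul_assoc, H.w_nn, mul_assoc, mul_assoc, ← mul_assoc (s W2), h]; group

lemma minus_PG {g : G} (hg : g ∈ PG s l) : s (H2 (-1)) * g ∈ PG s l := by
  rw [← sW2_sq, mul_assoc]; exact H.w_PG (H.w_PG hg)

lemma s_Stab : s.range ≤ Stab (PG s l) := by
  have : (Stab (PG s l)).comap s = ⊤ := by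
    apply closure_U2_W2
    · intro b
      apply mem_Stab
      · intro g hg; exact H.u_PG b hg
      · intro g hg
        rw [← map_inv, U2_inv]; exact H.u_PG _ hg
    · apply mem_Stab
      · intro g hg; exact H.w_PG hg
      · intro g hg
        have : (s W2)⁻¹ = s (H2 (-1)) * s W2 := by
          rw [inv_eq_iff_mul_eq_one, ← mul_assoc, ← map_mul, ← map_mul]
          have : (W2 * H2 (-1) * W2 : SL2 K) = 1 := by
            rw [W2_H2, mul_assoc, W2_sq, H2_mul, inv_mul_cancel, H2_one]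
          rw [this, map_one]
        rw [this, mul_assoc]; exact H.minus_PG (H.w_PG hg)
  rintro _ ⟨A, rfl⟩
  have h := Subgroup.mem_top A
  rw [← this] at h
  exact h

lemma nn_Stab (c d : k) (a : K) : nn s l c a d ∈ Stab (PG s l) := by
  apply mem_Stab
  · intro g hg; exact H.nn_PG c d a hg
  · intro g hg; rw [H.nn_inv]; exact H.nn_PG _ _ _ hg

lemma Pc_le : Pc s l ≤ Stab (PG s l) := by
  unfold Pc
  rw [Subgroup.closure_le]
  rintro x (((⟨c, rfl⟩ | ⟨a, rfl⟩) | ⟨e, rfl⟩) | hx)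
  · rw [H.x1_eq]; exact H.nn_Stab _ _ _
  · rw [H.yy_eq']; exact H.nn_Stab _ _ _
  · apply mem_Stab
    · intro g hg; exact H.h_PG e hg
    · intro g hg; rw [← map_inv, H2_inv]; exact H.h_PG _ hg
  · exact H.s_Stab hx

lemma Pc_form {x : G} (hx : x ∈ Pc s l) : ∃ c a d e A, x = nn s l c a d * l (H2 e) * s A := by
  have := ((H.Pc_le hx) 1).2 H.one_PG
  rwa [mul_one] at this

end Rel

/-- the double coset representatives -/
def tt (s : SL2 K →* G) (l : SL2 k →* G) : Fin 3 → G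
  | 0 => 1
  | 1 => l W2
  | 2 => l W2 * l2 s l W2

/-- the union of the double cosets -/
def UU (s : SL2 K →* G) (l : SL2 k →* G) (g : G) : Prop := ∃ p ∈ Pc s l, ∃ p' ∈ Pc s l, ∃ j, g = p * tt s l j * p'

section
variable {s : SL2 K →* G} {l : SL2 k →* G}

lemma UU_left {p g : G} (hp : p ∈ Pc s l) (h : UU s l g) : UU s l (p * g) := by
  obtain ⟨p1, h1, p2, h2, j, rfl⟩ := h
  exact ⟨p * p1, mul_mem hp h1, p2, h2, j, by group⟩
lemma UU_right {p g : G} (hp : p ∈ Pc s l) (h : UU s l g) : UU s l (g * p) := by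
  obtain ⟨p1, h1, p2, h2, j, rfl⟩ := h
  exact ⟨p1, h1, p2 * p, mul_mem h2 hp, j, by group⟩
lemma UU_tt (j : Fin 3) : UU s l (tt s l j) := ⟨1, one_mem _, 1, one_mem _, j, by group⟩
lemma UU_t2 : UU s l (l2 s l W2) := by
  rw [l2_apply]
  exact UU_right (inv_mem (Pc_s s l _)) (UU_left (Pc_s s l _) (UU_tt 1))
end

namespace Rel

variable {s : SL2 K →* G} {l : SL2 k →* G} (H : Rel Q s l)
include H

omit H in
lemma brl (g : SL2 k) : (l g ∈ Pc s l) ∨ ∃ p p', l p ∈ Pc s l ∧ l p' ∈ Pc s l ∧ g = p * W2 * p' := by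
  rcases bruhat g with ⟨b, z, h⟩ | ⟨b, z, c, h⟩
  · left
    rw [h, map_mul]; exact mul_mem (Pc_x1 s l _) (Pc_h s l _)
  · right
    refine ⟨U2 b * H2 z, U2 c, ?_, Pc_x1 s l _, h⟩
    rw [map_mul]; exact mul_mem (Pc_x1 s l _) (Pc_h s l _)

lemma UU_ll (g h : SL2 k) : UU s l (l g * l2 s l h) := by
  rcases brl (s := s) (l := l) g with h1 | ⟨p, p', hp, hp', rfl⟩
  · apply UU_left h1
    rcases brl (s := s) (l := l) h with h2 | ⟨r, r', hr, hr', rfl⟩
    · exact ⟨1, one_mem _, l2 s l h, Pc_conj s l h2, 0, by unfold tt; group⟩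
    · rw [map_mul, map_mul]
      exact UU_right (Pc_conj s l hr') (UU_left (Pc_conj s l hr) UU_t2)
  · rcases brl (s := s) (l := l) h with h2 | ⟨r, r', hr, hr', rfl⟩
    · apply UU_right (Pc_conj s l h2)
      rw [map_mul, map_mul]
      exact UU_right hp' (UU_left hp (UU_tt 1))
    · have e1 := H.A p' r
      have e2 := H.A W2 r
      have e3 := H.A p' W2
      have : l (p * W2 * p') * l2 s l (r * W2 * r') =
          (l p * l2 s l r) * (l W2 * l2 s l W2) * (l p' * l2 s l r') := by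
        simp only [map_mul]
        calc l p * l W2 * l p' * (l2 s l r * l2 s l W2 * l2 s l r')
            = l p * l W2 * (l p' * l2 s l r) * l2 s l W2 * l2 s l r' := by group
          _ = l p * (l W2 * l2 s l r) * (l p' * l2 s l W2) * l2 s l r' := by rw [e1]; group
          _ = _ := by rw [e2, e3]; group
      rw [this]
      exact UU_right (mul_mem hp' (Pc_conj s l hr')) (UU_left (mul_mem hp (Pc_conj s l hr)) (UU_tt 2))

/-- `t₁` and lower elements -/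
lemma t1_L (a : K) : l W2 * s (L2 a) = (l W2 * l W2 * yy s l (Q.σ a) * (l W2 * l W2)⁻¹) * l W2 := by
  rw [H.yy_eq, Q.inv]; group

lemma t1sq : l W2 * l W2 ∈ Pc s l := by
  rw [← map_mul, W2_sq]; exact Pc_h s l _

lemma t1_L' (a : K) : ∃ p ∈ Pc s l, l W2 * s (L2 a) = p * l W2 :=
  ⟨_, mul_mem (mul_mem H.t1sq (Pc_yy s l _)) (inv_mem H.t1sq), H.t1_L a⟩

/-- lower elements and `t₁` -/
lemma L_t1 (a : K) : s (L2 a) * l W2 = l W2 * yy s l (Q.σ a) := by
  rw [H.yy_eq, Q.inv]; group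

lemma t1_H (z : Kˣ) : ∃ p ∈ Pc s l, l W2 * s (H2 z) = p * l W2 := by
  have h := H.C z W2
  rw [cD_W2, map_mul] at h
  refine ⟨(l (H2 (Q.Nu z)))⁻¹ * s (H2 z), mul_mem (inv_mem (Pc_h s l _)) (Pc_s s l _), ?_⟩
  rw [mul_assoc, h]; group

lemma H_t2 (z : Kˣ) : s (H2 z) * l2 s l W2 = l2 s l (H2 (Q.Nu z)⁻¹ * W2) * s (H2 z) := by
  rw [C2 H.C, cD_W2]

lemma L_x1 (a : K) (c : k) : l (U2 c) * s (L2 a) = s (L2 a) * nn s l c (-(Q.ι c * Q.σ a)) (c * Q.N a) := by
  -- conjugate `u_nn` by `w`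
  have h1 := H.u_nn a 0 c 0
  rw [map_zero, mul_zero] at h1
  have hT : Q.T 0 = 0 := by
    apply Q.ιu_inj
    rw [Q.hT, map_zero, add_zero, map_zero]
  rw [hT, zero_add, zero_add, zero_add] at h1
  have h2 : s (L2 a) = s W2 * s (U2 (-a)) * (s W2)⁻¹ := by
    rw [eq_mul_inv_iff_mul_eq, ← map_mul, ← map_mul, W2_U2, neg_neg]
  have h3 := H.u_nn (-a) 0 c 0
  rw [map_zero, mul_zero, hT, zero_add, zero_add, zero_add, Q.N_neg] at h3
  -- nn 0 0 c * s(U(-a)) = s(U(-a)) * X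
  have h4 := H.u_nn (-a) (c * Q.N a) c (Q.ι c * a)
  have h5 : Q.T (-a * Q.σ (Q.ι c * a)) = -(c * Q.N a + c * Q.N a) := by
    apply Q.ιu_inj
    rw [Q.hT, map_neg, map_add, map_mul Q.ι, Q.hN, map_mul, map_mul, map_mul, Q.fix, map_neg, Q.inv, Q.fix]; ring
  rw [h5, Q.N_neg] at h4
  have h6 : nn s l 0 0 c * s (U2 (-a)) = s (U2 (-a)) * nn s l (c * Q.N a) (Q.ι c * a) c := by
    rw [h4]; congr 2 <;> ring
  have h7 := H.w_nn (c * Q.N a) c (Q.ι c * a)
  have h8 : l (U2 c) * s W2 = s W2 * l2 s l (U2 c) := (w_l2 H.C _).symm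
  rw [map_mul, Q.fix] at h7
  rw [h2]
  calc l (U2 c) * (s W2 * s (U2 (-a)) * (s W2)⁻¹) = (l (U2 c) * s W2) * s (U2 (-a)) * (s W2)⁻¹ := by group
    _ = s W2 * (nn s l 0 0 c * s (U2 (-a))) * (s W2)⁻¹ := by rw [h8, H.x2_eq]; group
    _ = s W2 * s (U2 (-a)) * (s W2)⁻¹ * (s W2 * nn s l (c * Q.N a) (Q.ι c * a) c) * (s W2)⁻¹ := by rw [h6]; group
    _ = _ := by rw [h7]; group

/-- the key step -/
lemma key1 (b : K) (c : k) : UU s l (l W2 * s (U2 b) * l (U2 c) * l W2) := by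
  by_cases hb : b = 0
  · subst hb
    rw [U2_zero, map_one, mul_one]
    have := H.UU_ll (W2 * U2 c * W2) 1
    rwa [map_one, mul_one, map_mul, map_mul] at this
  · obtain ⟨u, rfl⟩ : ∃ u : Kˣ, b = u := ⟨Units.mk0 b hb, rfl⟩
    have e1 : s (U2 (u : K)) * l (U2 c) = l (U2 c) * s (U2 (u : K)) := (H.D c u).symm
    have e2 := U2_split u
    set β : K := ((u⁻¹ : Kˣ) : K) with hβ
    have e3 := H.L_t1 β
    have e4 := w_l (s := s) (l := l) (W2 : SL2 k)
    have e5 := H.H_t2 u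
    have e6 := H.L_x1 β c
    obtain ⟨p, hp, e7⟩ := H.t1_L' β
    have e8 : nn s l c (-(Q.ι c * Q.σ β)) (c * Q.N β) =
        yy s l (-(Q.ι c * Q.σ β)) * (l (U2 c) * l2 s l (U2 (c * Q.N β))) := by
      rw [H.yy_eq', H.x1_eq, H.x2_eq, H.nn_mul, H.nn_mul]; simp
    have e9 : l W2 * yy s l (-(Q.ι c * Q.σ β)) = s (L2 (Q.σ (-(Q.ι c * Q.σ β)))) * l W2 := by
      rw [H.L_t1, Q.inv]
    have e10 : l W2 * s (U2 (u : K)) * l (U2 c) * l W2 =
        (p * s (L2 (Q.σ (-(Q.ι c * Q.σ β))))) *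
          (l (W2 * U2 c) * l2 s l (U2 (c * Q.N β) * (H2 (Q.Nu u)⁻¹ * W2))) *
          (s (H2 u) * s W2 * yy s l (Q.σ β)) := by
      rw [mul_assoc (l W2), e1, e2]
      simp only [map_mul]
      calc l W2 * (l (U2 c) * (s (L2 β) * (s (H2 u) * s W2) * s (L2 β))) * l W2
          = l W2 * (l (U2 c) * s (L2 β)) * s (H2 u) * s W2 * (s (L2 β) * l W2) := by group
        _ = (l W2 * s (L2 β)) * nn s l c (-(Q.ι c * Q.σ β)) (c * Q.N β) * s (H2 u) * (s W2 * l W2) * yy s l (Q.σ β) := by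
            rw [e3, e6]; group
        _ = p * (l W2 * yy s l (-(Q.ι c * Q.σ β))) * (l (U2 c) * l2 s l (U2 (c * Q.N β))) *
              (s (H2 u) * l2 s l W2) * s W2 * yy s l (Q.σ β) := by
            rw [e7, e8, e4]; group
        _ = _ := by rw [e9, e5, map_mul]; group
    rw [e10]
    exact UU_right (mul_mem (mul_mem (Pc_s s l _) (Pc_s s l _)) (Pc_yy s l _))
      (UU_left (mul_mem hp (Pc_s s l _)) (H.UU_ll _ _))

lemma key (j : Fin 3) (A : SL2 K) (c : k) : UU s l (tt s l j * s A * l (U2 c) * l W2) := by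
  fin_cases j
  · change UU s l (1 * s A * l (U2 c) * l W2)
    exact UU_left (mul_mem (mul_mem (one_mem _) (Pc_s s l _)) (Pc_x1 s l _)) (UU_tt 1)
  · change UU s l (l W2 * s A * l (U2 c) * l W2)
    rcases lower A with ⟨a, z, b, rfl⟩ | ⟨a, z, rfl⟩
    · obtain ⟨p, hp, h1⟩ := H.t1_L' a
      obtain ⟨p', hp', h2⟩ := H.t1_H z
      have : l W2 * s (L2 a * H2 z * U2 b) * l (U2 c) * l W2 = (p * p') * (l W2 * s (U2 b) * l (U2 c) * l W2) := by
        rw [map_mul, map_mul]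
        calc l W2 * (s (L2 a) * s (H2 z) * s (U2 b)) * l (U2 c) * l W2
            = (l W2 * s (L2 a)) * s (H2 z) * s (U2 b) * l (U2 c) * l W2 := by group
          _ = p * (l W2 * s (H2 z)) * s (U2 b) * l (U2 c) * l W2 := by rw [h1]; group
          _ = _ := by rw [h2]; group
      rw [this]
      exact UU_left (mul_mem hp hp') (H.key1 b c)
    · obtain ⟨p, hp, h1⟩ := H.t1_L' a
      obtain ⟨p', hp', h2⟩ := H.t1_H z
      have h3 := w_l (s := s) (l := l) (U2 c * W2)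
      have : l W2 * s (L2 a * H2 z * W2) * l (U2 c) * l W2 = (p * p') * (l W2 * l2 s l (U2 c * W2)) * s W2 := by
        rw [map_mul, map_mul]
        calc l W2 * (s (L2 a) * s (H2 z) * s W2) * l (U2 c) * l W2
            = (l W2 * s (L2 a)) * s (H2 z) * s W2 * (l (U2 c) * l W2) := by group
          _ = p * (l W2 * s (H2 z)) * (s W2 * l (U2 c * W2)) := by rw [h1, map_mul l]; group
          _ = _ := by rw [h2, h3]; group
      rw [this]
      exact UU_right (Pc_s s l _) (UU_left (mul_mem hp hp') (H.UU_ll _ _))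
  · change UU s l (l W2 * l2 s l W2 * s A * l (U2 c) * l W2)
    have h1 := H.F A
    have h2 := H.A (U2 c * W2) W2
    have : l W2 * l2 s l W2 * s A * l (U2 c) * l W2 = s (Q.th A) * (l (W2 * (U2 c * W2)) * l2 s l W2) := by
      rw [h1, map_mul l W2]
      calc s (Q.th A) * (l W2 * l2 s l W2) * l (U2 c) * l W2
          = s (Q.th A) * l W2 * (l2 s l W2 * (l (U2 c) * l W2)) := by group
        _ = s (Q.th A) * l W2 * (l2 s l W2 * l (U2 c * W2)) := by rw [map_mul l (U2 c)]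
        _ = _ := by rw [← h2]; group
    rw [this]
    exact UU_left (Pc_s s l _) (H.UU_ll _ _)

/-- every element of the parabolic, adapted to right multiplication by `t₁` -/
lemma Pc_form' {x : G} (hx : x ∈ Pc s l) : ∃ A c, ∃ r ∈ Pc s l, x * l W2 = s A * l (U2 c) * l W2 * r := by
  obtain ⟨c, a, d, e, A, h⟩ := H.Pc_form (inv_mem hx)
  have h0 : x = s A⁻¹ * (l (H2 e⁻¹) * nn s l (-c) (-a) (-d)) := by
    rw [← inv_inv x, h, ← H.nn_inv, map_inv, ← H2_inv, map_inv]; group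
  rw [H.h_nn] at h0
  set c' := ((e⁻¹ : kˣ) : k) * ((e⁻¹ : kˣ) : k) * (-c) with hc'
  set a' := Q.ι ((e⁻¹ : kˣ) : k) * (-a) with ha'
  have h1 : nn s l c' a' (-d) = l (U2 c') * (yy s l a' * l2 s l (U2 (-d))) := by unfold nn; group
  have h2 : l2 s l (U2 (-d)) * l (H2 e⁻¹ * W2) = l (H2 e⁻¹ * W2) * l2 s l (U2 (-d)) := (H.A _ _).symm
  have h3 : (H2 e⁻¹ * W2 : SL2 k) = W2 * H2 e := by rw [W2_H2]
  have h4 : yy s l a' * l W2 = l W2 * ((l W2 * l W2)⁻¹ * s (L2 (Q.σ a')) * (l W2 * l W2)) := by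
    rw [H.yy_eq]; group
  refine ⟨A⁻¹, c', ((l W2 * l W2)⁻¹ * s (L2 (Q.σ a')) * (l W2 * l W2)) * l (H2 e) * l2 s l (U2 (-d)),
    mul_mem (mul_mem (mul_mem (mul_mem (inv_mem H.t1sq) (Pc_s s l _)) H.t1sq) (Pc_h s l _))
      (Pc_conj s l (Pc_x1 s l _)), ?_⟩
  rw [h0, h1]
  calc s A⁻¹ * (l (U2 c') * (yy s l a' * l2 s l (U2 (-d))) * l (H2 e⁻¹)) * l W2
      = s A⁻¹ * l (U2 c') * yy s l a' * (l2 s l (U2 (-d)) * (l (H2 e⁻¹) * l W2)) := by group
    _ = s A⁻¹ * l (U2 c') * yy s l a' * (l2 s l (U2 (-d)) * l (H2 e⁻¹ * W2)) := by rw [map_mul l (H2 e⁻¹)]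
    _ = s A⁻¹ * l (U2 c') * (yy s l a' * l W2) * l (H2 e) * l2 s l (U2 (-d)) := by
        rw [h2, h3, map_mul l W2]; group
    _ = _ := by rw [h4]; group

lemma UU_t1 {g : G} (h : UU s l g) : UU s l (g * l W2) := by
  obtain ⟨p, hp, p', hp', j, rfl⟩ := h
  obtain ⟨A, c, r, hr, h1⟩ := H.Pc_form' hp'
  have : p * tt s l j * p' * l W2 = p * (tt s l j * s A * l (U2 c) * l W2) * r := by
    rw [mul_assoc (p * tt s l j), h1]; group
  rw [this]
  exact UU_right hr (UU_left hp (H.key j A c))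

lemma UU_all (hgen : Subgroup.closure ((s.range : Set G) ∪ (l.range : Set G)) = ⊤) (g : G) : UU s l g := by
  let St : Subgroup G :=
    { carrier := {x | ∀ g, UU s l (g * x) ↔ UU s l g}
      mul_mem' := by
        intro x y hx hy g
        rw [← mul_assoc, hy, hx]
      one_mem' := fun g => by rw [mul_one]
      inv_mem' := by
        intro x hx g
        rw [← hx (g * x⁻¹), inv_mul_cancel_right] }
  have hP : ∀ x ∈ Pc s l, x ∈ St := by
    intro x hx g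
    constructor
    · intro h
      have := UU_right (inv_mem hx) h
      rwa [mul_inv_cancel_right] at this
    · exact UU_right hx
  have ht : l W2 ∈ St := by
    intro g
    constructor
    · intro h
      have h1 := H.UU_t1 (H.UU_t1 (H.UU_t1 h))
      have h2 : g * l W2 * l W2 * l W2 * l W2 = g := by
        have : (W2 * W2 * W2 * W2 : SL2 k) = 1 := by
          rw [mul_assoc (W2 * W2), W2_sq, H2_mul]
          have : (-1 * -1 : kˣ) = 1 := by rw [neg_mul_neg, one_mul]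
          rw [this, H2_one]
        have h3 : l W2 * l W2 * l W2 * l W2 = 1 := by rw [← map_mul, ← map_mul, ← map_mul, this, map_one]
        calc g * l W2 * l W2 * l W2 * l W2 = g * (l W2 * l W2 * l W2 * l W2) := by group
          _ = g := by rw [h3, mul_one]
      rwa [h2] at h1
    · exact H.UU_t1
  have hl : St.comap l = ⊤ := closure_U2_W2 _ (fun b => hP _ (Pc_x1 s l _)) ht
  have htop : St = ⊤ := by
    rw [eq_top_iff, ← hgen, Subgroup.closure_le]
    rintro x (⟨A, rfl⟩ | ⟨g, rfl⟩)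
    · exact hP _ (Pc_s s l _)
    · have := Subgroup.mem_top g
      rw [← hl] at this
      exact this
  have h1 : g ∈ St := by rw [htop]; exact Subgroup.mem_top g
  have h2 := (h1 1).2 (UU_tt 0)
  rwa [one_mul] at h2

/-- the kernel criterion -/
theorem ker_trivial {Γ : Type*} [Group Γ] (hgen : Subgroup.closure ((s.range : Set G) ∪ (l.range : Set G)) = ⊤)
    (π : G →* Γ) (PP : Subgroup Γ) (hPP : ∀ x ∈ Pc s l, π x ∈ PP) (h1 : π (l W2) ∉ PP)
    (h2 : π (l W2 * l2 s l W2) ∉ PP)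
    (hinj : ∀ c a d e A, π (nn s l c a d * l (H2 e) * s A) = 1 → c = 0 ∧ a = 0 ∧ d = 0 ∧ e = 1 ∧ A = 1) :
    Function.Injective π := by
  rw [injective_iff_map_eq_one]
  intro g hg
  obtain ⟨p, hp, p', hp', j, h⟩ := H.UU_all hgen g
  have h3 : π (tt s l j) ∈ PP := by
    have : tt s l j = p⁻¹ * g * p'⁻¹ := by rw [h]; group
    rw [this, map_mul, map_mul, hg, mul_one]
    exact mul_mem (hPP _ (inv_mem hp)) (hPP _ (inv_mem hp'))
  have h4 : g ∈ Pc s l := by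
    fin_cases j
    · rw [h]
      exact mul_mem (mul_mem hp (one_mem _)) hp'
    · exact absurd h3 h1
    · exact absurd h3 h2
  obtain ⟨c, a, d, e, A, h5⟩ := H.Pc_form h4
  obtain ⟨rfl, rfl, rfl, rfl, rfl⟩ := hinj c a d e A (by rw [← h5]; exact hg)
  rw [h5, ← H.x1_eq, U2_zero, map_one, H2_one, map_one, map_one, mul_one, mul_one]

end Rel

end H6.Up
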