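import Cfsg.Agent.Lib.H6.UpC
import Cfsg.Agent.Lib.H6.SpPresC

/-!
Presentations of special unitary groups, part D: from finitely many relations to all of them.
-/

set_option autoImplicit false

namespace H6.Up

open Matrix

variable {G : Type*} [Group G]

lemma hom_ext_gen {A : Type*} [Group A] {ι : Type*} {v : ι → A} (hv : Subgroup.closure (Set.range v) = ⊤)
    (f f' : A →* G) (x : G) (h : ∀ i, x * f (v i) = f' (v i) * x) (a : A) : x * f a = f' a * x := by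
  have ha : a ∈ Subgroup.closure (Set.range v) := by rw [hv]; trivial
  induction ha using Subgroup.closure_induction with
  | mem y hy => obtain ⟨i, rfl⟩ := hy; exact h i
  | one => rw [map_one, map_one, one_mul, mul_one]
  | mul a b _ _ ha hb => rw [map_mul, map_mul, ← mul_assoc, ha, mul_assoc, hb, mul_assoc]
  | inv a _ ha =>
    rw [map_inv, map_inv, eq_inv_mul_iff_mul_eq, ← mul_assoc, ← ha, mul_assoc, mul_inv_cancel, mul_one]

lemma pow_ext {A B : Type*} [Group A] [CommGroup B] (f : A →* G) (x : B →* G) (θ : B → A → A)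
    (hθ : ∀ d d' a, θ d (θ d' a) = θ (d * d') a) (h1 : ∀ a, θ 1 a = a) {ζ : B}
    (hζ : ∀ d, d ∈ Subgroup.zpowers ζ) (h : ∀ a, x ζ * f a = f (θ ζ a) * x ζ) (d : B) (a : A) :
    x d * f a = f (θ d a) * x d := by
  let S : Subgroup B :=
    { carrier := {d | ∀ a, x d * f a = f (θ d a) * x d}
      mul_mem' := by
        intro d d' hd hd' a
        rw [map_mul, mul_assoc, hd' a, ← mul_assoc, hd, hθ, mul_assoc]
      one_mem' := by
        intro a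
        rw [map_one, h1, one_mul, mul_one]
      inv_mem' := by
        intro d hd a
        have := hd (θ d⁻¹ a)
        rw [hθ, mul_inv_cancel, h1] at this
        rw [map_inv, inv_mul_eq_iff_eq_mul, ← mul_assoc, this, mul_assoc, mul_inv_cancel, mul_one] }
  have : Subgroup.zpowers ζ ≤ S := by
    rw [Subgroup.zpowers_le]
    exact h
  exact this (hζ d) a

/-- the torus as a homomorphism -/
def H2h {R : Type*} [CommRing R] : Rˣ →* SL2 R where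
  toFun := H2
  map_one' := H2_one
  map_mul' a b := (H2_mul a b).symm

variable {k K : Type*} [Field k] [Field K] (Q : QE k K)

/-- finitely many relations -/
structure Fin4 (bb : Fin 3 → SL2 K) (cc : Fin 3 → SL2 k) (ζ : Kˣ) (ν : kˣ) (s : SL2 K →* G) (l : SL2 k →* G) :
    Prop where
  A : ∀ i j, l (cc i) * l2 s l (cc j) = l2 s l (cc j) * l (cc i)
  B : ∀ i, l (H2 ν) * s (bb i) = s (cD (Q.ιu ν) (bb i)) * l (H2 ν)
  C : ∀ i, s (H2 ζ) * l (cc i) = l (cD (Q.Nu ζ) (cc i)) * s (H2 ζ)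
  D1 : l (U2 1) * s (U2 1) = s (U2 1) * l (U2 1)
  D2 : l (U2 1) * s (U2 (ζ : K)) = s (U2 (ζ : K)) * l (U2 1)
  E1 : s (U2 1) * l2 s l (U2 1) = nn s l 1 1 1 * s (U2 1)
  E2 : s (U2 (ζ : K)) * l2 s l (U2 1) = nn s l (Q.N ζ) ζ 1 * s (U2 (ζ : K))
  F : ∀ i, l W2 * l2 s l W2 * s (bb i) = s (Q.th (bb i)) * (l W2 * l2 s l W2)

variable {Q} {bb : Fin 3 → SL2 K} {cc : Fin 3 → SL2 k} {ζ : Kˣ} {ν : kˣ} {s : SL2 K →* G} {l : SL2 k →* G}

section D

lemma D_tor1 (hB : ∀ d g, l (H2 d) * s g = s (cD (Q.ιu d) g) * l (H2 d)) (d : kˣ) {c : k} {b : K}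
    (h : l (U2 c) * s (U2 b) = s (U2 b) * l (U2 c)) :
    l (U2 (d * d * c)) * s (U2 (Q.ι d * b)) = s (U2 (Q.ι d * b)) * l (U2 (d * d * c)) := by
  have h1 : l (H2 d) * l (U2 c) = l (U2 (d * d * c)) * l (H2 d) := by rw [← map_mul, H2_U2, map_mul]
  have h2 := hB d (U2 b)
  rw [cD_U2, Q.ιu_val] at h2
  have e1 : l (U2 (d * d * c)) = l (H2 d) * l (U2 c) * (l (H2 d))⁻¹ := by rw [h1]; group
  have e2 : s (U2 (Q.ι d * b)) = l (H2 d) * s (U2 b) * (l (H2 d))⁻¹ := by rw [h2]; group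
  rw [e1, e2]
  calc l (H2 d) * l (U2 c) * (l (H2 d))⁻¹ * (l (H2 d) * s (U2 b) * (l (H2 d))⁻¹)
      = l (H2 d) * (l (U2 c) * s (U2 b)) * (l (H2 d))⁻¹ := by group
    _ = _ := by rw [h]; group

lemma D_tor2 (hC : ∀ z g, s (H2 z) * l g = l (cD (Q.Nu z) g) * s (H2 z)) (z : Kˣ) {c : k} {b : K}
    (h : l (U2 c) * s (U2 b) = s (U2 b) * l (U2 c)) :
    l (U2 (Q.N z * c)) * s (U2 ((z : K) * z * b)) = s (U2 ((z : K) * z * b)) * l (U2 (Q.N z * c)) := by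
  have h1 := hC z (U2 c)
  rw [cD_U2, Q.Nu_val] at h1
  have h2 : s (H2 z) * s (U2 b) = s (U2 ((z : K) * z * b)) * s (H2 z) := by rw [← map_mul, H2_U2, map_mul]
  have e1 : l (U2 (Q.N z * c)) = s (H2 z) * l (U2 c) * (s (H2 z))⁻¹ := by rw [h1]; group
  have e2 : s (U2 ((z : K) * z * b)) = s (H2 z) * s (U2 b) * (s (H2 z))⁻¹ := by rw [h2]; group
  rw [e1, e2]
  calc s (H2 z) * l (U2 c) * (s (H2 z))⁻¹ * (s (H2 z) * s (U2 b) * (s (H2 z))⁻¹)
      = s (H2 z) * (l (U2 c) * s (U2 b)) * (s (H2 z))⁻¹ := by group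
    _ = _ := by rw [h]; group

lemma D_addb {c : k} {b b' : K} (h : l (U2 c) * s (U2 b) = s (U2 b) * l (U2 c))
    (h' : l (U2 c) * s (U2 b') = s (U2 b') * l (U2 c)) :
    l (U2 c) * s (U2 (b + b')) = s (U2 (b + b')) * l (U2 c) := by
  rw [← U2_mul, map_mul, ← mul_assoc, h, mul_assoc, h', mul_assoc]

lemma D_addc {c c' : k} {b : K} (h : l (U2 c) * s (U2 b) = s (U2 b) * l (U2 c))
    (h' : l (U2 c') * s (U2 b) = s (U2 b) * l (U2 c')) :
    l (U2 (c + c')) * s (U2 b) = s (U2 b) * l (U2 (c + c')) := by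
  rw [← U2_mul, map_mul, mul_assoc, h', ← mul_assoc, h, mul_assoc]

lemma D_negc {c : k} {b : K} (h : l (U2 c) * s (U2 b) = s (U2 b) * l (U2 c)) :
    l (U2 (-c)) * s (U2 b) = s (U2 b) * l (U2 (-c)) := by
  rw [← U2_inv, map_inv, inv_mul_eq_iff_eq_mul, ← mul_assoc, h, mul_assoc, mul_inv_cancel, mul_one]

/-- `k + kζ` -/
lemma exists_coord {z : K} (hz : Q.σ z ≠ z) (x : K) : ∃ a b, x = Q.ι a + Q.ι b * z := by
  have h0 : z - Q.σ z ≠ 0 := sub_ne_zero.2 (Ne.symm hz)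
  obtain ⟨b, hb⟩ := Q.mem ((x - Q.σ x) / (z - Q.σ z)) (by
    rw [map_div₀, map_sub, map_sub, Q.inv, Q.inv, ← neg_sub x, ← neg_sub z, neg_div_neg_eq])
  obtain ⟨a, ha⟩ := Q.mem (x - Q.ι b * z) (by
    rw [map_sub, map_mul, Q.fix]
    have h1 : Q.ι b * (z - Q.σ z) = x - Q.σ x := by rw [hb]; field_simp
    linear_combination h1)
  exact ⟨a, b, by rw [ha]; ring⟩

lemma sigma_ne (hζ : ∀ x : Kˣ, x ∈ Subgroup.zpowers ζ) (hne : ∃ x, Q.σ x ≠ x) : Q.σ ζ ≠ ζ := by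
  intro h
  obtain ⟨x, hx⟩ := hne
  apply hx
  by_cases hx0 : x = 0
  · rw [hx0, map_zero]
  · obtain ⟨n, hn⟩ := hζ (Units.mk0 x hx0)
    have h1 : x = (ζ : K) ^ n := by
      have := congrArg Units.val hn
      simpa using this.symm
    rw [h1, map_zpow₀, h]

lemma D_all [Finite k] (hζ : ∀ x : Kˣ, x ∈ Subgroup.zpowers ζ) (hne : ∃ x, Q.σ x ≠ x)
    (hB : ∀ d g, l (H2 d) * s g = s (cD (Q.ιu d) g) * l (H2 d))
    (hC : ∀ z g, s (H2 z) * l g = l (cD (Q.Nu z) g) * s (H2 z))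
    (D1 : l (U2 1) * s (U2 1) = s (U2 1) * l (U2 1))
    (D2 : l (U2 1) * s (U2 (ζ : K)) = s (U2 (ζ : K)) * l (U2 1)) (c : k) (b : K) :
    l (U2 c) * s (U2 b) = s (U2 b) * l (U2 c) := by
  have hsc : ∀ (e : k) (b : K), l (U2 1) * s (U2 b) = s (U2 b) * l (U2 1) →
      l (U2 1) * s (U2 (Q.ι e * b)) = s (U2 (Q.ι e * b)) * l (U2 1) := by
    intro e b h
    by_cases he : e = 0
    · subst he
      rw [map_zero, zero_mul, U2_zero, map_one, one_mul, mul_one]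
    · obtain ⟨d, hd⟩ : ∃ d : kˣ, (d : k)⁻¹ = e := ⟨Units.mk0 e⁻¹ (inv_ne_zero he), by simp⟩
      have h1 := D_tor2 hC (Q.ιu d⁻¹) (D_tor1 hB d h)
      have e1 : Q.N ((Q.ιu d⁻¹ : Kˣ) : K) * (d * d * 1) = 1 := by
        rw [Q.ιu_val, Q.N_ι]
        have : ((d⁻¹ : kˣ) : k) * d = 1 := Units.inv_mul d
        linear_combination (((d⁻¹ : kˣ) : k) * d + 1) * this
      have e2 : ((Q.ιu d⁻¹ : Kˣ) : K) * ((Q.ιu d⁻¹ : Kˣ) : K) * (Q.ι d * b) = Q.ι e * b := by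
        rw [Q.ιu_val, ← hd, ← mul_assoc, ← map_mul, ← map_mul]
        congr 2
        simp
      rw [e1, e2] at h1
      exact h1
  have h1 : ∀ b, l (U2 1) * s (U2 b) = s (U2 b) * l (U2 1) := by
    intro b
    obtain ⟨a, a', rfl⟩ := exists_coord (sigma_ne hζ hne) b
    apply D_addb
    · have := hsc a 1 D1
      rwa [mul_one] at this
    · exact hsc a' _ D2
  have h2 : ∀ c, ∀ b, l (U2 c) * s (U2 b) = s (U2 b) * l (U2 c) := by
    apply H6.SpPres.squares_span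
    · intro c c' h h' b
      exact D_addc (h b) (h' b)
    · intro c h b
      exact D_negc (h b)
    · intro a ha b
      have h3 := D_tor1 hB (Units.mk0 a ha) (h1 ((Q.ι a)⁻¹ * b))
      have e1 : Q.ι ((Units.mk0 a ha : kˣ) : k) * ((Q.ι a)⁻¹ * b) = b := by
        rw [Units.val_mk0]
        have : Q.ι a ≠ 0 := by rwa [ne_eq, map_eq_zero]
        field_simp
      rw [e1, Units.val_mk0, mul_one] at h3
      exact h3
    · intro b
      rw [U2_zero, map_one, one_mul, mul_one]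
  exact h2 c b

end D

section E

variable (H : Rel0 Q s l)
include H

/-- the torus of `s` and `yy` -/
lemma Rel0.t_yy (z : Kˣ) (a : K) : s (H2 z) * yy s l a = yy s l (z * (Q.σ z)⁻¹ * a) * s (H2 z) := by
  have h1 := C2 (s := s) (l := l) H.C z W2
  rw [cD_W2, map_mul] at h1
  have h2 := B2 (s := s) (l := l) H.B (Q.Nu z) (U2 ((z : K) * z * a))
  rw [cD_U2] at h2
  have h3 : s (H2 z) * s (U2 a) = s (U2 ((z : K) * z * a)) * s (H2 z) := by rw [← map_mul, H2_U2, map_mul]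
  have e1 : ((((Q.ιu (Q.Nu z))⁻¹ : Kˣ) : K)) * ((z : K) * z * a) = z * (Q.σ z)⁻¹ * a := by
    have hz : (z : K) ≠ 0 := z.ne_zero
    have hs : Q.σ z ≠ 0 := by rwa [ne_eq, map_eq_zero]
    rw [Units.val_inv_eq_inv_val, Q.ιu_val, Q.Nu_val, Q.hN]
    field_simp
  rw [e1] at h2
  have e2 : s (H2 z) * (l2 s l W2)⁻¹ = (l2 s l W2)⁻¹ * l2 s l (H2 (Q.Nu z)) * s (H2 z) := by
    rw [← H2_inv, map_inv] at h1
    have : s (H2 z) = (l2 s l (H2 (Q.Nu z)))⁻¹ * l2 s l W2 * s (H2 z) * (l2 s l W2)⁻¹ := by rw [← h1]; group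
    have h5 : (l2 s l W2)⁻¹ * l2 s l (H2 (Q.Nu z)) * s (H2 z) = s (H2 z) * (l2 s l W2)⁻¹ := by
      conv_lhs => rw [this]
      group
    exact h5.symm
  have e3 : s (H2 z) * l2 s l W2 = (l2 s l (H2 (Q.Nu z)))⁻¹ * l2 s l W2 * s (H2 z) := by
    rw [h1, ← H2_inv, map_inv]
  unfold yy
  calc s (H2 z) * ((l2 s l W2)⁻¹ * s (U2 a) * l2 s l W2) = (s (H2 z) * (l2 s l W2)⁻¹) * s (U2 a) * l2 s l W2 := by group
    _ = (l2 s l W2)⁻¹ * l2 s l (H2 (Q.Nu z)) * (s (H2 z) * s (U2 a)) * l2 s l W2 := by rw [e2]; group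
    _ = (l2 s l W2)⁻¹ * (l2 s l (H2 (Q.Nu z)) * s (U2 ((z : K) * z * a))) * (s (H2 z) * l2 s l W2) := by rw [h3]; group
    _ = _ := by rw [h2, e3]; group

lemma E_add {b : K} {c c' : k} (h : s (U2 b) * l2 s l (U2 c) = nn s l (c * Q.N b) (Q.ι c * b) c * s (U2 b))
    (h' : s (U2 b) * l2 s l (U2 c') = nn s l (c' * Q.N b) (Q.ι c' * b) c' * s (U2 b)) :
    s (U2 b) * l2 s l (U2 (c + c')) = nn s l ((c + c') * Q.N b) (Q.ι (c + c') * b) (c + c') * s (U2 b) := by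
  rw [← U2_mul, map_mul, ← mul_assoc, h, mul_assoc, h', ← mul_assoc, H.nn_mul, map_add, add_mul, add_mul]

lemma E_neg {b : K} {c : k} (h : s (U2 b) * l2 s l (U2 c) = nn s l (c * Q.N b) (Q.ι c * b) c * s (U2 b)) :
    s (U2 b) * l2 s l (U2 (-c)) = nn s l (-c * Q.N b) (Q.ι (-c) * b) (-c) * s (U2 b) := by
  rw [← U2_inv, map_inv, map_neg, neg_mul, neg_mul, ← H.nn_inv, mul_inv_eq_iff_eq_mul, mul_assoc, h]; group

lemma E_tor1 (d : kˣ) {b : K} {c : k}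
    (h : s (U2 b) * l2 s l (U2 c) = nn s l (c * Q.N b) (Q.ι c * b) c * s (U2 b)) :
    s (U2 (Q.ι d * b)) * l2 s l (U2 c) =
      nn s l (c * Q.N (Q.ι d * b)) (Q.ι c * (Q.ι d * b)) c * s (U2 (Q.ι d * b)) := by
  have h1 := H.A (H2 d) (U2 c)
  have h2 := H.B d (U2 b)
  rw [cD_U2, Q.ιu_val] at h2
  have h3 := H.h_nn d (c * Q.N b) c (Q.ι c * b)
  have e1 : s (U2 (Q.ι d * b)) = l (H2 d) * s (U2 b) * (l (H2 d))⁻¹ := by rw [h2]; group
  have e2 : (l (H2 d))⁻¹ * l2 s l (U2 c) = l2 s l (U2 c) * (l (H2 d))⁻¹ := by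
    rw [inv_mul_eq_iff_eq_mul, ← mul_assoc, h1]; group
  have e3 : nn s l (c * Q.N (Q.ι d * b)) (Q.ι c * (Q.ι d * b)) c = nn s l (d * d * (c * Q.N b)) (Q.ι d * (Q.ι c * b)) c := by
    rw [Q.N_mul, Q.N_ι]
    congr 1 <;> ring
  rw [e1, e3]
  calc l (H2 d) * s (U2 b) * (l (H2 d))⁻¹ * l2 s l (U2 c) = l (H2 d) * s (U2 b) * ((l (H2 d))⁻¹ * l2 s l (U2 c)) := by group
    _ = l (H2 d) * (s (U2 b) * l2 s l (U2 c)) * (l (H2 d))⁻¹ := by rw [e2]; group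
    _ = (l (H2 d) * nn s l (c * Q.N b) (Q.ι c * b) c) * s (U2 b) * (l (H2 d))⁻¹ := by rw [h]; group
    _ = _ := by rw [h3]; group

lemma E_tor2 (z : Kˣ) {b : K} {c : k}
    (h : s (U2 b) * l2 s l (U2 c) = nn s l (c * Q.N b) (Q.ι c * b) c * s (U2 b)) :
    s (U2 ((z : K) * z * b)) * l2 s l (U2 ((Q.N z)⁻¹ * c)) =
      nn s l ((Q.N z)⁻¹ * c * Q.N ((z : K) * z * b)) (Q.ι ((Q.N z)⁻¹ * c) * ((z : K) * z * b)) ((Q.N z)⁻¹ * c) *
        s (U2 ((z : K) * z * b)) := by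
  have h1 := C2 (s := s) (l := l) H.C z (U2 c)
  rw [cD_U2, Units.val_inv_eq_inv_val, Q.Nu_val] at h1
  have h2 : s (H2 z) * s (U2 b) = s (U2 ((z : K) * z * b)) * s (H2 z) := by rw [← map_mul, H2_U2, map_mul]
  have h3 := H.t_yy z (Q.ι c * b)
  have h4 := H.C z (U2 (c * Q.N b))
  rw [cD_U2, Q.Nu_val] at h4
  have hz : (z : K) ≠ 0 := z.ne_zero
  have hs : Q.σ z ≠ 0 := by rwa [ne_eq, map_eq_zero]
  have hN : Q.N z ≠ 0 := by
    have := (Q.Nu z).ne_zero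
    rwa [Q.Nu_val] at this
  have e1 : s (U2 ((z : K) * z * b)) = s (H2 z) * s (U2 b) * (s (H2 z))⁻¹ := by rw [h2]; group
  have e2 : l2 s l (U2 ((Q.N z)⁻¹ * c)) = s (H2 z) * l2 s l (U2 c) * (s (H2 z))⁻¹ := by rw [h1]; group
  have e3 : nn s l ((Q.N z)⁻¹ * c * Q.N ((z : K) * z * b)) (Q.ι ((Q.N z)⁻¹ * c) * ((z : K) * z * b)) ((Q.N z)⁻¹ * c) =
      s (H2 z) * nn s l (c * Q.N b) (Q.ι c * b) c * (s (H2 z))⁻¹ := by
    have h5 : s (H2 z) * nn s l (c * Q.N b) (Q.ι c * b) c =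
        nn s l ((Q.N z)⁻¹ * c * Q.N ((z : K) * z * b)) (Q.ι ((Q.N z)⁻¹ * c) * ((z : K) * z * b)) ((Q.N z)⁻¹ * c) *
          s (H2 z) := by
      unfold nn
      have e4 : (Q.N z)⁻¹ * c * Q.N ((z : K) * z * b) = Q.N z * (c * Q.N b) := by
        rw [Q.N_mul, Q.N_mul]; field_simp
      have e5 : Q.ι ((Q.N z)⁻¹ * c) * ((z : K) * z * b) = z * (Q.σ z)⁻¹ * (Q.ι c * b) := by
        rw [map_mul, map_inv₀, Q.hN]; field_simp
      rw [e4, e5]
      calc s (H2 z) * (l (U2 (c * Q.N b)) * yy s l (Q.ι c * b) * l2 s l (U2 c))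
          = (s (H2 z) * l (U2 (c * Q.N b))) * yy s l (Q.ι c * b) * l2 s l (U2 c) := by group
        _ = l (U2 (Q.N z * (c * Q.N b))) * (s (H2 z) * yy s l (Q.ι c * b)) * l2 s l (U2 c) := by rw [h4]; group
        _ = l (U2 (Q.N z * (c * Q.N b))) * yy s l (z * (Q.σ z)⁻¹ * (Q.ι c * b)) * (s (H2 z) * l2 s l (U2 c)) := by
            rw [h3]; group
        _ = _ := by rw [h1]; group
    rw [h5]; group
  rw [e3, e1, e2]
  calc s (H2 z) * s (U2 b) * (s (H2 z))⁻¹ * (s (H2 z) * l2 s l (U2 c) * (s (H2 z))⁻¹)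
      = s (H2 z) * (s (U2 b) * l2 s l (U2 c)) * (s (H2 z))⁻¹ := by group
    _ = _ := by rw [h]; group

lemma E_all [Finite k] [Finite K] (hζ : ∀ x : Kˣ, x ∈ Subgroup.zpowers ζ)
    (E1 : s (U2 1) * l2 s l (U2 1) = nn s l 1 1 1 * s (U2 1))
    (E2 : s (U2 (ζ : K)) * l2 s l (U2 1) = nn s l (Q.N ζ) ζ 1 * s (U2 (ζ : K))) (b : K) (c : k) :
    s (U2 b) * l2 s l (U2 c) = nn s l (c * Q.N b) (Q.ι c * b) c * s (U2 b) := by
  -- from `c = 1` to all `c`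
  have hfull : ∀ b : K, s (U2 b) * l2 s l (U2 1) = nn s l (1 * Q.N b) (Q.ι 1 * b) 1 * s (U2 b) →
      ∀ c, s (U2 b) * l2 s l (U2 c) = nn s l (c * Q.N b) (Q.ι c * b) c * s (U2 b) := by
    intro b h
    apply H6.SpPres.squares_span
    · intro c c' h1 h2; exact E_add H h1 h2
    · intro c h1; exact E_neg H h1
    · intro a ha
      set v : kˣ := (Units.mk0 a ha)⁻¹ with hv
      have hva : (v : k) = a⁻¹ := by rw [hv, Units.val_inv_eq_inv_val, Units.val_mk0]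
      have h1 := E_tor1 H (v⁻¹ * v⁻¹) (E_tor2 H (Q.ιu v) h)
      have hιa : Q.ι a ≠ 0 := by rwa [ne_eq, map_eq_zero]
      have e1 : Q.ι ((v⁻¹ * v⁻¹ : kˣ) : k) * (((Q.ιu v : Kˣ) : K) * ((Q.ιu v : Kˣ) : K) * b) = b := by
        rw [Q.ιu_val, Units.val_mul, Units.val_inv_eq_inv_val, hva, map_mul, inv_inv, map_inv₀]
        field_simp
      have e2 : (Q.N ((Q.ιu v : Kˣ) : K))⁻¹ * 1 = a * a := by
        rw [Q.ιu_val, Q.N_ι, hva]
        field_simp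
      rw [e1, e2] at h1
      exact h1
    · rw [U2_zero, map_one, map_zero, zero_mul, zero_mul, mul_one, ← H.x1_eq, U2_zero, map_one, one_mul]
  have hstep : ∀ (z : Kˣ) (b : K), (∀ c, s (U2 b) * l2 s l (U2 c) = nn s l (c * Q.N b) (Q.ι c * b) c * s (U2 b)) →
      ∀ c, s (U2 ((z : K) * z * b)) * l2 s l (U2 c) =
        nn s l (c * Q.N ((z : K) * z * b)) (Q.ι c * ((z : K) * z * b)) c * s (U2 ((z : K) * z * b)) := by
    intro z b h c
    have hN : Q.N z ≠ 0 := by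
      have := (Q.Nu z).ne_zero
      rwa [Q.Nu_val] at this
    have h1 := E_tor2 H z (h (Q.N z * c))
    have e1 : (Q.N z)⁻¹ * (Q.N z * c) = c := by field_simp
    rw [e1] at h1
    exact h1
  have hpow : ∀ n : ℕ, (∀ c, s (U2 ((ζ : K) ^ n)) * l2 s l (U2 c) =
      nn s l (c * Q.N ((ζ : K) ^ n)) (Q.ι c * (ζ : K) ^ n) c * s (U2 ((ζ : K) ^ n))) ∧
      (∀ c, s (U2 ((ζ : K) ^ (n + 1))) * l2 s l (U2 c) =
      nn s l (c * Q.N ((ζ : K) ^ (n + 1))) (Q.ι c * (ζ : K) ^ (n + 1)) c * s (U2 ((ζ : K) ^ (n + 1)))) := by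
    intro n
    induction n with
    | zero =>
      constructor
      · apply hfull
        rw [pow_zero, one_mul, Q.N_one, map_one, one_mul]; exact E1
      · apply hfull
        rw [zero_add, pow_one, one_mul, map_one, one_mul]; exact E2
    | succ n ih =>
      refine ⟨ih.2, ?_⟩
      have h1 := hstep ζ _ ih.1
      have e1 : (ζ : K) * ζ * (ζ : K) ^ n = (ζ : K) ^ (n + 1 + 1) := by ring
      rw [e1] at h1
      exact h1
  by_cases hb : b = 0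
  · subst hb
    rw [U2_zero, map_one, mul_zero, Q.N_zero, mul_zero, ← H.x2_eq, one_mul, mul_one]
  · have h1 := hζ (Units.mk0 b hb)
    rw [← mem_powers_iff_mem_zpowers] at h1
    obtain ⟨n, hn⟩ := h1
    have h2 : (ζ : K) ^ n = b := by
      have := congrArg Units.val hn
      simpa using this
    have h3 := (hpow n).1 c
    rw [h2] at h3
    exact h3

end E

/-- all relations follow -/
theorem Fin4.rel [Finite k] [Finite K] (hbb : Subgroup.closure (Set.range bb) = ⊤)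
    (hcc : Subgroup.closure (Set.range cc) = ⊤) (hζ : ∀ x : Kˣ, x ∈ Subgroup.zpowers ζ)
    (hν : ∀ x : kˣ, x ∈ Subgroup.zpowers ν) (hne : ∃ x, Q.σ x ≠ x) (H : Fin4 Q bb cc ζ ν s l) : Rel Q s l := by
  have hA : ∀ g h, l g * l2 s l h = l2 s l h * l g := by
    intro g h
    have h1 : ∀ j, l g * l2 s l (cc j) = l2 s l (cc j) * l g := by
      intro j
      exact H6.SpPres.comm_of_gen hcc l _ (fun i => H.A i j) g
    exact (H6.SpPres.comm_of_gen hcc (l2 s l) _ (fun j => (h1 j).symm) h).symm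
  have hB : ∀ d g, l (H2 d) * s g = s (cD (Q.ιu d) g) * l (H2 d) := by
    intro d g
    exact pow_ext s (l.comp H2h) (fun d g => cD (Q.ιu d) g) (fun d d' g => by rw [cD_cD, ← map_mul])
      (fun g => by rw [map_one, cD_one]) hν
      (fun g => hom_ext_gen hbb s (s.comp (cD (Q.ιu ν))) (l (H2 ν)) H.B g) d g
  have hC : ∀ z g, s (H2 z) * l g = l (cD (Q.Nu z) g) * s (H2 z) := by
    intro z g
    exact pow_ext l (s.comp H2h) (fun z g => cD (Q.Nu z) g) (fun d d' g => by rw [cD_cD, ← map_mul])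
      (fun g => by rw [map_one, cD_one]) hζ
      (fun g => hom_ext_gen hcc l (l.comp (cD (Q.Nu ζ))) (s (H2 ζ)) H.C g) z g
  have hF : ∀ g, l W2 * l2 s l W2 * s g = s (Q.th g) * (l W2 * l2 s l W2) :=
    fun g => hom_ext_gen hbb s (s.comp Q.th) _ H.F g
  have hD := D_all hζ hne hB hC H.D1 H.D2
  have H0 : Rel0 Q s l := ⟨hA, hB, hC, hD, hF⟩
  refine { H0 with E := ?_ }
  intro b c
  rw [E_all H0 hζ H.E1 H.E2 b c]
  congr 1
  rw [H0.x2_eq, H0.yy_eq', H0.x1_eq, H0.nn_mul, H0.nn_mul]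
  simp

end H6.Up
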