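import Cfsg.Agent.Lib.H6.UpC

/-!
Presentations of special unitary groups, part E: the concrete four-dimensional group.
-/

set_option autoImplicit false

namespace H6.Up

open Matrix

section ext
variable {R : Type*}
lemma ext22 {M N : Matrix (Fin 2) (Fin 2) R} (h00 : M 0 0 = N 0 0) (h01 : M 0 1 = N 0 1) (h10 : M 1 0 = N 1 0)
    (h11 : M 1 1 = N 1 1) : M = N := by
  ext i j
  fin_cases i <;> fin_cases j <;> assumption
end ext

variable {k K : Type*} [Field k] [Field K] (Q : QE k K)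

/-- conjugate transpose -/
def stM {m n : Type*} (M : Matrix m n K) : Matrix n m K := (M.map Q.σ)ᵀ

lemma stM_apply {m n : Type*} (M : Matrix m n K) (i : n) (j : m) : stM Q M i j = Q.σ (M j i) := rfl

lemma stM_mul {m n o : Type*} [Fintype n] (M : Matrix m n K) (N : Matrix n o K) :
    stM Q (M * N) = stM Q N * stM Q M := by
  ext i j
  rw [stM_apply, Matrix.mul_apply, Matrix.mul_apply, map_sum]
  apply Finset.sum_congr rfl
  intro x _
  rw [map_mul, stM_apply, stM_apply, mul_comm]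

lemma stM_one {n : Type*} [DecidableEq n] : stM Q (1 : Matrix n n K) = 1 := by
  ext i j
  rw [stM_apply, Matrix.one_apply, Matrix.one_apply]
  by_cases h : i = j
  · rw [if_pos h, if_pos h.symm, map_one]
  · rw [if_neg h, if_neg (fun h' => h h'.symm), map_zero]

lemma stM_zero {m n : Type*} : stM Q (0 : Matrix m n K) = 0 := by
  ext i j
  rw [stM_apply, Matrix.zero_apply, map_zero, Matrix.zero_apply]

lemma stM_neg {m n : Type*} (M : Matrix m n K) : stM Q (-M) = -stM Q M := by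
  ext i j
  rw [stM_apply, Matrix.neg_apply, map_neg, Matrix.neg_apply, stM_apply]

lemma stM_blocks (A B C D : Matrix (Fin 2) (Fin 2) K) :
    stM Q (fromBlocks A B C D) = fromBlocks (stM Q A) (stM Q C) (stM Q B) (stM Q D) := by
  unfold stM
  rw [fromBlocks_map, fromBlocks_transpose]

/-- the form -/
def JJ (K : Type*) [Field K] : Matrix (Fin 2 ⊕ Fin 2) (Fin 2 ⊕ Fin 2) K := fromBlocks 0 1 (-1) 0

lemma JJ_sq : JJ K * JJ K = -1 := by
  unfold JJ
  rw [fromBlocks_multiply, ← fromBlocks_one, fromBlocks_neg]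
  simp

/-- the group -/
def Gs : Subgroup (Matrix.SpecialLinearGroup (Fin 2 ⊕ Fin 2) K) where
  carrier := {A | stM Q A.1 * JJ K * A.1 = JJ K}
  mul_mem' {A B} hA hB := by
    simp only [Set.mem_ofPred_eq] at hA hB ⊢
    change stM Q (A.1 * B.1) * JJ K * (A.1 * B.1) = JJ K
    calc stM Q (A.1 * B.1) * JJ K * (A.1 * B.1) = stM Q B.1 * (stM Q A.1 * JJ K * A.1) * B.1 := by
          rw [stM_mul]; simp only [mul_assoc]
      _ = JJ K := by rw [hA, hB]
  one_mem' := by
    simp only [Set.mem_ofPred_eq]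
    change stM Q 1 * JJ K * 1 = JJ K
    rw [stM_one, one_mul, mul_one]
  inv_mem' {A} hA := by
    simp only [Set.mem_ofPred_eq] at hA ⊢
    have h1 : A.1 * (A⁻¹).1 = 1 := congrArg Subtype.val (mul_inv_cancel A)
    calc stM Q (A⁻¹).1 * JJ K * (A⁻¹).1
        = stM Q (A⁻¹).1 * (stM Q A.1 * JJ K * A.1) * (A⁻¹).1 := by rw [hA]
      _ = (stM Q (A⁻¹).1 * stM Q A.1) * JJ K * (A.1 * (A⁻¹).1) := by simp only [mul_assoc]
      _ = JJ K := by rw [← stM_mul, h1, stM_one, one_mul, mul_one]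

/-- the matrix of an element -/
def gm (x : Gs Q) : Matrix (Fin 2 ⊕ Fin 2) (Fin 2 ⊕ Fin 2) K := x.1.1

variable {Q}

lemma gm_mul (x y : Gs Q) : gm Q (x * y) = gm Q x * gm Q y := rfl
lemma gm_one : gm Q (1 : Gs Q) = 1 := rfl
lemma gm_inj {x y : Gs Q} (h : gm Q x = gm Q y) : x = y := Subtype.ext (Subtype.ext h)
lemma gm_inv_mul (x : Gs Q) : gm Q x⁻¹ * gm Q x = 1 := by rw [← gm_mul, inv_mul_cancel, gm_one]
lemma gm_mul_inv (x : Gs Q) : gm Q x * gm Q x⁻¹ = 1 := by rw [← gm_mul, mul_inv_cancel, gm_one]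
lemma gm_uni (x : Gs Q) : stM Q (gm Q x) * JJ K * gm Q x = JJ K := x.2
lemma gm_det (x : Gs Q) : (gm Q x).det = 1 := x.1.2

variable (Q)

/-- build an element -/
def mkG (M : Matrix (Fin 2 ⊕ Fin 2) (Fin 2 ⊕ Fin 2) K) (hd : M.det = 1) (hu : stM Q M * JJ K * M = JJ K) : Gs Q :=
  ⟨⟨M, hd⟩, hu⟩

lemma gm_mkG (M : Matrix (Fin 2 ⊕ Fin 2) (Fin 2 ⊕ Fin 2) K) (hd : M.det = 1) (hu : stM Q M * JJ K * M = JJ K) :
    gm Q (mkG Q M hd hu) = M := rfl

lemma uni_blocks {A B C D : Matrix (Fin 2) (Fin 2) K} (h1 : stM Q A * C = stM Q C * A)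
    (h2 : stM Q A * D - stM Q C * B = 1) (h3 : stM Q D * A - stM Q B * C = 1) (h4 : stM Q B * D = stM Q D * B) :
    stM Q (fromBlocks A B C D) * JJ K * fromBlocks A B C D = JJ K := by
  unfold JJ
  rw [stM_blocks, fromBlocks_multiply, fromBlocks_multiply, fromBlocks_inj]
  simp only [mul_zero, zero_add, add_zero, mul_one, mul_neg, neg_mul]
  refine ⟨?_, ?_, ?_, ?_⟩
  · rw [h1]; abel
  · rw [← h2]; abel
  · rw [← h3]; abel
  · rw [h4]; abel

/-- determinant of block matrices with diagonal blocks -/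
lemma det_diag4 (a b c d a' b' c' d' : K) :
    (fromBlocks !![a, 0; 0, a'] !![b, 0; 0, b'] !![c, 0; 0, c'] !![d, 0; 0, d']).det =
      (a * d - b * c) * (a' * d' - b' * c') := by
  let e : Fin 2 ⊕ Fin 2 ≃ Fin 2 × Fin 2 :=
    { toFun := Sum.elim (fun i => (0, i)) (fun i => (1, i))
      invFun := fun p => if p.1 = 0 then Sum.inl p.2 else Sum.inr p.2
      left_inv := by rintro (i | i) <;> simp
      right_inv := by rintro ⟨i, j⟩; fin_cases i <;> simp }
  have h : fromBlocks !![a, 0; 0, a'] !![b, 0; 0, b'] !![c, 0; 0, c'] !![d, 0; 0, d'] =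
      (blockDiagonal (fun i : Fin 2 => if i = 0 then !![a, b; c, d] else !![a', b'; c', d'])).submatrix e e := by
    ext x y
    rcases x with x | x <;> rcases y with y | y <;> fin_cases x <;> fin_cases y <;> rfl
  rw [h, det_submatrix_equiv_self, det_blockDiagonal, Fin.prod_univ_two]
  simp [det_fin_two]

macro "b22" : tactic => `(tactic| (apply ext22 <;> simp only [mx_mul, mx_inv, mx_one, U2_mx, L2_mx, H2_mx, W2_mx, mx_mk2,
  m00, m01, m10, m11, f00, f01, f10, f11, o00, o01, o10, o11, stM_apply, Matrix.sub_apply, Matrix.add_apply,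
  Matrix.neg_apply, QE.th_mx, cD_mx, Matrix.zero_apply, map_zero, map_one, map_neg, map_mul, Q.fix, Q.inv]))

lemma mx_detσ (g : SL2 K) : Q.σ (mx g 0 0) * Q.σ (mx g 1 1) - Q.σ (mx g 0 1) * Q.σ (mx g 1 0) = 1 := by
  rw [← map_mul, ← map_mul, ← map_sub, mx_det, map_one]

lemma mx_detι (g : SL2 k) : Q.ι (mx g 0 0) * Q.ι (mx g 1 1) - Q.ι (mx g 0 1) * Q.ι (mx g 1 0) = 1 := by
  rw [← map_mul, ← map_mul, ← map_sub, mx_det, map_one]

/-- Levi elements -/
noncomputable def sc : SL2 K →* Gs Q where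
  toFun g := mkG Q (fromBlocks (mx g) 0 0 (mx (Q.th g))) (by
    rw [det_fromBlocks_zero₂₁]
    have h1 : (mx g).det = 1 := g.2
    have h2 : (mx (Q.th g)).det = 1 := (Q.th g).2
    rw [h1, h2, one_mul]) (by
    have h := mx_det g
    have h' := mx_detσ Q g
    apply uni_blocks
    · rw [mul_zero, stM_zero, zero_mul]
    · rw [mul_zero, sub_zero]
      b22
      · linear_combination h'
      · ring
      · ring
      · linear_combination h'
    · rw [mul_zero, sub_zero]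
      b22
      · linear_combination h
      · ring
      · ring
      · linear_combination h
    · rw [mul_zero, stM_zero, zero_mul])
  map_one' := by
    apply gm_inj
    rw [gm_mkG, map_one, mx_one, gm_one, fromBlocks_one]
  map_mul' g h := by
    apply gm_inj
    rw [gm_mul, gm_mkG, gm_mkG, gm_mkG, fromBlocks_multiply, map_mul, mx_mul, mx_mul]
    simp

lemma gm_sc (g : SL2 K) : gm Q (sc Q g) = fromBlocks (mx g) 0 0 (mx (Q.th g)) := rfl

/-- the matrix of a long root element -/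
def lM (g : SL2 k) : Matrix (Fin 2 ⊕ Fin 2) (Fin 2 ⊕ Fin 2) K :=
  fromBlocks !![Q.ι (mx g 0 0), 0; 0, 1] !![Q.ι (mx g 0 1), 0; 0, 0] !![Q.ι (mx g 1 0), 0; 0, 0]
    !![Q.ι (mx g 1 1), 0; 0, 1]

/-- the matrix of a long root element, second copy -/
def l2M (g : SL2 k) : Matrix (Fin 2 ⊕ Fin 2) (Fin 2 ⊕ Fin 2) K :=
  fromBlocks !![1, 0; 0, Q.ι (mx g 0 0)] !![0, 0; 0, Q.ι (mx g 0 1)] !![0, 0; 0, Q.ι (mx g 1 0)]
    !![1, 0; 0, Q.ι (mx g 1 1)]

/-- long root elements -/
noncomputable def lc : SL2 k →* Gs Q where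
  toFun g := mkG Q (lM Q g) (by
    unfold lM
    rw [det_diag4]
    linear_combination mx_detι Q g) (by
    have h := mx_detι Q g
    apply uni_blocks
    · b22 <;> ring
    · b22
      · linear_combination h
      · ring
      · ring
      · ring
    · b22
      · linear_combination h
      · ring
      · ring
      · ring
    · b22 <;> ring)
  map_one' := by
    apply gm_inj
    change lM Q 1 = 1
    rw [← fromBlocks_one]
    unfold lM
    rw [fromBlocks_inj]
    refine ⟨?_, ?_, ?_, ?_⟩ <;> b22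
  map_mul' g h := by
    apply gm_inj
    change lM Q (g * h) = lM Q g * lM Q h
    unfold lM
    rw [fromBlocks_multiply, fromBlocks_inj]
    refine ⟨?_, ?_, ?_, ?_⟩ <;> (b22 <;> (try simp only [map_add, map_mul]) <;> ring)

lemma gm_lc (g : SL2 k) : gm Q (lc Q g) = lM Q g := rfl

lemma gm_l2 (g : SL2 k) : gm Q (l2 (sc Q) (lc Q) g) = l2M Q g := by
  have h : l2M Q g * gm Q (sc Q W2) = gm Q (sc Q W2) * gm Q (lc Q g) := by
    rw [gm_sc, gm_lc]
    unfold l2M lM
    rw [fromBlocks_multiply, fromBlocks_multiply, fromBlocks_inj]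
    refine ⟨?_, ?_, ?_, ?_⟩ <;> (b22 <;> ring)
  rw [l2_apply, gm_mul, gm_mul, ← h, mul_assoc, gm_mul_inv, mul_one]

/-- the matrix of a short root element -/
def YM (a : K) : Matrix (Fin 2 ⊕ Fin 2) (Fin 2 ⊕ Fin 2) K := fromBlocks 1 !![0, a; Q.σ a, 0] 0 1

lemma gm_yy (a : K) : gm Q (yy (sc Q) (lc Q) a) = YM Q a := by
  have h : gm Q (sc Q (U2 a)) * gm Q (l2 (sc Q) (lc Q) W2) = gm Q (l2 (sc Q) (lc Q) W2) * YM Q a := by
    rw [gm_sc, gm_l2]
    unfold l2M YM
    rw [fromBlocks_multiply, fromBlocks_multiply, fromBlocks_inj]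
    refine ⟨?_, ?_, ?_, ?_⟩ <;> (b22 <;> ring)
  unfold yy
  rw [gm_mul, gm_mul, mul_assoc, h, ← mul_assoc, gm_inv_mul, one_mul]

/-- the relations hold -/
theorem rel_conc : Rel Q (sc Q) (lc Q) where
  A g h := by
    apply gm_inj
    rw [gm_mul, gm_mul, gm_l2, gm_lc]
    unfold lM l2M
    rw [fromBlocks_multiply, fromBlocks_multiply, fromBlocks_inj]
    refine ⟨?_, ?_, ?_, ?_⟩ <;> (b22 <;> ring)
  B d g := by
    apply gm_inj
    rw [gm_mul, gm_mul, gm_sc, gm_sc, gm_lc]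
    unfold lM
    have h1 : Q.ι (d : k) * Q.ι ((d⁻¹ : kˣ) : k) = 1 := by rw [← map_mul, Units.mul_inv, map_one]
    have h2 : (((Q.ιu d)⁻¹ : Kˣ) : K) = Q.ι ((d⁻¹ : kˣ) : k) := by rw [← map_inv, Q.ιu_val]
    rw [fromBlocks_multiply, fromBlocks_multiply, fromBlocks_inj]
    refine ⟨?_, ?_, ?_, ?_⟩
    · b22
      · ring
      · rw [Q.ιu_val]; ring
      · rw [h2]; linear_combination (-(mx g 1 0)) * h1
      · ring
    · b22 <;> ring
    · b22 <;> ring
    · b22
      · ring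
      · rw [h2, Q.fix]; ring
      · rw [Q.ιu_val, Q.fix]; linear_combination (Q.σ (mx g 0 1)) * h1
      · ring
  C z g := by
    apply gm_inj
    rw [gm_mul, gm_mul, gm_sc, gm_lc, gm_lc]
    unfold lM
    have h1 : (z : K) * ((z⁻¹ : Kˣ) : K) = 1 := Units.mul_inv z
    have h2 : Q.σ (z : K) * Q.σ ((z⁻¹ : Kˣ) : K) = 1 := by rw [← map_mul, h1, map_one]
    have h3 : Q.ι (((Q.Nu z)⁻¹ : kˣ) : k) = ((z⁻¹ : Kˣ) : K) * Q.σ ((z⁻¹ : Kˣ) : K) := by
      rw [← map_inv, Q.Nu_val, Q.hN]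
    rw [fromBlocks_multiply, fromBlocks_multiply, fromBlocks_inj]
    refine ⟨?_, ?_, ?_, ?_⟩
    · b22 <;> ring
    · b22
      · rw [Q.Nu_val, Q.hN]; linear_combination (-(z : K) * Q.ι (mx g 0 1)) * h2
      · ring
      · ring
      · ring
    · b22
      · rw [h3]; linear_combination (-(Q.σ ((z⁻¹ : Kˣ) : K)) * Q.ι (mx g 1 0)) * h1
      · ring
      · ring
      · ring
    · b22 <;> ring
  D c b := by
    apply gm_inj
    rw [gm_mul, gm_mul, gm_sc, gm_lc]
    unfold lM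
    rw [fromBlocks_multiply, fromBlocks_multiply, fromBlocks_inj]
    refine ⟨?_, ?_, ?_, ?_⟩ <;> (b22 <;> ring)
  F g := by
    apply gm_inj
    rw [gm_mul, gm_mul, gm_mul, gm_mul, gm_sc, gm_sc, gm_lc, gm_l2]
    unfold lM l2M
    rw [fromBlocks_multiply, fromBlocks_multiply, fromBlocks_multiply, fromBlocks_inj]
    refine ⟨?_, ?_, ?_, ?_⟩ <;> (b22 <;> ring)
  E b c := by
    apply gm_inj
    rw [gm_mul, gm_mul, gm_mul, gm_mul, gm_sc, gm_lc, gm_l2, gm_yy]
    unfold lM l2M YM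
    rw [fromBlocks_multiply, fromBlocks_multiply, fromBlocks_multiply, fromBlocks_multiply, fromBlocks_inj]
    refine ⟨?_, ?_, ?_, ?_⟩
    · b22 <;> ring
    · b22
      · rw [Q.hN]; ring
      · ring
      · ring
      · ring
    · b22 <;> ring
    · b22 <;> ring

end H6.Up
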