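import Cfsg.Agent.Lib.H6.UpE

/-!
Presentations of special unitary groups, part F: generation of the concrete group, and the universal property.
-/

set_option autoImplicit false

namespace H6.Up

open Matrix

variable {k K : Type*} [Field k] [Field K] (Q : QE k K)

/-- four-vectors -/
def v4 (a0 a1 b0 b1 : K) : Fin 2 ⊕ Fin 2 → K := Sum.elim ![a0, a1] ![b0, b1]

lemma v4_eta (v : Fin 2 ⊕ Fin 2 → K) : v = v4 (v (Sum.inl 0)) (v (Sum.inl 1)) (v (Sum.inr 0)) (v (Sum.inr 1)) := by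
  ext x
  rcases x with x | x <;> fin_cases x <;> rfl

lemma v4_inj {a0 a1 b0 b1 c0 c1 d0 d1 : K} (h : v4 a0 a1 b0 b1 = v4 c0 c1 d0 d1) : a0 = c0 ∧ a1 = c1 ∧ b0 = d0 ∧ b1 = d1 :=
  ⟨congrFun h (Sum.inl 0), congrFun h (Sum.inl 1), congrFun h (Sum.inr 0), congrFun h (Sum.inr 1)⟩

lemma blocks_v4 (A B C D : Matrix (Fin 2) (Fin 2) K) (a0 a1 b0 b1 : K) :
    fromBlocks A B C D *ᵥ v4 a0 a1 b0 b1 =
      v4 (A 0 0 * a0 + A 0 1 * a1 + (B 0 0 * b0 + B 0 1 * b1)) (A 1 0 * a0 + A 1 1 * a1 + (B 1 0 * b0 + B 1 1 * b1))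
        (C 0 0 * a0 + C 0 1 * a1 + (D 0 0 * b0 + D 0 1 * b1)) (C 1 0 * a0 + C 1 1 * a1 + (D 1 0 * b0 + D 1 1 * b1)) := by
  ext x
  rcases x with x | x <;> fin_cases x <;> simp [mulVec, dotProduct, v4, Fin.sum_univ_two]

/-- the form -/
def fm (u v : Fin 2 ⊕ Fin 2 → K) : K := (fun i => Q.σ (u i)) ⬝ᵥ (JJ K *ᵥ v)

lemma fm_v4 (a0 a1 b0 b1 c0 c1 d0 d1 : K) : fm Q (v4 a0 a1 b0 b1) (v4 c0 c1 d0 d1) =
    Q.σ a0 * d0 + Q.σ a1 * d1 - Q.σ b0 * c0 - Q.σ b1 * c1 := by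
  unfold fm JJ
  rw [blocks_v4]
  simp [dotProduct, v4, Fin.sum_univ_two]
  ring

lemma fm_inv (x : Gs Q) (u v : Fin 2 ⊕ Fin 2 → K) : fm Q (gm Q x *ᵥ u) (gm Q x *ᵥ v) = fm Q u v := by
  unfold fm
  have h1 : (fun i => Q.σ ((gm Q x *ᵥ u) i)) = ((gm Q x).map Q.σ) *ᵥ (fun i => Q.σ (u i)) := by
    ext i
    simp [mulVec, dotProduct, map_sum]
  rw [h1, ← Matrix.vecMul_transpose, ← Matrix.dotProduct_mulVec]
  have h2 : ((gm Q x).map Q.σ)ᵀ *ᵥ (JJ K *ᵥ (gm Q x *ᵥ v)) = JJ K *ᵥ v := by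
    rw [Matrix.mulVec_mulVec, Matrix.mulVec_mulVec]
    exact congrArg (fun M => M *ᵥ v) (gm_uni x)
  rw [h2]

variable {Q}

/-- the generated subgroup -/
def HH (Q : QE k K) : Subgroup (Gs Q) := Subgroup.closure (((sc Q).range : Set (Gs Q)) ∪ ((lc Q).range : Set (Gs Q)))

lemma HH_s (A : SL2 K) : sc Q A ∈ HH Q := Subgroup.subset_closure (Or.inl ⟨A, rfl⟩)
lemma HH_l (g : SL2 k) : lc Q g ∈ HH Q := Subgroup.subset_closure (Or.inr ⟨g, rfl⟩)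
lemma HH_l2 (g : SL2 k) : l2 (sc Q) (lc Q) g ∈ HH Q := by
  rw [l2_apply]; exact mul_mem (mul_mem (HH_s _) (HH_l _)) (inv_mem (HH_s _))
lemma HH_yy (a : K) : yy (sc Q) (lc Q) a ∈ HH Q := mul_mem (mul_mem (inv_mem (HH_l2 _)) (HH_s _)) (HH_l2 _)

lemma act_s (A : SL2 K) (a0 a1 b0 b1 : K) : gm Q (sc Q A) *ᵥ v4 a0 a1 b0 b1 =
    v4 (mx A 0 0 * a0 + mx A 0 1 * a1) (mx A 1 0 * a0 + mx A 1 1 * a1)
      (mx (Q.th A) 0 0 * b0 + mx (Q.th A) 0 1 * b1) (mx (Q.th A) 1 0 * b0 + mx (Q.th A) 1 1 * b1) := by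
  rw [gm_sc, blocks_v4]
  simp

lemma act_l (g : SL2 k) (a0 a1 b0 b1 : K) : gm Q (lc Q g) *ᵥ v4 a0 a1 b0 b1 =
    v4 (Q.ι (mx g 0 0) * a0 + Q.ι (mx g 0 1) * b0) a1 (Q.ι (mx g 1 0) * a0 + Q.ι (mx g 1 1) * b0) b1 := by
  rw [gm_lc]
  unfold lM
  rw [blocks_v4]
  simp

lemma act_yy (a a0 a1 b0 b1 : K) : gm Q (yy (sc Q) (lc Q) a) *ᵥ v4 a0 a1 b0 b1 =
    v4 (a0 + a * b1) (a1 + Q.σ a * b0) b0 b1 := by
  rw [gm_yy]
  unfold YM
  rw [blocks_v4]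
  simp

lemma th_th (A : SL2 K) : Q.th (Q.th A) = A := by
  apply ext2 <;> simp only [Q.th_mx, f00, f01, f10, f11, map_neg, Q.inv, neg_neg]

lemma exists_row {a0 a1 : K} (h : a0 ≠ 0 ∨ a1 ≠ 0) : ∃ A : SL2 K, mx A 0 0 * a0 + mx A 0 1 * a1 = 1 ∧
    mx A 1 0 * a0 + mx A 1 1 * a1 = 0 := by
  by_cases h0 : a0 = 0
  · subst h0
    have h1 : a1 ≠ 0 := by
      rcases h with h | h
      · exact absurd rfl h
      · exact h
    refine ⟨mk2 0 a1⁻¹ (-a1) 0 (by field_simp; ring), ?_, ?_⟩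
    · simp only [mx_mk2, f00, f01]; field_simp; ring
    · simp only [mx_mk2, f10, f11]; ring
  · refine ⟨mk2 a0⁻¹ 0 (-a1) a0 (by field_simp; ring), ?_, ?_⟩
    · simp only [mx_mk2, f00, f01]; field_simp; ring
    · simp only [mx_mk2, f10, f11]; ring

/-- clearing the upper part -/
lemma clear {a0 a1 : K} (h0 : Q.σ a0 = a0) : ∃ x ∈ HH Q, gm Q x *ᵥ v4 a0 a1 1 0 = v4 0 0 1 0 ∧
    gm Q x *ᵥ v4 1 0 0 0 = v4 1 0 0 0 := by
  obtain ⟨c, hc⟩ := Q.mem a0 h0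
  refine ⟨lc Q (U2 (-c)) * yy (sc Q) (lc Q) (-Q.σ a1), mul_mem (HH_l _) (HH_yy _), ?_, ?_⟩
  · rw [gm_mul, ← Matrix.mulVec_mulVec, act_yy, act_l]
    simp only [U2_mx, f00, f01, f10, f11, map_neg, Q.inv, map_one, map_zero, hc]
    congr 1 <;> ring
  · rw [gm_mul, ← Matrix.mulVec_mulVec, act_yy, act_l]
    simp only [U2_mx, f00, f01, f10, f11, map_neg, Q.inv, map_one, map_zero]
    congr 1 <;> ring

lemma reach {v : Fin 2 ⊕ Fin 2 → K} (hv : v ≠ 0) (hf : fm Q v v = 0) : ∃ x ∈ HH Q, gm Q x *ᵥ v = v4 1 0 0 0 := by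
  obtain ⟨a0, a1, b0, b1, rfl⟩ : ∃ a0 a1 b0 b1, v = v4 a0 a1 b0 b1 := ⟨_, _, _, _, v4_eta v⟩
  by_cases hb : b0 ≠ 0 ∨ b1 ≠ 0
  · obtain ⟨A, h1, h2⟩ := exists_row hb
    have h3 := act_s (Q := Q) (Q.th A) a0 a1 b0 b1
    rw [th_th, h1, h2] at h3
    have h4 := fm_inv Q (sc Q (Q.th A)) (v4 a0 a1 b0 b1) (v4 a0 a1 b0 b1)
    rw [h3, hf, fm_v4, map_one, map_zero] at h4
    obtain ⟨x, hx, h5, h6⟩ := clear (Q := Q) (a0 := mx (Q.th A) 0 0 * a0 + mx (Q.th A) 0 1 * a1)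
      (a1 := mx (Q.th A) 1 0 * a0 + mx (Q.th A) 1 1 * a1) (by linear_combination h4)
    refine ⟨lc Q W2 * x * sc Q (Q.th A), mul_mem (mul_mem (HH_l _) hx) (HH_s _), ?_⟩
    rw [gm_mul, ← Matrix.mulVec_mulVec, h3, gm_mul, ← Matrix.mulVec_mulVec, h5, act_l]
    simp only [W2_mx, f00, f01, f10, f11, map_neg, map_one, map_zero]
    congr 1 <;> ring
  · push Not at hb
    obtain ⟨rfl, rfl⟩ := hb
    have ha : a0 ≠ 0 ∨ a1 ≠ 0 := by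
      by_contra h
      push Not at h
      obtain ⟨rfl, rfl⟩ := h
      apply hv
      ext x
      rcases x with x | x <;> fin_cases x <;> rfl
    obtain ⟨A, h1, h2⟩ := exists_row ha
    refine ⟨sc Q A, HH_s _, ?_⟩
    rw [act_s, h1, h2]
    congr 1 <;> ring

lemma col_eq (M : Matrix (Fin 2 ⊕ Fin 2) (Fin 2 ⊕ Fin 2) K) {a a' a'' a''' : Fin 2 ⊕ Fin 2 → K}
    (h1 : M *ᵥ v4 1 0 0 0 = a) (h2 : M *ᵥ v4 0 1 0 0 = a') (h3 : M *ᵥ v4 0 0 1 0 = a'') (h4 : M *ᵥ v4 0 0 0 1 = a''') :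
    M = fromBlocks !![a (Sum.inl 0), a' (Sum.inl 0); a (Sum.inl 1), a' (Sum.inl 1)]
      !![a'' (Sum.inl 0), a''' (Sum.inl 0); a'' (Sum.inl 1), a''' (Sum.inl 1)]
      !![a (Sum.inr 0), a' (Sum.inr 0); a (Sum.inr 1), a' (Sum.inr 1)]
      !![a'' (Sum.inr 0), a''' (Sum.inr 0); a'' (Sum.inr 1), a''' (Sum.inr 1)] := by
  subst h1 h2 h3 h4
  ext x y
  rcases x with x | x <;> rcases y with y | y <;> fin_cases x <;> fin_cases y <;>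
    simp [mulVec, dotProduct, v4, Fin.sum_univ_two]

/-- generation -/
theorem HH_top : HH Q = ⊤ := by
  rw [eq_top_iff]
  rintro g -
  -- step 1
  have hne : gm Q g *ᵥ v4 1 0 0 0 ≠ 0 := by
    intro h
    have h1 : gm Q g⁻¹ *ᵥ (gm Q g *ᵥ v4 1 0 0 0) = v4 1 0 0 0 := by
      rw [Matrix.mulVec_mulVec, gm_inv_mul, Matrix.one_mulVec]
    rw [h, Matrix.mulVec_zero] at h1
    have := congrFun h1 (Sum.inl 0)
    exact zero_ne_one this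
  obtain ⟨x1, hx1, h1⟩ := reach hne (by rw [fm_inv, fm_v4]; simp)
  -- step 2
  set g1 := x1 * g with hg1
  have h2 : gm Q g1 *ᵥ v4 1 0 0 0 = v4 1 0 0 0 := by
    rw [hg1, gm_mul, ← Matrix.mulVec_mulVec, h1]
  obtain ⟨a0, a1, b0, b1, h3⟩ : ∃ a0 a1 b0 b1, gm Q g1 *ᵥ v4 0 0 1 0 = v4 a0 a1 b0 b1 := ⟨_, _, _, _, v4_eta _⟩
  have h4 := fm_inv Q g1 (v4 1 0 0 0) (v4 0 0 1 0)
  rw [h2, h3, fm_v4, fm_v4, map_one, map_zero] at h4
  have hb0 : b0 = 1 := by linear_combination h4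
  subst hb0
  have h5 := fm_inv Q g1 (v4 0 0 1 0) (v4 0 0 1 0)
  have h6 := act_s (Q := Q) (U2 (Q.σ b1)) a0 a1 1 b1
  have h7 : mx (Q.th (U2 (Q.σ b1))) = !![1, 0; -b1, 1] := by
    rw [Q.th_U2, Q.inv, L2_mx]
  rw [h7, U2_mx] at h6
  simp only [f00, f01, f10, f11] at h6
  have h8 : v4 (1 * a0 + Q.σ b1 * a1) (0 * a0 + 1 * a1) (1 * 1 + 0 * b1) (-b1 * 1 + 1 * b1) =
      v4 (1 * a0 + Q.σ b1 * a1) (0 * a0 + 1 * a1) 1 0 := by
    congr 1 <;> ring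
  rw [h8] at h6
  have h9 := fm_inv Q (sc Q (U2 (Q.σ b1))) (v4 a0 a1 1 b1) (v4 a0 a1 1 b1)
  rw [h3] at h5
  rw [h5, h6, fm_v4, fm_v4, map_one, map_zero] at h9
  obtain ⟨x2, hx2, h10, h11⟩ := clear (Q := Q) (a0 := 1 * a0 + Q.σ b1 * a1) (a1 := 0 * a0 + 1 * a1)
    (by linear_combination h9)
  have h12 : gm Q (sc Q (U2 (Q.σ b1))) *ᵥ v4 1 0 0 0 = v4 1 0 0 0 := by
    rw [act_s, h7, U2_mx]
    simp only [f00, f01, f10, f11]
    congr 1 <;> ring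
  set g2 := x2 * sc Q (U2 (Q.σ b1)) * g1 with hg2
  have h13 : gm Q g2 *ᵥ v4 1 0 0 0 = v4 1 0 0 0 := by
    rw [hg2, gm_mul, gm_mul, ← Matrix.mulVec_mulVec, h2, ← Matrix.mulVec_mulVec, h12, h11]
  have h14 : gm Q g2 *ᵥ v4 0 0 1 0 = v4 0 0 1 0 := by
    rw [hg2, gm_mul, gm_mul, ← Matrix.mulVec_mulVec, h3, ← Matrix.mulVec_mulVec, h6, h10]
  -- step 3
  have key : g2 ∈ HH Q := by
    obtain ⟨p0, p, r0, r, h15⟩ : ∃ a0 a1 b0 b1, gm Q g2 *ᵥ v4 0 1 0 0 = v4 a0 a1 b0 b1 := ⟨_, _, _, _, v4_eta _⟩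
    obtain ⟨q0, q, t0, t, h16⟩ : ∃ a0 a1 b0 b1, gm Q g2 *ᵥ v4 0 0 0 1 = v4 a0 a1 b0 b1 := ⟨_, _, _, _, v4_eta _⟩
    have e1 := fm_inv Q g2 (v4 1 0 0 0) (v4 0 1 0 0)
    have e2 := fm_inv Q g2 (v4 1 0 0 0) (v4 0 0 0 1)
    have e3 := fm_inv Q g2 (v4 0 0 1 0) (v4 0 1 0 0)
    have e4 := fm_inv Q g2 (v4 0 0 1 0) (v4 0 0 0 1)
    have e5 := fm_inv Q g2 (v4 0 1 0 0) (v4 0 1 0 0)
    have e6 := fm_inv Q g2 (v4 0 1 0 0) (v4 0 0 0 1)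
    have e7 := fm_inv Q g2 (v4 0 0 0 1) (v4 0 1 0 0)
    have e8 := fm_inv Q g2 (v4 0 0 0 1) (v4 0 0 0 1)
    rw [h13, h15, fm_v4, fm_v4, map_one, map_zero] at e1
    rw [h13, h16, fm_v4, fm_v4, map_one, map_zero] at e2
    rw [h14, h15, fm_v4, fm_v4, map_one, map_zero] at e3
    rw [h14, h16, fm_v4, fm_v4, map_one, map_zero] at e4
    have r0z : r0 = 0 := by linear_combination e1
    have t0z : t0 = 0 := by linear_combination e2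
    have p0z : p0 = 0 := by linear_combination -e3
    have q0z : q0 = 0 := by linear_combination -e4
    subst r0z t0z p0z q0z
    rw [h15, fm_v4, fm_v4, map_one, map_zero] at e5
    rw [h15, h16, fm_v4, fm_v4, map_one, map_zero] at e6
    rw [h15, h16, fm_v4, fm_v4, map_one, map_zero] at e7
    rw [h16, fm_v4, fm_v4, map_one, map_zero] at e8
    have hM := col_eq (gm Q g2) h13 h15 h14 h16
    have hM' : gm Q g2 = fromBlocks !![1, 0; 0, p] !![0, 0; 0, q] !![0, 0; 0, r] !![1, 0; 0, t] := hM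
    have hdet : p * t - q * r = 1 := by
      have := gm_det g2
      rw [hM', det_diag4] at this
      linear_combination this
    have sp : Q.σ p = p := by linear_combination p * e6 - Q.σ p * hdet - q * e5
    have sr : Q.σ r = r := by linear_combination r * e6 - Q.σ r * hdet - t * e5
    have sq : Q.σ q = q := by linear_combination p * e8 - q * e7 - Q.σ q * hdet
    have st : Q.σ t = t := by linear_combination r * e8 - t * e7 - Q.σ t * hdet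
    obtain ⟨p', hp'⟩ := Q.mem p sp
    obtain ⟨r', hr'⟩ := Q.mem r sr
    obtain ⟨q', hq'⟩ := Q.mem q sq
    obtain ⟨t', ht'⟩ := Q.mem t st
    have hdet' : p' * t' - q' * r' = 1 := by
      apply Q.ιu_inj
      rw [map_sub, map_mul, map_mul, hp', hr', hq', ht', map_one, hdet]
    have : g2 = l2 (sc Q) (lc Q) (mk2 p' q' r' t' hdet') := by
      apply gm_inj
      rw [hM', gm_l2]
      unfold l2M
      simp only [mx_mk2, f00, f01, f10, f11, hp', hr', hq', ht']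
    rw [this]
    exact HH_l2 _
  have h17 : g = x1⁻¹ * ((sc Q (U2 (Q.σ b1)))⁻¹ * x2⁻¹ * g2) := by rw [hg2, hg1]; group
  rw [h17]
  exact mul_mem (inv_mem hx1) (mul_mem (mul_mem (inv_mem (HH_s _)) (inv_mem hx2)) key)

end H6.Up
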