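import Cfsg.Agent.Lib.H6.UpF
import Cfsg.Agent.Lib.H6.UpD
import Cfsg.Agent.Lib.H6.SpPresE

/-!
Presentations of special unitary groups, part G: the presentation of the concrete four-dimensional group.
-/

set_option autoImplicit false

namespace H6.Up

open Matrix Monoid H43.Tietze

section conc
variable {k K : Type*} [Field k] [Field K] (Q : QE k K)

/-- block triangular elements -/
def PPc : Subgroup (Gs Q) where
  carrier := {x | toBlocks₂₁ (gm Q x) = 0}
  mul_mem' {x y} hx hy := by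
    simp only [Set.mem_ofPred_eq] at hx hy ⊢
    rw [gm_mul, ← fromBlocks_toBlocks (gm Q x), ← fromBlocks_toBlocks (gm Q y), fromBlocks_multiply, toBlocks_fromBlocks₂₁,
      hx, hy, zero_mul, mul_zero, add_zero]
  one_mem' := by
    simp only [Set.mem_ofPred_eq]
    rw [gm_one, ← fromBlocks_one, toBlocks_fromBlocks₂₁]
  inv_mem' {x} hx := by
    simp only [Set.mem_ofPred_eq] at hx ⊢
    have h := gm_inv_mul x
    rw [← fromBlocks_toBlocks (gm Q x⁻¹), ← fromBlocks_toBlocks (gm Q x), fromBlocks_multiply, hx, ← fromBlocks_one,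
      fromBlocks_inj] at h
    obtain ⟨h1, -, h2, -⟩ := h
    rw [mul_zero, add_zero] at h1 h2
    have h3 : toBlocks₁₁ (gm Q x) * toBlocks₁₁ (gm Q x⁻¹) = 1 := mul_eq_one_comm.1 h1
    calc toBlocks₂₁ (gm Q x⁻¹) = toBlocks₂₁ (gm Q x⁻¹) * (toBlocks₁₁ (gm Q x) * toBlocks₁₁ (gm Q x⁻¹)) := by
          rw [h3, mul_one]
      _ = 0 := by rw [← mul_assoc, h2, zero_mul]

lemma mem_PPc {x : Gs Q} : x ∈ PPc Q ↔ toBlocks₂₁ (gm Q x) = 0 := Iff.rfl

variable {Q}

lemma Pc_PPc : Pc (sc Q) (lc Q) ≤ PPc Q := by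
  unfold Pc
  rw [Subgroup.closure_le]
  rintro x (((⟨c, rfl⟩ | ⟨a, rfl⟩) | ⟨e, rfl⟩) | ⟨A, rfl⟩)
  · rw [SetLike.mem_coe, mem_PPc, gm_lc]
    unfold lM
    rw [toBlocks_fromBlocks₂₁, U2_mx, f10, map_zero]
    exact ext22 rfl rfl rfl rfl
  · rw [SetLike.mem_coe, mem_PPc, gm_yy]
    unfold YM
    rw [toBlocks_fromBlocks₂₁]
  · rw [SetLike.mem_coe, mem_PPc, gm_lc]
    unfold lM
    rw [toBlocks_fromBlocks₂₁, H2_mx, f10, map_zero]
    exact ext22 rfl rfl rfl rfl
  · rw [SetLike.mem_coe, mem_PPc, gm_sc, toBlocks_fromBlocks₂₁]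

lemma t1_nmem : lc Q W2 ∉ PPc Q := by
  intro h
  rw [mem_PPc, gm_lc] at h
  unfold lM at h
  rw [toBlocks_fromBlocks₂₁, W2_mx] at h
  have := congrFun (congrFun h 0) 0
  simp only [f00, f10, map_neg, map_one, Matrix.zero_apply] at this
  exact one_ne_zero (neg_eq_zero.1 this)

lemma t12_nmem : lc Q W2 * l2 (sc Q) (lc Q) W2 ∉ PPc Q := by
  intro h
  rw [mem_PPc, gm_mul, gm_lc, gm_l2] at h
  unfold lM l2M at h
  rw [fromBlocks_multiply, toBlocks_fromBlocks₂₁, W2_mx] at h
  have := congrFun (congrFun h 0) 0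
  rw [Matrix.add_apply, m00, m00] at this
  simp only [f00, f10, f01, f11, map_neg, map_one, map_zero, Matrix.zero_apply] at this
  apply one_ne_zero (α := K)
  linear_combination -this

lemma gm_nn (c d : k) (a : K) : gm Q (nn (sc Q) (lc Q) c a d) = fromBlocks 1 !![Q.ι c, a; Q.σ a, Q.ι d] 0 1 := by
  unfold nn
  rw [gm_mul, gm_mul, gm_lc, gm_yy, gm_l2]
  unfold lM YM l2M
  rw [fromBlocks_multiply, fromBlocks_multiply, fromBlocks_inj]
  refine ⟨?_, ?_, ?_, ?_⟩ <;> (apply ext22 <;> simp only [U2_mx, m00, m01, m10, m11, f00, f01, f10, f11, o00, o01,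
    o10, o11, Matrix.add_apply, Matrix.zero_apply, map_zero, map_one] <;> ring)

lemma conc_inj (c : k) (a : K) (d : k) (e : kˣ) (A : SL2 K)
    (h : nn (sc Q) (lc Q) c a d * lc Q (H2 e) * sc Q A = 1) : c = 0 ∧ a = 0 ∧ d = 0 ∧ e = 1 ∧ A = 1 := by
  have h1 := congrArg (gm Q) h
  rw [gm_mul, gm_mul, gm_nn, gm_lc, gm_sc, gm_one, ← fromBlocks_one] at h1
  unfold lM at h1
  rw [fromBlocks_multiply, fromBlocks_multiply, fromBlocks_inj] at h1
  obtain ⟨h2, h3, -, h5⟩ := h1
  have z00 : !![Q.ι (mx (H2 e) 0 1), 0; 0, 0] = (0 : Matrix (Fin 2) (Fin 2) K) := by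
    rw [H2_mx, f01, map_zero]; exact ext22 rfl rfl rfl rfl
  have z10 : !![Q.ι (mx (H2 e) 1 0), 0; 0, 0] = (0 : Matrix (Fin 2) (Fin 2) K) := by
    rw [H2_mx, f10, map_zero]; exact ext22 rfl rfl rfl rfl
  rw [z00, z10] at h2 h3
  rw [z10] at h5
  simp only [mul_zero, zero_mul, add_zero, zero_add, one_mul] at h2 h3 h5
  -- `D A = 1`
  have hdet : Q.ι (e : k) = 1 := by
    have h6 := congrArg Matrix.det h2
    have h7 : (mx A).det = 1 := A.2
    rw [det_mul, h7, mul_one, det_one, H2_mx, f00, det_fin_two_of, mul_one, mul_zero, sub_zero] at h6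
    exact h6
  have he : e = 1 := by
    apply Units.ext
    apply Q.ιu_inj
    rw [hdet, Units.val_one, map_one]
  subst he
  have o2 : !![Q.ι (mx (H2 (1 : kˣ)) 0 0), 0; 0, 1] = (1 : Matrix (Fin 2) (Fin 2) K) := by
    rw [H2_one, mx_one, o00, map_one]; exact ext22 rfl rfl rfl rfl
  have o3 : !![Q.ι (mx (H2 (1 : kˣ)) 1 1), 0; 0, 1] = (1 : Matrix (Fin 2) (Fin 2) K) := by
    rw [H2_one, mx_one, o11, map_one]; exact ext22 rfl rfl rfl rfl
  rw [o2, one_mul] at h2
  rw [o3, one_mul] at h5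
  rw [o3, mul_one, h5, mul_one] at h3
  have hA : A = 1 := Subtype.ext h2
  refine ⟨?_, ?_, ?_, rfl, hA⟩
  · have := congrFun (congrFun h3 0) 0
    rw [f00] at this
    apply Q.ιu_inj
    rw [this, map_zero]; rfl
  · exact congrFun (congrFun h3 0) 1
  · have := congrFun (congrFun h3 1) 1
    rw [f11] at this
    apply Q.ιu_inj
    rw [this, map_zero]; rfl

end conc

section univ
variable {k K : Type*} [Field k] [Field K] {Q : QE k K}

section maps
variable {G G' : Type*} [Group G] [Group G']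

lemma l2_comp (f : G →* G') (s : SL2 K →* G) (l : SL2 k →* G) (g : SL2 k) : l2 (f.comp s) (f.comp l) g = f (l2 s l g) := by
  rw [l2_apply, l2_apply, map_mul, map_mul, map_inv]; rfl

lemma yy_comp (f : G →* G') (s : SL2 K →* G) (l : SL2 k →* G) (a : K) : yy (f.comp s) (f.comp l) a = f (yy s l a) := by
  unfold yy
  rw [l2_comp, map_mul, map_mul, map_inv]; rfl

lemma nn_comp (f : G →* G') (s : SL2 K →* G) (l : SL2 k →* G) (c d : k) (a : K) :
    nn (f.comp s) (f.comp l) c a d = f (nn s l c a d) := by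
  unfold nn
  rw [l2_comp, yy_comp, map_mul, map_mul]; rfl

lemma Rel.of_inj (f : G →* G') (hf : Function.Injective f) {s : SL2 K →* G} {l : SL2 k →* G}
    (H : Rel Q (f.comp s) (f.comp l)) : Rel Q s l where
  A g h := by
    apply hf
    have := H.A g h
    rw [l2_comp] at this
    rw [map_mul, map_mul]; exact this
  B d g := by
    apply hf
    rw [map_mul, map_mul]; exact H.B d g
  C z g := by
    apply hf
    rw [map_mul, map_mul]; exact H.C z g
  D c b := by
    apply hf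
    rw [map_mul, map_mul]; exact H.D c b
  F g := by
    apply hf
    have := H.F g
    rw [l2_comp] at this
    rw [map_mul, map_mul, map_mul, map_mul]; exact this
  E b c := by
    apply hf
    have := H.E b c
    rw [l2_comp, yy_comp] at this
    rw [map_mul, map_mul, map_mul, map_mul]; exact this

lemma Rel.prod {s : SL2 K →* G} {l : SL2 k →* G} {s' : SL2 K →* G'} {l' : SL2 k →* G'} (H : Rel Q s l)
    (H' : Rel Q s' l') : Rel Q (s.prod s') (l.prod l') where
  A g h := Prod.ext (H.A g h) (H'.A g h)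
  B d g := Prod.ext (H.B d g) (H'.B d g)
  C z g := Prod.ext (H.C z g) (H'.C z g)
  D c b := Prod.ext (H.D c b) (H'.D c b)
  F g := Prod.ext (H.F g) (H'.F g)
  E b c := Prod.ext (H.E b c) (H'.E b c)

/-- the universal property -/
theorem Rel.exists_hom {s : SL2 K →* G} {l : SL2 k →* G} (H : Rel Q s l) :
    ∃ φ : Gs Q →* G, (∀ A, φ (sc Q A) = s A) ∧ ∀ g, φ (lc Q g) = l g := by
  let X : Subgroup (Gs Q × G) :=
    Subgroup.closure ((((sc Q).prod s).range : Set (Gs Q × G)) ∪ (((lc Q).prod l).range : Set (Gs Q × G)))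
  let s' : SL2 K →* X := ((sc Q).prod s).codRestrict X (fun A => Subgroup.subset_closure (Or.inl ⟨A, rfl⟩))
  let l' : SL2 k →* X := ((lc Q).prod l).codRestrict X (fun A => Subgroup.subset_closure (Or.inr ⟨A, rfl⟩))
  have HX : Rel Q s' l' := Rel.of_inj X.subtype Subtype.coe_injective (Rel.prod (rel_conc Q) H)
  let π : X →* Gs Q := (MonoidHom.fst _ _).comp X.subtype
  have hgen : Subgroup.closure ((s'.range : Set X) ∪ (l'.range : Set X)) = ⊤ := by
    rw [← Subgroup.map_injective X.subtype_injective |>.eq_iff, MonoidHom.map_closure, ← MonoidHom.range_eq_map,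
      Subgroup.range_subtype, Set.image_union]
    change Subgroup.closure _ = Subgroup.closure _
    congr 2
    · ext x
      constructor
      · rintro ⟨_, ⟨A, rfl⟩, rfl⟩; exact ⟨A, rfl⟩
      · rintro ⟨A, rfl⟩; exact ⟨_, ⟨A, rfl⟩, rfl⟩
    · ext x
      constructor
      · rintro ⟨_, ⟨A, rfl⟩, rfl⟩; exact ⟨A, rfl⟩
      · rintro ⟨A, rfl⟩; exact ⟨_, ⟨A, rfl⟩, rfl⟩
  have hπs : π.comp s' = sc Q := rfl
  have hπl : π.comp l' = lc Q := rfl
  have hinj : Function.Injective π := by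
    apply HX.ker_trivial hgen π (PPc Q)
    · intro x hx
      have h1 : Pc s' l' ≤ (PPc Q).comap π := by
        unfold Pc
        rw [Subgroup.closure_le]
        rintro y (((⟨c, rfl⟩ | ⟨a, rfl⟩) | ⟨e, rfl⟩) | ⟨A, rfl⟩)
        · exact Pc_PPc (Pc_x1 (sc Q) (lc Q) c)
        · have := Pc_PPc (Pc_yy (sc Q) (lc Q) a)
          rw [← hπs, ← hπl, yy_comp] at this
          exact this
        · exact Pc_PPc (Pc_h (sc Q) (lc Q) e)
        · exact Pc_PPc (Pc_s (sc Q) (lc Q) A)
      exact h1 hx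
    · exact t1_nmem
    · have := t12_nmem (Q := Q)
      rw [← hπs, ← hπl, l2_comp] at this
      rw [map_mul]; exact this
    · intro c a d e A h
      apply conc_inj (Q := Q)
      rw [← hπs, ← hπl, nn_comp]
      rw [map_mul, map_mul] at h
      exact h
  have hsurj : Function.Surjective π := by
    rw [← MonoidHom.range_eq_top, eq_top_iff, ← HH_top (Q := Q)]
    unfold HH
    rw [Subgroup.closure_le]
    rintro x (⟨A, rfl⟩ | ⟨A, rfl⟩)
    · exact ⟨s' A, rfl⟩
    · exact ⟨l' A, rfl⟩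
  let e := MulEquiv.ofBijective π ⟨hinj, hsurj⟩
  refine ⟨((MonoidHom.snd _ _).comp X.subtype).comp e.symm.toMonoidHom, ?_, ?_⟩
  · intro A
    have : e.symm (sc Q A) = s' A := by
      rw [MulEquiv.symm_apply_eq]; rfl
    change ((e.symm (sc Q A) : X) : Gs Q × G).2 = s A
    rw [this]; rfl
  · intro A
    have : e.symm (lc Q A) = l' A := by
      rw [MulEquiv.symm_apply_eq]; rfl
    change ((e.symm (lc Q A) : X) : Gs Q × G).2 = l A
    rw [this]; rfl

end maps
end univ

/-- assembling a presentation from two groups -/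
theorem assemble2 {A B Γ : Type*} [Group A] [Group B] [Group Γ] {ma ra mb rb : ℕ} (ha : HasPres A ma ra)
    (hb : HasPres B mb rb) (sA : A →* Γ) (sB : B →* Γ) {J : Type} [Fintype J] (r : J → Coprod A B)
    (hgen : Subgroup.closure ((sA.range : Set Γ) ∪ (sB.range : Set Γ)) = ⊤)
    (hsat : ∀ j, Coprod.lift sA sB (r j) = 1)
    (hcons : ∀ (G : Type) [Group G] (α : A →* G) (β : B →* G), (∀ j, Coprod.lift α β (r j) = 1) →
      ∃ f : Γ →* G, (∀ a, f (sA a) = α a) ∧ ∀ b, f (sB b) = β b) :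
    HasPres Γ (ma + mb) (ra + rb + Fintype.card J) := by
  obtain ⟨a, Ra, hfa, hka, hPa⟩ := ha.exists
  obtain ⟨b, Rb, hfb, hkb, hPb⟩ := hb.exists
  obtain ⟨W, hW⟩ := (H6.SpPres.pres_coprod hPa hPb).extend (κ := Empty) (J := J)
    (Coprod.lift sA sB : Coprod A B →* Γ) Empty.elim (fun j => Coprod.inl (r j)) (by
      rw [eq_top_iff, ← hgen, Subgroup.closure_le]
      rintro x (⟨y, rfl⟩ | ⟨y, rfl⟩)
      · exact Subgroup.subset_closure (Or.inl ⟨Coprod.inl y, Coprod.lift_apply_inl _ _ _⟩)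
      · exact Subgroup.subset_closure (Or.inl ⟨Coprod.inr y, Coprod.lift_apply_inr _ _ _⟩)) (by
      intro j
      rw [Coprod.lift_apply_inl]; exact hsat j) (by
      intro G _ γ z hz
      have hγ : γ = Coprod.lift (γ.comp Coprod.inl) (γ.comp Coprod.inr) := by
        apply Coprod.hom_ext
        · rw [Coprod.lift_comp_inl]
        · rw [Coprod.lift_comp_inr]
      obtain ⟨f, h1, h2⟩ := hcons G (γ.comp Coprod.inl) (γ.comp Coprod.inr) (by
        intro j
        rw [← hγ]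
        have := hz j
        rwa [Coprod.lift_apply_inl] at this)
      refine ⟨f, ?_, fun k => k.elim⟩
      intro x
      have : f.comp (Coprod.lift sA sB) = γ := by
        rw [hγ]
        apply Coprod.hom_ext
        · rw [Coprod.lift_comp_inl, MonoidHom.comp_assoc, Coprod.lift_comp_inl]
          ext y; exact h1 y
        · rw [Coprod.lift_comp_inr, MonoidHom.comp_assoc, Coprod.lift_comp_inr]
          ext y; exact h2 y
      exact DFunLike.congr_fun this x)
  have e : (Fin ma ⊕ Fin mb) ⊕ Empty ≃ Fin (ma + mb) := (Equiv.sumEmpty _ _).trans finSumFinEquiv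
  apply hW.hasPres e
  · exact Set.Finite.union (Set.Finite.image _ ((hfa.image _).union (hfb.image _))) (Set.finite_range _)
  · calc _ ≤ _ := Set.ncard_union_le _ _
      _ ≤ (ra + rb) + Fintype.card J := by
        apply Nat.add_le_add
        · refine (Set.ncard_image_le ((hfa.image _).union (hfb.image _))).trans ?_
          refine (Set.ncard_union_le _ _).trans (Nat.add_le_add ?_ ?_)
          · exact (Set.ncard_image_le hfa).trans hka
          · exact (Set.ncard_image_le hfb).trans hkb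
        · have := ncard_range_le W
          rwa [Nat.card_eq_fintype_card] at this

section rels
variable {k K : Type*} [Field k] [Field K] (Q : QE k K) (bb : Fin 3 → SL2 K) (cc : Fin 3 → SL2 k) (ζ : Kˣ) (ν : kˣ)
variable {G G' : Type*} [Group G] [Group G']

/-- index set of the relations -/
abbrev J4 := (Fin 3 × Fin 3) ⊕ Fin 3 ⊕ Fin 3 ⊕ Fin 4 ⊕ Fin 3

/-- left sides -/
noncomputable def rl (s : SL2 K →* G) (l : SL2 k →* G) : J4 → G
  | .inl (i, j) => l (cc i) * l2 s l (cc j)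
  | .inr (.inl i) => l (H2 ν) * s (bb i)
  | .inr (.inr (.inl i)) => s (H2 ζ) * l (cc i)
  | .inr (.inr (.inr (.inl 0))) => l (U2 1) * s (U2 1)
  | .inr (.inr (.inr (.inl 1))) => l (U2 1) * s (U2 (ζ : K))
  | .inr (.inr (.inr (.inl 2))) => s (U2 1) * l2 s l (U2 1)
  | .inr (.inr (.inr (.inl 3))) => s (U2 (ζ : K)) * l2 s l (U2 1)
  | .inr (.inr (.inr (.inr i))) => l W2 * l2 s l W2 * s (bb i)

/-- right sides -/
noncomputable def rr (s : SL2 K →* G) (l : SL2 k →* G) : J4 → G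
  | .inl (i, j) => l2 s l (cc j) * l (cc i)
  | .inr (.inl i) => s (cD (Q.ιu ν) (bb i)) * l (H2 ν)
  | .inr (.inr (.inl i)) => l (cD (Q.Nu ζ) (cc i)) * s (H2 ζ)
  | .inr (.inr (.inr (.inl 0))) => s (U2 1) * l (U2 1)
  | .inr (.inr (.inr (.inl 1))) => s (U2 (ζ : K)) * l (U2 1)
  | .inr (.inr (.inr (.inl 2))) => nn s l 1 1 1 * s (U2 1)
  | .inr (.inr (.inr (.inl 3))) => nn s l (Q.N ζ) ζ 1 * s (U2 (ζ : K))
  | .inr (.inr (.inr (.inr i))) => s (Q.th (bb i)) * (l W2 * l2 s l W2)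

lemma rl_comp (f : G →* G') (s : SL2 K →* G) (l : SL2 k →* G) (j : J4) :
    rl bb cc ζ ν (f.comp s) (f.comp l) j = f (rl bb cc ζ ν s l j) := by
  rcases j with ⟨i, j⟩ | i | i | i | i
  · change _ = f (l (cc i) * l2 s l (cc j)); rw [map_mul, ← l2_comp]; rfl
  · change _ = f (l (H2 ν) * s (bb i)); rw [map_mul]; rfl
  · change _ = f (s (H2 ζ) * l (cc i)); rw [map_mul]; rfl
  · fin_cases i
    · change _ = f (l (U2 1) * s (U2 1)); rw [map_mul]; rfl
    · change _ = f (l (U2 1) * s (U2 (ζ : K))); rw [map_mul]; rfl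
    · change _ = f (s (U2 1) * l2 s l (U2 1)); rw [map_mul, ← l2_comp]; rfl
    · change _ = f (s (U2 (ζ : K)) * l2 s l (U2 1)); rw [map_mul, ← l2_comp]; rfl
  · change _ = f (l W2 * l2 s l W2 * s (bb i)); rw [map_mul, map_mul, ← l2_comp]; rfl

lemma rr_comp (f : G →* G') (s : SL2 K →* G) (l : SL2 k →* G) (j : J4) :
    rr Q bb cc ζ ν (f.comp s) (f.comp l) j = f (rr Q bb cc ζ ν s l j) := by
  rcases j with ⟨i, j⟩ | i | i | i | i
  · change _ = f (l2 s l (cc j) * l (cc i)); rw [map_mul, ← l2_comp]; rfl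
  · change _ = f (s (cD (Q.ιu ν) (bb i)) * l (H2 ν)); rw [map_mul]; rfl
  · change _ = f (l (cD (Q.Nu ζ) (cc i)) * s (H2 ζ)); rw [map_mul]; rfl
  · fin_cases i
    · change _ = f (s (U2 1) * l (U2 1)); rw [map_mul]; rfl
    · change _ = f (s (U2 (ζ : K)) * l (U2 1)); rw [map_mul]; rfl
    · change _ = f (nn s l 1 1 1 * s (U2 1)); rw [map_mul, ← nn_comp]; rfl
    · change _ = f (nn s l (Q.N ζ) ζ 1 * s (U2 (ζ : K))); rw [map_mul, ← nn_comp]; rfl
  · change _ = f (s (Q.th (bb i)) * (l W2 * l2 s l W2)); rw [map_mul, map_mul, ← l2_comp]; rfl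

lemma fin4_iff (s : SL2 K →* G) (l : SL2 k →* G) :
    Fin4 Q bb cc ζ ν s l ↔ ∀ j, rl bb cc ζ ν s l j = rr Q bb cc ζ ν s l j := by
  constructor
  · intro H j
    rcases j with ⟨i, j⟩ | i | i | i | i
    · exact H.A i j
    · exact H.B i
    · exact H.C i
    · fin_cases i
      · exact H.D1
      · exact H.D2
      · exact H.E1
      · exact H.E2
    · exact H.F i
  · intro H
    exact ⟨fun i j => H (.inl (i, j)), fun i => H (.inr (.inl i)), fun i => H (.inr (.inr (.inl i))),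
      H (.inr (.inr (.inr (.inl 0)))), H (.inr (.inr (.inr (.inl 1)))), H (.inr (.inr (.inr (.inl 2)))),
      H (.inr (.inr (.inr (.inl 3)))), fun i => H (.inr (.inr (.inr (.inr i))))⟩

lemma fin4_of_rel {s : SL2 K →* G} {l : SL2 k →* G} (H : Rel Q s l) : Fin4 Q bb cc ζ ν s l where
  A i j := H.A _ _
  B i := H.B _ _
  C i := H.C _ _
  D1 := H.D _ _
  D2 := H.D _ _
  E1 := by
    have := H.E 1 1
    rw [this, Q.N_one, map_one, mul_one, mul_one, H.x2_eq, H.yy_eq', H.x1_eq, H.nn_mul, H.nn_mul]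
    simp
  E2 := by
    have := H.E ζ 1
    rw [this, map_one, one_mul, one_mul, H.x2_eq, H.yy_eq', H.x1_eq, H.nn_mul, H.nn_mul]
    simp
  F i := H.F _

end rels

/-- the presentation of the concrete group -/
theorem pres_Gs {k K : Type*} [Field k] [Field K] [Finite k] [Finite K] (Q : QE k K) (hne : ∃ x, Q.σ x ≠ x) :
    HasPres (Gs Q) 6 40 := by
  obtain ⟨bb, Rb, -, -, hb⟩ := (H6.SpPres.sl_three (F := K)).exists
  obtain ⟨cc, Rc, -, -, hc⟩ := (H6.SpPres.sl_three (F := k)).exists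
  obtain ⟨ζ, hζ⟩ := H6.SpPres.exists_zeta (F := K)
  obtain ⟨ν, hν⟩ := H6.SpPres.exists_zeta (F := k)
  let sM : SL2 K →* Coprod (SL2 K) (SL2 k) := Coprod.inl
  let lM' : SL2 k →* Coprod (SL2 K) (SL2 k) := Coprod.inr
  have := assemble2 (H6.SpPres.sl_three (F := K)) (H6.SpPres.sl_three (F := k)) (sc Q) (lc Q)
    (fun j => rl bb cc ζ ν sM lM' j * (rr Q bb cc ζ ν sM lM' j)⁻¹) (HH_top (Q := Q)) (by
      intro j
      have h1 : (Coprod.lift (sc Q) (lc Q)).comp sM = sc Q := Coprod.lift_comp_inl _ _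
      have h2 : (Coprod.lift (sc Q) (lc Q)).comp lM' = lc Q := Coprod.lift_comp_inr _ _
      rw [map_mul, map_inv, mul_inv_eq_one, ← rl_comp, ← rr_comp, h1, h2]
      exact (fin4_iff Q bb cc ζ ν _ _).1 (fin4_of_rel Q bb cc ζ ν (rel_conc Q)) j) (by
      intro G _ s l h
      have H : Fin4 Q bb cc ζ ν s l := by
        rw [fin4_iff]
        intro j
        have h0 := h j
        have h1 : (Coprod.lift s l).comp sM = s := Coprod.lift_comp_inl _ _
        have h2 : (Coprod.lift s l).comp lM' = l := Coprod.lift_comp_inr _ _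
        rw [map_mul, map_inv, mul_inv_eq_one, ← rl_comp, ← rr_comp, h1, h2] at h0
        exact h0
      exact (H.rel hb.gen hc.gen hζ hν hne).exists_hom)
  exact this.mono (by simp)

end H6.Up
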