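import Cfsg.Agent.Lib.H6.UpG
import Cfsg.Agent.Lib.H43.U3Main

/-!
Presentations of special unitary groups, part H: the presentation of `SU_4(q)`.
-/

set_option autoImplicit false

namespace H6.Up

open Matrix H43.Tietze H49.Unitary

section
variable {K : Type*} [Field K] [Fintype K] {q : ℕ}

/-- the fixed field -/
abbrev kk (hK : Nat.card K = q ^ 2) : Subfield K := RingHom.eqLocusField (frob hK) (RingHom.id K)

lemma mem_kk (hK : Nat.card K = q ^ 2) (x : K) : x ∈ kk hK ↔ frob hK x = x := Iff.rfl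

/-- the quadratic extension -/
def qe (hK : Nat.card K = q ^ 2) : QE (kk hK) K where
  ι := (kk hK).subtype
  σ := frob hK
  inv := frob_frob hK
  fix := fun c => (mem_kk hK c).1 c.2
  mem := fun x hx => ⟨⟨x, (mem_kk hK x).2 hx⟩, rfl⟩
  N := fun x => ⟨x * frob hK x, (mem_kk hK _).2 (by rw [map_mul, frob_frob, mul_comm])⟩
  hN := fun x => rfl
  T := fun x => ⟨x + frob hK x, (mem_kk hK _).2 (by rw [map_add, frob_frob, add_comm])⟩
  hT := fun x => rfl

lemma qe_σ (hK : Nat.card K = q ^ 2) : (qe hK).σ = frob hK := rfl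

/-- the isomorphism with the standard special unitary group -/
theorem exists_equiv4 (hF : Fintype.card K = q ^ 2) (hK : Nat.card K = q ^ 2) :
    Nonempty (Gs (qe hK) ≃* Cfsg.SU 4 K q) := by
  obtain ⟨θ, hθ⟩ := exists_theta hK
  set δ : K := θ - frob hK θ with hδ
  have hδσ : frob hK δ = -δ := by rw [hδ, map_sub, frob_frob]; ring
  have hJct : ct hK (δ • JJ K) = δ • JJ K := by
    rw [ct_smul, hδσ]
    have : ct hK (JJ K) = -JJ K := by
      have h1 : ct hK (JJ K) = stM (qe hK) (JJ K) := rfl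
      rw [h1]
      unfold JJ
      rw [stM_blocks, stM_zero, stM_one, stM_neg, stM_one, fromBlocks_neg]
      simp
    rw [this]; simp
  have hJu : IsUnit (δ • JJ K) := by
    have h1 : IsUnit (JJ K) := by
      have h2 : JJ K * (-JJ K) = 1 := by rw [mul_neg, JJ_sq, neg_neg]
      exact IsUnit.of_mul_eq_one _ h2
    have h3 : IsUnit (δ • (1 : Matrix (Fin 2 ⊕ Fin 2) (Fin 2 ⊕ Fin 2) K)) := by
      refine IsUnit.of_mul_eq_one (δ⁻¹ • 1) ?_
      rw [smul_mul_smul_comm, mul_inv_cancel₀ hθ, one_smul, one_mul]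
    have := h3.mul h1
    rwa [smul_mul_assoc, one_mul] at this
  obtain ⟨y, hy, hHy, _⟩ := herm_eq_ct_mul hK _ hJu hJct
  have hydet : IsUnit y.det := (isUnit_iff_isUnit_det y).mp hy
  have hyy : y * y⁻¹ = 1 := mul_nonsing_inv y hydet
  have hyy2 : y⁻¹ * y = 1 := nonsing_inv_mul y hydet
  let e : Fin 2 ⊕ Fin 2 ≃ Fin 4 := finSumFinEquiv
  let Φ : Matrix.SpecialLinearGroup (Fin 2 ⊕ Fin 2) K →* Matrix.SpecialLinearGroup (Fin 4) K :=
    { toFun := fun A => ⟨(y * A.1 * y⁻¹).submatrix e.symm e.symm, by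
        rw [det_submatrix_equiv_self, det_mul, det_mul, A.2, mul_one, ← det_mul, hyy, det_one]⟩
      map_one' := by
        apply Subtype.ext
        change (y * (1 : Matrix (Fin 2 ⊕ Fin 2) (Fin 2 ⊕ Fin 2) K) * y⁻¹).submatrix e.symm e.symm = 1
        rw [mul_one, hyy]
        simp
      map_mul' := by
        intro A B
        apply Subtype.ext
        change (y * (A.1 * B.1) * y⁻¹).submatrix e.symm e.symm =
          (y * A.1 * y⁻¹).submatrix e.symm e.symm * (y * B.1 * y⁻¹).submatrix e.symm e.symm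
        rw [submatrix_mul_equiv]
        congr 1
        calc y * (A.1 * B.1) * y⁻¹ = y * A.1 * (1 * (B.1 * y⁻¹)) := by
              rw [one_mul]; simp only [mul_assoc]
          _ = _ := by rw [← hyy2]; simp only [mul_assoc] }
  have hΦv : ∀ A, (Φ A).1 = (y * A.1 * y⁻¹).submatrix e.symm e.symm := fun A => rfl
  have hΦinj : Function.Injective Φ := by
    intro A B h
    apply Subtype.ext
    have h1 := congrArg Subtype.val h
    rw [hΦv, hΦv] at h1
    have h2 : y * A.1 * y⁻¹ = y * B.1 * y⁻¹ := by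
      have h3 := congrArg (fun X : Matrix (Fin 4) (Fin 4) K => X.submatrix e e) h1
      simpa [submatrix_submatrix] using h3
    calc A.1 = (y⁻¹ * y) * A.1 * (y⁻¹ * y) := by rw [hyy2, one_mul, mul_one]
      _ = y⁻¹ * (y * A.1 * y⁻¹) * y := by simp only [mul_assoc]
      _ = y⁻¹ * (y * B.1 * y⁻¹) * y := by rw [h2]
      _ = (y⁻¹ * y) * B.1 * (y⁻¹ * y) := by simp only [mul_assoc]
      _ = B.1 := by rw [hyy2, one_mul, mul_one]
  have hmem : ∀ A : Matrix.SpecialLinearGroup (Fin 2 ⊕ Fin 2) K, A ∈ Gs (qe hK) ↔ Φ A ∈ Cfsg.SU 4 K q := by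
    intro A
    rw [H43.SU3.mem_SU_iff' hF hK]
    have h1 : ct hK (Φ A).1 = (ct hK (y * A.1 * y⁻¹)).submatrix e.symm e.symm := by
      ext i j; rfl
    have h2 : ct hK (y * A.1 * y⁻¹) * (y * A.1 * y⁻¹) = ct hK y⁻¹ * (ct hK A.1 * (δ • JJ K) * A.1) * y⁻¹ := by
      rw [hHy, ct_mul, ct_mul]; simp only [mul_assoc]
    have h3 : ct hK (Φ A).1 * (Φ A).1 = (ct hK y⁻¹ * (ct hK A.1 * (δ • JJ K) * A.1) * y⁻¹).submatrix e.symm e.symm := by
      rw [h1, hΦv, submatrix_mul_equiv, h2]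
    have hcy : ct hK y⁻¹ * ct hK y = 1 := by rw [← ct_mul, hyy, ct_one]
    have hcy2 : ct hK y * ct hK y⁻¹ = 1 := by rw [← ct_mul, hyy2, ct_one]
    constructor
    · intro hA
      have hA' : ct hK A.1 * JJ K * A.1 = JJ K := hA
      have h4 : ct hK A.1 * (δ • JJ K) * A.1 = δ • JJ K := by
        rw [mul_smul_comm, smul_mul_assoc, hA']
      change ct hK (Φ A).1 * (Φ A).1 = 1
      rw [h3, h4, hHy]
      have h5 : ct hK y⁻¹ * (ct hK y * y) * y⁻¹ = 1 := by
        calc ct hK y⁻¹ * (ct hK y * y) * y⁻¹ = (ct hK y⁻¹ * ct hK y) * (y * y⁻¹) := by simp only [mul_assoc]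
          _ = 1 := by rw [hcy, hyy, one_mul]
      rw [h5]; simp
    · intro h
      have h' : ct hK (Φ A).1 * (Φ A).1 = 1 := h
      rw [h3] at h'
      have h5 : ct hK y⁻¹ * (ct hK A.1 * (δ • JJ K) * A.1) * y⁻¹ = 1 := by
        have h6 := congrArg (fun X : Matrix (Fin 4) (Fin 4) K => X.submatrix e e) h'
        simpa [submatrix_submatrix] using h6
      have h6 : ct hK A.1 * (δ • JJ K) * A.1 = δ • JJ K := by
        calc ct hK A.1 * (δ • JJ K) * A.1
            = (ct hK y * ct hK y⁻¹) * (ct hK A.1 * (δ • JJ K) * A.1) * (y⁻¹ * y) := by rw [hcy2, hyy2, one_mul, mul_one]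
          _ = ct hK y * (ct hK y⁻¹ * (ct hK A.1 * (δ • JJ K) * A.1) * y⁻¹) * y := by simp only [mul_assoc]
          _ = δ • JJ K := by rw [h5, mul_one, hHy]
      rw [mul_smul_comm, smul_mul_assoc] at h6
      have h7 := congrArg (fun X => δ⁻¹ • X) h6
      simp only [smul_smul, inv_mul_cancel₀ hθ, one_smul] at h7
      exact h7
  have hmap : (Gs (qe hK)).map Φ = Cfsg.SU 4 K q := by
    ext x
    constructor
    · rintro ⟨M, hM, rfl⟩; exact (hmem M).1 hM
    · intro hx
      let A : Matrix.SpecialLinearGroup (Fin 2 ⊕ Fin 2) K := ⟨y⁻¹ * x.1.submatrix e e * y, by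
        rw [det_mul, det_mul, det_submatrix_equiv_self, x.2, mul_one, ← det_mul, hyy2, det_one]⟩
      have hA : Φ A = x := by
        apply Subtype.ext
        rw [hΦv]
        change (y * (y⁻¹ * x.1.submatrix e e * y) * y⁻¹).submatrix e.symm e.symm = x.1
        have : y * (y⁻¹ * x.1.submatrix e e * y) * y⁻¹ = x.1.submatrix e e := by
          calc y * (y⁻¹ * x.1.submatrix e e * y) * y⁻¹ = (y * y⁻¹) * x.1.submatrix e e * (y * y⁻¹) := by
                simp only [mul_assoc]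
            _ = _ := by rw [hyy, one_mul, mul_one]
        rw [this, submatrix_submatrix]
        simp
      exact ⟨A, (hmem A).2 (by rw [hA]; exact hx), hA⟩
  exact ⟨((Gs (qe hK)).equivMapOfInjective _ hΦinj).trans (MulEquiv.subgroupCongr hmap)⟩

/-- the presentation of `SU_4(q)` -/
theorem pres_SU4 (hF : Fintype.card K = q ^ 2) : HasPres (Cfsg.SU 4 K q) 6 40 := by
  have hK : Nat.card K = q ^ 2 := by rw [Nat.card_eq_fintype_card, hF]
  obtain ⟨e⟩ := exists_equiv4 hF hK
  refine (pres_Gs (qe hK) ?_).map e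
  obtain ⟨θ, hθ⟩ := exists_theta hK
  exact ⟨θ, fun h => hθ (by rw [qe_σ] at h; rw [h, sub_self])⟩

end

end H6.Up
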