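import Cfsg.Agent.Lib.H60.PhTwoA
import Cfsg.Agent.Lib.H60.PhP
import Cfsg.Agent.Lib.H43.AltPres

/-!
Presentations of special unitary groups, part I: permutation matrices, generators of stabilizers in alternating groups.
-/

set_option autoImplicit false

namespace H6.Up

open Matrix Cfsg H60.Ph Equiv

section pm
variable {F : Type*} [Field F] [Fintype F] {q : ℕ} {m n k : ℕ}

lemma PM_perm (σ : Perm (Fin n)) : PM F σ.toEmbedding = (1 : Matrix (Fin n) (Fin n) F).submatrix id σ := rfl

lemma PM_det (σ : Perm (Fin n)) : (PM F σ.toEmbedding).det = ((Perm.sign σ : ℤ) : F) := by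
  rw [PM_perm, det_permute', det_one, mul_one]

lemma PM_form (σ : Perm (Fin n)) (u v : Fin n → F) :
    hermForm n F q (PM F σ.toEmbedding *ᵥ u) (PM F σ.toEmbedding *ᵥ v) = hermForm n F q u v :=
  form_ext_ext σ.toEmbedding u v

/-- permutation matrices -/
def pm (F : Type*) [Field F] [Fintype F] (q : ℕ) : alternatingGroup (Fin n) →* SU n F q where
  toFun σ := ofMt (PM F σ.1.toEmbedding) (by
    rw [PM_det, Perm.mem_alternatingGroup.1 σ.2]; simp) (PM_form σ.1)
  map_one' := by
    apply mt_inj
    change PM F (1 : Perm (Fin n)).toEmbedding = 1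
    ext i j
    rw [PM_apply, Matrix.one_apply]; rfl
  map_mul' σ τ := by
    apply mt_inj
    rw [mt_mul]
    change PM F (σ.1 * τ.1).toEmbedding = PM F σ.1.toEmbedding * PM F τ.1.toEmbedding
    rw [PM_comp]
    rfl

lemma mt_pm (σ : alternatingGroup (Fin n)) : mt (pm F q σ) = PM F σ.1.toEmbedding := rfl

variable (hF : Fintype.card F = q ^ 2)

/-- permutation matrices permute blocks -/
lemma pm_emb (σ : alternatingGroup (Fin n)) (ε : Fin m ↪ Fin n) (a : SU m F q) :
    pm F q σ * emb hF ε a = emb hF (ε.trans σ.1.toEmbedding) a * pm F q σ := by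
  apply mt_inj
  rw [mt_mul, mt_mul, mt_pm, mt_emb, mt_emb]
  unfold EM
  rw [Matrix.mul_add, Matrix.add_mul, Matrix.mul_one, Matrix.one_mul]
  congr 1
  rw [← PM_comp, Matrix.transpose_mul]
  have h : (PM F σ.1.toEmbedding)ᵀ * PM F σ.1.toEmbedding = 1 := PMT_PM _
  calc PM F σ.1.toEmbedding * (PM F ε * (mt a - 1) * (PM F ε)ᵀ)
      = PM F σ.1.toEmbedding * PM F ε * (mt a - 1) * (PM F ε)ᵀ := by simp only [Matrix.mul_assoc]
    _ = PM F σ.1.toEmbedding * PM F ε * (mt a - 1) * ((PM F ε)ᵀ * ((PM F σ.1.toEmbedding)ᵀ * PM F σ.1.toEmbedding)) := by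
        rw [h, Matrix.mul_one]
    _ = _ := by simp only [Matrix.mul_assoc]

/-- extension of even permutations -/
noncomputable def via (ε : Fin m ↪ Fin n) : alternatingGroup (Fin m) →* alternatingGroup (Fin n) :=
  ((Perm.viaEmbeddingHom ε).comp (alternatingGroup (Fin m)).subtype).codRestrict (alternatingGroup (Fin n)) (by
    intro π
    rw [Perm.mem_alternatingGroup, MonoidHom.comp_apply, Perm.viaEmbeddingHom_apply]
    unfold Perm.viaEmbedding
    rw [Perm.sign_extendDomain]
    exact Perm.mem_alternatingGroup.1 π.2)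

lemma via_apply (ε : Fin m ↪ Fin n) (π : alternatingGroup (Fin m)) (x : Fin m) :
    (via ε π).1 (ε x) = ε (π.1 x) := Perm.viaEmbedding_apply _ _ _

lemma via_apply' (ε : Fin m ↪ Fin n) (π : alternatingGroup (Fin m)) {x : Fin n} (hx : ∀ i, ε i ≠ x) :
    (via ε π).1 x = x := Perm.viaEmbedding_apply_of_notMem _ _ _ (by rintro ⟨i, hi⟩; exact hx i hi)

lemma emb_pm (ε : Fin m ↪ Fin n) (π : alternatingGroup (Fin m)) : emb hF ε (pm F q π) = pm F q (via ε π) := by
  apply mt_inj
  rw [mt_emb, mt_pm, mt_pm]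
  ext i j
  rw [PM_apply]
  change _ = if i = (via ε π).1 j then 1 else 0
  by_cases hj : ∃ l, ε l = j
  · obtain ⟨l, rfl⟩ := hj
    rw [via_apply]
    by_cases hi : ∃ r, ε r = i
    · obtain ⟨r, rfl⟩ := hi
      rw [EM_apply_range, PM_apply]
      simp
    · push Not at hi
      rw [EM_apply_row ε _ hi, if_neg (fun h => hi _ h.symm)]
  · push Not at hj
    rw [EM_apply_col ε _ hj, via_apply' ε π hj]

lemma ext_alt {σ τ : alternatingGroup (Fin n)} (h : ∀ x, σ.1 x = τ.1 x) : σ = τ := Subtype.ext (Equiv.ext h)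

end pm

section gens

lemma alt_gen3 (m : ℕ) : ∃ v : Fin 3 → alternatingGroup (Fin m), Subgroup.closure (Set.range v) = ⊤ := by
  by_cases h5 : 5 ≤ m
  · obtain ⟨v, R, -, -, hP⟩ := (H43.AltPres.pres_An h5).exists
    exact ⟨v, hP.gen⟩
  by_cases h4 : m = 4
  · subst h4
    obtain ⟨v, R, -, -, hP⟩ := (H43.AltPres.pres_A4.pad 1).exists
    exact ⟨v, hP.gen⟩
  have hc : IsCyclic (alternatingGroup (Fin m)) := by
    have h3 : m < 4 := by omega
    interval_cases m
    · have : Subsingleton (alternatingGroup (Fin 0)) := ⟨fun a b => ext_alt (fun x => x.elim0)⟩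
      infer_instance
    · have : Subsingleton (alternatingGroup (Fin 1)) := ⟨fun a b => ext_alt (fun x => Subsingleton.elim _ _)⟩
      infer_instance
    · have hc2 : Nat.card (alternatingGroup (Fin 2)) = 1 := by
        rw [Nat.card_eq_fintype_card]; decide
      have : Subsingleton (alternatingGroup (Fin 2)) := (Nat.card_eq_one_iff_unique.1 hc2).1
      infer_instance
    · have hc3 : Nat.card (alternatingGroup (Fin 3)) = 3 := by
        rw [Nat.card_eq_fintype_card]; decide
      have : Fact (Nat.Prime 3) := ⟨Nat.prime_three⟩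
      exact isCyclic_of_prime_card hc3
  obtain ⟨g, hg⟩ := hc.exists_generator
  refine ⟨fun _ => g, ?_⟩
  rw [Set.range_const, ← Subgroup.zpowers_eq_closure]
  exact (Subgroup.eq_top_iff' _).2 hg

/-- three generators for the stabilizer of the first `k` points -/
lemma stab_gen3 (n k : ℕ) : ∃ c : Fin 3 → alternatingGroup (Fin n), (∀ i, ∀ x : Fin n, (x : ℕ) < k → (c i).1 x = x) ∧
    ∀ π : alternatingGroup (Fin n), (∀ x : Fin n, (x : ℕ) < k → π.1 x = x) → π ∈ Subgroup.closure (Set.range c) := by
  let p : Fin n → Prop := fun x => k ≤ (x : ℕ)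
  obtain ⟨v, hv⟩ := alt_gen3 (Fintype.card {x // p x})
  let e : Fin (Fintype.card {x // p x}) ≃ {x // p x} := (Fintype.equivFin _).symm
  let φ0 : Perm (Fin (Fintype.card {x // p x})) →* Perm (Fin n) :=
    (Perm.ofSubtype (p := p)).comp e.permCongrHom.toMonoidHom
  have hsign : ∀ π, Perm.sign (φ0 π) = Perm.sign π := by
    intro π
    change Perm.sign (Perm.ofSubtype (e.permCongrHom π)) = _
    rw [Perm.sign_ofSubtype]
    exact Perm.sign_permCongr e π
  let φ : alternatingGroup (Fin (Fintype.card {x // p x})) →* alternatingGroup (Fin n) :=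
    (φ0.comp (alternatingGroup _).subtype).codRestrict (alternatingGroup (Fin n)) (by
      intro π
      rw [Perm.mem_alternatingGroup, MonoidHom.comp_apply, hsign]
      exact Perm.mem_alternatingGroup.1 π.2)
  refine ⟨fun i => φ (v i), ?_, ?_⟩
  · intro i x hx
    exact Perm.ofSubtype_apply_of_not_mem _ (fun h : k ≤ (x : ℕ) => absurd hx (not_lt.2 h))
  · intro π hπ
    have hπ' : ∀ x, ¬ p x → π.1 x = x := fun x hx => hπ x (not_le.1 hx)
    have h1 : ∀ x, p (π.1 x) ↔ p x := by
      intro x
      constructor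
      · intro h
        by_contra hx
        rw [hπ' x hx] at h
        exact hx h
      · intro h
        by_contra hx
        have := hπ' _ hx
        have := π.1.injective this
        rw [this] at hx
        exact hx h
    have h2 : Perm.ofSubtype (π.1.subtypePerm h1) = π.1 :=
      Perm.ofSubtype_subtypePerm h1 (fun x hx => by
        by_contra h
        exact hx (hπ' x h))
    have h3 : φ0 (e.permCongrHom.symm (π.1.subtypePerm h1)) = π.1 := by
      change Perm.ofSubtype (e.permCongrHom (e.permCongrHom.symm (π.1.subtypePerm h1))) = π.1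
      rw [MulEquiv.apply_symm_apply, h2]
    have h4 : e.permCongrHom.symm (π.1.subtypePerm h1) ∈ alternatingGroup _ := by
      rw [Perm.mem_alternatingGroup, ← hsign, h3]
      exact Perm.mem_alternatingGroup.1 π.2
    have h5 : φ ⟨_, h4⟩ = π := Subtype.ext h3
    rw [← h5]
    have h6 : (⊤ : Subgroup _) ≤ (Subgroup.closure (Set.range fun i => φ (v i))).comap φ := by
      rw [← hv, Subgroup.closure_le]
      rintro _ ⟨i, rfl⟩
      exact Subgroup.subset_closure ⟨i, rfl⟩
    exact h6 (Subgroup.mem_top _)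

end gens

end H6.Up
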