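import Cfsg.Agent.Lib.H6.UpI

/-!
Presentations of special unitary groups, part J: windows, the uniform extension theorem, generation of alternating
groups by consecutive three-cycles.
-/

set_option autoImplicit false

namespace H6.Up

open Matrix Cfsg H60.Ph Equiv H16.Herm

section win0
variable {m n k : ℕ}
/-- windows -/
def wn (i : ℕ) (h : i + m ≤ n) : Fin m ↪ Fin n := ⟨fun j => ⟨i + j, by have := j.2; omega⟩, fun a b hab => by
  have := congrArg Fin.val hab
  simp only at this
  exact Fin.ext (by omega)⟩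

lemma wn_val (i : ℕ) (h : i + m ≤ n) (j : Fin m) : ((wn i h j : Fin n) : ℕ) = i + j := rfl

lemma emb_ext {ε ε' : Fin m ↪ Fin n} (h : ∀ j, ((ε j : Fin n) : ℕ) = ε' j) : ε = ε' := by
  ext j; exact h j

lemma tl_val (m : ℕ) (j : Fin m) : ((tl m j : Fin (m + 1)) : ℕ) = j + 1 := rfl
lemma hd_val {k n : ℕ} (h : k ≤ n) (j : Fin k) : ((hd h j : Fin n) : ℕ) = j := rfl
lemma tl_wn (m : ℕ) : tl m = wn 1 (by omega : 1 + m ≤ m + 1) := emb_ext (fun j => by rw [tl_val, wn_val]; omega)
lemma hd_wn (h : k ≤ n) : hd h = wn 0 (by omega : 0 + k ≤ n) := emb_ext (fun j => by rw [hd_val, wn_val]; omega)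

end win0

section win
variable {F : Type*} [Field F] [Fintype F] {q : ℕ} {m n k : ℕ}

variable (hF : Fintype.card F = q ^ 2)

lemma emb_refl (a : SU m F q) : emb hF (wn 0 (by omega : 0 + m ≤ m)) a = a := by
  apply mt_inj
  rw [mt_emb]
  ext i j
  have h : ∀ x : Fin m, wn 0 (by omega : 0 + m ≤ m) x = x := fun x => Fin.ext (by rw [wn_val, zero_add])
  have := EM_apply_range (wn 0 (by omega : 0 + m ≤ m)) (mt a) i j
  rwa [h, h] at this

lemma emb_wn_wn (i j : ℕ) (h : i + k ≤ m) (h' : j + m ≤ n) (a : SU k F q) :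
    emb hF (wn j h') (emb hF (wn i h) a) = emb hF (wn (j + i) (by omega : j + i + k ≤ n)) a := by
  rw [emb_emb]
  congr 1
  have : (wn i h).trans (wn j h') = wn (j + i) (by omega : j + i + k ≤ n) := emb_ext (fun x => by
    rw [Function.Embedding.trans_apply, wn_val, wn_val, wn_val]; omega)
  rw [this]

/-- generation by windows of length three -/
lemma gen_win (hm : 3 ≤ m) (C : Subgroup (SU m F q)) (h : ∀ i (hi : i + 3 ≤ m) a, emb hF (wn i hi) a ∈ C) : C = ⊤ := by
  induction m, hm using Nat.le_induction with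
  | base =>
    rw [eq_top_iff]
    rintro y -
    have := h 0 (by omega) y
    rwa [emb_refl] at this
  | succ m hm ih =>
    obtain ⟨n, rfl⟩ : ∃ n, m = n + 1 := ⟨m - 1, by omega⟩
    have h1 : C.comap (emb hF (tl (n + 1))) = ⊤ := by
      apply ih
      intro i hi a
      rw [Subgroup.mem_comap, tl_wn, emb_wn_wn]
      exact h _ _ a
    have h2 : ∀ a, emb hF (tl (n + 1)) a ∈ C := by
      intro a
      have := Subgroup.mem_top a
      rw [← h1] at this
      exact this
    have h3 : ∀ b : SU 2 F q, emb hF (hd (by omega : 2 ≤ n + 2)) b ∈ C := by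
      intro b
      have := h 0 (by omega) (emb hF (hd (by omega : 2 ≤ 3)) b)
      rw [hd_wn, emb_wn_wn] at this
      rw [hd_wn]
      exact this
    rw [eq_top_iff]
    rintro y -
    obtain ⟨a, a', a'', b, b', -, -, hy⟩ := exists_fac_all' hF (by omega : 2 ≤ n) y
    rw [hy]
    exact mul_mem (mul_mem (mul_mem (mul_mem (h2 a) (h3 b)) (h2 a')) (h3 b')) (h2 a'')

/-- the uniform extension theorem -/
theorem extend_all (hk : 2 ≤ k) {G : Type*} [Group G] (f : SU (k + 2) F q →* G) (g : SU 4 F q →* G)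
    (hov : ∀ a : SU 3 F q, f (emb hF (hd (by omega : 3 ≤ k + 2)) a) = g (emb hF (tl 3) a))
    (hcm : ∀ (b : SU 2 F q) (c : SU (k + 1) F q), g (emb hF (hd (by omega : 2 ≤ 4)) b) * f (emb hF (tl (k + 1)) c) =
      f (emb hF (tl (k + 1)) c) * g (emb hF (hd (by omega : 2 ≤ 4)) b))
    (hcm3 : ∀ (b : SU 3 F q) (c : SU k F q), g (emb hF (hd (by omega : 3 ≤ 4)) b) * f (emb hF (tl (k + 1)) (emb hF (tl k) c)) =
      f (emb hF (tl (k + 1)) (emb hF (tl k) c)) * g (emb hF (hd (by omega : 3 ≤ 4)) b)) :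
    ∃ h : SU (k + 3) F q →* G, (∀ a, h (emb hF (tl (k + 2)) a) = f a) ∧
      (∀ b, h (emb hF (hd (by omega : 4 ≤ k + 3)) b) = g b) := by
  have hq1 : 1 < q := one_lt_q hF
  by_cases hq2 : q = 2
  · subst hq2
    exact exists_extension2 hF hk f g hov hcm hcm3
  by_cases h2 : (2 : F) ≠ 0
  · exact exists_extension4 hF (by omega) h2 (m := k + 1) (by omega) f g hov hcm
  · push Not at h2
    have hq4 : 4 ≤ q := by
      by_contra h
      have h3 : q = 3 := by omega
      subst h3
      have h9 : ((Fintype.card F : ℕ) : F) = 0 := FiniteField.cast_card_eq_zero F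
      rw [hF] at h9
      have h1 : (1 : F) = 0 := by
        have : ((3 ^ 2 : ℕ) : F) = 2 * 4 + 1 := by norm_num
        rw [this, h2, zero_mul, zero_add] at h9
        exact h9
      exact one_ne_zero h1
    obtain ⟨h, h3, h4⟩ := exists_extension hF hq4 (m := k + 1) (by omega) f (g.comp (emb hF (hd (by omega : 3 ≤ 4)))) (by
      intro a
      have := hov (emb hF (hd (by omega : 2 ≤ 3)) a)
      rw [emb_emb, emb_emb] at this
      rw [MonoidHom.comp_apply, emb_emb]
      exact this) (by
      intro b c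
      have := hcm b c
      rw [MonoidHom.comp_apply, emb_emb]
      exact this)
    refine ⟨h, h3, ?_⟩
    have key : (MonoidHom.eqLocus (h.comp (emb hF (hd (by omega : 4 ≤ k + 3)))) g) = ⊤ := by
      apply gen_win hF (by omega : 3 ≤ 4)
      intro i hi a
      rcases Nat.lt_or_ge i 1 with hi0 | hi1
      · obtain rfl : i = 0 := by omega
        change h (emb hF (hd _) (emb hF (wn 0 hi) a)) = g (emb hF (wn 0 hi) a)
        have h5 := h4 a
        rw [MonoidHom.comp_apply, hd_wn, hd_wn] at h5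
        rw [hd_wn, emb_wn_wn]
        exact h5
      · obtain rfl : i = 1 := by omega
        change h (emb hF (hd _) (emb hF (wn 1 hi) a)) = g (emb hF (wn 1 hi) a)
        have h5 := h3 (emb hF (hd (by omega : 3 ≤ k + 2)) a)
        rw [hov a, tl_wn, tl_wn, hd_wn, emb_wn_wn] at h5
        rw [hd_wn, emb_wn_wn]
        exact h5
    intro b
    have hb := Subgroup.mem_top b
    rw [← key] at hb
    exact hb

end win

section alt
variable {m n : ℕ}

lemma via_surj (ε : Fin m ↪ Fin n) (σ : alternatingGroup (Fin n)) (h : ∀ x, (∀ i, ε i ≠ x) → σ.1 x = x) :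
    ∃ τ : alternatingGroup (Fin m), via ε τ = σ := by
  have h1 : ∀ i, ∃ j, ε j = σ.1 (ε i) := by
    intro i
    by_contra hc
    push Not at hc
    have h2 := h _ hc
    have h3 := σ.1.injective h2
    exact hc i h3.symm
  choose f hf using h1
  have hinj : Function.Injective f := by
    intro i j hij
    have h2 := hf i
    rw [hij, hf j] at h2
    exact (ε.injective (σ.1.injective h2)).symm
  let τ : Perm (Fin m) := Equiv.ofBijective f (Finite.injective_iff_bijective.1 hinj)
  have hv : Perm.viaEmbedding τ ε = σ.1 := by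
    apply Equiv.ext
    intro x
    by_cases hx : ∃ i, ε i = x
    · obtain ⟨i, rfl⟩ := hx
      rw [Perm.viaEmbedding_apply]
      exact hf i
    · push Not at hx
      rw [Perm.viaEmbedding_apply_of_notMem _ _ _ (by rintro ⟨i, hi⟩; exact hx i hi), h x hx]
  have hs : τ ∈ alternatingGroup (Fin m) := by
    have := Perm.mem_alternatingGroup.1 σ.2
    rw [← hv] at this
    unfold Perm.viaEmbedding at this
    rw [Perm.sign_extendDomain] at this
    exact Perm.mem_alternatingGroup.2 this
  exact ⟨⟨τ, hs⟩, Subtype.ext hv⟩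

/-- the basic three-cycle -/
def c3 : alternatingGroup (Fin 3) := ⟨finRotate 3, Perm.mem_alternatingGroup.2 (by decide)⟩

lemma c3_0 : c3.1 0 = 1 := by decide
lemma c3_1 : c3.1 1 = 2 := by decide
lemma c3_2 : c3.1 2 = 0 := by decide

lemma via_via {k : ℕ} (δ : Fin k ↪ Fin m) (ε : Fin m ↪ Fin n) (π : alternatingGroup (Fin k)) :
    via ε (via δ π) = via (δ.trans ε) π := by
  apply ext_alt
  intro x
  by_cases hx : ∃ i, ε i = x
  · obtain ⟨i, rfl⟩ := hx
    rw [via_apply]
    by_cases hi : ∃ j, δ j = i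
    · obtain ⟨j, rfl⟩ := hi
      rw [via_apply]
      exact (via_apply (δ.trans ε) π j).symm
    · push Not at hi
      rw [via_apply' δ π hi, via_apply' (δ.trans ε) π (fun j hj => hi j (ε.injective hj))]
  · push Not at hx
    rw [via_apply' ε _ hx, via_apply' (δ.trans ε) π (fun j hj => hx _ hj)]

lemma wn_trans {k : ℕ} (i j : ℕ) (h : i + k ≤ m) (h' : j + m ≤ n) :
    (wn i h).trans (wn j h') = wn (j + i) (by omega : j + i + k ≤ n) := emb_ext (fun x => by
    rw [Function.Embedding.trans_apply, wn_val, wn_val, wn_val]; omega)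

lemma alt_gen (hn : 3 ≤ n) (C : Subgroup (alternatingGroup (Fin n))) (h : ∀ i (hi : i + 3 ≤ n), via (wn i hi) c3 ∈ C) :
    C = ⊤ := by
  induction n, hn using Nat.le_induction with
  | base =>
    rw [eq_top_iff]
    rintro σ -
    have h0 := h 0 (by omega)
    have h1 : via (wn 0 (by omega : 0 + 3 ≤ 3)) c3 = c3 := by
      apply ext_alt
      intro x
      have hx : wn 0 (by omega : 0 + 3 ≤ 3) x = x := Fin.ext (by rw [wn_val, zero_add])
      have := via_apply (wn 0 (by omega : 0 + 3 ≤ 3)) c3 x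
      rw [hx] at this
      rw [this]
      exact Fin.ext (by rw [wn_val, zero_add])
    rw [h1] at h0
    have h2 : ∀ σ : alternatingGroup (Fin 3), σ = 1 ∨ σ = c3 ∨ σ = c3 * c3 := by decide
    rcases h2 σ with rfl | rfl | rfl
    · exact one_mem _
    · exact h0
    · exact mul_mem h0 h0
  | succ n hn ih =>
    -- transitivity
    have htr : ∀ v : ℕ, ∀ hv : v < n + 1, ∃ c ∈ C, c.1 ⟨v, hv⟩ = 0 := by
      intro v
      induction v with
      | zero => intro hv; exact ⟨1, one_mem _, rfl⟩
      | succ v ihv =>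
        intro hv
        obtain ⟨c, hc, hc0⟩ := ihv (by omega)
        obtain ⟨i, hi, hvi⟩ : ∃ i, ∃ hi : i + 3 ≤ n + 1, v = i ∨ v = i + 1 := by
          by_cases h1 : v + 3 ≤ n + 1
          · exact ⟨v, h1, Or.inl rfl⟩
          · exact ⟨v - 1, by omega, Or.inr (by omega)⟩
        have hd := h i hi
        have hmove : (via (wn i hi) c3).1 ⟨v, by omega⟩ = ⟨v + 1, hv⟩ := by
          rcases hvi with rfl | rfl
          · have h1 := via_apply (wn v hi) c3 0
            rw [c3_0] at h1
            have h2 : wn v hi (0 : Fin 3) = ⟨v, by omega⟩ := Fin.ext (by rw [wn_val]; rfl)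
            have h3 : wn v hi (1 : Fin 3) = ⟨v + 1, hv⟩ := Fin.ext (by rw [wn_val]; rfl)
            rw [h2, h3] at h1; exact h1
          · have h1 := via_apply (wn i hi) c3 1
            rw [c3_1] at h1
            have h2 : wn i hi (1 : Fin 3) = ⟨i + 1, by omega⟩ := Fin.ext (by rw [wn_val]; rfl)
            have h3 : wn i hi (2 : Fin 3) = ⟨i + 1 + 1, hv⟩ := Fin.ext (by rw [wn_val]; rfl)
            rw [h2, h3] at h1; exact h1
        refine ⟨c * (via (wn i hi) c3)⁻¹, mul_mem hc (inv_mem hd), ?_⟩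
        have h1 : ((via (wn i hi) c3)⁻¹).1 ⟨v + 1, hv⟩ = ⟨v, by omega⟩ := by
          change ((via (wn i hi) c3).1)⁻¹ ⟨v + 1, hv⟩ = _
          rw [← hmove, ← Perm.mul_apply, inv_mul_cancel, Perm.one_apply]
        change c.1 (((via (wn i hi) c3)⁻¹).1 ⟨v + 1, hv⟩) = 0
        rw [h1, hc0]
    have hC : C.comap (via (tl n)) = ⊤ := by
      apply ih
      intro i hi
      rw [Subgroup.mem_comap, via_via, tl_wn, wn_trans]
      exact h _ _
    rw [eq_top_iff]
    rintro σ -
    obtain ⟨c, hc, hc0⟩ := htr (σ.1 0 : Fin (n + 1)) (σ.1 0).2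
    have h1 : (c * σ).1 0 = 0 := hc0
    obtain ⟨τ, hτ⟩ := via_surj (tl n) (c * σ) (by
      intro x hx
      have hx0 : x = 0 := by
        by_contra hne
        obtain ⟨y, rfl⟩ := Fin.exists_succ_eq.2 hne
        exact hx y rfl
      rw [hx0, h1])
    have h2 : via (tl n) τ ∈ C := by
      have := Subgroup.mem_top τ
      rw [← hC] at this
      exact this
    have h3 : σ = c⁻¹ * via (tl n) τ := by rw [hτ]; group
    rw [h3]
    exact mul_mem (inv_mem hc) h2

end alt

end H6.Up
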