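import Cfsg.Agent.Lib.H6.UpJ

/-!
Presentations of special unitary groups, part K: gluing an alternating group and `SU_4(q)`.
-/

set_option autoImplicit false

namespace H6.Up

open Matrix Cfsg H60.Ph Equiv H16.Herm

section perms
variable {m n : ℕ}

lemma via_val {i : ℕ} (h : i + m ≤ n) (π : alternatingGroup (Fin m)) (y : Fin m) :
    (((via (wn i h) π).1 (wn i h y) : Fin n) : ℕ) = i + (π.1 y : ℕ) := by
  rw [via_apply, wn_val]

lemma via_val0 (h : 0 + m ≤ n) (π : alternatingGroup (Fin m)) (x : Fin n) (hx : (x : ℕ) < m) :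
    (((via (wn 0 h) π).1 x : Fin n) : ℕ) = (π.1 ⟨x, hx⟩ : ℕ) := by
  have h1 : wn 0 h ⟨x, hx⟩ = x := Fin.ext (by rw [wn_val]; simp)
  have h2 := via_val h π ⟨x, hx⟩
  rw [h1, zero_add] at h2
  exact h2

lemma conj_via (σ : alternatingGroup (Fin n)) (ε ε' : Fin m ↪ Fin n) (h : ∀ j, σ.1 (ε j) = ε' j)
    (π : alternatingGroup (Fin m)) : σ * via ε π * σ⁻¹ = via ε' π := by
  rw [mul_inv_eq_iff_eq_mul]
  apply ext_alt
  intro x
  change σ.1 ((via ε π).1 x) = (via ε' π).1 (σ.1 x)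
  by_cases hx : ∃ i, ε i = x
  · obtain ⟨i, rfl⟩ := hx
    rw [via_apply, h, h, via_apply]
  · push Not at hx
    rw [via_apply' ε π hx, via_apply' ε' π]
    intro i hi
    rw [← h] at hi
    exact hx i (σ.1.injective hi)

lemma exists_perm (x y : Fin m ↪ Fin n) : ∃ ρ : Perm (Fin n), ∀ i, ρ (x i) = y i := by
  obtain ⟨ρ, hρ⟩ := Equiv.Perm.exists_smul_eq_embedding x y
  exact ⟨ρ, fun i => by rw [← hρ]; rfl⟩

lemma exists_alt (hmn : m + 2 ≤ n) (x y : Fin m ↪ Fin n) : ∃ ρ : alternatingGroup (Fin n), ∀ i, ρ.1 (x i) = y i := by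
  obtain ⟨ρ, hρ⟩ := exists_perm x y
  by_cases hs : Perm.sign ρ = 1
  · exact ⟨⟨ρ, Perm.mem_alternatingGroup.2 hs⟩, hρ⟩
  · have hs' : Perm.sign ρ = -1 := by
      rcases Int.units_eq_one_or (Perm.sign ρ) with h | h
      · exact absurd h hs
      · exact h
    have hc : 2 ≤ (Finset.univ.image x)ᶜ.card := by
      rw [Finset.card_compl, Finset.univ.card_image_of_injective x.injective, Finset.card_univ, Fintype.card_fin,
        Fintype.card_fin]
      omega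
    obtain ⟨a, ha, b, hb, hab⟩ := Finset.one_lt_card.1 hc
    refine ⟨⟨ρ * swap a b, Perm.mem_alternatingGroup.2 (by rw [map_mul, hs', Perm.sign_swap hab]; rfl)⟩, fun i => ?_⟩
    change ρ (swap a b (x i)) = y i
    rw [Finset.mem_compl] at ha hb
    rw [swap_apply_of_ne_of_ne (fun h => ha (by rw [← h]; exact Finset.mem_image_of_mem _ (Finset.mem_univ i)))
      (fun h => hb (by rw [← h]; exact Finset.mem_image_of_mem _ (Finset.mem_univ i))), hρ]

/-- shifts -/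
lemma exists_shift (hn : 5 ≤ n) (j : ℕ) (hj : j + 4 ≤ n) : ∃ σ : alternatingGroup (Fin n), ∀ x : Fin n, (x : ℕ) < 4 →
    ((σ.1 x : Fin n) : ℕ) = x + j := by
  by_cases h6 : 6 ≤ n
  · obtain ⟨σ, hσ⟩ := exists_alt (m := 4) (by omega) (wn 0 (by omega)) (wn j (by omega : j + 4 ≤ n))
    refine ⟨σ, fun x hx => ?_⟩
    have h1 := hσ ⟨x, hx⟩
    have h2 : wn 0 (by omega : 0 + 4 ≤ n) ⟨x, hx⟩ = x := Fin.ext (by rw [wn_val]; simp)
    rw [h2] at h1
    rw [h1, wn_val, add_comm]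
  · obtain rfl : n = 5 := by omega
    have hj' : j = 0 ∨ j = 1 := by omega
    rcases hj' with rfl | rfl
    · exact ⟨1, fun x _ => rfl⟩
    · refine ⟨⟨finRotate 5, Perm.mem_alternatingGroup.2 (by decide)⟩, ?_⟩
      change ∀ x : Fin 5, (x : ℕ) < 4 → ((finRotate 5 x : Fin 5) : ℕ) = x + 1
      decide

/-- special even permutations -/
def rot5 : alternatingGroup (Fin 5) := ⟨finRotate 5, Perm.mem_alternatingGroup.2 (by decide)⟩
/-- special even permutations -/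
def tau5 : alternatingGroup (Fin 5) := ⟨swap 0 1 * swap 3 4, Perm.mem_alternatingGroup.2 (by decide)⟩
/-- special even permutations -/
def rho4 : alternatingGroup (Fin 4) := ⟨swap 0 2 * swap 2 3, Perm.mem_alternatingGroup.2 (by decide)⟩

lemma rot5_val : ∀ x : Fin 5, (x : ℕ) < 4 → (rot5.1 x : ℕ) = x + 1 := by decide
lemma tau5_val : ∀ x : Fin 5, (x : ℕ) < 3 → (tau5.1 x : ℕ) = (if (x : ℕ) = 2 then 2 else 1 - (x : ℕ) : ℕ) := by decide
lemma rho4_val : rho4.1 0 = 2 ∧ rho4.1 1 = 1 ∧ rho4.1 2 = 3 := by decide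
lemma rho4_tau : ∀ y : Fin 3, ∀ z : Fin 4, (z : ℕ) = (if (y : ℕ) = 2 then 2 else 1 - (y : ℕ) : ℕ) →
    (rho4.1 z : ℕ) = y + 1 := by decide

/-- swap of the first two -/
def sw (m : ℕ) (h : 2 ≤ m) : Fin m ↪ Fin m := (swap (⟨0, by omega⟩ : Fin m) ⟨1, by omega⟩).toEmbedding

end perms

variable {F : Type*} [Field F] [Fintype F] {q n : ℕ} (hF : Fintype.card F = q ^ 2) (h5 : 5 ≤ n)
variable {G : Type*} [Group G] (α : alternatingGroup (Fin n) →* G) (β : SU 4 F q →* G)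

/-- conjugates of blocks -/
def WW (m : ℕ) (hm : 0 + m ≤ 4) (σ : alternatingGroup (Fin n)) : SU m F q →* G :=
  (MulAut.conj (α σ)).toMonoidHom.comp (β.comp (emb hF (wn 0 hm)))

lemma WW_apply (m : ℕ) (hm : 0 + m ≤ 4) (σ : alternatingGroup (Fin n)) (a : SU m F q) :
    WW hF α β m hm σ a = α σ * β (emb hF (wn 0 hm) a) * (α σ)⁻¹ := rfl

/-- all relations but one -/
structure Full0 : Prop where
  R1 : ∀ π : alternatingGroup (Fin 4), β (pm F q π) = α (via (wn 0 (by omega)) π)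
  R2 : ∀ σ : alternatingGroup (Fin n), (∀ x : Fin n, (x : ℕ) < 2 → σ.1 x = x) → ∀ b : SU 2 F q,
    α σ * β (emb hF (wn 0 (by omega)) b) = β (emb hF (wn 0 (by omega)) b) * α σ
  R3 : ∀ σ : alternatingGroup (Fin n), (∀ x : Fin n, (x : ℕ) < 3 → σ.1 x = x) → ∀ b : SU 3 F q,
    α σ * β (emb hF (wn 0 (by omega)) b) = β (emb hF (wn 0 (by omega)) b) * α σ
  S2 : ∀ s : alternatingGroup (Fin n), (∀ x : Fin n, (x : ℕ) < 2 → ((s.1 x : Fin n) : ℕ) = 1 - x) → ∀ b : SU 2 F q,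
    α s * β (emb hF (wn 0 (by omega)) b) = β (emb hF (wn 0 (by omega)) (emb hF (sw 2 (by omega)) b)) * α s
  S3 : ∀ s : alternatingGroup (Fin n), (∀ x : Fin n, (x : ℕ) < 3 → ((s.1 x : Fin n) : ℕ) = (if (x : ℕ) = 2 then 2 else 1 - (x : ℕ) : ℕ)) →
    ∀ b : SU 3 F q,
    α s * β (emb hF (wn 0 (by omega)) b) = β (emb hF (wn 0 (by omega)) (emb hF (sw 3 (by omega)) b)) * α s
  R5 : ∀ σ : alternatingGroup (Fin n), (∀ x : Fin n, (x : ℕ) < 3 → ((σ.1 x : Fin n) : ℕ) = x + 2) →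
    ∀ (b : SU 2 F q) (a : SU 3 F q), β (emb hF (wn 0 (by omega)) b) * WW hF α β 3 (by omega) σ a =
      WW hF α β 3 (by omega) σ a * β (emb hF (wn 0 (by omega)) b)

/-- all relations -/
structure Full : Prop extends Full0 hF h5 α β where
  R6 : ∀ σ : alternatingGroup (Fin n), 6 ≤ n → (∀ x : Fin n, (x : ℕ) < 3 → ((σ.1 x : Fin n) : ℕ) = x + 3) →
    ∀ (b a : SU 3 F q), β (emb hF (wn 0 (by omega)) b) * WW hF α β 3 (by omega) σ a =
      WW hF α β 3 (by omega) σ a * β (emb hF (wn 0 (by omega)) b)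

namespace Full0

variable {hF h5 α β} (H : Full0 hF h5 α β)
include H

lemma ag2 {σ σ' : alternatingGroup (Fin n)} (h : ∀ x : Fin n, (x : ℕ) < 2 → σ.1 x = σ'.1 x) (b : SU 2 F q) :
    WW hF α β 2 (by omega) σ b = WW hF α β 2 (by omega) σ' b := by
  have h1 := H.R2 (σ⁻¹ * σ') (fun x hx => by
    change σ.1⁻¹ (σ'.1 x) = x
    rw [← h x hx, ← Perm.mul_apply, inv_mul_cancel, Perm.one_apply]) b
  rw [WW_apply, WW_apply]
  have h2 : α σ' = α σ * α (σ⁻¹ * σ') := by rw [← map_mul]; congr 1; group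
  rw [h2]
  calc _ = α σ * (β (emb hF (wn 0 (by omega)) b) * α (σ⁻¹ * σ')) * (α (σ⁻¹ * σ'))⁻¹ * (α σ)⁻¹ := by group
    _ = _ := by rw [← h1]; group

lemma ag3 {σ σ' : alternatingGroup (Fin n)} (h : ∀ x : Fin n, (x : ℕ) < 3 → σ.1 x = σ'.1 x) (b : SU 3 F q) :
    WW hF α β 3 (by omega) σ b = WW hF α β 3 (by omega) σ' b := by
  have h1 := H.R3 (σ⁻¹ * σ') (fun x hx => by
    change σ.1⁻¹ (σ'.1 x) = x
    rw [← h x hx, ← Perm.mul_apply, inv_mul_cancel, Perm.one_apply]) b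
  rw [WW_apply, WW_apply]
  have h2 : α σ' = α σ * α (σ⁻¹ * σ') := by rw [← map_mul]; congr 1; group
  rw [h2]
  calc _ = α σ * (β (emb hF (wn 0 (by omega)) b) * α (σ⁻¹ * σ')) * (α (σ⁻¹ * σ'))⁻¹ * (α σ)⁻¹ := by group
    _ = _ := by rw [← h1]; group

omit H in
lemma _root_.H6.Up.WW_mul (m : ℕ) (hm : 0 + m ≤ 4) (ρ σ : alternatingGroup (Fin n)) (a : SU m F q) :
    WW hF α β m hm (ρ * σ) a = α ρ * WW hF α β m hm σ a * (α ρ)⁻¹ := by
  rw [WW_apply, WW_apply, map_mul]; group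

/-- swapping, blocks of size two -/
lemma sw2 {σ σ' : alternatingGroup (Fin n)}
    (h : ∀ x y : Fin n, (x : ℕ) < 2 → (y : ℕ) = 1 - x → σ.1 x = σ'.1 y) (b : SU 2 F q) :
    WW hF α β 2 (by omega) σ b = WW hF α β 2 (by omega) σ' (emb hF (sw 2 (by omega)) b) := by
  have hs : ∀ x : Fin n, (x : ℕ) < 2 → (((σ'⁻¹ * σ).1 x : Fin n) : ℕ) = 1 - x := by
    intro x hx
    change ((σ'.1⁻¹ (σ.1 x) : Fin n) : ℕ) = 1 - x
    rw [h x ⟨1 - x, by omega⟩ hx rfl, ← Perm.mul_apply, inv_mul_cancel, Perm.one_apply]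
  have h1 := H.S2 (σ'⁻¹ * σ) hs b
  have h2 : σ = σ' * (σ'⁻¹ * σ) := by group
  conv_lhs => rw [h2]
  rw [WW_mul, WW_apply, h1, WW_apply]
  group

/-- swapping, blocks of size three -/
lemma sw3 {σ σ' : alternatingGroup (Fin n)}
    (h : ∀ x y : Fin n, (x : ℕ) < 3 → (y : ℕ) = (if (x : ℕ) = 2 then 2 else 1 - (x : ℕ) : ℕ) → σ.1 x = σ'.1 y) (b : SU 3 F q) :
    WW hF α β 3 (by omega) σ b = WW hF α β 3 (by omega) σ' (emb hF (sw 3 (by omega)) b) := by
  have hs : ∀ x : Fin n, (x : ℕ) < 3 → (((σ'⁻¹ * σ).1 x : Fin n) : ℕ) = (if (x : ℕ) = 2 then 2 else 1 - (x : ℕ) : ℕ) := by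
    intro x hx
    change ((σ'.1⁻¹ (σ.1 x) : Fin n) : ℕ) = _
    rw [h x ⟨(if (x : ℕ) = 2 then 2 else 1 - (x : ℕ) : ℕ), by split_ifs <;> omega⟩ hx rfl, ← Perm.mul_apply, inv_mul_cancel,
      Perm.one_apply]
  have h1 := H.S3 (σ'⁻¹ * σ) hs b
  have h2 : σ = σ' * (σ'⁻¹ * σ) := by group
  conv_lhs => rw [h2]
  rw [WW_mul, WW_apply, h1, WW_apply]
  group

/-- disjoint blocks commute, sizes two and three -/
lemma F3 (σ σ' : alternatingGroup (Fin n)) (hd : ∀ x y : Fin n, (x : ℕ) < 2 → (y : ℕ) < 3 → σ.1 x ≠ σ'.1 y)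
    (b : SU 2 F q) (a : SU 3 F q) : WW hF α β 2 (by omega) σ b * WW hF α β 3 (by omega) σ' a =
      WW hF α β 3 (by omega) σ' a * WW hF α β 2 (by omega) σ b := by
  obtain ⟨σ5, hσ5⟩ : ∃ σ5 : alternatingGroup (Fin n), ∀ x : Fin n, (x : ℕ) < 3 → ((σ5.1 x : Fin n) : ℕ) = x + 2 := by
    obtain ⟨σ5, h⟩ := exists_alt (m := 3) (by omega) (wn 0 (by omega)) (wn 2 (by omega : 2 + 3 ≤ n))
    refine ⟨σ5, fun x hx => ?_⟩
    have h1 := h ⟨x, hx⟩
    have h2 : wn 0 (by omega : 0 + 3 ≤ n) ⟨x, hx⟩ = x := Fin.ext (by rw [wn_val]; simp)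
    rw [h2] at h1
    rw [h1, wn_val, add_comm]
  have hy : Function.Injective (fun i : Fin 5 => if h : (i : ℕ) < 2 then σ.1 ⟨i, by omega⟩ else
      σ'.1 ⟨i - 2, by have := i.2; omega⟩) := by
    intro i j hij
    dsimp only at hij
    split_ifs at hij with h1 h2 h2
    · have := Fin.mk.inj (σ.1.injective hij)
      exact Fin.ext this
    · exact absurd hij (hd _ _ h1 (by have := j.2; simp only; omega))
    · exact absurd hij.symm (hd _ _ h2 (by have := i.2; simp only; omega))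
    · have := Fin.mk.inj (σ'.1.injective hij)
      exact Fin.ext (by omega)
  obtain ⟨ρ, hρ⟩ := exists_perm (wn 0 (by omega : 0 + 5 ≤ n)) ⟨_, hy⟩
  have hρ1 : ∀ x : Fin n, (x : ℕ) < 2 → ρ x = σ.1 x := by
    intro x hx
    have h1 := hρ ⟨x, by omega⟩
    have h2 : wn 0 (by omega : 0 + 5 ≤ n) ⟨x, by omega⟩ = x := Fin.ext (by rw [wn_val]; simp)
    rw [h2] at h1
    rw [h1]
    change (if h : (x : ℕ) < 2 then σ.1 ⟨x, _⟩ else _) = _
    rw [dif_pos hx]
  have hρ2 : ∀ x y : Fin n, (x : ℕ) < 3 → (y : ℕ) = x + 2 → ρ y = σ'.1 x := by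
    intro x y hx hy'
    have h1 := hρ ⟨y, by omega⟩
    have h2 : wn 0 (by omega : 0 + 5 ≤ n) ⟨y, by omega⟩ = y := Fin.ext (by rw [wn_val]; simp)
    rw [h2] at h1
    rw [h1]
    change (if h : (y : ℕ) < 2 then _ else σ'.1 ⟨y - 2, _⟩) = _
    rw [dif_neg (by omega)]
    congr 1
    exact Fin.ext (by simp only; omega)
  have key : ∀ (ρ' : alternatingGroup (Fin n)), (∀ x y : Fin n, (x : ℕ) < 3 → (y : ℕ) = x + 2 → ρ'.1 y = σ'.1 x) →
      ∀ b', WW hF α β 2 (by omega) ρ' b' * WW hF α β 3 (by omega) σ' a =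
      WW hF α β 3 (by omega) σ' a * WW hF α β 2 (by omega) ρ' b' := by
    intro ρ' h b'
    have h1 : WW hF α β 3 (by omega) σ' a = WW hF α β 3 (by omega) (ρ' * σ5) a := by
      apply H.ag3
      intro x hx
      change σ'.1 x = ρ'.1 (σ5.1 x)
      rw [h x (σ5.1 x) hx (hσ5 x hx)]
    have h2 := H.R5 σ5 hσ5 b' a
    rw [h1, WW_mul, WW_apply hF α β 2]
    calc α ρ' * β (emb hF (wn 0 _) b') * (α ρ')⁻¹ * (α ρ' * WW hF α β 3 (by omega) σ5 a * (α ρ')⁻¹)
        = α ρ' * (β (emb hF (wn 0 (by omega)) b') * WW hF α β 3 (by omega) σ5 a) * (α ρ')⁻¹ := by group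
      _ = _ := by rw [h2]; group
  by_cases hs : Perm.sign ρ = 1
  · have h1 : WW hF α β 2 (by omega) σ b = WW hF α β 2 (by omega) ⟨ρ, Perm.mem_alternatingGroup.2 hs⟩ b :=
      H.ag2 (fun x hx => (hρ1 x hx).symm) b
    rw [h1]
    exact key ⟨ρ, Perm.mem_alternatingGroup.2 hs⟩ hρ2 b
  · have hs' : Perm.sign ρ = -1 := by
      rcases Int.units_eq_one_or (Perm.sign ρ) with h | h
      · exact absurd h hs
      · exact h
    have h01 : (⟨0, by omega⟩ : Fin n) ≠ ⟨1, by omega⟩ := by simp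
    let ρ' : alternatingGroup (Fin n) := ⟨ρ * swap ⟨0, by omega⟩ ⟨1, by omega⟩, Perm.mem_alternatingGroup.2 (by
      rw [map_mul, hs', Perm.sign_swap h01]; rfl)⟩
    have h1 : WW hF α β 2 (by omega) σ b = WW hF α β 2 (by omega) ρ' (emb hF (sw 2 (by omega)) b) := by
      apply H.sw2
      intro x y hx hy'
      rw [← hρ1 x hx]
      change ρ x = ρ (swap ⟨0, _⟩ ⟨1, _⟩ y)
      congr 1
      rcases Nat.lt_or_ge (x : ℕ) 1 with h | h
      · have hy1 : y = ⟨1, by omega⟩ := Fin.ext (by simp only; omega)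
        rw [hy1, swap_apply_right]
        exact Fin.ext (by simp only; omega)
      · have hy1 : y = ⟨0, by omega⟩ := Fin.ext (by simp only; omega)
        rw [hy1, swap_apply_left]
        exact Fin.ext (by simp only; omega)
    rw [h1]
    apply key ρ'
    intro x y hx hy'
    change ρ (swap ⟨0, _⟩ ⟨1, _⟩ y) = σ'.1 x
    rw [swap_apply_of_ne_of_ne (fun h => by rw [h] at hy'; simp at hy') (fun h => by rw [h] at hy'; simp at hy')]
    exact hρ2 x y hx hy'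

end Full0

namespace Full

variable {hF h5 α β} (H : Full hF h5 α β)
include H

/-- disjoint blocks commute, size three -/
lemma F4 (σ σ' : alternatingGroup (Fin n)) (hd : ∀ x y : Fin n, (x : ℕ) < 3 → (y : ℕ) < 3 → σ.1 x ≠ σ'.1 y)
    (b a : SU 3 F q) : WW hF α β 3 (by omega) σ b * WW hF α β 3 (by omega) σ' a =
      WW hF α β 3 (by omega) σ' a * WW hF α β 3 (by omega) σ b := by
  have hy : Function.Injective (fun i : Fin 6 => if h : (i : ℕ) < 3 then σ.1 ⟨i, by omega⟩ else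
      σ'.1 ⟨i - 3, by have := i.2; omega⟩) := by
    intro i j hij
    dsimp only at hij
    split_ifs at hij with h1 h2 h2
    · have := Fin.mk.inj (σ.1.injective hij)
      exact Fin.ext this
    · exact absurd hij (hd _ _ h1 (by have := j.2; simp only; omega))
    · exact absurd hij.symm (hd _ _ h2 (by have := i.2; simp only; omega))
    · have := Fin.mk.inj (σ'.1.injective hij)
      exact Fin.ext (by omega)
  have h6 : 6 ≤ n := by
    have := Fintype.card_le_of_injective _ hy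
    simpa using this
  obtain ⟨σ5, hσ5⟩ : ∃ σ5 : alternatingGroup (Fin n), ∀ x : Fin n, (x : ℕ) < 3 → ((σ5.1 x : Fin n) : ℕ) = x + 3 := by
    obtain ⟨σ5, h⟩ := exists_alt (m := 3) (by omega) (wn 0 (by omega)) (wn 3 (by omega : 3 + 3 ≤ n))
    refine ⟨σ5, fun x hx => ?_⟩
    have h1 := h ⟨x, hx⟩
    have h2 : wn 0 (by omega : 0 + 3 ≤ n) ⟨x, hx⟩ = x := Fin.ext (by rw [wn_val]; simp)
    rw [h2] at h1
    rw [h1, wn_val, add_comm]
  obtain ⟨ρ, hρ⟩ := exists_perm (wn 0 (by omega : 0 + 6 ≤ n)) ⟨_, hy⟩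
  have hρ1 : ∀ x : Fin n, (x : ℕ) < 3 → ρ x = σ.1 x := by
    intro x hx
    have h1 := hρ ⟨x, by omega⟩
    have h2 : wn 0 (by omega : 0 + 6 ≤ n) ⟨x, by omega⟩ = x := Fin.ext (by rw [wn_val]; simp)
    rw [h2] at h1
    rw [h1]
    change (if h : (x : ℕ) < 3 then σ.1 ⟨x, _⟩ else _) = _
    rw [dif_pos hx]
  have hρ2 : ∀ x y : Fin n, (x : ℕ) < 3 → (y : ℕ) = x + 3 → ρ y = σ'.1 x := by
    intro x y hx hy'
    have h1 := hρ ⟨y, by omega⟩
    have h2 : wn 0 (by omega : 0 + 6 ≤ n) ⟨y, by omega⟩ = y := Fin.ext (by rw [wn_val]; simp)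
    rw [h2] at h1
    rw [h1]
    change (if h : (y : ℕ) < 3 then _ else σ'.1 ⟨y - 3, _⟩) = _
    rw [dif_neg (by omega)]
    congr 1
    exact Fin.ext (by simp only; omega)
  have key : ∀ (ρ' : alternatingGroup (Fin n)), (∀ x y : Fin n, (x : ℕ) < 3 → (y : ℕ) = x + 3 → ρ'.1 y = σ'.1 x) →
      ∀ b', WW hF α β 3 (by omega) ρ' b' * WW hF α β 3 (by omega) σ' a =
      WW hF α β 3 (by omega) σ' a * WW hF α β 3 (by omega) ρ' b' := by
    intro ρ' h b'
    have h1 : WW hF α β 3 (by omega) σ' a = WW hF α β 3 (by omega) (ρ' * σ5) a := by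
      apply H.ag3
      intro x hx
      change σ'.1 x = ρ'.1 (σ5.1 x)
      rw [h x (σ5.1 x) hx (hσ5 x hx)]
    have h2 := H.R6 σ5 h6 hσ5 b' a
    rw [h1, WW_mul, WW_apply hF α β 3 _ ρ']
    calc α ρ' * β (emb hF (wn 0 _) b') * (α ρ')⁻¹ * (α ρ' * WW hF α β 3 (by omega) σ5 a * (α ρ')⁻¹)
        = α ρ' * (β (emb hF (wn 0 (by omega)) b') * WW hF α β 3 (by omega) σ5 a) * (α ρ')⁻¹ := by group
      _ = _ := by rw [h2]; group
  by_cases hs : Perm.sign ρ = 1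
  · have h1 : WW hF α β 3 (by omega) σ b = WW hF α β 3 (by omega) ⟨ρ, Perm.mem_alternatingGroup.2 hs⟩ b :=
      H.ag3 (fun x hx => (hρ1 x hx).symm) b
    rw [h1]
    exact key ⟨ρ, Perm.mem_alternatingGroup.2 hs⟩ hρ2 b
  · have hs' : Perm.sign ρ = -1 := by
      rcases Int.units_eq_one_or (Perm.sign ρ) with h | h
      · exact absurd h hs
      · exact h
    have h01 : (⟨0, by omega⟩ : Fin n) ≠ ⟨1, by omega⟩ := by simp
    let ρ' : alternatingGroup (Fin n) := ⟨ρ * swap ⟨0, by omega⟩ ⟨1, by omega⟩, Perm.mem_alternatingGroup.2 (by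
      rw [map_mul, hs', Perm.sign_swap h01]; rfl)⟩
    have h1 : WW hF α β 3 (by omega) σ b = WW hF α β 3 (by omega) ρ' (emb hF (sw 3 (by omega)) b) := by
      apply H.sw3
      intro x y hx hy'
      rw [← hρ1 x hx]
      change ρ x = ρ (swap ⟨0, _⟩ ⟨1, _⟩ y)
      congr 1
      by_cases h2 : (x : ℕ) = 2
      · rw [if_pos h2] at hy'
        rw [swap_apply_of_ne_of_ne (fun h => by rw [h] at hy'; simp at hy') (fun h => by rw [h] at hy'; simp at hy')]
        exact Fin.ext (by omega)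
      · rw [if_neg h2] at hy'
        rcases Nat.lt_or_ge (x : ℕ) 1 with h | h
        · have hy1 : y = ⟨1, by omega⟩ := Fin.ext (by simp only; omega)
          rw [hy1, swap_apply_right]
          exact Fin.ext (by simp only; omega)
        · have hy1 : y = ⟨0, by omega⟩ := Fin.ext (by simp only; omega)
          rw [hy1, swap_apply_left]
          exact Fin.ext (by simp only; omega)
    rw [h1]
    apply key ρ'
    intro x y hx hy'
    change ρ (swap ⟨0, _⟩ ⟨1, _⟩ y) = σ'.1 x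
    rw [swap_apply_of_ne_of_ne (fun h => by rw [h] at hy'; simp at hy') (fun h => by rw [h] at hy'; simp at hy')]
    exact hρ2 x y hx hy'

end Full

end H6.Up
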