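import Cfsg.Agent.Lib.H6.UpK

/-!
Presentations of special unitary groups, part L: the homomorphism from `SU_n(q)`.
-/

set_option autoImplicit false

namespace H6.Up

open Matrix Cfsg H60.Ph Equiv H16.Herm

variable {F : Type*} [Field F] [Fintype F] {q n : ℕ} {hF : Fintype.card F = q ^ 2} {h5 : 5 ≤ n}
variable {G : Type*} [Group G] {α : alternatingGroup (Fin n) →* G} {β : SU 4 F q →* G}

namespace Full

variable (H : Full hF h5 α β)
include H

/-- the tail block of `SU_4` -/
lemma tail3 (κ : alternatingGroup (Fin n)) (hκ : ∀ x : Fin n, (x : ℕ) < 3 → ((κ.1 x : Fin n) : ℕ) = x + 1)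
    (a : SU 3 F q) : β (emb hF (wn 1 (by omega)) a) = WW hF α β 3 (by omega) κ a := by
  have h1 := pm_emb hF rho4 ((sw 3 (by omega)).trans (wn 0 (by omega : 0 + 3 ≤ 4))) a
  have h2 : ((sw 3 (by omega)).trans (wn 0 (by omega : 0 + 3 ≤ 4))).trans rho4.1.toEmbedding =
      wn 1 (by omega : 1 + 3 ≤ 4) := by
    apply emb_ext
    intro j
    fin_cases j <;> rfl
  rw [h2, ← emb_emb] at h1
  have h3 := congrArg β h1
  rw [map_mul, map_mul, H.R1] at h3
  have h4 := H.S3 (via (wn 0 (by omega : 0 + 5 ≤ n)) tau5) (fun x hx => by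
    rw [via_val0 _ _ _ (by omega : (x : ℕ) < 5)]
    exact tau5_val ⟨x, by omega⟩ hx) a
  have h5' : WW hF α β 3 (by omega) κ a = WW hF α β 3 (by omega)
      (via (wn 0 (by omega : 0 + 4 ≤ n)) rho4 * via (wn 0 (by omega : 0 + 5 ≤ n)) tau5) a := by
    apply H.ag3
    intro x hx
    apply Fin.ext
    rw [hκ x hx]
    change _ = (((via (wn 0 (by omega : 0 + 4 ≤ n)) rho4).1 ((via (wn 0 (by omega : 0 + 5 ≤ n)) tau5).1 x) : Fin n) : ℕ)
    have h6 := via_val0 (by omega : 0 + 5 ≤ n) tau5 x (by omega)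
    have h7 := tau5_val ⟨x, by omega⟩ hx
    rw [h7] at h6
    have h8 : (((via (wn 0 (by omega : 0 + 5 ≤ n)) tau5).1 x : Fin n) : ℕ) < 4 := by
      rw [h6]; split_ifs <;> omega
    rw [via_val0 (by omega : 0 + 4 ≤ n) rho4 _ h8]
    exact (rho4_tau ⟨x, hx⟩ _ h6).symm
  rw [h5', WW_mul, WW_apply, h4]
  calc β (emb hF (wn 1 (by omega)) a) = (β (emb hF (wn 1 (by omega)) a) * α (via (wn 0 (by omega)) rho4)) *
        (α (via (wn 0 (by omega)) rho4))⁻¹ := by group
    _ = _ := by rw [← h3]; group

/-- window homomorphisms -/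
lemma V3 (σ : alternatingGroup (Fin n)) (j : ℕ) (hj : j + 4 ≤ n) (hσ : ∀ x : Fin n, (x : ℕ) < 4 → ((σ.1 x : Fin n) : ℕ) = x + j) :
    (∀ a : SU 3 F q, WW hF α β 4 (by omega) σ (emb hF (wn 0 (by omega)) a) = WW hF α β 3 (by omega) σ a) ∧
    ∃ σ' : alternatingGroup (Fin n), (∀ x : Fin n, (x : ℕ) < 3 → ((σ'.1 x : Fin n) : ℕ) = x + (j + 1)) ∧
      ∀ a : SU 3 F q, WW hF α β 4 (by omega) σ (emb hF (wn 1 (by omega)) a) = WW hF α β 3 (by omega) σ' a := by
  constructor
  · intro a
    rw [WW_apply, WW_apply, emb_refl]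
  · set κ := via (wn 0 (by omega : 0 + 5 ≤ n)) rot5 with hκ
    have hκv : ∀ x : Fin n, (x : ℕ) < 4 → ((κ.1 x : Fin n) : ℕ) = x + 1 := by
      intro x hx
      rw [hκ, via_val0 _ _ _ (by omega : (x : ℕ) < 5)]
      exact rot5_val ⟨x, by omega⟩ hx
    refine ⟨σ * κ, ?_, ?_⟩
    · intro x hx
      change ((σ.1 (κ.1 x) : Fin n) : ℕ) = x + (j + 1)
      rw [hσ _ (by rw [hκv x (by omega)]; omega), hκv x (by omega)]; omega
    · intro a
      rw [WW_apply, emb_refl, H.tail3 κ (fun x hx => hκv x (by omega)) a, WW_mul]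

theorem exists_hom : ∃ φ : SU n F q →* G, (∀ a : SU 4 F q, φ (emb hF (wn 0 (by omega)) a) = β a) ∧
    ∀ σ, φ (pm F q σ) = α σ := by
  have hex : ∀ j, ∃ σ : alternatingGroup (Fin n), (j + 4 ≤ n → ∀ x : Fin n, (x : ℕ) < 4 → ((σ.1 x : Fin n) : ℕ) = x + j) ∧
      (j = 0 → σ = 1) := by
    intro j
    by_cases h0 : j = 0
    · exact ⟨1, fun _ x _ => by rw [h0]; rfl, fun _ => rfl⟩
    · by_cases hj : j + 4 ≤ n
      · obtain ⟨σ, hσ⟩ := exists_shift h5 j hj
        exact ⟨σ, fun _ => hσ, fun h => absurd h h0⟩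
      · exact ⟨1, fun h => absurd h hj, fun h => absurd h h0⟩
  choose σ hσ hσ0 using hex
  let γ : ℕ → (SU 4 F q →* G) := fun j => WW hF α β 4 (by omega) (σ j)
  -- windows of length three
  have hV : ∀ k, 4 ≤ k → ∀ hk : k ≤ n, ∀ f : SU k F q →* G,
      (∀ i (hi : i + 4 ≤ k) a, f (emb hF (wn i hi) a) = γ (n - k + i) a) →
      ∀ p (hp : p + 3 ≤ k), ∃ σ' : alternatingGroup (Fin n),
        (∀ x : Fin n, (x : ℕ) < 3 → ((σ'.1 x : Fin n) : ℕ) = x + (n - k + p)) ∧
        ∀ a : SU 3 F q, f (emb hF (wn p hp) a) = WW hF α β 3 (by omega) σ' a := by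
    intro k hk4 hk f hf p hp
    by_cases h4 : p + 4 ≤ k
    · refine ⟨σ (n - k + p), fun x hx => hσ _ (by omega) x (by omega), fun a => ?_⟩
      have h1 := hf p h4 (emb hF (wn 0 (by omega : 0 + 3 ≤ 4)) a)
      rw [emb_wn_wn] at h1
      exact h1.trans ((H.V3 (σ (n - k + p)) (n - k + p) (by omega) (hσ _ (by omega))).1 a)
    · obtain ⟨p', rfl⟩ : ∃ p', p = p' + 1 := ⟨p - 1, by omega⟩
      obtain ⟨σ', h1, h2⟩ := (H.V3 (σ (n - k + p')) (n - k + p') (by omega) (hσ _ (by omega))).2
      refine ⟨σ', fun x hx => by rw [h1 x hx]; omega, fun a => ?_⟩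
      have h3 := hf p' (by omega) (emb hF (wn 1 (by omega : 1 + 3 ≤ 4)) a)
      rw [emb_wn_wn] at h3
      exact h3.trans (h2 a)
  -- the induction
  have main : ∀ k, 4 ≤ k → k ≤ n → ∃ f : SU k F q →* G,
      ∀ i (hi : i + 4 ≤ k) a, f (emb hF (wn i hi) a) = γ (n - k + i) a := by
    intro k hk
    induction k, hk using Nat.le_induction with
    | base =>
      intro hk
      refine ⟨γ (n - 4), fun i hi a => ?_⟩
      obtain rfl : i = 0 := by omega
      rw [emb_refl]; rfl
    | succ k hk4 ih =>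
      intro hkn
      obtain ⟨f, hf⟩ := ih (by omega)
      have hVk := hV k hk4 (by omega) f hf
      obtain ⟨k', rfl⟩ : ∃ k', k = k' + 2 := ⟨k - 2, by omega⟩
      set j := n - (k' + 2) - 1 with hj
      have hγj := H.V3 (σ j) j (by omega) (hσ j (by omega))
      have hg2 : ∀ b : SU 2 F q, γ j (emb hF (hd (by omega : 2 ≤ 4)) b) = WW hF α β 2 (by omega) (σ j) b := by
        intro b
        change WW hF α β 4 (by omega) (σ j) _ = _
        rw [WW_apply, WW_apply, emb_refl, hd_wn]
      have hg3 : ∀ b : SU 3 F q, γ j (emb hF (hd (by omega : 3 ≤ 4)) b) = WW hF α β 3 (by omega) (σ j) b := by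
        intro b
        rw [hd_wn]
        exact hγj.1 b
      obtain ⟨h, h1, h2⟩ := extend_all hF (k := k') (by omega) f (γ j) (by
        intro a
        obtain ⟨σ', e1, e2⟩ := hγj.2
        obtain ⟨σ'', e3, e4⟩ := hVk 0 (by omega)
        rw [hd_wn, e4, tl_wn]
        change _ = WW hF α β 4 _ (σ j) _
        rw [e2]
        apply H.ag3
        intro x hx
        apply Fin.ext
        rw [e1 x hx, e3 x hx]; omega) (by
        intro b c
        rw [hg2]
        have key : ((Subgroup.centralizer {WW hF α β 2 (by omega) (σ j) b}).comap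
            (f.comp (emb hF (tl (k' + 1))))) = ⊤ := by
          apply gen_win hF (by omega : 3 ≤ k' + 1)
          intro i hi a
          rw [Subgroup.mem_comap, Subgroup.mem_centralizer_singleton_iff, MonoidHom.comp_apply, tl_wn, emb_wn_wn]
          obtain ⟨σ', e1, e2⟩ := hVk (1 + i) (by omega)
          rw [e2]
          symm
          apply H.F3
          intro x y hx hy hxy
          have := congrArg Fin.val hxy
          rw [hσ j (by omega) x (by omega), e1 y hy] at this
          omega
        have hc := Subgroup.mem_top c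
        rw [← key, Subgroup.mem_comap, Subgroup.mem_centralizer_singleton_iff] at hc
        exact hc.symm) (by
        intro b c
        rw [hg3]
        by_cases hk3 : 3 ≤ k'
        · have key : ((Subgroup.centralizer {WW hF α β 3 (by omega) (σ j) b}).comap
              ((f.comp (emb hF (tl (k' + 1)))).comp (emb hF (tl k')))) = ⊤ := by
            apply gen_win hF hk3
            intro i hi a
            rw [Subgroup.mem_comap, Subgroup.mem_centralizer_singleton_iff, MonoidHom.comp_apply, MonoidHom.comp_apply,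
              tl_wn, tl_wn, emb_wn_wn, emb_wn_wn]
            obtain ⟨σ', e1, e2⟩ := hVk (1 + 1 + i) (by omega)
            rw [e2]
            symm
            apply H.F4
            intro x y hx hy hxy
            have := congrArg Fin.val hxy
            rw [hσ j (by omega) x (by omega), e1 y hy] at this
            omega
          have hc := Subgroup.mem_top c
          rw [← key, Subgroup.mem_comap, Subgroup.mem_centralizer_singleton_iff] at hc
          exact hc.symm
        · obtain rfl : k' = 2 := by omega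
          obtain ⟨σ', e1, e2⟩ := hVk 1 (by omega)
          have e3 : f (emb hF (tl (2 + 1)) (emb hF (tl 2) c)) =
              WW hF α β 2 (by omega) (σ' * via (wn 0 (by omega : 0 + 3 ≤ n)) c3) c := by
            have h6 : emb hF (tl (2 + 1)) (emb hF (tl 2) c) =
                emb hF (wn 1 (by omega : 1 + 3 ≤ 2 + 2)) (emb hF (wn 1 (by omega : 1 + 2 ≤ 3)) c) := by
              rw [tl_wn, tl_wn]
            rw [h6, e2]
            have h7 := pm_emb hF (via (wn 0 (by omega : 0 + 3 ≤ 4)) c3) (wn 0 (by omega : 0 + 2 ≤ 4)) c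
            have h8 : (wn 0 (by omega : 0 + 2 ≤ 4)).trans (via (wn 0 (by omega : 0 + 3 ≤ 4)) c3).1.toEmbedding =
                wn 1 (by omega : 1 + 2 ≤ 4) := by
              apply emb_ext
              intro y
              rw [Function.Embedding.trans_apply]
              change (((via (wn 0 (by omega : 0 + 3 ≤ 4)) c3).1 (wn 0 (by omega : 0 + 2 ≤ 4) y) : Fin 4) : ℕ) = _
              have hyl : ((wn 0 (by omega : 0 + 2 ≤ 4) y : Fin 4) : ℕ) < 3 := by rw [wn_val]; omega
              rw [via_val0 _ _ _ hyl]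
              fin_cases y <;> rfl
            rw [h8] at h7
            have h9 := congrArg β h7
            rw [map_mul, map_mul, H.R1, via_via, wn_trans] at h9
            rw [WW_mul, WW_apply, WW_apply, emb_wn_wn]
            have h10 : β (emb hF (wn (0 + 1) (by omega : 0 + 1 + 2 ≤ 4)) c) =
                α (via (wn 0 (by omega : 0 + 3 ≤ n)) c3) * β (emb hF (wn 0 (by omega)) c) *
                  (α (via (wn 0 (by omega : 0 + 3 ≤ n)) c3))⁻¹ := by
              rw [eq_mul_inv_iff_mul_eq]
              exact h9.symm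
            rw [h10]
          rw [e3]
          symm
          apply H.F3
          intro x y hx hy hxy
          have := congrArg Fin.val hxy
          change ((σ'.1 ((via (wn 0 (by omega : 0 + 3 ≤ n)) c3).1 x) : Fin n) : ℕ) = _ at this
          have h6 := via_val0 (by omega : 0 + 3 ≤ n) c3 x (by omega)
          have h7 : ∀ z : Fin 3, (z : ℕ) < 2 → (c3.1 z : ℕ) = z + 1 := by decide
          rw [h7 ⟨x, by omega⟩ hx] at h6
          simp only at h6
          rw [e1 _ (by rw [h6]; omega), h6, hσ j (by omega) y (by omega)] at this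
          omega)
      refine ⟨h, ?_⟩
      intro i hi a
      rcases Nat.eq_zero_or_pos i with rfl | hpos
      · have := h2 a
        rw [hd_wn] at this
        have e1 : n - (k' + 2 + 1) + 0 = j := by omega
        rw [e1]
        exact this
      · obtain ⟨i', rfl⟩ : ∃ i', i = 1 + i' := ⟨i - 1, by omega⟩
        have h3 := h1 (emb hF (wn i' (by omega : i' + 4 ≤ k' + 2)) a)
        rw [tl_wn, emb_wn_wn, hf] at h3
        have e1 : n - (k' + 2 + 1) + (1 + i') = n - (k' + 2) + i' := by omega
        rw [e1]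
        exact h3
  obtain ⟨φ, hφ⟩ := main n (by omega) le_rfl
  refine ⟨φ, ?_, ?_⟩
  · intro a
    have h1 := hφ 0 (by omega) a
    rw [h1]
    have e1 : n - n + 0 = 0 := by omega
    rw [e1]
    change WW hF α β 4 _ (σ 0) a = β a
    rw [WW_apply, emb_refl, hσ0 0 rfl, map_one, inv_one, one_mul, mul_one]
  · have key : MonoidHom.eqLocus (φ.comp (pm F q)) α = ⊤ := by
      apply alt_gen (by omega)
      intro i hi
      change φ (pm F q (via (wn i hi) c3)) = α (via (wn i hi) c3)
      obtain ⟨σ', e1, e2⟩ := hV n (by omega) le_rfl φ hφ i hi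
      rw [← emb_pm hF, e2, WW_apply, emb_pm, H.R1, via_via, wn_trans, ← map_mul, ← map_inv, ← map_mul]
      congr 1
      apply conj_via
      intro y
      apply Fin.ext
      have hyl : ((wn (0 + 0) (by omega : 0 + 0 + 3 ≤ n) y : Fin n) : ℕ) < 3 := by rw [wn_val]; omega
      rw [e1 _ hyl, wn_val, wn_val]; omega
    intro τ
    have hτ := Subgroup.mem_top τ
    rw [← key] at hτ
    exact hτ

end Full

end H6.Up
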