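import Cfsg.Agent.Lib.H6.UpL
import Cfsg.Agent.Lib.H7.UnitSU

/-!
Presentations of special unitary groups, part M: generation of `SU_3(q)`.
-/

set_option autoImplicit false

namespace H6.Up

open Matrix Cfsg H60.Ph Equiv H16.Herm

lemma two_more {G : Type*} [Group G] [Finite G] (H : Subgroup G) (h : Nat.card G ≤ 4 * Nat.card H) :
    ∃ D : Fin 2 → G, ∀ C : Subgroup G, H ≤ C → (∀ j, D j ∈ C) → C = ⊤ := by
  have step : ∀ A B : Subgroup G, A ≤ B → ∀ d ∈ B, d ∉ A → 2 * Nat.card A ≤ Nat.card B := by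
    intro A B hAB d hd hd'
    have h1 : Nat.card (A.subgroupOf B) * (A.subgroupOf B).index = Nat.card B := Subgroup.card_mul_index _
    have h2 : Nat.card (A.subgroupOf B) = Nat.card A := Nat.card_congr (Subgroup.subgroupOfEquivOfLe hAB).toEquiv
    have h3 : (A.subgroupOf B).index ≠ 1 := by
      intro h4
      rw [Subgroup.index_eq_one] at h4
      have : (⟨d, hd⟩ : B) ∈ A.subgroupOf B := by rw [h4]; exact Subgroup.mem_top _
      exact hd' (Subgroup.mem_subgroupOf.1 this)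
    have h5 : (A.subgroupOf B).index ≠ 0 := Subgroup.index_ne_zero_of_finite
    rw [← h1, h2, mul_comm 2]
    exact Nat.mul_le_mul_left _ (by omega)
  by_cases hH : H = ⊤
  · refine ⟨fun _ => 1, fun C hC _ => ?_⟩
    rw [hH] at hC
    exact top_le_iff.1 hC
  obtain ⟨d0, -, hd0⟩ := SetLike.exists_of_lt (lt_top_iff_ne_top.2 hH)
  let H1 := H ⊔ Subgroup.zpowers d0
  have hd01 : d0 ∈ H1 := (le_sup_right : Subgroup.zpowers d0 ≤ H1) (Subgroup.mem_zpowers d0)
  have h1 : 2 * Nat.card H ≤ Nat.card H1 := step H H1 le_sup_left d0 hd01 hd0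
  by_cases hH1 : H1 = ⊤
  · refine ⟨fun _ => d0, fun C hC hC' => ?_⟩
    rw [← top_le_iff, ← hH1]
    exact sup_le hC (by rw [Subgroup.zpowers_le]; exact hC' 0)
  obtain ⟨d1, -, hd1⟩ := SetLike.exists_of_lt (lt_top_iff_ne_top.2 hH1)
  refine ⟨![d0, d1], fun C hC hC' => ?_⟩
  have hC1 : H1 ≤ C := sup_le hC (by rw [Subgroup.zpowers_le]; exact hC' 0)
  have h2 : 2 * Nat.card H1 ≤ Nat.card C := step H1 C hC1 d1 (hC' 1) hd1
  have h3 := Subgroup.card_le_card_group C
  exact Subgroup.eq_top_of_card_eq C (by omega)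

lemma tl2_eq : tl 2 = (wn 0 (by omega : 0 + 2 ≤ 3)).trans c3.1.toEmbedding := by
  apply Function.Embedding.ext
  decide

section
variable {F : Type*} [Field F] [Fintype F] {q : ℕ} (hF : Fintype.card F = q ^ 2)

lemma tl2_conj (a : SU 2 F q) : emb hF (tl 2) a = pm F q c3 * emb hF (wn 0 (by omega : 0 + 2 ≤ 3)) a * (pm F q c3)⁻¹ := by
  rw [eq_mul_inv_iff_mul_eq, pm_emb, tl2_eq]

lemma card_SU22 (hK : Fintype.card F = 2 ^ 2) : Nat.card (SU 2 F 2) = 6 := by
  have h := H7.UnitSU.card_SU (K := F) (q := 2) hK 2 (by norm_num)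
  have h2 : (2 ^ (2 * (2 - 1) / 2) * ∏ i ∈ Finset.range 2, (if Even i then 2 ^ (i + 1) + 1 else 2 ^ (i + 1) - 1) : ℕ) = 3 * 6 := by
    decide
  rw [h2] at h
  exact Nat.eq_of_mul_eq_mul_left (by norm_num) h

lemma card_SU32 (hK : Fintype.card F = 2 ^ 2) : Nat.card (SU 3 F 2) = 216 := by
  have h := H7.UnitSU.card_SU (K := F) (q := 2) hK 3 (by norm_num)
  have h2 : (2 ^ (3 * (3 - 1) / 2) * ∏ i ∈ Finset.range 3, (if Even i then 2 ^ (i + 1) + 1 else 2 ^ (i + 1) - 1) : ℕ) = 3 * 216 := by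
    decide
  rw [h2] at h
  exact Nat.eq_of_mul_eq_mul_left (by norm_num) h

lemma su3_gen : ∃ D : Fin 2 → SU 3 F q, ∀ C : Subgroup (SU 3 F q), pm F q c3 ∈ C →
    (∀ b : SU 2 F q, emb hF (wn 0 (by omega : 0 + 2 ≤ 3)) b ∈ C) → (∀ j, D j ∈ C) → C = ⊤ := by
  have hq1 : 1 < q := one_lt_q hF
  by_cases hq : 3 ≤ q
  · refine ⟨fun _ => 1, fun C h1 h2 _ => ?_⟩
    rw [eq_top_iff]
    rintro y -
    have h3 : ∀ a, emb hF (tl 2) a ∈ C := by
      intro a
      rw [tl2_conj]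
      exact mul_mem (mul_mem h1 (h2 a)) (inv_mem h1)
    have h4 : ∀ b : SU 2 F q, emb hF (hd (by omega : 2 ≤ 3)) b ∈ C := by
      intro b
      rw [hd_wn]
      exact h2 b
    obtain ⟨a, a', a'', b, b', -, -, hy⟩ := exists_fac_all hF hq (n := 1) (by omega) y
    rw [hy]
    exact mul_mem (mul_mem (mul_mem (mul_mem (h3 a) (h4 b)) (h3 a')) (h4 b')) (h3 a'')
  · obtain rfl : q = 2 := by omega
    let H : Subgroup (SU 3 F 2) := Subgroup.zpowers (pm F 2 c3) ⊔ (emb hF (wn 0 (by omega : 0 + 2 ≤ 3))).range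
    have hH1 : pm F 2 c3 ∈ H := (le_sup_left : Subgroup.zpowers (pm F 2 c3) ≤ H) (Subgroup.mem_zpowers _)
    have hH2 : ∀ b, emb hF (wn 0 (by omega : 0 + 2 ≤ 3)) b ∈ H := fun b =>
      (le_sup_right : (emb hF (wn 0 (by omega : 0 + 2 ≤ 3))).range ≤ H) ⟨b, rfl⟩
    have hH3 : ∀ a, emb hF (tl 2) a ∈ H := by
      intro a
      rw [tl2_conj]
      exact mul_mem (mul_mem hH1 (hH2 a)) (inv_mem hH1)
    have hnorm : ∀ c : {c : F // c ≠ 0}, c.1 * c.1 ^ 2 + 0 * 0 ^ 2 = 1 := by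
      intro c
      have h1 := FiniteField.pow_card_sub_one_eq_one c.1 c.2
      rw [hF] at h1
      norm_num at h1
      linear_combination h1
    let f : Fin 3 × {c : F // c ≠ 0} × SU 2 F 2 → H := fun x =>
      ⟨pm F 2 c3 ^ (x.1 : ℕ) * emb hF (wn 0 (by omega : 0 + 2 ≤ 3)) (su2 hF x.2.1.1 0 (hnorm x.2.1)) * emb hF (tl 2) x.2.2,
        mul_mem (mul_mem (pow_mem hH1 _) (hH2 _)) (hH3 _)⟩
    have hf : ∀ x, mt (f x).1 *ᵥ (Pi.single 0 1) = fun i => if i = x.1 then x.2.1.1 else 0 := by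
      rintro ⟨i, c, a⟩
      change mt (pm F 2 c3 ^ (i : ℕ) * emb hF (wn 0 (by omega : 0 + 2 ≤ 3)) (su2 hF c.1 0 (hnorm c)) * emb hF (tl 2) a) *ᵥ _ = _
      rw [mt_mul, mt_mul, ← Matrix.mulVec_mulVec, emb_tl_e0, ← Matrix.mulVec_mulVec, ← hd_wn (by omega : 2 ≤ 3), emb_hd_e0]
      have h1 : ext (hd (by omega : 2 ≤ 3)) ![mt (su2 hF c.1 0 (hnorm c)) 0 0, mt (su2 hF c.1 0 (hnorm c)) 1 0] =
          c.1 • (Pi.single 0 1 : Fin 3 → F) := by
        have h2 : ![mt (su2 hF c.1 0 (hnorm c)) 0 0, mt (su2 hF c.1 0 (hnorm c)) 1 0] = c.1 • (Pi.single 0 1 : Fin 2 → F) := by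
          rw [mt_su2]
          ext j
          fin_cases j <;> simp
        rw [h2, ext_smul, ext_single]
        rfl
      rw [h1, Matrix.mulVec_smul, ← map_pow, mt_pm]
      have h3 : PM F (c3 ^ (i : ℕ)).1.toEmbedding *ᵥ (Pi.single 0 1 : Fin 3 → F) = Pi.single ((c3 ^ (i : ℕ)).1 0) 1 :=
        ext_single _ 0
      rw [h3]
      have h4 : ∀ i : Fin 3, (c3 ^ (i : ℕ)).1 0 = i := by decide
      rw [h4]
      ext j
      simp only [Pi.smul_apply, Pi.single_apply, smul_eq_mul, mul_ite, mul_one, mul_zero]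
    have hinj : Function.Injective f := by
      rintro ⟨i, c, a⟩ ⟨i', c', a'⟩ h
      have h1 := hf ⟨i, c, a⟩
      rw [h, hf] at h1
      have h2 := congrFun h1 i'
      simp only [if_true] at h2
      have h3 : i' = i := by
        by_contra hne
        rw [if_neg hne] at h2
        exact c'.2 h2
      subst h3
      rw [if_pos rfl] at h2
      have h4 : c' = c := Subtype.ext h2
      subst h4
      have h5 := congrArg Subtype.val h
      have h6 := mul_left_cancel h5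
      have h7 : a = a' := emb_injective hF (tl 2) h6
      rw [h7]
    have hc : 54 ≤ Nat.card H := by
      classical
      have h1 := Nat.card_le_card_of_injective f hinj
      rw [Nat.card_prod, Nat.card_prod, card_SU22 hF, Nat.card_eq_fintype_card, Nat.card_eq_fintype_card] at h1
      have h2 : Fintype.card {c : F // c ≠ 0} = 3 := by
        rw [Fintype.card_subtype_compl, hF]
        simp
      rw [h2, Fintype.card_fin] at h1
      omega
    obtain ⟨D, hD⟩ := two_more H (by rw [card_SU32 hF]; omega)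
    refine ⟨D, fun C h1 h2 h3 => hD C (sup_le (by rw [Subgroup.zpowers_le]; exact h1) (by rintro _ ⟨b, rfl⟩; exact h2 b)) h3⟩

end

end H6.Up
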