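import Cfsg.Agent.Lib.H6.UpM
import Cfsg.Agent.Lib.H6.SpPresE
import Cfsg.Agent.S0281

/-!
Presentations of special unitary groups, part N: finitely many relations suffice.
-/

set_option autoImplicit false

namespace H6.Up

open Matrix Cfsg H60.Ph Equiv H16.Herm H6.SpPres

lemma exists_field {F : Type*} [Field F] [Fintype F] {q : ℕ} (hF : Fintype.card F = q ^ 2) :
    ∃ (K : Type) (_ : Field K) (_ : Fintype K), Fintype.card K = q := by
  obtain ⟨p, hp⟩ := CharP.exists F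
  obtain ⟨n, hpr, hn⟩ := FiniteField.card F p
  haveI : Fact p.Prime := ⟨hpr⟩
  have hq1 : 1 < q := one_lt_q hF
  have hd : q ∣ p ^ (n : ℕ) := by
    rw [← hn, hF]
    exact Dvd.intro_left _ (by rw [pow_two])
  obtain ⟨m, -, hm⟩ := (Nat.dvd_prime_pow hpr).1 hd
  have hm0 : m ≠ 0 := by
    rintro rfl
    rw [pow_zero] at hm
    omega
  have h1 := GaloisField.card p m hm0
  haveI : Finite (GaloisField p m) := Nat.finite_of_card_ne_zero (by rw [h1]; exact pow_ne_zero _ hpr.ne_zero)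
  letI : Fintype (GaloisField p m) := Fintype.ofFinite _
  exact ⟨GaloisField p m, inferInstance, inferInstance, by
    rw [← Nat.card_eq_fintype_card, h1, hm]⟩

lemma su2_gen3 {F : Type*} [Field F] [Fintype F] {q : ℕ} (hF : Fintype.card F = q ^ 2) :
    ∃ u : Fin 3 → SU 2 F q, Subgroup.closure (Set.range u) = ⊤ := by
  obtain ⟨K, _, _, hK⟩ := exists_field hF
  obtain ⟨e⟩ := Cfsg.Agent.S0281.result hF hK
  obtain ⟨bb, Rb, -, -, hb⟩ := (H6.SpPres.sl_three (F := K)).exists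
  refine ⟨fun i => e.symm (bb i), ?_⟩
  have h1 : Set.range (fun i => e.symm (bb i)) = (e.symm.toMonoidHom : _ →* SU 2 F q) '' Set.range bb := by
    rw [← Set.range_comp]; rfl
  rw [h1, ← MonoidHom.map_closure, hb.gen, ← MonoidHom.range_eq_map]
  exact MonoidHom.range_eq_top.2 e.symm.surjective

section
variable {F : Type*} [Field F] [Fintype F] {q n : ℕ} (hF : Fintype.card F = q ^ 2) (h5 : 5 ≤ n)
variable {G : Type*} [Group G] (α : alternatingGroup (Fin n) →* G) (β : SU 4 F q →* G)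

/-- the finitely many relations -/
structure FinR (g4 : Fin 2 → alternatingGroup (Fin 4)) (a2 a3 : Fin 3 → alternatingGroup (Fin n))
    (u : Fin 3 → SU 2 F q) (D : Fin 2 → SU 3 F q) (σ5 σ6 : alternatingGroup (Fin n)) : Prop where
  r1 : ∀ i, β (pm F q (g4 i)) = α (via (wn 0 (by omega)) (g4 i))
  r2 : ∀ i j, α (a2 i) * β (emb hF (wn 0 (by omega)) (u j)) = β (emb hF (wn 0 (by omega)) (u j)) * α (a2 i)
  r3 : ∀ i j, α (a3 i) * β (emb hF (wn 0 (by omega)) (D j)) = β (emb hF (wn 0 (by omega)) (D j)) * α (a3 i)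
  r3s : ∀ j, α (via (wn 0 (by omega : 0 + 5 ≤ n)) tau5) * β (emb hF (wn 0 (by omega)) (D j)) =
    β (emb hF (wn 0 (by omega)) (emb hF (sw 3 (by omega)) (D j))) * α (via (wn 0 (by omega : 0 + 5 ≤ n)) tau5)
  r5 : ∀ i j, β (emb hF (wn 0 (by omega)) (u i)) * WW hF α β 3 (by omega) σ5 (D j) =
      WW hF α β 3 (by omega) σ5 (D j) * β (emb hF (wn 0 (by omega)) (u i))
  r6 : 6 ≤ n → ∀ i j, β (emb hF (wn 0 (by omega)) (D i)) * WW hF α β 3 (by omega) σ6 (D j) =
      WW hF α β 3 (by omega) σ6 (D j) * β (emb hF (wn 0 (by omega)) (D i))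

variable {hF h5 α β}
variable {g4 : Fin 2 → alternatingGroup (Fin 4)} {a2 a3 : Fin 3 → alternatingGroup (Fin n)}
    {u : Fin 3 → SU 2 F q} {D : Fin 2 → SU 3 F q} {σ5 σ6 : alternatingGroup (Fin n)}

lemma ag_aux (m : ℕ) (hm : 0 + m ≤ 4)
    (R : ∀ σ : alternatingGroup (Fin n), (∀ x : Fin n, (x : ℕ) < m → σ.1 x = x) → ∀ b : SU m F q,
      α σ * β (emb hF (wn 0 hm) b) = β (emb hF (wn 0 hm) b) * α σ)
    {σ σ' : alternatingGroup (Fin n)} (h : ∀ x : Fin n, (x : ℕ) < m → σ.1 x = σ'.1 x) (b : SU m F q) :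
    WW hF α β m hm σ b = WW hF α β m hm σ' b := by
  have h1 := R (σ⁻¹ * σ') (fun x hx => by
    change σ.1⁻¹ (σ'.1 x) = x
    rw [← h x hx, ← Perm.mul_apply, inv_mul_cancel, Perm.one_apply]) b
  rw [WW_apply, WW_apply]
  have h2 : α σ' = α σ * α (σ⁻¹ * σ') := by rw [← map_mul]; congr 1; group
  rw [h2]
  calc _ = α σ * (β (emb hF (wn 0 hm) b) * α (σ⁻¹ * σ')) * (α (σ⁻¹ * σ'))⁻¹ * (α σ)⁻¹ := by group
    _ = _ := by rw [← h1]; group


/-- abbreviations -/
structure Gens (hF : Fintype.card F = q ^ 2) (h5 : 5 ≤ n)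
    (g4 : Fin 2 → alternatingGroup (Fin 4)) (a2 a3 : Fin 3 → alternatingGroup (Fin n))
    (u : Fin 3 → SU 2 F q) (D : Fin 2 → SU 3 F q) (σ5 σ6 : alternatingGroup (Fin n)) : Prop where
  hg4 : Subgroup.closure (Set.range g4) = ⊤
  ha2 : ∀ π : alternatingGroup (Fin n), (∀ x : Fin n, (x : ℕ) < 2 → π.1 x = x) → π ∈ Subgroup.closure (Set.range a2)
  ha3 : ∀ π : alternatingGroup (Fin n), (∀ x : Fin n, (x : ℕ) < 3 → π.1 x = x) → π ∈ Subgroup.closure (Set.range a3)
  hu : Subgroup.closure (Set.range u) = ⊤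
  hD : ∀ C : Subgroup (SU 3 F q), pm F q c3 ∈ C →
    (∀ b : SU 2 F q, emb hF (wn 0 (by omega : 0 + 2 ≤ 3)) b ∈ C) → (∀ j, D j ∈ C) → C = ⊤
  h5' : ∀ x : Fin n, (x : ℕ) < 3 → ((σ5.1 x : Fin n) : ℕ) = x + 2
  h6' : 6 ≤ n → ∀ x : Fin n, (x : ℕ) < 3 → ((σ6.1 x : Fin n) : ℕ) = x + 3

section
variable (N : Gens hF h5 g4 a2 a3 u D σ5 σ6) (H : FinR hF h5 α β g4 a2 a3 u D σ5 σ6)
include N H

lemma fR1 (π : alternatingGroup (Fin 4)) : β (pm F q π) = α (via (wn 0 (by omega)) π) := by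
  have h1 : MonoidHom.eqLocus (β.comp (pm F q)) (α.comp (via (wn 0 (by omega : 0 + 4 ≤ n)))) = ⊤ := by
    rw [eq_top_iff, ← N.hg4, Subgroup.closure_le]
    rintro _ ⟨i, rfl⟩
    exact H.r1 i
  have h2 := Subgroup.mem_top π
  rw [← h1] at h2
  exact h2

lemma fR2 (σ : alternatingGroup (Fin n)) (hσ : ∀ x : Fin n, (x : ℕ) < 2 → σ.1 x = x) (b : SU 2 F q) :
    α σ * β (emb hF (wn 0 (by omega)) b) = β (emb hF (wn 0 (by omega)) b) * α σ := by
  apply comm_of_mem α _ (v := a2) _ (N.ha2 σ hσ)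
  intro i
  symm
  exact comm_of_gen N.hu (β.comp (emb hF (wn 0 (by omega)))) (α (a2 i)) (fun j => (H.r2 i j).symm) b

/-- the cyclic permutation in a block of size three -/
lemma fc3 (σ : alternatingGroup (Fin n)) : WW hF α β 3 (by omega) σ (pm F q c3) =
    α (via ((wn 0 (by omega : 0 + 3 ≤ n)).trans σ.1.toEmbedding) c3) := by
  rw [WW_apply, emb_pm, fR1 N H, via_via, wn_trans, ← map_inv, ← map_mul, ← map_mul]
  congr 1
  apply conj_via
  intro j
  rfl

lemma fR3 (σ : alternatingGroup (Fin n)) (hσ : ∀ x : Fin n, (x : ℕ) < 3 → σ.1 x = x) (b : SU 3 F q) :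
    α σ * β (emb hF (wn 0 (by omega)) b) = β (emb hF (wn 0 (by omega)) b) * α σ := by
  have h1 : (Subgroup.centralizer {α σ}).comap (β.comp (emb hF (wn 0 (by omega : 0 + 3 ≤ 4)))) = ⊤ := by
    apply N.hD
    · rw [Subgroup.mem_comap, Subgroup.mem_centralizer_singleton_iff, MonoidHom.comp_apply]
      have h2 := fc3 N H 1
      rw [WW_apply, map_one, one_mul, inv_one, mul_one] at h2
      rw [h2, ← map_mul, ← map_mul]
      congr 1
      have h3 : σ * via ((wn 0 (by omega : 0 + 3 ≤ n)).trans (1 : Perm (Fin n)).toEmbedding) c3 * σ⁻¹ =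
        via ((wn 0 (by omega : 0 + 3 ≤ n)).trans (1 : Perm (Fin n)).toEmbedding) c3 := by
        apply conj_via
        intro j
        exact hσ _ (by change 0 + (j : ℕ) < 3; omega)
      exact (mul_inv_eq_iff_eq_mul.1 h3).symm
    · intro b'
      rw [Subgroup.mem_comap, Subgroup.mem_centralizer_singleton_iff, MonoidHom.comp_apply, emb_wn_wn]
      exact (fR2 N H σ (fun x hx => hσ x (by omega)) b').symm
    · intro j
      rw [Subgroup.mem_comap, Subgroup.mem_centralizer_singleton_iff, MonoidHom.comp_apply]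
      symm
      exact comm_of_mem α _ (v := a3) (fun i => H.r3 i j) (N.ha3 σ hσ)
  have h2 := Subgroup.mem_top b
  rw [← h1, Subgroup.mem_comap, Subgroup.mem_centralizer_singleton_iff] at h2
  exact h2.symm

lemma fS2 (s : alternatingGroup (Fin n)) (hs : ∀ x : Fin n, (x : ℕ) < 2 → ((s.1 x : Fin n) : ℕ) = 1 - x) (b : SU 2 F q) :
    α s * β (emb hF (wn 0 (by omega)) b) = β (emb hF (wn 0 (by omega)) (emb hF (sw 2 (by omega)) b)) * α s := by
  let w : alternatingGroup (Fin 4) := ⟨swap 0 1 * swap 2 3, Perm.mem_alternatingGroup.2 (by decide)⟩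
  have hw : ∀ x : Fin 4, (x : ℕ) < 2 → ((w.1 x : Fin 4) : ℕ) = 1 - x := by decide
  have h1 := pm_emb hF w (wn 0 (by omega : 0 + 2 ≤ 4)) b
  have h2 : (wn 0 (by omega : 0 + 2 ≤ 4)).trans w.1.toEmbedding = (sw 2 (by omega)).trans (wn 0 (by omega : 0 + 2 ≤ 4)) := by
    apply emb_ext
    intro j
    fin_cases j <;> rfl
  rw [h2, ← emb_emb] at h1
  have h3 := congrArg β h1
  rw [map_mul, map_mul, fR1 N H] at h3
  set W := via (wn 0 (by omega : 0 + 4 ≤ n)) w with hW
  have h4 := fR2 N H (W⁻¹ * s) (fun x hx => by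
    change (W.1)⁻¹ (s.1 x) = x
    rw [Perm.inv_eq_iff_eq]
    apply Fin.ext
    rw [hs x hx, hW, via_val0 _ _ _ (by omega : (x : ℕ) < 4), hw ⟨x, by omega⟩ hx]) b
  calc α s * β (emb hF (wn 0 (by omega)) b) = α W * (α (W⁻¹ * s) * β (emb hF (wn 0 (by omega)) b)) := by
        rw [map_mul, map_inv]; group
    _ = (α W * β (emb hF (wn 0 (by omega)) b)) * α (W⁻¹ * s) := by rw [h4, mul_assoc]
    _ = _ := by rw [h3, map_mul, map_inv]; group

lemma fS3_c3 (W : alternatingGroup (Fin n))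
    (hWv : ∀ x : Fin n, (x : ℕ) < 3 → ((W.1 x : Fin n) : ℕ) = (if (x : ℕ) = 2 then 2 else 1 - (x : ℕ) : ℕ)) :
    WW hF α β 3 (by omega) W (pm F q c3) = β (emb hF (wn 0 (by omega)) (emb hF (sw 3 (by omega)) (pm F q c3))) := by
  rw [fc3 N H W, emb_pm, emb_pm, fR1 N H, via_via, via_via]
  have h1 : (wn 0 (by omega : 0 + 3 ≤ n)).trans W.1.toEmbedding =
      ((sw 3 (by omega)).trans (wn 0 (by omega : 0 + 3 ≤ 4))).trans (wn 0 (by omega : 0 + 4 ≤ n)) := by
    apply emb_ext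
    intro j
    change ((W.1 (wn 0 (by omega : 0 + 3 ≤ n) j) : Fin n) : ℕ) = 0 + (0 + (sw 3 (by omega) j : ℕ))
    rw [hWv _ (by rw [wn_val]; omega)]
    fin_cases j <;> rfl
  rw [h1]
  rfl

lemma fS3_b (W : alternatingGroup (Fin n))
    (hWv : ∀ x : Fin n, (x : ℕ) < 3 → ((W.1 x : Fin n) : ℕ) = (if (x : ℕ) = 2 then 2 else 1 - (x : ℕ) : ℕ)) (b' : SU 2 F q) :
    WW hF α β 3 (by omega) W (emb hF (wn 0 (by omega)) b') =
      β (emb hF (wn 0 (by omega)) (emb hF (sw 3 (by omega)) (emb hF (wn 0 (by omega)) b'))) := by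
  have h2 := fS2 N H W (fun x hx => by
    rw [hWv x (by omega), if_neg (by omega)]) b'
  rw [WW_apply, mul_inv_eq_iff_eq_mul, emb_wn_wn]
  have h3 : emb hF (wn 0 (by omega : 0 + 3 ≤ 4)) (emb hF (sw 3 (by omega)) (emb hF (wn 0 (by omega)) b')) =
      emb hF (wn 0 (by omega : 0 + 2 ≤ 4)) (emb hF (sw 2 (by omega)) b') := by
    rw [emb_emb, emb_emb, emb_emb]
    have h4 : (wn 0 (by omega : 0 + 2 ≤ 3)).trans ((sw 3 (by omega)).trans (wn 0 (by omega : 0 + 3 ≤ 4))) =
        (sw 2 (by omega)).trans (wn 0 (by omega : 0 + 2 ≤ 4)) := by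
      apply emb_ext
      intro j
      fin_cases j <;> rfl
    rw [h4]
  rw [h3]
  exact h2

lemma fS3_key (b : SU 3 F q) (W : alternatingGroup (Fin n)) (hW : W = via (wn 0 (by omega : 0 + 5 ≤ n)) tau5)
    (hWv : ∀ x : Fin n, (x : ℕ) < 3 → ((W.1 x : Fin n) : ℕ) = (if (x : ℕ) = 2 then 2 else 1 - (x : ℕ) : ℕ)) :
    WW hF α β 3 (by omega) W b = β (emb hF (wn 0 (by omega)) (emb hF (sw 3 (by omega)) b)) := by
  have h1 : MonoidHom.eqLocus (WW hF α β 3 (by omega) W)
      (β.comp ((emb hF (wn 0 (by omega : 0 + 3 ≤ 4))).comp (emb hF (sw 3 (by omega))))) = ⊤ := by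
    apply N.hD
    · exact fS3_c3 N H W hWv
    · exact fS3_b N H W hWv
    · intro j
      have h2 := H.r3s j
      rw [← hW, ← mul_inv_eq_iff_eq_mul] at h2
      exact h2
  have h2 := Subgroup.mem_top b
  rw [← h1] at h2
  exact h2

lemma fS3 (s : alternatingGroup (Fin n))
    (hs : ∀ x : Fin n, (x : ℕ) < 3 → ((s.1 x : Fin n) : ℕ) = (if (x : ℕ) = 2 then 2 else 1 - (x : ℕ) : ℕ)) (b : SU 3 F q) :
    α s * β (emb hF (wn 0 (by omega)) b) = β (emb hF (wn 0 (by omega)) (emb hF (sw 3 (by omega)) b)) * α s := by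
  obtain ⟨W, hW⟩ : ∃ W, W = via (wn 0 (by omega : 0 + 5 ≤ n)) tau5 := ⟨_, rfl⟩
  have hWv : ∀ x : Fin n, (x : ℕ) < 3 → ((W.1 x : Fin n) : ℕ) = (if (x : ℕ) = 2 then 2 else 1 - (x : ℕ) : ℕ) := by
    intro x hx
    rw [hW, via_val0 _ _ _ (by omega : (x : ℕ) < 5)]
    exact tau5_val ⟨x, by omega⟩ hx
  have h3 := fS3_key N H b W hW hWv
  rw [WW_apply, mul_inv_eq_iff_eq_mul] at h3
  have h4 := fR3 N H (W⁻¹ * s) (fun x hx => by
    change (W.1)⁻¹ (s.1 x) = x
    rw [Perm.inv_eq_iff_eq]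
    apply Fin.ext
    rw [hs x hx, hWv x hx]) b
  calc α s * β (emb hF (wn 0 (by omega)) b) = α W * (α (W⁻¹ * s) * β (emb hF (wn 0 (by omega)) b)) := by
        rw [map_mul, map_inv]; group
    _ = (α W * β (emb hF (wn 0 (by omega)) b)) * α (W⁻¹ * s) := by rw [h4, mul_assoc]
    _ = _ := by rw [h3, map_mul, map_inv]; group

lemma fT2 (b : SU 2 F q) (σ : alternatingGroup (Fin n)) (hσ : ∀ x : Fin n, (x : ℕ) < 2 → ((σ.1 x : Fin n) : ℕ) = x + 2) :
    WW hF α β 2 (by omega) σ b = β (emb hF (wn 2 (by omega)) b) := by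
  let w : alternatingGroup (Fin 4) := ⟨swap 0 2 * swap 1 3, Perm.mem_alternatingGroup.2 (by decide)⟩
  have hw : ∀ x : Fin 4, (x : ℕ) < 2 → ((w.1 x : Fin 4) : ℕ) = x + 2 := by decide
  have h1 := pm_emb hF w (wn 0 (by omega : 0 + 2 ≤ 4)) b
  have h2 : (wn 0 (by omega : 0 + 2 ≤ 4)).trans w.1.toEmbedding = wn 2 (by omega : 2 + 2 ≤ 4) := by
    apply emb_ext
    intro j
    fin_cases j <;> rfl
  rw [h2] at h1
  have h3 := congrArg β h1
  rw [map_mul, map_mul, fR1 N H] at h3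
  rw [ag_aux 2 (by omega) (fR2 N H) (σ' := via (wn 0 (by omega : 0 + 4 ≤ n)) w) (fun x hx => by
    apply Fin.ext
    rw [hσ x hx, via_val0 _ _ _ (by omega : (x : ℕ) < 4), hw ⟨x, by omega⟩ hx]) b, WW_apply, mul_inv_eq_iff_eq_mul]
  exact h3

lemma fR5_key (b : SU 2 F q) (a : SU 3 F q) : β (emb hF (wn 0 (by omega)) b) * WW hF α β 3 (by omega) σ5 a =
      WW hF α β 3 (by omega) σ5 a * β (emb hF (wn 0 (by omega)) b) := by
  have h1 : (Subgroup.centralizer {β (emb hF (wn 0 (by omega : 0 + 2 ≤ 4)) b)}).comap (WW hF α β 3 (by omega) σ5) = ⊤ := by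
    apply N.hD
    · rw [Subgroup.mem_comap, Subgroup.mem_centralizer_singleton_iff, fc3 N H]
      apply fR2 N H
      intro x hx
      apply via_apply'
      intro j hj
      have h2 := N.h5' (wn 0 (by omega : 0 + 3 ≤ n) j) (by rw [wn_val]; omega)
      rw [wn_val] at h2
      have h3 := congrArg Fin.val hj
      change ((σ5.1 (wn 0 (by omega : 0 + 3 ≤ n) j) : Fin n) : ℕ) = x at h3
      omega
    · intro b'
      rw [Subgroup.mem_comap, Subgroup.mem_centralizer_singleton_iff]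
      have h2 : WW hF α β 3 (by omega) σ5 (emb hF (wn 0 (by omega : 0 + 2 ≤ 3)) b') = WW hF α β 2 (by omega) σ5 b' := by
        rw [WW_apply, WW_apply, emb_wn_wn]
      rw [h2, fT2 N H b' σ5 (fun x hx => N.h5' x (by omega)), ← map_mul, ← map_mul]
      congr 1
      apply emb_commute
      intro i j hij
      have h3 := congrArg Fin.val hij
      rw [wn_val, wn_val] at h3
      omega
    · intro j
      rw [Subgroup.mem_comap, Subgroup.mem_centralizer_singleton_iff]
      symm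
      exact comm_of_gen N.hu (β.comp (emb hF (wn 0 (by omega : 0 + 2 ≤ 4)))) _ (fun i => H.r5 i j) b
  have h2 := Subgroup.mem_top a
  rw [← h1, Subgroup.mem_comap, Subgroup.mem_centralizer_singleton_iff] at h2
  exact h2.symm

lemma full0 : Full0 hF h5 α β where
  R1 := fR1 N H
  R2 := fR2 N H
  R3 := fR3 N H
  S2 := fS2 N H
  S3 := fS3 N H
  R5 := by
    intro σ hσ b a
    rw [ag_aux 3 (by omega) (fR3 N H) (σ' := σ5) (fun x hx => by
      apply Fin.ext
      rw [hσ x hx, N.h5' x hx])]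
    exact fR5_key N H b a

lemma fR6_key (h6 : 6 ≤ n) (b a : SU 3 F q) : β (emb hF (wn 0 (by omega)) b) * WW hF α β 3 (by omega) σ6 a =
      WW hF α β 3 (by omega) σ6 a * β (emb hF (wn 0 (by omega)) b) := by
  have H0 := full0 N H
  have h6' := N.h6' h6
  -- first the generators `D j`
  have hDj : ∀ (j : Fin 2) (b : SU 3 F q), β (emb hF (wn 0 (by omega)) b) * WW hF α β 3 (by omega) σ6 (D j) =
      WW hF α β 3 (by omega) σ6 (D j) * β (emb hF (wn 0 (by omega)) b) := by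
    intro j b
    have h1 : (Subgroup.centralizer {WW hF α β 3 (by omega) σ6 (D j)}).comap
        (β.comp (emb hF (wn 0 (by omega : 0 + 3 ≤ 4)))) = ⊤ := by
      apply N.hD
      · rw [Subgroup.mem_comap, Subgroup.mem_centralizer_singleton_iff, MonoidHom.comp_apply]
        have h2 := fc3 N H 1
        rw [WW_apply, map_one, one_mul, inv_one, mul_one] at h2
        obtain ⟨π, hπ⟩ : ∃ π, π = via ((wn 0 (by omega : 0 + 3 ≤ n)).trans (1 : Perm (Fin n)).toEmbedding) c3 := ⟨_, rfl⟩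
        have h2' : β (emb hF (wn 0 (by omega)) (pm F q c3)) = α π := by rw [h2, hπ]; rfl
        rw [h2']
        have h3 := fR3 N H (σ6⁻¹ * π * σ6) (fun x hx => by
          change (σ6.1)⁻¹ (π.1 (σ6.1 x)) = x
          rw [Perm.inv_eq_iff_eq, hπ]
          apply via_apply'
          intro i hi
          have h4 := h6' x hx
          have h5' := congrArg Fin.val hi
          change 0 + (i : ℕ) = _ at h5'
          omega) (D j)
        rw [WW_apply]
        rw [map_mul, map_mul, map_inv] at h3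
        symm
        calc α σ6 * β (emb hF (wn 0 _) (D j)) * (α σ6)⁻¹ * α π
            = α σ6 * (β (emb hF (wn 0 (by omega)) (D j)) * ((α σ6)⁻¹ * α π * α σ6)) * (α σ6)⁻¹ := by group
          _ = _ := by rw [← h3]; group
      · intro b'
        rw [Subgroup.mem_comap, Subgroup.mem_centralizer_singleton_iff, MonoidHom.comp_apply, emb_wn_wn]
        have h2 := H0.F3 1 σ6 (fun x y hx hy hxy => by
          have h3 := congrArg Fin.val hxy
          rw [h6' y hy] at h3
          change (x : ℕ) = _ at h3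
          omega) b' (D j)
        rw [WW_apply hF α β 2, map_one, one_mul, inv_one, mul_one] at h2
        exact h2
      · intro i
        rw [Subgroup.mem_comap, Subgroup.mem_centralizer_singleton_iff, MonoidHom.comp_apply]
        exact H.r6 h6 i j
    have h2 := Subgroup.mem_top b
    rw [← h1, Subgroup.mem_comap, Subgroup.mem_centralizer_singleton_iff] at h2
    exact h2
  have h1 : (Subgroup.centralizer {β (emb hF (wn 0 (by omega : 0 + 3 ≤ 4)) b)}).comap (WW hF α β 3 (by omega) σ6) = ⊤ := by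
    apply N.hD
    · rw [Subgroup.mem_comap, Subgroup.mem_centralizer_singleton_iff, fc3 N H]
      apply fR3 N H
      intro x hx
      apply via_apply'
      intro j hj
      have h2 := h6' (wn 0 (by omega : 0 + 3 ≤ n) j) (by rw [wn_val]; omega)
      rw [wn_val] at h2
      have h3 := congrArg Fin.val hj
      change ((σ6.1 (wn 0 (by omega : 0 + 3 ≤ n) j) : Fin n) : ℕ) = x at h3
      omega
    · intro b'
      rw [Subgroup.mem_comap, Subgroup.mem_centralizer_singleton_iff]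
      have h2 : WW hF α β 3 (by omega) σ6 (emb hF (wn 0 (by omega : 0 + 2 ≤ 3)) b') = WW hF α β 2 (by omega) σ6 b' := by
        rw [WW_apply, WW_apply, emb_wn_wn]
      rw [h2]
      have h3 := H0.F3 σ6 1 (fun x y hx hy hxy => by
          have h3 := congrArg Fin.val hxy
          rw [h6' x (by omega)] at h3
          change _ = (y : ℕ) at h3
          omega) b' b
      rw [WW_apply hF α β 3 _ 1, map_one, one_mul, inv_one, mul_one] at h3
      exact h3
    · intro j
      rw [Subgroup.mem_comap, Subgroup.mem_centralizer_singleton_iff]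
      exact (hDj j b).symm
  have h2 := Subgroup.mem_top a
  rw [← h1, Subgroup.mem_comap, Subgroup.mem_centralizer_singleton_iff] at h2
  exact h2.symm

lemma full : Full hF h5 α β where
  toFull0 := full0 N H
  R6 := by
    intro σ h6 hσ b a
    rw [ag_aux 3 (by omega) (fR3 N H) (σ' := σ6) (fun x hx => by
      apply Fin.ext
      rw [hσ x hx, N.h6' h6 x hx])]
    exact fR6_key N H h6 b a

end

end

end H6.Up
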