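import Cfsg.Agent.Lib.H6.UpN
import Cfsg.Agent.Lib.H6.UpH

/-!
Presentations of special unitary groups, part O: the presentation of `SU_n(q)`, `n ≥ 5`.
-/

set_option autoImplicit false

namespace H6.Up

open Matrix Cfsg H60.Ph Equiv H16.Herm H6.SpPres Monoid H43.Tietze

section
variable {F : Type*} [Field F] [Fintype F] {q n : ℕ} (hF : Fintype.card F = q ^ 2) (h5 : 5 ≤ n)

lemma trans_of_val {m : ℕ} (i : ℕ) (hm : 0 + m ≤ n) (hi : i + m ≤ n) (σ : alternatingGroup (Fin n))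
    (h : ∀ x : Fin n, (x : ℕ) < m → ((σ.1 x : Fin n) : ℕ) = x + i) :
    (wn 0 hm).trans σ.1.toEmbedding = wn i hi := by
  apply emb_ext
  intro j
  change ((σ.1 (wn 0 hm j) : Fin n) : ℕ) = _
  rw [h _ (by rw [wn_val]; omega), wn_val, wn_val]; omega

lemma conc_WW (m : ℕ) (hm : 0 + m ≤ 4) (σ : alternatingGroup (Fin n)) (a : SU m F q) :
    WW hF (pm F q) (emb hF (wn 0 (by omega : 0 + 4 ≤ n))) m hm σ a =
      emb hF ((wn 0 (by omega : 0 + m ≤ n)).trans σ.1.toEmbedding) a := by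
  rw [WW_apply, mul_inv_eq_iff_eq_mul, emb_wn_wn]
  exact pm_emb hF σ _ a

/-- all relations hold in the special unitary group -/
lemma full_conc : Full hF h5 (pm F q) (emb hF (wn 0 (by omega : 0 + 4 ≤ n))) where
  R1 π := emb_pm hF _ π
  R2 σ hσ b := by
    rw [emb_wn_wn]
    have h1 := pm_emb hF σ (wn (0 + 0) (by omega : 0 + 0 + 2 ≤ n)) b
    rw [trans_of_val 0 (by omega : 0 + 2 ≤ n) (by omega) σ (fun x hx => by rw [hσ x hx]; rfl)] at h1
    exact h1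
  R3 σ hσ b := by
    rw [emb_wn_wn]
    have h1 := pm_emb hF σ (wn (0 + 0) (by omega : 0 + 0 + 3 ≤ n)) b
    rw [trans_of_val 0 (by omega : 0 + 3 ≤ n) (by omega) σ (fun x hx => by rw [hσ x hx]; rfl)] at h1
    exact h1
  S2 s hs b := by
    rw [emb_wn_wn]
    have h1 := pm_emb hF s (wn 0 (by omega : 0 + 2 ≤ n)) b
    have h2 : (wn 0 (by omega : 0 + 2 ≤ n)).trans s.1.toEmbedding = (sw 2 (by omega)).trans (wn 0 (by omega : 0 + 2 ≤ n)) := by
      apply emb_ext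
      intro j
      change ((s.1 (wn 0 (by omega : 0 + 2 ≤ n) j) : Fin n) : ℕ) = 0 + (sw 2 (by omega) j : ℕ)
      rw [hs _ (by rw [wn_val]; omega)]
      fin_cases j <;> rfl
    rw [h2, ← emb_emb] at h1
    rw [emb_wn_wn]
    exact h1
  S3 s hs b := by
    rw [emb_wn_wn]
    have h1 := pm_emb hF s (wn 0 (by omega : 0 + 3 ≤ n)) b
    have h2 : (wn 0 (by omega : 0 + 3 ≤ n)).trans s.1.toEmbedding = (sw 3 (by omega)).trans (wn 0 (by omega : 0 + 3 ≤ n)) := by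
      apply emb_ext
      intro j
      change ((s.1 (wn 0 (by omega : 0 + 3 ≤ n) j) : Fin n) : ℕ) = 0 + (sw 3 (by omega) j : ℕ)
      rw [hs _ (by rw [wn_val]; omega)]
      fin_cases j <;> rfl
    rw [h2, ← emb_emb] at h1
    rw [emb_wn_wn]
    exact h1
  R5 σ hσ b a := by
    rw [conc_WW hF h5, emb_wn_wn]
    apply emb_commute
    intro i j hij
    have h1 := congrArg Fin.val hij
    change 0 + 0 + (i : ℕ) = ((σ.1 (wn 0 (by omega : 0 + 3 ≤ n) j) : Fin n) : ℕ) at h1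
    have h2 := hσ (wn 0 (by omega : 0 + 3 ≤ n) j) (by rw [wn_val]; omega)
    rw [wn_val] at h2
    omega
  R6 σ h6 hσ b a := by
    rw [conc_WW hF h5, emb_wn_wn]
    apply emb_commute
    intro i j hij
    have h1 := congrArg Fin.val hij
    change 0 + 0 + (i : ℕ) = ((σ.1 (wn 0 (by omega : 0 + 3 ≤ n) j) : Fin n) : ℕ) at h1
    have h2 := hσ (wn 0 (by omega : 0 + 3 ≤ n) j) (by rw [wn_val]; omega)
    rw [wn_val] at h2
    omega

lemma gen_conc : Subgroup.closure (((pm F q : alternatingGroup (Fin n) →* SU n F q).range : Set (SU n F q)) ∪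
    ((emb hF (wn 0 (by omega : 0 + 4 ≤ n))).range : Set (SU n F q))) = ⊤ := by
  apply gen_win hF (by omega : 3 ≤ n)
  intro i hi a
  obtain ⟨ρ, hρ⟩ := exists_alt (m := 3) (by omega) (wn 0 (by omega : 0 + 3 ≤ n)) (wn i hi)
  have h1 := pm_emb hF ρ (wn 0 (by omega : 0 + 3 ≤ n)) a
  have h2 : (wn 0 (by omega : 0 + 3 ≤ n)).trans ρ.1.toEmbedding = wn i hi := by
    apply emb_ext
    intro j
    exact congrArg Fin.val (hρ j)
  rw [h2, ← mul_inv_eq_iff_eq_mul] at h1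
  rw [← h1]
  have h3 : emb hF (wn 0 (by omega : 0 + 3 ≤ n)) a = emb hF (wn 0 (by omega : 0 + 4 ≤ n)) (emb hF (wn 0 (by omega : 0 + 3 ≤ 4)) a) := by
    rw [emb_wn_wn]
  rw [h3]
  have e1 : pm F q ρ ∈ Subgroup.closure (((pm F q : alternatingGroup (Fin n) →* SU n F q).range : Set (SU n F q)) ∪
    ((emb hF (wn 0 (by omega : 0 + 4 ≤ n))).range : Set (SU n F q))) := Subgroup.subset_closure (Or.inl ⟨ρ, rfl⟩)
  exact mul_mem (mul_mem e1 (Subgroup.subset_closure (Or.inr ⟨_, rfl⟩))) (inv_mem e1)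

end

section rels
variable {F : Type*} [Field F] [Fintype F] {q n : ℕ} (hF : Fintype.card F = q ^ 2) (h5 : 5 ≤ n)
variable {G G' : Type*} [Group G] [Group G'] (f : G →* G') (α : alternatingGroup (Fin n) →* G) (β : SU 4 F q →* G)
variable (g4 : Fin 2 → alternatingGroup (Fin 4)) (a2 a3 : Fin 3 → alternatingGroup (Fin n))
    (u : Fin 3 → SU 2 F q) (D : Fin 2 → SU 3 F q) (σ5 σ6 : alternatingGroup (Fin n))

lemma WW_comp (m : ℕ) (hm : 0 + m ≤ 4) (σ : alternatingGroup (Fin n)) (a : SU m F q) :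
    WW hF (f.comp α) (f.comp β) m hm σ a = f (WW hF α β m hm σ a) := by
  rw [WW_apply, WW_apply, map_mul, map_mul, map_inv]; rfl

/-- index set of the relations -/
abbrev J5 := Fin 2 ⊕ (Fin 3 × Fin 3) ⊕ (Fin 3 × Fin 2) ⊕ Fin 2 ⊕ (Fin 3 × Fin 2) ⊕ (Fin 2 × Fin 2)

/-- left sides -/
noncomputable def rl5 : J5 → G
  | .inl i => β (pm F q (g4 i))
  | .inr (.inl (i, j)) => α (a2 i) * β (emb hF (wn 0 (by omega)) (u j))
  | .inr (.inr (.inl (i, j))) => α (a3 i) * β (emb hF (wn 0 (by omega)) (D j))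
  | .inr (.inr (.inr (.inl j))) => α (via (wn 0 (by omega : 0 + 5 ≤ n)) tau5) * β (emb hF (wn 0 (by omega)) (D j))
  | .inr (.inr (.inr (.inr (.inl (i, j))))) => β (emb hF (wn 0 (by omega)) (u i)) * WW hF α β 3 (by omega) σ5 (D j)
  | .inr (.inr (.inr (.inr (.inr (i, j))))) =>
      if 6 ≤ n then β (emb hF (wn 0 (by omega)) (D i)) * WW hF α β 3 (by omega) σ6 (D j) else 1

/-- right sides -/
noncomputable def rr5 : J5 → G
  | .inl i => α (via (wn 0 (by omega)) (g4 i))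
  | .inr (.inl (i, j)) => β (emb hF (wn 0 (by omega)) (u j)) * α (a2 i)
  | .inr (.inr (.inl (i, j))) => β (emb hF (wn 0 (by omega)) (D j)) * α (a3 i)
  | .inr (.inr (.inr (.inl j))) =>
      β (emb hF (wn 0 (by omega)) (emb hF (sw 3 (by omega)) (D j))) * α (via (wn 0 (by omega : 0 + 5 ≤ n)) tau5)
  | .inr (.inr (.inr (.inr (.inl (i, j))))) => WW hF α β 3 (by omega) σ5 (D j) * β (emb hF (wn 0 (by omega)) (u i))
  | .inr (.inr (.inr (.inr (.inr (i, j))))) =>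
      if 6 ≤ n then WW hF α β 3 (by omega) σ6 (D j) * β (emb hF (wn 0 (by omega)) (D i)) else 1

lemma rl5_comp (j : J5) : rl5 hF h5 (f.comp α) (f.comp β) g4 a2 a3 u D σ5 σ6 j =
    f (rl5 hF h5 α β g4 a2 a3 u D σ5 σ6 j) := by
  rcases j with i | ⟨i, j⟩ | ⟨i, j⟩ | j | ⟨i, j⟩ | ⟨i, j⟩
  · rfl
  · change _ = f (α (a2 i) * β (emb hF (wn 0 _) (u j))); rw [map_mul]; rfl
  · change _ = f (α (a3 i) * β (emb hF (wn 0 _) (D j))); rw [map_mul]; rfl
  · change _ = f (α (via (wn 0 _) tau5) * β (emb hF (wn 0 _) (D j))); rw [map_mul]; rfl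
  · change _ = f (β (emb hF (wn 0 _) (u i)) * WW hF α β 3 _ σ5 (D j)); rw [map_mul, ← WW_comp]; rfl
  · change (if 6 ≤ n then _ else _) = f (if 6 ≤ n then β (emb hF (wn 0 _) (D i)) * WW hF α β 3 _ σ6 (D j) else 1)
    by_cases h : 6 ≤ n
    · rw [if_pos h, if_pos h, map_mul, ← WW_comp]; rfl
    · rw [if_neg h, if_neg h, map_one]

lemma rr5_comp (j : J5) : rr5 hF h5 (f.comp α) (f.comp β) g4 a2 a3 u D σ5 σ6 j =
    f (rr5 hF h5 α β g4 a2 a3 u D σ5 σ6 j) := by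
  rcases j with i | ⟨i, j⟩ | ⟨i, j⟩ | j | ⟨i, j⟩ | ⟨i, j⟩
  · rfl
  · change _ = f (β (emb hF (wn 0 _) (u j)) * α (a2 i)); rw [map_mul]; rfl
  · change _ = f (β (emb hF (wn 0 _) (D j)) * α (a3 i)); rw [map_mul]; rfl
  · change _ = f (β (emb hF (wn 0 _) (emb hF (sw 3 _) (D j))) * α (via (wn 0 _) tau5)); rw [map_mul]; rfl
  · change _ = f (WW hF α β 3 _ σ5 (D j) * β (emb hF (wn 0 _) (u i))); rw [map_mul, ← WW_comp]; rfl
  · change (if 6 ≤ n then _ else _) = f (if 6 ≤ n then WW hF α β 3 _ σ6 (D j) * β (emb hF (wn 0 _) (D i)) else 1)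
    by_cases h : 6 ≤ n
    · rw [if_pos h, if_pos h, map_mul, ← WW_comp]; rfl
    · rw [if_neg h, if_neg h, map_one]

lemma finR_iff : FinR hF h5 α β g4 a2 a3 u D σ5 σ6 ↔
    ∀ j, rl5 hF h5 α β g4 a2 a3 u D σ5 σ6 j = rr5 hF h5 α β g4 a2 a3 u D σ5 σ6 j := by
  constructor
  · intro H j
    rcases j with i | ⟨i, j⟩ | ⟨i, j⟩ | j | ⟨i, j⟩ | ⟨i, j⟩
    · exact H.r1 i
    · exact H.r2 i j
    · exact H.r3 i j
    · exact H.r3s j
    · exact H.r5 i j
    · change (if 6 ≤ n then _ else _) = (if 6 ≤ n then _ else _)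
      by_cases h : 6 ≤ n
      · rw [if_pos h, if_pos h]
        exact H.r6 h i j
      · rw [if_neg h, if_neg h]
  · intro H
    exact ⟨fun i => H (.inl i), fun i j => H (.inr (.inl (i, j))), fun i j => H (.inr (.inr (.inl (i, j)))),
      fun j => H (.inr (.inr (.inr (.inl j)))), fun i j => H (.inr (.inr (.inr (.inr (.inl (i, j)))))), by
        intro h i j
        have := H (.inr (.inr (.inr (.inr (.inr (i, j))))))
        change (if 6 ≤ n then _ else _) = (if 6 ≤ n then _ else _) at this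
        rw [if_pos h, if_pos h] at this
        exact this⟩

lemma exists_s5 (h5 : 5 ≤ n) : ∃ σ5 : alternatingGroup (Fin n), ∀ x : Fin n, (x : ℕ) < 3 → ((σ5.1 x : Fin n) : ℕ) = x + 2 := by
  obtain ⟨σ5, h⟩ := exists_alt (m := 3) (by omega) (wn 0 (by omega)) (wn 2 (by omega : 2 + 3 ≤ n))
  refine ⟨σ5, fun x hx => ?_⟩
  have h1 := h ⟨x, hx⟩
  have h2 : wn 0 (by omega : 0 + 3 ≤ n) ⟨x, hx⟩ = x := Fin.ext (by rw [wn_val]; simp)
  rw [h2] at h1
  rw [h1, wn_val, add_comm]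

lemma exists_s6 : ∃ σ6 : alternatingGroup (Fin n), 6 ≤ n → ∀ x : Fin n, (x : ℕ) < 3 → ((σ6.1 x : Fin n) : ℕ) = x + 3 := by
  by_cases h6 : 6 ≤ n
  · obtain ⟨σ5, h⟩ := exists_alt (m := 3) (by omega) (wn 0 (by omega)) (wn 3 (by omega : 3 + 3 ≤ n))
    refine ⟨σ5, fun _ x hx => ?_⟩
    have h1 := h ⟨x, hx⟩
    have h2 : wn 0 (by omega : 0 + 3 ≤ n) ⟨x, hx⟩ = x := Fin.ext (by rw [wn_val]; simp)
    rw [h2] at h1
    rw [h1, wn_val, add_comm]
  · exact ⟨1, fun h => absurd h h6⟩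

include hF in
theorem pres_big (h5 : 5 ≤ n) : HasPres (Cfsg.SU n F q) 9 76 := by
  obtain ⟨g4, R4, -, -, hg4⟩ := (H43.AltPres.pres_A4).exists
  obtain ⟨a2, ha2, ha2'⟩ := stab_gen3 n 2
  obtain ⟨a3, ha3, ha3'⟩ := stab_gen3 n 3
  obtain ⟨u, hu⟩ := su2_gen3 hF
  obtain ⟨D, hD⟩ := su3_gen hF
  obtain ⟨σ5, hσ5⟩ := exists_s5 h5
  obtain ⟨σ6, hσ6⟩ := exists_s6 (n := n)
  have N : Gens hF h5 g4 a2 a3 u D σ5 σ6 := ⟨hg4.gen, ha2', ha3', hu, hD, hσ5, hσ6⟩
  have HC := full_conc hF h5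
  have HF : FinR hF h5 (pm F q) (emb hF (wn 0 (by omega : 0 + 4 ≤ n))) g4 a2 a3 u D σ5 σ6 := {
    r1 := fun i => HC.R1 _
    r2 := fun i j => HC.R2 _ (ha2 i) _
    r3 := fun i j => HC.R3 _ (ha3 i) _
    r3s := fun j => HC.S3 _ (fun x hx => by
      rw [via_val0 _ _ _ (by omega : (x : ℕ) < 5)]
      exact tau5_val ⟨x, by omega⟩ hx) _
    r5 := fun i j => HC.R5 _ hσ5 _ _
    r6 := fun h6 i j => HC.R6 _ h6 (hσ6 h6) _ _ }
  let sA : alternatingGroup (Fin n) →* Coprod (alternatingGroup (Fin n)) (SU 4 F q) := Coprod.inl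
  let sB : SU 4 F q →* Coprod (alternatingGroup (Fin n)) (SU 4 F q) := Coprod.inr
  have := assemble2 (H43.AltPres.pres_An h5) (pres_SU4 hF) (pm F q) (emb hF (wn 0 (by omega : 0 + 4 ≤ n)))
    (fun j => rl5 hF h5 sA sB g4 a2 a3 u D σ5 σ6 j * (rr5 hF h5 sA sB g4 a2 a3 u D σ5 σ6 j)⁻¹) (gen_conc hF h5) (by
      intro j
      have h1 : (Coprod.lift (pm F q) (emb hF (wn 0 (by omega : 0 + 4 ≤ n)))).comp sA = pm F q := Coprod.lift_comp_inl _ _
      have h2 : (Coprod.lift (pm F q) (emb hF (wn 0 (by omega : 0 + 4 ≤ n)))).comp sB = emb hF (wn 0 (by omega : 0 + 4 ≤ n)) :=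
        Coprod.lift_comp_inr _ _
      rw [map_mul, map_inv, mul_inv_eq_one, ← rl5_comp, ← rr5_comp, h1, h2]
      exact (finR_iff hF h5 _ _ g4 a2 a3 u D σ5 σ6).1 HF j) (by
      intro G _ s l h
      have H : FinR hF h5 s l g4 a2 a3 u D σ5 σ6 := by
        rw [finR_iff]
        intro j
        have h0 := h j
        have h1 : (Coprod.lift s l).comp sA = s := Coprod.lift_comp_inl _ _
        have h2 : (Coprod.lift s l).comp sB = l := Coprod.lift_comp_inr _ _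
        rw [map_mul, map_inv, mul_inv_eq_one, ← rl5_comp, ← rr5_comp, h1, h2] at h0
        exact h0
      obtain ⟨φ, h1, h2⟩ := (full N H).exists_hom
      exact ⟨φ, h2, h1⟩)
  exact this.mono (by simp)

end rels

end H6.Up
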